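import Cfsg.Statements.S3909
import Cfsg.Agent.FGS2.Basic

set_option autoImplicit false
open Cfsg

namespace Cfsg.Agent.S3909

/-- Let G be a finite group in which any two abelian subgroups of the same order are conjugate. Let M be a normal subgroup of G. If M contains an element of the same order as a ∈ G, then a ∈ M; and if M is elementary abelian of order p^t with p prime and t ≥ 2, then M is the unique Sylow p-subgroup of G. -/
theorem result {G : Type*} [Group G] [Finite G] (hB : ∀ A B : Subgroup G, IsMulCommutative ↥A → IsMulCommutative ↥B → Nat.card ↥A = Nat.card ↥B → ∃ g : G, B = A.map (MulAut.conj g).toMonoidHom) (M : Subgroup G) [M.Normal] :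
    (∀ a : G, (∃ m ∈ M, orderOf m = orderOf a) → a ∈ M) ∧
    ∀ (p t : ℕ) [Fact p.Prime], 2 ≤ t → Nat.card ↥M = p ^ t → Cfsg.IsElementaryAbelian p M → ∀ P : Sylow p G, (P : Subgroup G) = M := by
  have key : ∀ a : G, (∃ m ∈ M, orderOf m = orderOf a) → a ∈ M := by
    rintro a ⟨m, hm, hord⟩
    obtain ⟨g, hg⟩ := hB (Subgroup.zpowers m) (Subgroup.zpowers a) inferInstance inferInstance
      (by rw [Nat.card_zpowers, Nat.card_zpowers, hord])
    exact Cfsg.Agent.FGS2.map_conj_le_of_normal M g (Subgroup.zpowers_le.2 hm)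
      (hg ▸ Subgroup.mem_zpowers a)
  refine ⟨key, fun p t _ ht hcard hel P => ?_⟩
  have hpM : IsPGroup p ↥M := IsPGroup.of_card hcard
  refine le_antisymm (fun x hx => ?_) (hpM.le_sylow_of_normal P)
  by_cases hx1 : x = 1
  · exact hx1 ▸ M.one_mem
  obtain ⟨k, hk⟩ := IsPGroup.iff_orderOf.1 P.isPGroup' ⟨x, hx⟩
  rw [Subgroup.orderOf_mk] at hk
  have hp : p.Prime := Fact.out
  match k, hk with
  | 0, hk => exact absurd (orderOf_eq_one_iff.1 (by simpa using hk)) hx1
  | 1, hk =>
    have hdvd : p ∣ Nat.card ↥M := hcard ▸ dvd_pow_self p (by omega)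
    obtain ⟨m, hm⟩ := exists_prime_orderOf_dvd_card' p hdvd
    exact key x ⟨m, m.2, by rw [Subgroup.orderOf_coe, hm, hk, pow_one]⟩
  | j + 2, hk =>
    exfalso
    have hy : orderOf (x ^ (p ^ j)) = p ^ 2 := by
      rw [orderOf_pow' _ (pow_ne_zero _ hp.ne_zero), hk, pow_add,
        Nat.gcd_eq_right (dvd_mul_right _ _), Nat.mul_div_cancel_left _ (pow_pos hp.pos _)]
    obtain ⟨E, hE⟩ := Sylow.exists_subgroup_card_pow_prime p (G := ↥M) (n := 2) (hcard ▸ pow_dvd_pow p ht)
    have hM : IsMulCommutative ↥M := hel.1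
    have hEc : IsMulCommutative ↥(E.map M.subtype) :=
      ⟨⟨fun a b => Subtype.ext (by
        obtain ⟨a', _, ha⟩ := a.2; obtain ⟨b', _, hb⟩ := b.2
        simp only [Subgroup.coe_mul, ← ha, ← hb]
        exact congrArg Subtype.val (hM.is_comm.comm a' b'))⟩⟩
    obtain ⟨g, hg⟩ := hB (E.map M.subtype) (Subgroup.zpowers (x ^ (p ^ j))) hEc inferInstance
      (by rw [Subgroup.card_map_of_injective M.subtype_injective, Nat.card_zpowers, hy, hE])
    have hmem : x ^ (p ^ j) ∈ M :=
      Cfsg.Agent.FGS2.map_conj_le_of_normal M g (Subgroup.map_subtype_le E) (hg ▸ Subgroup.mem_zpowers _)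
    have hdvd := orderOf_dvd_of_pow_eq_one (hel.2 _ hmem)
    rw [hy] at hdvd
    have := Nat.le_of_dvd hp.pos hdvd
    nlinarith [hp.two_le]

end Cfsg.Agent.S3909
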