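import Cfsg.Statements.S3911
import Cfsg.Agent.FGS2.AbelianLift
-- import your own Cfsg.Agent.* helpers here

set_option autoImplicit false
open Cfsg

namespace Cfsg.Agent.S3911

open Cfsg.Agent

/-- Let G be a finite group in which any two abelian subgroups of the same order are conjugate. If M is a normal subgroup of G of odd order, then any two abelian subgroups of G/M of the same order are conjugate in G/M. -/
theorem result {G : Type*} [Group G] [Finite G] (hB : ∀ A B : Subgroup G, IsMulCommutative ↥A → IsMulCommutative ↥B → Nat.card ↥A = Nat.card ↥B → ∃ g : G, B = A.map (MulAut.conj g).toMonoidHom) (M : Subgroup G) [M.Normal] (hM : Odd (Nat.card ↥M)) :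
    ∀ A B : Subgroup (G ⧸ M), IsMulCommutative ↥A → IsMulCommutative ↥B → Nat.card ↥A = Nat.card ↥B →
      ∃ g : G ⧸ M, B = A.map (MulAut.conj g).toMonoidHom := by
  intro A B hA hBc hcard
  obtain ⟨LA, hLA, hLAc, hvA⟩ := FGS2.exists_abelian_lift hB M hM A hA
  obtain ⟨LB, hLB, hLBc, hvB⟩ := FGS2.exists_abelian_lift hB M hM B hBc
  have hc : Nat.card LA = Nat.card LB := by
    refine Nat.eq_of_factorization_eq Nat.card_pos.ne' Nat.card_pos.ne' fun p => ?_
    by_cases hp : p.Prime
    · rw [Nat.factorization_def _ hp, Nat.factorization_def _ hp, hvA p hp, hvB p hp, hcard]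
    · rw [Nat.factorization_eq_zero_of_not_prime _ hp, Nat.factorization_eq_zero_of_not_prime _ hp]
  obtain ⟨g, hg⟩ := hB LA LB hLAc hLBc hc
  refine ⟨QuotientGroup.mk' M g, ?_⟩
  rw [← hLA, ← hLB, hg, Subgroup.map_map, Subgroup.map_map]
  congr 1

end Cfsg.Agent.S3911
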