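import Cfsg.Statements.S4637
import Cfsg.Agent.BlockChar.AbelianContrib
import Cfsg.Agent.BlockChar.RankBounds

set_option autoImplicit false
open Cfsg Cfsg.Agent Cfsg.Agent.BlockChar

namespace Cfsg.Agent.S4637

/-- Let B be a block of the finite group G relative to a maximal ideal M of the algebraic integers containing 2, with a Klein four defect group P. Let c be a block of C_G(P) inducing B, T the stabilizer of c in N_G(P) and e the index of C_G(P) in T (the inertial index). Then e is 1 or 3, B contains exactly four irreducible characters, and the 2-regular rank of B (its number of irreducible Brauer characters) equals e. -/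
theorem result {G : Type*} [Group G] [Finite G] (M : Ideal Cfsg.AlgInt) (hM : Cfsg.IsPModular 2 M) (B : Set (Cfsg.IrrCharacter G)) (hB : Cfsg.IsPBlock M B) (P : Subgroup G) (hPD : Cfsg.IsDefectGroup 2 M B P) (hV : IsKleinFour P) (c : Set (Cfsg.IrrCharacter (Subgroup.centralizer (P : Set G)))) (hc : Cfsg.IsInducedBlock M (Subgroup.centralizer (P : Set G)) c B) (T : Subgroup G) (hT : ∀ g : G, g ∈ T ↔ (g ∈ Subgroup.normalizer (P : Set G) ∧ Cfsg.StabilizesBlock (Subgroup.centralizer (P : Set G)) c g)) (e : ℕ) (he : (Subgroup.centralizer (P : Set G)).relIndex T = e) : (e = 1 ∨ e = 3) ∧ Nat.card B = 4 ∧ Cfsg.blockRank 2 B = e := by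
  classical
  haveI := hM.2.1
  haveI := Fintype.ofFinite G
  haveI : Fact (Nat.Prime 2) := ⟨Nat.prime_two⟩
  haveI := charP_res (p := 2) hM.2.2
  have hpM := hM.2.2
  have hcard : Nat.card P = 4 := hV.card_four
  have hsq : ∀ x ∈ P, x * x = 1 := fun x hx => by
    have h := Monoid.pow_exponent_eq_one (⟨x, hx⟩ : P)
    rw [hV.exponent_two, pow_two] at h
    exact congrArg Subtype.val h
  have hab : ∀ x ∈ P, ∀ y ∈ P, x * y = y * x := fun x hx y hy => by
    have h1 := hsq _ (P.mul_mem hx hy)
    calc x * y = x * (x * y * (x * y)) * y := by rw [h1]; group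
      _ = (x * x) * y * x * (y * y) := by group
      _ = y * x := by rw [hsq x hx, hsq y hy]; group
  have hPC : P ≤ Subgroup.centralizer (P : Set G) := fun x hx =>
    Subgroup.mem_centralizer_iff.mpr fun y hy => hab y hy x hx
  obtain ⟨hmax, ho⟩ := maxPair_of_induced hpM hPD hPC hc
  have hTeq : T = stab P (idemS M c) := eq_stab hpM hc.1 hT
  have hthree : ∀ v ∈ P, v ≠ 1 → ∀ x ∈ P, x ≠ 1 → x ≠ v → ∀ y ∈ P, y = 1 ∨ y = v ∨ y = x ∨ y = v * x := by
    intro v hv hv1 x hx hx1 hxv y hy
    have hS : ({1, v, x, v * x} : Finset G) ⊆ (P : Set G).toFinset := by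
      intro z hz
      simp only [Finset.mem_insert, Finset.mem_singleton] at hz
      rw [Set.mem_toFinset]
      rcases hz with rfl | rfl | rfl | rfl
      exacts [one_mem P, hv, hx, P.mul_mem hv hx]
    have hc4 : ({1, v, x, v * x} : Finset G).card = 4 := by
      have e1 : v * x ≠ 1 := fun h => hxv (by
        calc x = v * v * x := by rw [hsq v hv, one_mul]
          _ = v := by rw [mul_assoc, h, mul_one])
      have e2 : v * x ≠ v := fun h => hx1 (mul_left_cancel (h.trans (mul_one v).symm))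
      have e3 : v * x ≠ x := fun h => hv1 (mul_right_cancel (h.trans (one_mul x).symm))
      simp [hv1.symm, hx1.symm, hxv.symm, e1.symm, e2.symm, e3.symm]
    have heq := Finset.eq_of_subset_of_card_le hS (by
      rw [hc4, Set.toFinset_card, ← Nat.card_eq_fintype_card]; exact hcard.le)
    have : y ∈ ({1, v, x, v * x} : Finset G) := by rw [heq, Set.mem_toFinset]; exact hy
    simpa using this
  have hfree : ∀ t ∈ stab P (idemS M c), ∀ v ∈ P, v ≠ 1 → t * v * t⁻¹ = v →
      t ∈ Subgroup.centralizer (P : Set G) := by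
    intro t ht v hv hv1 htv
    refine mem_of_primePow_parts fun s q j hq hs hso => ?_
    have hsT : s ∈ stab P (idemS M c) := (Subgroup.zpowers_le.mpr ht) hs
    by_cases hj : j = 0
    · subst hj
      rw [pow_zero, orderOf_eq_one_iff] at hso
      rw [hso]; exact Subgroup.one_mem _
    by_cases hqp : q = 2
    · subst hqp
      have := mem_sup_of_isPElement hmax hsT (n := j) (by rw [← hso]; exact pow_orderOf_eq_one s)
      rwa [sup_eq_right.mpr hPC] at this
    have hsv : s * v * s⁻¹ = v := by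
      obtain ⟨i, rfl⟩ := Subgroup.mem_zpowers_iff.mp hs
      rw [((show Commute t v from mul_inv_eq_iff_eq_mul.mp htv).zpow_left i).eq, mul_inv_cancel_right]
    have hodd : s ∈ Subgroup.zpowers (s ^ 2) := by
      have hcop : Nat.Coprime 2 (orderOf s) := by
        rw [hso]; exact Nat.Coprime.pow_right j ((Nat.coprime_primes Nat.prime_two hq).mpr (Ne.symm hqp))
      obtain ⟨m, hm⟩ := exists_pow_eq_self_of_coprime hcop
      exact ⟨(m : ℤ), (zpow_natCast _ m).trans hm⟩
    refine (Subgroup.zpowers_le.mpr ?_) hodd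
    refine Subgroup.mem_centralizer_iff.mpr fun x hx => ?_
    have hP' : ∀ z ∈ P, s * z * s⁻¹ ∈ P := fun z hz =>
      (Subgroup.mem_normalizer_iff.mp hsT.1 z).mp hz
    have h2 : s ^ 2 * x * (s ^ 2)⁻¹ = x := by
      by_cases hx1 : x = 1
      · simp [hx1]
      by_cases hxv : x = v
      · rw [hxv, pow_two, show s * s * v * (s * s)⁻¹ = s * (s * v * s⁻¹) * s⁻¹ by group, hsv, hsv]
      rw [pow_two, show s * s * x * (s * s)⁻¹ = s * (s * x * s⁻¹) * s⁻¹ by group]
      rcases hthree v hv hv1 x hx hx1 hxv _ (hP' x hx) with h | h | h | h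
      · exact absurd (conj_eq_one_iff.mp h) hx1
      · exact absurd (mul_left_cancel (mul_right_cancel (h.trans hsv.symm))) hxv
      · rw [h, h]
      · rw [h, show s * (v * x) * s⁻¹ = s * v * s⁻¹ * (s * x * s⁻¹) by group, hsv, h, ← mul_assoc,
          hsq v hv, one_mul]
    rw [← mul_inv_eq_iff_eq_mul.mp h2]
  obtain ⟨hrank, hcount⟩ := card_eq_of_free hpM hPD hab hc hfree
  have D : MaxData 2 B P (idemS M c) := ⟨hmax, hc.2.1, ho⟩
  obtain ⟨⟨v, hv⟩, hv1'⟩ : ∃ x : P, x ≠ 1 := by
    haveI : Nontrivial P := Finite.one_lt_card_iff_nontrivial.mp (by rw [hcard]; norm_num)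
    exact exists_ne 1
  have hv1 : v ≠ 1 := fun h => hv1' (Subtype.ext h)
  rw [← hTeq] at hcount
  rw [he, hcard] at hcount
  have he0 : 0 < e := he ▸ Nat.pos_of_ne_zero Subgroup.index_ne_zero_of_finite
  have horb : Nat.card (orbP P (idemS M c) v) = e := by
    rw [card_orbP_of_free hmax.pair hv (fun t ht h => hfree t ht v hv hv1 h), ← hTeq, he]
  have he13 : e = 1 ∨ e = 3 := by
    have hle : e ≤ 3 := by
      rw [← horb, Nat.card_eq_fintype_card, ← Set.toFinset_card]
      refine (Finset.card_le_card (t := (P : Set G).toFinset.erase 1) ?_).trans ?_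
      · intro w hw
        rw [Set.mem_toFinset] at hw
        refine Finset.mem_erase.mpr ⟨?_, Set.mem_toFinset.mpr (orbP_subset hv w hw)⟩
        obtain ⟨t, -, rfl⟩ := hw
        exact fun h => hv1 (conj_eq_one_iff.mp h)
      · rw [Finset.card_erase_of_mem (Set.mem_toFinset.mpr (one_mem P)), Set.toFinset_card,
          ← Nat.card_eq_fintype_card]
        exact (Nat.sub_le_sub_right hcard.le 1)
    have hd : e ∣ 3 := by
      refine (Nat.dvd_add_right (dvd_mul_right e (blockRank 2 B))).mp ?_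
      rw [show (3 : ℕ) = 4 - 1 from rfl, ← hcount]
      exact dvd_mul_right e _
    rcases (Nat.dvd_prime Nat.prime_three).mp hd with h | h
    · exact Or.inl h
    · exact Or.inr h
  have hk2 : 2 ≤ Nat.card B := by
    have hl : 1 ≤ blockRank 2 B := blockRank_pos hpM hc.2.1
    rcases he13 with rfl | rfl <;> omega
  letI := Fintype.ofFinite (cz v)
  obtain ⟨w, ζ, hζ, hw⟩ := exists_conP_eq hpM D hab hv (hrank v hv hv1) (k := 1)
    (by rw [pow_one, pow_two]; exact hsq v hv)
  have hint : ∀ χ : IrrCharacter G, ∃ n : ℤ, (∑ φ, (w χ φ : ℂ) * ζ φ) = (n : ℂ) := by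
    intro χ
    refine ⟨∑ φ, if ζ φ = 1 then (w χ φ : ℤ) else -(w χ φ : ℤ), ?_⟩
    rw [Int.cast_sum]
    refine Finset.sum_congr rfl fun φ _ => ?_
    have h := hζ φ
    rw [pow_one, pow_two] at h
    rcases mul_self_eq_one_iff.mp h with h | h
    · simp [h]
    · rw [if_neg (by rw [h]; norm_num), h]; simp
  choose a ha using hint
  have hsum : ∑ χ ∈ bf B, a χ ^ 2 = 4 := by
    have h := sum_conP_diag hpM D hv
    rw [hrank v hv hv1, Nat.cast_one] at h
    have h' : ((∑ χ ∈ bf B, a χ ^ 2 : ℤ) : ℂ) = ((4 : ℤ) : ℂ) := by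
      rw [Int.cast_sum, show ((4 : ℤ) : ℂ) = (Nat.card P : ℂ) * 1 by rw [hcard]; norm_num, ← h,
        Finset.mul_sum]
      refine Finset.sum_congr rfl fun χ hχ => ?_
      rw [(hw χ (mem_bf.mp hχ)).2 χ (mem_bf.mp hχ), ha, map_intCast]
      push_cast
      ring
    exact_mod_cast h'
  have hone : ∀ χ ∈ bf B, a χ ^ 2 = 1 := by
    intro χ hχ
    have hne : a χ ≠ 0 := fun h0 => (hw χ (mem_bf.mp hχ)).1 (by rw [ha, h0, Int.cast_zero])
    have hge : ∀ ψ ∈ bf B, (1 : ℤ) ≤ a ψ ^ 2 := fun ψ hψ => by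
      have hne : a ψ ≠ 0 := fun h0 => (hw ψ (mem_bf.mp hψ)).1 (by rw [ha, h0, Int.cast_zero])
      exact Int.add_one_le_iff.mpr (lt_of_le_of_ne (sq_nonneg _) (pow_ne_zero 2 hne).symm)
    obtain ⟨ψ, hψ, hψne⟩ := Finset.exists_mem_ne (show 1 < (bf B).card by rw [← card_bf]; exact hk2) χ
    have h2 : a χ ^ 2 + a ψ ^ 2 ≤ 4 := by
      rw [← hsum, ← Finset.sum_pair (f := fun i => a i ^ 2) hψne.symm]
      refine Finset.sum_le_sum_of_subset_of_nonneg ?_ fun i _ _ => sq_nonneg _
      intro z hz
      rcases Finset.mem_insert.mp hz with rfl | hz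
      · exact hχ
      · rw [Finset.mem_singleton.mp hz]; exact hψ
    have h3 := hge ψ hψ
    by_contra hne1
    have h4 : 2 ≤ a χ ∨ a χ ≤ -2 := by
      by_contra hlt
      push Not at hlt
      have : a χ = 1 ∨ a χ = -1 := by omega
      rcases this with h | h <;> exact hne1 (by rw [h]; norm_num)
    rcases h4 with h | h <;> nlinarith
  have hk : Nat.card B = 4 := by
    rw [Finset.sum_congr rfl hone, Finset.sum_const, nsmul_eq_mul, mul_one, ← card_bf] at hsum
    exact_mod_cast hsum
  refine ⟨he13, hk, ?_⟩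
  rcases he13 with rfl | rfl <;> omega

end Cfsg.Agent.S4637
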