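import Cfsg.Statements.S2434
import Cfsg.Agent.KnownA.GL2.SLTorusChars
-- import your own Cfsg.Agent.* helpers here

set_option autoImplicit false
open Cfsg

namespace Cfsg.Agent.S2434

/-- Let F be a finite field with q elements, q odd, and C a cyclic subgroup of order q + 1 of SL₂ over F (a non-split torus; it contains the centre). For every homomorphism θ from C to the non-zero complex numbers with θ² ≠ 1 there is an irreducible complex character χ of degree q − 1 such that χ(c) = −θ(c) − θ(c)⁻¹ for every non-central c in C, χ(zg) = θ(z)χ(g) for central z in C, χ vanishes at diagonal elements with entry a, a² ≠ 1, and χ takes the value −1 at every upper unitriangular element other than 1. Conversely every irreducible character of degree q − 1 has, for some such θ, the values −θ(c) − θ(c)⁻¹ at the non-central elements c of C (for q ≥ 5 these are exactly the cuspidal characters of degree q − 1). -/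
theorem result {F : Type*} [Field F] [Fintype F] (hodd : Odd (Fintype.card F))
    (C : Subgroup (Matrix.SpecialLinearGroup (Fin 2) F)) (hC : IsCyclic C) (hcard : Nat.card C = Fintype.card F + 1) :
    (∀ θ : C →* ℂˣ, (∃ c : C, θ c ^ 2 ≠ 1) →
      ∃ χ : Matrix.SpecialLinearGroup (Fin 2) F → ℂ, Cfsg.IsIrrCharacter (Matrix.SpecialLinearGroup (Fin 2) F) χ ∧ χ 1 = (Fintype.card F : ℂ) - 1 ∧
        (∀ c : C, (c : Matrix.SpecialLinearGroup (Fin 2) F) ∉ Subgroup.center (Matrix.SpecialLinearGroup (Fin 2) F) → χ c = -((θ c).val + (θ c)⁻¹.val)) ∧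
        (∀ c : C, (c : Matrix.SpecialLinearGroup (Fin 2) F) ∈ Subgroup.center (Matrix.SpecialLinearGroup (Fin 2) F) → ∀ g : Matrix.SpecialLinearGroup (Fin 2) F, χ ((c : Matrix.SpecialLinearGroup (Fin 2) F) * g) = (θ c).val * χ g) ∧
        (∀ g : Matrix.SpecialLinearGroup (Fin 2) F, (g : Matrix (Fin 2) (Fin 2) F) 0 1 = 0 → (g : Matrix (Fin 2) (Fin 2) F) 1 0 = 0 → (g : Matrix (Fin 2) (Fin 2) F) 0 0 ^ 2 ≠ 1 → χ g = 0) ∧
        (∀ g : Matrix.SpecialLinearGroup (Fin 2) F, (g : Matrix (Fin 2) (Fin 2) F) 1 0 = 0 → (g : Matrix (Fin 2) (Fin 2) F) 0 0 = 1 → (g : Matrix (Fin 2) (Fin 2) F) 1 1 = 1 → (g : Matrix (Fin 2) (Fin 2) F) 0 1 ≠ 0 → χ g = -1)) ∧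
    (∀ χ : Matrix.SpecialLinearGroup (Fin 2) F → ℂ, Cfsg.IsIrrCharacter (Matrix.SpecialLinearGroup (Fin 2) F) χ → χ 1 = (Fintype.card F : ℂ) - 1 →
      ∃ θ : C →* ℂˣ, (∃ c : C, θ c ^ 2 ≠ 1) ∧
        ∀ c : C, (c : Matrix.SpecialLinearGroup (Fin 2) F) ∉ Subgroup.center (Matrix.SpecialLinearGroup (Fin 2) F) → χ c = -((θ c).val + (θ c)⁻¹.val)) := by
  classical
  have hq : 1 < Fintype.card F := Fintype.one_lt_card
  refine ⟨fun θ ⟨c, hc⟩ => ?_, fun χ hχ hdeg => ?_⟩
  · obtain ⟨χ, hb, hz, hv⟩ := Cfsg.Agent.KnownA.GL2.exists_KB_torus hC hodd hcard θ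
      (fun e => hc (by rw [← MonoidHom.pow_apply, e, MonoidHom.one_apply]))
    refine ⟨χ, hb.1.1, ?_, fun d hd => hv d fun hs => hd ((Cfsg.Agent.KnownA.GL2.mem_center_iff_scalar _).2 hs),
      fun d hd g => ?_, fun g h01 h10 ha => ?_, fun g h10 h00 _ h01 => ?_⟩
    · rw [Cfsg.Agent.KnownA.GL2.cusp_apply_one hodd hb.1, hb.2.1, hb.2.2]
      ring
    · rcases (Cfsg.Agent.KnownA.GL2.scalar_iff _).1 ((Cfsg.Agent.KnownA.GL2.mem_center_iff_scalar _).1 hd) with e | e
      · rw [show d = 1 from Subtype.ext e, map_one, OneMemClass.coe_one, one_mul, Units.val_one,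
          one_mul]
      · rw [show d = Cfsg.Agent.KnownA.GL2.zC hodd hcard from Subtype.ext e]
        exact hz g
    · obtain ⟨a, hg, hv⟩ := Cfsg.Agent.KnownA.GL2.exists_eq_bS h10
      rw [← hv] at ha
      rw [hg]
      exact hb.1.split ha _
    · obtain ⟨a, hg, hv⟩ := Cfsg.Agent.KnownA.GL2.exists_eq_bS h10
      rw [show a = 1 from Units.ext (hv.trans h00)] at hg
      rw [hg, Cfsg.Agent.KnownA.GL2.value_bS (Cfsg.Agent.Chars.isClassFunction_of_isCharacter
        (Cfsg.Agent.Chars.isCharacter_of_isIrr hb.1.1)), hb.1.mS_zero, hb.2.1, hb.2.2, if_neg h01]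
      ring
  · have conv : ∀ θ : C →* ℂˣ, θ ^ 2 ≠ 1 → ∃ c : C, θ c ^ 2 ≠ 1 := fun θ hθ => by
      by_contra hc
      push Not at hc
      exact hθ (MonoidHom.ext fun c => by rw [MonoidHom.pow_apply, hc, MonoidHom.one_apply])
    rcases le_or_gt 4 (Fintype.card F) with h4 | h4
    · obtain ⟨θ, hθ, -, hv⟩ := Cfsg.Agent.KnownA.GL2.KB.torus hC hodd hcard (Cfsg.Agent.KnownA.GL2.kind_of_q_sub_one h4 hχ hdeg)
      exact ⟨θ, conv θ hθ, fun c hc => hv c fun hs => hc ((Cfsg.Agent.KnownA.GL2.mem_center_iff_scalar _).2 hs)⟩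
    · have h3 : Fintype.card F = 3 := by rw [Nat.odd_iff] at hodd; omega
      have hB : 0 < Cfsg.Agent.KnownA.GL2.nK (F := F) Cfsg.Agent.KnownA.GL2.KB := by
        have := (Cfsg.Agent.KnownA.GL2.counts_odd hodd).2.1
        omega
      obtain ⟨⟨ψ, hψ⟩⟩ := (Nat.card_pos_iff.1 hB).1
      obtain ⟨θ, hθ, -, hv⟩ := Cfsg.Agent.KnownA.GL2.KB.torus hC hodd hcard hψ
      refine ⟨θ, conv θ hθ, fun c hc => ?_⟩
      have hns : ¬ Cfsg.Agent.KnownA.GL2.IsScalar (c : Matrix.SpecialLinearGroup (Fin 2) F).1 := fun hs =>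
        hc ((Cfsg.Agent.KnownA.GL2.mem_center_iff_scalar _).2 hs)
      have hell := Cfsg.Agent.KnownA.GL2.ell_of_mem hcard c.2 hns
      rw [← hv c hns, hψ.elliptic_three h3 hell]
      have hd : χ 1 = (((Fintype.card F + 1) / 2 : ℕ) : ℂ) := by
        rw [hdeg, h3]; norm_num
      rcases Cfsg.Agent.KnownA.GL2.kind_of_half_up hodd hχ hd with h | ⟨-, h⟩
      · exact h.elliptic hell
      · exact h.elliptic_three h3 hell

end Cfsg.Agent.S2434
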