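import Cfsg.Statements.S4914
import Cfsg.Agent.DegreeGraph.NormalSylowGlauberman

set_option autoImplicit false
open Cfsg

namespace Cfsg.Agent.S4914

/-- Let P and K be subgroups of a finite group G with P a p-group normalizing K, and suppose K has a normal Sylow p-subgroup Q. Let C be the subgroup of those k ∈ K whose commutator with every element of P lies in Q (so that C/Q is the fixed-point subgroup of P on K/Q). Then there is a bijection f from the P-invariant irreducible complex characters of K onto the P-invariant irreducible complex characters of C such that, for every P-invariant irreducible character χ of K, the multiplicity of f(χ) in the restriction of χ to C is a natural number congruent to 1 or to −1 modulo p, every other P-invariant irreducible character of C occurs in that restriction with multiplicity divisible by p, and the degrees of χ and f(χ) are congruent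 modulo p up to sign. -/
theorem result {G : Type*} [Group G] [Finite G] (p : ℕ) [Fact p.Prime] (P K Q C : Subgroup G) (hP : IsPGroup p ↥P) (hPK : P ≤ Subgroup.normalizer (K : Set G)) (hQK : Q ≤ K) (hQn : ∀ k ∈ K, ∀ q ∈ Q, k * q * k⁻¹ ∈ Q) (hQp : ∃ a : ℕ, Nat.card ↥Q = p ^ a) (hQsyl : ¬ p ∣ Q.relIndex K) (hCK : C ≤ K) (hC : ∀ k : G, k ∈ C ↔ (k ∈ K ∧ ∀ x ∈ P, x * k * x⁻¹ * k⁻¹ ∈ Q)) : ∃ f : {χ : Cfsg.IrrCharacter ↥K // (∀ x ∈ P, ∀ k k' : ↥K, (k' : G) = x * (k : G) * x⁻¹ → (χ : ↥K → ℂ) k' = (χ : ↥K → ℂ) k)} → {ξ : Cfsg.IrrCharacter ↥C // (∀ x ∈ P, ∀ k k' : ↥C, (k' : G) = x * (k : G) * x⁻¹ → (ξ : ↥C → ℂ) k' = (ξ : ↥C → ℂ) k)}, Function.Bijective f ∧ ∀ χ, (∀ ξ : {ξ : Cfsg.IrrCharacter ↥C // (∀ x ∈ P, ∀ k k' : ↥C, (k' : G) = x * (k : G) * x⁻¹ → (ξ : ↥C → ℂ) k' = (ξ : ↥C → ℂ) k)}, ∃ m : ℕ, (Nat.card ↥C : ℂ)⁻¹ * ∑ᶠ c : ↥C, (χ.1 : ↥K → ℂ) (Subgroup.inclusion hCK c) * (starRingEnd ℂ)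 ((ξ.1 : ↥C → ℂ) c) = (m : ℂ) ∧ (ξ = f χ → ((m : ZMod p) = 1 ∨ (m : ZMod p) = -1)) ∧ (ξ ≠ f χ → p ∣ m)) ∧ ((Cfsg.charDegree ((f χ).1 : ↥C → ℂ) : ZMod p) = (Cfsg.charDegree (χ.1 : ↥K → ℂ) : ZMod p) ∨ (Cfsg.charDegree ((f χ).1 : ↥C → ℂ) : ZMod p) = -(Cfsg.charDegree (χ.1 : ↥K → ℂ) : ZMod p)) := by
  classical
  haveI := Fintype.ofFinite ↥K
  haveI := Fintype.ofFinite ↥C
  have hp := (Fact.out : p.Prime)
  obtain ⟨a₀, ha₀⟩ := hQp
  have hnorm : ∀ s ∈ P, ∀ g ∈ K, s * g * s⁻¹ ∈ K := fun s hs g hg =>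
    (Subgroup.mem_normalizer_iff.1 (hPK hs) g).1 hg
  let φ : ↥P →* MulAut ↥K := Agent.Chars.conjHom K P hnorm
  let N := Q.subgroupOf K
  haveI hNn : N.Normal := ⟨fun n hn k => hQn k k.2 n hn⟩
  haveI : Fintype N := Fintype.ofFinite _
  have hcard : Nat.card N = p ^ a₀ :=
    (Nat.card_congr (Subgroup.subgroupOfEquivOfLe hQK).toEquiv).trans ha₀
  have hNp : IsPGroup p N := IsPGroup.of_card hcard
  have hN : ∀ x, ∀ n ∈ N, φ x n ∈ N := by
    intro x n hn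
    rw [← QuotientGroup.ker_mk' N, MonoidHom.mem_ker, ← orderOf_eq_one_iff]
    have h1 : orderOf (QuotientGroup.mk' N (φ x n)) ∣ p ^ a₀ := by
      refine (orderOf_map_dvd _ _).trans ?_
      rw [MulEquiv.orderOf_eq, ← Subgroup.orderOf_mk n hn, ← hcard]
      exact orderOf_dvd_natCard _
    obtain ⟨i, -, hi⟩ := (Nat.dvd_prime_pow hp).1 h1
    by_contra hne
    refine hQsyl ?_
    have hi0 : i ≠ 0 := fun h0 => hne (by rw [hi, h0, pow_zero])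
    have h2 : orderOf (QuotientGroup.mk' N (φ x n)) ∣ N.index :=
      Subgroup.index_eq_card N ▸ orderOf_dvd_natCard _
    exact ((dvd_pow_self p hi0).trans (hi ▸ dvd_rfl)).trans h2
  let C₀ := C.subgroupOf K
  haveI : Fintype C₀ := Fintype.ofFinite _
  have hC₀ : ∀ g : ↥K, g ∈ C₀ ↔ ∀ x, φ x g * g⁻¹ ∈ N := by
    intro g
    rw [Subgroup.mem_subgroupOf, hC]
    exact ⟨fun h x => h.2 x x.2, fun h => ⟨g.2, fun x hx => h ⟨x, hx⟩⟩⟩
  have hCi := DegreeGraph.ModFix.invariant_of_modFix φ N hN C₀ hC₀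
  obtain ⟨f, hf, hfχ⟩ := DegreeGraph.ModFix.correspondence hp hP φ N hN hNp hQsyl C₀ hC₀ hCi
  let e : C₀ ≃* ↥C := Subgroup.subgroupOfEquivOfLe hCK
  let e1 : {χ : Cfsg.IrrCharacter ↥K // (∀ x ∈ P, ∀ k k' : ↥K, (k' : G) = x * (k : G) * x⁻¹ → (χ : ↥K → ℂ) k' = (χ : ↥K → ℂ) k)} ≃
      {χ : Cfsg.IrrCharacter ↥K // Agent.Chars.InvFun φ (χ : ↥K → ℂ)} :=
    Equiv.subtypeEquivRight fun χ => ⟨fun h x k => h x x.2 k _ rfl, fun h x hx k k' hk => by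
      rw [show k' = φ ⟨x, hx⟩ k from Subtype.ext hk]
      exact h ⟨x, hx⟩ k⟩
  let e2 : {ξ : Cfsg.IrrCharacter ↥C // (∀ x ∈ P, ∀ k k' : ↥C, (k' : G) = x * (k : G) * x⁻¹ → (ξ : ↥C → ℂ) k' = (ξ : ↥C → ℂ) k)} ≃
      {ξ : Cfsg.IrrCharacter ↥C₀ // Agent.Chars.InvFun (Agent.Chars.subAct φ C₀ hCi) (ξ : ↥C₀ → ℂ)} :=
    (Agent.Chars.irrEquiv e).subtypeEquiv fun ξ => ⟨fun h x c => h x x.2 (e c) _ rfl,
      fun h x hx k k' hk => by
        have h1 := h ⟨x, hx⟩ (e.symm k)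
        simp only [Agent.Chars.irrEquiv_apply, MulEquiv.apply_symm_apply] at h1
        refine Eq.trans (congrArg _ (Subtype.ext ?_)) h1
        exact hk⟩
  refine ⟨fun χ => e2.symm (f (e1 χ)), (e2.symm.bijective.comp hf).comp e1.bijective, fun χ => ?_⟩
  obtain ⟨h1, h2⟩ := hfχ (e1 χ)
  refine ⟨fun ξ => ?_, ?_⟩
  · obtain ⟨m, hm, hm1, hm2⟩ := h1 (e2 ξ)
    refine ⟨m, ?_, fun h => hm1 (by rw [h, Equiv.apply_symm_apply]),
      fun h => hm2 fun h' => h (by show ξ = e2.symm (f (e1 χ)); rw [← h', Equiv.symm_apply_apply])⟩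
    rw [← hm, Agent.Chars.classInner_def, Nat.card_congr e.toEquiv, finsum_eq_sum_of_fintype]
    congr 1
    exact (Fintype.sum_equiv e.toEquiv _ _ fun c => rfl).symm
  · have hd : Cfsg.charDegree ((e2.symm (f (e1 χ))).1 : ↥C → ℂ) =
        Cfsg.charDegree ((f (e1 χ)).1 : ↥C₀ → ℂ) := by
      have h3 : ((f (e1 χ)).1 : ↥C₀ → ℂ) 1 = ((e2.symm (f (e1 χ))).1 : ↥C → ℂ) 1 :=
        congrArg _ (map_one e.symm).symm
      rw [Cfsg.charDegree, Cfsg.charDegree, h3]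
    rw [hd]
    exact h2

end Cfsg.Agent.S4914
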