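import Cfsg.Statements.S0859
import Cfsg.Agent.Chars2.RelativeMonomial

set_option autoImplicit false
open Cfsg

namespace Cfsg.Agent.S0859

/-- Let G be a finite solvable group and N a normal subgroup such that for every prime p every Sylow p-subgroup of N is abelian. Suppose every irreducible character of G is induced from an irreducible character of some subgroup containing N whose restriction to N is irreducible. Then every irreducible character of G is induced from a character of degree 1 of some subgroup. -/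
theorem result {G : Type*} [Group G] [Fintype G] [Group.IsSolvable G] (N : Subgroup G) [N.Normal] (hab : ∀ (p : ℕ) [Fact p.Prime] (P : Sylow p N), ∀ a ∈ P, ∀ b ∈ P, a * b = b * a) (hrel : ∀ χ : G → ℂ, Cfsg.IsIrrCharacter G χ → ∃ (H : Subgroup G) (hNH : N ≤ H) (ψ : H → ℂ), Cfsg.IsIrrCharacter H ψ ∧ Cfsg.indFun H ψ = χ ∧ Cfsg.IsIrrCharacter N (fun n : N => ψ ⟨(n : G), hNH n.2⟩)) (χ : G → ℂ) (hχ : Cfsg.IsIrrCharacter G χ) : ∃ (U : Subgroup G) (lam : U → ℂ), Cfsg.IsCharacter U lam ∧ lam 1 = 1 ∧ Cfsg.indFun U lam = χ := by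
  classical
  haveI : Fintype N := Fintype.ofFinite N
  obtain ⟨H, hNH, ψ, hψ, hind, hres⟩ := hrel χ hχ
  haveI : Fintype H := Fintype.ofFinite H
  haveI : Fintype (N.subgroupOf H) := Fintype.ofFinite _
  haveI : Group.IsSolvable H := inferInstance
  obtain ⟨U, lam, hU⟩ := Chars2.relative_monomial (N.subgroupOf H) (by
    intro q hq Q hQ hQp a ha b hb
    haveI := Fact.mk hq
    let j : Q →* N := (H.subtype.comp Q.subtype).codRestrict N fun x => Subgroup.mem_subgroupOf.1 (hQ x.2)
    obtain ⟨S, hS⟩ := (IsPGroup.of_surjective hQp j.rangeRestrict j.rangeRestrict_surjective).exists_le_sylow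
    have h := hab q S (j ⟨a, ha⟩) (hS ⟨_, rfl⟩) (j ⟨b, hb⟩) (hS ⟨_, rfl⟩)
    exact Subtype.ext (congrArg (Subtype.val : N → G) h :))
    hψ (Chars.isIrrCharacter_comp_equiv hres (Subgroup.subgroupOfEquivOfLe hNH))
  let lam' : U.map H.subtype →* ℂˣ :=
    lam.comp (U.equivMapOfInjective H.subtype H.subtype_injective).symm.toMonoidHom
  refine ⟨U.map H.subtype, fun x => (lam' x : ℂ), Chars.isCharacter_hom lam', by simp, ?_⟩
  rw [← hind, ← hU, ← Chars2.indFun_pushFun H U]
  rfl

end Cfsg.Agent.S0859
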