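import Cfsg.Statements.S0914
import Cfsg.Agent.Blocks.Graph
-- import your own Cfsg.Agent.* helpers here

set_option autoImplicit false
open Cfsg

namespace Cfsg.Agent.S0914

/-- Let χ be an irreducible character of the finite group G, p a prime and M a maximal ideal of the algebraic integers containing p. Then p does not divide the integer (Nat.card G) / χ(1) if and only if the block of χ relative to M consists of χ alone. -/
theorem result {G : Type*} [Group G] [Finite G] (p : ℕ) [Fact p.Prime] (M : Ideal Cfsg.AlgInt) (hM : Cfsg.IsPModular p M) (χ : Cfsg.IrrCharacter G) : ¬ p ∣ Nat.card G / Cfsg.charDegree (χ : G → ℂ) ↔ Cfsg.blockOf M (χ : G → ℂ) = {χ} := by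
  haveI := hM.2.1
  haveI := Fintype.ofFinite G
  classical
  have hpM := hM.2.2
  obtain ⟨hdeg, hpos⟩ := Cfsg.Agent.Blocks.charDegree_eq χ.2
  obtain ⟨m, hm⟩ := Cfsg.Agent.Blocks.charDegree_dvd χ.2
  have hdiv : Nat.card G / Cfsg.charDegree (χ : G → ℂ) = m := by
    rw [hm, Nat.mul_div_cancel_left _ hpos]
  rw [hdiv]
  constructor
  · intro hpm
    refine Set.Subset.antisymm (fun ψ hψ => ?_) ?_
    · refine Cfsg.Agent.Blocks.mem_of_blockCoeff_local (M := M) (A := ({χ} : Set _)) (fun g => ?_)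
        (Set.mem_singleton χ) hψ
      rw [Cfsg.blockCoeff, finsum_mem_singleton, hdeg, hm,
        ← Cfsg.Agent.Chars.char_inv_eq_conj (Cfsg.Agent.Chars.irr_isCharacter χ)]
      have hne : ((Cfsg.charDegree (χ : G → ℂ) : ℕ) : ℂ) ≠ 0 := Nat.cast_ne_zero.2 hpos.ne'
      have he : ((Cfsg.charDegree (χ : G → ℂ) * m : ℕ) : ℂ)⁻¹ *
          ((Cfsg.charDegree (χ : G → ℂ) : ℂ) * (χ : G → ℂ) g⁻¹) = (m : ℂ)⁻¹ * (χ : G → ℂ) g⁻¹ := by
        push_cast
        rw [mul_inv]
        field_simp
      rw [he]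
      exact Cfsg.Agent.Blocks.memR_mul (Cfsg.Agent.Blocks.memR_inv_natCast hpM hpm)
        (Cfsg.Agent.Blocks.irr_memR χ g⁻¹)
    · rintro ψ rfl
      exact Cfsg.Agent.Blocks.mem_blockOf_self ψ
  · intro hB hpm
    have hBl := Cfsg.Agent.Blocks.isPBlock_blockOf (M := M) χ
    rw [hB] at hBl
    obtain ⟨n, hn⟩ := Cfsg.Agent.Blocks.exists_eq_ppart_mul (p := p)
      (fun φ : Cfsg.IrrCharacter G => if φ = χ then (1 : ℂ) else 0) fun x hx => by
        have h1 := Cfsg.Agent.Blocks.block_orth_weak hpM hBl (x := (1 : G))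
          (by rw [orderOf_one]; exact (Fact.out : p.Prime).not_dvd_one) hx
        rw [Finset.sum_eq_single χ] at h1
        · rcases mul_eq_zero.1 h1 with h2 | h2
          · exact absurd h2 (Cfsg.Agent.Chars.irr_apply_one_ne_zero χ.2)
          · simp [(map_eq_zero _).1 h2]
        · intro b hb hne
          exact absurd (Finset.mem_filter.1 hb).2 hne
        · intro h; exact absurd (Finset.mem_filter.2 ⟨Finset.mem_univ _, Set.mem_singleton χ⟩) h
    simp only [ite_mul, one_mul, zero_mul, Finset.sum_ite_eq', Finset.mem_univ, if_true] at hn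
    rw [hdeg, ← Nat.cast_mul, Nat.cast_inj] at hn
    have h3 : p * p ^ (Nat.card G).factorization p ∣ Nat.card G := by
      conv_rhs => rw [hm]
      exact (Nat.mul_dvd_mul hpm (Dvd.intro _ hn.symm)).trans (dvd_of_eq (mul_comm _ _))
    rw [← pow_succ'] at h3
    have := ((Fact.out : p.Prime).pow_dvd_iff_le_factorization Nat.card_pos.ne').1 h3
    omega

end Cfsg.Agent.S0914
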