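import Cfsg.Statements.S0019
import Cfsg.Agent.Core.MinimalNormal
import Cfsg.Agent.Core.Conj

set_option autoImplicit false
open Cfsg
set_option linter.style.haveILetI false
open scoped Pointwise

namespace Cfsg.Agent.S0019

open Subgroup in
private theorem core_ne_bot {G : Type*} [Group G] [Finite G] {H K : Subgroup G}
    (h : ∀ g : G, ∃ x ∈ H, ∃ y ∈ K, g = x * y) {p : ℕ} [Fact p.Prime] {M : Subgroup G}
    (hM : M ≠ ⊥) (hMH : M ≤ H) (hn : H ≤ normalizer (M : Set G)) (hMp : IsPGroup p M)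
    (hpK : ¬ p ∣ K.index) : K.normalCore ≠ ⊥ := by
  obtain ⟨Q⟩ := (inferInstance : Nonempty (Sylow p K))
  have hQ' : ¬ p ∣ ((Q : Subgroup K).map K.subtype).index := by
    rw [index_map_subtype]
    exact Fact.out (p := p.Prime) |>.not_dvd_mul Q.not_dvd_index hpK
  obtain ⟨P, hP⟩ := hMp.exists_le_sylow
  obtain ⟨Q', hQ''⟩ : ∃ Q' : Sylow p G, (Q' : Subgroup G) = (Q : Subgroup K).map K.subtype :=
    ⟨(Q.2.map K.subtype).toSylow hQ', rfl⟩
  obtain ⟨g, hg⟩ := MulAction.exists_smul_eq G Q' P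
  have h1 : M ≤ MulAut.conj g • K := by
    refine hP.trans ?_
    rw [← hg, Sylow.coe_subgroup_smul, hQ'']
    exact pointwise_smul_le_pointwise_smul_iff.mpr (map_subtype_le _)
  refine fun hc => hM (le_bot_iff.mp (hc ▸ fun m hm b => ?_))
  -- `M` lies in every conjugate of `K`
  obtain ⟨u, hu, v, hv, rfl⟩ := h g
  have h2 : MulAut.conj v • K = K := mem_normalizer_iff_map_conj_eq.mp (le_normalizer hv)
  rw [Core.conj_mul_smul, h2] at h1
  obtain ⟨x, hx, y, hy, hxy⟩ := h b⁻¹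
  have hb : b = y⁻¹ * x⁻¹ := by rw [← mul_inv_rev, ← hxy, inv_inv]
  have h3 : u * (x⁻¹ * m * x) * u⁻¹ ∈ M := by
    have hxm : x⁻¹ * m * x ∈ M := (mem_normalizer_iff''.mp (hn hx) m).mp hm
    exact (mem_normalizer_iff.mp (hn hu) _).mp hxm
  have h4 := h1 h3
  rw [Core.mem_conj_smul_iff] at h4
  have h5 : x⁻¹ * m * x ∈ K := by simpa [mul_assoc] using h4
  rw [hb]
  have h6 : y⁻¹ * x⁻¹ * m * (y⁻¹ * x⁻¹)⁻¹ = y⁻¹ * (x⁻¹ * m * x) * y := by group
  rw [h6]
  exact mul_mem (mul_mem (inv_mem hy) h5) hy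

universe u in
open Subgroup in
private theorem main : ∀ (n : ℕ) {G : Type u} [Group G] [Finite G], Nat.card G = n →
    ∀ H₁ H₂ H₃ : Subgroup G, Group.IsSolvable H₁ → Group.IsSolvable H₂ → Group.IsSolvable H₃ →
    (∀ g : G, ∃ x ∈ H₁, ∃ y ∈ H₂, g = x * y) → (∀ g : G, ∃ x ∈ H₁, ∃ y ∈ H₃, g = x * y) →
    H₂.index.Coprime H₃.index → Group.IsSolvable G := by
  intro n
  induction n using Nat.strong_induction_on with
  | _ n ih =>
  intro G _ _ hn H₁ H₂ H₃ h₁ h₂ h₃ h12 h13 hcop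
  by_cases hb : H₁ = ⊥
  · have ht : H₂ = ⊤ := by
      rw [eq_top_iff]
      intro g _
      obtain ⟨x, hx, y, hy, rfl⟩ := h12 g
      rw [hb, mem_bot] at hx
      rwa [hx, one_mul]
    rw [ht] at h₂
    exact Group.isSolvable_of_surjective (f := (topEquiv : (⊤ : Subgroup G) ≃* G).toMonoidHom) topEquiv.surjective
  haveI : Nontrivial H₁ := (nontrivial_iff_ne_bot H₁).2 hb
  obtain ⟨M, hM⟩ := Core.exists_isMinNormal (G := H₁)
  obtain ⟨-, p, hp, -, hMp⟩ := hM.elementaryAbelian_of_isSolvable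
  haveI := Fact.mk hp
  haveI := hM.1
  have hne : M.map H₁.subtype ≠ ⊥ := fun e =>
    hM.2.1 ((map_eq_bot_iff_of_injective _ H₁.subtype_injective).mp e)
  have hn1 : H₁ ≤ normalizer (M.map H₁.subtype : Set G) := by
    have := le_normalizer_map (H := M) H₁.subtype
    rw [normalizer_eq_top_iff.mpr hM.1, ← MonoidHom.range_eq_map, range_subtype] at this
    exact this
  obtain ⟨K, hKs, hKc⟩ : ∃ K : Subgroup G, Group.IsSolvable K ∧ K.normalCore ≠ ⊥ := by
    by_cases hp2 : p ∣ H₂.index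
    · refine ⟨H₃, h₃, core_ne_bot h13 hne (map_subtype_le M) hn1 (hMp.map _) fun hp3 => hp.ne_one ?_⟩
      exact Nat.eq_one_of_dvd_coprimes hcop hp2 hp3
    · exact ⟨H₂, h₂, core_ne_bot h12 hne (map_subtype_le M) hn1 (hMp.map _) hp2⟩
  haveI := hKs
  haveI hcs : Group.IsSolvable K.normalCore :=
    Group.isSolvable_of_isSolvable_injective (inclusion_injective (normalCore_le K))
  let f := QuotientGroup.mk' K.normalCore
  have hf : Function.Surjective f := QuotientGroup.mk'_surjective _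
  have hmap : ∀ H : Subgroup G, Group.IsSolvable H → Group.IsSolvable (H.map f) := fun H hH => by
    haveI := hH
    exact Group.isSolvable_of_surjective (f.subgroupMap_surjective H)
  have hprod : ∀ H H' : Subgroup G, (∀ g : G, ∃ x ∈ H, ∃ y ∈ H', g = x * y) →
      ∀ g : G ⧸ K.normalCore, ∃ x ∈ H.map f, ∃ y ∈ H'.map f, g = x * y := by
    intro H H' h q
    obtain ⟨g, rfl⟩ := hf q
    obtain ⟨x, hx, y, hy, rfl⟩ := h g
    exact ⟨_, mem_map_of_mem f hx, _, mem_map_of_mem f hy, map_mul f x y⟩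
  refine (Group.isSolvable_iff_subgroup_quotient K.normalCore).mpr ⟨hcs, ih _ ?_ rfl
    (H₁.map f) (H₂.map f) (H₃.map f) (hmap _ h₁) (hmap _ h₂) (hmap _ h₃) (hprod _ _ h12)
    (hprod _ _ h13) ?_⟩
  · rw [← hn, card_eq_card_quotient_mul_card_subgroup K.normalCore]
    exact lt_mul_of_one_lt_right Nat.card_pos
      (Finite.one_lt_card_iff_nontrivial.mpr ((nontrivial_iff_ne_bot _).2 hKc))
  · exact (hcop.coprime_dvd_left (index_map_dvd H₂ hf)).coprime_dvd_right (index_map_dvd H₃ hf)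

/-- A finite group that factorises as H₁H₂ and as H₁H₃ with all three subgroups solvable and the indices of H₂ and H₃ coprime is solvable. -/
theorem result {G : Type*} [Group G] [Finite G] (H₁ H₂ H₃ : Subgroup G)
    (h₁ : Group.IsSolvable H₁) (h₂ : Group.IsSolvable H₂) (h₃ : Group.IsSolvable H₃)
    (h12 : ∀ g : G, ∃ x ∈ H₁, ∃ y ∈ H₂, g = x * y) (h13 : ∀ g : G, ∃ x ∈ H₁, ∃ y ∈ H₃, g = x * y)
    (hcop : H₂.index.Coprime H₃.index) : Group.IsSolvable G := by
  exact main _ rfl H₁ H₂ H₃ h₁ h₂ h₃ h12 h13 hcop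

end Cfsg.Agent.S0019
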