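import Cfsg.Statements.S4010
import Cfsg.Agent.FGS2.DerivedLengthGL
-- import your own Cfsg.Agent.* helpers here

set_option autoImplicit false
open Cfsg

namespace Cfsg.Agent.S4010

open Cfsg.Agent

/-- Let F be a field, n ≥ 1, and P a finite p-group (p a prime) admitting an injective homomorphism into the general linear group of degree n over F. Then the derived length of P is at most ⌊log₂ n⌋ + 1: that term of the derived series of P is trivial. -/
theorem result {P : Type*} [Group P] [Finite P] (p : ℕ) [Fact p.Prime] (hP : IsPGroup p P) (F : Type*) [Field F] (n : ℕ) (hn : 1 ≤ n) (ρ : P →* Matrix.GeneralLinearGroup (Fin n) F) (hρ : Function.Injective ρ) : derivedSeries P (Nat.log 2 n + 1) = ⊥ := by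
  classical
  let K := AlgebraicClosure F
  let ι : F →+* K := algebraMap F K
  let e := Matrix.toLinAlgEquiv' (R := K) (n := Fin n)
  let σ : P →* Module.End K (Fin n → K) :=
    (e.toAlgHom.toRingHom.toMonoidHom.comp (ι.mapMatrix.toMonoidHom.comp (Units.coeHom _))).comp ρ
  have hinj : Function.Injective σ := by
    intro a b hab
    apply hρ
    refine Units.ext ?_
    exact Matrix.map_injective ι.injective (e.injective hab)
  have hdim : Module.finrank K (Fin n → K) = n := Module.finrank_fin_fun K
  have key : derivedSeries P (Nat.log 2 n + 1) ≤ σ.ker := by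
    by_cases hpF : (p : K) = 0
    · haveI : CharP K p := (CharP.charP_iff_prime_eq_zero (Fact.out : p.Prime)).mpr hpF
      exact FGS2.DerivedLength.derived_le_ker_of_charP (p := p) _ hP σ
        (by rw [hdim]; exact (Nat.lt_pow_succ_log_self one_lt_two n).le)
    · exact FGS2.DerivedLength.derived_le_ker_of_coprime (p := p) hpF _ hP σ
        (by rw [hdim]; exact Nat.lt_pow_succ_log_self one_lt_two n)
  rw [eq_bot_iff]
  exact key.trans ((MonoidHom.ker_eq_bot_iff σ).mpr hinj).le

end Cfsg.Agent.S4010
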