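import Cfsg.Statements.S4014
import Cfsg.Agent.FGS2.DerivedLengthGL
import Cfsg.Agent.OddLocal.UniqueSubgroup
import Mathlib.GroupTheory.RegularWreathProduct
-- import your own Cfsg.Agent.* helpers here

set_option autoImplicit false
open Cfsg

namespace Cfsg.Agent.S4014

open scoped commutatorElement
open Cfsg.Agent

universe u

/-- If the orbit of `x` has size dividing `p ^ c`, the `c`-th derived subgroup fixes `x`. -/
theorem fixes {p : ℕ} [hp : Fact p.Prime] {α : Type u} (c : ℕ) :
    ∀ {P : Type u} [Group P] [Finite P] [MulAction P α], IsPGroup p P → ∀ x : α,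
      Nat.card (MulAction.orbit P x) ∣ p ^ c → ∀ g ∈ derivedSeries P c, g • x = x := by
  induction c with
  | zero =>
    intro P _ _ _ _ x h g _
    haveI := (Nat.card_eq_one_iff_unique.mp (Nat.dvd_one.mp (by simpa only [pow_zero] using h))).1
    exact congrArg Subtype.val (Subsingleton.elim
      (⟨g • x, MulAction.mem_orbit x g⟩ : MulAction.orbit P x) ⟨x, MulAction.mem_orbit_self x⟩)
  | succ c ih =>
    intro P _ _ _ hP x h g hg
    rcases eq_top_or_exists_le_coatom (MulAction.stabilizer P x) with hs | ⟨M, hM, hle⟩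
    · exact (hs ▸ Subgroup.mem_top g : g ∈ MulAction.stabilizer P x)
    haveI hPnil := hP.isNilpotent
    haveI hMn : M.Normal :=
      Subgroup.NormalizerCondition.normal_of_coatom M Group.normalizerCondition_of_isNilpotent hM
    obtain ⟨_, _, hMc⟩ := OddLocal.coatom_facts hP hM
    obtain ⟨i, hi⟩ := hP.index M
    have hi0 : i ≠ 0 := fun e => hM.1 (Subgroup.index_eq_one.mp (by rw [hi, e, pow_zero]))
    have hd : derivedSeries P 1 ≤ M := by
      rw [derivedSeries_one, commutator_def, Subgroup.commutator_le]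
      intro a _ b _
      rw [commutatorElement_def]
      exact hMc a b
    obtain ⟨y, hy, rfl⟩ := FGS2.DerivedLength.derived_succ_le_map M hd c hg
    refine ih (P := M) (hP.to_subgroup M) x ?_ y hy
    have h1 : Nat.card (MulAction.orbit P x) = (MulAction.stabilizer P x).index := by
      rw [Nat.card_congr (MulAction.orbitEquivQuotientStabilizer P x), ← Subgroup.index_eq_card]
    have h2 : Nat.card (MulAction.orbit M x) = ((MulAction.stabilizer P x).subgroupOf M).index := by
      rw [Nat.card_congr (MulAction.orbitEquivQuotientStabilizer M x), ← Subgroup.index_eq_card]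
      rfl
    have h3 := Subgroup.relIndex_mul_index hle
    rw [Subgroup.relIndex, ← h1, ← h2, hi] at h3
    rw [← h3, pow_succ] at h
    exact Nat.dvd_of_mul_dvd_mul_right hp.out.pos ((Nat.mul_dvd_mul_left _ (dvd_pow_self p hi0)).trans h)

theorem derived_le_base {D Q : Type*} [Group D] [Group Q] [Nontrivial Q] (j : ℕ) :
    ∀ w ∈ derivedSeries D j, ∃ x ∈ derivedSeries (D ≀ᵣ Q) (j + 1), x.right = 1 ∧ x.left 1 = w := by
  classical
  let π : (RegularWreathProduct.rightHom : D ≀ᵣ Q →* Q).ker →* D :=
    { toFun := fun x => (x : D ≀ᵣ Q).left 1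
      map_one' := rfl
      map_mul' := fun a b => by
        have ha : (a : D ≀ᵣ Q).right = 1 := a.2
        simp [ha] }
  suffices h : derivedSeries D j ≤
      ((derivedSeries (D ≀ᵣ Q) (j + 1)).subgroupOf RegularWreathProduct.rightHom.ker).map π by
    intro w hw
    obtain ⟨x, hx, rfl⟩ := h hw
    exact ⟨x, hx, x.2, rfl⟩
  induction j with
  | zero =>
    intro w _
    obtain ⟨q, hq⟩ := exists_ne (1 : Q)
    let x : D ≀ᵣ Q := ⟨Pi.mulSingle 1 w, 1⟩
    let t : D ≀ᵣ Q := RegularWreathProduct.inl q
    refine ⟨⟨⁅x, t⁆, ?_⟩, ?_, ?_⟩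
    · rw [MonoidHom.mem_ker, RegularWreathProduct.rightHom_eq_right]
      simp [x, t, commutatorElement_def]
    · exact Subgroup.commutator_mem_commutator (Subgroup.mem_top x) (Subgroup.mem_top t)
    · show (⁅x, t⁆ : D ≀ᵣ Q).left 1 = w
      simp [x, t, commutatorElement_def, hq]
  | succ j ih =>
    rw [derivedSeries_succ D j]
    refine (Subgroup.commutator_mono ih ih).trans ?_
    rw [← Subgroup.map_commutator]
    refine Subgroup.map_mono (Subgroup.commutator_le.mpr fun a ha b hb => ?_)
    rw [Subgroup.mem_subgroupOf, derivedSeries_succ]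
    exact Subgroup.commutator_mem_commutator ha hb

theorem wreath_ne_bot (G : Type u) [Group G] [Nontrivial G] :
    ∀ j : ℕ, derivedSeries (IteratedWreathProduct G (j + 1)) j ≠ ⊥
  | 0 => by
    obtain ⟨q, hq⟩ := exists_ne (1 : G)
    intro h
    have hmem : (RegularWreathProduct.inl q : IteratedWreathProduct G 0 ≀ᵣ G) ∈
        derivedSeries (IteratedWreathProduct G 1) 0 := Subgroup.mem_top _
    rw [h] at hmem
    exact hq (congrArg RegularWreathProduct.right (Subgroup.mem_bot.mp hmem))
  | j + 1 => fun h => by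
    refine wreath_ne_bot G j ((Subgroup.eq_bot_iff_forall _).mpr fun w hw => ?_)
    obtain ⟨x, hx, -, rfl⟩ := derived_le_base (Q := G) j w hw
    have hx1 : x = 1 := Subgroup.mem_bot.mp (h ▸ hx)
    subst hx1; rfl

/-- Let p be a prime, n ≥ 1, and P a Sylow p-subgroup of the symmetric group on n letters. Then the derived length of P is exactly k = ⌊log_p n⌋ (the largest k with p^k ≤ n): the k-th derived subgroup of P is trivial and, when k ≥ 1, the (k−1)-st is not. -/
theorem result (p : ℕ) [Fact p.Prime] (n : ℕ) (hn : 1 ≤ n) (P : Sylow p (Equiv.Perm (Fin n))) : derivedSeries ↥(P : Subgroup (Equiv.Perm (Fin n))) (Nat.log p n) = ⊥ ∧ (1 ≤ Nat.log p n → derivedSeries ↥(P : Subgroup (Equiv.Perm (Fin n))) (Nat.log p n - 1) ≠ ⊥) := by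
  classical
  have hp := (Fact.out : p.Prime)
  set k := Nat.log p n with hk
  refine ⟨?_, fun hk1 => ?_⟩
  · rw [Subgroup.eq_bot_iff_forall]
    intro g hg
    refine Subtype.ext (Equiv.ext fun x => ?_)
    obtain ⟨j, hj⟩ := P.2.card_orbit x
    have hjk : j ≤ k := Nat.le_log_of_pow_le hp.one_lt (by
      rw [← hj]
      exact (Finite.card_subtype_le _).trans_eq (Nat.card_fin n))
    exact fixes k P.2 x (hj ▸ pow_dvd_pow p hjk) g hg
  · obtain ⟨j, hj⟩ : ∃ j, k = j + 1 := ⟨k - 1, by omega⟩
    have hsub : j + 1 - 1 = j := rfl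
    rw [hj, hsub]
    set G := Multiplicative (ZMod p)
    have hG : Nat.card G = p := Nat.card_zmod p
    haveI : Nontrivial G := Finite.one_lt_card_iff_nontrivial.mp (hG ▸ hp.one_lt)
    have hle : p ^ (j + 1) ≤ n := hj ▸ Nat.pow_log_le_self p (by omega)
    haveI : Fintype G := Fintype.ofFinite G
    obtain ⟨ι⟩ : Nonempty ((Fin (j + 1) → G) ↪ Fin n) :=
      Function.Embedding.nonempty_of_card_le (by
        rw [Fintype.card_fun, Fintype.card_fin, Fintype.card_fin, ← Nat.card_eq_fintype_card, hG]
        exact hle)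
    let f : IteratedWreathProduct G (j + 1) →* Equiv.Perm (Fin n) :=
      (Equiv.Perm.viaEmbeddingHom ι).comp (iteratedWreathToPermHom G (j + 1))
    have hf : Function.Injective f :=
      (Equiv.Perm.viaEmbeddingHom_injective ι).comp (iteratedWreathToPermHomInj G (j + 1))
    have hR : IsPGroup p f.range :=
      (IsPGroup.of_card (n := ∑ i ∈ Finset.range (j + 1), p ^ i) (p := p)
        (by rw [IteratedWreathProduct.card, hG])).of_surjective _ f.rangeRestrict_surjective
    obtain ⟨Q, hQ⟩ := hR.exists_le_sylow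
    let g : IteratedWreathProduct G (j + 1) →* (P : Subgroup (Equiv.Perm (Fin n))) :=
      (Q.equiv P).toMonoidHom.comp ((Subgroup.inclusion hQ).comp f.rangeRestrict)
    have hg : Function.Injective g :=
      (Q.equiv P).injective.comp ((Subgroup.inclusion_injective hQ).comp
        fun a b h => hf (congrArg Subtype.val h))
    intro h
    refine wreath_ne_bot G j ((Subgroup.map_eq_bot_iff_of_injective _ hg).mp (le_bot_iff.mp ?_))
    exact (map_derivedSeries_le_derivedSeries g j).trans h.le

end Cfsg.Agent.S4014
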