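import Cfsg.Statements.S3058
import Cfsg.Agent.LocalEven.SylowGraph
import Cfsg.Agent.Coprime.Generation
import Cfsg.Agent.LocalEven.Commutator

set_option autoImplicit false
open Cfsg

open scoped commutatorElement

namespace Cfsg.Agent.S3058

/-- Let p be a prime and G a finite group whose Sylow p-subgroups are not chain-connected through nontrivial intersections (so G has a strongly p-embedded subgroup). If N and M are normal subgroups of G whose orders are both divisible by p, then the order of N ∩ M is divisible by p. Consequently, among the normal subgroups of G whose order is divisible by p there is a smallest one (the intersection of all of them). -/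
theorem result {G : Type*} [Group G] [Finite G]
    (p : ℕ) [Fact p.Prime] (hG : ¬ Cfsg.IsSylowChainConnected p G)
    (N M : Subgroup G) [N.Normal] [M.Normal] (hN : p ∣ Nat.card N) (hM : p ∣ Nat.card M) :
    p ∣ Nat.card ↥(N ⊓ M) := by
  classical
  obtain ⟨H, hH⟩ := LocalEven.exists_spe_of_not_connected hG
  have hpp := (Fact.out : p.Prime)
  by_contra hK
  obtain ⟨P, hPH, -⟩ := LocalEven.spe_exists_sylow hH
  have hnorm : ∀ Q : Subgroup G, IsPGroup p Q → Q ≤ H → Q ≠ ⊥ → Subgroup.normalizer (Q : Set G) ≤ H :=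
    fun Q h1 h2 h3 => LocalEven.spe_normalizer_le hH h1 h2 h3
  -- elements of order `p` in `N` and `M` that lie in `H`
  have hel : ∀ X : Subgroup G, X.Normal → p ∣ Nat.card X → ∃ x ∈ X, x ∈ (P : Subgroup G) ∧ orderOf x = p := by
    intro X hX hd
    obtain ⟨⟨x, hx⟩, hxp⟩ := exists_prime_orderOf_dvd_card' p hd
    rw [Subgroup.orderOf_mk] at hxp
    obtain ⟨R, -, hR, hPR, k, -, hkR⟩ := LocalEven.exists_cj_le_common (K := ⊤) P.isPGroup'
      (LocalEven.isPGroup_zpowers_of_orderOf ⟨1, by rw [pow_one]; exact hxp⟩) le_top le_top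
    rw [P.is_maximal' hR hPR] at hkR
    refine ⟨k * x * k⁻¹, hX.conj_mem x hx k, hkR (LocalEven.conj_mem_cj (Subgroup.mem_zpowers x)), ?_⟩
    rw [← hxp]; exact orderOf_injective (MulAut.conj k).toMonoidHom (MulAut.conj k).injective x
  obtain ⟨a, haN, haP, hap⟩ := hel N inferInstance hN
  obtain ⟨b, hbM, hbP, hbp⟩ := hel M inferInstance hM
  set K := N ⊓ M with hKdef
  haveI : K.Normal := inferInstance
  have hKP : K ⊓ (P : Subgroup G) = ⊥ := by
    rw [← Subgroup.card_eq_one]
    obtain ⟨k, hk⟩ := IsPGroup.iff_card.mp (P.isPGroup'.to_le (inf_le_right : K ⊓ (P : Subgroup G) ≤ P))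
    cases k with
    | zero => simpa using hk
    | succ k => exact absurd ((dvd_pow_self p k.succ_ne_zero).trans (hk ▸ Subgroup.card_dvd_of_le inf_le_left)) hK
  have hab : a * b = b * a := by
    have h1 : ⁅a, b⁆ ∈ K ⊓ (P : Subgroup G) := by
      rw [commutatorElement_def]
      refine Subgroup.mem_inf.mpr ⟨Subgroup.mem_inf.mpr ⟨?_, ?_⟩, mul_mem (mul_mem (mul_mem haP hbP) (inv_mem haP)) (inv_mem hbP)⟩
      · have : b * a⁻¹ * b⁻¹ ∈ N := (inferInstance : N.Normal).conj_mem _ (inv_mem haN) b
        simpa [mul_assoc] using mul_mem haN this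
      · exact mul_mem ((inferInstance : M.Normal).conj_mem _ hbM a) (inv_mem hbM)
    rw [hKP, Subgroup.mem_bot] at h1
    exact commutatorElement_eq_one_iff_mul_comm.mp h1
  have hne : ∀ x : G, orderOf x = p → x ≠ 1 := fun x h e => hpp.one_lt.ne (by rw [← h, e, orderOf_one])
  have hcent : ∀ x : G, x ≠ 1 → (∃ k, orderOf x = p ^ k) → x ∈ H → Subgroup.centralizer {x} ≤ H := by
    intro x hx hk hxH
    rw [← Subgroup.centralizer_closure, ← Subgroup.zpowers_eq_closure]
    exact (Subgroup.centralizer_le_normalizer _).trans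
      (hnorm _ (LocalEven.isPGroup_zpowers_of_orderOf hk) (Subgroup.zpowers_le.mpr hxH) (by simpa using hx))
  -- `K ≤ H`
  set E := Subgroup.zpowers a ⊔ Subgroup.zpowers b with hE
  have hEP : E ≤ (P : Subgroup G) := sup_le (Subgroup.zpowers_le.mpr haP) (Subgroup.zpowers_le.mpr hbP)
  haveI : IsMulCommutative E := by
    rw [hE, Subgroup.zpowers_eq_closure, Subgroup.zpowers_eq_closure, ← Subgroup.closure_union]
    refine Subgroup.isMulCommutative_closure ?_
    rintro x (rfl | rfl) y (rfl | rfl) <;> first | rfl | exact hab | exact hab.symm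
  have hnc : ¬ IsCyclic E := by
    intro hc
    set a' : E := ⟨a, (le_sup_left : _ ≤ E) (Subgroup.mem_zpowers a)⟩
    set b' : E := ⟨b, (le_sup_right : _ ≤ E) (Subgroup.mem_zpowers b)⟩
    have ha' : orderOf a' = p := by rw [← Subgroup.orderOf_coe]; exact hap
    have hb' : orderOf b' = p := by rw [← Subgroup.orderOf_coe]; exact hbp
    have hexp : ∀ x : E, x ^ p = 1 := by
      intro x
      let S : Subgroup E :=
        { carrier := {x | x ^ p = 1}
          one_mem' := one_pow p
          mul_mem' := fun {u v} hu hv => by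
            show (u * v) ^ p = 1
            rw [(show Commute u v from mul_comm' u v).mul_pow, hu, hv, one_mul]
          inv_mem' := fun {u} hu => by show (u⁻¹) ^ p = 1; rw [inv_pow, hu, inv_one] }
      have ha2 : a' ∈ S := by show a' ^ p = 1; rw [← ha', pow_orderOf_eq_one]
      have hb2 : b' ∈ S := by show b' ^ p = 1; rw [← hb', pow_orderOf_eq_one]
      have h1 : E ≤ S.map E.subtype :=
        sup_le (Subgroup.zpowers_le.mpr ⟨a', ha2, rfl⟩) (Subgroup.zpowers_le.mpr ⟨b', hb2, rfl⟩)
      obtain ⟨y, hy, e⟩ := h1 x.2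
      rwa [Subtype.ext e] at hy
    have hd : Monoid.exponent E ∣ p := Monoid.exponent_dvd_of_forall_pow_eq_one hexp
    rw [IsCyclic.exponent_eq_card] at hd
    have htop : Subgroup.zpowers b' = ⊤ := Subgroup.eq_top_of_card_eq _ (le_antisymm
      (Subgroup.card_le_card_group _) (by rw [Nat.card_zpowers, hb']; exact Nat.le_of_dvd hpp.pos hd))
    have h2 : a' ∈ Subgroup.zpowers b' := htop ▸ Subgroup.mem_top a'
    obtain ⟨i, hi⟩ := h2
    have h3 : a ∈ M := by
      have := congrArg Subtype.val hi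
      simp only [Subgroup.coe_zpow] at this
      rw [show a = b ^ i from this.symm]
      exact M.zpow_mem hbM i
    exact hne a hap (Subgroup.mem_bot.mp (hKP ▸ Subgroup.mem_inf.mpr ⟨Subgroup.mem_inf.mpr ⟨haN, h3⟩, haP⟩))
  have hKH : K ≤ H := by
    have hcop : (Nat.card E).Coprime (Nat.card K) := by
      obtain ⟨k, hk⟩ := IsPGroup.iff_card.mp (P.isPGroup'.to_le hEP)
      rw [hk]
      exact (hpp.coprime_iff_not_dvd.mpr hK).pow_left k
    rw [← Coprime.eq_centralizerJoin hnc (by rw [Subgroup.normalizer_eq_top K]; exact le_top) hcop]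
    refine iSup_le fun ⟨e, he, h1⟩ => inf_le_right.trans (hcent e h1 ?_ (hPH (hEP he)))
    obtain ⟨k, hk⟩ := IsPGroup.iff_orderOf.mp P.isPGroup' ⟨e, hEP he⟩
    exact ⟨k, by rw [← hk, Subgroup.orderOf_mk]⟩
  -- `M ≤ H`
  have hMH : M ≤ H := by
    intro g hg
    set Q := Subgroup.zpowers a ⊔ K with hQ
    have hga : g * a * g⁻¹ * a⁻¹ ∈ K := by
      refine Subgroup.mem_inf.mpr ⟨mul_mem ((inferInstance : N.Normal).conj_mem _ haN g) (inv_mem haN), ?_⟩
      simpa [mul_assoc] using mul_mem hg ((inferInstance : M.Normal).conj_mem _ (inv_mem hg) a)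
    have hQH : Q ≤ H := sup_le (Subgroup.zpowers_le.mpr (hPH haP)) hKH
    have hgH : g * a * g⁻¹ ∈ H := by
      have : g * a * g⁻¹ ∈ Q := by
        have := mul_mem ((le_sup_right : K ≤ Q) hga) ((le_sup_left : _ ≤ Q) (Subgroup.mem_zpowers a))
        simpa using this
      exact hQH this
    exact LocalEven.spe_mem_of_conj hH (hne a hap) ⟨1, by rw [pow_one]; exact hap⟩ (hPH haP) hgH
  -- Frattini argument
  obtain ⟨Q⟩ : Nonempty (Sylow p M) := inferInstance
  have hfr := Sylow.normalizer_sup_eq_top Q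
  have hQ1 : (Q : Subgroup M).map M.subtype ≠ ⊥ := fun e =>
    Q.ne_bot_of_dvd_card hM ((Subgroup.map_eq_bot_iff_of_injective _ M.subtype_injective).mp e)
  exact LocalEven.spe_ne_top hH (top_le_iff.mp (hfr ▸ sup_le
    (hnorm _ (Q.isPGroup'.map _) ((Subgroup.map_subtype_le _).trans hMH) hQ1) hMH))


end Cfsg.Agent.S3058
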