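import Cfsg.Statements.S0244
import Mathlib
-- import your own Cfsg.Agent.* helpers here

set_option autoImplicit false
open Cfsg

namespace Cfsg.Agent.S0244

/-- Sp_2 = SL_2: a matrix on Fin 1 ⊕ Fin 1 lies in Mathlib's symplectic group iff its determinant is 1. -/
theorem result {R : Type*} [CommRing R] (A : Matrix (Fin 1 ⊕ Fin 1) (Fin 1 ⊕ Fin 1) R) : A ∈ Matrix.symplecticGroup (Fin 1) R ↔ A.det = 1 := by
  have h : A * Matrix.J (Fin 1) R * A.transpose = A.det • Matrix.J (Fin 1) R := by
    have e0 : (finSumFinEquiv (m := 1) (n := 1)).symm 0 = Sum.inl 0 := rfl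
    have e1 : (finSumFinEquiv (m := 1) (n := 1)).symm 1 = Sum.inr 0 := rfl
    rw [← Matrix.det_submatrix_equiv_self finSumFinEquiv.symm A, Matrix.det_fin_two]
    simp only [Matrix.submatrix_apply, e0, e1]
    ext (i | i) (j | j) <;> fin_cases i <;> fin_cases j <;>
      simp [Matrix.mul_apply, Matrix.J, Fintype.sum_sum_type] <;> ring
  rw [SymplecticGroup.mem_iff, h]
  constructor
  · intro he
    have h1 := congr_fun (congr_fun he (Sum.inr 0)) (Sum.inl 0)
    simpa [Matrix.J] using h1
  · intro he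
    rw [he, one_smul]

end Cfsg.Agent.S0244
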