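import Cfsg.Statements.S2411
import Cfsg.Agent.Screen.TwoGen.Symp
import Cfsg.Agent.S2405
import Cfsg.Agent.Forms.SpFourAdjoint

set_option autoImplicit false
open Cfsg

namespace Cfsg.Agent.S2411

/-- PSp_{2m}(q), m ≥ 2, (m,q) ≠ (2,2), is generated by two elements. -/
theorem result {F : Type*} [Field F] [Fintype F] (m : ℕ) (hm : 2 ≤ m) (hF : m = 2 → 2 < Fintype.card F) :
    ∃ a b : Cfsg.PSp m F, Subgroup.closure ({a, b} : Set (Cfsg.PSp m F)) = ⊤ := by
  classical
  rcases eq_or_lt_of_le hm with rfl | hm3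
  · obtain ⟨a, b, h⟩ := Cfsg.Agent.S2405.result (F := F) Cfsg.Lie.chevB2 (by simp) fun _ => by
      by_contra hcon
      push Not at hcon
      have h2 : (Finset.univ : Finset F) ⊆ {0, 1} := fun x _ => by
        simp only [Finset.mem_insert, Finset.mem_singleton]
        exact or_iff_not_imp_left.2 (hcon x)
      have := Finset.card_le_card h2
      rw [Finset.card_univ, Finset.card_pair zero_ne_one] at this
      have := hF rfl
      omega
    let e := Cfsg.Agent.Forms.chevB2EquivPSp (F := F)
    refine ⟨e.symm a, e.symm b, ?_⟩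
    rw [← Set.image_pair]
    change Subgroup.closure (e.symm.toMonoidHom '' {a, b}) = ⊤
    rw [← MonoidHom.map_closure, h]
    exact Subgroup.map_top_of_surjective _ e.symm.surjective
  · obtain ⟨k, rfl⟩ : ∃ k, m = k + 3 := ⟨m - 3, by omega⟩
    obtain ⟨a, b, h⟩ := Cfsg.Agent.Screen.TwoGen.Symp.exists_two_generators (F := F) k
    refine ⟨QuotientGroup.mk' _ a, QuotientGroup.mk' _ b, ?_⟩
    rw [← Set.image_pair, ← MonoidHom.map_closure, h]
    exact Subgroup.map_top_of_surjective _ (QuotientGroup.mk'_surjective _)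

end Cfsg.Agent.S2411
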