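import Cfsg.Statements.S4210
import Cfsg.Agent.FGS3.Regular
-- import your own Cfsg.Agent.* helpers here

set_option autoImplicit false
open Cfsg

namespace Cfsg.Agent.S4210

/-- In a regular `p`-group, for all elements `a`, `b` and every power `q = p^k`: `a^q = b^q` if and only if `(ab⁻¹)^q = 1`. -/
theorem result {G : Type*} [Group G] [Finite G] {p : ℕ} [Fact p.Prime] (hG : Cfsg.IsRegularPGroup p G) (a b : G) (k : ℕ) : a ^ p ^ k = b ^ p ^ k ↔ (a * b⁻¹) ^ p ^ k = 1 := by
  have hR : Cfsg.Agent.FGS3.Regular.RegAt p k G := fun x y => hG.2 x y k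
  rw [Cfsg.Agent.FGS3.Regular.pow_eq_pow_iff hG.1 hR]
  rw [show a * b⁻¹ = a * (a⁻¹ * b)⁻¹ * a⁻¹ by group, conj_pow, inv_pow]
  constructor
  · intro h; rw [h]; group
  · intro h
    have h2 := congrArg (fun t => a⁻¹ * t * a) h
    simp only [mul_assoc, inv_mul_cancel_left, inv_mul_cancel, mul_one, one_mul] at h2
    exact inv_eq_one.1 h2

end Cfsg.Agent.S4210
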