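import Cfsg.Statements.S0271
import Cfsg.Agent.Forms.SympOrder

set_option autoImplicit false
open Cfsg

namespace Cfsg.Agent.S0271

/-- Sp_{2m}(F) is transitive on non-zero vectors. -/
theorem result {F : Type*} [Field F] (m : ℕ) (v w : Fin m ⊕ Fin m → F) (hv : v ≠ 0) (hw : w ≠ 0) : ∃ g : Matrix.symplecticGroup (Fin m) F, (g : Matrix (Fin m ⊕ Fin m) (Fin m ⊕ Fin m) F).mulVec v = w := by
  obtain ⟨g, hg⟩ := Forms.isForm_symp.exists_isom_of_sameGram (ι := Fin 1) (v := fun _ => v)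
    (w := fun _ => w) (linearIndependent_unique_iff.2 hv) (linearIndependent_unique_iff.2 hw)
    ⟨fun _ _ => by rw [Forms.sympB_isAlt w, Forms.sympB_isAlt v], fun _ => rfl⟩
  exact ⟨(Forms.spEquiv m F).symm g, (Forms.spEquiv_symm_apply m F g v).trans (hg 0)⟩

end Cfsg.Agent.S0271
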