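import Cfsg.Statements.S2723
import Cfsg.Agent.KnownB.Proj.Orth.PgoModels

set_option autoImplicit false
open Cfsg

namespace Cfsg.Agent.S2723
open Cfsg.Agent.KnownB.Proj.Orth

/-- Let T = PΩ⁺_{2m}(F) with m ≥ 4 and |F| = q odd. The image of the special orthogonal group in Aut(T) contains the inner automorphism group T with index 1 (they coincide) when m is odd and q ≡ 3 (mod 4), and with index 2 otherwise (the index is 2 exactly when the discriminant of the form is a square). -/
theorem result {F : Type*} [Field F] [Fintype F] (hodd : Odd (Fintype.card F)) {m : ℕ} (hm : 4 ≤ m) :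
    ((Odd m ∧ Fintype.card F % 4 = 3) → (Cfsg.Inn (Cfsg.POmega F (Cfsg.quadFormPlus m F))).relIndex (Cfsg.psoAut F (Cfsg.quadFormPlus m F)) = 1) ∧ (¬ (Odd m ∧ Fintype.card F % 4 = 3) → (Cfsg.Inn (Cfsg.POmega F (Cfsg.quadFormPlus m F))).relIndex (Cfsg.psoAut F (Cfsg.quadFormPlus m F)) = 2) := by
  have h := (pgo_pso_plus (F := F) hodd hm).2
  have h4 := Forms.pow_mod_four (m := m) (Nat.odd_iff.mp hodd)
  have hpos : 1 ≤ Fintype.card F ^ m := Nat.one_le_pow _ _ Fintype.card_pos
  rw [Nat.gcd_rec] at h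
  refine ⟨fun hc => ?_, fun hc => ?_⟩
  · rw [if_pos ⟨hc.2, hc.1⟩] at h4
    rw [show (Fintype.card F ^ m - 1) % 4 = 2 by omega] at h
    simp only [show Nat.gcd 2 4 = 2 by decide, Nat.gcd_zero_left] at h
    omega
  · rw [if_neg (fun hh => hc ⟨hh.2, hh.1⟩)] at h4
    rw [show (Fintype.card F ^ m - 1) % 4 = 0 by omega] at h
    simp only [show Nat.gcd 2 4 = 2 by decide, Nat.gcd_zero_left] at h
    omega

end Cfsg.Agent.S2723
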