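import Cfsg.Statements.S2727
import Cfsg.Agent.KnownB.Proj.Orth.PgoModels

set_option autoImplicit false
open Cfsg

namespace Cfsg.Agent.S2727
open Cfsg.Agent.KnownB.Proj.Orth

/-- Let T = PΩ⁻_{2m+2}(F) with m ≥ 3 and |F| = q odd (form with anisotropic binary part). The image of the special orthogonal group in Aut(T) contains the inner automorphism group T with index 2 when m is even and q ≡ 3 (mod 4), and coincides with it otherwise (the index is 2 exactly when the discriminant of the form is a square). -/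
theorem result {F : Type*} [Field F] [Fintype F] (hodd : Odd (Fintype.card F)) {m : ℕ} (hm : 3 ≤ m) (a b : F) (hab : (∀ z₁ z₂ : F, z₁ ^ 2 + a * z₁ * z₂ + b * z₂ ^ 2 = 0 → z₁ = 0 ∧ z₂ = 0)) :
    ((Even m ∧ Fintype.card F % 4 = 3) → (Cfsg.Inn (Cfsg.POmega F (Cfsg.quadFormMinus m F a b))).relIndex (Cfsg.psoAut F (Cfsg.quadFormMinus m F a b)) = 2) ∧ (¬ (Even m ∧ Fintype.card F % 4 = 3) → (Cfsg.Inn (Cfsg.POmega F (Cfsg.quadFormMinus m F a b))).relIndex (Cfsg.psoAut F (Cfsg.quadFormMinus m F a b)) = 1) := by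
  have h := (pgo_pso_minus (F := F) hodd hm hab).2
  have h4 := Forms.pow_mod_four (m := m + 1) (Nat.odd_iff.mp hodd)
  rw [Nat.gcd_rec] at h
  refine ⟨fun hc => ?_, fun hc => ?_⟩
  · rw [if_pos ⟨hc.2, hc.1.add_one⟩] at h4
    rw [show (Fintype.card F ^ (m + 1) + 1) % 4 = 0 by omega] at h
    simp only [show Nat.gcd 2 4 = 2 by decide, Nat.gcd_zero_left] at h
    omega
  · rw [if_neg (fun hh => hc ⟨by
      have := hh.2
      rw [Nat.odd_add_one, Nat.not_odd_iff_even] at this
      exact this, hh.1⟩)] at h4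
    rw [show (Fintype.card F ^ (m + 1) + 1) % 4 = 2 by omega] at h
    simp only [show Nat.gcd 2 4 = 2 by decide, Nat.gcd_zero_left] at h
    omega

end Cfsg.Agent.S2727
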