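import Cfsg.Statements.S3031
import Cfsg.Agent.LeadWork.StrongClosed
import Cfsg.Agent.Transfer.Burnside
-- import your own Cfsg.Agent.* helpers here

set_option autoImplicit false
open Cfsg

namespace Cfsg.Agent.S3031

/-- Let G be a finite group, p the smallest prime dividing |G| and P a Sylow p-subgroup. Suppose that P is cyclic, or that P has a subgroup D with 1 < |D| < |P| such that every subgroup E of P of order |D|, and also every subgroup E of P of order 4 when |D| = 2, satisfies g E g⁻¹ ∩ N_G(E) ≤ E for all g ∈ G (E is strongly closed in its normalizer with respect to G). Then G has a normal p-complement. -/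
theorem result {G : Type*} [Group G] [Finite G] {p : ℕ} [Fact p.Prime] (hdiv : p ∣ Nat.card G)
    (hmin : ∀ q : ℕ, q.Prime → q ∣ Nat.card G → p ≤ q) (P : Sylow p G)
    (h : IsCyclic ↥(P : Subgroup G) ∨ ∃ D : Subgroup G, D ≤ (P : Subgroup G) ∧ 1 < Nat.card D ∧ Nat.card D < Nat.card (P : Subgroup G) ∧
      ∀ E : Subgroup G, E ≤ (P : Subgroup G) → (Nat.card E = Nat.card D ∨ (Nat.card D = 2 ∧ Nat.card E = 4)) →
        ∀ g : G, E.map (MulAut.conj g).toMonoidHom ⊓ Subgroup.normalizer (E : Set G) ≤ E) :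
    Cfsg.HasNormalPComplement p G := by
  rcases h with hcyc | ⟨D, hDP, hD1, hDP', hD⟩
  · have hmf : (Nat.card G).minFac = p := by
      refine le_antisymm (Nat.minFac_le_of_dvd (Fact.out : p.Prime).two_le hdiv) ?_
      exact hmin _ (Nat.minFac_prime fun h1 => (Fact.out : p.Prime).one_lt.ne'
        (Nat.dvd_one.mp (h1 ▸ hdiv))) (Nat.minFac_dvd _)
    exact Transfer.hasNormalPComplement_of_normalizer_le_centralizer P
      (IsCyclic.normalizer_le_centralizer hmf hcyc)
  obtain ⟨j, hj⟩ := IsPGroup.iff_card.mp (P.2.to_le hDP)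
  have hn := fun (E : Subgroup G) (hE : E ≤ (P : Subgroup G))
      (hc : Nat.card E = p ^ j ∨ (p ^ j = 2 ∧ Nat.card E = 4)) =>
    LeadWork.le_normalizer_of_hyp P.2 hE (hD E hE (hj.symm ▸ hc))
  refine LeadWork.hasNormalPComplement_of_closed P (j := j) ?_ (hj ▸ hDP') ?_
    (fun E hE hc => hn E hE (.inl hc)) ?_
  · rcases Nat.eq_zero_or_pos j with rfl | h0
    · simp only [pow_zero] at hj; omega
    · exact h0
  · intro E hE hc x hx g hg
    exact hD E hE (hj.symm ▸ hc) g ⟨Subgroup.mem_map_of_mem _ hx, hn E hE hc hg⟩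
  · intro g
    refine Nat.coprime_of_dvd fun q hq hqg hq1 => ?_
    have h1 := hmin q hq (hqg.trans (orderOf_dvd_natCard g))
    have h2 := (Fact.out : p.Prime).two_le
    have h3 := Nat.le_of_dvd (by omega) hq1
    omega

end Cfsg.Agent.S3031
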