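import Cfsg.Statements.S0068
import Mathlib.Tactic.Group
import Mathlib.GroupTheory.Perm.Cycle.Type


set_option autoImplicit false
open Cfsg
set_option linter.style.haveILetI false
open scoped commutatorElement Pointwise

namespace Cfsg.Agent.S0068

/-- Frobenius complements of even order: if H complements a nontrivial normal subgroup K, each nonidentity element of H has trivial centraliser in K, and H has even order, then H contains a unique involution s, K is abelian, and s inverts every element of K. -/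
theorem result {G : Type*} [Group G] [Finite G] (K H : Subgroup G) [K.Normal]
    (hc : Subgroup.IsComplement' K H) (hK : K ≠ ⊥) (hfpf : ∀ h ∈ H, h ≠ 1 → K ⊓ Subgroup.centralizer {h} = ⊥)
    (heven : 2 ∣ Nat.card H) :
    (∃ s ∈ H, orderOf s = 2 ∧ (∀ t ∈ H, orderOf t = 2 → t = s) ∧ ∀ k ∈ K, s * k * s⁻¹ = k⁻¹) ∧ IsMulCommutative K := by
  obtain ⟨⟨s, hsH⟩, hs'⟩ := exists_prime_orderOf_dvd_card' (G := H) 2 heven
  have hinv : ∀ t ∈ H, orderOf t = 2 → ∀ k ∈ K, t * k * t⁻¹ = k⁻¹ := by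
    intro t ht ht2
    have ht1 : t ≠ 1 := fun e => by rw [e, orderOf_one] at ht2; omega
    have htt : t * t = 1 := by rw [← sq, ← ht2, pow_orderOf_eq_one]
    let φ : K → K := fun k => ⟨(k : G)⁻¹ * (t * k * t⁻¹),
      mul_mem (inv_mem k.2) ((inferInstance : K.Normal).conj_mem _ k.2 t)⟩
    have hinj : Function.Injective φ := by
      intro a b hab
      have h1 : (a : G)⁻¹ * (t * a * t⁻¹) = (b : G)⁻¹ * (t * b * t⁻¹) := congrArg Subtype.val hab
      have h2 : (b : G) * (a : G)⁻¹ ∈ K ⊓ Subgroup.centralizer {t} := by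
        refine ⟨K.mul_mem b.2 (K.inv_mem a.2), Subgroup.mem_centralizer_singleton_iff.mpr ?_⟩
        calc (b : G) * (a : G)⁻¹ * t = b * ((a : G)⁻¹ * (t * a * t⁻¹)) * (t * (a : G)⁻¹) * 1 := by group
          _ = b * ((b : G)⁻¹ * (t * b * t⁻¹)) * (t * (a : G)⁻¹) * 1 := by rw [h1]
          _ = t * ((b : G) * (a : G)⁻¹) := by group
      rw [hfpf t ht ht1, Subgroup.mem_bot, mul_inv_eq_one] at h2
      exact Subtype.ext h2.symm
    intro k hk
    obtain ⟨⟨x, hx⟩, hxk⟩ := Finite.surjective_of_injective hinj ⟨k, hk⟩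
    have he : x⁻¹ * (t * x * t⁻¹) = k := congrArg Subtype.val hxk
    have ht' : t⁻¹ = t := inv_eq_of_mul_eq_one_left htt
    rw [← he, ht']
    simp only [mul_inv_rev, inv_inv, ht', mul_assoc, htt, mul_one]
  have hs2 : orderOf s = 2 := by rw [← hs', Subgroup.orderOf_mk]
  refine ⟨⟨s, hsH, hs2, fun t ht ht2 => ?_, hinv s hsH hs2⟩, ⟨⟨fun a b => Subtype.ext ?_⟩⟩⟩
  · by_contra hne
    have h1 : s * t⁻¹ ≠ 1 := fun e => hne (mul_inv_eq_one.mp e).symm
    refine hK (le_bot_iff.mp fun k hk => ?_)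
    rw [← hfpf _ (mul_mem hsH (inv_mem ht)) h1]
    refine ⟨hk, Subgroup.mem_centralizer_singleton_iff.mpr ?_⟩
    have e1 := hinv s hsH hs2 k hk
    have e2 := hinv t ht ht2 k hk
    -- `s` and `t` both invert `k`, hence `t⁻¹ k t = k⁻¹`
    have e3 : t⁻¹ * k * t = k⁻¹ := by
      have h := hinv t ht ht2 (t⁻¹ * k * t)
        (by simpa [mul_assoc] using (inferInstance : K.Normal).conj_mem k hk t⁻¹)
      rw [show t * (t⁻¹ * k * t) * t⁻¹ = k by group] at h
      exact inv_eq_iff_eq_inv.mp h.symm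
    calc k * (s * t⁻¹) = (k⁻¹)⁻¹ * (s * t⁻¹) := by rw [inv_inv]
      _ = (s * k * s⁻¹)⁻¹ * (s * t⁻¹) := by rw [e1]
      _ = s * k⁻¹ * t⁻¹ := by group
      _ = s * (t⁻¹ * k * t) * t⁻¹ := by rw [e3]
      _ = s * t⁻¹ * k := by group
  · have e := hinv s hsH hs2 (a * b) (mul_mem a.2 b.2)
    have e' : s * ((a : G) * b) * s⁻¹ = (s * a * s⁻¹) * (s * b * s⁻¹) := by group
    rw [e', hinv s hsH hs2 a a.2, hinv s hsH hs2 b b.2, ← mul_inv_rev, inv_inj] at e
    exact e.symm
end Cfsg.Agent.S0068
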