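import Cfsg.Statements.S4296
import Mathlib.GroupTheory.SpecificGroups.Quaternion
import Cfsg.Agent.FGS4.QuatFPF
import Cfsg.Agent.S0040
import Cfsg.Agent.S0068
import Cfsg.Agent.PermGroups.FrobeniusKernel

set_option autoImplicit false
open Cfsg

namespace Cfsg.Agent.S4296

open Subgroup

theorem kernel_square {L : Type*} [Group L] [Finite L] (H : Subgroup L) (hF : Cfsg.IsFrobeniusComplement H)
    (hZ : ∃ (p : ℕ) (_ : Fact p.Prime) (P : Sylow p H), ¬ IsCyclic P) :
    Odd (Nat.card (Cfsg.frobeniusKernel H)) ∧ IsSquare (Nat.card (Cfsg.frobeniusKernel H)) := by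
  obtain ⟨N, hN, hNn, hc⟩ := PermGroups.Frobenius.exists_kernel hF
  haveI := hNn
  have hcard : Nat.card (Cfsg.frobeniusKernel H) = Nat.card N := by rw [← hN]; rfl
  have hidx : Nat.card N = H.index := by
    rw [← hcard, PermGroups.Frobenius.natCard_kernel hF]
  have hN1 : N ≠ ⊥ := fun h => hF.2.1 (index_eq_one.mp (by rw [← hidx, h, card_bot]))
  have hfpf : ∀ h ∈ H, h ≠ 1 → N ⊓ Subgroup.centralizer {h} = ⊥ := fun h hh h1 => by
    rw [eq_bot_iff]
    rintro k ⟨hk, hkc⟩
    exact PermGroups.Frobenius.centralizer_kernel_eq_one hF hc.disjoint hh h1 hk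
      (Subgroup.mem_centralizer_singleton_iff.mp hkc).symm
  obtain ⟨p, hp, P, hP⟩ := hZ
  obtain ⟨n, ⟨e⟩⟩ := (Cfsg.Agent.S0040.result N H hc hN1 hfpf p P).resolve_left hP
  set m := 2 ^ n with hm
  haveI : NeZero m := ⟨pow_ne_zero _ two_ne_zero⟩
  have hPc : Nat.card P = 4 * m := by
    rw [Nat.card_congr e.toEquiv, Nat.card_eq_fintype_card, QuaternionGroup.card]
  have heven : 2 ∣ Nat.card H :=
    dvd_trans ⟨2 * m, by rw [hPc]; ring⟩ (P : Subgroup H).card_subgroup_dvd_card
  obtain ⟨⟨s, hsH, hs2, huniq, hinv⟩, hcomm⟩ := Cfsg.Agent.S0068.result N H hc hN1 hfpf heven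
  haveI := hcomm
  have hodd : Odd (Nat.card N) := by
    have := PermGroups.Frobenius.coprime hF
    rw [← hidx] at this
    exact Nat.coprime_two_left.mp (this.coprime_dvd_left heven)
  refine ⟨hcard.symm ▸ hodd, hcard.symm ▸ ?_⟩
  -- the quaternion pair in `H`
  have hn : n ≠ 0 := by
    rintro rfl
    haveI : IsCyclic (QuaternionGroup m) := isCyclic_of_orderOf_eq_card (QuaternionGroup.xa 0)
      (by rw [QuaternionGroup.orderOf_xa, Nat.card_eq_fintype_card, QuaternionGroup.card, hm, pow_zero, mul_one])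
    exact hP (isCyclic_of_surjective e.symm.toMonoidHom e.symm.surjective)
  obtain ⟨k, hk⟩ : ∃ k, m = 2 * k := ⟨2 ^ (n - 1), by rw [hm, ← pow_succ']; congr 1; omega⟩
  let g : QuaternionGroup m → L := fun q => ((e.symm q : P) : H)
  have gmul : ∀ q r, g (q * r) = g q * g r := fun q r => by simp [g]
  have gH : ∀ q, g q ∈ H := fun q => ((e.symm q : P) : H).2
  have hz : g (QuaternionGroup.a (m : ZMod (2 * m))) = s := by
    refine huniq _ (gH _) ?_
    have : orderOf (QuaternionGroup.a (m : ZMod (2 * m))) = 2 := by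
      refine orderOf_eq_prime ?_ ?_
      · rw [sq, QuaternionGroup.a_mul_a, QuaternionGroup.one_def]
        congr 1
        rw [← Nat.cast_add, ← two_mul]
        exact ZMod.natCast_self _
      · rw [QuaternionGroup.one_def]
        intro h
        injection h with h
        rw [ZMod.natCast_eq_zero_iff] at h
        have := Nat.le_of_dvd (Nat.pos_of_neZero m) h
        have := Nat.pos_of_neZero m
        omega
    simp only [g]
    rw [Subgroup.orderOf_coe, Subgroup.orderOf_coe, MulEquiv.orderOf_eq, this]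
  let act : L →* MulAut N := MulAut.conjNormal
  have hs : ∀ x : N, act s x = x⁻¹ := fun x => Subtype.ext (hinv x x.2)
  have hc2 : ∀ (a b : L) (x : N), act (a * b) x = act a (act b x) := fun a b x => by
    rw [map_mul]; rfl
  letI : CommGroup N := { N.toGroup with mul_comm := hcomm.1.1 }
  set qi : QuaternionGroup m := QuaternionGroup.a (k : ZMod (2 * m))
  set qj : QuaternionGroup m := QuaternionGroup.xa 0
  set z : QuaternionGroup m := QuaternionGroup.a (m : ZMod (2 * m))
  have hii : qi * qi = z := by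
    simp only [qi, z, QuaternionGroup.a_mul_a]
    congr 1
    rw [← Nat.cast_add, ← two_mul, hk]
  have hjj : qj * qj = z := by simp [qj, z, QuaternionGroup.xa_mul_xa]
  have hijz : qi * qj = z * (qj * qi) := by
    simp only [qi, qj, z, QuaternionGroup.a_mul_xa, QuaternionGroup.xa_mul_a]
    congr 1
    rw [zero_sub, zero_add, hk]
    push_cast
    ring
  exact FGS4.Quat.isSquare_card _ N (act (g qi)) (act (g qj)) rfl hodd
    (fun x => by rw [← hc2, ← gmul, hii, hz, hs]) (fun x => by rw [← hc2, ← gmul, hjj, hz, hs])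
    (fun x => by rw [← hc2, ← gmul, hijz, gmul, hz, hc2, hs, gmul, hc2])


/-- Let H be a Frobenius complement in a finite group, and suppose some Sylow subgroup of H is not cyclic. Then the number of elements of the Frobenius kernel (the identity together with the elements lying in no conjugate of H) is an odd perfect square. -/
theorem result {L : Type*} [Group L] [Finite L] (H : Subgroup L) (hF : Cfsg.IsFrobeniusComplement H)
    (hZ : ∃ (p : ℕ) (_ : Fact p.Prime) (P : Sylow p H), ¬ IsCyclic P) :
    Odd (Nat.card (Cfsg.frobeniusKernel H)) ∧ IsSquare (Nat.card (Cfsg.frobeniusKernel H)) := by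
  exact kernel_square H hF hZ

end Cfsg.Agent.S4296
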