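import Cfsg.Statements.S4295
import Cfsg.Agent.S4296
import Cfsg.Agent.FGS4.FrobeniusFPF
import Mathlib.GroupTheory.SpecificGroups.Quaternion
import Mathlib.NumberTheory.SumTwoSquares
import Mathlib.FieldTheory.Finite.Basic
import Mathlib.Data.Nat.Factors
import Mathlib.GroupTheory.SemidirectProduct

set_option autoImplicit false
open Cfsg

namespace Cfsg.Agent.S4295

open QuaternionGroup

theorem pow_eq_of_cast {M : Type*} [Monoid M] {A : M} (hA : A ^ 4 = 1) {x y : ℕ}
    (h : (x : ZMod 4) = y) : A ^ x = A ^ y := by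
  rw [ZMod.natCast_eq_natCast_iff'] at h
  rw [pow_eq_pow_mod x hA, pow_eq_pow_mod y hA, h]

/-- The homomorphism out of the quaternion group defined by a pair of relations. -/
def quatHom {M : Type*} [Monoid M] (A X : M) (hA : A ^ 4 = 1) (hX : X * X = A ^ 2)
    (hAX : A * X = X * A ^ 3) : QuaternionGroup 2 →* M where
  toFun
    | .a i => A ^ ((i : ZMod 4).val)
    | .xa i => X * A ^ ((i : ZMod 4).val)
  map_one' := pow_zero A
  map_mul' := by
    have hk : ∀ k, A ^ k * X = X * A ^ (3 * k) := by
      intro k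
      induction k with
      | zero => simp
      | succ k ih =>
        rw [pow_succ, mul_assoc, hAX, ← mul_assoc, ih, mul_assoc, ← pow_add, mul_add, mul_one]
    have h3 : (3 : ZMod 4) = -1 := rfl
    have h4 : (4 : ZMod 4) = 0 := rfl
    rintro (i | i) (j | j) <;> simp only [a_mul_a, a_mul_xa, xa_mul_a, xa_mul_xa]
    · rw [← pow_add]
      exact pow_eq_of_cast hA (by simp)
    · rw [← mul_assoc, hk, mul_assoc, ← pow_add]
      refine congrArg (X * ·) (pow_eq_of_cast hA ?_)
      simp [h3]; ring
    · rw [mul_assoc, ← pow_add]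
      exact congrArg (X * ·) (pow_eq_of_cast hA (by simp))
    · rw [mul_assoc X, ← mul_assoc (A ^ _) X, hk, mul_assoc X, ← mul_assoc X X, hX, ← pow_add,
        ← pow_add]
      refine pow_eq_of_cast hA ?_
      simp [h3]; ring

theorem quatHom_z {M : Type*} [Monoid M] (A X : M) (hA : A ^ 4 = 1) (hX : X * X = A ^ 2)
    (hAX : A * X = X * A ^ 3) : quatHom A X hA hX hAX (.a 2) = A ^ 2 := rfl

theorem sq_cases : ∀ h : QuaternionGroup 2, h = 1 ∨ h = .a 2 ∨ h * h = .a 2 := by decide

theorem exists_group (q : ℕ) (ho : Odd q) (h1 : 1 < q) :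
    ∃ (L : Type) (_ : Group L) (_ : Finite L) (H : Subgroup L), Cfsg.IsFrobeniusComplement H ∧
        Nonempty (H ≃* QuaternionGroup 2) ∧ Nat.card (Cfsg.frobeniusKernel H) = q * q := by
  classical
  let l : Fin q.primeFactorsList.length → ℕ := fun i => q.primeFactorsList[i]
  have hl : ∀ i, (l i).Prime := fun i => Nat.prime_of_mem_primeFactorsList (List.getElem_mem _)
  have hfi : ∀ i, Finite (ZMod (l i)) := fun i => by
    haveI : NeZero (l i) := ⟨(hl i).ne_zero⟩
    infer_instance
  let R := (i : Fin q.primeFactorsList.length) → ZMod (l i)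
  haveI : Finite R := Pi.finite
  have hsum : ∀ i, ∃ a b : ZMod (l i), a ^ 2 + b ^ 2 = -1 := fun i => by
    haveI := Fact.mk (hl i)
    exact ZMod.sq_add_sq (l i) (-1)
  choose a b hab using hsum
  have hab' : (a : R) * a + b * b = -1 := funext fun i => by simpa [sq] using hab i
  have hcardR : Nat.card R = q := by
    rw [Nat.card_pi]
    simp only [Nat.card_zmod]
    exact (Fin.prod_univ_getElem q.primeFactorsList).trans (Nat.prod_primeFactorsList (by omega))
  have h2 : ∀ x : R, -x = x → x = 0 := fun x hx => by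
    have hd : addOrderOf x ∣ 2 := addOrderOf_dvd_of_nsmul_eq_zero
      (by rw [two_nsmul]; exact neg_eq_iff_add_eq_zero.mp hx)
    have hq : addOrderOf x ∣ q := (addOrderOf_dvd_natCard x).trans hcardR.dvd
    have hcop : Nat.Coprime 2 q := ho.coprime_two_left
    have h1' : addOrderOf x ∣ 1 := (Nat.dvd_gcd hd hq).trans (hcop : Nat.gcd 2 q = 1).dvd
    exact AddMonoid.addOrderOf_eq_one_iff.mp (Nat.dvd_one.mp h1')
  let I : R × R ≃+ R × R :=
    { toFun := fun x => (-x.2, x.1)
      invFun := fun x => (x.2, -x.1)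
      left_inv := fun x => Prod.ext rfl (neg_neg x.2)
      right_inv := fun x => Prod.ext (neg_neg x.1) rfl
      map_add' := fun x y => by simp [add_comm] }
  let J : R × R ≃+ R × R :=
    { toFun := fun x => (a * x.1 + b * x.2, b * x.1 - a * x.2)
      invFun := fun x => (-(a * x.1 + b * x.2), -(b * x.1 - a * x.2))
      left_inv := fun x => Prod.ext
        (show -(a * (a * x.1 + b * x.2) + b * (b * x.1 - a * x.2)) = x.1 by linear_combination (-x.1) * hab')
        (show -(b * (a * x.1 + b * x.2) - a * (b * x.1 - a * x.2)) = x.2 by linear_combination (-x.2) * hab')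
      right_inv := fun x => Prod.ext
        (show a * -(a * x.1 + b * x.2) + b * -(b * x.1 - a * x.2) = x.1 by linear_combination (-x.1) * hab')
        (show b * -(a * x.1 + b * x.2) - a * -(b * x.1 - a * x.2) = x.2 by linear_combination (-x.2) * hab')
      map_add' := fun x y => Prod.ext (by simp; ring) (by simp; ring) }
  let A : MulAut (Multiplicative (R × R)) := AddEquiv.toMultiplicative I
  let X : MulAut (Multiplicative (R × R)) := AddEquiv.toMultiplicative J
  have hA2 : ∀ x, (A ^ 2) x = x⁻¹ := fun x => by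
    rw [sq]
    exact congrArg Multiplicative.ofAdd (show I (I x.toAdd) = -x.toAdd from Prod.ext rfl rfl)
  have hA4 : A ^ 4 = 1 := MulEquiv.ext fun x => by
    rw [show 4 = 2 + 2 from rfl, pow_add, MulAut.mul_apply, hA2, hA2, inv_inv, MulAut.one_apply]
  have hX : X * X = A ^ 2 := MulEquiv.ext fun x => by
    rw [hA2]
    exact congrArg Multiplicative.ofAdd (show J (J x.toAdd) = -x.toAdd from Prod.ext
      (show a * (a * x.toAdd.1 + b * x.toAdd.2) + b * (b * x.toAdd.1 - a * x.toAdd.2) = -x.toAdd.1 by
        linear_combination x.toAdd.1 * hab')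
      (show b * (a * x.toAdd.1 + b * x.toAdd.2) - a * (b * x.toAdd.1 - a * x.toAdd.2) = -x.toAdd.2 by
        linear_combination x.toAdd.2 * hab'))
  have hAX : A * X = X * A ^ 3 := MulEquiv.ext fun x => by
    rw [pow_succ', MulAut.mul_apply, MulAut.mul_apply, MulAut.mul_apply, hA2]
    exact congrArg Multiplicative.ofAdd (show I (J x.toAdd) = J (I (-x.toAdd)) from Prod.ext
      (show -(b * x.toAdd.1 - a * x.toAdd.2) = a * -(-x.toAdd.2) + b * (-x.toAdd.1) by ring)
      (show a * x.toAdd.1 + b * x.toAdd.2 = b * -(-x.toAdd.2) - a * (-x.toAdd.1) by ring))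
  let φ := quatHom A X hA4 hX hAX
  have hfpf : ∀ h : QuaternionGroup 2, h ≠ 1 → ∀ n, φ h n = n → n = 1 := by
    intro h hh n hn
    have hz : (A ^ 2) n = n := by
      show φ (.a 2) n = n
      rcases (sq_cases h).resolve_left hh with e | e
      · rw [← e]; exact hn
      · rw [← e, map_mul, MulAut.mul_apply, hn, hn]
    rw [hA2] at hz
    have hz' : -n.toAdd = n.toAdd := congrArg Multiplicative.toAdd hz
    exact congrArg Multiplicative.ofAdd
      (Prod.ext (h2 _ (congrArg Prod.fst hz')) (h2 _ (congrArg Prod.snd hz')) : n.toAdd = 0)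
  have hN : Nat.card (Multiplicative (R × R)) = q * q := by
    rw [Nat.card_congr Multiplicative.toAdd, Nat.card_prod, hcardR]
  haveI : Nontrivial (Multiplicative (R × R)) := by
    refine Finite.one_lt_card_iff_nontrivial.mp ?_
    rw [hN]; nlinarith
  haveI : Finite (Multiplicative (R × R) ⋊[φ] QuaternionGroup 2) :=
    Finite.of_equiv _ SemidirectProduct.equivProd.symm
  have hF := FGS4.isFrobeniusComplement_inr φ hfpf
  refine ⟨_, inferInstance, inferInstance, _, hF,
    ⟨(MonoidHom.ofInjective SemidirectProduct.inr_injective).symm⟩, ?_⟩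
  rw [PermGroups.Frobenius.natCard_kernel hF]
  have := Subgroup.card_mul_index (SemidirectProduct.inr (φ := φ)).range
  rw [← Nat.card_congr (MonoidHom.ofInjective SemidirectProduct.inr_injective).toEquiv,
    SemidirectProduct.card, hN, mul_comm (q * q)] at this
  exact Nat.eq_of_mul_eq_mul_left Nat.card_pos this


/-- For a natural number m the following are equivalent: (a) some finite group has a Frobenius complement isomorphic to the quaternion group of order 8 whose Frobenius kernel (the identity together with the elements lying in no conjugate of the complement) has exactly m elements; (b) m is an odd perfect square greater than 1. -/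
theorem result (m : ℕ) :
    (∃ (L : Type) (_ : Group L) (_ : Finite L) (H : Subgroup L), Cfsg.IsFrobeniusComplement H ∧
        Nonempty (H ≃* QuaternionGroup 2) ∧ Nat.card (Cfsg.frobeniusKernel H) = m) ↔
    (Odd m ∧ IsSquare m ∧ 1 < m) := by
  constructor
  · rintro ⟨L, _, _, H, hF, ⟨e⟩, rfl⟩
    haveI : Fact (Nat.Prime 2) := ⟨Nat.prime_two⟩
    obtain ⟨P⟩ : Nonempty (Sylow 2 H) := inferInstance
    have hH : IsPGroup 2 H := IsPGroup.of_card (n := 3)
      (by rw [Nat.card_congr e.toEquiv, Nat.card_eq_fintype_card, QuaternionGroup.card]; rfl)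
    have hP : ¬ IsCyclic P := by
      intro hc
      have htop : (⊤ : Subgroup H) = P := P.is_maximal' (hH.to_subgroup ⊤) le_top
      haveI : IsCyclic (⊤ : Subgroup H) := by rw [htop]; exact hc
      haveI : IsCyclic H := isCyclic_of_surjective _ (Subgroup.topEquiv (G := H)).surjective
      haveI : IsCyclic (QuaternionGroup 2) := isCyclic_of_surjective _ e.surjective
      obtain ⟨g, hg⟩ := IsCyclic.exists_generator (α := QuaternionGroup 2)
      obtain ⟨i, hi⟩ := hg (QuaternionGroup.a 1)
      obtain ⟨j, hj⟩ := hg (QuaternionGroup.xa 0)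
      have : QuaternionGroup.a 1 * QuaternionGroup.xa 0
          = QuaternionGroup.xa 0 * (QuaternionGroup.a 1 : QuaternionGroup 2) := by
        rw [← hi, ← hj]; exact ((Commute.refl g).zpow_zpow i j).eq
      revert this; decide
    obtain ⟨ho, hs⟩ := Cfsg.Agent.S4296.kernel_square H hF ⟨2, inferInstance, P, hP⟩
    refine ⟨ho, hs, ?_⟩
    rw [PermGroups.Frobenius.natCard_kernel hF]
    have h0 : H.index ≠ 0 := Subgroup.index_ne_zero_of_finite
    have h1 : H.index ≠ 1 := fun h => hF.2.1 (Subgroup.index_eq_one.mp h)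
    omega
  · rintro ⟨ho, ⟨q, rfl⟩, h1⟩
    exact exists_group q (Nat.Odd.of_mul_left ho) (by nlinarith)

end Cfsg.Agent.S4295
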