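import Cfsg.Statements.S0987
import Cfsg.Agent.SmallOrder.Basic

set_option autoImplicit false
open Cfsg

namespace Cfsg.Agent.S0987

/-- If a finite group has order pqr for primes p < q < r, then its Sylow r-subgroups are normal. -/
theorem result {G : Type*} [Group G] [Finite G] (p q r : ℕ) (hp : p.Prime) (hq : q.Prime) [Fact r.Prime] (hpq : p < q) (hqr : q < r) (hG : Nat.card G = p * q * r) (R : Sylow r G) : (R : Subgroup G).Normal := by
  have hR1 : Nat.card (Sylow r G) = 1 := by
    have : Fact p.Prime := ⟨hp⟩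
    obtain ⟨P⟩ := (inferInstance : Nonempty (Sylow p G))
    have hpqr : ¬ p ∣ q * r := fun h => by
      rcases hp.dvd_mul.mp h with h | h
      · exact hpq.ne ((Nat.prime_dvd_prime_iff_eq hp hq).mp h)
      · exact (hpq.trans hqr).ne ((Nat.prime_dvd_prime_iff_eq hp Fact.out).mp h)
    have hPc := (Cfsg.Agent.SmallOrder.sylow_arith P (a := 1) (m := q * r)
      (by rw [hG, pow_one, mul_assoc]) hpqr).1
    have hcyc : IsCyclic P := isCyclic_of_prime_card (by rw [hPc, pow_one])
    have hmin : (Nat.card G).minFac = p := by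
      have hr' : r.Prime := Fact.out
      refine le_antisymm (Nat.minFac_le_of_dvd hp.two_le (hG ▸ (dvd_mul_right p q).trans (dvd_mul_right _ r))) ?_
      have hm := Nat.minFac_prime (n := Nat.card G) (by
        rw [hG]; exact (Nat.one_lt_mul_iff.mpr ⟨Nat.mul_pos hp.pos hq.pos, hr'.pos, Or.inr hr'.one_lt⟩).ne')
      have hd : (Nat.card G).minFac ∣ p * q * r := (Nat.minFac_dvd _).trans (dvd_of_eq hG)
      rcases hm.dvd_mul.mp hd with h | h
      · rcases hm.dvd_mul.mp h with h | h
        · rw [(Nat.prime_dvd_prime_iff_eq hm hp).mp h]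
        · rw [(Nat.prime_dvd_prime_iff_eq hm hq).mp h]; omega
      · rw [(Nat.prime_dvd_prime_iff_eq hm hr').mp h]; omega
    have hK := hcyc.isComplement' hmin
    set K := (MonoidHom.transferSylow P (hcyc.normalizer_le_centralizer hmin)).ker
    have hKc : Nat.card K = r * q := by
      have h := hK.card_mul_card
      rw [hPc, pow_one, hG] at h
      exact Nat.eq_of_mul_eq_mul_right hp.pos (h.trans (by ring))
    have hle : ∀ S : Sylow r G, (S : Subgroup G) ≤ K := by
      intro S x hx
      obtain ⟨k, hk⟩ := S.2 ⟨x, hx⟩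
      have hx' : x ^ r ^ k = 1 := by simpa using congrArg Subtype.val hk
      have hidx : K.index = p := by
        have h := K.card_mul_index
        rw [hKc, hG] at h
        exact Nat.eq_of_mul_eq_mul_left (Nat.mul_pos (Fact.out (p := r.Prime)).pos hq.pos) (h.trans (by ring))
      have h1 : orderOf (QuotientGroup.mk' K x) ∣ p :=
        (orderOf_dvd_natCard _).trans (dvd_of_eq hidx)
      have h2 : orderOf (QuotientGroup.mk' K x) ∣ r ^ k :=
        orderOf_dvd_of_pow_eq_one (by rw [← map_pow, hx', map_one])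
      have hcop : Nat.Coprime p (r ^ k) :=
        ((Nat.coprime_primes hp Fact.out).mpr (hpq.trans hqr).ne).pow_right k
      have h3 := orderOf_eq_one_iff.mp (Nat.eq_one_of_dvd_coprimes hcop h1 h2)
      exact (QuotientGroup.eq_one_iff x).mp h3
    obtain ⟨S⟩ := (inferInstance : Nonempty (Sylow r K))
    obtain ⟨-, -, hd, hm⟩ := Cfsg.Agent.SmallOrder.sylow_arith S (a := 1) (m := q)
      (by rw [hKc, pow_one]) (fun h => hqr.ne' ((Nat.prime_dvd_prime_iff_eq Fact.out hq).mp h))
    have hK1 : Nat.card (Sylow r K) = 1 := by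
      rcases (Nat.dvd_prime hq).mp hd with h | h
      · exact h
      · rw [h, Nat.mod_eq_of_lt hqr] at hm
        exact absurd hm hq.one_lt.ne'
    have := (Nat.card_eq_one_iff_unique.mp hK1).1
    refine Nat.card_eq_one_iff_unique.mpr ⟨⟨fun S T => ?_⟩, inferInstance⟩
    exact Sylow.subtype_injective (hP := hle S) (hQ := hle T) (Subsingleton.elim _ _)
  have := (Nat.card_eq_one_iff_unique.mp hR1).1
  exact R.normal_of_subsingleton

end Cfsg.Agent.S0987
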