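import Cfsg.Statements.S0711
import Mathlib

set_option autoImplicit false
open Cfsg

namespace Cfsg.Agent.S0711

/-- A `k`-transitive permutation group (`k ≥ 3`) with a non-identity element of support smaller than `2k - 2` contains a non-identity element of support at most 3, and therefore contains the alternating group. -/
theorem result {α : Type*} [Fintype α] [DecidableEq α] (G : Subgroup (Equiv.Perm α)) {k : ℕ} (hk : 3 ≤ k) (hkn : k ≤ Fintype.card α) (hG : MulAction.IsMultiplyPretransitive G α k) (g : Equiv.Perm α) (hg : g ∈ G) (hg1 : g ≠ 1) (hsupp : g.support.card < 2 * k - 2) : (∃ h : Equiv.Perm α, h ∈ G ∧ h ≠ 1 ∧ h.support.card ≤ 3) ∧ alternatingGroup α ≤ G := by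
  classical
  have hG2 : MulAction.IsMultiplyPretransitive G α 2 :=
    MulAction.isMultiplyPretransitive_of_le (n := k) (by omega) (by rw [Nat.card_eq_fintype_card]; omega)
  have hprim : MulAction.IsPreprimitive G α := MulAction.isPreprimitive_of_is_two_pretransitive hG2
  suffices hex : ∃ h : Equiv.Perm α, h ∈ G ∧ h ≠ 1 ∧ h.support.card ≤ 3 by
    refine ⟨hex, ?_⟩
    obtain ⟨h, hh, hh1, hh3⟩ := hex
    have h2 : 2 ≤ h.support.card := Equiv.Perm.two_le_card_support_of_ne_one hh1
    rcases (show h.support.card = 2 ∨ h.support.card = 3 by omega) with e | e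
    · rw [Equiv.Perm.subgroup_eq_top_of_isPreprimitive_of_isSwap_mem hprim h
        (Equiv.Perm.card_support_eq_two.1 e) hh]
      exact le_top
    · exact Equiv.Perm.alternatingGroup_le_of_isPreprimitive_of_isThreeCycle_mem hprim
        (card_support_eq_three_iff.1 e) hh
  by_contra hcon
  push Not at hcon
  have hex : ∃ m, ∃ h : Equiv.Perm α, h ∈ G ∧ h ≠ 1 ∧ h.support.card = m := ⟨_, g, hg, hg1, rfl⟩
  obtain ⟨s, hs, hs1, hsm⟩ := Nat.find_spec hex
  set m := Nat.find hex with hmdef
  have hmin : ∀ h : Equiv.Perm α, h ∈ G → h ≠ 1 → m ≤ h.support.card := fun h hh hh1 =>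
    Nat.find_min' hex ⟨h, hh, hh1, rfl⟩
  have hm4 : 4 ≤ m := by have := hcon s hs hs1; omega
  have hm2k : m + 3 ≤ 2 * k := by have := hmin g hg hg1; omega
  have htrans : ∀ (A : Finset α) (b c : α), A.card + 1 ≤ k → b ∉ A → c ∉ A →
      ∃ h : Equiv.Perm α, h ∈ G ∧ (∀ x ∈ A, h x = x) ∧ h b = c := by
    intro A b c hA hb hc
    have hj : MulAction.IsMultiplyPretransitive G α (A.card + 1) :=
      MulAction.isMultiplyPretransitive_of_le (n := k) hA (by rw [Nat.card_eq_fintype_card]; omega)
    let e := (insert b A).equivFinOfCardEq (Finset.card_insert_of_notMem hb)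
    let x : Fin (A.card + 1) ↪ α := e.symm.toEmbedding.trans (Function.Embedding.subtype _)
    let y : Fin (A.card + 1) ↪ α := ⟨fun i => Equiv.swap b c (x i),
      (Equiv.swap b c).injective.comp x.injective⟩
    obtain ⟨h, hh⟩ := hj.exists_smul_eq x y
    have key : ∀ z ∈ insert b A, (h : Equiv.Perm α) z = Equiv.swap b c z := by
      intro z hz
      have := congrArg (fun q : Fin (A.card + 1) ↪ α => q (e ⟨z, hz⟩)) hh
      simpa [x, y, Subgroup.smul_def] using this
    refine ⟨h, h.2, fun z hz => ?_, by rw [key b (Finset.mem_insert_self b A), Equiv.swap_apply_left]⟩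
    rw [key z (Finset.mem_insert_of_mem hz),
      Equiv.swap_apply_of_ne_of_ne (ne_of_mem_of_not_mem hz hb) (ne_of_mem_of_not_mem hz hc)]
  have hkn' : k < Fintype.card α := by
    by_contra hh
    obtain ⟨a, b, hab⟩ := Fintype.exists_pair_of_one_lt_card (α := α) (by omega)
    have hall : Equiv.swap a b ∈ G := by
      have := Equiv.Perm.eq_top_of_isMultiplyPretransitive (G := G) (α := α)
        (MulAction.isMultiplyPretransitive_of_le (n := k) (by rw [Nat.card_eq_fintype_card]; omega)
          (by rw [Nat.card_eq_fintype_card]; omega))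
      rw [this]
      exact Subgroup.mem_top _
    have := hcon _ hall fun e => hab ((Equiv.swap_eq_one_iff).1 e)
    rw [Equiv.Perm.card_support_swap hab] at this
    omega
  -- points of the support, at most one of which leaves the set under `s`
  have hbuild : ∀ j, j ≤ m → ∃ A ⊆ s.support, A.card = j ∧ (A.filter fun x => s x ∉ A).card ≤ 1 := by
    intro j
    induction j with
    | zero => exact fun _ => ⟨∅, Finset.empty_subset _, rfl, by simp⟩
    | succ j ih =>
      intro hj
      obtain ⟨A, hAs, hAc, hA1⟩ := ih (by omega)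
      obtain ⟨x, hx, hxA, hxe⟩ : ∃ x, x ∈ s.support ∧ x ∉ A ∧ ∀ y ∈ A, s y ∉ A → s y = x := by
        by_cases he : (A.filter fun x => s x ∉ A).Nonempty
        · obtain ⟨a, ha⟩ := he
          rw [Finset.mem_filter] at ha
          refine ⟨s a, Equiv.Perm.apply_mem_support.2 (hAs ha.1), ha.2, fun y hy hy' => ?_⟩
          rw [Finset.card_le_one.1 hA1 y (Finset.mem_filter.2 ⟨hy, hy'⟩) a (Finset.mem_filter.2 ha)]
        · obtain ⟨x, hx, hxA⟩ := Finset.exists_mem_notMem_of_card_lt_card (s := A) (t := s.support) (by omega)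
          exact ⟨x, hx, hxA, fun y hy hy' => absurd ⟨y, Finset.mem_filter.2 ⟨hy, hy'⟩⟩ he⟩
      refine ⟨insert x A, Finset.insert_subset hx hAs, by rw [Finset.card_insert_of_notMem hxA, hAc],
        (Finset.card_le_card (t := {x}) fun y hy => ?_).trans (Finset.card_singleton x).le⟩
      rw [Finset.mem_filter, Finset.mem_insert] at hy
      rcases hy.1 with rfl | hyA
      · exact Finset.mem_singleton_self _
      · exfalso
        by_cases hsy : s y ∈ A
        · exact hy.2 (Finset.mem_insert_of_mem hsy)
        · exact hy.2 (by rw [hxe y hyA hsy]; exact Finset.mem_insert_self x A)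
  have hbound : ∀ (h : Equiv.Perm α) (A : Finset α), h ∈ G → (∀ x ∈ A, h x = x) → A ⊆ s.support →
      h * s * h⁻¹ ≠ s →
      m + (A.filter fun x => s x ∈ A).card ≤ (s.support ∪ s.support.image h).card := by
    intro h A hh hhA hAs hne
    set t := h * s * h⁻¹ with ht
    have htG : s⁻¹ * t ∈ G := G.mul_mem (G.inv_mem hs) (G.mul_mem (G.mul_mem hh hs) (G.inv_mem hh))
    have h1 := hmin _ htG fun e => hne (inv_mul_eq_one.1 e).symm
    have hsub : (s⁻¹ * t).support ⊆ (s.support ∪ s.support.image h) \ A.filter fun x => s x ∈ A := by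
      intro x hx
      rw [Equiv.Perm.mem_support, Equiv.Perm.mul_apply, Ne, Equiv.Perm.inv_eq_iff_eq] at hx
      rw [Finset.mem_sdiff, Finset.mem_union, Finset.mem_image, Finset.mem_filter]
      refine ⟨?_, fun hxA => hx ?_⟩
      · by_contra hc
        rw [not_or] at hc
        refine hx ?_
        rw [Equiv.Perm.notMem_support.1 hc.1]
        show h (s (h⁻¹ x)) = x
        have : h⁻¹ x ∉ s.support := fun hm' => hc.2 ⟨_, hm', by simp⟩
        rw [Equiv.Perm.notMem_support.1 this]
        simp
      · show h (s (h⁻¹ x)) = s x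
        rw [Equiv.Perm.inv_eq_iff_eq.2 (hhA x hxA.1).symm, hhA _ hxA.2]
    have h2 := Finset.card_le_card hsub
    rw [Finset.card_sdiff_of_subset (fun x hx => Finset.mem_union_left _ (hAs (Finset.mem_filter.1 hx).1))] at h2
    have := Finset.card_le_card (t := s.support ∪ s.support.image h)
      (fun x hx => Finset.mem_union_left _ (hAs (Finset.mem_filter.1 hx).1) :
        (A.filter fun x => s x ∈ A) ⊆ _)
    omega
  have hunion : ∀ (h : Equiv.Perm α) (A : Finset α), A ⊆ s.support → (∀ x ∈ A, h x = x) →
      (s.support ∪ s.support.image h).card + A.card ≤ m + m := by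
    intro h A hA hhA
    have hAi : A ⊆ s.support ∩ s.support.image h := fun x hx =>
      Finset.mem_inter.2 ⟨hA hx, Finset.mem_image.2 ⟨x, hA hx, hhA x hx⟩⟩
    have := Finset.card_union_add_card_inter s.support (s.support.image h)
    rw [Finset.card_image_of_injective _ h.injective, hsm] at this
    have := Finset.card_le_card hAi
    omega
  have houtside : ∀ (h : Equiv.Perm α) (b : α), b ∈ s.support → h b ∉ s.support → h * s * h⁻¹ ≠ s := by
    intro h b hb hhb e
    refine hhb (Equiv.Perm.mem_support.2 fun hh => Equiv.Perm.mem_support.1 hb (h.injective ?_))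
    have := congrArg (fun q : Equiv.Perm α => q (h b)) e
    rw [Equiv.Perm.mul_apply, Equiv.Perm.mul_apply, Equiv.Perm.inv_eq_iff_eq.2 (rfl : h b = h b)] at this
    rw [this, hh]
  have hmn : m < Fintype.card α := by
    -- an element fixing `k - 1` points
    obtain ⟨A, -, hA⟩ := Finset.exists_subset_card_eq (s := (Finset.univ : Finset α)) (n := k - 1)
      (by rw [Finset.card_univ]; omega)
    have h2 : 1 < Aᶜ.card := by rw [Finset.card_compl]; omega
    obtain ⟨b, hb, c, hc, hbc⟩ := Finset.one_lt_card.1 h2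
    obtain ⟨h, hh, hhA, hhb⟩ := htrans A b c (by omega) (Finset.mem_compl.1 hb) (Finset.mem_compl.1 hc)
    have h1 := hmin h hh fun e => hbc (by rw [← hhb, e]; rfl)
    have h3 : h.support ⊆ Aᶜ := fun x hx => Finset.mem_compl.2 fun hxA =>
      Equiv.Perm.mem_support.1 hx (hhA x hxA)
    have := Finset.card_le_card h3
    rw [Finset.card_compl] at this
    omega
  obtain ⟨j, hj⟩ : ∃ j, j = min (k - 1) (m - 1) := ⟨_, rfl⟩
  obtain ⟨A, hAs, hAc, hA1⟩ := hbuild j (by omega)
  have hsplit := Finset.card_filter_add_card_filter_not (s := A) (fun x => s x ∈ A)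
  obtain ⟨c₀, hc₀⟩ : ∃ c₀, c₀ ∉ s.support := by
    by_contra hall
    push Not at hall
    rw [Finset.eq_univ_of_forall hall, Finset.card_univ] at hsm
    omega
  by_cases hexit : (A.filter fun x => s x ∉ A).Nonempty
  · obtain ⟨a, ha⟩ := hexit
    obtain ⟨haA, hab⟩ := Finset.mem_filter.1 ha
    have hbs : s a ∈ s.support := Equiv.Perm.apply_mem_support.2 (hAs haA)
    by_cases hmk : m ≤ k
    · obtain ⟨h, hh, hhA, hhb⟩ := htrans A (s a) c₀ (by omega) hab (fun hc => hc₀ (hAs hc))
      have h1 := hbound h A hh hhA hAs (houtside h (s a) hbs (by rw [hhb]; exact hc₀))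
      have h2 := hunion h A hAs hhA
      omega
    · obtain ⟨c, hc, hcA⟩ := Finset.exists_mem_notMem_of_card_lt_card (s := insert (s a) A)
        (t := s.support) (by rw [Finset.card_insert_of_notMem hab]; omega)
      rw [Finset.mem_insert, not_or] at hcA
      obtain ⟨h, hh, hhA, hhb⟩ := htrans A (s a) c (by omega) hab hcA.2
      have hne : h * s * h⁻¹ ≠ s := fun e => hcA.1 (by
        have := congrArg (fun q : Equiv.Perm α => q a) e
        simp only [Equiv.Perm.mul_apply, Equiv.Perm.inv_eq_iff_eq.2 (hhA a haA).symm, hhb] at this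
        exact this)
      have h1 := hbound h A hh hhA hAs hne
      have hAi : insert c A ⊆ s.support ∩ s.support.image h := Finset.insert_subset
        (Finset.mem_inter.2 ⟨hc, Finset.mem_image.2 ⟨s a, hbs, hhb⟩⟩)
        fun x hx => Finset.mem_inter.2 ⟨hAs hx, Finset.mem_image.2 ⟨x, hAs hx, hhA x hx⟩⟩
      have h3 := Finset.card_union_add_card_inter s.support (s.support.image h)
      rw [Finset.card_image_of_injective _ h.injective, hsm] at h3
      have h4 := Finset.card_le_card hAi
      rw [Finset.card_insert_of_notMem hcA.2] at h4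
      omega
  · rw [Finset.not_nonempty_iff_eq_empty] at hexit
    rw [hexit, Finset.card_empty] at hsplit
    obtain ⟨b, hb, hbA⟩ := Finset.exists_mem_notMem_of_card_lt_card (s := A) (t := s.support) (by omega)
    obtain ⟨h, hh, hhA, hhb⟩ := htrans A b c₀ (by omega) hbA (fun hc => hc₀ (hAs hc))
    have h1 := hbound h A hh hhA hAs (houtside h b hb (by rw [hhb]; exact hc₀))
    have h2 := hunion h A hAs hhA
    omega

end Cfsg.Agent.S0711
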