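import Cfsg.Statements.S0028
import Cfsg.Agent.Coprime.PxQ
-- import your own Cfsg.Agent.* helpers here

set_option autoImplicit false
open Cfsg

namespace Cfsg.Agent.S0028

/-- Thompson's P × Q Lemma: let a p-subgroup P and a subgroup Q of order prime to p centralise each other and normalise a p-subgroup U; if every element of U fixed by P is fixed by Q, then Q centralises U. -/
theorem result {G : Type*} [Group G] [Finite G] (p : ℕ) [Fact p.Prime]
    (P Q U : Subgroup G) (hP : IsPGroup p P) (hQ : (Nat.card Q).Coprime p) (hU : IsPGroup p U)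
    (hPQ : P ≤ Subgroup.centralizer (Q : Set G))
    (hPU : P ≤ Subgroup.normalizer (U : Set G)) (hQU : Q ≤ Subgroup.normalizer (U : Set G))
    (hC : U ⊓ Subgroup.centralizer (P : Set G) ≤ Subgroup.centralizer (Q : Set G)) :
    Q ≤ Subgroup.centralizer (U : Set G) := by
  intro q hq
  have hle : Subgroup.zpowers q ≤ Q := Subgroup.zpowers_le.mpr hq
  haveI : Group.IsSolvable (Subgroup.zpowers q) :=
    Group.isSolvable_of_comm (fun a b => mul_comm' a b)
  have hq' : (Nat.card (Subgroup.zpowers q)).Coprime p :=
    hQ.coprime_dvd_left (Subgroup.card_dvd_of_le hle)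
  have h := Cfsg.Agent.Coprime.commutator_eq_bot_of_PxQ (p := p) hP hq'
    (Subgroup.commutator_eq_bot_iff_le_centralizer.mpr
      (hPQ.trans (Subgroup.centralizer_le hle))) _ U rfl hU hPU (hle.trans hQU)
    (Subgroup.commutator_eq_bot_iff_le_centralizer.mpr
      (hC.trans (Subgroup.centralizer_le hle)))
  rw [Subgroup.commutator_comm] at h
  exact Subgroup.commutator_eq_bot_iff_le_centralizer.mp h (Subgroup.mem_zpowers q)

end Cfsg.Agent.S0028
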