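import Cfsg.Statements.S0039
import Cfsg.Agent.PermGroups.FrobeniusConjugacy

set_option autoImplicit false
open Cfsg
open scoped Pointwise

namespace Cfsg.Agent.S0039

/-- In a finite group that is a semidirect product of a normal subgroup K by a nontrivial subgroup H, H is a Frobenius complement exactly when each nonidentity element of H acts without nonidentity fixed points on K by conjugation. -/
theorem result {G : Type*} [Group G] [Finite G] (K H : Subgroup G) [K.Normal]
    (hc : Subgroup.IsComplement' K H) (hK : K ≠ ⊥) (hH : H ≠ ⊥) :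
    Cfsg.IsFrobeniusComplement H ↔ ∀ h ∈ H, h ≠ 1 → K ⊓ Subgroup.centralizer {h} = ⊥ := by
  constructor
  · intro hF h hh h1
    rw [Subgroup.eq_bot_iff_forall]
    intro k hk
    obtain ⟨hk1, hk2⟩ := Subgroup.mem_inf.1 hk
    exact Cfsg.Agent.PermGroups.Frobenius.centralizer_kernel_eq_one hF hc.disjoint hh h1 hk1
      (Subgroup.mem_centralizer_iff.1 hk2 h rfl)
  · intro hfix
    refine ⟨hH, fun e => hK ?_, fun g hg => ?_⟩
    · have := hc.card_mul
      rw [e, Subgroup.card_top] at this
      refine Subgroup.card_eq_one.1 ?_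
      exact Nat.eq_of_mul_eq_mul_right Nat.card_pos (this.trans (one_mul _).symm)
    · obtain ⟨⟨⟨k, hk⟩, ⟨h, hh⟩⟩, rfl⟩ := (Subgroup.IsComplement.existsUnique hc g).exists
      rw [Subgroup.eq_bot_iff_forall]
      intro u hu
      obtain ⟨hu1, hu2⟩ := Subgroup.mem_inf.1 hu
      rw [Cfsg.Agent.PermGroups.mem_conj_smul] at hu2
      by_contra hne
      -- `v = h (g⁻¹ u g) h⁻¹` lies in `H` and is conjugate to `u` by `k`
      have hv : k⁻¹ * u * k ∈ H := by
        have := H.mul_mem (H.mul_mem hh hu2) (H.inv_mem hh)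
        convert this using 1
        show k⁻¹ * u * k = h * ((k * h)⁻¹ * u * (k * h)) * h⁻¹
        group
      have hmem : u⁻¹ * (k⁻¹ * u * k) ∈ K ⊓ H := by
        refine Subgroup.mem_inf.2 ⟨?_, H.mul_mem (H.inv_mem hu1) hv⟩
        rw [← mul_assoc]
        refine K.mul_mem ?_ hk
        have := ‹K.Normal›.conj_mem k⁻¹ (K.inv_mem hk) u⁻¹
        rwa [inv_inv, mul_assoc] at this
      rw [disjoint_iff.1 hc.disjoint, Subgroup.mem_bot, inv_mul_eq_one] at hmem
      have hk1 : k ∈ K ⊓ Subgroup.centralizer {u} := Subgroup.mem_inf.2 ⟨hk,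
        Subgroup.mem_centralizer_iff.2 fun z hz => by
          rw [Set.mem_singleton_iff.1 hz]
          calc u * k = k * (k⁻¹ * u * k) := by group
            _ = k * u := by rw [← hmem]⟩
      rw [hfix u hu1 hne, Subgroup.mem_bot] at hk1
      apply hg
      show k * h ∈ H
      rw [hk1, one_mul]
      exact hh

end Cfsg.Agent.S0039
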