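import Cfsg.Statements.S0042
import Cfsg.Agent.Core.ThompsonFPF
import Cfsg.Agent.PermGroups.FrobeniusKernel

set_option autoImplicit false
open Cfsg

namespace Cfsg.Agent.S0042

/-- In a finite Frobenius group, the Frobenius kernel is (the carrier of) a normal subgroup which is nilpotent. -/
theorem result {G : Type*} [Group G] [Finite G] (H : Subgroup G) (hH : Cfsg.IsFrobeniusComplement H) :
    ∃ N : Subgroup G, (N : Set G) = Cfsg.frobeniusKernel H ∧ N.Normal ∧ Group.IsNilpotent N := by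
  obtain ⟨N, hNc, hNn, hcompl⟩ := Agent.PermGroups.Frobenius.exists_kernel hH
  refine ⟨N, hNc, hNn, ?_⟩
  haveI := hNn
  obtain ⟨r, hr, hrH⟩ := Nat.exists_prime_and_dvd ((Subgroup.one_lt_card_iff_ne_bot H).mpr hH.1).ne'
  haveI : Fact r.Prime := ⟨hr⟩
  obtain ⟨h, hh⟩ := exists_prime_orderOf_dvd_card' (G := H) r hrH
  refine Agent.Core.ThompsonFPF.isNilpotent_of_fpf hr (MulAut.conjNormal (h : G)) ?_ ?_
  · intro n hn
    have hn' : (h : G) * n * (h : G)⁻¹ = n := by
      rw [← MulAut.conjNormal_apply (h : G) n, hn]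
    by_contra hne
    have hnH : (n : G) ∉ H := fun hnH => hne <| Subtype.ext <| by
      have := hcompl.disjoint.le_bot (Subgroup.mem_inf.mpr ⟨n.2, hnH⟩)
      exact Subgroup.mem_bot.mp this
    have hh1 : (h : G) = 1 := Agent.PermGroups.Frobenius.eq_one hH hnH h.2 (by
      rw [mul_assoc, mul_inv_eq_iff_eq_mul.mp hn', inv_mul_cancel_left]
      exact h.2)
    rw [show h = 1 from Subtype.ext hh1, orderOf_one] at hh
    exact hr.ne_one hh.symm
  · intro n
    rw [Agent.Core.ThompsonFPF.iterate_eq_pow, ← map_pow]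
    have hpow : (h : G) ^ r = 1 := by rw [← hh, ← Subgroup.orderOf_coe, pow_orderOf_eq_one]
    rw [hpow, map_one]
    rfl

end Cfsg.Agent.S0042
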