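import Cfsg.Statements.S1001
import Cfsg.Agent.S0144
import Cfsg.Agent.S0904
import Mathlib.GroupTheory.Sylow

set_option autoImplicit false
open Cfsg

namespace Cfsg.Agent.S1001

/-- In a finite simple group whose order has the form p * 3^a * 2^b with p prime, the centralizer of any element of order p is the cyclic group it generates. -/
theorem result {G : Type*} [Group G] [Finite G] [IsSimpleGroup G] (p a b : ℕ) (hp : p.Prime) (hG : Nat.card G = p * 3 ^ a * 2 ^ b) (x : G) (hx : orderOf x = p) : Subgroup.centralizer ({x} : Set G) = Subgroup.zpowers x := by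
  haveI : Fact p.Prime := ⟨hp⟩
  have hzC : Subgroup.zpowers x ≤ Subgroup.centralizer ({x} : Set G) :=
    Subgroup.zpowers_le.2 (Subgroup.mem_centralizer_singleton_iff.2 rfl)
  by_cases h23 : p = 2 ∨ p = 3
  · -- a simple group of two-prime order has prime order
    obtain ⟨a', b', hG'⟩ : ∃ a' b', Nat.card G = 3 ^ a' * 2 ^ b' := by
      rcases h23 with rfl | rfl
      · exact ⟨a, b + 1, by rw [hG]; ring⟩
      · exact ⟨a + 1, b, by rw [hG]; ring⟩
    haveI := S0144.result (G := G) 3 2 a' b' Nat.prime_three Nat.prime_two hG'
    have hab : ∀ u v : G, u * v = v * u := IsSimpleGroup.comm_iff_isSolvable.2 inferInstance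
    letI : CommGroup G := { mul_comm := hab }
    have hpr := IsSimpleGroup.prime_card (α := G)
    have hcard : Nat.card G = p := by
      have hd : orderOf x ∣ Nat.card G := orderOf_dvd_natCard x
      rw [hx] at hd
      exact ((Nat.prime_dvd_prime_iff_eq hp hpr).1 hd).symm
    refine (Subgroup.eq_of_le_of_card_ge hzC ?_).symm
    rw [Nat.card_zpowers, hx, ← hcard]
    exact Subgroup.card_le_card_group _
  · obtain ⟨h2, h3⟩ := not_or.1 h23
    obtain ⟨S, hS⟩ := (IsPGroup.of_card (p := p) (n := 1)
      (show Nat.card (Subgroup.zpowers x) = p ^ 1 by rw [Nat.card_zpowers, hx, pow_one])).exists_le_sylow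
    have hC : Subgroup.centralizer ((S : Subgroup G) : Set G) = (S : Subgroup G) :=
      S0904.result 3 2 p a b Nat.prime_three Nat.prime_two (by norm_num) (fun h => h3 h.symm)
        (fun h => h2 h.symm) (by rw [hG]; ring) S
    have hScard : Nat.card S = p := by
      rw [S.card_eq_multiplicity, hG]
      have : (p * 3 ^ a * 2 ^ b).factorization p = 1 := by
        rw [Nat.factorization_mul (mul_ne_zero hp.ne_zero (by positivity)) (by positivity),
          Nat.factorization_mul hp.ne_zero (by positivity)]
        simp [hp.factorization_self, Nat.factorization_eq_zero_of_not_dvd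
          (fun h => h3 ((Nat.prime_dvd_prime_iff_eq hp Nat.prime_three).1 h)),
          Nat.factorization_eq_zero_of_not_dvd
          (fun h => h2 ((Nat.prime_dvd_prime_iff_eq hp Nat.prime_two).1 h))]
      rw [this, pow_one]
    have hSe : Subgroup.zpowers x = (S : Subgroup G) :=
      Subgroup.eq_of_le_of_card_ge hS (by rw [Nat.card_zpowers, hx, hScard])
    rw [hSe]
    conv_rhs => rw [← hC]
    rw [← hSe, Subgroup.zpowers_eq_closure, Subgroup.centralizer_closure]

end Cfsg.Agent.S1001
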