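import Cfsg.Statements.S0213
import Cfsg.Agent.Components.InvolutionFusion

set_option autoImplicit false
open Cfsg

namespace Cfsg.Agent.S0213

/-- Thompson Order Formula, two-class case: if every involution of the finite group G is conjugate to exactly one of the non-conjugate involutions x₁, x₂, and nᵢ is the number of pairs (u, v) with u conjugate to x₁, v conjugate to x₂ and xᵢ in the cyclic group generated by uv, then |G| = |C(x₂)| n₁ + |C(x₁)| n₂. -/
theorem result {G : Type*} [Group G] [Finite G] (x₁ x₂ : G) (h₁ : orderOf x₁ = 2) (h₂ : orderOf x₂ = 2) (hnc : ¬ IsConj x₁ x₂) (hall : ∀ t : G, orderOf t = 2 → IsConj x₁ t ∨ IsConj x₂ t) : Nat.card G = Nat.card (Subgroup.centralizer ({x₂} : Set G)) * Nat.card {p : G × G // IsConj x₁ p.1 ∧ IsConj x₂ p.2 ∧ x₁ ∈ Subgroup.zpowers (p.1 * p.2)} + Nat.card (Subgroup.centralizer ({x₁} : Set G)) * Nat.card {p : G × G // IsConj x₁ p.1 ∧ IsConj x₂ p.2 ∧ x₂ ∈ Subgroup.zpowers (p.1 * p.2)} := by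
  classical
  haveI := Fintype.ofFinite G
  set K₁ := {a : G // IsConj x₁ a}
  set K₂ := {a : G // IsConj x₂ a}
  let P : G → Type _ := fun z => {p : G × G // IsConj x₁ p.1 ∧ IsConj x₂ p.2 ∧ z ∈ Subgroup.zpowers (p.1 * p.2)}
  have hinv1 : ∀ a : G, IsConj x₁ a → orderOf a = 2 := fun a ha => by
    obtain ⟨g, rfl⟩ := isConj_iff.mp ha; exact Components.invol_conj h₁ g
  have hinv2 : ∀ a : G, IsConj x₂ a → orderOf a = 2 := fun a ha => by
    obtain ⟨g, rfl⟩ := isConj_iff.mp ha; exact Components.invol_conj h₂ g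
  have huniq : ∀ (u z w : G), orderOf z = 2 → orderOf w = 2 → z ∈ Subgroup.zpowers u →
      w ∈ Subgroup.zpowers u → z = w := by
    intro u z w hz hw hzu hwu
    obtain ⟨i, rfl⟩ := hzu
    obtain ⟨j, rfl⟩ := hwu
    have key : ∀ k : ℤ, orderOf (u ^ k) = 2 → ∃ a : ℤ, 2 * k = (orderOf u : ℤ) * a ∧ a % 2 = 1 := by
      intro k hk
      have h2 : u ^ (2 * k) = 1 := by
        rw [mul_comm, zpow_mul, show (2 : ℤ) = ((2 : ℕ) : ℤ) from rfl, zpow_natCast, ← hk, pow_orderOf_eq_one]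
      obtain ⟨a, ha⟩ := orderOf_dvd_iff_zpow_eq_one.mpr h2
      refine ⟨a, ha, ?_⟩
      rcases Int.emod_two_eq_zero_or_one a with h | h
      · exfalso
        obtain ⟨c, rfl⟩ := Int.dvd_of_emod_eq_zero h
        exact Components.invol_ne_one hk (orderOf_dvd_iff_zpow_eq_one.mp ⟨c, by linarith⟩)
      · exact h
    obtain ⟨a, ha, ha2⟩ := key i hz
    obtain ⟨b, hb, hb2⟩ := key j hw
    obtain ⟨c, hc⟩ : (2 : ℤ) ∣ a - b := by omega
    show u ^ i = u ^ j
    rw [← orderOf_dvd_sub_iff_zpow_eq_zpow]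
    refine ⟨c, ?_⟩
    have : (orderOf u : ℤ) * (a - b) = (orderOf u : ℤ) * (2 * c) := by rw [hc]
    linarith
  have hex : ∀ q : K₁ × K₂, ∃ z : {z : G // orderOf z = 2}, z.1 ∈ Subgroup.zpowers (q.1.1 * q.2.1) := by
    intro q
    have he : Even (orderOf (q.1.1 * q.2.1)) := Nat.not_odd_iff_even.mp fun ho =>
      hnc ((q.1.2.trans (Components.isConj_of_odd (hinv1 _ q.1.2) (hinv2 _ q.2.2) ho)).trans q.2.2.symm)
    exact ⟨⟨_, (Components.central_involution (hinv1 _ q.1.2) (hinv2 _ q.2.2) (orderOf_pos _).ne' he).1⟩,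
      pow_mem (Subgroup.mem_zpowers _) _⟩
  choose f hf using hex
  have e1 : Nat.card (K₁ × K₂) = ∑ z : {z : G // orderOf z = 2}, Nat.card (P z.1) := by
    rw [← Nat.card_sigma]
    exact Nat.card_congr
      { toFun := fun q => ⟨f q, (q.1.1, q.2.1), q.1.2, q.2.2, hf q⟩
        invFun := fun s => (⟨s.2.1.1, s.2.2.1⟩, ⟨s.2.1.2, s.2.2.2.1⟩)
        left_inv := fun q => rfl
        right_inv := fun s => by
          obtain ⟨⟨z, hz⟩, ⟨a, b⟩, ha, hb, hzm⟩ := s
          have : f (⟨a, ha⟩, ⟨b, hb⟩) = ⟨z, hz⟩ :=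
            Subtype.ext (huniq _ _ _ (f _).2 hz (hf _) hzm)
          exact Sigma.subtype_ext this rfl }
  have hPc : ∀ z w : G, IsConj z w → Nat.card (P z) = Nat.card (P w) := by
    intro z w hzw
    obtain ⟨g, rfl⟩ := isConj_iff.mp hzw
    refine Nat.card_congr ((Equiv.prodCongr (MulAut.conj g).toEquiv (MulAut.conj g).toEquiv).subtypeEquiv
      fun p => ?_)
    show _ ↔ IsConj x₁ (g * p.1 * g⁻¹) ∧ IsConj x₂ (g * p.2 * g⁻¹) ∧
      g * z * g⁻¹ ∈ Subgroup.zpowers (g * p.1 * g⁻¹ * (g * p.2 * g⁻¹))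
    have hc : ∀ x a : G, IsConj x a ↔ IsConj x (g * a * g⁻¹) := fun x a =>
      ⟨fun h => h.trans (isConj_iff.mpr ⟨g, rfl⟩), fun h => h.trans (isConj_iff.mpr ⟨g, rfl⟩).symm⟩
    rw [← hc, ← hc]
    refine and_congr_right fun _ => and_congr_right fun _ => ?_
    rw [show g * p.1 * g⁻¹ * (g * p.2 * g⁻¹) = g * (p.1 * p.2) * g⁻¹ by group]
    constructor
    · rintro ⟨i, hi⟩
      exact ⟨i, by rw [← hi]; exact conj_zpow⟩
    · rintro ⟨i, hi⟩
      refine ⟨i, ?_⟩
      have hi' : (g * (p.1 * p.2) * g⁻¹) ^ i = g * z * g⁻¹ := hi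
      rw [conj_zpow] at hi'
      exact mul_left_cancel (mul_right_cancel hi')
  have e2 : ∑ z : {z : G // orderOf z = 2}, Nat.card (P z.1) =
      Nat.card K₁ * Nat.card (P x₁) + Nat.card K₂ * Nat.card (P x₂) := by
    rw [← Finset.sum_filter_add_sum_filter_not Finset.univ (fun z : {z : G // orderOf z = 2} => IsConj x₁ z.1)]
    have ha : ∀ (x : G), orderOf x = 2 →
        (Finset.univ.filter fun z : {z : G // orderOf z = 2} => IsConj x z.1).card = Nat.card {a : G // IsConj x a} := by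
      intro x hx
      rw [← Fintype.card_subtype, ← Nat.card_eq_fintype_card]
      exact Nat.card_congr
        { toFun := fun z => ⟨z.1.1, z.2⟩
          invFun := fun a => ⟨⟨a.1, by obtain ⟨g, hg⟩ := isConj_iff.mp a.2; rw [← hg]; exact Components.invol_conj hx g⟩, a.2⟩
          left_inv := fun z => rfl
          right_inv := fun a => rfl }
    have hb : (Finset.univ.filter fun z : {z : G // orderOf z = 2} => ¬ IsConj x₁ z.1) =
        Finset.univ.filter fun z : {z : G // orderOf z = 2} => IsConj x₂ z.1 := by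
      ext z
      simp only [Finset.mem_filter, Finset.mem_univ, true_and]
      exact ⟨fun h => (hall z.1 z.2).resolve_left h, fun h h' => hnc (h'.trans h.symm)⟩
    rw [hb, Finset.sum_congr rfl fun z hz => (hPc x₁ z.1 (Finset.mem_filter.mp hz).2).symm,
      Finset.sum_congr (s₂ := Finset.univ.filter fun z : {z : G // orderOf z = 2} => IsConj x₂ z.1) rfl
        fun z hz => (hPc x₂ z.1 (Finset.mem_filter.mp hz).2).symm,
      Finset.sum_const, Finset.sum_const, smul_eq_mul, smul_eq_mul, ha x₁ h₁, ha x₂ h₂]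
  rw [Nat.card_prod, e2] at e1
  have c1 : Nat.card K₁ * _ = Nat.card G := Components.card_class_mul_centralizer x₁
  have c2 : Nat.card K₂ * _ = Nat.card G := Components.card_class_mul_centralizer x₂
  set g := Nat.card G
  set k₁ := Nat.card K₁
  set k₂ := Nat.card K₂
  set C₁ := Nat.card (Subgroup.centralizer ({x₁} : Set G))
  set C₂ := Nat.card (Subgroup.centralizer ({x₂} : Set G))
  change g = C₂ * Nat.card (P x₁) + C₁ * Nat.card (P x₂)
  have hg0 : 0 < g := Nat.card_pos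
  apply Nat.eq_of_mul_eq_mul_left hg0
  calc g * g = (k₁ * C₁) * (k₂ * C₂) := by rw [c1, c2]
    _ = (k₁ * k₂) * (C₁ * C₂) := by ring
    _ = (k₁ * Nat.card (P x₁) + k₂ * Nat.card (P x₂)) * (C₁ * C₂) := by rw [e1]
    _ = (k₁ * C₁) * (C₂ * Nat.card (P x₁)) + (k₂ * C₂) * (C₁ * Nat.card (P x₂)) := by ring
    _ = g * (C₂ * Nat.card (P x₁) + C₁ * Nat.card (P x₂)) := by rw [c1, c2]; ring

end Cfsg.Agent.S0213
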