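import Cfsg.Statements.S0436
import Cfsg.Agent.Screen.ThreeTransp
-- import your own Cfsg.Agent.* helpers here

set_option autoImplicit false
open Cfsg

namespace Cfsg.Agent.S0436

open Cfsg.Agent.Screen

/-- For distinct commuting members a, b of a set of 3-transpositions E, a member e of E centralises the product a * b if and only if it centralises both a and b. -/
theorem result {G : Type*} [Group G] {E : Set G} (hE : Cfsg.IsThreeTranspositionSet E) {a b e : G} (ha : a ∈ E) (hb : b ∈ E) (he : e ∈ E) (hab : a ≠ b) (hcomm : Commute a b) : Commute e (a * b) ↔ (Commute e a ∧ Commute e b) := by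
  have aa := tt_mul_self hE ha
  have bb := tt_mul_self hE hb
  have ee := tt_mul_self hE he
  refine ⟨fun h => ?_, fun h => h.1.mul_right h.2⟩
  have key : Commute e a := by
    by_contra hna
    have hnb : ¬ Commute e b := fun hb' => hna (by
      have := h.mul_right hb'
      rwa [mul_assoc, bb, mul_one] at this)
    have h1 := tt_braid hE he ha hna
    have h2 := tt_braid hE he hb hnb
    have h3 : a * e * a * (b * e * b) = a * b := by
      rw [← h1, ← h2]
      calc e * a * e * (e * b * e) = e * (a * b) * e := by
            simp only [mul_assoc, mul_mul_self_cancel ee]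
        _ = a * b := by rw [h.eq, mul_assoc (a * b) e e, ee, mul_one]
    have h4 := congrArg (fun x => e * (a * x * b) * e) h3
    simp only [mul_assoc, mul_mul_self_cancel aa, mul_mul_self_cancel bb,
      mul_mul_self_cancel ee, ee, bb, mul_one, one_mul] at h4
    have h5 : a * b = 1 := by simpa only [mul_assoc] using h4
    have h6 := congrArg (fun x => x * b) h5
    simp only [mul_assoc, bb, mul_one, one_mul] at h6
    exact hab h6
  refine ⟨key, ?_⟩
  have := key.mul_right h
  rwa [mul_mul_self_cancel aa] at this

end Cfsg.Agent.S0436
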