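import Cfsg.Statements.S0437
import Cfsg.Agent.Screen.ThreeTransp
import Cfsg.Agent.S0436
-- import your own Cfsg.Agent.* helpers here

set_option autoImplicit false
open Cfsg

namespace Cfsg.Agent.S0437

open Cfsg.Agent.Screen

/-- For three distinct, pairwise commuting members a, b, c of a set of 3-transpositions E, a member e of E centralises a * b * c if and only if it centralises each of a, b and c. -/
theorem result {G : Type*} [Group G] {E : Set G} (hE : Cfsg.IsThreeTranspositionSet E) {a b c e : G} (ha : a ∈ E) (hb : b ∈ E) (hc : c ∈ E) (he : e ∈ E) (hab : a ≠ b) (hac : a ≠ c) (hbc : b ≠ c) (h₁ : Commute a b) (h₂ : Commute a c) (h₃ : Commute b c) : Commute e (a * b * c) ↔ (Commute e a ∧ Commute e b ∧ Commute e c) := by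
  have aa := tt_mul_self hE ha
  have bb := tt_mul_self hE hb
  have cc := tt_mul_self hE hc
  have ee := tt_mul_self hE he
  refine ⟨fun h => ?_, fun h => (h.1.mul_right h.2.1).mul_right h.2.2⟩
  by_cases hea : Commute e a
  · have hbc' : Commute e (b * c) := by
      have := hea.mul_right h
      rwa [mul_assoc a b c, mul_mul_self_cancel aa] at this
    exact ⟨hea, (Cfsg.Agent.S0436.result hE hb hc he hbc h₃).1 hbc'⟩
  by_cases hec : Commute e c
  · have hab' : Commute e (a * b) := by
      have := h.mul_right hec
      rwa [mul_assoc, cc, mul_one] at this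
    exact absurd ((Cfsg.Agent.S0436.result hE ha hb he hab h₁).1 hab').1 hea
  by_cases heb : Commute e b
  · have hac' : Commute e (a * c) := by
      have := heb.mul_right h
      rwa [h₁.eq, mul_assoc b a c, mul_mul_self_cancel bb] at this
    exact absurd ((Cfsg.Agent.S0436.result hE ha hc he hac h₂).1 hac').1 hea
  exfalso
  have h1 := tt_braid hE he ha hea
  have h2 := tt_braid hE he hb heb
  have h3 := tt_braid hE he hc hec
  have k1 : a * e * a * (b * e * b) * (c * e * c) = a * b * c := by
    rw [← h1, ← h2, ← h3]
    calc e * a * e * (e * b * e) * (e * c * e) = e * (a * b * c) * e := by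
          simp only [mul_assoc, mul_mul_self_cancel ee]
      _ = a * b * c := by rw [h.eq, mul_assoc (a * b * c) e e, ee, mul_one]
  have k2 : e * a * b * e * b * c * e = b := by
    have := congrArg (fun x => a * x * c) k1
    simp only [mul_assoc, mul_mul_self_cancel aa, cc, mul_one] at this
    simpa only [mul_assoc] using this
  set f := b * e * b with hf
  have ff : f * f = 1 := by
    simp only [hf, mul_assoc, mul_mul_self_cancel bb, mul_mul_self_cancel ee, bb]
  have k3 : a * f * c = f := by
    have := congrArg (fun x => e * x * e) k2
    simp only [mul_assoc, mul_mul_self_cancel ee, ee, mul_one] at this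
    rw [hf]
    calc a * (b * e * b) * c = a * (b * (e * (b * c))) := by simp only [mul_assoc]
      _ = e * (b * e) := this
      _ = e * b * e := (mul_assoc _ _ _).symm
      _ = b * e * b := h2
  have k4 : c = f * (a * f) := by
    calc c = f * (a * (a * f * c)) := by
          simp only [mul_assoc, mul_mul_self_cancel aa, mul_mul_self_cancel ff]
      _ = f * (a * f) := by rw [k3]
  have k5 : f * (a * f) = a * f * a := by
    have bab : b * (a * b) = a := by rw [h₁.eq, mul_mul_self_cancel bb]
    calc f * (a * f) = b * e * (b * (a * b)) * e * b := by simp only [hf, mul_assoc]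
      _ = b * (e * a * e) * b := by rw [bab]; simp only [mul_assoc]
      _ = (b * a) * e * (a * b) := by rw [h1]; simp only [mul_assoc]
      _ = (a * b) * e * (b * a) := by rw [← h₁.eq]
      _ = a * f * a := by simp only [hf, mul_assoc]
  have k6 : c = f := by
    calc c = a * c * a := by rw [h₂.eq, mul_assoc, aa, mul_one]
      _ = f := by
        rw [k4, k5]
        simp only [mul_assoc, mul_mul_self_cancel aa, aa, mul_one]
  have k7 : e = c := by
    calc e = b * f * b := by
          simp only [hf, mul_assoc, mul_mul_self_cancel bb, bb, mul_one]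
      _ = c := by rw [← k6, h₃.eq, mul_assoc, bb, mul_one]
  exact hea (k7 ▸ h₂.symm)

end Cfsg.Agent.S0437
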