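import Cfsg.Statements.S0447
import Cfsg.Agent.Core.SpinCover
import Cfsg.Agent.LocalEven.Gaschutz
import Cfsg.Agent.Coprime.Action
import Mathlib.GroupTheory.Perm.Cycle.Type
import Mathlib.GroupTheory.IndexNormal

set_option autoImplicit false
set_option linter.style.haveILetI false
open scoped commutatorElement Pointwise
open Cfsg

namespace Cfsg.Agent.S0447

open Equiv

/-- All involutions of an alternating group of degree at most seven are conjugate. -/
theorem isConj_involution {n : ℕ} (hn : n ≤ 7) {s t : alternatingGroup (Fin n)} (hs : orderOf s = 2)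
    (ht : orderOf t = 2) : ∃ g : alternatingGroup (Fin n), g * s * g⁻¹ = t := by
  haveI := Fact.mk Nat.prime_two
  have htype : ∀ u : alternatingGroup (Fin n), orderOf u = 2 → (u : Perm (Fin n)).cycleType = Multiset.replicate 2 2 := by
    intro u hu
    rw [← Subgroup.orderOf_coe] at hu
    obtain ⟨k, hk⟩ := Perm.cycleType_prime_order (σ := (u : Perm (Fin n))) (hu ▸ Nat.prime_two)
    rw [hu] at hk
    have h1 := (u : Perm (Fin n)).sum_cycleType
    have h2 := Finset.card_le_univ (u : Perm (Fin n)).support
    have h3 : Perm.sign (u : Perm (Fin n)) = 1 := Perm.mem_alternatingGroup.mp u.2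
    rw [Perm.sign_of_cycleType, hk, Multiset.sum_replicate, Multiset.card_replicate, smul_eq_mul] at h3
    rw [hk, Multiset.sum_replicate, smul_eq_mul] at h1
    rw [Fintype.card_fin] at h2
    have hk2 : k ≤ 2 := by omega
    interval_cases k
    · exact absurd h3 (by decide)
    · exact hk
    · exact absurd h3 (by decide)
  obtain ⟨g, hg⟩ := isConj_iff.mp (Perm.isConj_iff_cycleType_eq.mpr ((htype s hs).trans (htype t ht).symm))
  rcases Int.units_eq_one_or (Perm.sign g) with h | h
  · exact ⟨⟨g, Perm.mem_alternatingGroup.mpr h⟩, Subtype.ext hg⟩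
  · have hsupp : ((s : Perm (Fin n)).cycleFactorsFinset).Nonempty := by
      rw [Finset.nonempty_iff_ne_empty]
      intro e
      rw [Perm.cycleFactorsFinset_eq_empty_iff] at e
      rw [← Subgroup.orderOf_coe, e, orderOf_one] at hs
      omega
    obtain ⟨c, hc⟩ := hsupp
    have hct := htype s hs
    rw [Perm.cycleType_def, ] at hct
    have hc2 : c.support.card = 2 :=
      Multiset.eq_of_mem_replicate (hct ▸ Multiset.mem_map_of_mem _ (Finset.mem_val.mpr hc) :
        (Finset.card ∘ Perm.support) c ∈ Multiset.replicate 2 2)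
    have hcs : Perm.sign c = -1 := by
      obtain ⟨x, y, hxy, rfl⟩ := Perm.card_support_eq_two.mp hc2
      exact Perm.sign_swap hxy
    refine ⟨⟨g * c, Perm.mem_alternatingGroup.mpr (by rw [map_mul, h, hcs]; rfl)⟩, Subtype.ext ?_⟩
    show g * c * (s : Perm (Fin n)) * (g * c)⁻¹ = t
    rw [← hg, mul_inv_rev, mul_assoc g c, (Perm.self_mem_cycle_factors_commute hc).eq]
    group

/-- A non-split double cover of a small alternating group has only the central involution. -/
theorem noncentral_splits {n : ℕ} (hn : n ≤ 7) {H : Type} [Group H] [Finite H]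
    (hd : Cfsg.IsNonsplitDoubleCover H (alternatingGroup (Fin n))) (a b : alternatingGroup (Fin n)) (m : ℕ)
    (ha : orderOf a = 2) (hb : orderOf b = 2) (hm : orderOf (a * b) = m) (hma : a ∉ Subgroup.zpowers (a * b))
    (hm2 : orderOf ((a * b) ^ (m / 2)) = 2) (hm2' : m / 2 * 2 = m)
    (hodd : Odd (Nat.card (alternatingGroup (Fin n)) / (2 * m))) {x : H} (hx : orderOf x = 2) :
    x ∈ Subgroup.center H := by
  classical
  haveI := Fact.mk Nat.prime_two
  obtain ⟨hc, ⟨e⟩, hns⟩ := hd
  by_contra hxc
  set Z := Subgroup.center H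
  let π : H →* alternatingGroup (Fin n) := e.toMonoidHom.comp (QuotientGroup.mk' Z)
  have hπ : Function.Surjective π := e.surjective.comp (QuotientGroup.mk'_surjective Z)
  have hker : ∀ h, π h = 1 → h ∈ Z := fun h hh => by
    refine (QuotientGroup.eq_one_iff h).mp (e.injective ?_)
    rw [map_one]; exact hh
  have hkz : ∀ z ∈ Z, π z = 1 := fun z hz => by
    show e (QuotientGroup.mk' Z z) = 1
    rw [show QuotientGroup.mk' Z z = 1 from (QuotientGroup.eq_one_iff z).mpr hz, map_one]
  have hxx : x * x = 1 := by rw [← pow_two, ← hx, pow_orderOf_eq_one]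
  have hπx : orderOf (π x) = 2 := by
    refine orderOf_eq_prime ?_ fun h => hxc (hker x h)
    rw [pow_two, ← map_mul, hxx, map_one]
  have lift : ∀ h : H, orderOf (π h) = 2 → h * h = 1 := by
    intro h hh
    obtain ⟨g, hg⟩ := isConj_involution hn hπx hh
    obtain ⟨g, rfl⟩ := hπ g
    set z := (g * x * g⁻¹)⁻¹ * h
    have hz : z ∈ Z := hker z (by simp only [z, map_mul, map_inv, hg, inv_mul_cancel])
    have hzz : z * z = 1 := by
      have h1 := congrArg Subtype.val (pow_card_eq_one' (x := (⟨z, hz⟩ : Z)))
      rwa [hc, pow_two] at h1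
    have he : h = g * x * g⁻¹ * z := by simp only [z]; group
    rw [he, mul_assoc _ z, ← mul_assoc z (g * x * g⁻¹) z, ← Subgroup.mem_center_iff.mp hz (g * x * g⁻¹), mul_assoc _ z z,
      hzz, mul_one, show g * x * g⁻¹ * (g * x * g⁻¹) = g * (x * x) * g⁻¹ by group, hxx, mul_one, mul_inv_cancel]
  obtain ⟨a', rfl⟩ := hπ a
  obtain ⟨b', rfl⟩ := hπ b
  have ha' := lift a' ha
  have hb' := lift b' hb
  rw [← map_mul] at hm hma hm2
  rw [← map_pow] at hm2
  set c := a' * b'
  have hcm : c ^ m = 1 := by
    have h := lift _ hm2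
    rwa [← pow_add, ← mul_two, hm2'] at h
  have hia : a'⁻¹ = a' := inv_eq_of_mul_eq_one_right ha'
  have hnorm : Subgroup.zpowers a' ≤ Subgroup.normalizer (Subgroup.zpowers c : Set H) := by
    refine Subgroup.zpowers_le.mpr (Coprime.mem_normalizer_of_conj_mem fun w hw => ?_)
    obtain ⟨i, rfl⟩ := Subgroup.mem_zpowers_iff.mp hw
    have hinv : a' * c * a'⁻¹ = c⁻¹ := by
      simp only [c]
      rw [mul_inv_rev, inv_eq_of_mul_eq_one_right hb', hia, ← mul_assoc, ha', one_mul]
    rw [← conj_zpow, hinv]
    exact Subgroup.zpow_mem _ (Subgroup.inv_mem _ (Subgroup.mem_zpowers _)) _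
  set A := Subgroup.zpowers c ⊔ Subgroup.zpowers a'
  have hm0 : 0 < m := hm ▸ orderOf_pos _
  have hAle : Nat.card A ≤ m * 2 := by
    have h1 : (A : Set H) = (Subgroup.zpowers c : Set H) * (Subgroup.zpowers a' : Set H) :=
      Subgroup.coe_mul_of_right_le_normalizer_left _ _ hnorm
    calc Nat.card A = Nat.card ↥((Subgroup.zpowers c : Set H) * (Subgroup.zpowers a' : Set H)) :=
          Nat.card_congr (Equiv.setCongr h1)
      _ ≤ Nat.card (Subgroup.zpowers c) * Nat.card (Subgroup.zpowers a') := Set.natCard_mul_le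
      _ ≤ m * 2 := by
          rw [Nat.card_zpowers, Nat.card_zpowers]
          exact Nat.mul_le_mul (Nat.le_of_dvd hm0 (orderOf_dvd_of_pow_eq_one hcm))
            (Nat.le_of_dvd two_pos (orderOf_dvd_of_pow_eq_one (by rw [pow_two, ha'])))
  set B := A.map π
  have hBlt : 2 * m ≤ Nat.card B := by
    have h1 : Subgroup.zpowers (π c) ≤ B := Subgroup.zpowers_le.mpr ⟨c, Subgroup.mem_sup_left (Subgroup.mem_zpowers c), rfl⟩
    obtain ⟨q, hq⟩ := Subgroup.card_dvd_of_le h1
    rw [Nat.card_zpowers, hm] at hq
    have hq1 : q ≠ 1 := fun hq1 => hma (by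
      rw [Subgroup.eq_of_le_of_card_ge h1 (by rw [hq, hq1, mul_one, Nat.card_zpowers, hm])]
      exact ⟨a', Subgroup.mem_sup_right (Subgroup.mem_zpowers a'), rfl⟩)
    have hq0 : q ≠ 0 := fun hq0 => (Nat.card_pos (α := B)).ne' (by rw [hq, hq0, mul_zero])
    rw [hq, mul_comm 2 m]
    exact Nat.mul_le_mul_left m (by omega)
  have hBle : Nat.card B ≤ Nat.card A := Nat.le_of_dvd Nat.card_pos (Subgroup.card_map_dvd _ _)
  have hA : Nat.card A = 2 * m := by omega
  have hdis : A ⊓ Z = ⊥ := by
    rw [Subgroup.eq_bot_iff_forall]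
    intro w hw
    have hinj : Function.Injective (π.subgroupMap A) :=
      ((Nat.bijective_iff_surjective_and_card _).mpr ⟨π.subgroupMap_surjective A, by
        show Nat.card A = Nat.card B
        omega⟩).1
    exact congrArg Subtype.val (hinj (a₁ := (⟨w, hw.1⟩ : A)) (a₂ := 1) (Subtype.ext (by simpa using hkz w hw.2)))
  have hHc : Nat.card H = 2 * Nat.card (alternatingGroup (Fin n)) := by
    rw [← Subgroup.card_mul_index Z, hc, Subgroup.index_eq_card, Nat.card_congr e.toEquiv]
  haveI : IsMulCommutative Z := inferInstance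
  obtain ⟨L, hL⟩ := LocalEven.gaschutz_exists Z (Z ⊔ A) le_sup_left (by
    have hU : Nat.card ↥(Z ⊔ A) = 4 * m := by
      have h := Core.card_sup_mul_card_inf A Z
      rw [hdis, Subgroup.card_bot, mul_one, sup_comm, hA, hc] at h
      omega
    have h := (Z ⊔ A).card_mul_index
    rw [hU, hHc] at h
    rw [hc, Nat.coprime_two_left]
    have h2 : Nat.card (alternatingGroup (Fin n)) = 2 * m * (Z ⊔ A).index := by
      rw [show 4 * m * (Z ⊔ A).index = 2 * (2 * m * (Z ⊔ A).index) by ring] at h
      omega
    rwa [h2, Nat.mul_div_cancel_left _ (by omega)] at hodd) A le_sup_right hdis rfl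
  exact hns L hL

theorem orderOf_two {G : Type*} [Group G] {x : G} (h : x * x = 1) (h1 : x ≠ 1) : orderOf x = 2 := by
  haveI := Fact.mk Nat.prime_two
  exact orderOf_eq_prime (by rw [pow_two, h]) h1

theorem orderOf_four {G : Type*} [Group G] {x : G} (h : x ^ 4 = 1) (h1 : x ^ 2 ≠ 1) : orderOf x = 4 := by
  haveI := Fact.mk Nat.prime_two
  exact orderOf_eq_prime_pow (p := 2) (n := 1) (by simpa using h1) (by simpa using h)

theorem zpowers_small {G : Type*} [Group G] [Finite G] {x y : G} (h : ∀ j < orderOf x, x ^ j ≠ y) :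
    y ∉ Subgroup.zpowers x := fun hy => by
  obtain ⟨j, hj⟩ := (Submonoid.mem_powers_iff _ _).mp ((isOfFinOrder_of_finite x).mem_powers_iff_mem_zpowers.mpr hy)
  exact h (j % orderOf x) (Nat.mod_lt _ (orderOf_pos x)) (by rw [pow_mod_orderOf, hj])

theorem center_involution {n : ℕ} (hn : n ≤ 7) {H : Type} [Group H] [Finite H]
    (hd : Cfsg.IsNonsplitDoubleCover H (alternatingGroup (Fin n))) {x : H} (hx : orderOf x = 2) :
    x ∈ Subgroup.center H := by
  rcases Nat.lt_or_ge n 4 with h4 | h4
  · obtain ⟨hc, ⟨e⟩, hns⟩ := hd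
    exfalso
    haveI : Fact (Nat.Prime 3) := ⟨Nat.prime_three⟩
    haveI : IsCyclic (alternatingGroup (Fin n)) := isCyclic_of_card_dvd_prime (p := 3) (by
      interval_cases n
      all_goals first
        | (rw [Nat.card_eq_fintype_card]; decide +kernel)
        | (rw [nat_card_alternatingGroup, Nat.card_fin]; decide +kernel))
    haveI : IsCyclic (H ⧸ Subgroup.center H) := isCyclic_of_surjective e.symm.toMonoidHom e.symm.surjective
    have hZ : Subgroup.center H = ⊤ := Subgroup.center_eq_top_iff.mpr
      ⟨⟨fun u v => (commGroupOfCyclicCenterQuotient (QuotientGroup.mk' (Subgroup.center H))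
        (QuotientGroup.ker_mk' _).le).mul_comm u v⟩⟩
    exact hns ⊥ (hZ ▸ Subgroup.isComplement'_top_bot)
  interval_cases n
  · let a : alternatingGroup (Fin 4) := ⟨swap 0 1 * swap 2 3, by simp⟩
    let b : alternatingGroup (Fin 4) := ⟨swap 0 2 * swap 1 3, by simp⟩
    refine noncentral_splits hn hd a b 2 (orderOf_two (by decide +kernel) (by decide +kernel))
      (orderOf_two (by decide +kernel) (by decide +kernel)) (orderOf_two (by decide +kernel) (by decide +kernel))
      (zpowers_small ?_) ?_ rfl ?_ hx
    · rw [orderOf_two (x := a * b) (by decide +kernel) (by decide +kernel)]; decide +kernel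
    · exact orderOf_two (by decide +kernel) (by decide +kernel)
    · rw [nat_card_alternatingGroup, Nat.card_fin]; decide +kernel
  · let a : alternatingGroup (Fin 5) := ⟨swap 0 1 * swap 2 3, by simp⟩
    let b : alternatingGroup (Fin 5) := ⟨swap 0 2 * swap 1 3, by simp⟩
    refine noncentral_splits hn hd a b 2 (orderOf_two (by decide +kernel) (by decide +kernel))
      (orderOf_two (by decide +kernel) (by decide +kernel)) (orderOf_two (by decide +kernel) (by decide +kernel))
      (zpowers_small ?_) ?_ rfl ?_ hx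
    · rw [orderOf_two (x := a * b) (by decide +kernel) (by decide +kernel)]; decide +kernel
    · exact orderOf_two (by decide +kernel) (by decide +kernel)
    · rw [nat_card_alternatingGroup, Nat.card_fin]; decide +kernel
  · let a : alternatingGroup (Fin 6) := ⟨swap 0 1 * swap 4 5, by simp⟩
    let b : alternatingGroup (Fin 6) := ⟨swap 0 2 * swap 1 3, by simp⟩
    refine noncentral_splits hn hd a b 4 (orderOf_two (by decide +kernel) (by decide +kernel))
      (orderOf_two (by decide +kernel) (by decide +kernel)) (orderOf_four (by decide +kernel) (by decide +kernel))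
      (zpowers_small ?_) ?_ rfl ?_ hx
    · rw [orderOf_four (x := a * b) (by decide +kernel) (by decide +kernel)]; decide +kernel
    · exact orderOf_two (by decide +kernel) (by decide +kernel)
    · rw [nat_card_alternatingGroup, Nat.card_fin]; decide +kernel
  · let a : alternatingGroup (Fin 7) := ⟨swap 0 1 * swap 4 5, by simp⟩
    let b : alternatingGroup (Fin 7) := ⟨swap 0 2 * swap 1 3, by simp⟩
    refine noncentral_splits hn hd a b 4 (orderOf_two (by decide +kernel) (by decide +kernel))
      (orderOf_two (by decide +kernel) (by decide +kernel)) (orderOf_four (by decide +kernel) (by decide +kernel))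
      (zpowers_small ?_) ?_ rfl ?_ hx
    · rw [orderOf_four (x := a * b) (by decide +kernel) (by decide +kernel)]; decide +kernel
    · exact orderOf_two (by decide +kernel) (by decide +kernel)
    · rw [nat_card_alternatingGroup, Nat.card_fin]; decide +kernel

/-- Involutions in double covers of alternating groups: for n ≤ 7, a finite non-split double cover of the alternating group of degree n has exactly one element of order 2 (the central one); for degree 8 there is a non-split double cover with two distinct involutions. -/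
theorem result : (∀ (n : ℕ) (H : Type) (_ : Group H) (_ : Finite H), n ≤ 7 → Cfsg.IsNonsplitDoubleCover H (alternatingGroup (Fin n)) → ∀ x y : H, orderOf x = 2 → orderOf y = 2 → x = y) ∧ ∃ (H : Type) (_ : Group H) (_ : Finite H), Cfsg.IsNonsplitDoubleCover H (alternatingGroup (Fin 8)) ∧ ∃ x y : H, x ≠ y ∧ orderOf x = 2 ∧ orderOf y = 2 := by
  haveI := Fact.mk Nat.prime_two
  refine ⟨fun n H _ _ hn hd x y hx hy => ?_, ?_⟩
  · have hc := hd.1
    have key : ∀ {u : H}, orderOf u = 2 → u ∈ Subgroup.center H := fun hu => center_involution hn hd hu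
    have hzx : Subgroup.zpowers x = Subgroup.center H := Subgroup.eq_of_le_of_card_ge
      (Subgroup.zpowers_le.mpr (key hx)) (by rw [hc, Nat.card_zpowers, hx])
    obtain ⟨i, hi⟩ := Subgroup.mem_zpowers_iff.mp (hzx.ge (key hy))
    rw [← zpow_mod_orderOf, hx] at hi
    rcases Int.emod_two_eq_zero_or_one i with h | h
    · exfalso
      rw [show ((2 : ℕ) : ℤ) = 2 from rfl, h, zpow_zero] at hi
      rw [← hi, orderOf_one] at hy
      omega
    · rw [show ((2 : ℕ) : ℤ) = 2 from rfl, h, zpow_one] at hi
      exact hi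
  have h4 : 4 ≤ 8 := by norm_num
  haveI := Core.Spin.finite_cover h4
  set z := Core.Spin.z h4
  have hcen : Subgroup.center (Core.Spin.Cover 8) = Subgroup.zpowers z := by
    refine le_antisymm ?_ (Subgroup.zpowers_le.mpr (Core.Spin.z_central h4))
    rw [← Core.Spin.ker_proj h4]
    intro g hg
    rw [MonoidHom.mem_ker, ← Subgroup.mem_bot, ← alternatingGroup.center_eq_bot (α := Fin 8) (by simp)]
    refine Subgroup.mem_center_iff.mpr fun s => ?_
    obtain ⟨s, rfl⟩ := Core.Spin.proj_surjective (n := 8) (by norm_num) s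
    rw [← map_mul, ← map_mul, Subgroup.mem_center_iff.mp hg s]
  have hcard : Nat.card (Subgroup.center (Core.Spin.Cover 8)) = 2 := by
    rw [hcen, Nat.card_zpowers, Core.Spin.orderOf_z h4]
  refine ⟨Core.Spin.Cover 8, inferInstance, inferInstance, ⟨hcard, ⟨(QuotientGroup.quotientMulEquivOfEq
      (hcen.trans (Core.Spin.ker_proj h4).symm)).trans
      (QuotientGroup.quotientKerEquivOfSurjective _ (Core.Spin.proj_surjective (by norm_num)))⟩, fun L hL => ?_⟩, ?_⟩
  · -- the central involution is a commutator
    have hLi : L.index = 2 := by rw [← hcard, hL.index_eq_card]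
    haveI : L.Normal := Subgroup.normal_of_index_eq_two hLi
    have hle : commutator (Core.Spin.Cover 8) ≤ L := Subgroup.commutator_le.mpr fun u _ v _ =>
      (QuotientGroup.eq_one_iff _).mp (by
        haveI : IsCyclic (Core.Spin.Cover 8 ⧸ L) :=
          isCyclic_of_prime_card (p := 2) (by rw [← Subgroup.index_eq_card, hLi])
        show QuotientGroup.mk' L ⁅u, v⁆ = 1
        rw [map_commutatorElement, commutatorElement_eq_one_iff_mul_comm]
        exact IsCyclic.commGroup.mul_comm _ _)
    have h1 : z ∈ Subgroup.center (Core.Spin.Cover 8) ⊓ L :=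
      ⟨Core.Spin.z_central h4, hle (Core.Spin.z_mem_commutator h4)⟩
    rw [hL.disjoint.eq_bot, Subgroup.mem_bot] at h1
    have h2 := Core.Spin.orderOf_z h4
    rw [show Core.Spin.z h4 = 1 from h1, orderOf_one] at h2
    omega
  · let a : Core.Spin.Cover 8 := ⟨Core.Spin.gen (i := 0) (j := 1) (k := 2) (l := 3) (by decide) (by decide), Core.Spin.gen_mem _ _⟩
    let c : Core.Spin.Cover 8 := ⟨Core.Spin.gen (i := 4) (j := 5) (k := 6) (l := 7) (by decide) (by decide), Core.Spin.gen_mem _ _⟩
    have hne : a * c ≠ z ∧ a * c ≠ 1 := by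
      constructor <;> intro h <;>
        exact absurd (congrFun (congrArg (fun w : Core.Spin.Cover 8 => (w.1.2 : Fin 8 → Fin 8)) h) 0)
          (show ¬ (Equiv.swap (0 : Fin 8) 1 * Equiv.swap 2 3 * (Equiv.swap 4 5 * Equiv.swap 6 7) : Equiv.Perm (Fin 8)) 0 = 0 by decide)
    have hsq : a * c * (a * c) = 1 := by
      have ha : a * a = z := Subtype.ext (Core.Spin.gen_sq (by decide) (by decide) (by decide) (by decide) (by decide) (by decide))
      have hc : c * c = z := Subtype.ext (Core.Spin.gen_sq (by decide) (by decide) (by decide) (by decide) (by decide) (by decide))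
      have hcm : c * a = a * c := Subtype.ext (Core.Spin.gen_commute (by decide) (by decide) (by decide) (by decide)
        (by decide) (by decide) (by decide) (by decide))
      rw [mul_assoc, ← mul_assoc c, hcm, mul_assoc a c, ← mul_assoc a a, ha, hc, ← pow_two, Core.Spin.z_sq]
    exact ⟨a * c, z, hne.1, orderOf_two hsq hne.2, Core.Spin.orderOf_z h4⟩

end Cfsg.Agent.S0447
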