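import Cfsg.Statements.S4252


set_option autoImplicit false
open Cfsg

namespace Cfsg.Agent.S4252
open Pointwise

/-- Let a finite group G act on a finite set Ω with more than one point, transitively but not regularly, so that no non-identity element of G fixes two distinct points. Then the stabilizer H of any point is a Frobenius complement in G (nontrivial, proper, meeting its other conjugates trivially), and the Frobenius kernel of G with respect to H (the identity together with the elements lying in no conjugate of H) is exactly the set consisting of the identity and the elements fixing no point. -/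
theorem result {G Ω : Type*} [Group G] [Finite G] [Fintype Ω] [MulAction G Ω] (hΩ : 1 < Fintype.card Ω)
    (htrans : ∀ α β : Ω, ∃ g : G, g • α = β) (hnreg : ∃ g : G, g ≠ 1 ∧ ∃ α : Ω, g • α = α)
    (hfix : ∀ g : G, g ≠ 1 → ∀ α β : Ω, g • α = α → g • β = β → α = β) (α : Ω) :
    Cfsg.IsFrobeniusComplement (MulAction.stabilizer G α) ∧
      Cfsg.frobeniusKernel (MulAction.stabilizer G α) = {g : G | g = 1 ∨ ∀ ω : Ω, g • ω ≠ ω} := by
  constructor
  · refine ⟨?_, ?_, ?_⟩
    · obtain ⟨g, hg, β, hgβ⟩ := hnreg
      obtain ⟨k, rfl⟩ := htrans α β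
      intro h
      have hm : k⁻¹ * g * k ∈ MulAction.stabilizer G α := by
        rw [MulAction.mem_stabilizer_iff, mul_smul, mul_smul, hgβ, inv_smul_smul]
      rw [h, Subgroup.mem_bot] at hm
      exact hg (calc g = k * (k⁻¹ * g * k) * k⁻¹ := by group
        _ = 1 := by rw [hm]; group)
    · obtain ⟨β, hβ⟩ := Fintype.exists_ne_of_one_lt_card hΩ α
      obtain ⟨g, rfl⟩ := htrans α β
      intro h
      exact hβ (MulAction.mem_stabilizer_iff.mp (h ▸ Subgroup.mem_top g))
    · intro g hg
      rw [eq_bot_iff]
      rintro x ⟨hx, hx'⟩
      change x ∈ MulAut.conj g • MulAction.stabilizer G α at hx'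
      rw [Subgroup.mem_pointwise_smul_iff_inv_smul_mem, MulAction.mem_stabilizer_iff] at hx'
      rw [Subgroup.mem_bot]
      by_contra hne
      have h2 : x • (g • α) = g • α := by
        simp only [MulAut.smul_def, MulAut.inv_def, MulAut.conj_symm_apply, mul_smul] at hx'
        exact inv_smul_eq_iff.mp hx'
      exact hg (hfix x hne α (g • α) hx h2).symm
  · ext x
    simp only [Cfsg.frobeniusKernel, Set.mem_setOf_eq, Subgroup.mem_pointwise_smul_iff_inv_smul_mem,
      MulAction.mem_stabilizer_iff, MulAut.smul_def, MulAut.inv_def, MulAut.conj_symm_apply,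
      mul_smul, inv_smul_eq_iff]
    refine or_congr_right ⟨fun h ω hω => ?_, fun h g => h _⟩
    obtain ⟨g, rfl⟩ := htrans α ω
    exact h g hω

end Cfsg.Agent.S4252
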