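import Cfsg.Statements.S0700
import Cfsg.Agent.PermGroups.RegularNormal
import Cfsg.Agent.PermGroups.ThreeHalves
import Cfsg.Agent.PermGroups.FrobeniusKernel
import Cfsg.Agent.PermGroups.PrimitiveSocle
import Cfsg.Agent.Core.MinimalNormal
import Cfsg.Agent.S4252

set_option autoImplicit false
open Cfsg
open scoped Pointwise

namespace Cfsg.Agent.S0700

/-- Burnside's Theorem on doubly transitive groups: a minimal normal subgroup of a finite doubly transitive permutation group is elementary abelian and regular, or simple and primitive. -/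
theorem result {α : Type*} [Fintype α] [DecidableEq α] (G : Subgroup (Equiv.Perm α)) (hG : MulAction.IsMultiplyPretransitive G α 2) (N : Subgroup G) [N.Normal] (hN : N ≠ ⊥) (hmin : ∀ M : Subgroup G, M.Normal → M ≤ N → M = ⊥ ∨ M = N) : (IsMulCommutative N ∧ (∃ p : ℕ, p.Prime ∧ ∀ n ∈ N, n ^ p = 1) ∧ ∀ a : α, MulAction.stabilizer N a = ⊥) ∨ (IsSimpleGroup N ∧ MulAction.IsPreprimitive N α) := by
  classical
  obtain ⟨n₀, hn₀, hn1⟩ := (Subgroup.bot_or_exists_ne_one N).resolve_left hN
  obtain ⟨x₀, hx₀⟩ : ∃ x : α, (n₀ : Equiv.Perm α) x ≠ x := by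
    by_contra h
    push Not at h
    exact hn1 (Subtype.ext (Equiv.ext h))
  haveI : Nontrivial α := ⟨⟨_, _, hx₀⟩⟩
  haveI : Nonempty α := ⟨x₀⟩
  have hGp : MulAction.IsPreprimitive G α := MulAction.isPreprimitive_of_is_two_pretransitive hG
  haveI htr : MulAction.IsPretransitive N α := by
    refine MulAction.IsQuasiPreprimitive.isPretransitive_of_normal fun e => hx₀ ?_
    exact Set.eq_univ_iff_forall.1 e x₀ ⟨n₀, hn₀⟩
  by_cases hreg : ∀ x : α, MulAction.stabilizer N x = ⊥
  · obtain ⟨p, j, hp, -, -, -, hcomm, hexp⟩ :=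
      Cfsg.Agent.PermGroups.regular_normal_elementaryAbelian hG N htr hreg
    exact Or.inl ⟨⟨⟨hcomm⟩⟩, ⟨p, hp, fun n hn => congrArg Subtype.val (hexp ⟨n, hn⟩)⟩, hreg⟩
  refine Or.inr ?_
  push Not at hreg
  obtain ⟨a, ha⟩ := hreg
  haveI : FaithfulSMul N α := ⟨fun h => Subtype.ext (Subtype.ext (Equiv.ext h))⟩
  obtain ⟨s, hs⟩ := Cfsg.Agent.PermGroups.exists_orbit_size_of_normal hG N
  have hGconj : ∀ (g : G) (x : N), g * (x : G) * g⁻¹ ∈ N := fun g x => ‹N.Normal›.conj_mem x x.2 g
  have hNprim : MulAction.IsPreprimitive N α := by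
    refine (Cfsg.Agent.PermGroups.primitive_or_semiregular_of_threeHalves hs).resolve_right fun hsemi => ?_
    have hfix : ∀ g : N, g ≠ 1 → ∀ u v : α, g • u = u → g • v = v → u = v :=
      fun g hg u v hu hv => by_contra fun h => hg (hsemi g u v h hu hv)
    obtain ⟨g₁, hg₁, hg₁'⟩ := (Subgroup.bot_or_exists_ne_one _).resolve_left ha
    obtain ⟨hF, hker⟩ := Cfsg.Agent.S4252.result (G := N) Fintype.one_lt_card htr.exists_smul_eq
      ⟨g₁, hg₁', a, hg₁⟩ hfix a
    obtain ⟨K, hK, hKn, hKc⟩ := Cfsg.Agent.PermGroups.Frobenius.exists_kernel hF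
    have hmemK : ∀ x : N, x ∈ K ↔ x = 1 ∨ ∀ ω : α, x • ω ≠ ω := fun x => by
      rw [← SetLike.mem_coe, hK, hker]; rfl
    have hKG : (K.map N.subtype).Normal := by
      refine ⟨fun u hu g => ?_⟩
      obtain ⟨x, hx, rfl⟩ := Subgroup.mem_map.1 hu
      refine Subgroup.mem_map.2 ⟨⟨g * (x : G) * g⁻¹, hGconj g x⟩, (hmemK _).2 ?_, rfl⟩
      rcases (hmemK x).1 hx with rfl | hx'
      · exact Or.inl (Subtype.ext (by simp))
      · refine Or.inr fun ω hω => hx' (g⁻¹ • ω) ?_
        have h1 : (g * (x : G) * g⁻¹) • ω = ω := hω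
        show (x : G) • g⁻¹ • ω = g⁻¹ • ω
        rw [← inv_smul_smul g ((x : G) • g⁻¹ • ω), smul_smul (x : G), smul_smul g, ← mul_assoc, h1]
    rcases hmin _ hKG (Subgroup.map_subtype_le K) with h | h
    · rw [Subgroup.map_eq_bot_iff_of_injective _ N.subtype_injective] at h
      have hc := hKc.card_mul
      rw [h, Subgroup.card_bot, one_mul] at hc
      exact hF.2.1 (Subgroup.eq_top_of_card_eq _ hc)
    · have hKtop : K = ⊤ := Subgroup.map_injective N.subtype_injective (by
        rw [h, ← MonoidHom.range_eq_map, Subgroup.range_subtype])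
      exact ha (top_inf_eq (MulAction.stabilizer N a) ▸ hKtop ▸ hKc.disjoint.eq_bot)
  refine ⟨?_, hNprim⟩
  haveI : Nontrivial N := (Subgroup.nontrivial_iff_ne_bot N).2 hN
  obtain ⟨M, hM⟩ := Cfsg.Agent.Core.exists_isMinNormal (G := N)
  have htrN : ∀ L : Subgroup N, L.Normal → L ≠ ⊥ → MulAction.IsPretransitive L α := by
    intro L hL hL0
    refine MulAction.IsQuasiPreprimitive.isPretransitive_of_normal fun e => hL0 ?_
    exact (Subgroup.eq_bot_iff_forall L).2 fun v hv => eq_of_smul_eq_smul (α := α) fun p => by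
      rw [one_smul]; exact Set.eq_univ_iff_forall.1 e p ⟨v, hv⟩
  -- a `G`-invariant normal subgroup of `N` is `⊥` or `⊤`
  have hinvar : ∀ L : Subgroup N, L ≠ ⊥ →
      (∀ g : G, ∀ x ∈ L, (⟨g * (x : G) * g⁻¹, hGconj g x⟩ : N) ∈ L) → L = ⊤ := by
    intro L hL0 hinv
    have hn : (L.map N.subtype).Normal := ⟨fun u hu g => by
      obtain ⟨x, hx, rfl⟩ := Subgroup.mem_map.1 hu
      exact Subgroup.mem_map.2 ⟨_, hinv g x hx, rfl⟩⟩
    rcases hmin _ hn (Subgroup.map_subtype_le L) with h | h
    · exact absurd ((Subgroup.map_eq_bot_iff_of_injective _ N.subtype_injective).1 h) hL0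
    · exact Subgroup.map_injective N.subtype_injective (by
        rw [h, ← MonoidHom.range_eq_map, Subgroup.range_subtype])
  -- conjugation by `G` permutes the minimal normal subgroups of `N`
  have hconjmin : ∀ (g : G) (L : Subgroup N), Cfsg.Agent.Core.IsMinNormal L →
      Cfsg.Agent.Core.IsMinNormal (L.map (MulAut.conjNormal g : MulAut N).toMonoidHom) := by
    intro g L hL
    haveI := hL.1
    set e : MulAut N := MulAut.conjNormal g
    refine ⟨Subgroup.Normal.map hL.1 _ e.surjective, ?_, fun K hK hKle => ?_⟩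
    · rw [Ne, Subgroup.map_eq_bot_iff_of_injective _ (f := e.toMonoidHom) e.injective]
      exact hL.2.1
    · have h1 : K.comap e.toMonoidHom ≤ L := by
        intro z hz
        obtain ⟨w, hw, hwz⟩ := Subgroup.mem_map.1 (hKle hz)
        rwa [← e.injective hwz]
      rcases hL.2.2 _ (hK.comap _) h1 with h | h
      · refine Or.inl ?_
        rw [← Subgroup.map_comap_eq_self_of_surjective (f := e.toMonoidHom) e.surjective K, h,
          Subgroup.map_bot]
      · refine Or.inr ?_
        rw [← Subgroup.map_comap_eq_self_of_surjective (f := e.toMonoidHom) e.surjective K, h]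
  by_cases hex : ∃ L, Cfsg.Agent.Core.IsMinNormal L ∧ L ≠ M
  · exfalso
    obtain ⟨L, hL, hLM⟩ := hex
    haveI := hM.1
    haveI := hL.1
    have hc := Cfsg.Agent.PermGroups.commute_of_minimal hM.2.1 hM.2.2 hL.2.2 (Ne.symm hLM)
    have hMt := htrN M hM.1 hM.2.1
    have hLt := htrN L hL.1 hL.2.1
    have huniq : ∀ K, Cfsg.Agent.Core.IsMinNormal K → K = M ∨ K = L := fun K hK => by
      by_contra h
      rw [not_or] at h
      haveI := hK.1
      exact (hL.2.2 K hK.1 (Cfsg.Agent.PermGroups.le_of_centralizes hMt hLt hc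
        (Cfsg.Agent.PermGroups.commute_of_minimal hM.2.1 hM.2.2 hK.2.2 (Ne.symm h.1)))).elim hK.2.1 h.2
    have hdisj : M ⊓ L = ⊥ := by
      rcases hM.2.2 (M ⊓ L) inferInstance inf_le_left with h | h
      · exact h
      · exact ((hL.2.2 M hM.1 (inf_eq_left.1 h)).elim hM.2.1 (Ne.symm hLM)).elim
    have hsup : M ⊔ L = ⊤ := by
      refine hinvar _ (fun e => hM.2.1 (eq_bot_iff.2 (le_sup_left.trans_eq e))) fun g x hx => ?_
      have hmap : ∀ K, K = M ∨ K = L → K.map (MulAut.conjNormal g : MulAut N).toMonoidHom ≤ M ⊔ L := by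
        intro K hK
        have hKmin : Cfsg.Agent.Core.IsMinNormal K := hK.elim (fun e => e ▸ hM) fun e => e ▸ hL
        rcases huniq _ (hconjmin g K hKmin) with h | h <;> rw [h]
        exacts [le_sup_left, le_sup_right]
      have h2 : (M ⊔ L).map (MulAut.conjNormal g : MulAut N).toMonoidHom ≤ M ⊔ L := by
        rw [Subgroup.map_sup]
        exact sup_le (hmap M (Or.inl rfl)) (hmap L (Or.inr rfl))
      have h3 := h2 ⟨x, hx, rfl⟩
      convert h3 using 1
      exact Subtype.ext (by simp [MulAut.conjNormal_apply])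
    obtain ⟨e1⟩ := Cfsg.Agent.PermGroups.nonempty_sup_mulEquiv_prod hc hdisj
    have hcardreg : ∀ K K' : Subgroup N, MulAction.IsPretransitive K α → MulAction.IsPretransitive K' α →
        (∀ x ∈ K, ∀ y ∈ K', x * y = y * x) → Nat.card K = Fintype.card α := by
      intro K K' hK hK' hcc
      haveI := hK
      have h := Subgroup.card_mul_index (MulAction.stabilizer K a)
      rw [MulAction.index_stabilizer_of_transitive,
        Cfsg.Agent.PermGroups.stabilizer_eq_bot_of_centralizes' hK' hcc, Subgroup.card_bot, one_mul,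
        Nat.card_eq_fintype_card (α := α)] at h
      exact h.symm
    have hcardN : Nat.card N = Fintype.card α * Fintype.card α := by
      rw [← Subgroup.card_top, ← hsup, Nat.card_congr e1.toEquiv, Nat.card_prod,
        hcardreg M L hMt hLt hc, hcardreg L M hLt hMt fun y hy x hx => (hc x hx y hy).symm]
    have hNa : Nat.card (MulAction.stabilizer N a) = Fintype.card α := by
      have h := Subgroup.card_mul_index (MulAction.stabilizer N a)
      rw [MulAction.index_stabilizer_of_transitive, hcardN, Nat.card_eq_fintype_card (α := α)] at h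
      exact Nat.eq_of_mul_eq_mul_right Fintype.card_pos h
    obtain ⟨g, hg, hg1⟩ := (Subgroup.bot_or_exists_ne_one _).resolve_left ha
    obtain ⟨b, hb⟩ : ∃ b : α, g • b ≠ b := by
      by_contra h
      push Not at h
      exact hg1 (eq_of_smul_eq_smul (α := α) fun b => by rw [one_smul]; exact h b)
    have hab : a ≠ b := fun e => hb (e ▸ hg)
    have hsn : s ∣ Fintype.card α := by
      rw [← hNa, ← hs a b hab, Cfsg.Agent.PermGroups.natCard_orbit_stabilizer]
      exact Subgroup.relIndex_dvd_card _ _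
    have hsn1 : s ∣ Fintype.card α - 1 := by
      have := Cfsg.Agent.PermGroups.dvd_natCard_of_invariant (H := MulAction.stabilizer N a)
        ({a}ᶜ : Set α) (fun h x hx e => hx (by
          have e' : (h : N) • x = a := e
          rw [Set.mem_singleton_iff, ← smul_left_cancel_iff (h : N), e', MulAction.mem_stabilizer_iff.1 h.2]))
        s fun x hx => (hs a x fun e => hx e.symm).symm.dvd
      rwa [Nat.card_coe_set_eq, Set.ncard_compl, Set.ncard_singleton, Nat.card_eq_fintype_card] at this
    have hs1 : s = 1 := Nat.eq_one_of_dvd_coprimes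
      ((Nat.coprime_self_sub_right (Fintype.card_pos (α := α))).2 (Nat.coprime_one_right _)) hsn hsn1
    obtain ⟨hsub, -⟩ := Nat.card_eq_one_iff_unique.1 ((hs a b hab).trans hs1)
    exact hb (congrArg Subtype.val (Subsingleton.elim
      (⟨g • b, ⟨⟨g, hg⟩, rfl⟩⟩ : MulAction.orbit (MulAction.stabilizer N a) b)
      ⟨b, MulAction.mem_orbit_self b⟩))
  · push Not at hex
    have hMtop : M = ⊤ := hinvar M hM.2.1 fun g x hx => by
      have := (hex _ (hconjmin g M hM)) ▸ Subgroup.mem_map_of_mem
        (MulAut.conjNormal g : MulAut N).toMonoidHom hx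
      convert this using 1
      exact Subtype.ext (by simp [MulAut.conjNormal_apply])
    refine ⟨fun L hL => ?_⟩
    by_contra h
    rw [not_or] at h
    obtain ⟨M', hM', hle⟩ := Cfsg.Agent.Core.exists_isMinNormal_le hL h.1
    rw [hex M' hM', hMtop, top_le_iff] at hle
    exact h.2 hle

end Cfsg.Agent.S0700
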