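import Cfsg.Statements.S0723
import Cfsg.Agent.S0721
import Cfsg.Agent.S0722
import Cfsg.Agent.PermGroups.ONanScottCore

set_option autoImplicit false
open Cfsg

namespace Cfsg.Agent.S0723

/-- The core of the O'Nan–Scott Theorem. Let `H` be a primitive permutation group on a finite set whose unique minimal normal subgroup `N` is non-abelian, and `K` a point stabiliser. Then there are a non-abelian simple group `T` and an isomorphism `N ≃* T^m` (`m ≥ 1`) under which `K ⊓ N` becomes either a product `∏ K_i` of proper subgroups `K_i < T`, or the set of functions constant on each block of a partition of the index set into blocks of one common size `k ≥ 2`. -/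
theorem result {α : Type*} [Finite α] (H : Subgroup (Equiv.Perm α)) [MulAction.IsPreprimitive H α] (N : Subgroup H) [N.Normal] (hN : N ≠ ⊥) (hmin : ∀ M : Subgroup H, M.Normal → M ≤ N → M = ⊥ ∨ M = N) (huniq : ∀ L : Subgroup H, L.Normal → L ≠ ⊥ → (∀ M : Subgroup H, M.Normal → M ≤ L → M = ⊥ ∨ M = L) → L = N) (hnab : ¬ IsMulCommutative N) (a : α) : ∃ (T : Type) (_ : Group T) (m : ℕ) (e : N ≃* (Fin m → T)), IsSimpleGroup T ∧ ¬ IsMulCommutative T ∧ 0 < m ∧ ((∃ K : Fin m → Subgroup T, (∀ i, K i ≠ ⊤) ∧ ∀ n : N, (n : H) ∈ MulAction.stabilizer H a ↔ ∀ i, e n i ∈ K i) ∨ (∃ (k : ℕ) (c : Fin m → Fin m), 2 ≤ k ∧ (∀ j : Fin m, Nat.card {i : Fin m // c i = j} = k ∨ Nat.card {i : Fin m // c i = j} = 0) ∧ ∀ n : N, (n : H) ∈ MulAction.stabilizer H a ↔ ∀ i j : Fin m, c i = c j → e n i = e n j)) := by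
  obtain ⟨T, instT, m, hTs, hm, ⟨e0⟩⟩ := Cfsg.Agent.S0721.result N hN hmin
  haveI := hTs
  have hTnab : ¬ IsMulCommutative T := fun hc => hnab ⟨⟨fun x y => e0.injective (by
    rw [map_mul, map_mul]; funext i; exact hc.is_comm.comm _ _)⟩⟩
  haveI : Finite (Fin m → T) := Finite.of_equiv _ e0.toEquiv
  haveI : Nonempty (Fin m) := ⟨⟨0, hm⟩⟩
  haveI : Finite T := Finite.of_injective (fun t : T => Function.const (Fin m) t)
    Function.const_injective
  set K := MulAction.stabilizer H a with hK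
  have hNK : ¬ N ≤ K := fun h => hN ((Subgroup.eq_bot_iff_forall N).2 fun n hn => by
    refine Subtype.ext (Equiv.ext fun b => ?_)
    obtain ⟨g, rfl⟩ := MulAction.exists_smul_eq H a b
    show n • (g • a) = g • a
    have h1 : (g⁻¹ * n * g) • a = a := h (by simpa using (inferInstance : N.Normal).conj_mem n hn g⁻¹)
    rw [mul_smul, mul_smul, inv_smul_eq_iff] at h1
    exact h1)
  haveI : Nontrivial α := by
    by_contra hα
    rw [not_nontrivial_iff_subsingleton] at hα
    exact hNK fun n _ => Subsingleton.elim _ _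
  have hco : IsCoatom K := MulAction.IsPreprimitive.isCoatom_stabilizer_of_isPreprimitive H a
  set L : Subgroup (Fin m → T) := ((K ⊓ N).subgroupOf N).map e0.toMonoidHom with hLdef
  have hmemL : ∀ n : N, e0 n ∈ L ↔ (n : H) ∈ K := by
    intro n
    constructor
    · rintro ⟨n', hn', e⟩
      obtain rfl : n' = n := e0.injective e
      exact (Subgroup.mem_inf.1 (Subgroup.mem_subgroupOf.1 hn')).1
    · exact fun h => Subgroup.mem_map_of_mem _ (Subgroup.mem_subgroupOf.2 ⟨h, n.2⟩)
  let σ : K → (Fin m → T) ≃* (Fin m → T) := fun k =>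
    e0.symm.trans ((MulAut.conjNormal (k : H) : N ≃* N).trans e0)
  have hσ : ∀ (k : K) (n : N), σ k (e0 n) = e0 (MulAut.conjNormal (k : H) n) := fun k n => by
    simp [σ]
  -- a subgroup invariant under `σ` gives a subgroup of `N` normalised by `K`
  have hpull : ∀ X : Subgroup (Fin m → T), (∀ k, X.map (σ k).toMonoidHom = X) →
      K ≤ Subgroup.normalizer ((((X.comap e0.toMonoidHom).map N.subtype : Subgroup H)) : Set H) := by
    intro X hX k hk
    have hfix : ∀ k' : K, ∀ h : H, h ∈ (X.comap e0.toMonoidHom).map N.subtype →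
        (k' : H) * h * (k' : H)⁻¹ ∈ (X.comap e0.toMonoidHom).map N.subtype := by
      rintro k' _ ⟨n, hn, rfl⟩
      refine ⟨MulAut.conjNormal (k' : H) n, ?_, MulAut.conjNormal_apply _ _⟩
      show e0 (MulAut.conjNormal (k' : H) n) ∈ X
      rw [← hσ, ← hX k']
      exact Subgroup.mem_map_of_mem _ hn
    rw [Subgroup.mem_normalizer_iff]
    refine fun h => ⟨hfix ⟨k, hk⟩ h, fun hh => ?_⟩
    have := hfix ⟨k⁻¹, K.inv_mem hk⟩ _ hh
    simpa [mul_assoc] using this
  have hinv : ∀ k, L.map (σ k).toMonoidHom = L := by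
    intro k
    refine Subgroup.eq_of_le_of_card_ge ?_ (Subgroup.card_map_of_injective (σ k).injective).ge
    rintro _ ⟨_, ⟨n, hn, rfl⟩, rfl⟩
    show σ k (e0 n) ∈ L
    rw [hσ, hmemL, MulAut.conjNormal_apply]
    exact K.mul_mem (K.mul_mem k.2 (Subgroup.mem_inf.1 (Subgroup.mem_subgroupOf.1 hn)).1) (K.inv_mem k.2)
  have hL : L ≠ ⊤ := fun h => hNK fun n hn => (hmemL ⟨n, hn⟩).1 (h ▸ Subgroup.mem_top _)
  have hmax : ∀ X : Subgroup (Fin m → T), L ≤ X → (∀ k, X.map (σ k).toMonoidHom = X) → X = L ∨ X = ⊤ := by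
    intro X hLX hX
    have hback : ∀ n : N, e0 n ∈ X ↔ (n : H) ∈ (X.comap e0.toMonoidHom).map N.subtype :=
      fun n => (Subgroup.mem_map_iff_mem N.subtype_injective (K := X.comap e0.toMonoidHom) (x := n)).symm
    rcases Cfsg.Agent.S0722.result H N hN hmin a _ (Subgroup.map_subtype_le _)
        (fun h hh => (hback ⟨h, hh.2⟩).1 (hLX ((hmemL ⟨h, hh.2⟩).2 hh.1))) (hpull X hX) with h | h
    · refine Or.inl (le_antisymm (fun x hx => ?_) hLX)
      obtain ⟨n, rfl⟩ := e0.surjective x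
      exact (hmemL n).2 (Subgroup.mem_inf.1 (h ▸ (hback n).1 hx)).1
    · refine Or.inr (eq_top_iff.2 fun x _ => ?_)
      obtain ⟨n, rfl⟩ := e0.surjective x
      exact (hback n).2 (by rw [h]; exact n.2)
  have hminS : ∀ S : Subgroup (Fin m → T), S.Normal → (∀ k, S.map (σ k).toMonoidHom = S) → S = ⊥ ∨ S = ⊤ := by
    intro S hS hSk
    have hnormal : ((S.comap e0.toMonoidHom).map N.subtype).Normal := by
      rw [← Subgroup.normalizer_eq_top_iff]
      refine eq_top_iff.2 ?_
      rw [← hco.2 (K ⊔ N) (lt_of_le_of_ne le_sup_left fun h => hNK (h.ge.trans' le_sup_right))]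
      refine sup_le (hpull S hSk) fun g hg => ?_
      have hfix : ∀ g' : N, ∀ h : H, h ∈ (S.comap e0.toMonoidHom).map N.subtype →
          (g' : H) * h * (g' : H)⁻¹ ∈ (S.comap e0.toMonoidHom).map N.subtype := by
        rintro g' _ ⟨n, hn, rfl⟩
        refine ⟨g' * n * g'⁻¹, ?_, rfl⟩
        show e0 (g' * n * g'⁻¹) ∈ S
        rw [map_mul, map_mul, map_inv]
        exact hS.conj_mem _ hn _
      rw [Subgroup.mem_normalizer_iff]
      refine fun h => ⟨hfix ⟨g, hg⟩ h, fun hh => ?_⟩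
      have := hfix ⟨g⁻¹, N.inv_mem hg⟩ _ hh
      simpa [mul_assoc] using this
    rcases hmin _ hnormal (Subgroup.map_subtype_le _) with h | h
    · refine Or.inl ((Subgroup.eq_bot_iff_forall _).2 fun x hx => ?_)
      obtain ⟨n, rfl⟩ := e0.surjective x
      have h1 : (n : H) ∈ (S.comap e0.toMonoidHom).map N.subtype := Subgroup.mem_map_of_mem _ hx
      rw [h, Subgroup.mem_bot] at h1
      rw [show n = 1 from Subtype.ext h1, map_one]
    · refine Or.inr (eq_top_iff.2 fun x _ => ?_)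
      obtain ⟨n, rfl⟩ := e0.surjective x
      exact (Subgroup.mem_map_iff_mem N.subtype_injective (x := n)).1 (by rw [h]; exact n.2)
  rcases Cfsg.Agent.PermGroups.ONanScottCore.main hTnab σ L hinv hL hmax hminS with ⟨R, hR, hmem⟩ | ⟨k, c, θ, hk, hcls, hmem⟩
  · exact ⟨T, instT, m, e0, hTs, hTnab, hm, Or.inl ⟨R, hR, fun n => (hmemL n).symm.trans (hmem _)⟩⟩
  · exact ⟨T, instT, m, e0.trans (MulEquiv.piCongrRight θ), hTs, hTnab, hm,
      Or.inr ⟨k, c, hk, hcls, fun n => (hmemL n).symm.trans (hmem _)⟩⟩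

end Cfsg.Agent.S0723
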