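import Cfsg.Statements.S0941
import Cfsg.Agent.Blocks.Covering
-- import your own Cfsg.Agent.* helpers here

set_option autoImplicit false
open Cfsg

namespace Cfsg.Agent.S0941

/-- Let P be a normal p-subgroup of the finite group G such that the index of C_G(P) is a power of p, and fix a maximal ideal M of the algebraic integers containing p. Then (i) two irreducible characters of G ⧸ P lie in the same block if and only if their inflations to G do, and (ii) every block of G contains the inflation of some irreducible character of G ⧸ P; so inflation induces a bijection between the blocks of G ⧸ P and the blocks of G. -/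
theorem result {G : Type*} [Group G] [Finite G] (p : ℕ) [Fact p.Prime] (M : Ideal Cfsg.AlgInt) (hM : Cfsg.IsPModular p M) (P : Subgroup G) [P.Normal] (hP : IsPGroup p P) (hC : ∃ k : ℕ, (Subgroup.centralizer (P : Set G)).index = p ^ k) : (∀ χ ψ : Cfsg.IrrCharacter (G ⧸ P), Cfsg.SameBlock M (χ : G ⧸ P → ℂ) (ψ : G ⧸ P → ℂ) ↔ Cfsg.SameBlock M ((χ : G ⧸ P → ℂ) ∘ QuotientGroup.mk) ((ψ : G ⧸ P → ℂ) ∘ QuotientGroup.mk)) ∧ ∀ B : Set (Cfsg.IrrCharacter G), Cfsg.IsPBlock M B → ∃ χ : Cfsg.IrrCharacter (G ⧸ P), ∃ θ ∈ B, (θ : G → ℂ) = (χ : G ⧸ P → ℂ) ∘ QuotientGroup.mk := by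
  classical
  haveI : Fintype G := Fintype.ofFinite G
  haveI : Fintype (G ⧸ P) := Fintype.ofFinite _
  have hp := (Fact.out : p.Prime)
  obtain ⟨-, hMmax, hpM⟩ := hM
  haveI := hMmax
  set π := QuotientGroup.mk' (P : Subgroup G) with hπdef
  have hπ : Function.Surjective π := QuotientGroup.mk'_surjective _
  have hC'D : (P : Subgroup G) ≤ P := le_rfl
  obtain ⟨k₀, hk₀⟩ := hC
  have hDp : ∀ c ∈ P, ∃ k, orderOf c = p ^ k := fun c hc => by
    obtain ⟨k, hk⟩ := IsPGroup.iff_orderOf.1 hP ⟨c, hc⟩
    exact ⟨k, by rw [← hk, Subgroup.orderOf_mk]⟩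
  -- a `p`-singular translate
  have hsing : ∀ g c : G, c ∈ P → g ∈ Subgroup.centralizer (P : Set G) → ¬ p ∣ orderOf g → c ≠ 1 →
      p ∣ orderOf (c * g) := by
    intro g c hc hg hreg hc1
    by_contra h
    have h2 := Blocks.ppart_mul (p := p) (Subgroup.mem_centralizer_iff.1 hg c hc)
      (hDp c hc) hreg
    rw [Blocks.ppart_one_iff.2 h] at h2
    exact hc1 h2.symm
  have hinfl : ∀ χ : IrrCharacter (G ⧸ P),
      IsIrrCharacter G ((χ : G ⧸ P → ℂ) ∘ QuotientGroup.mk) := fun χ =>
    Chars.isIrrCharacter_comp_surjective χ.2 π hπ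
  refine ⟨fun χ ψ => ⟨fun h g => ?_, fun h => ?_⟩, fun B hB => ?_⟩
  · have hdvd : (Subgroup.centralizer ({π g} : Set (G ⧸ P))).index ∣
        (Subgroup.centralizer ({g} : Set G)).index := by
      refine (Subgroup.index_dvd_of_le ?_).trans
        (Subgroup.index_map_dvd (Subgroup.centralizer ({g} : Set G)) hπ)
      rintro _ ⟨x, hx, rfl⟩
      rw [SetLike.mem_coe, Subgroup.mem_centralizer_singleton_iff] at hx
      rw [Subgroup.mem_centralizer_singleton_iff, ← map_mul, ← map_mul, hx]
    obtain ⟨c, hc⟩ := hdvd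
    have := Blocks.memI_mul_left (Blocks.memR_natCast (M := M) c) (h (π g))
    convert this using 1
    simp only [centralChar, hc, Function.comp_apply, QuotientGroup.mk_one]
    rw [show (QuotientGroup.mk g : G ⧸ P) = π g from rfl]
    push_cast
    ring
  · -- agreement on the regular classes suffices
    have hreg : ∀ y : G ⧸ P, ¬ p ∣ orderOf y →
        MemLocalIdeal M (centralChar (χ : G ⧸ P → ℂ) y -
          centralChar (ψ : G ⧸ P → ℂ) y) := by
      intro y hy
      obtain ⟨a, rfl⟩ := hπ y
      obtain ⟨g, hga, hcomm, hpp, hgreg⟩ := Blocks.isPPart_ppart (p := p) a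
      have hone : π (Blocks.ppart p a) = 1 := by
        obtain ⟨k, hk⟩ := hpp
        have h1 : orderOf (π (Blocks.ppart p a)) ∣ p ^ k := hk ▸ orderOf_map_dvd π _
        have h2 : orderOf (π (Blocks.ppart p a)) ∣ orderOf (π a) := by
          rw [Blocks.ppart, map_pow]; exact orderOf_pow_dvd _
        exact orderOf_eq_one_iff.1 (Nat.eq_one_of_dvd_coprimes
          (Nat.Coprime.pow_left k (hp.coprime_iff_not_dvd.2 hy)) h1 h2)
      have hπg : π g = π a := by rw [← hga, map_mul, hone, one_mul]
      rw [← hπg] at hy ⊢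
      haveI : (Subgroup.centralizer (P : Set G)).Normal := inferInstance
      have hgC : g ∈ Subgroup.centralizer (P : Set G) :=
        BlockChar.mem_of_isPRegular_of_index hk₀ hgreg
      have hcen : (Subgroup.centralizer ({π g} : Set (G ⧸ P))).comap π =
          Subgroup.centralizer ({g} : Set G) := by
        ext x
        rw [Subgroup.mem_comap, Subgroup.mem_centralizer_singleton_iff,
          Subgroup.mem_centralizer_singleton_iff]
        refine ⟨fun hx => ?_, fun hx => by rw [← map_mul, ← map_mul, hx]⟩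
        have hmem : x * g * x⁻¹ * g⁻¹ ∈ (P : Subgroup G) := by
          rw [← QuotientGroup.ker_mk' (P : Subgroup G), MonoidHom.mem_ker, map_mul, map_mul,
            map_mul, map_inv, map_inv, hx, mul_inv_cancel_right, mul_inv_cancel]
        by_contra hne
        have h1 := hsing g _ (hC'D hmem) hgC hgreg (fun h1 => hne (by
          rwa [mul_inv_eq_one, mul_inv_eq_iff_eq_mul] at h1))
        rw [inv_mul_cancel_right, ← MulAut.conj_apply, MulEquiv.orderOf_eq] at h1
        exact hgreg h1
      have hidx := Subgroup.index_comap_of_surjective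
        (Subgroup.centralizer ({π g} : Set (G ⧸ P))) hπ
      rw [hcen] at hidx
      have := h g
      simp only [centralChar, Function.comp_apply, QuotientGroup.mk_one, hidx] at this
      exact this
    have hB := Blocks.isPBlock_blockOf (M := M) χ
    by_contra hne
    have hψ : ψ ∉ blockOf M (χ : G ⧸ P → ℂ) := hne
    have h1 := Blocks.omega_blockCoeff_mem (Blocks.mem_blockOf_self (M := M) χ)
    have h2 := Blocks.omega_blockCoeff_not_mem hψ
    rw [Blocks.omega_eq_sum_clsFun (Chars.isClassFunction_irr _)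
      (Blocks.isClassFunction_blockCoeff _)] at h1 h2
    apply Blocks.not_memI_one (M := M)
    rw [← sub_zero (1 : ℂ), ← h1, ← h2, ← Finset.sum_sub_distrib]
    refine Blocks.memI_sum _ _ fun C _ => ?_
    rw [← mul_sub]
    by_cases hC : p ∣ orderOf (Blocks.clsRep C)
    · rw [Blocks.blockCoeff_eq_zero_of_dvd hpM hB hC, zero_mul]; exact Blocks.memI_zero
    · exact Blocks.memI_mul_left (Blocks.rFun_blockCoeff hpM hB _) (hreg _ hC)
  · by_contra hno
    push Not at hno
    obtain ⟨g, hgd⟩ := Blocks.exists_isDefectClass hpM hB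
    have hgreg := Blocks.isPRegular_of_isDefectClass hpM hB hgd
    obtain ⟨θ, hθ⟩ := Blocks.block_nonempty hB
    haveI : (Subgroup.centralizer (P : Set G)).Normal := inferInstance
    have hgC : g ∈ Subgroup.centralizer (P : Set G) :=
      BlockChar.mem_of_isPRegular_of_index hk₀ hgreg
    set e := blockCoeff B with he
    have hec := Blocks.isClassFunction_blockCoeff (G := G) B
    let r : G ⧸ P → ℂ := fun y => ∑ c : G, if π c = y then e c else 0
    have hrc : IsClassFunction (G ⧸ P) r := fun y d => by
      obtain ⟨d, rfl⟩ := hπ d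
      refine (Fintype.sum_equiv (MulAut.conj d).toEquiv _ _ fun c => ?_).symm
      simp only [MulEquiv.toEquiv_eq_coe, EquivLike.coe_coe, MulAut.conj_apply, map_mul, map_inv]
      rw [show e (d * c * d⁻¹) = e c from hec c d]
      exact if_congr (by simp) rfl rfl
    have hr0 : r = 0 := Blocks.omega_ext hrc Blocks.isClassFunction_zero' fun χ => by
      have h0 : Blocks.omega ((χ : G ⧸ P → ℂ) ∘ QuotientGroup.mk) e = 0 :=
        Blocks.omega_blockCoeff_not_mem (χ := ⟨_, hinfl χ⟩) (fun hmem => hno χ ⟨_, hinfl χ⟩ hmem rfl)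
      have h1 : Blocks.omega (χ : G ⧸ P → ℂ) r =
          Blocks.omega ((χ : G ⧸ P → ℂ) ∘ QuotientGroup.mk) e := by
        simp only [Blocks.omega, r, Finset.sum_mul, ite_mul, zero_mul, Function.comp_apply,
          QuotientGroup.mk_one]
        rw [Finset.sum_comm]
        simp only [Finset.sum_ite_eq, Finset.mem_univ, if_true]
        rfl
      rw [h1, h0]
      simp [Blocks.omega]
    have h2 := congrFun hr0 (π g)
    simp only [r, Pi.zero_apply] at h2
    rw [Finset.sum_eq_single g] at h2
    · rw [if_pos rfl] at h2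
      exact hgd.2.1 (by rw [← he, h2]; exact Blocks.memI_zero)
    · intro c _ hc
      split_ifs with hcg
      · have hm : c * g⁻¹ ∈ (P : Subgroup G) := by
          rw [← QuotientGroup.ker_mk' (P : Subgroup G), MonoidHom.mem_ker, map_mul, map_inv,
            hcg, mul_inv_cancel]
        have h3 := hsing g _ (hC'D hm) hgC hgreg fun h4 => hc (mul_inv_eq_one.1 h4)
        rw [inv_mul_cancel_right] at h3
        exact Blocks.blockCoeff_eq_zero_of_dvd hpM hB h3
      · rfl
    · simp

end Cfsg.Agent.S0941
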