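import Cfsg.Statements.S0975
import Cfsg.Agent.SmallOrder.SelfCentExclude

set_option autoImplicit false
open Cfsg

namespace Cfsg.Agent.S0975

/-- No finite simple group has order 3744 = 2^5 * 3^2 * 13. -/
theorem result {G : Type*} [Group G] [Finite G] [IsSimpleGroup G] : Nat.card G ≠ 3744 := by
  intro h
  have := Fintype.ofFinite G
  have hG : ¬ IsMulCommutative G := SmallOrder.not_comm_of_not_prime (by rw [h]; norm_num)
  have : Fact (Nat.Prime 13) := ⟨by norm_num⟩
  obtain ⟨P⟩ := (inferInstance : Nonempty (Sylow 13 G))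
  obtain ⟨-, -, hd, hm⟩ := SmallOrder.sylow_arith P (a := 1) (m := 288) (by rw [h]; norm_num) (by norm_num)
  have hne := SmallOrder.card_sylow_ne_one (p := 13) hG (by rw [h]; norm_num)
  have hn : Nat.card (Sylow 13 G) = 144 :=
    (by decide : ∀ n ∈ Nat.divisors 288, n % 13 = 1 → n ≠ 1 → n = 144) _
      (Nat.mem_divisors.mpr ⟨hd, by norm_num⟩) hm hne
  obtain ⟨x, hx, hC, he⟩ := SmallOrder.exists_selfcent (r := 2) hG Nat.prime_two hn (by rw [h]) (by norm_num)
  obtain ⟨A, B, -, hAB, hA, hB, hAd, hBd, hA1, -, hsq⟩ :=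
    SmallOrder.SelfCentDeg.degrees_two hx hC (SmallOrder.commutator_eq_top hG) he (by norm_num)
  rw [h] at hAd hBd hsq
  have hlt : A.natAbs < 62 := by nlinarith
  have key : ∀ a < 62, a ∣ 3744 → 1 < a → (a % 13 = 1 ∨ a % 13 = 12) → a = 12 := by decide +kernel
  have ha := key _ hlt hAd hA1 (by omega)
  have hb : B.natAbs = 11 ∨ B.natAbs = 13 := by omega
  rcases hb with e | e <;> rw [e] at hBd <;> omega

end Cfsg.Agent.S0975
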