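import Cfsg.Statements.S0976
import Cfsg.Agent.SmallOrder.SelfCentExclude
import Cfsg.Agent.SmallOrder.SelfCentInvolution
import Cfsg.Agent.S0904

set_option autoImplicit false
open Cfsg

namespace Cfsg.Agent.S0976

/-- No finite simple group has order 4032 = 2^6 * 3^2 * 7. -/
theorem result {G : Type*} [Group G] [Finite G] [IsSimpleGroup G] : Nat.card G ≠ 4032 := by
  intro h
  have := Fintype.ofFinite G
  have hG : ¬ IsMulCommutative G := SmallOrder.not_comm_of_not_prime (by rw [h]; norm_num)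
  have : Fact (Nat.Prime 7) := ⟨by norm_num⟩
  obtain ⟨P⟩ := (inferInstance : Nonempty (Sylow 7 G))
  obtain ⟨hP, -, hd, hm⟩ := SmallOrder.sylow_arith P (a := 1) (m := 576) (by rw [h]; norm_num) (by norm_num)
  rw [pow_one] at hP
  have hC : Subgroup.centralizer ((P : Subgroup G) : Set G) = (P : Subgroup G) := S0904.result 2 3 7 6 2 Nat.prime_two Nat.prime_three (by norm_num) (by norm_num) (by norm_num)
    (by rw [h]; norm_num) P
  obtain ⟨h1, h2⟩ := SmallOrder.relIndex_prime_sylow hG P hP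
  rw [hC] at h1 h2
  have hmul := SmallOrder.card_normalizer_mul_card_sylow P
  have hN := Subgroup.relIndex_mul_relIndex ⊥ (P : Subgroup G) _ bot_le
    (Subgroup.le_normalizer (H := (P : Subgroup G)))
  rw [Subgroup.relIndex_bot_left, Subgroup.relIndex_bot_left, hP] at hN
  rw [← hN, h] at hmul
  obtain ⟨r, hr⟩ : ∃ r, r = (P : Subgroup G).relIndex (Subgroup.normalizer ((P : Subgroup G) : Set G)) := ⟨_, rfl⟩
  rw [← hr] at h1 h2 hmul hN
  have hr' : r ≤ 6 := Nat.le_of_dvd (by norm_num) h1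
  have hn : Nat.card (Sylow 7 G) = 288 := by interval_cases r <;> omega
  obtain ⟨x, hx, hCx, he⟩ := SmallOrder.exists_selfcent (r := 2) hG Nat.prime_two hn (by rw [h]) (by norm_num)
  obtain ⟨t, ht, hti⟩ := SmallOrder.SelfCentDeg.exists_inverting hx hCx he (by norm_num)
  obtain ⟨A, B, α, hAB, hA, hB, hAd, hBd, hA1, -, hsq, key⟩ :=
    SmallOrder.SelfCentDeg.involution_equation hx hCx (SmallOrder.commutator_eq_top hG) he le_rfl ht hti
  rw [h] at hAd hBd hsq key
  have hlt : A.natAbs < 64 := by nlinarith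
  have k1 : ∀ a < 64, 1 < a → a ∣ 4032 → a % 7 = 6 → ¬ (a - 1) ∣ 4032 := by decide +kernel
  have k2 : ∀ a < 64, 1 < a → a ∣ 4032 → a % 7 = 1 → (a + 1) ∣ 4032 → a = 8 := by decide +kernel
  have hA8 : A = -8 := by
    rcases lt_trichotomy A 0 with h0 | h0 | h0
    · have e : B.natAbs = A.natAbs + 1 := by omega
      have := k2 _ hlt hA1 hAd (by omega) (e ▸ hBd)
      omega
    · omega
    · have e : B.natAbs = A.natAbs - 1 := by omega
      exact absurd (e ▸ hBd) (k1 _ hlt hA1 hAd (by omega))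
  subst hA8
  generalize hc : Nat.card (Subgroup.centralizer ({t} : Set G)) = c at key
  have hc0 : 0 < c := hc ▸ Nat.card_pos
  obtain ⟨n, hn'⟩ : ∃ n : ℕ, (n : ℤ) = (-8 - α).natAbs := ⟨_, rfl⟩
  have e1 : c ^ 2 = 2 * (2 * n) ^ 2 := by
    have e : ((n : ℤ)) ^ 2 = (-8 - α) ^ 2 := by rw [hn']; exact Int.natAbs_sq _
    have : (c : ℤ) ^ 2 = 2 * (2 * (n : ℤ)) ^ 2 := by push_cast at key; linarith [key, e]
    exact_mod_cast this
  have hn0 : n ≠ 0 := by rintro rfl; simp at e1; omega
  have hf := congrArg (fun m => m.factorization 2) e1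
  simp [Nat.factorization_mul, Nat.factorization_pow, hn0, Nat.prime_two.factorization_self] at hf
  omega

end Cfsg.Agent.S0976
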