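import Cfsg.Statements.S0977
import Cfsg.Agent.SmallOrder.BlockSieve
import Cfsg.Agent.SmallOrder.InvolutionCount
import Cfsg.Agent.S0904
-- import your own Cfsg.Agent.* helpers here

set_option autoImplicit false
open Cfsg

namespace Cfsg.Agent.S0977

open scoped ComplexConjugate

/-- Membership in a subset, as a weight. -/
def sel (i : Bool) (a : ℤ) : ℤ := if i then a else 0

set_option synthInstance.maxSize 1024 in
theorem values_of_small : ∀ D : ℕ, D < 66 → D ∣ 4320 → 2 ≤ D →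
    (D % 5 = 1 → (D : ℤ) ∈ ([6, 16, 36] : List ℤ)) ∧
    (D % 5 = 4 → -(D : ℤ) ∈ ([-4, -9, -24, -54] : List ℤ)) := by decide +kernel

/-- Whether some sum over a subset avoiding `bad`, together with `1`, is divisible by `m`. -/
def blockOK (m : ℤ) (bad : List ℤ) (a b c d : ℤ) : Bool :=
  [false, true].any fun i => [false, true].any fun j => [false, true].any fun k => [false, true].any fun l =>
    decide ((1 + sel i a + sel j b + sel k c + sel l d) % m = 0) && (!i || !bad.contains a) &&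
      (!j || !bad.contains b) && (!k || !bad.contains c) && (!l || !bad.contains d)

theorem blockOK_of {m : ℤ} {bad : List ℤ} {a b c d : ℤ} (i j k l : Bool)
    (h : m ∣ 1 + sel i a + sel j b + sel k c + sel l d) (hi : i = true → a ∉ bad) (hj : j = true → b ∉ bad)
    (hk : k = true → c ∉ bad) (hl : l = true → d ∉ bad) : blockOK m bad a b c d = true := by
  simp only [blockOK, List.any_eq_true, Bool.and_eq_true, decide_eq_true_eq]
  refine ⟨i, by cases i <;> simp, j, by cases j <;> simp, k, by cases k <;> simp, l, by cases l <;> simp,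
    ⟨⟨⟨Int.emod_eq_zero_of_dvd h, ?_⟩, ?_⟩, ?_⟩, ?_⟩
  all_goals first
    | (cases i <;> simp_all; done)
    | (cases j <;> simp_all; done)
    | (cases k <;> simp_all; done)
    | (cases l <;> simp_all; done)

/-- All possible signed degrees. -/
def vals : List ℤ := [6, 16, 36, -4, -9, -24, -54]

theorem pattern : (vals.all fun a => vals.all fun b => vals.all fun c => vals.all fun d =>
    !(decide (a + b + c + d = -1) && decide (a * a + b * b + c * c + d * d < 4320) &&
      blockOK 32 [-4, 16] a b c d && blockOK 27 [-9] a b c d) ||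
      ([-4, -9, -24, 36] : List ℤ).all fun v => [a, b, c, d].contains v) = true := by
  decide +kernel

theorem z5c : (1 : ZMod 5) ≠ 0 ∧ (2 : ZMod 5) ≠ 0 ∧ (3 : ZMod 5) ≠ 0 ∧ (4 : ZMod 5) ≠ 0 := by decide

set_option synthInstance.maxSize 1024 in
theorem no_square : ∀ c : ℕ, c < 30 → ∀ a : ℕ, a < 6 → ∀ b : ℕ, b < 5 → 0 < c → ((a : ℤ) - 3) % 2 = 1 → ((b : ℤ) - 2) % 2 = 0 →
    ((c : ℕ) : ℤ) * c ≠ 12 * (72 - 16 * (((b : ℕ) : ℤ) - 2) ^ 2 - 8 * (((a : ℕ) : ℤ) - 3) ^ 2 -
      3 * (1 + (((a : ℕ) : ℤ) - 3)) ^ 2) := by decide +kernel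

/-- The final arithmetic. -/
theorem no_solution (c : ℕ) (a b : ℤ) (hc : 0 < c) (ha : a % 2 = 1) (hb : b % 2 = 0)
    (h : (c : ℤ) ^ 2 = 12 * (72 - 16 * b ^ 2 - 8 * a ^ 2 - 3 * (1 + a) ^ 2)) : False := by
  have hc2 : (c : ℤ) ^ 2 > 0 := by positivity
  have ha1 : a ≤ 2 := by nlinarith
  have ha2 : -3 ≤ a := by nlinarith
  have hb1 : b ≤ 2 := by nlinarith
  have hb2 : -2 ≤ b := by nlinarith
  have hc1 : (c : ℤ) ≤ 29 := by nlinarith
  obtain ⟨a', rfl⟩ : ∃ a' : ℕ, a = (a' : ℤ) - 3 := ⟨(a + 3).toNat, by omega⟩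
  obtain ⟨b', rfl⟩ : ∃ b' : ℕ, b = (b' : ℤ) - 2 := ⟨(b + 2).toNat, by omega⟩
  exact no_square c (by omega) a' (by omega) b' (by omega) hc ha hb (by rw [← sq]; exact h)

/-- No finite simple group has order 4320 = 2^5 * 3^3 * 5. -/
theorem result {G : Type*} [Group G] [Finite G] [IsSimpleGroup G] : Nat.card G ≠ 4320 := by
  classical
  intro h
  have := Fintype.ofFinite G
  have hG : ¬ IsMulCommutative G := SmallOrder.not_comm_of_not_prime (by rw [h]; norm_num)
  have hna : ∃ a b : G, a * b ≠ b * a := by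
    by_contra hc
    push Not at hc
    exact hG ⟨⟨hc⟩⟩
  have : Fact (Nat.Prime 5) := ⟨by norm_num⟩
  have : Fact (Nat.Prime 2) := ⟨Nat.prime_two⟩
  have : Fact (Nat.Prime 3) := ⟨Nat.prime_three⟩
  obtain ⟨P⟩ := (inferInstance : Nonempty (Sylow 5 G))
  obtain ⟨hP, -, hd, hm⟩ := SmallOrder.sylow_arith P (a := 1) (m := 864) (by rw [h]; norm_num) (by norm_num)
  rw [pow_one] at hP
  have hCP : Subgroup.centralizer ((P : Subgroup G) : Set G) = (P : Subgroup G) :=
    S0904.result 2 3 5 5 3 Nat.prime_two Nat.prime_three (by norm_num) (by norm_num) (by norm_num)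
      (by rw [h]; norm_num) P
  obtain ⟨x, hx, hC, hmul, hrel⟩ := SmallOrder.BlockSieve.exists_selfcent_of_sylow h P hP hCP
  obtain ⟨h1, h2⟩ := SmallOrder.relIndex_prime_sylow hG P hP
  rw [hCP, hrel] at h1 h2
  generalize hE : SmallOrder.SelfCentDeg.expSet 5 x = E at hmul h1 h2
  have he : E.card = 4 := by
    have hle : E.card ≤ 4 := Nat.le_of_dvd (by norm_num) h1
    interval_cases hc : E.card <;> omega
  have hall : ∀ i : ZMod 5, i ≠ 0 → IsConj x (x ^ i.val) := by
    subst hE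
    intro i hi
    have he' : SmallOrder.SelfCentDeg.expSet 5 x = Finset.univ.erase 0 :=
      Finset.eq_of_subset_of_card_le
        (fun r hr => Finset.mem_erase.2 ⟨SmallOrder.SelfCentDeg.ne_zero_of_mem hx hr, Finset.mem_univ _⟩)
        (by rw [he, Finset.card_erase_of_mem (Finset.mem_univ _), Finset.card_univ, ZMod.card])
    exact SmallOrder.SelfCentDeg.mem_expSet.1 (he' ▸ Finset.mem_erase.2 ⟨hi, Finset.mem_univ _⟩)
  have hc12 : IsConj x (x ^ 2) := hall 2 z5c.2.1
  have hc13 : IsConj x (x ^ 3) := hall 3 z5c.2.2.1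
  have hc14 : IsConj x (x ^ 4) := hall 4 z5c.2.2.2
  have hcl : ∀ (χ : IrrCharacter G) {a b : G}, IsConj a b → (χ : G → ℂ) a = (χ : G → ℂ) b := by
    intro χ a b hab
    obtain ⟨c, rfl⟩ := isConj_iff.1 hab
    exact (Chars.isClassFunction_irr χ a c).symm
  have hD : ∀ χ : IrrCharacter G, (χ : G → ℂ) 1 = (charDegree (χ : G → ℂ) : ℂ) :=
    fun χ => (Blocks.charDegree_eq χ.2).1
  -- the integers `u χ`
  have hint : ∀ χ : IrrCharacter G, ∃ u : ℤ, (χ : G → ℂ) x = u ∧
      (5 : ℤ) ∣ (charDegree (χ : G → ℂ) : ℤ) + 4 * u := by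
    intro χ
    obtain ⟨m, hm⟩ := SmallOrder.BlockSieve.sum_powers hx χ
    simp only [Finset.sum_range_succ, Finset.sum_range_zero, pow_zero, pow_one, zero_add, hD, ← hcl χ hc14,
      ← hcl χ hc13, ← hcl χ hc12] at hm
    have h' : ((4 : ℕ) : ℂ) * (χ : G → ℂ) x =
        ((5 * (m : ℤ) - charDegree (χ : G → ℂ) : ℤ) : ℂ) := by
      push_cast
      push_cast at hm
      linear_combination hm
    obtain ⟨u, hu⟩ := SmallOrder.BlockSieve.exists_int
      (Chars.isIntegral_of_isCharacter (Chars.irr_isCharacter χ) x) four_ne_zero h'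
    refine ⟨u, hu, m, ?_⟩
    rw [hu] at h'
    have h'' : 4 * u = 5 * (m : ℤ) - charDegree (χ : G → ℂ) := by exact_mod_cast h'
    linarith
  choose u hu hu5 using hint
  set D : IrrCharacter G → ℕ := fun χ => charDegree (χ : G → ℂ) with hDdef
  replace hu5 : ∀ χ, (5 : ℤ) ∣ (D χ : ℤ) + 4 * u χ := hu5
  replace hD : ∀ χ : IrrCharacter G, (χ : G → ℂ) 1 = (D χ : ℂ) := hD
  have hu1 : u (Blocks.oneChar G) = 1 := by
    have := hu (Blocks.oneChar G)
    rw [Blocks.coe_oneChar] at this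
    simp only at this
    exact_mod_cast this.symm
  have hD1 : D (Blocks.oneChar G) = 1 := by
    have := hD (Blocks.oneChar G)
    rw [Blocks.coe_oneChar] at this
    simp only at this
    exact_mod_cast this.symm
  have hc1 : Nat.card (Subgroup.centralizer ({x} : Set G)) = 5 := by
    rw [hC, Nat.card_zpowers, hx]
  have hcol : ∀ g : G, ∑ χ, (u χ : ℂ) * (χ : G → ℂ) g = if IsConj x g then 5 else 0 := by
    intro g
    have h' := congrArg (starRingEnd ℂ) (Chars.column_orth x g)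
    simp only [map_sum, map_mul, Complex.conj_conj, hu, map_intCast] at h'
    rw [h']
    split_ifs
    · rw [hc1]; exact map_ofNat (starRingEnd ℂ) 5
    · simp
  have hsq : ∑ χ, u χ ^ 2 = 5 := by
    have h' := hcol x
    simp only [hu, if_pos (IsConj.refl x), ← sq] at h'
    exact_mod_cast h'
  have htot : ∑ χ, u χ * (D χ : ℤ) = 0 := by
    have h' := hcol 1
    rw [if_neg (fun hc => by rw [isConj_one_left] at hc; rw [hc, orderOf_one] at hx; omega)] at h'
    simp only [hD] at h'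
    exact_mod_cast h'
  have hDsq : ∑ χ, (D χ : ℤ) ^ 2 = 4320 := by
    have h' := Chars.sum_sq_apply_one (G := G)
    simp only [hD, h] at h'
    exact_mod_cast h'
  have hDdvd : ∀ χ, D χ ∣ 4320 := fun χ => h ▸ Blocks.charDegree_dvd χ.2
  have hD2 : ∀ χ, χ ≠ Blocks.oneChar G → 2 ≤ D χ := by
    intro χ hne
    by_contra hlt
    have hpos := (Blocks.charDegree_eq χ.2).2
    have h1' : (χ : G → ℂ) 1 = 1 := by rw [hD, show D χ = 1 by simp only [hDdef] at hlt ⊢; omega, Nat.cast_one]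
    have hc := Chars.card_linear (G := G)
    rw [SmallOrder.commutator_eq_top hG, Subgroup.index_top, Nat.card_eq_one_iff_unique] at hc
    have := hc.1
    exact hne (congrArg Subtype.val (Subsingleton.elim (⟨χ, h1'⟩ : {χ : IrrCharacter G // (χ : G → ℂ) 1 = 1})
      ⟨Blocks.oneChar G, by rw [hD, hD1, Nat.cast_one]⟩))
  -- the support
  set T := Finset.univ.filter (fun χ : IrrCharacter G => χ ≠ Blocks.oneChar G ∧ u χ ≠ 0) with hT
  have h1T : Blocks.oneChar G ∉ T := by simp [hT]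
  have hmemT : ∀ χ, χ ≠ Blocks.oneChar G → χ ∉ T → u χ = 0 := by
    intro χ hne hn
    by_contra hu0
    exact hn (Finset.mem_filter.2 ⟨Finset.mem_univ _, hne, hu0⟩)
  have hexp : ∀ F : IrrCharacter G → ℂ, ∑ χ, (u χ : ℂ) * F χ =
      F (Blocks.oneChar G) + ∑ χ ∈ T, (u χ : ℂ) * F χ := by
    intro F
    rw [← Finset.sum_subset (Finset.subset_univ (insert (Blocks.oneChar G) T)) fun χ _ hn => by
      rw [Finset.mem_insert, not_or] at hn; rw [hmemT χ hn.1 hn.2]; simp, Finset.sum_insert h1T, hu1]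
    simp
  have hsqT : ∑ χ ∈ T, u χ ^ 2 = 4 := by
    have h' := hexp (fun χ => (u χ : ℂ))
    simp only [← sq, hu1, Int.cast_one] at h'
    have h'' : ((∑ χ, u χ ^ 2 : ℤ) : ℂ) = ((1 + ∑ χ ∈ T, u χ ^ 2 : ℤ) : ℂ) := by push_cast; exact h'
    rw [hsq] at h''
    have : (5 : ℤ) = 1 + ∑ χ ∈ T, u χ ^ 2 := by exact_mod_cast h''
    linarith
  have htotT : ∑ χ ∈ T, u χ * (D χ : ℤ) = -1 := by
    have h' := hexp (fun χ => (D χ : ℂ))
    simp only [hD1, Nat.cast_one] at h'
    have h'' : ((∑ χ, u χ * (D χ : ℤ) : ℤ) : ℂ) = ((1 + ∑ χ ∈ T, u χ * (D χ : ℤ) : ℤ) : ℂ) := by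
      push_cast; exact h'
    rw [htot] at h''
    have : (0 : ℤ) = 1 + ∑ χ ∈ T, u χ * (D χ : ℤ) := by exact_mod_cast h''
    linarith
  have hunit : ∀ χ ∈ T, u χ = 1 ∨ u χ = -1 := by
    intro χ hχ
    have hle : u χ ^ 2 ≤ 4 := hsqT ▸ Finset.single_le_sum (f := fun ψ => u ψ ^ 2)
      (fun ψ _ => sq_nonneg _) hχ
    have hne : u χ ≠ 0 := (Finset.mem_filter.1 hχ).2.2
    by_contra hu'
    push Not at hu'
    have hu4 : u χ = 2 ∨ u χ = -2 := by
      have : u χ ≤ 2 := by nlinarith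
      have : -2 ≤ u χ := by nlinarith
      omega
    have hone : T = {χ} := by
      refine Finset.eq_singleton_iff_unique_mem.2 ⟨hχ, fun ψ hψ => ?_⟩
      by_contra hne'
      have h' := Finset.sum_le_sum_of_subset_of_nonneg (s := {χ, ψ}) (t := T) (f := fun φ => u φ ^ 2)
        (Finset.insert_subset_iff.2 ⟨hχ, Finset.singleton_subset_iff.2 hψ⟩) fun φ _ _ => sq_nonneg _
      rw [Finset.sum_pair (Ne.symm hne'), hsqT] at h'
      have h0 : u ψ ≠ 0 := (Finset.mem_filter.1 hψ).2.2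
      have : 0 < u ψ ^ 2 := by positivity
      rcases hu4 with e | e <;> rw [e] at h' <;> linarith
    rw [hone, Finset.sum_singleton] at htotT
    rcases hu4 with e | e <;> rw [e] at htotT <;> omega
  have hcard : T.card = 4 := by
    have h' : ∑ χ ∈ T, u χ ^ 2 = (T.card : ℤ) := by
      rw [Finset.sum_congr rfl (g := fun _ => (1 : ℤ)) fun χ hχ => by
        rcases hunit χ hχ with e | e <;> rw [e] <;> norm_num]
      simp
    omega
  -- the signed degrees
  set A : IrrCharacter G → ℤ := fun χ => u χ * (D χ : ℤ) with hA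
  have hsmall : ∀ χ ∈ T, D χ < 66 := by
    intro χ _
    have h' : (D χ : ℤ) ^ 2 ≤ 4320 := hDsq ▸ Finset.single_le_sum (f := fun ψ => (D ψ : ℤ) ^ 2)
      (fun ψ _ => sq_nonneg _) (Finset.mem_univ χ)
    have h'' : D χ ^ 2 ≤ 4320 := by exact_mod_cast h'
    nlinarith
  have hval : ∀ χ ∈ T, A χ ∈ ([6, 16, 36, -4, -9, -24, -54] : List ℤ) := by
    intro χ hχ
    obtain ⟨k1, k2⟩ := values_of_small (D χ) (hsmall χ hχ) (hDdvd χ) (hD2 χ (Finset.mem_filter.1 hχ).2.1)
    have h5 := hu5 χ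
    rcases hunit χ hχ with e | e <;> rw [e] at h5 <;> simp only [hA, e]
    · have h' := k1 (by omega)
      simp only [List.mem_cons, List.not_mem_nil, or_false] at h' ⊢
      omega
    · have h' := k2 (by omega)
      simp only [List.mem_cons, List.not_mem_nil, or_false] at h' ⊢
      omega
  have habsA : ∀ χ ∈ T, (A χ).natAbs = D χ := by
    intro χ hχ
    rcases hunit χ hχ with e | e <;> simp [hA, e]
  -- the two principal blocks
  obtain ⟨S2, h12, hpow2, hvan2, hdvd2⟩ := SmallOrder.BlockSieve.block_part hna (ℓ := 2) (a := 5)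
    (by rw [h]; norm_num) {x} (by simp [hx]) u (by simpa using hu)
  obtain ⟨S3, h13, hpow3, -, hdvd3⟩ := SmallOrder.BlockSieve.block_part hna (ℓ := 3) (a := 3)
    (by rw [h]; norm_num) {x} (by simp [hx]) u (by simpa using hu)
  have hSexp : ∀ (S : Finset (IrrCharacter G)), Blocks.oneChar G ∈ S → ∀ F : IrrCharacter G → ℂ,
      ∑ χ ∈ S, (u χ : ℂ) * F χ =
        F (Blocks.oneChar G) + ∑ χ ∈ T, if χ ∈ S then (u χ : ℂ) * F χ else 0 := by
    intro S hS F
    have h' := hexp (fun χ => if χ ∈ S then F χ else 0)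
    simp only [mul_ite, mul_zero, if_pos hS] at h'
    rw [← h', ← Finset.sum_filter]
    refine Finset.sum_congr ?_ fun _ _ => rfl
    simp
  have hSA : ∀ (S : Finset (IrrCharacter G)), Blocks.oneChar G ∈ S →
      ∑ χ ∈ S, u χ * (D χ : ℤ) = 1 + ∑ χ ∈ T, if χ ∈ S then A χ else 0 := by
    intro S hS
    have h' := hSexp S hS (fun χ => (D χ : ℂ))
    simp only [hD1, Nat.cast_one] at h'
    refine Int.cast_injective (α := ℂ) ?_
    push_cast [hA]
    exact h'
  have e2 := hSA S2 h12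
  have e3 := hSA S3 h13
  replace hdvd2 : (2 : ℤ) ^ 5 ∣ ∑ χ ∈ S2, u χ * (D χ : ℤ) := by simpa using hdvd2
  replace hdvd3 : (3 : ℤ) ^ 3 ∣ ∑ χ ∈ S3, u χ * (D χ : ℤ) := by simpa using hdvd3
  rw [e2] at hdvd2
  rw [e3] at hdvd3
  have hn2 : ∀ χ ∈ T, decide (χ ∈ S2) = true → A χ ≠ -4 ∧ A χ ≠ 16 := by
    intro χ hχ hS
    have h' := hpow2 χ (of_decide_eq_true hS) (Finset.mem_filter.1 hχ).2.1
    have ha := habsA χ hχ
    constructor
    · intro e; rw [e] at ha; exact h' 2 ha.symm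
    · intro e; rw [e] at ha; exact h' 4 ha.symm
  have hn3 : ∀ χ ∈ T, decide (χ ∈ S3) = true → A χ ≠ -9 := by
    intro χ hχ hS e
    have ha := habsA χ hχ
    rw [e] at ha
    exact hpow3 χ (of_decide_eq_true hS) (Finset.mem_filter.1 hχ).2.1 2 ha.symm
  obtain ⟨q₁, q₂, q₃, q₄, n12, n13, n14, n23, n24, n34, hTeq⟩ := Finset.card_eq_four.1 hcard
  have hsum4 : ∀ {β : Type} [AddCommMonoid β] (F : IrrCharacter G → β),
      ∑ χ ∈ T, F χ = F q₁ + (F q₂ + (F q₃ + F q₄)) := by
    intro β _ F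
    rw [hTeq, Finset.sum_insert (by simp [n12, n13, n14]), Finset.sum_insert (by simp [n23, n24]),
      Finset.sum_pair n34]
  have m1 : q₁ ∈ T := by simp [hTeq]
  have m2 : q₂ ∈ T := by simp [hTeq]
  have m3 : q₃ ∈ T := by simp [hTeq]
  have m4 : q₄ ∈ T := by simp [hTeq]
  have hpat : ∀ v ∈ ([-4, -9, -24, 36] : List ℤ), ∃ χ ∈ T, A χ = v := by
    intro v hv
    have hlt : A q₁ * A q₁ + A q₂ * A q₂ + A q₃ * A q₃ + A q₄ * A q₄ < 4320 := by
      have h' : ∑ χ ∈ insert (Blocks.oneChar G) T, (D χ : ℤ) ^ 2 ≤ 4320 :=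
        hDsq ▸ Finset.sum_le_sum_of_subset_of_nonneg (Finset.subset_univ _) fun χ _ _ => sq_nonneg _
      rw [Finset.sum_insert h1T, hsum4, hD1] at h'
      have hA2 : ∀ χ ∈ T, A χ * A χ = (D χ : ℤ) ^ 2 := fun χ hχ => by
        rcases hunit χ hχ with e | e <;> simp [hA, e, sq]
      rw [hA2 _ m1, hA2 _ m2, hA2 _ m3, hA2 _ m4]
      push_cast at h'
      linarith
    have h' := pattern
    simp only [List.all_eq_true] at h'
    have h'' := h' _ (hval _ m1) _ (hval _ m2) _ (hval _ m3) _ (hval _ m4)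
    have b2 : blockOK 32 [-4, 16] (A q₁) (A q₂) (A q₃) (A q₄) = true := by
      refine blockOK_of (decide (q₁ ∈ S2)) (decide (q₂ ∈ S2)) (decide (q₃ ∈ S2)) (decide (q₄ ∈ S2)) ?_
        (fun e => by simpa using hn2 _ m1 e) (fun e => by simpa using hn2 _ m2 e)
        (fun e => by simpa using hn2 _ m3 e) (fun e => by simpa using hn2 _ m4 e)
      rw [hsum4] at hdvd2
      simp only [sel, decide_eq_true_eq]
      simp only [← add_assoc] at hdvd2
      exact hdvd2
    have b3 : blockOK 27 [-9] (A q₁) (A q₂) (A q₃) (A q₄) = true := by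
      refine blockOK_of (decide (q₁ ∈ S3)) (decide (q₂ ∈ S3)) (decide (q₃ ∈ S3)) (decide (q₄ ∈ S3)) ?_
        (fun e => by simpa using hn3 _ m1 e) (fun e => by simpa using hn3 _ m2 e)
        (fun e => by simpa using hn3 _ m3 e) (fun e => by simpa using hn3 _ m4 e)
      rw [hsum4] at hdvd3
      simp only [sel, decide_eq_true_eq]
      simp only [← add_assoc] at hdvd3
      exact hdvd3
    rw [b2, b3, decide_eq_true (show A q₁ + A q₂ + A q₃ + A q₄ = -1 by
      rw [hsum4] at htotT; simp only [hA]; linarith), decide_eq_true hlt] at h''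
    simp only [Bool.and_self, Bool.not_true, Bool.false_or, List.all_eq_true] at h''
    have hmem := h'' v hv
    simp only [List.contains_iff_mem, List.mem_cons, List.not_mem_nil, or_false] at hmem
    rcases hmem with e | e | e | e
    exacts [⟨_, m1, e.symm⟩, ⟨_, m2, e.symm⟩, ⟨_, m3, e.symm⟩, ⟨_, m4, e.symm⟩]
  obtain ⟨r4, t4, v4⟩ := hpat (-4) (by simp)
  obtain ⟨r9, t9, v9⟩ := hpat (-9) (by simp)
  obtain ⟨r24, t24, v24⟩ := hpat (-24) (by simp)
  obtain ⟨r36, t36, v36⟩ := hpat 36 (by simp)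
  have o1 : r4 ≠ r9 := fun e => by rw [e, v9] at v4; omega
  have o2 : r4 ≠ r24 := fun e => by rw [e, v24] at v4; omega
  have o3 : r4 ≠ r36 := fun e => by rw [e, v36] at v4; omega
  have o4 : r9 ≠ r24 := fun e => by rw [e, v24] at v9; omega
  have o5 : r9 ≠ r36 := fun e => by rw [e, v36] at v9; omega
  have o6 : r24 ≠ r36 := fun e => by rw [e, v36] at v24; omega
  have hTeq' : T = {r4, r9, r24, r36} := by
    refine (Finset.eq_of_subset_of_card_le ?_ ?_).symm
    · simp [Finset.insert_subset_iff, t4, t9, t24, t36]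
    · rw [hcard, Finset.card_insert_of_notMem (by simp [o1, o2, o3]),
        Finset.card_insert_of_notMem (by simp [o4, o5]), Finset.card_pair o6]
  have hsum4' : ∀ {β : Type} [AddCommMonoid β] (F : IrrCharacter G → β),
      ∑ χ ∈ T, F χ = F r4 + (F r9 + (F r24 + F r36)) := by
    intro β _ F
    rw [hTeq', Finset.sum_insert (by simp [o1, o2, o3]), Finset.sum_insert (by simp [o4, o5]),
      Finset.sum_pair o6]
  -- the principal 2-block
  rw [hsum4', v4, v9, v24, v36] at hdvd2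
  have s4 : r4 ∉ S2 := fun hS => (hn2 r4 t4 (decide_eq_true hS)).1 v4
  have s9 : r9 ∈ S2 ∧ r24 ∈ S2 ∧ r36 ∉ S2 := by
    rw [if_neg s4] at hdvd2
    split_ifs at hdvd2 <;> first | exact ⟨‹_›, ‹_›, ‹_›⟩ | (exfalso; omega)
  obtain ⟨s9, s24, s36⟩ := s9
  -- an inverting involution
  obtain ⟨g, hg⟩ := isConj_iff.1 hc14
  have hinv4 : x ^ 4 = x⁻¹ := by
    refine eq_inv_of_mul_eq_one_left ?_
    rw [← pow_succ]; exact orderOf_dvd_iff_pow_eq_one.1 (by rw [hx])
  rw [hinv4] at hg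
  have hg2 : g * g ∈ Subgroup.centralizer ({x} : Set G) := by
    rw [Subgroup.mem_centralizer_singleton_iff]
    calc g * g * x = g * (g * x * g⁻¹) * g := by group
      _ = g * x⁻¹ * g := by rw [hg]
      _ = (g * x * g⁻¹)⁻¹ * (g * g) := by group
      _ = x * (g * g) := by rw [hg, inv_inv]
  set t := g ^ 5 with ht'
  have hg4 : g * g * x * (g * g)⁻¹ = x := by
    rw [Subgroup.mem_centralizer_singleton_iff.1 hg2, mul_inv_cancel_right]
  have hti : t * x * t⁻¹ = x⁻¹ := by
    calc t * x * t⁻¹ = (g * g) * ((g * g) * (g * x * g⁻¹) * (g * g)⁻¹) * (g * g)⁻¹ := by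
          rw [ht', show g ^ 5 = g * g * (g * g) * g by simp [pow_succ, mul_assoc]]; group
      _ = x⁻¹ := by rw [hg, ← conj_inv, hg4, ← conj_inv, hg4]
  have ht2 : t ^ 2 = 1 := by
    rw [hC] at hg2
    have hd' := Subgroup.orderOf_dvd_natCard _ hg2
    rw [Nat.card_zpowers, hx] at hd'
    rw [ht', ← pow_mul, show 5 * 2 = 2 * 5 from rfl, pow_mul, pow_two]
    exact orderOf_dvd_iff_pow_eq_one.1 hd'
  have ht : orderOf t = 2 := by
    refine orderOf_eq_prime ht2 fun e => ?_
    rw [e] at hti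
    have : x ^ 2 = 1 := by
      rw [sq]; nth_rw 2 [show x = x⁻¹ by simpa using hti]; rw [mul_inv_cancel]
    have := orderOf_dvd_of_pow_eq_one this
    rw [hx] at this
    omega
  choose val hval' hpar using fun χ => S0944.result (G := G) χ t ht
  have hpar' : ∀ χ, (2 : ℤ) ∣ (D χ : ℤ) - val χ := hpar
  have hnx : ¬ IsConj x t := fun hc => by
    obtain ⟨c, hc⟩ := isConj_iff.1 hc
    have := MulEquiv.orderOf_eq (MulAut.conj c) x
    rw [MulAut.conj_apply, hc, ht, hx] at this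
    omega
  have hone : (Blocks.oneChar G : G → ℂ) t = 1 := by rw [Blocks.coe_oneChar]
  have k1 : 1 + (u r4 * val r4 + (u r9 * val r9 + (u r24 * val r24 + u r36 * val r36))) = 0 := by
    have h' := hcol t
    rw [if_neg hnx, hexp, hsum4', hone, hval', hval', hval', hval'] at h'
    exact_mod_cast h'
  have k2 : 1 + (u r9 * val r9 + u r24 * val r24) = 0 := by
    have h' := hvan2 t (by rw [ht])
    rw [hSexp S2 h12, hsum4', hone, if_neg s4, if_pos s9, if_pos s24, if_neg s36, hval', hval', zero_add,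
      add_zero] at h'
    exact_mod_cast h'
  -- the structure constant
  set J := OddChar.clOf t with hJ
  have hcnt := SmallOrder.SelfCentDeg.involution_count_three (p := 5) hx hC (by norm_num) ht hti 1 z5c.1
  rw [← hJ] at hcnt
  set c := Nat.card (Subgroup.centralizer ({t} : Set G)) with hc
  have hc0 : 0 < c := Nat.card_pos
  have hcnt' : ((J.image (t * ·)).filter fun y => IsConj x y).card = c := by
    rw [← hcnt, Nat.card_eq_fintype_card, Fintype.card_of_subtype]
    intro y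
    simp only [Finset.mem_filter, show (1 : ZMod 5).val = 1 from rfl, pow_one]
    exact and_congr_right fun _ => ⟨IsConj.symm, IsConj.symm⟩
  have hJc : J.card * c = 4320 := by
    rw [hJ, OddChar.card_clOf, hc, Subgroup.index_mul_card, h]
  have key : ∑ χ, (u χ : ℂ) * ∑ y ∈ J, (χ : G → ℂ) (t * y) = 5 * (c : ℂ) := by
    simp only [Finset.mul_sum]
    rw [Finset.sum_comm]
    simp only [hcol]
    rw [← Finset.sum_filter, Finset.sum_const, nsmul_eq_mul, ← hcnt', Finset.filter_image,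
      Finset.card_image_of_injective _ (mul_right_injective t), mul_comm]
  have hterm : ∀ χ, χ ∈ T → (u χ : ℂ) * ∑ y ∈ J, (χ : G → ℂ) (t * y) =
      (J.card : ℂ) * (((u χ * val χ) ^ 2 : ℤ) : ℂ) / (A χ : ℂ) := by
    intro χ hχ
    have h' := OddChar.irr_class_sum_mul χ.2 t t
    rw [← hJ, hD, hval'] at h'
    have hD0 : (D χ : ℂ) ≠ 0 := by exact_mod_cast (Blocks.charDegree_eq χ.2).2.ne'
    simp only [hA]
    have hs : ∑ y ∈ J, (χ : G → ℂ) (t * y) = (J.card : ℂ) * (val χ : ℂ) * (val χ : ℂ) / (D χ : ℂ) := by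
      rw [eq_div_iff hD0, mul_comm, h']
    rw [hs]
    rcases hunit χ hχ with e | e <;> rw [e] <;> push_cast <;> ring
  rw [hexp, hsum4', hterm _ t4, hterm _ t9, hterm _ t24, hterm _ t36, v4, v9, v24, v36, Blocks.coe_oneChar] at key
  simp only [Finset.sum_const, nsmul_eq_mul, mul_one] at key
  set a4 := u r4 * val r4
  set a9 := u r9 * val r9
  set a24 := u r24 * val r24
  set a36 := u r36 * val r36
  have e24 : a24 = -1 - a9 := by linarith
  have e36 : a36 = -a4 := by linarith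
  have hJc' : (J.card : ℂ) * c = 4320 := by exact_mod_cast hJc
  have hfin : (c : ℤ) ^ 2 = 12 * (72 - 16 * a4 ^ 2 - 8 * a9 ^ 2 - 3 * (1 + a9) ^ 2) := by
    refine Int.cast_injective (α := ℂ) ?_
    rw [e24, e36] at key
    push_cast at key ⊢
    refine mul_left_cancel₀ (show (360 : ℂ) ≠ 0 by norm_num) ?_
    linear_combination -72 * (c : ℂ) * key +
      (72 - 16 * (a4 : ℂ) ^ 2 - 8 * (a9 : ℂ) ^ 2 - 3 * (1 + (a9 : ℂ)) ^ 2) * hJc'
  have p9 := hpar' r9
  have p4 := hpar' r4
  have d9 : D r9 = 9 := by rw [← habsA r9 t9, v9]; rfl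
  have d4 : D r4 = 4 := by rw [← habsA r4 t4, v4]; rfl
  refine no_solution c a9 a4 hc0 ?_ ?_ hfin
  · rcases hunit r9 t9 with e | e <;> simp only [a9, e] <;> omega
  · rcases hunit r4 t4 with e | e <;> simp only [a4, e] <;> omega

end Cfsg.Agent.S0977
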