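import Cfsg.Statements.S0978
import Cfsg.Agent.SmallOrder.O5040.Hundredtwenty

set_option autoImplicit false
open Cfsg

namespace Cfsg.Agent.S0978

/-- No finite simple group has order 5040 = 2^4 * 3^2 * 5 * 7. -/
theorem result {G : Type*} [Group G] [Finite G] [IsSimpleGroup G] : Nat.card G ≠ 5040 := by
  intro h
  haveI : Fact (Nat.Prime 7) := ⟨by norm_num⟩
  have hG : ¬ IsMulCommutative G := SmallOrder.not_comm_of_not_prime (by rw [h]; norm_num)
  obtain ⟨P⟩ := (inferInstance : Nonempty (Sylow 7 G))
  obtain ⟨-, -, hd, hm⟩ := SmallOrder.sylow_arith P (a := 1) (m := 720) (by rw [h]; norm_num) (by norm_num)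
  have hne := SmallOrder.card_sylow_ne_one hG (p := 7) (by rw [h]; norm_num)
  have hN := SmallOrder.card_normalizer_mul_card_sylow P
  have hidx : (Subgroup.normalizer ((P : Subgroup G) : Set G)).index = Nat.card (Sylow 7 G) :=
    P.card_eq_index_normalizer.symm
  have key : Nat.card (Sylow 7 G) ∈ ([8, 15, 36, 120] : List ℕ) := by
    have hmem : Nat.card (Sylow 7 G) ∈ Nat.divisors 720 := Nat.mem_divisors.2 ⟨hd, by norm_num⟩
    have : ∀ n ∈ Nat.divisors 720, n % 7 = 1 → n ≠ 1 → n ∈ ([8, 15, 36, 120] : List ℕ) := by decide +kernel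
    exact this _ hmem hm hne
  simp only [List.mem_cons, List.not_mem_nil, or_false] at key
  rcases key with e | e | e | e
  · refine SmallOrder.O5040.false_of_index_le_eight h (Or.inl rfl) _ (fun ht => ?_) (Or.inr ⟨rfl, le_of_eq (hidx.trans e)⟩)
    rw [ht, Subgroup.index_top, e] at hidx
    omega
  · exact SmallOrder.O5040.false_of_fifteen h e
  · exact SmallOrder.O5040.false_of_thirtysix h e
  · exact SmallOrder.O5040.false_of_hundredtwenty h e

end Cfsg.Agent.S0978
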