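import Cfsg.Statements.S0980
import Cfsg.Agent.SmallOrder.BlockSieve
import Cfsg.Agent.SmallOrder.Exclude
import Cfsg.Agent.S0904
-- import your own Cfsg.Agent.* helpers here

set_option autoImplicit false
open Cfsg

namespace Cfsg.Agent.S0980

private theorem z5a : ∀ a : ZMod 5, a ≠ 0 → a ≠ 1 → (a * a = 1 ∨ a * a = a) → a = 4 := by decide

private theorem z5b : ({1, 4, 2} : Finset (ZMod 5)).card = 3 := by decide

private theorem z5c : (1 : ZMod 5) ≠ 0 ∧ (2 : ZMod 5) ≠ 0 := by decide

/-- No finite simple group has order 5760 = 2^7 * 3^2 * 5. -/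
theorem result {G : Type*} [Group G] [Finite G] [IsSimpleGroup G] : Nat.card G ≠ 5760 := by
  classical
  intro h
  have := Fintype.ofFinite G
  have hG : ¬ IsMulCommutative G := SmallOrder.not_comm_of_not_prime (by rw [h]; norm_num)
  have hna : ∃ a b : G, a * b ≠ b * a := by
    by_contra hc
    push Not at hc
    exact hG ⟨⟨hc⟩⟩
  have : Fact (Nat.Prime 5) := ⟨by norm_num⟩
  have : Fact (Nat.Prime 2) := ⟨Nat.prime_two⟩
  obtain ⟨P⟩ := (inferInstance : Nonempty (Sylow 5 G))
  obtain ⟨hP, -, hd, hm⟩ := SmallOrder.sylow_arith P (a := 1) (m := 1152) (by rw [h]; norm_num) (by norm_num)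
  rw [pow_one] at hP
  have hCP : Subgroup.centralizer ((P : Subgroup G) : Set G) = (P : Subgroup G) :=
    S0904.result 2 3 5 7 2 Nat.prime_two Nat.prime_three (by norm_num) (by norm_num) (by norm_num)
      (by rw [h]; norm_num) P
  obtain ⟨x, hx, hC, hmul, hrel⟩ := SmallOrder.BlockSieve.exists_selfcent_of_sylow h P hP hCP
  obtain ⟨h1, h2⟩ := SmallOrder.relIndex_prime_sylow hG P hP
  rw [hCP, hrel] at h1 h2
  generalize hE : SmallOrder.SelfCentDeg.expSet 5 x = E at hmul h1 h2
  have he : E.card = 2 := by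
    have hle : E.card ≤ 4 := Nat.le_of_dvd (by norm_num) h1
    interval_cases hc : E.card <;> omega
  -- the exponents `1` and `-1`
  have h4 : (4 : ZMod 5) ∈ E := by
    subst hE
    have hone := SmallOrder.SelfCentDeg.one_mem_expSet (p := 5) hx
    obtain ⟨a, ha, ha1⟩ := Finset.exists_mem_ne (by omega : 1 < (SmallOrder.SelfCentDeg.expSet 5 x).card) 1
    have hsq := SmallOrder.SelfCentDeg.mul_mem_expSet hx ha ha
    have hpair : SmallOrder.SelfCentDeg.expSet 5 x = {1, a} :=
      (Finset.eq_of_subset_of_card_le (Finset.insert_subset_iff.2 ⟨hone, Finset.singleton_subset_iff.2 ha⟩)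
        (by rw [he, Finset.card_pair (Ne.symm ha1)])).symm
    have h0 := SmallOrder.SelfCentDeg.ne_zero_of_mem hx ha
    rw [hpair, Finset.mem_insert, Finset.mem_singleton] at hsq
    have : a = 4 := z5a a h0 ha1 hsq
    exact this ▸ ha
  have h2E : (2 : ZMod 5) ∉ E := by
    subst hE
    intro h2m
    have hsub : ({1, 4, 2} : Finset (ZMod 5)) ⊆ SmallOrder.SelfCentDeg.expSet 5 x := by
      simp [Finset.insert_subset_iff, SmallOrder.SelfCentDeg.one_mem_expSet hx, h4, h2m]
    have := Finset.card_le_card hsub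
    rw [he, z5b] at this
    omega
  subst hE
  have hc14 : IsConj x (x ^ 4) := SmallOrder.SelfCentDeg.mem_expSet.1 h4
  have hc23 : IsConj (x ^ 2) (x ^ 3) := by
    have h8 := hc14.pow 2
    rwa [← pow_mul, show x ^ (4 * 2) = x ^ 3 by
      rw [pow_eq_pow_iff_modEq, hx]; decide] at h8
  have hn12 : ¬ IsConj x (x ^ 2) := fun hc => h2E (SmallOrder.SelfCentDeg.mem_expSet.2 hc)
  have hne : x ≠ x ^ 2 := fun e => hn12 (by rw [← e])
  have hcl : ∀ (χ : IrrCharacter G) {a b : G}, IsConj a b → (χ : G → ℂ) a = (χ : G → ℂ) b := by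
    intro χ a b hab
    obtain ⟨c, rfl⟩ := isConj_iff.1 hab
    exact (Chars.isClassFunction_irr χ a c).symm
  have hD : ∀ χ : IrrCharacter G, (χ : G → ℂ) 1 = (charDegree (χ : G → ℂ) : ℂ) :=
    fun χ => (Blocks.charDegree_eq χ.2).1
  -- the integers `u χ`
  have hint : ∀ χ : IrrCharacter G, ∃ u : ℤ, (∑ r ∈ ({x, x ^ 2} : Finset G), (χ : G → ℂ) r = u) ∧
      (5 : ℤ) ∣ (charDegree (χ : G → ℂ) : ℤ) + 2 * u := by
    intro χ
    obtain ⟨m, hm⟩ := SmallOrder.BlockSieve.sum_powers hx χ
    simp only [Finset.sum_range_succ, Finset.sum_range_zero, pow_zero, pow_one, zero_add, hD, ← hcl χ hc14,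
      ← hcl χ hc23] at hm
    have h' : ((2 : ℕ) : ℂ) * ((χ : G → ℂ) x + (χ : G → ℂ) (x ^ 2)) =
        ((5 * (m : ℤ) - charDegree (χ : G → ℂ) : ℤ) : ℂ) := by
      push_cast
      push_cast at hm
      linear_combination hm
    obtain ⟨u, hu⟩ := SmallOrder.BlockSieve.exists_int
      ((Chars.isIntegral_of_isCharacter (Chars.irr_isCharacter χ) x).add
        (Chars.isIntegral_of_isCharacter (Chars.irr_isCharacter χ) (x ^ 2))) two_ne_zero h'
    refine ⟨u, by rw [Finset.sum_pair hne, hu], m, ?_⟩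
    rw [hu] at h'
    have h'' : 2 * u = 5 * (m : ℤ) - charDegree (χ : G → ℂ) := by exact_mod_cast h'
    linarith
  choose u hu hu5 using hint
  have hu1 : u (Blocks.oneChar G) = 2 := by
    have := hu (Blocks.oneChar G)
    rw [Finset.sum_pair hne, Blocks.coe_oneChar] at this
    have h2 : ((u (Blocks.oneChar G) : ℤ) : ℂ) = ((2 : ℤ) : ℂ) := by rw [← this]; norm_num
    exact_mod_cast h2
  have hD1 : charDegree ((Blocks.oneChar G : IrrCharacter G) : G → ℂ) = 1 := by
    have := hD (Blocks.oneChar G)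
    rw [Blocks.coe_oneChar] at this ⊢
    simp only at this
    exact_mod_cast this.symm
  have hcent : ∀ i : ZMod 5, i ≠ 0 → Nat.card (Subgroup.centralizer ({x ^ i.val} : Set G)) = 5 :=
    fun i hi => SmallOrder.SelfCentDeg.centralizer_pow hx hC hi
  have hc1 : Nat.card (Subgroup.centralizer ({x} : Set G)) = 5 := by
    have h' := hcent 1 z5c.1
    rwa [show (1 : ZMod 5).val = 1 from rfl, pow_one] at h'
  have hc2 : Nat.card (Subgroup.centralizer ({x ^ 2} : Set G)) = 5 := hcent 2 z5c.2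
  have hsq : ∑ χ, u χ ^ 2 = 10 := by
    rw [SmallOrder.BlockSieve.sum_sq_part _ u hu, Finset.sum_pair hne, Finset.sum_pair hne, Finset.sum_pair hne,
      if_pos (IsConj.refl x), if_neg hn12, if_neg (fun hc => hn12 hc.symm), if_pos (IsConj.refl (x ^ 2)), hc1, hc2]
    norm_num
  have htot : ∑ χ, u χ * (charDegree (χ : G → ℂ) : ℤ) = 0 := by
    have h' := SmallOrder.BlockSieve.total_part _ u hu 1
    simp only [hD] at h'
    rw [Finset.sum_pair hne, if_neg, if_neg] at h'
    · simp only [add_zero, Nat.cast_zero] at h'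
      exact_mod_cast h'
    · intro hc
      rw [isConj_one_right] at hc
      have := orderOf_dvd_of_pow_eq_one hc
      rw [hx] at this
      omega
    · intro hc
      rw [isConj_one_right] at hc
      rw [hc, orderOf_one] at hx
      omega
  obtain ⟨S, h1S, hpow, -, hdvd⟩ := SmallOrder.BlockSieve.block_part hna (ℓ := 2) (a := 7)
    (by rw [h]; norm_num) _ (by
      intro r hr
      rcases Finset.mem_insert.1 hr with rfl | hr
      · rw [hx]; norm_num
      · rw [Finset.mem_singleton.1 hr]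
        exact SmallOrder.BlockSieve.not_dvd_orderOf_pow Nat.prime_two (by norm_num) hx 2) u hu
  set D : IrrCharacter G → ℤ := fun χ => (charDegree (χ : G → ℂ) : ℤ) with hDdef
  set T := ∑ χ ∈ S.erase (Blocks.oneChar G), u χ * D χ with hT
  set T' := ∑ χ ∈ Finset.univ \ S, u χ * D χ with hT'
  have hS' : ∑ χ ∈ S, u χ * D χ = 2 + T := by
    rw [← Finset.add_sum_erase _ _ h1S, hu1, hDdef]
    simp only [hD1]
    norm_num [hT, hDdef]
  have hTT : T' = -2 - T := by
    have h' : T' + ∑ χ ∈ S, u χ * D χ = 0 := by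
      rw [hT', Finset.sum_sdiff (Finset.subset_univ S)]; exact htot
    rw [hS'] at h'
    linarith
  -- the bound on nontrivial characters
  set A := ∑ χ ∈ Finset.univ.erase (Blocks.oneChar G), |u χ * D χ| with hA
  have hAle : |T| + |T'| ≤ A := by
    refine le_trans (add_le_add (Finset.abs_sum_le_sum_abs _ _) (Finset.abs_sum_le_sum_abs _ _)) ?_
    rw [← Finset.sum_union (Finset.disjoint_left.2 fun χ hχ hχ' =>
      (Finset.mem_sdiff.1 hχ').2 (Finset.mem_of_mem_erase hχ))]
    refine Finset.sum_le_sum_of_subset_of_nonneg (fun χ hχ => ?_) fun χ _ _ => abs_nonneg _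
    refine Finset.mem_erase.2 ⟨?_, Finset.mem_univ _⟩
    rintro rfl
    rcases Finset.mem_union.1 hχ with h' | h'
    · exact Finset.notMem_erase _ _ h'
    · exact (Finset.mem_sdiff.1 h').2 h1S
  have hAsq : A ^ 2 ≤ 6 * 5760 := by
    have hcs := Finset.sum_mul_sq_le_sq_mul_sq (Finset.univ.erase (Blocks.oneChar G)) (fun χ => |u χ|)
      (fun χ => |D χ|)
    simp only [← abs_mul, sq_abs] at hcs
    have e1 : ∑ χ ∈ Finset.univ.erase (Blocks.oneChar G), u χ ^ 2 = 6 := by
      have h' := Finset.add_sum_erase Finset.univ (fun χ => u χ ^ 2) (Finset.mem_univ (Blocks.oneChar G))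
      simp only [hu1, hsq] at h'
      linarith
    have e2 : ∑ χ ∈ Finset.univ.erase (Blocks.oneChar G), D χ ^ 2 ≤ 5760 := by
      refine le_trans (Finset.sum_le_sum_of_subset_of_nonneg (Finset.erase_subset _ _)
        fun χ _ _ => sq_nonneg _) (le_of_eq ?_)
      have h' := Chars.sum_sq_apply_one (G := G)
      simp only [hD, h] at h'
      simp only [hDdef]
      exact_mod_cast h'
    rw [e1] at hcs
    exact hcs.trans (by linarith)
  have h3T : (3 : ℤ) ∣ T := by
    refine Finset.dvd_sum fun χ hχ => ?_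
    obtain ⟨hne', hχS⟩ := Finset.mem_erase.1 hχ
    by_cases h5 : 5 ∣ charDegree (χ : G → ℂ)
    · have hu0 : (5 : ℤ) ∣ u χ := by
        have hh := hu5 χ
        have : (5 : ℤ) ∣ (charDegree (χ : G → ℂ) : ℤ) := by exact_mod_cast h5
        omega
      have hb : u χ ^ 2 ≤ 10 := hsq ▸ Finset.single_le_sum (f := fun ψ => u ψ ^ 2)
        (fun ψ _ => sq_nonneg _) (Finset.mem_univ χ)
      obtain ⟨k, hk⟩ := hu0
      rw [hk] at hb
      have : k = 0 := by nlinarith
      rw [hk, this]
      simp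
    · have hd' : charDegree (χ : G → ℂ) ∣ 2 ^ 7 * 9 :=
        ((((by norm_num : Nat.Prime 5).coprime_iff_not_dvd).2 h5).symm).dvd_of_dvd_mul_left
          (by have := Blocks.charDegree_dvd χ.2; rw [h] at this; exact this)
      have h3 : 3 ∣ charDegree (χ : G → ℂ) := by
        by_contra h3
        obtain ⟨k, -, hk⟩ := (Nat.dvd_prime_pow Nat.prime_two).1
          (Nat.Coprime.dvd_of_dvd_mul_right (((Nat.prime_three.coprime_iff_not_dvd).2 h3).symm.pow_right 2) hd')
        exact hpow χ hχS hne' k hk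
      exact dvd_mul_of_dvd_right (by rw [hDdef]; exact Int.natCast_dvd_natCast.2 h3) _
  obtain ⟨k, hk⟩ : (128 : ℤ) ∣ 2 + T := hS' ▸ by simpa using hdvd
  have habs : 254 ≤ |T| + |T'| := by
    rw [hTT]
    have a1 := le_abs_self T
    have a2 := neg_le_abs T
    have a3 := le_abs_self (-2 - T)
    have a4 := neg_le_abs (-2 - T)
    omega
  nlinarith

end Cfsg.Agent.S0980
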