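import Cfsg.Statements.S0981
import Cfsg.Agent.SmallOrder.Card4080
import Cfsg.Agent.S1230
import Cfsg.Agent.Linear.Congr

set_option autoImplicit false
open Cfsg

namespace Cfsg.Agent.S0981

/-- A simple group of order 4080 is isomorphic to the projective special linear group of dimension 2 over the field with 16 elements. -/
theorem result {G : Type*} [Group G] [Finite G] [IsSimpleGroup G] (h : Nat.card G = 4080) {F : Type*} [Field F] [Fintype F] (hF : Fintype.card F = 16) : Nonempty (G ≃* Matrix.ProjectiveSpecialLinearGroup (Fin 2) F) := by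
  classical
  have := Fintype.ofFinite G
  obtain ⟨hC, h16⟩ := SmallOrder.Card4080.centralizer_involution h
  have hG : ¬ IsMulCommutative G := SmallOrder.not_comm_of_not_prime (by rw [h]; norm_num)
  have : Fact (Nat.Prime 2) := ⟨Nat.prime_two⟩
  obtain ⟨T⟩ := (inferInstance : Nonempty (Sylow 2 G))
  obtain ⟨hT, -, -, -⟩ := SmallOrder.sylow_arith T (a := 4) (m := 255) (by rw [h]; norm_num) (by norm_num)
  obtain ⟨F', iF, iFt, hF', ⟨e⟩⟩ := S1230.result T (fun hc => by
      obtain ⟨g, hg⟩ := IsCyclic.exists_ofOrder_eq_natCard (α := (T : Subgroup G))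
      rw [hT, ← Subgroup.orderOf_coe] at hg
      exact h16 _ hg)
    (fun hn => by
      rcases hn.eq_bot_or_eq_top with hb | hb
      · rw [hb, Subgroup.card_bot] at hT; norm_num at hT
      · rw [hb, Subgroup.card_top, h] at hT; norm_num at hT)
    (fun t ht => ⟨⟨⟨fun a b => Subtype.ext (by
      have key : ∀ c ∈ Subgroup.centralizer ({t} : Set G), c⁻¹ = c := fun c hc =>
        inv_eq_of_mul_eq_one_right (by rw [← sq]; exact (hC t ht).2 c hc)
      have hab := key _ (mul_mem a.2 b.2)
      rw [mul_inv_rev, key _ a.2, key _ b.2] at hab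
      exact hab.symm)⟩⟩, (hC t ht).2⟩)
  letI := iF
  letI := iFt
  rw [hT] at hF'
  exact ⟨e.trans (Linear.pslCongr (FiniteField.ringEquivOfCardEq (K := F') (K' := F) (by rw [hF', hF]; norm_num)))⟩

end Cfsg.Agent.S0981
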