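import Cfsg.Statements.S1009
import Mathlib

set_option autoImplicit false
open Cfsg

namespace Cfsg.Agent.S1009

open scoped Pointwise

/-- Brodkey's Theorem: if a finite group has abelian Sylow p-subgroups, then there are two Sylow p-subgroups whose intersection equals the intersection of all Sylow p-subgroups. -/
theorem result {G : Type*} [Group G] [Finite G] (p : ℕ) [Fact p.Prime] (hab : ∀ P : Sylow p G, IsMulCommutative ↥(P : Subgroup G)) : ∃ P Q : Sylow p G, (P : Subgroup G) ⊓ (Q : Subgroup G) = ⨅ R : Sylow p G, (R : Subgroup G) := by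
  classical
  have hp : p.Prime := Fact.out
  have := Fintype.ofFinite (Sylow p G)
  obtain ⟨⟨P, Q⟩, -, hmin⟩ := Finset.exists_min_image (Finset.univ : Finset (Sylow p G × Sylow p G))
    (fun x => Nat.card ↥((x.1 : Subgroup G) ⊓ (x.2 : Subgroup G))) Finset.univ_nonempty
  refine ⟨P, Q, le_antisymm (le_iInf fun R => ?_) (le_inf (iInf_le _ P) (iInf_le _ Q))⟩
  set D : Subgroup G := (P : Subgroup G) ⊓ (Q : Subgroup G)
  set C := Subgroup.centralizer (D : Set G)
  have habs : ∀ S : Sylow p G, (S : Subgroup G) ≤ Subgroup.centralizer ((S : Subgroup G) : Set G) := fun S => by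
    have := hab S; exact Subgroup.le_centralizer _
  have hQC : (Q : Subgroup G) ≤ C :=
    (habs Q).trans (Subgroup.centralizer_le (fun x hx => hx.2))
  have hPC : (P : Subgroup G) ≤ C :=
    (habs P).trans (Subgroup.centralizer_le (fun x hx => hx.1))
  obtain ⟨T, hT⟩ := ((R.2.to_le inf_le_left : IsPGroup p ↥((R : Subgroup G) ⊓ C)).of_equiv
    (Subgroup.subgroupOfEquivOfLe (inf_le_right : (R : Subgroup G) ⊓ C ≤ C)).symm).exists_le_sylow
  obtain ⟨c, hc⟩ := MulAction.exists_smul_eq C T (Q.subtype hQC)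
  -- conjugate `R` by `c`
  let R' : Sylow p G := (c : G) • R
  have hle : (P : Subgroup G) ⊓ R' ≤ D := by
    rintro x ⟨hxP, hxR⟩
    refine ⟨hxP, ?_⟩
    have hxR' : x ∈ MulAut.conj (c : G) • (R : Subgroup G) := hxR
    rw [Subgroup.mem_pointwise_smul_iff_inv_smul_mem, ← map_inv, MulAut.smul_def, MulAut.conj_apply, inv_inv] at hxR'
    have hxC : x ∈ C := hPC hxP
    have hmem : ((c : G))⁻¹ * x * c ∈ C := C.mul_mem (C.mul_mem (C.inv_mem c.2) hxC) c.2
    have hT' : (⟨_, hmem⟩ : C) ∈ (T : Subgroup C) := hT ⟨hxR', hmem⟩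
    have : c * (⟨_, hmem⟩ : C) * c⁻¹ ∈ ((c • T : Sylow p C) : Subgroup C) :=
      Subgroup.smul_mem_pointwise_smul _ (MulAut.conj c) _ hT'
    rw [hc] at this
    have hx : ((c * (⟨_, hmem⟩ : C) * c⁻¹ : C) : G) = x := by simp [mul_assoc]
    exact hx ▸ this
  have heq : (P : Subgroup G) ⊓ R' = D :=
    Subgroup.eq_of_le_of_card_ge hle (hmin (P, R') (Finset.mem_univ _))
  intro d hd
  have hd' : d ∈ MulAut.conj (c : G) • (R : Subgroup G) := (heq.ge hd).2
  rw [Subgroup.mem_pointwise_smul_iff_inv_smul_mem, ← map_inv, MulAut.smul_def, MulAut.conj_apply, inv_inv] at hd'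
  have hcd : d * (c : G) = c * d := (Subgroup.mem_centralizer_iff.mp c.2 d hd)
  rwa [mul_assoc, hcd, inv_mul_cancel_left] at hd' 

end Cfsg.Agent.S1009
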