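import Cfsg.Statements.S1141
import Cfsg.Agent.KnownA.UnitaryCtx
import Cfsg.Agent.Forms.UnitaryOrder
import Mathlib.FieldTheory.Finite.Basic
-- import your own Cfsg.Agent.* helpers here

set_option autoImplicit false
open Cfsg

namespace Cfsg.Agent.S1141

open Cfsg.Agent.KnownA
open Cfsg.Agent.Forms (frobQ frobQ_apply)

/-- A finite two-group with the coordinates of the unitary unipotent group is a Suzuki two-group. -/
theorem facts {F : Type*} [Field F] [Fintype F] [CharP F 2] {n : ℕ} (hn : 2 ≤ n)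
    (hF : Fintype.card F = (2 ^ n) ^ 2) {X : Type*} [Group X] [Finite X]
    (α γ : X → F) (hinj : ∀ x y, α x = α y → γ x = γ y → x = y)
    (hα : ∀ x y, α (x * y) = α x + α y)
    (hγ : ∀ x y, γ (x * y) = γ x + γ y + (α x) ^ (2 ^ n) * α y)
    (hmem : ∀ x, γ x + γ x ^ (2 ^ n) = α x ^ (2 ^ n + 1))
    (hsur : ∀ a c, c + c ^ (2 ^ n) = a ^ (2 ^ n + 1) → ∃ x, α x = a ∧ γ x = c) :
    Nat.card X = (2 ^ n) ^ 3 ∧ Nat.card (Subgroup.center X) = 2 ^ n ∧ Cfsg.IsSuzukiTwoGroup X := by
  classical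
  set q := 2 ^ n with hq
  have hq4 : 4 ≤ q := le_trans (by norm_num) (Nat.pow_le_pow_right (by omega) hn : 2 ^ 2 ≤ q)
  have hadd : ∀ a : F, a + a = 0 := CharTwo.add_self_eq_zero
  have hqq : ∀ a : F, (a ^ q) ^ q = a := fun a => by
    rw [← pow_mul, ← pow_two, ← hF]; exact FiniteField.pow_card a
  have hfq : ∀ a b : F, (a + b) ^ q = a ^ q + b ^ q := fun a b => add_pow_char_pow a b 2 n
  let T : F →+ F := AddMonoidHom.mk' (fun c => c + c ^ q) fun a b => by rw [hfq]; ring
  let Fix : Set F := {c | c ^ q = c}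
  have hFixle : Nat.card Fix ≤ q := by
    have hsub : Fix.toFinset.val ≤ (Polynomial.X ^ q - Polynomial.X : Polynomial F).roots := by
      refine Finset.val_le_iff_val_subset.2 fun c hc => ?_
      rw [Finset.mem_val, Set.mem_toFinset] at hc
      rw [Polynomial.mem_roots (FiniteField.X_pow_card_sub_X_ne_zero F (by omega))]
      simp [sub_eq_zero.2 (hc : c ^ q = c)]
    have h1 := Multiset.card_le_card hsub
    have h3 := Polynomial.card_roots' (Polynomial.X ^ q - Polynomial.X : Polynomial F)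
    rw [FiniteField.X_pow_card_sub_X_natDegree_eq F (by omega : 1 < q)] at h3
    rw [Nat.card_eq_card_toFinset]
    exact h1.trans h3
  have hker : (T.ker : Set F) = Fix := by
    ext c
    show c + c ^ q = 0 ↔ c ^ q = c
    rw [CharTwo.add_eq_zero]
    exact eq_comm
  have hrange : (T.range : Set F) ⊆ Fix := by
    rintro _ ⟨c, rfl⟩
    show (c + c ^ q) ^ q = c + c ^ q
    rw [hfq, hqq, add_comm]
  have hprod : Nat.card T.ker * Nat.card T.range = q ^ 2 := by
    rw [← AddSubgroup.index_ker, AddSubgroup.card_mul_index, Nat.card_eq_fintype_card, hF]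
  have hkc : Nat.card T.ker = Nat.card Fix := Nat.card_congr (Equiv.setCongr hker)
  have hrle : Nat.card T.range ≤ Nat.card Fix := Nat.card_mono (Set.toFinite Fix) hrange
  have hFixc : Nat.card Fix = q := by
    have h1 : q ^ 2 ≤ Nat.card Fix * Nat.card Fix := by
      rw [← hprod, hkc]; exact Nat.mul_le_mul_left _ hrle
    refine le_antisymm hFixle ?_
    by_contra hlt
    push Not at hlt
    nlinarith [Nat.mul_self_lt_mul_self hlt]
  have hTsur : ∀ z ∈ Fix, ∃ c, c + c ^ q = z := by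
    intro z hz
    have : (T.range : Set F) = Fix := Set.eq_of_subset_of_ncard_le hrange (by
      rw [← Nat.card_coe_set_eq, ← Nat.card_coe_set_eq]
      refine Nat.le_of_mul_le_mul_left (a := Nat.card Fix) ?_ (lt_of_lt_of_eq (by omega : 0 < q) hFixc.symm)
      rw [show Nat.card (T.range : Set F) = Nat.card T.range from rfl]
      rw [hkc] at hprod
      rw [hprod, hFixc, pow_two]) (Set.toFinite _)

    rw [← this] at hz
    exact hz
  have hN : ∀ a : F, a ^ (q + 1) ∈ Fix := fun a => by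
    show (a ^ (q + 1)) ^ q = a ^ (q + 1)
    rw [pow_succ, mul_pow, hqq, mul_comm]
  choose s hs using fun a : F => hTsur _ (hN a)
  have hb : ∀ b : F, ∃ y, α y = b := fun b => by
    obtain ⟨y, hy, -⟩ := hsur b (s b) (hs b)
    exact ⟨y, hy⟩
  have hone : α 1 = 0 ∧ γ 1 = 0 := by
    have h1 := hα 1 1
    have h1' := hγ 1 1
    rw [mul_one] at h1 h1'
    have h0 : α 1 = 0 := add_eq_left.1 h1.symm
    rw [h0, mul_zero, add_zero] at h1'
    exact ⟨h0, add_eq_left.1 h1'.symm⟩
  have hsq1 : ∀ x, x * x = 1 ↔ α x = 0 := by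
    intro x
    constructor
    · intro h
      have h' := hγ x x
      rw [h, hone.2, hadd, zero_add, ← pow_succ] at h'
      exact pow_eq_zero_iff (by omega) |>.1 h'.symm
    · intro h
      exact hinj _ _ (by rw [hα, h, hone.1, add_zero])
        (by rw [hγ, h, hadd, zero_add, mul_zero, hone.2])
  have hcen : ∀ x, x ∈ Subgroup.center X ↔ α x = 0 := by
    intro x
    rw [Subgroup.mem_center_iff]
    constructor
    · intro h
      by_contra ha
      have hall : ∀ b : F, b ≠ 0 → b ^ (q - 1) = α x ^ (q - 1) := fun b hb0 => by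
        obtain ⟨y, rfl⟩ := hb b
        have h' := congrArg γ (h y)
        rw [hγ, hγ, add_comm (γ x) (γ y)] at h'
        have h'' := add_left_cancel h'
        refine mul_left_cancel₀ (mul_ne_zero ha hb0) ?_
        calc α x * α y * α y ^ (q - 1) = α y ^ (q - 1 + 1) * α x := by ring
          _ = α x ^ (q - 1 + 1) * α y := by rw [Nat.sub_add_cancel (by omega : 1 ≤ q), h'']
          _ = α x * α y * α x ^ (q - 1) := by ring
      have hsub : ((Finset.univ : Finset F).erase 0).val ≤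
          (Polynomial.X ^ (q - 1) - Polynomial.C (α x ^ (q - 1))).roots := by
        refine Finset.val_le_iff_val_subset.2 fun b hbm => ?_
        rw [Finset.mem_val, Finset.mem_erase] at hbm
        rw [Polynomial.mem_roots (Polynomial.X_pow_sub_C_ne_zero (by omega) _)]
        simp [sub_eq_zero.2 (hall b hbm.1)]
      have h1 := (Multiset.card_le_card hsub).trans (Polynomial.card_roots' _)
      rw [Polynomial.natDegree_X_pow_sub_C] at h1
      have h3 : ((Finset.univ : Finset F).erase 0).card = q ^ 2 - 1 := by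
        rw [Finset.card_erase_of_mem (Finset.mem_univ _), Finset.card_univ, hF]
      rw [Finset.card_val, h3] at h1
      have : q * 2 ≤ q ^ 2 := by rw [pow_two]; exact Nat.mul_le_mul_left _ (by omega)
      omega
    · intro h y
      refine hinj _ _ ?_ ?_
      · rw [hα, hα, add_comm]
      · rw [hγ, hγ, h, zero_pow (by omega : q ≠ 0)]; ring
  have hz : ∀ z : F, z ^ q = z → z + z ^ q = (0 : F) ^ (q + 1) := fun z h => by
    rw [h, hadd, zero_pow (by omega)]
  have hinvFix : ∀ x, α x = 0 → γ x ^ q = γ x := fun x hx => by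
    have h := hmem x
    rw [hx, zero_pow (by omega), CharTwo.add_eq_zero] at h
    exact h.symm
  have hcard : Nat.card X = q ^ 3 := by
    have : Nat.card X = Nat.card (F × Fix) := Nat.card_congr (Equiv.ofBijective
      (fun x => (α x, (⟨γ x + s (α x), by
        show (γ x + s (α x)) ^ q = γ x + s (α x)
        rw [hfq]
        exact CharTwo.add_eq_zero.1 (by linear_combination hmem x + hs (α x) + hadd (α x ^ (q + 1)))⟩ : Fix)))
      ⟨fun x y h => by
        have h' := Prod.mk.inj h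
        have h'' : γ x + s (α x) = γ y + s (α y) := congrArg Subtype.val h'.2
        rw [h'.1] at h''
        exact hinj x y h'.1 (add_right_cancel h''),
       fun ⟨a, z⟩ => by
        obtain ⟨x, hx, hx'⟩ := hsur a (z.1 + s a) (by
          rw [hfq, (show z.1 ^ q = z.1 from z.2)]
          linear_combination hadd z.1 + hs a)
        refine ⟨x, ?_⟩
        simp only [hx, hx']
        refine Prod.ext rfl (Subtype.ext ?_)
        show z.1 + s a + s a = z.1
        rw [add_assoc, hadd, add_zero]⟩)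
    rw [this, Nat.card_prod, hFixc, Nat.card_eq_fintype_card, hF]; ring
  have hcenc : Nat.card (Subgroup.center X) = q := by
    rw [← hFixc]
    refine Nat.card_congr (Equiv.ofBijective
      (fun x => (⟨γ x.1, hinvFix _ ((hcen x.1).1 x.2)⟩ : Fix)) ⟨?_, ?_⟩)
    · intro x y h
      exact Subtype.ext (hinj _ _ (((hcen x.1).1 x.2).trans ((hcen y.1).1 y.2).symm) (congrArg Subtype.val h))
    · intro z
      obtain ⟨x, hx, hx'⟩ := hsur 0 z.1 (hz _ z.2)
      exact ⟨⟨x, (hcen x).2 hx⟩, Subtype.ext hx'⟩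
  refine ⟨hcard, hcenc, inferInstance, IsPGroup.of_card (n := n * 3) (by rw [hcard, pow_mul]), ?_, ?_, ?_⟩
  · by_contra hc
    push Not at hc
    have : Subgroup.center X = ⊤ := Subgroup.eq_top_iff' _ |>.2 fun x => Subgroup.mem_center_iff.2 fun y => hc y x
    rw [this, Subgroup.card_top, hcard, pow_succ, pow_two] at hcenc
    nlinarith
  · -- two involutions
    obtain ⟨⟨c, hc⟩, hc'⟩ : ∃ c : Fix, c.1 ≠ 0 ∧ c.1 ≠ 1 := by
      by_contra hcon
      push Not at hcon
      have := Nat.card_le_card_of_injective (fun c : Fix => decide (c.1 = 0)) (fun a b e => by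
        simp only [decide_eq_decide] at e
        by_cases h : a.1 = 0
        · exact Subtype.ext (h.trans (e.1 h).symm)
        · exact Subtype.ext ((hcon a h).trans (hcon b (fun h' => h (e.2 h'))).symm))
      rw [hFixc, Nat.card_eq_fintype_card, Fintype.card_bool] at this
      omega
    obtain ⟨x, hx, hx'⟩ := hsur 0 1 (hz _ (one_pow q))
    obtain ⟨y, hy, hy'⟩ := hsur 0 c (hz _ hc)
    refine ⟨x, y, fun e => hc'.2 (show c = 1 from hy' ▸ e ▸ hx'), fun e => one_ne_zero (by rw [← hx', e, hone.2]),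
      (hsq1 x).2 hx, fun e => hc'.1 (show c = 0 from hy' ▸ e.symm ▸ hone.2), (hsq1 y).2 hy⟩
  · -- the torus
    let K0 : Subgroup Fˣ := (powMonoidHom (q - 1) : Fˣ →* Fˣ).ker
    have hK0 : ∀ t : Fˣ, t ∈ K0 ↔ (t : F) ^ q = t := by
      intro t
      show t ^ (q - 1) = 1 ↔ _
      rw [Units.ext_iff, Units.val_pow_eq_pow_val, Units.val_one]
      conv_rhs => rw [← Nat.sub_add_cancel (show 1 ≤ q by omega), pow_succ]
      exact (mul_eq_right₀ t.ne_zero).symm
    have hex : ∀ (t : K0) (x : X), ∃ y, α y = ((t : Fˣ) : F) * α x ∧ γ y = ((t : Fˣ) : F) ^ 2 * γ x := by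
      intro t x
      refine hsur _ _ ?_
      have ht := (hK0 t.1).1 t.2
      rw [mul_pow, mul_pow, ← pow_mul ((t : Fˣ) : F), mul_comm 2 q, pow_mul, ht,
        ← mul_add, hmem x, pow_succ ((t : Fˣ) : F) q, ht, pow_two]
    choose f hfa hfg using hex
    have fmul : ∀ (t : K0) (x y : X), f t (x * y) = f t x * f t y := by
      intro t x y
      have ht := (hK0 t.1).1 t.2
      refine hinj _ _ ?_ ?_
      · rw [hfa, hα, hα, hfa, hfa, mul_add]
      · rw [hfg, hγ, hγ, hfg, hfg, hfa, hfa, mul_pow, ht]; ring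
    have fcomp : ∀ (t u : K0) (x : X), f (t * u) x = f t (f u x) := by
      intro t u x
      refine hinj _ _ ?_ ?_
      · rw [hfa, hfa, hfa, Subgroup.coe_mul, Units.val_mul]; ring
      · rw [hfg, hfg, hfg, Subgroup.coe_mul, Units.val_mul]; ring
    have fone : ∀ x : X, f 1 x = x := fun x => hinj _ _ (by simp [hfa]) (by simp [hfg])
    let φ : K0 →* MulAut X :=
      { toFun := fun t =>
          { toFun := f t
            invFun := f t⁻¹
            left_inv := fun x => by rw [← fcomp, inv_mul_cancel, fone]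
            right_inv := fun x => by rw [← fcomp, mul_inv_cancel, fone]
            map_mul' := fmul t }
        map_one' := MulEquiv.ext fone
        map_mul' := fun t u => MulEquiv.ext (fcomp t u) }
    refine ⟨φ.range, isCyclic_of_surjective φ.rangeRestrict φ.rangeRestrict_surjective, ?_⟩
    intro x y hx1 hxx hy1 hyy
    have hxa := (hsq1 x).1 hxx
    have hya := (hsq1 y).1 hyy
    have hxg : γ x ≠ 0 := fun e => hx1 (hinj _ _ (hxa.trans hone.1.symm) (e.trans hone.2.symm))
    have hyg : γ y ≠ 0 := fun e => hy1 (hinj _ _ (hya.trans hone.1.symm) (e.trans hone.2.symm))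
    obtain ⟨r, hr⟩ := FiniteField.isSquare_of_char_two (ringChar.eq F 2) (γ y / γ x)
    have hr0 : r ≠ 0 := fun e => div_ne_zero hyg hxg (by rw [hr, e, mul_zero])
    have hrq : r ^ q = r := CharTwo.sq_injective (by
      show (r ^ q) ^ 2 = r ^ 2
      rw [← pow_mul, mul_comm, pow_mul, pow_two, ← hr, div_pow, hinvFix x hxa, hinvFix y hya])
    let t : K0 := ⟨Units.mk0 r hr0, (hK0 _).2 hrq⟩
    refine ⟨⟨φ t, t, rfl⟩, hinj _ _ ?_ ?_, ?_⟩
    · show α (f t x) = _
      rw [hfa, hxa, mul_zero, hya]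
    · show γ (f t x) = _
      rw [hfg]
      show r ^ 2 * γ x = γ y
      rw [pow_two, ← hr, div_mul_cancel₀ _ hxg]
    · rintro ⟨_, u, rfl⟩ hu
      have h1 : γ (f u x) = γ y := congrArg γ hu
      rw [hfg] at h1
      have h2 : ((u : Fˣ) : F) = r := CharTwo.sq_injective (by
        show ((u : Fˣ) : F) ^ 2 = r ^ 2
        rw [pow_two r, ← hr, eq_div_iff hxg]
        exact h1)
      exact Subtype.ext (congrArg φ (Subtype.ext (Units.ext h2)))

theorem model {F : Type*} [Field F] [Fintype F] {n q : ℕ} (hn : 2 ≤ n) (hq : q = 2 ^ n)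
    (hF : Fintype.card F = q ^ 2) (S : Sylow 2 (Cfsg.PSU 3 F q)) :
    Nat.card S = q ^ 3 ∧ Nat.card (Subgroup.center ↥(S : Subgroup (Cfsg.PSU 3 F q))) = q ∧
      Cfsg.IsSuzukiTwoGroup ↥(S : Subgroup (Cfsg.PSU 3 F q)) := by
  classical
  haveI : Fact (Nat.Prime 2) := ⟨Nat.prime_two⟩
  haveI : CharP F 2 := by
    have h : ((Fintype.card F : ℕ) : F) = 0 := Nat.cast_card_eq_zero F
    rw [hF, hq, ← pow_mul, Nat.cast_pow] at h
    exact CharTwo.of_one_ne_zero_of_two_eq_zero one_ne_zero (pow_eq_zero_iff (by omega) |>.1 h)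
  have h2 : (2 : F) = 0 := CharTwo.two_eq_zero
  have hq4 : 4 ≤ q := le_trans (by norm_num) ((Nat.pow_le_pow_right (by omega) hn : 2 ^ 2 ≤ 2 ^ n).trans_eq hq.symm)
  have hq0 : q ≠ 0 := by omega
  have hqq : ∀ a : F, (a ^ q) ^ q = a := fun a => by
    rw [← pow_mul, ← pow_two, ← hF]; exact FiniteField.pow_card a
  have hfq : ∀ a b : F, (a + b) ^ q = a ^ q + b ^ q := fun a b => hq ▸ add_pow_char_pow a b 2 n
  have hub : ∀ u v : Fin 3 → F, ub hF u v = v 0 * u 0 ^ q + v 1 * u 1 ^ q + v 2 * u 2 ^ q := fun u v => by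
    rw [ub, Forms.hermB_apply, Cfsg.hermForm, Fin.sum_univ_three]
  set e : Fin 3 → F := ![1, 1, 0] with he
  set d : Fin 3 → F := ![0, 0, 1] with hd
  have hee : ub hF e e = 0 := by rw [hub]; simp [he, hq0]; linear_combination h2
  have hed : ∀ a : F, ub hF e (a • d) = 0 := fun a => by rw [hub]; simp [he, hd, hq0]
  have hdd : ∀ a b : F, ub hF (a • d) (b • d) = a ^ q * b := fun a b => by
    rw [hub]; simp [hd, hq0]; ring
  have hiff : ∀ a c : F, c + c ^ q = a ^ (q + 1) ↔ c + frobQ hF c = -ub hF (a • d) (a • d) := fun a c => by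
    rw [hdd, frobQ_apply, CharTwo.neg_eq, pow_succ]
  let x0 : Fin 3 → F := ![1, 0, 0]
  let α : Cfsg.SU 3 F q → F := fun r => act r x0 2
  let γ : Cfsg.SU 3 F q → F := fun r => act r x0 1
  have hval : ∀ a c : F, c + c ^ q = a ^ (q + 1) →
      α (root hF e (a • d) c) = a ∧ γ (root hF e (a • d) c) = c := by
    intro a c h
    have h' : ub hF e x0 = 1 := by rw [hub]; simp [he, x0, hq0]
    have h'' : ub hF (a • d) x0 = 0 := by rw [hub]; simp [hd, x0, hq0]
    constructor <;>
      · simp only [α, γ, act_root hF hee (hed a) ((hiff a c).1 h), h', h'']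
        simp [he, hd, x0]
  have hmul : ∀ a c b c' : F, c + c ^ q = a ^ (q + 1) → c' + c' ^ q = b ^ (q + 1) →
      root hF e (a • d) c * root hF e (b • d) c' = root hF e ((a + b) • d) (c + c' + a ^ q * b) := by
    intro a c b c' h h'
    rw [root_mul hF hee (hed a) (hed b) ((hiff a c).1 h) ((hiff b c').1 h'), add_smul, hdd, CharTwo.sub_eq_add]
  have hclosed : ∀ a c b c' : F, c + c ^ q = a ^ (q + 1) → c' + c' ^ q = b ^ (q + 1) →
      (c + c' + a ^ q * b) + (c + c' + a ^ q * b) ^ q = (a + b) ^ (q + 1) := by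
    intro a c b c' h h'
    rw [pow_succ] at h h' ⊢
    rw [hfq, hfq, mul_pow, hqq, hfq]
    linear_combination h + h'
  have hone : root hF e ((0 : F) • d) 0 = 1 := by
    have h0 : (0 : F) + 0 ^ q = 0 ^ (q + 1) := by simp [hq0]
    refine su_ext fun x => ?_
    rw [act_root hF hee (hed 0) ((hiff 0 0).1 h0), zero_smul, ub_zero_left hF]
    simp [act_one]
  let R : Subgroup (Cfsg.SU 3 F q) :=
    { carrier := {r | ∃ a c, c + c ^ q = a ^ (q + 1) ∧ r = root hF e (a • d) c}
      mul_mem' := by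
        rintro _ _ ⟨a, c, h, rfl⟩ ⟨b, c', h', rfl⟩
        exact ⟨_, _, hclosed a c b c' h h', hmul a c b c' h h'⟩
      one_mem' := ⟨0, 0, by simp [hq0], hone.symm⟩
      inv_mem' := by
        rintro _ ⟨a, c, h, rfl⟩
        have h' : (c + a ^ (q + 1)) + (c + a ^ (q + 1)) ^ q = a ^ (q + 1) := by
          rw [hfq, show (a ^ (q + 1)) ^ q = a ^ (q + 1) by rw [pow_succ, mul_pow, hqq, mul_comm]]
          linear_combination h + a ^ (q + 1) * h2
        refine ⟨a, c + a ^ (q + 1), h', inv_eq_of_mul_eq_one_right ?_⟩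
        rw [hmul a c a _ h h', ← hone]
        congr 1
        · rw [CharTwo.add_self_eq_zero]
        · rw [pow_succ]
          linear_combination (c + a ^ q * a) * h2 }
  have hR : ∀ r : R, ∃ a c, c + c ^ q = a ^ (q + 1) ∧ (r : Cfsg.SU 3 F q) = root hF e (a • d) c := fun r => r.2
  have l1 : ∀ x y : R, α x = α y → γ x = γ y → x = y := by
    intro x y h1 h3
    obtain ⟨a, c, h, ex⟩ := hR x
    obtain ⟨b, c', h', ey⟩ := hR y
    refine Subtype.ext ?_
    rw [ex, ey] at h1 h3
    rw [(hval a c h).1, (hval b c' h').1] at h1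
    rw [(hval a c h).2, (hval b c' h').2] at h3
    rw [ex, ey, h1, h3]
  have l2 : ∀ x y : R, α (x * y : R) = α x + α y := by
    intro x y
    obtain ⟨a, c, h, ex⟩ := hR x
    obtain ⟨b, c', h', ey⟩ := hR y
    rw [Subgroup.coe_mul, ex, ey, hmul a c b c' h h', (hval _ _ (hclosed a c b c' h h')).1, (hval a c h).1,
      (hval b c' h').1]
  have l3 : ∀ x y : R, γ (x * y : R) = γ x + γ y + (α x) ^ q * α y := by
    intro x y
    obtain ⟨a, c, h, ex⟩ := hR x
    obtain ⟨b, c', h', ey⟩ := hR y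
    rw [Subgroup.coe_mul, ex, ey, hmul a c b c' h h', (hval _ _ (hclosed a c b c' h h')).2, (hval a c h).2,
      (hval b c' h').2, (hval a c h).1, (hval b c' h').1]
  have l4 : ∀ x : R, γ x + γ x ^ q = α x ^ (q + 1) := by
    intro x
    obtain ⟨a, c, h, ex⟩ := hR x
    rw [ex, (hval a c h).1, (hval a c h).2, h]
  have l5 : ∀ a c, c + c ^ q = a ^ (q + 1) → ∃ x : R, α x = a ∧ γ x = c :=
    fun a c h => ⟨⟨_, a, c, h, rfl⟩, hval a c h⟩
  have hRc : Nat.card R = q ^ 3 := by
    subst hq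
    exact (facts hn hF (fun x : R => α x) (fun x : R => γ x) l1 l2 l3 l4 l5).1
  -- pass to the quotient
  let π : Cfsg.SU 3 F q →* Cfsg.PSU 3 F q := QuotientGroup.mk' _
  have hπ : Function.Injective (π.comp R.subtype) := by
    rw [injective_iff_map_eq_one]
    intro r hr
    have hz : (r : Cfsg.SU 3 F q) ∈ Subgroup.center (Cfsg.SU 3 F q) := by
      rw [← QuotientGroup.eq_one_iff]; exact hr
    have h1 : orderOf r ∣ q ^ 3 := hRc ▸ orderOf_dvd_natCard r
    have h3 : orderOf r ∣ 3 := by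
      rw [← Subgroup.orderOf_coe, ← Subgroup.orderOf_mk (r : Cfsg.SU 3 F q) hz]
      refine (orderOf_dvd_natCard _).trans ?_
      rw [Forms.card_center_SU hF (by norm_num)]
      exact Nat.gcd_dvd_left _ _
    have hcop : Nat.Coprime (q ^ 3) 3 := by
      rw [hq, ← pow_mul]; exact Nat.Coprime.pow_left _ (by norm_num)
    exact orderOf_eq_one_iff.1 (Nat.eq_one_of_dvd_coprimes hcop h1 h3)
  have hmapc : Nat.card (R.map π) = q ^ 3 := by
    rw [← R.range_subtype, MonoidHom.map_range, ← Nat.card_congr (MonoidHom.ofInjective hπ).toEquiv, hRc]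
  have hG := Forms.card_PSU hF (n := 3) (by norm_num)
  simp only [Finset.prod_range_succ, Finset.prod_range_zero, one_mul] at hG
  norm_num [Nat.even_iff] at hG
  try rw [← Nat.card_eq_fintype_card] at hG
  have hindex : ¬ 2 ∣ (R.map π).index := by
    intro hdvd
    have h := (R.map π).card_mul_index
    rw [hmapc] at h
    change q ^ 3 * _ = Nat.card (Cfsg.SU 3 F q ⧸ Subgroup.center (Cfsg.SU 3 F q)) at h
    rw [← h] at hG
    obtain ⟨k, hk⟩ := hdvd
    rw [hk] at hG
    have h4 : 2 ∣ (q + 1) * ((q ^ 2 - 1) * (q ^ 3 + 1)) := by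
      refine ⟨Nat.gcd 3 (q + 1) * ((q + 1) * k), ?_⟩
      refine Nat.eq_of_mul_eq_mul_left (pow_pos (by omega : 0 < q) 3) ?_
      linarith
    have hev : Even q := by rw [hq]; exact (Nat.even_pow).2 ⟨even_two, by omega⟩
    have ho1 : Odd (q + 1) := hev.add_one
    have ho2 : Odd (q ^ 2 - 1) :=
      Nat.Even.sub_odd (Nat.one_le_iff_ne_zero.2 (pow_ne_zero _ hq0)) ((Nat.even_pow).2 ⟨hev, by omega⟩) odd_one
    have ho3 : Odd (q ^ 3 + 1) := ((Nat.even_pow).2 ⟨hev, by omega⟩).add_one
    exact (Nat.not_even_iff_odd.2 (ho1.mul (ho2.mul ho3))) (even_iff_two_dvd.2 h4)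
  let P : Sylow 2 (Cfsg.PSU 3 F q) :=
    (IsPGroup.of_card (n := n * 3) (by rw [hmapc, hq, pow_mul])).toSylow hindex
  have eR : R ≃* (R.map π : Subgroup (Cfsg.PSU 3 F q)) :=
    (MonoidHom.ofInjective hπ).trans (MulEquiv.subgroupCongr (by rw [← MonoidHom.map_range, R.range_subtype]))
  have eP : R ≃* (S : Subgroup (Cfsg.PSU 3 F q)) :=
    eR.trans ((MulEquiv.subgroupCongr (IsPGroup.toSylow_coe _ _).symm).trans (Sylow.equiv P S))
  subst hq
  refine facts hn hF (fun s => α (eP.symm s : R)) (fun s => γ (eP.symm s : R)) ?_ ?_ ?_ ?_ ?_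
  · exact fun x y h h' => eP.symm.injective (l1 _ _ h h')
  · intro x y; simp only [map_mul]; exact l2 _ _
  · intro x y; simp only [map_mul]; exact l3 _ _
  · exact fun x => l4 _
  · intro a c h
    obtain ⟨x, hx⟩ := l5 a c h
    exact ⟨eP x, by simpa using hx⟩

/-- Let `q = 2^n ≥ 4` and `|F| = q²`. A Sylow 2-subgroup `S` of `PSU₃(q)` has order `q³`, its centre has order `q`, and `S` is a Suzuki 2-group. -/
theorem result {F : Type*} [Field F] [Fintype F] {n : ℕ} (hn : 2 ≤ n)
    (hF : Fintype.card F = (2 ^ n) ^ 2) (S : Sylow 2 (Cfsg.PSU 3 F (2 ^ n))) :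
    Nat.card S = (2 ^ n) ^ 3 ∧ Nat.card (Subgroup.center ↥(S : Subgroup (Cfsg.PSU 3 F (2 ^ n)))) = 2 ^ n ∧
      Cfsg.IsSuzukiTwoGroup ↥(S : Subgroup (Cfsg.PSU 3 F (2 ^ n))) := by
  exact model hn rfl hF S

end Cfsg.Agent.S1141
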