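import Cfsg.Statements.S1266
import Cfsg.Agent.Components.Local

set_option autoImplicit false
open Cfsg

namespace Cfsg.Agent.S1266

/-- Let P be a p-subgroup of the finite group G and N = N_G(P). Then the preimage in N of E(N / O_{p'}(N)) centralizes O_p(G). -/
theorem result {G : Type*} [Group G] [Finite G] (p : ℕ) [Fact p.Prime] (P : Subgroup G) (hP : IsPGroup p ↥P) : (((Cfsg.layer (↥(Subgroup.normalizer ((P : Subgroup G) : Set G)) ⧸ Cfsg.pPrimeCore p ↥(Subgroup.normalizer ((P : Subgroup G) : Set G)))).comap (QuotientGroup.mk' (Cfsg.pPrimeCore p ↥(Subgroup.normalizer ((P : Subgroup G) : Set G))))).map (Subgroup.normalizer ((P : Subgroup G) : Set G)).subtype) ≤ Subgroup.centralizer (Cfsg.pCore p G : Set G) := by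
  set N := Subgroup.normalizer ((P : Subgroup G) : Set G) with hNdef
  set V := Cfsg.pCore p G
  set O := Cfsg.pPrimeCore p ↥N
  have hVp : IsPGroup p V := Cfsg.Agent.Core.isPGroup_pCore p G
  have hVn : Subgroup.normalizer (V : Set G) = ⊤ := Subgroup.normalizer_eq_top_iff.mpr inferInstance
  have key : ∀ K : Subgroup ↥N,
      (∀ S : Subgroup ↥N, S.Normal → IsPGroup p S → K ≤ Subgroup.centralizer (S : Set ↥N)) →
      ∀ x ∈ K.map N.subtype, (orderOf x).Coprime p → x ∈ Subgroup.centralizer (V : Set G) := by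
    rintro K hK _ ⟨x, hx, rfl⟩ hxo
    refine Cfsg.Agent.Components.pprime_element_centralizes hP hVp (hVn ▸ le_top)
      (hVn ▸ Subgroup.mem_top _) hxo ?_ ?_
    · rw [Subgroup.mem_centralizer_iff]
      intro y hy
      exact congrArg Subtype.val (Subgroup.mem_centralizer_iff.mp
        (hK _ Subgroup.normal_in_normalizer (hP.comap_of_injective _ N.subtype_injective) hx)
        ⟨y, Subgroup.le_normalizer hy⟩ hy)
    · intro v hv hvP
      exact congrArg Subtype.val (Subgroup.mem_centralizer_iff.mp
        (hK (V.subgroupOf N) inferInstance (hVp.comap_of_injective _ N.subtype_injective) hx)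
        ⟨v, Subgroup.centralizer_le_normalizer _ hvP⟩ hv)
  have hOS : ∀ S : Subgroup ↥N, IsPGroup p S → O ⊓ S = ⊥ := fun S hS => by
    obtain ⟨k, hk⟩ := hS.exists_card_eq
    exact Cfsg.Agent.Coprime.inf_eq_bot_of_coprime
      (hk ▸ ((Cfsg.Agent.Core.card_pPrimeCore_coprime p ↥N).pow_right k).symm)
  have hq : (Cfsg.layer (↥N ⧸ O)).comap (QuotientGroup.mk' O) = Cfsg.pLayer p ↥N ⊔ O := by
    rw [← Cfsg.Agent.Components.pLayer_map, Subgroup.comap_map_eq,
      Cfsg.Agent.Components.pBar_ker]
  rw [hq, Subgroup.map_sup]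
  refine sup_le ?_ ?_
  · rw [Cfsg.pLayer, Subgroup.map_le_iff_le_comap]
    refine sSup_le fun K hK => ?_
    rw [← Subgroup.map_le_iff_le_comap]
    refine Cfsg.Agent.Components.le_of_perfect_of_pprime (p := p) ?_ (key K fun S hSn hS => ?_)
    · rw [← Subgroup.map_commutator, Cfsg.Agent.Components.pComponent_commutator_self hK]
    · rw [← Subgroup.commutator_eq_bot_iff_le_centralizer, ← le_bot_iff, ← hOS S hS]
      refine le_inf ?_ (Subgroup.commutator_le_right K S)
      have hC : Cfsg.IsComponent (K.map (QuotientGroup.mk' O)) := hK.2.1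
      haveI : (S.map (QuotientGroup.mk' O)).Normal := hSn.map _ (QuotientGroup.mk'_surjective _)
      have h := Cfsg.Agent.Components.component_centralizes_solvable_normal
        (S := S.map (QuotientGroup.mk' O)) hC (Cfsg.Agent.Coprime.isSolvable_of_isPGroup (hS.map _))
      rw [← Subgroup.commutator_eq_bot_iff_le_centralizer, ← Subgroup.map_commutator,
        Subgroup.map_eq_bot_iff, QuotientGroup.ker_mk'] at h
      exact h
  · intro x hx
    refine key O (fun S hSn hS => ?_) x hx ?_
    · rw [← Subgroup.commutator_eq_bot_iff_le_centralizer, ← le_bot_iff, ← hOS S hS]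
      exact Subgroup.commutator_le_inf O S
    · obtain ⟨y, hy, rfl⟩ := hx
      rw [Subgroup.coe_subtype, Subgroup.orderOf_coe]
      exact (Cfsg.Agent.Core.card_pPrimeCore_coprime p ↥N).coprime_dvd_left
        (Subgroup.orderOf_dvd_natCard _ hy)

end Cfsg.Agent.S1266
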