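import Cfsg.Statements.S1312
import Cfsg.Agent.Components.BenderMaximal

set_option autoImplicit false
open Cfsg

namespace Cfsg.Agent.S1312

/-- Let G be a non-abelian finite simple group and M ≠ N maximal subgroups of G with F*(M) ≤ N and F*(N) ≤ M. Then there is a prime p such that F*(M) and F*(N) are both p-groups. -/
theorem result {G : Type*} [Group G] [Finite G] [IsSimpleGroup G] (hna : ¬ IsMulCommutative G) (M N : Subgroup G) (hM : IsCoatom M) (hN : IsCoatom N) (hMN : M ≠ N) (h1 : (Cfsg.generalizedFittingSubgroup ↥M).map M.subtype ≤ N) (h2 : (Cfsg.generalizedFittingSubgroup ↥N).map N.subtype ≤ M) : ∃ p : ℕ, p.Prime ∧ IsPGroup p ↥(Cfsg.generalizedFittingSubgroup ↥M) ∧ IsPGroup p ↥(Cfsg.generalizedFittingSubgroup ↥N) := by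
  open Cfsg.Agent.Components in
  have hmax : ∀ {M : Subgroup G}, IsCoatom M → ∀ X : Subgroup G, X ≠ ⊥ →
      M ≤ Subgroup.normalizer (X : Set G) → X ≤ M → Subgroup.normalizer (X : Set G) = M := by
    intro M hM X hX hle hXM
    rcases eq_or_lt_of_le hle with h | h
    · exact h.symm
    exfalso
    have hn : X.Normal := Subgroup.normalizer_eq_top_iff.mp (hM.2 _ h)
    rcases hn.eq_bot_or_eq_top with hb | ht
    · exact hX hb
    · exact hM.1 (top_le_iff.mp (ht ▸ hXM))
  have hbot : ∀ {M : Subgroup G}, IsCoatom M → M ≠ ⊥ := by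
    intro M hM hb
    subst hb
    apply hna
    have hc : Subgroup.center G = ⊤ := by
      obtain ⟨g, hg⟩ := exists_ne (1 : G)
      have hz : Subgroup.zpowers g = ⊤ := hM.2 _ (bot_lt_iff_ne_bot.mpr
        (fun h => hg (Subgroup.mem_bot.mp (h ▸ Subgroup.mem_zpowers g))))
      refine eq_top_iff.mpr fun a _ => Subgroup.mem_center_iff.mpr fun b => ?_
      obtain ⟨i, rfl⟩ := Subgroup.mem_zpowers_iff.mp (hz ▸ Subgroup.mem_top a)
      obtain ⟨j, rfl⟩ := Subgroup.mem_zpowers_iff.mp (hz ▸ Subgroup.mem_top b)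
      exact zpow_mul_comm g j i
    exact ⟨⟨fun a b => Subgroup.mem_center_iff.mp (hc ▸ Subgroup.mem_top b) a⟩⟩
  have hcharmap : ∀ (M : Subgroup G) (C : Subgroup ↥M) [C.Characteristic],
      M ≤ Subgroup.normalizer ((C.map M.subtype : Subgroup G) : Set G) := fun M C _ =>
    Subgroup.le_normalizer.trans (normalizer_le_normalizer_map_char C)
  have hsplit : ∀ M : Subgroup G, (Cfsg.generalizedFittingSubgroup ↥M).map M.subtype =
      (Cfsg.layer ↥M).map M.subtype ⊔ (Cfsg.fittingSubgroup ↥M).map M.subtype := fun M =>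
    Subgroup.map_sup _ _ _
  have hE : (Cfsg.layer ↥M).map M.subtype = (Cfsg.layer ↥N).map N.subtype :=
    le_antisymm (BenderMax.layer_le_layer ((hsplit M ▸ le_sup_left).trans h1) h2)
      (BenderMax.layer_le_layer ((hsplit N ▸ le_sup_left).trans h2) h1)
  have hE0 : (Cfsg.layer ↥M).map M.subtype = ⊥ := by
    by_contra hne
    apply hMN
    rw [← hmax hM _ hne (hcharmap M _) (Subgroup.map_subtype_le _)]
    exact hmax hN _ hne (hE ▸ hcharmap N _) (hE ▸ Subgroup.map_subtype_le _)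
  have hlM : Cfsg.layer ↥M = ⊥ := (map_inj_eq_bot_iff M.subtype_injective).mp hE0
  have hlN : Cfsg.layer ↥N = ⊥ := (map_inj_eq_bot_iff N.subtype_injective).mp (hE ▸ hE0)
  have hFM : Cfsg.generalizedFittingSubgroup ↥M = Cfsg.fittingSubgroup ↥M := by
    rw [Cfsg.generalizedFittingSubgroup, hlM, bot_sup_eq]
  have hFN : Cfsg.generalizedFittingSubgroup ↥N = Cfsg.fittingSubgroup ↥N := by
    rw [Cfsg.generalizedFittingSubgroup, hlN, bot_sup_eq]
  have hdM := BenderMax.datum_fitting hlM (hmax hM)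
  have hdN := BenderMax.datum_fitting hlN (hmax hN)
  rw [hFM] at h1
  rw [hFN] at h2
  have hF : (Cfsg.fittingSubgroup ↥M).map M.subtype ≠ ⊥ := by
    intro h
    apply hbot hM
    rw [eq_bot_iff, ← h]
    intro g hg
    exact hdM.self_centralizing ⟨hg, Subgroup.mem_centralizer_iff.mpr fun f hf => by
      rw [h, SetLike.mem_coe, Subgroup.mem_bot] at hf
      rw [hf, one_mul, mul_one]⟩
  obtain ⟨p, hp, hpM, hpN⟩ := BenderMax.isPGroup_of_data hdM hdN h1 h2 hMN hF
  rw [hFM, hFN]
  exact ⟨p, hp, hpM.of_equiv ((Cfsg.fittingSubgroup ↥M).equivMapOfInjective _ M.subtype_injective).symm,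
    hpN.of_equiv ((Cfsg.fittingSubgroup ↥N).equivMapOfInjective _ N.subtype_injective).symm⟩

end Cfsg.Agent.S1312
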