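import Cfsg.Statements.S1313
import Cfsg.Agent.Components.Embedding

set_option autoImplicit false
open Cfsg

namespace Cfsg.Agent.S1313

/-- For a finite group H, |H| ≤ |F*(H)|!. -/
theorem result {H : Type*} [Group H] [Finite H] : Nat.card H ≤ Nat.factorial (Nat.card ↥(Cfsg.generalizedFittingSubgroup H)) := by
  haveI : (Cfsg.generalizedFittingSubgroup H).Normal := Components.generalizedFitting_normal
  exact Components.card_le_factorial_of_centralizer_le _ Components.centralizer_generalizedFitting_le

end Cfsg.Agent.S1313
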