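import Cfsg.Statements.S1618
import Cfsg.Agent.S5560
import Cfsg.Agent.Core.Cores

set_option autoImplicit false
open Cfsg
open scoped commutatorElement

namespace Cfsg.Agent.S1618

/-- A group generated by a class of involutions whose pairwise products (of distinct members) have p-power order for a fixed odd prime p has nilpotent derived subgroup. -/
theorem result {G : Type*} [Group G] [Finite G] (p : ℕ) (hp : p.Prime) (hodd : p ≠ 2) {D : Set G} (hinv : ∀ d ∈ D, orderOf d = 2) (hconj : ∃ d ∈ D, D = conjugatesOf d) (hgen : Subgroup.closure D = ⊤) (hprod : ∀ x ∈ D, ∀ y ∈ D, x ≠ y → ∃ k : ℕ, orderOf (x * y) = p ^ k) : Group.IsNilpotent ↥(commutator G) := by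
  obtain ⟨d, hdD, rfl⟩ := hconj
  have hd : orderOf d = 2 := hinv d hdD
  haveI := Fact.mk hp
  have hmem := S5560.result hp hodd d hd (fun a ha b hb => by
    rcases eq_or_ne a b with rfl | hne
    · exact ⟨0, by rw [← sq, ← hinv a ha, pow_orderOf_eq_one, orderOf_one, pow_zero]⟩
    · exact hprod a ha b hb hne)
  set O := Cfsg.pCore p G with hO
  have hle : commutator G ≤ O := by
    rw [commutator_def, Subgroup.commutator_le]
    intro a _ b _
    set π := QuotientGroup.mk' O
    have hz : ∀ g : G, π g ∈ Subgroup.zpowers (π d) := fun g => by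
      have hg : g ∈ Subgroup.closure (conjugatesOf d) := by rw [hgen]; trivial
      refine (Subgroup.closure_le (K := (Subgroup.zpowers (π d)).comap π)).mpr ?_ hg
      intro x hx
      refine Subgroup.mem_zpowers_iff.mpr ⟨-1, ?_⟩
      have h1 : π x * π d = 1 := by
        rw [← map_mul]; exact (QuotientGroup.eq_one_iff _).mpr (hmem x hx d hdD)
      rw [zpow_neg_one, eq_comm, eq_inv_iff_mul_eq_one]
      exact h1
    obtain ⟨i, hi⟩ := Subgroup.mem_zpowers_iff.mp (hz a)
    obtain ⟨j, hj⟩ := Subgroup.mem_zpowers_iff.mp (hz b)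
    refine (QuotientGroup.eq_one_iff _).mp ?_
    show π ⁅a, b⁆ = 1
    rw [map_commutatorElement, commutatorElement_eq_one_iff_mul_comm, ← hi, ← hj]
    group
  exact ((Core.isPGroup_pCore p G).to_le hle).isNilpotent

end Cfsg.Agent.S1618
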