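import Cfsg.Statements.S1893
import Cfsg.Agent.Dickson.PSolvable
import Cfsg.Agent.Core.Fitting
import Cfsg.Agent.Core.MinimalNormal
import Cfsg.Agent.Core.Hall
import Cfsg.Agent.Coprime.Action

set_option autoImplicit false
open Cfsg

namespace Cfsg.Agent.S1893

open Subgroup
open scoped commutatorElement

theorem mem_of_centralizes {S : Type*} [Group S] [Finite S] [Group.IsSolvable S] {p : ℕ} [hp : Fact p.Prime]
    (h5 : 5 ≤ p) (A F : Subgroup S) (hFS : fittingSubgroup S ≤ F) (hFn : F ≤ normalizer (A : Set S))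
    (hFc : F ⊓ centralizer (A : Set S) ≤ A) {x : S} (hx : x ∈ centralizer (A : Set S))
    (hxp : ∃ k : ℕ, x ^ p ^ k = 1) : x ∈ A := by
  classical
  refine hFc ⟨hFS ?_, hx⟩
  have hle : ∀ q : ℕ, q.Prime → pCore q S ≤ fittingSubgroup S := fun q hq => by
    rw [Core.fittingSubgroup_eq_iSup]; exact Core.pCore_le_iSup q hq S
  have hquad : ∀ q : ℕ, q.Prime → ⁅⁅pCore q S, zpowers x⁆, zpowers x⁆ = ⊥ := by
    intro q hq
    rw [Subgroup.commutator_eq_bot_iff_le_centralizer]
    have h1 : ⁅pCore q S, zpowers x⁆ ≤ A := by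
      rw [Subgroup.commutator_le]
      intro v hv y hy
      have hyC : y ∈ centralizer (A : Set S) := zpowers_le.mpr hx hy
      have hvF := hFS (hle q hq hv)
      have hvy : ⁅v, y⁆ ∈ pCore q S := by
        rw [commutatorElement_def, show v * y * v⁻¹ * y⁻¹ = v * (y * v⁻¹ * y⁻¹) by group]
        exact mul_mem hv ((inferInstance : (pCore q S).Normal).conj_mem _ (inv_mem hv) y)
      refine hFc (mem_inf.mpr ⟨hFS (hle q hq hvy), ?_⟩)
      rw [commutatorElement_def]
      refine mul_mem (mem_centralizer_iff.mpr fun a ha => ?_) (inv_mem hyC)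
      have h2 := mem_centralizer_iff.mp hyC _ ((mem_normalizer_iff''.mp (hFn hvF) a).mp ha)
      calc a * (v * y * v⁻¹) = v * ((v⁻¹ * a * v) * y) * v⁻¹ := by group
        _ = v * (y * (v⁻¹ * a * v)) * v⁻¹ := by rw [h2]
        _ = v * y * v⁻¹ * a := by group
    intro u hu
    refine mem_centralizer_iff.mpr fun y hy => ?_
    exact ((mem_centralizer_iff.mp (zpowers_le.mpr hx hy)) u (h1 hu)).symm
  have hs := Core.isPSolvable_of_isSolvable (p := p) (G := S)
  have hxP := Dickson.isPStableOn_of_no_section (by omega) (Dickson.no_section_of_isPSolvable h5 hs) (pCore p S)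
    (Core.isPGroup_pCore p S) x (hquad p hp.out)
  set π := QuotientGroup.mk' (centralizer (pCore p S : Set S))
  let K : Subgroup S := (pCore p _).comap π ⊓
    ⨅ q : {q : ℕ // q.Prime ∧ q ≠ p}, centralizer (pCore q.1 S : Set S)
  haveI : K.Normal := by
    haveI : (⨅ q : {q : ℕ // q.Prime ∧ q ≠ p}, centralizer (pCore q.1 S : Set S)).Normal :=
      Subgroup.normal_iInf_normal fun q => inferInstance
    exact inferInstanceAs ((pCore p _).comap π ⊓ _).Normal
  have hxK : x ∈ K := by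
    refine ⟨hxP, mem_iInf.mpr fun q => ?_⟩
    haveI := Fact.mk q.2.1
    have hxg : IsPGroup p (zpowers x) := by
      obtain ⟨k, hk⟩ := hxp
      obtain ⟨j, -, hj⟩ := (Nat.dvd_prime_pow hp.out).mp (orderOf_dvd_of_pow_eq_one hk)
      exact IsPGroup.of_card (n := j) (by rw [Nat.card_zpowers, hj])
    haveI : Group.IsSolvable (zpowers x) := Group.isSolvable_of_comm fun a b => mul_comm' a b
    have h1 := Coprime.commutator_eq_bot_of_commutator_commutator (N := pCore q.1 S)
      (le_top.trans (Subgroup.normalizer_eq_top _).ge)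
      (IsPGroup.coprime_card_of_ne p q.1 q.2.2.symm _ _ hxg (Core.isPGroup_pCore q.1 S)) (hquad q.1 q.2.1)
    exact (le_centralizer_iff.mp (Subgroup.commutator_eq_bot_iff_le_centralizer.mp h1)) (mem_zpowers x)
  have hCF := Core.centralizer_fittingSubgroup_le (G := S)
  have hKZ : ∀ y ∈ K, ∃ k : ℕ, y ^ p ^ k ∈ Subgroup.centralizer (fittingSubgroup S : Set S) := by
    intro y hy
    obtain ⟨k, hk⟩ := Core.isPGroup_pCore p _ ⟨π y, (mem_inf.mp hy).1⟩
    refine ⟨k, ?_⟩
    have hk' : y ^ p ^ k ∈ centralizer (pCore p S : Set S) := by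
      rw [← QuotientGroup.eq_one_iff, ← QuotientGroup.mk'_apply, map_pow]
      exact congrArg Subtype.val hk
    rw [← zpowers_le, le_centralizer_iff, Core.fittingSubgroup_eq_iSup, iSup_le_iff]
    intro q
    rw [le_centralizer_iff, zpowers_le]
    rcases eq_or_ne (q : ℕ) p with h | h
    · rw [h]; exact hk'
    · exact pow_mem (mem_iInf.mp (mem_inf.mp hy).2 ⟨q, q.2, h⟩) _
  refine Core.le_fittingSubgroup inferInstance ?_ hxK
  have hQ : IsPGroup p (K ⧸ center K) := by
    intro z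
    obtain ⟨⟨y, hy⟩, rfl⟩ := QuotientGroup.mk'_surjective (center K) z
    obtain ⟨k, hk⟩ := hKZ y hy
    have hyF := hCF hk
    rw [Core.fittingSubgroup_eq_iSup] at hyF
    have hmem := Core.iSup_pCore_le_sup p S hyF
    obtain ⟨u, hu, w, hw, huw⟩ := mem_sup_of_normal_left.mp hmem
    obtain ⟨j, hj⟩ := Core.isPGroup_pCore p S ⟨u, hu⟩
    refine ⟨k + j, ?_⟩
    rw [QuotientGroup.mk'_apply, ← QuotientGroup.mk_pow, QuotientGroup.eq_one_iff, Subgroup.mem_center_iff]
    rintro ⟨g, hg⟩
    apply Subtype.ext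
    show g * y ^ p ^ (k + j) = y ^ p ^ (k + j) * g
    have hcom : Commute u w := mem_centralizer_iff.mp (Core.pCore_le_centralizer_pPrimeCore p S hu) w hw |>.symm
    have e : y ^ p ^ (k + j) = w ^ p ^ j := by
      rw [pow_add, pow_mul, ← huw, hcom.mul_pow, show u ^ p ^ j = 1 from congrArg Subtype.val hj, one_mul]
    rw [e]
    refine Commute.pow_right ?_ _
    have hwF : w ∈ fittingSubgroup S := by
      rw [Core.fittingSubgroup_eq_iSup, show w = u⁻¹ * y ^ p ^ k by rw [← huw, inv_mul_cancel_left]]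
      exact mul_mem (inv_mem (Core.pCore_le_iSup p hp.out S hu)) hyF
    have hwK : w ∈ fittingSubgroup S ⊓ pPrimeCore p S := ⟨hwF, hw⟩
    exact mem_centralizer_iff.mp (show g ∈ centralizer ((fittingSubgroup S ⊓ pPrimeCore p S : Subgroup S) : Set S) by
      haveI : (fittingSubgroup S ⊓ pPrimeCore p S).Normal := inferInstance
      have hle2 : fittingSubgroup S ⊓ pPrimeCore p S ≤ ⨆ q : {q : ℕ // q.Prime ∧ q ≠ p}, pCore q.1 S := by
        refine Core.le_of_forall_exists_sylow_le fun q hq => ?_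
        haveI := Fact.mk hq
        obtain ⟨Q⟩ := (inferInstance : Nonempty (Sylow q (fittingSubgroup S ⊓ pPrimeCore p S : Subgroup S)))
        refine ⟨Q, ?_⟩
        haveI : Group.IsNilpotent (fittingSubgroup S ⊓ pPrimeCore p S : Subgroup S) :=
          Core.isNilpotent_of_le inf_le_left (Core.isNilpotent_fittingSubgroup S)
        rw [← Core.pCore_eq_sylow Q, Core.map_pCore_subtype]
        rcases eq_or_ne q p with rfl | hne
        · refine (le_inf inf_le_left (inf_le_right.trans inf_le_right)).trans ?_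
          rw [Core.pCore_inf_pPrimeCore]; exact bot_le
        · exact inf_le_left.trans (le_iSup (fun q : {q : ℕ // q.Prime ∧ q ≠ p} => pCore q.1 S) ⟨q, hq, hne⟩)
      refine le_centralizer_iff.mp (hle2.trans (iSup_le fun q => ?_)) hg
      exact le_centralizer_iff.mp (inf_le_right.trans (iInf_le _ q))) w hwK |>.symm
  haveI := hQ.isNilpotent
  exact Group.of_quotient_center_nilpotent (inferInstance : Group.IsNilpotent (K ⧸ center K))

/-- Let S be a finite solvable group, π a set of primes containing neither 2 nor 3, H a Hall π-subgroup of S, and A a self-centralizing normal subgroup of the Fitting subgroup F(H). Then C_S(A) = A × D for a normal subgroup D of C_S(A) whose order has no prime divisor in π. -/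
theorem result {S : Type*} [Group S] [Finite S] [Group.IsSolvable S]
    (π : Set ℕ) (h2 : 2 ∉ π) (h3 : 3 ∉ π) (H : Subgroup S) (hH : Cfsg.IsPiHall π H)
    (A : Subgroup S) (hA : Cfsg.IsSCN ((Cfsg.fittingSubgroup H).map H.subtype) A) :
    ∃ D : Subgroup S, D ≤ Subgroup.centralizer (A : Set S) ∧
      (∀ c ∈ Subgroup.centralizer (A : Set S), ∀ d ∈ D, c * d * c⁻¹ ∈ D) ∧
      A ⊓ D = ⊥ ∧ A ⊔ D = Subgroup.centralizer (A : Set S) ∧
      ∀ q : ℕ, q.Prime → q ∣ Nat.card D → q ∉ π := by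
  classical
  set FH := (fittingSubgroup H).map H.subtype with hFH
  obtain ⟨hAF, hFA, hFc⟩ := hA
  have hAH : A ≤ H := hAF.trans (map_subtype_le _)
  have hFHH : FH ≤ H := map_subtype_le _
  set C := centralizer (A : Set S) with hC
  have hAC : A ≤ C := hFc.symm.le.trans inf_le_right
  set N := piCore πᶜ S
  set f := QuotientGroup.mk' N with hf
  have hfs : Function.Surjective f := QuotientGroup.mk'_surjective N
  haveI : Group.IsSolvable (S ⧸ N) := Group.isSolvable_of_surjective hfs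
  have hinj : ∀ h ∈ H, f h = 1 → h = 1 := fun h hh h1 => orderOf_eq_one_iff.mp
    (Core.IsPiNat.eq_one (Core.IsPiNat.of_dvd hH.1 (orderOf_dvd_natCard _ hh))
      (Core.IsPiNat.of_dvd (Core.isPiNat_card_piCore πᶜ S)
        (orderOf_dvd_natCard _ ((QuotientGroup.eq_one_iff h).mp h1))))
  have hc : piCore πᶜ (S ⧸ N) = ⊥ := Core.piCore_quotient_piCore πᶜ S
  have hH' : IsPiHall π (H.map f) := Core.isPiHall_map hfs hH
  have hFS : fittingSubgroup (S ⧸ N) ≤ FH.map f := by
    have h1 : fittingSubgroup (S ⧸ N) ≤ piCore π (S ⧸ N) := by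
      rw [Core.fittingSubgroup_eq_iSup]
      refine iSup_le fun q => ?_
      haveI := Fact.mk q.2
      by_cases hq : (q : ℕ) ∈ π
      · rw [Core.pCore_eq_piCore]; exact Core.piCore_mono (Set.singleton_subset_iff.mpr hq)
      · rw [Core.pCore_eq_piCore]
        exact ((Core.piCore_mono (ρ := πᶜ) (Set.singleton_subset_iff.mpr hq)).trans hc.le).trans bot_le
    have h2 := h1.trans (Core.piCore_le_of_isPiHall hH')
    let g : H →* S ⧸ N := f.comp H.subtype
    let M : Subgroup H := (fittingSubgroup (S ⧸ N)).comap g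
    have hMn : M.Normal := inferInstance
    let e : M →* fittingSubgroup (S ⧸ N) := (g.comp M.subtype).codRestrict _ fun m => m.2
    haveI := Core.isNilpotent_fittingSubgroup (S ⧸ N)
    have hM : Group.IsNilpotent M := Subgroup.isNilpotent_of_ker_le_center e (by
      intro m hm
      have hm1 : m = 1 := Subtype.ext (Subtype.ext (hinj _ m.1.2 (congrArg Subtype.val (MonoidHom.mem_ker.mp hm))))
      rw [hm1]; exact one_mem _)
    intro y hy
    obtain ⟨h, hh, rfl⟩ := h2 hy
    exact ⟨h, ⟨⟨h, hh⟩, Core.le_fittingSubgroup hMn hM (show (⟨h, hh⟩ : H) ∈ M from hy), rfl⟩, rfl⟩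
  have hFn' : FH.map f ≤ normalizer ((A.map f : Subgroup (S ⧸ N)) : Set (S ⧸ N)) :=
    (map_mono hFA).trans (le_normalizer_map f)
  have hFc' : FH.map f ⊓ centralizer ((A.map f : Subgroup (S ⧸ N)) : Set (S ⧸ N)) ≤ A.map f := by
    rintro _ ⟨⟨h, hh, rfl⟩, hc'⟩
    refine ⟨h, ?_, rfl⟩
    rw [← hFc]
    refine ⟨hh, mem_centralizer_iff.mpr fun a ha => mul_inv_eq_iff_eq_mul.mp (mul_inv_eq_one.mp (hinj _
      (mul_mem (mul_mem (mul_mem (hAH ha) (hFHH hh)) (inv_mem (hAH ha))) (inv_mem (hFHH hh))) ?_))⟩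
    rw [map_mul, map_mul, map_mul, map_inv, map_inv, mem_centralizer_iff.mp hc' (f a) ⟨a, ha, rfl⟩,
      mul_inv_cancel_right, mul_inv_cancel]
  have key : ∀ p : ℕ, p.Prime → p ∈ π → ∀ x ∈ C, (∃ k : ℕ, x ^ p ^ k = 1) → x ∈ A := by
    intro p hp hpπ x hx hxk
    haveI := Fact.mk hp
    have h5 : 5 ≤ p := by
      rcases lt_or_ge p 5 with h | h
      · have h2p := hp.two_le
        interval_cases p <;> first | exact absurd hpπ h2 | exact absurd hpπ h3 | exact absurd hp (by norm_num)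
      · exact h
    obtain ⟨k, hk⟩ := hxk
    obtain ⟨a, ha, hax⟩ := mem_of_centralizes h5 (A.map f) (FH.map f) hFS hFn' hFc'
      (x := f x) (mem_centralizer_iff.mpr (by
        rintro _ ⟨a, ha, rfl⟩; rw [← map_mul, ← map_mul, mem_centralizer_iff.mp hx a ha]))
      ⟨k, by rw [← map_pow, hk, map_one]⟩
    have hcom : Commute a x := mem_centralizer_iff.mp hx a ha
    have hxa : a⁻¹ * x = 1 := by
      have hN : a⁻¹ * x ∈ N := by
        rw [← QuotientGroup.eq_one_iff, ← QuotientGroup.mk'_apply, map_mul, map_inv, ← hf, hax, inv_mul_cancel]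
      have hox : Core.IsPiNat π (orderOf x) :=
        Core.IsPiNat.of_dvd (Core.isPiNat_prime_pow hp hpπ k) (orderOf_dvd_of_pow_eq_one hk)
      have hoa : Core.IsPiNat π (orderOf a⁻¹) := by
        rw [orderOf_inv]; exact Core.IsPiNat.of_dvd hH.1 (orderOf_dvd_natCard _ (hAH ha))
      exact orderOf_eq_one_iff.mp (Core.IsPiNat.eq_one
        (Core.IsPiNat.of_dvd (hoa.mul hox) (hcom.inv_left.orderOf_mul_dvd_mul_orderOf))
        (Core.IsPiNat.of_dvd (Core.isPiNat_card_piCore πᶜ S) (orderOf_dvd_natCard _ hN)))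
    rw [← inv_mul_eq_one.mp hxa]; exact ha
  set A₀ := A.subgroupOf C
  haveI : A₀.Normal := ⟨fun a ha c => by
    show (c : S) * (a : S) * (c : S)⁻¹ ∈ A
    rw [← mem_centralizer_iff.mp c.2 (a : S) ha, mul_inv_cancel_right]; exact ha⟩
  have hidx : Core.IsPiNat πᶜ A₀.index := by
    intro q hq hqd hqπ
    haveI := Fact.mk hq
    obtain ⟨P⟩ := (inferInstance : Nonempty (Sylow q C))
    refine P.not_dvd_index (hqd.trans (index_dvd_of_le fun y hy => ?_))
    obtain ⟨k, hk⟩ := P.isPGroup' ⟨y, hy⟩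
    exact key q hq hqπ y y.2 ⟨k, congrArg Subtype.val (congrArg Subtype.val hk)⟩
  have hA₀ : Core.IsPiNat π (Nat.card A₀) :=
    Core.IsPiNat.of_dvd hH.1 ((Core.card_subgroupOf hAC).symm ▸ card_dvd_of_le hAH)
  obtain ⟨D, hD⟩ := exists_right_complement'_of_coprime (N := A₀) (hA₀.coprime_compl hidx)
  refine ⟨D.map C.subtype, map_subtype_le D, ?_, ?_, ?_, ?_⟩
  · rintro c hc' _ ⟨d, hd, rfl⟩
    obtain ⟨⟨a, e⟩, he⟩ := hD.2 ⟨c, hc'⟩
    refine ⟨e * d * e⁻¹, mul_mem (mul_mem e.2 hd) (inv_mem e.2), ?_⟩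
    have hce : ((a : C) : S) * ((e : C) : S) = c := congrArg Subtype.val he
    have hz := mem_centralizer_iff.mp ((e : C) * d * (e : C)⁻¹ : C).2 ((a : C) : S) a.2
    simp only [coe_subtype, Subgroup.coe_mul, Subgroup.coe_inv] at hz ⊢
    rw [← hce]
    calc ((e : C) : S) * (d : S) * ((e : C) : S)⁻¹
        = ((a : C) : S) * (((e : C) : S) * (d : S) * ((e : C) : S)⁻¹) * ((a : C) : S)⁻¹ := by
          rw [hz, mul_inv_cancel_right]
      _ = _ := by group
  · refine (Subgroup.eq_bot_iff_forall _).mpr ?_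
    rintro _ ⟨ha, d, hd, rfl⟩
    have h1 : d ∈ A₀ ⊓ D := ⟨ha, hd⟩
    rw [hD.disjoint.eq_bot, mem_bot] at h1
    rw [h1, map_one]
  · rw [show A = A₀.map C.subtype from (map_subgroupOf_eq_of_le hAC).symm, ← Subgroup.map_sup,
      hD.sup_eq_top, ← MonoidHom.range_eq_map, range_subtype]
  · intro q hq hqd
    rw [card_map_of_injective C.subtype_injective] at hqd
    exact hidx q hq (hD.symm.index_eq_card ▸ hqd)

end Cfsg.Agent.S1893
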