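import Cfsg.Statements.S1894
import Cfsg.Agent.PLocal.ElemAb
import Mathlib.GroupTheory.Nilpotent

set_option autoImplicit false
open Cfsg
open scoped commutatorElement

namespace Cfsg.Agent.S1894

theorem exists_fixed {P : Type*} [Group P] [Group.IsNilpotent P] (R C : Subgroup P) [R.Normal]
    (h : ¬ R ≤ C) : ∃ x ∈ R, x ∉ C ∧ ∀ a : P, ⁅x, a⁆ ∈ C := by
  obtain ⟨n, hn⟩ := Subgroup.nilpotent_iff_lowerCentralSeries.mp ‹Group.IsNilpotent P›
  classical
  have hex : ∃ k, R ⊓ Subgroup.lowerCentralSeries (⊤ : Subgroup P) k ≤ C :=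
    ⟨n, by rw [hn, inf_bot_eq]; exact bot_le⟩
  have hk0 : Nat.find hex ≠ 0 := fun h0 => h (by
    have := Nat.find_spec hex; rw [h0, Subgroup.lowerCentralSeries_zero, inf_top_eq] at this; exact this)
  obtain ⟨j, hj⟩ := Nat.exists_eq_succ_of_ne_zero hk0
  obtain ⟨x, hx, hxC⟩ := SetLike.not_le_iff_exists.mp (Nat.find_min hex (show j < Nat.find hex by omega))
  refine ⟨x, hx.1, hxC, fun a => ?_⟩
  have := Nat.find_spec hex
  rw [hj] at this
  refine this ⟨(Subgroup.commutator_le_left R ⊤) (Subgroup.commutator_mem_commutator hx.1 (Subgroup.mem_top a)), ?_⟩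
  rw [Subgroup.lowerCentralSeries_succ]
  exact Subgroup.commutator_mem_commutator hx.2 (Subgroup.mem_top a)


/-- Let P be a finite p-group, A a normal subgroup of P and B an abelian subgroup of A that is normal in P. Then some subgroup C of A containing B is normal in P and is self-centralizing and normal in A (C ∈ SCN(A)). -/
theorem result {P : Type*} [Group P] [Finite P] {p : ℕ} [Fact p.Prime] (hP : IsPGroup p P)
    (A : Subgroup P) [A.Normal] (B : Subgroup P) [B.Normal] (hBA : B ≤ A) (hB : IsMulCommutative B) :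
    ∃ C : Subgroup P, C.Normal ∧ B ≤ C ∧ Cfsg.IsSCN A C := by
  haveI := hP.isNilpotent
  obtain ⟨C, hBC, ⟨⟨hCn, hCA, hCc⟩, hmax⟩⟩ := (Set.toFinite
      {C : Subgroup P | C.Normal ∧ C ≤ A ∧ IsMulCommutative C}).exists_le_maximal
    (a := B) ⟨inferInstance, hBA, hB⟩
  haveI := hCn
  have hCc' : C ≤ Subgroup.centralizer (C : Set P) := Subgroup.le_centralizer_iff_isMulCommutative.mpr hCc
  refine ⟨C, hCn, hBC, hCA, Subgroup.le_normalizer_of_normal, le_antisymm ?_ (le_inf hCA hCc')⟩
  by_contra h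
  obtain ⟨x, hx, hxC, hfix⟩ := exists_fixed (A ⊓ Subgroup.centralizer (C : Set P)) C h
  have hc : C ≤ Subgroup.centralizer (Subgroup.zpowers x : Set P) :=
    Subgroup.le_centralizer_iff.mp (Subgroup.zpowers_le.mpr hx.2)
  have hle : C ⊔ Subgroup.zpowers x ≤ A := sup_le hCA (Subgroup.zpowers_le.mpr hx.1)
  have hn : (C ⊔ Subgroup.zpowers x).Normal := by
    rw [← Subgroup.commutator_top_right_le_iff, Subgroup.commutator_le]
    intro g hg a _
    obtain ⟨c, hc', z, hz, rfl⟩ := Coprime.exists_mul_of_mem_sup Subgroup.le_normalizer_of_normal hg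
    obtain ⟨k, rfl⟩ := (isOfFinOrder_of_finite x).mem_powers_iff_mem_zpowers.mpr hz
    refine Subgroup.mem_sup_left ?_
    rw [commutatorElement_mul_left_eq_conj_mul]
    refine C.mul_mem (hCn.conj_mem _ ?_ _) ((Subgroup.commutator_le_left C ⊤) (Subgroup.commutator_mem_commutator hc' (Subgroup.mem_top a)))
    clear hg hz
    induction k with
    | zero => simp [C.one_mem]
    | succ k ih =>
      show ⁅x ^ (k + 1), a⁆ ∈ C
      rw [pow_succ, commutatorElement_mul_left_eq_conj_mul]
      exact C.mul_mem (hCn.conj_mem _ (hfix a) _) ih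
  exact hxC (hmax ⟨hn, hle, PLocal.isMulCommutative_sup hCc inferInstance hc⟩ le_sup_left
    (Subgroup.mem_sup_right (Subgroup.mem_zpowers x)))

end Cfsg.Agent.S1894
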