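import Cfsg.Statements.S1895
import Cfsg.Agent.TwoGroups.OddRankTwo
import Cfsg.Agent.OddLocal.RankTwo.Omega
import Cfsg.Agent.OddLocal.RankTwo.SmallAut
import Cfsg.Agent.OddLocal.RankTwo.Metacyclic
import Cfsg.Agent.OddLocal.RankTwo.SmallClass
import Cfsg.Agent.Transfer.PGroupNormal
import Cfsg.Agent.Core.PiSeparable
import Cfsg.Agent.Core.RankTwoQd

set_option autoImplicit false
open Cfsg

namespace Cfsg.Agent.S1895

open Cfsg.Agent
open scoped commutatorElement

universe u

theorem centralizer_char {S : Type*} [Group S] (W : Subgroup S) [hW : W.Characteristic] :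
    (Subgroup.centralizer (W : Set S)).Characteristic := by
  refine Subgroup.characteristic_iff_le_comap.mpr fun e x hx => ?_
  rw [Subgroup.mem_comap, Subgroup.mem_centralizer_iff]
  intro w hw
  obtain ⟨v, rfl⟩ := e.surjective w
  have hv : v ∈ W := (SetLike.ext_iff.mp (Subgroup.characteristic_iff_comap_eq.mp hW e) v).1 hw
  show e v * e x = e x * e v
  rw [← map_mul, ← map_mul, Subgroup.mem_centralizer_iff.mp hx v hv]

variable {p : ℕ} [hp : Fact p.Prime]

theorem closure_pair_le {S : Type*} [Group S] [Finite S] (hr : Cfsg.PRankLE p 2 S) {s : Set S}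
    (hc : ∀ x ∈ s, ∀ y ∈ s, x * y = y * x) (he : ∀ x ∈ s, x ^ p = 1) :
    Nat.card (Subgroup.closure s) ≤ p ^ 2 := by
  haveI := Subgroup.isMulCommutative_closure hc
  refine hr _ inferInstance fun a ha => ?_
  induction ha using Subgroup.closure_induction with
  | mem x hx => exact he x hx
  | one => exact one_pow _
  | mul x y hx hy ex ey =>
    rw [(show Commute x y from congrArg Subtype.val (mul_comm' (⟨x, hx⟩ : Subgroup.closure s) ⟨y, hy⟩)).mul_pow,
      ex, ey, one_mul]
  | inv x _ ex => rw [inv_pow, ex, inv_one]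

/-- The subgroup used to cut a chief factor: either an elementary abelian characteristic subgroup of order `p ^ 2`,
or an extraspecial one with cyclic centralizer. -/
theorem structure_aux (hp2 : p ≠ 2) {S : Type u} [Group S] [Finite S] (hS : IsPGroup p S)
    (hr : Cfsg.PRankLE p 2 S) (hnc : ¬ IsCyclic S) :
    (∃ C : Subgroup S, C.Characteristic ∧ C.index ≤ p ∧
        (Cfsg.powerClosure p 1 (⊤ : Subgroup C)).index ≤ p ^ 2) ∨
      (∃ M : Subgroup S, M.Characteristic ∧ M.index ≤ p ^ 2 ∧ IsCyclic M) := by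
  haveI := hS.isNilpotent
  set Z2 := Subgroup.upperCentralSeries S 2 with hZ2
  have hcomm : ∀ x ∈ Z2, ∀ y : S, ∀ g : S, x * y * x⁻¹ * y⁻¹ * g = g * (x * y * x⁻¹ * y⁻¹) := by
    intro x hx y g
    have h := Subgroup.mem_upperCentralSeries_succ_iff.1 hx y
    rw [Subgroup.upperCentralSeries_one] at h
    exact (Subgroup.mem_center_iff.1 h g).symm
  have hpowc : ∀ x ∈ Z2, x ^ p = 1 → ∀ y : S, (x * y * x⁻¹ * y⁻¹) ^ p = 1 := by
    intro x hx hxp y
    set c := x * y * x⁻¹ * y⁻¹ with hc
    have hk : ∀ k : ℕ, x ^ k * y * (x ^ k)⁻¹ = c ^ k * y := by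
      intro k
      induction k with
      | zero => simp
      | succ k ih =>
        calc x ^ (k + 1) * y * (x ^ (k + 1))⁻¹ = x * (x ^ k * y * (x ^ k)⁻¹) * x⁻¹ := by
              rw [pow_succ']; group
          _ = x * c ^ k * x⁻¹ * (x * y * x⁻¹) := by rw [ih]; group
          _ = c ^ k * (x * y * x⁻¹) := by
              rw [((show Commute c x from hcomm x hx y x).pow_left k).symm.eq, mul_inv_cancel_right]
          _ = c ^ k * (c * y) := by
              rw [show c * y = x * y * x⁻¹ by rw [hc]; group]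
          _ = c ^ (k + 1) * y := (mul_assoc _ _ _).symm.trans (by rw [pow_succ])
    have h := hk p
    rw [hxp, one_mul, inv_one, mul_one] at h
    exact mul_right_cancel (b := y) (by rw [← h, one_mul])
  let W : Subgroup S :=
    { carrier := {x | x ∈ Z2 ∧ x ^ p = 1}
      one_mem' := ⟨one_mem _, one_pow _⟩
      mul_mem' := fun {a b} ha hb => ⟨mul_mem ha.1 hb.1, by
        have h1 : ⁅b, a⁆ ^ p = 1 := by rw [commutatorElement_def]; exact hpowc b hb.1 hb.2 a
        have h2 : ∀ g : S, Commute ⁅b, a⁆ g := fun g => by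
          rw [commutatorElement_def]; exact hcomm b hb.1 a g
        rw [TwoGroups.OddRankTwo.mul_pow_prime hp2 (h2 a) (h2 b) h1, ha.2, hb.2, one_mul]⟩
      inv_mem' := fun {a} ha => ⟨inv_mem ha.1, by rw [inv_pow, ha.2, inv_one]⟩ }
  haveI hWchar : W.Characteristic := by
    refine Subgroup.characteristic_iff_le_comap.mpr fun e x hx => ?_
    exact ⟨Subgroup.characteristic_iff_le_comap.mp (inferInstance : Z2.Characteristic) e hx.1,
      by show (e x) ^ p = 1; rw [← map_pow, hx.2, map_one]⟩
  have hWp : IsPGroup p W := hS.to_subgroup W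
  have hWexp : ∀ x : W, x ^ p = 1 := fun x => Subtype.ext x.2.2
  have hW3 : Nat.card W ≤ p ^ 3 :=
    OddLocal.RankTwo.card_le_of_exponent hWp hWexp (Components.pRankLE_of_injective W.subtype_injective hr)
  have hW2 : p ^ 2 ≤ Nat.card W := by
    obtain ⟨N, hNn, hN, hNc⟩ := Transfer.PNormal.exists_normal_ea_sq hp2 hS hnc
    haveI := hNn
    rw [← hNc]
    refine Subgroup.card_le_of_le fun x hx => ⟨?_, hN.2 x hx⟩
    refine Subgroup.mem_upperCentralSeries_succ_iff.2 fun g => ?_
    rw [Subgroup.upperCentralSeries_one]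
    set D := ⁅N, (⊤ : Subgroup S)⁆ with hD
    have hne : N ≠ ⊥ := by
      intro h
      rw [h, Subgroup.card_bot] at hNc
      exact absurd hNc.symm (Nat.one_lt_pow two_ne_zero hp.out.one_lt).ne'
    have hDc : Nat.card D ≤ p ^ 1 :=
      OddLocal.RankTwo.card_le_of_lt hS (OddLocal.RankTwo.commutator_top_lt N hne) (hNc.le)
    have hmem : x * g * x⁻¹ * g⁻¹ ∈ D := by
      rw [← commutatorElement_def]
      exact Subgroup.commutator_mem_commutator hx (Subgroup.mem_top g)
    rw [commutatorElement_def]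
    by_cases hDb : D = ⊥
    · rw [hDb, Subgroup.mem_bot] at hmem
      rw [hmem]; exact one_mem _
    obtain ⟨z, hzD, hz1, hzc⟩ := OddLocal.exists_ne_one_mem_center_of_normal D hDb
    have hzp : z ^ p = 1 := hN.2 z (Subgroup.commutator_le_left N ⊤ hzD)
    have : Subgroup.zpowers z = D := by
      refine Subgroup.eq_of_le_of_card_ge (Subgroup.zpowers_le.mpr hzD) ?_
      rw [Nat.card_zpowers, orderOf_eq_prime hzp hz1]
      exact hDc.trans (pow_one p).le
    rw [← this] at hmem
    exact Subgroup.zpowers_le.mpr hzc hmem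
  obtain ⟨i, hi⟩ := hWp.exists_card_eq
  have hi23 : i = 2 ∨ i = 3 := by
    rw [hi] at hW2 hW3
    have h1 := (Nat.pow_le_pow_iff_right hp.out.one_lt).mp hW2
    have h2 := (Nat.pow_le_pow_iff_right hp.out.one_lt).mp hW3
    omega
  haveI hCchar := centralizer_char W
  by_cases hWc : ∀ a ∈ W, ∀ b ∈ W, a * b = b * a
  · have hWab : IsMulCommutative W := ⟨⟨fun a b => Subtype.ext (hWc a a.2 b b.2)⟩⟩
    have hcard : Nat.card W = p ^ 2 := le_antisymm (hr W hWab fun a ha => ha.2) hW2
    refine Or.inl ⟨Subgroup.centralizer (W : Set S), hCchar,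
      Components.index_centralizer_normal_ea hS inferInstance ⟨hWab, fun a ha => ha.2⟩ hcard, ?_⟩
    set C := Subgroup.centralizer (W : Set S) with hC
    have hxW : ∀ x ∈ C, x ^ p = 1 → x ∈ W := by
      intro x hxC hxp
      have hle : W ≤ Subgroup.closure ((W : Set S) ∪ {x}) := fun w hw => Subgroup.subset_closure (Or.inl hw)
      have hcl : Nat.card (Subgroup.closure ((W : Set S) ∪ {x})) ≤ p ^ 2 := by
        refine closure_pair_le hr ?_ ?_
        · rintro a (ha | rfl) b (hb | rfl)
          · exact hWc a ha b hb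
          · exact Subgroup.mem_centralizer_iff.1 hxC a ha
          · exact (Subgroup.mem_centralizer_iff.1 hxC b hb).symm
          · rfl
        · rintro a (ha | rfl)
          · exact ha.2
          · exact hxp
      have := Subgroup.eq_of_le_of_card_ge hle (hcard ▸ hcl)
      rw [this]
      exact Subgroup.subset_closure (Or.inr rfl)
    have hOC : TwoGroups.OddRankTwo.OmegaCentral p C := fun x hx => Subgroup.mem_center_iff.2 fun y => Subtype.ext
      (Subgroup.mem_centralizer_iff.1 y.2 (x : S) (hxW x x.2 (by simpa using congrArg Subtype.val hx))).symm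
    refine (TwoGroups.OddRankTwo.powers_index hp2 (hS.to_subgroup C) hOC ?_).2
    rw [← hcard]
    exact Nat.card_le_card_of_injective (fun x => (⟨((x : C) : S), hxW _ (x : C).2
        (by simpa using congrArg Subtype.val ((TwoGroups.OddRankTwo.mem_omega hOC).1 x.2))⟩ : W))
      (fun x y h => Subtype.ext (Subtype.ext (congrArg (fun w : W => (w : S)) h)))
  push Not at hWc
  obtain ⟨a, ha, b, hb, hab⟩ := hWc
  have hi3 : Nat.card W = p ^ 3 := by
    rcases hi23 with rfl | rfl
    · exact absurd (congrArg Subtype.val (IsPGroup.commutative_of_card_eq_prime_sq (p := p) hi ⟨a, ha⟩ ⟨b, hb⟩)) hab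
    · exact hi
  have hgen : ∀ c ∈ W, ∀ d ∈ W, c * d ≠ d * c → Subgroup.closure {c, d} = W := by
    intro c hc d hd hcd
    have hle : Subgroup.closure {c, d} ≤ W := (Subgroup.closure_le _).2 (by rintro _ (rfl | rfl) <;> assumption)
    refine Subgroup.eq_of_le_of_card_ge hle ?_
    obtain ⟨j, hj⟩ := (hS.to_subgroup (Subgroup.closure {c, d})).exists_card_eq
    rw [hi3, hj]
    refine Nat.pow_le_pow_right hp.out.pos ?_
    by_contra hlt
    apply hcd
    have hcm : c ∈ Subgroup.closure {c, d} := Subgroup.subset_closure (by simp)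
    have hdm : d ∈ Subgroup.closure {c, d} := Subgroup.subset_closure (by simp)
    rcases (show j = 2 ∨ j ≤ 1 by omega) with rfl | h1
    · exact congrArg Subtype.val (IsPGroup.commutative_of_card_eq_prime_sq (p := p) hj ⟨c, hcm⟩ ⟨d, hdm⟩)
    · haveI : IsCyclic (Subgroup.closure {c, d} : Subgroup S) := by
        interval_cases j
        · haveI : Subsingleton (Subgroup.closure {c, d} : Subgroup S) :=
            (Nat.card_eq_one_iff_unique.mp (by rw [hj, pow_zero])).1
          infer_instance
        · exact isCyclic_of_prime_card (by rw [hj, pow_one])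
      letI : CommGroup (Subgroup.closure {c, d} : Subgroup S) := IsCyclic.commGroup
      exact congrArg Subtype.val (mul_comm (⟨c, hcm⟩ : (Subgroup.closure {c, d} : Subgroup S)) ⟨d, hdm⟩)
  -- central elements of `W`
  have hZle : ∀ z ∈ W, (∀ w ∈ W, z * w = w * z) → ∀ z' ∈ W, (∀ w ∈ W, z' * w = w * z') → z ≠ 1 →
      z' ∈ Subgroup.zpowers z := by
    intro z hz hzc z' hz' hzc' hz1
    have hle : Nat.card (Subgroup.closure ({a, z, z'} : Set S)) ≤ p ^ 2 := by
      refine closure_pair_le hr ?_ ?_
      · rintro x (rfl | rfl | rfl) y (rfl | rfl | rfl) <;>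
          first | rfl | exact hzc _ hz' | exact (hzc _ hz').symm | exact hzc _ ha | exact (hzc _ ha).symm |
            exact hzc' _ ha | exact (hzc' _ ha).symm
      · rintro x (rfl | rfl | rfl)
        exacts [ha.2, hz.2, hz'.2]
    have hlt : Subgroup.zpowers z < Subgroup.closure ({a, z, z'} : Set S) := by
      refine lt_of_le_of_ne (Subgroup.zpowers_le.2 (Subgroup.subset_closure (by simp))) fun h => ?_
      have haz : a ∈ Subgroup.zpowers z := h.symm ▸ Subgroup.subset_closure (by simp)
      obtain ⟨k, rfl⟩ := Subgroup.mem_zpowers_iff.1 haz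
      exact hab ((show Commute z b from hzc b hb).zpow_left k).eq
    have hzcard : Nat.card (Subgroup.zpowers z) = p := by rw [Nat.card_zpowers, orderOf_eq_prime hz.2 hz1]
    by_contra hz'z
    have hlt2 : Subgroup.zpowers z < Subgroup.closure ({z, z'} : Set S) :=
      lt_of_le_of_ne (Subgroup.zpowers_le.2 (Subgroup.subset_closure (by simp)))
        fun h => hz'z (h.symm ▸ Subgroup.subset_closure (by simp))
    have hle2 : Subgroup.closure ({z, z'} : Set S) ≤ Subgroup.closure ({a, z, z'} : Set S) :=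
      Subgroup.closure_mono (by simp)
    have hz2 : p ^ 2 ≤ Nat.card (Subgroup.closure ({z, z'} : Set S)) := by
      obtain ⟨j, hj⟩ := (hS.to_subgroup (Subgroup.closure ({z, z'} : Set S))).exists_card_eq
      have h1 := FGS3.Regular.card_lt_card hlt2
      rw [hzcard, hj] at h1
      rw [hj]
      refine Nat.pow_le_pow_right hp.out.pos ?_
      by_contra h
      interval_cases j <;> simp at h1
      exact absurd h1 (by have := hp.out.one_lt; omega)
    have heq := Subgroup.eq_of_le_of_card_ge hle2 (hle.trans hz2)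
    have haz : a ∈ Subgroup.closure ({z, z'} : Set S) := heq ▸ Subgroup.subset_closure (by simp)
    have : Subgroup.closure ({z, z'} : Set S) ≤ Subgroup.centralizer ({b} : Set S) :=
      (Subgroup.closure_le _).2 (by
        rintro x (rfl | rfl)
        · exact Subgroup.mem_centralizer_singleton_iff.2 (hzc b hb)
        · exact Subgroup.mem_centralizer_singleton_iff.2 (hzc' b hb))
    exact hab (Subgroup.mem_centralizer_singleton_iff.1 (this haz))
  refine Or.inr ⟨Subgroup.centralizer (W : Set S), hCchar, ?_, ?_⟩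
  · -- index at most `p ^ 2`
    set Z0 := W ⊓ Subgroup.center S with hZ0
    have hZ0c : Nat.card Z0 ≤ p := by
      by_cases hb0 : Z0 = ⊥
      · rw [hb0, Subgroup.card_bot]; exact hp.out.one_lt.le
      obtain ⟨z, hz, hz1⟩ := (Subgroup.ne_bot_iff_exists_ne_one.1 hb0 : ∃ z : Z0, z ≠ 1) |>.elim
        fun z hz => (⟨(z : S), z.2, fun h => hz (Subtype.ext h)⟩ : ∃ z : S, z ∈ Z0 ∧ z ≠ 1)
      have hc : ∀ u ∈ Z0, ∀ w ∈ W, u * w = w * u := fun u hu w _ =>
        (Subgroup.mem_center_iff.1 hu.2 w).symm
      calc Nat.card Z0 ≤ Nat.card (Subgroup.zpowers z) :=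
            Subgroup.card_le_of_le fun u hu => hZle z hz.1 (hc z hz) u hu.1 (hc u hu) hz1
        _ = p := by rw [Nat.card_zpowers, orderOf_eq_prime hz.1.2 hz1]
    have hmem : ∀ c ∈ W, ∀ h : S, h * c * h⁻¹ * c⁻¹ ∈ Z0 := by
      intro c hc h
      refine Subgroup.mem_inf.2 ⟨W.mul_mem ((inferInstance : W.Normal).conj_mem c hc h) (W.inv_mem hc), ?_⟩
      rw [show h * c * h⁻¹ * c⁻¹ = (c * h * c⁻¹ * h⁻¹)⁻¹ by group]
      exact inv_mem (Subgroup.mem_center_iff.2 fun g => (hcomm c hc.1 h g).symm)
    have hinj : (Subgroup.centralizer (W : Set S)).index ≤ Nat.card (Z0 × Z0) := by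
      rw [Subgroup.index_eq_card]
      refine Nat.card_le_card_of_injective (fun q =>
        ((⟨_, hmem a ha (Quotient.out q)⟩ : Z0), (⟨_, hmem b hb (Quotient.out q)⟩ : Z0))) ?_
      intro q r hqr
      simp only [Prod.mk.injEq, Subtype.mk.injEq, mul_left_inj] at hqr
      rw [← QuotientGroup.out_eq' q, ← QuotientGroup.out_eq' r, QuotientGroup.eq]
      suffices hmemC : (Quotient.out q)⁻¹ * Quotient.out r ∈
          Subgroup.centralizer ((Subgroup.closure {a, b} : Subgroup S) : Set S) from
        Subgroup.centralizer_le (SetLike.coe_subset_coe.2 (hgen a ha b hb hab).ge) hmemC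
      rw [Subgroup.centralizer_closure]
      refine Subgroup.mem_centralizer_iff.2 ?_
      have key : ∀ c : S, Quotient.out q * c * (Quotient.out q)⁻¹ = Quotient.out r * c * (Quotient.out r)⁻¹ →
          c * ((Quotient.out q)⁻¹ * Quotient.out r) = (Quotient.out q)⁻¹ * Quotient.out r * c := by
        intro c h
        calc c * ((Quotient.out q)⁻¹ * Quotient.out r)
            = (Quotient.out q)⁻¹ * (Quotient.out q * c * (Quotient.out q)⁻¹) * Quotient.out r := by group
          _ = (Quotient.out q)⁻¹ * (Quotient.out r * c * (Quotient.out r)⁻¹) * Quotient.out r := by rw [h]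
          _ = (Quotient.out q)⁻¹ * Quotient.out r * c := by group
      rintro c (rfl | rfl)
      exacts [key _ hqr.1, key _ hqr.2]
    refine hinj.trans ?_
    rw [Nat.card_prod, pow_two]
    exact Nat.mul_le_mul hZ0c hZ0c
  · -- the centralizer is cyclic
    set M := Subgroup.centralizer (W : Set S) with hM
    have hxW : ∀ x ∈ M, x ^ p = 1 → x ∈ W := by
      intro x hxM hxp
      have hca : Nat.card (Subgroup.closure ({a, x} : Set S)) ≤ p ^ 2 := by
        refine closure_pair_le hr ?_ ?_
        · rintro u (rfl | rfl) v (rfl | rfl) <;>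
            first | rfl | exact Subgroup.mem_centralizer_iff.1 hxM _ ha | exact (Subgroup.mem_centralizer_iff.1 hxM _ ha).symm
        · rintro u (rfl | rfl)
          exacts [ha.2, hxp]
      set Zc := W ⊓ Subgroup.center S with hZc
      have hne : Zc ≠ ⊥ := by
        intro hbot
        have h1 : ∀ c ∈ W, ∀ h : S, c * h = h * c := by
          intro c hc h
          have h2 : h * c * h⁻¹ * c⁻¹ ∈ Zc := by
            refine Subgroup.mem_inf.2 ⟨W.mul_mem ((inferInstance : W.Normal).conj_mem c hc h) (W.inv_mem hc), ?_⟩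
            rw [show h * c * h⁻¹ * c⁻¹ = (c * h * c⁻¹ * h⁻¹)⁻¹ by group]
            exact inv_mem (Subgroup.mem_center_iff.2 fun g => (hcomm c hc.1 h g).symm)
          rw [hbot, Subgroup.mem_bot, mul_inv_eq_one, mul_inv_eq_iff_eq_mul] at h2
          exact h2.symm
        exact hab (h1 a ha b)
      obtain ⟨⟨z, hz⟩, hz1⟩ := Subgroup.ne_bot_iff_exists_ne_one.1 hne
      have hz1' : z ≠ 1 := fun h => hz1 (Subtype.ext h)
      have hzc : ∀ g : S, z * g = g * z := fun g => (Subgroup.mem_center_iff.1 hz.2 g).symm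
      have hcl : Nat.card (Subgroup.closure ({a, z, x} : Set S)) ≤ p ^ 2 := by
        refine closure_pair_le hr ?_ ?_
        · rintro u (rfl | rfl | rfl) v (rfl | rfl | rfl) <;>
            first | rfl | exact hzc _ | exact (hzc _).symm | exact Subgroup.mem_centralizer_iff.1 hxM _ ha |
              exact (Subgroup.mem_centralizer_iff.1 hxM _ ha).symm
        · rintro u (rfl | rfl | rfl)
          exacts [ha.2, hz.1.2, hxp]
      have hsub : Subgroup.closure ({a, z} : Set S) ≤ Subgroup.closure ({a, z, x} : Set S) :=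
        Subgroup.closure_mono (by rintro u (rfl | rfl) <;> simp)
      have haz : p ^ 2 ≤ Nat.card (Subgroup.closure ({a, z} : Set S)) := by
        obtain ⟨j, hj⟩ := (hS.to_subgroup (Subgroup.closure ({a, z} : Set S))).exists_card_eq
        rw [hj]
        refine Nat.pow_le_pow_right hp.out.pos ?_
        by_contra h
        have hzz : Subgroup.zpowers z = Subgroup.closure ({a, z} : Set S) := by
          refine Subgroup.eq_of_le_of_card_ge (Subgroup.zpowers_le.2 (Subgroup.subset_closure (by simp))) ?_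
          rw [hj, Nat.card_zpowers, orderOf_eq_prime hz.1.2 hz1']
          exact (Nat.pow_le_pow_right hp.out.pos (show j ≤ 1 by omega)).trans (pow_one p).le
        obtain ⟨k, hk⟩ := Subgroup.mem_zpowers_iff.1
          (hzz.symm ▸ Subgroup.subset_closure (by simp) : a ∈ Subgroup.zpowers z)
        exact hab (by rw [← hk]; exact ((show Commute z b from hzc b).zpow_left k).eq)
      have heq := Subgroup.eq_of_le_of_card_ge hsub (hcl.trans haz)
      have hx' : x ∈ Subgroup.closure ({a, z} : Set S) := heq ▸ Subgroup.subset_closure (by simp)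
      exact (Subgroup.closure_le _).2 (by rintro u (rfl | rfl); exacts [ha, hz.1]) hx'
    refine OddLocal.isCyclic_of_uniqueOrderP _ (hS.to_subgroup M) ?_ (Or.inl hp2) le_rfl
    intro u v hu hv hu1
    have hu' : (u : S) ^ p = 1 := by simpa using congrArg Subtype.val hu
    have hv' : (v : S) ^ p = 1 := by simpa using congrArg Subtype.val hv
    have h := hZle (u : S) (hxW _ u.2 hu') (fun w hw => (Subgroup.mem_centralizer_iff.1 u.2 w hw).symm)
      (v : S) (hxW _ v.2 hv') (fun w hw => (Subgroup.mem_centralizer_iff.1 v.2 w hw).symm)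
      (fun h => hu1 (Subtype.ext h))
    obtain ⟨k, hk⟩ := Subgroup.mem_zpowers_iff.1 h
    exact Subgroup.mem_zpowers_iff.2 ⟨k, Subtype.ext (by simpa using hk)⟩

/-- Chief factors inside a normal `p`-subgroup. -/
theorem chief_le (hp2 : p ≠ 2) {G : Type u} [Group G] [Finite G] (hr : Cfsg.PRankLE p 2 G)
    (H K : Subgroup G) [H.Normal] [K.Normal] (hH : IsPGroup p H) (hKH : K < H)
    (hchief : ∀ L : Subgroup G, L.Normal → K ≤ L → L ≤ H → L = K ∨ L = H) :
    K.relIndex H ≤ p ^ 2 := by
  haveI := hH.isNilpotent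
  set K' := K.subgroupOf H with hK'
  show K'.index ≤ p ^ 2
  have hdich : ∀ T : Subgroup H, T.Characteristic → T ≤ K' ∨ T ⊔ K' = ⊤ := by
    intro T hT
    haveI := hT
    haveI : (T.map H.subtype).Normal := Core.normal_map_subtype_of_characteristic T
    rcases hchief (T.map H.subtype ⊔ K) inferInstance le_sup_right
      (sup_le (Subgroup.map_subtype_le _) hKH.le) with h | h
    · exact Or.inl fun t ht => (sup_eq_right.1 h) ⟨t, ht, rfl⟩
    · refine Or.inr (Subgroup.map_injective H.subtype_injective ?_)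
      rw [Subgroup.map_sup, hK', Subgroup.map_subgroupOf_eq_of_le hKH.le, h, ← MonoidHom.range_eq_map,
        Subgroup.range_subtype]
  have hK'ne : K' ≠ ⊤ := fun h => absurd (Subgroup.subgroupOf_eq_top.1 h) hKH.not_ge
  have hfr : frattini H ≤ K' :=
    (hdich _ inferInstance).resolve_right fun h => hK'ne (frattini_nongenerating (by rwa [sup_comm] at h))
  have hpow : ∀ x : H, x ^ p ∈ K' := fun x => hfr (FGS3.pow_mem_frattini hH x)
  have hidx : ∀ T : Subgroup H, T ⊔ K' = ⊤ → K'.index = (K'.subgroupOf T).index := by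
    intro T hT
    rw [← Subgroup.relIndex_top_right, ← hT, Subgroup.relIndex_sup_right]
    rfl
  have hcyc : ∀ T : Subgroup H, IsCyclic T → T ⊔ K' = ⊤ → K'.index ≤ p ^ 2 := by
    intro T hT hsup
    haveI := hT
    haveI : IsCyclic (T ⧸ K'.subgroupOf T) :=
      isCyclic_of_surjective _ (QuotientGroup.mk'_surjective (K'.subgroupOf T))
    rw [hidx T hsup, Subgroup.index_eq_card]
    refine (OddLocal.RankTwo.isCyclic_card_le_of_exponent fun x => ?_).trans
      (Nat.le_self_pow two_ne_zero p)
    induction x using QuotientGroup.induction_on with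
    | H x =>
      rw [← QuotientGroup.mk_pow, QuotientGroup.eq_one_iff, Subgroup.mem_subgroupOf, Subgroup.coe_pow]
      exact hpow _
  by_cases hc : IsCyclic H
  · haveI := hc
    exact hcyc ⊤ inferInstance (top_sup_eq _)
  have hdvd : ∀ T : Subgroup H, T ≤ K' → K'.index ≤ T.index := fun T hT =>
    Nat.le_of_dvd (Nat.pos_of_ne_zero Subgroup.index_ne_zero_of_finite) (Subgroup.index_dvd_of_le hT)
  rcases structure_aux hp2 hH (Components.pRankLE_of_injective H.subtype_injective hr) hc with
    ⟨C, hC, hC1, hC2⟩ | ⟨M, hM, hM1, hM2⟩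
  · rcases hdich C hC with h | h
    · exact (hdvd C h).trans (hC1.trans (Nat.le_self_pow two_ne_zero p))
    · rw [hidx C h]
      refine le_trans (Nat.le_of_dvd (Nat.pos_of_ne_zero Subgroup.index_ne_zero_of_finite)
        (Subgroup.index_dvd_of_le ?_)) hC2
      refine (Subgroup.closure_le _).2 ?_
      rintro _ ⟨x, -, rfl⟩
      show _ ∈ K'
      rw [pow_one, map_pow]
      exact hpow _
  · rcases hdich M hM with h | h
    · exact (hdvd M h).trans hM1
    · exact hcyc M hM2 h

/-- Above `O_p(G)` the order is divisible by `p` at most once. -/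
theorem not_sq_dvd_index (hp2 : p ≠ 2) {G : Type u} [Group G] [Finite G] (hr : Cfsg.PRankLE p 2 G)
    (hC : Subgroup.centralizer (Cfsg.pCore p G : Set G) ≤ Cfsg.pCore p G) :
    ¬ p ^ 2 ∣ (Cfsg.pCore p G).index := by
  intro hdvd
  set P := Cfsg.pCore p G with hP
  obtain ⟨V, _, _, θ, hc, he, hcard, hθ⟩ := OddLocal.RankTwo.exists_small_quotient hp2
    (Core.isPGroup_pCore p G) (Components.pRankLE_of_injective P.subtype_injective hr)
  set ψ : G →* MulAut V := θ.comp MulAut.conjNormal with hψ
  have hK0 : IsPGroup p ψ.ker := by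
    rw [IsPGroup.iff_card]
    refine ⟨_, Nat.eq_prime_pow_of_unique_prime_dvd Nat.card_pos.ne' fun {q} hq hqd => ?_⟩
    by_contra hqp
    haveI := Fact.mk hq
    obtain ⟨⟨g, hg⟩, hgo⟩ := exists_prime_orderOf_dvd_card' q hqd
    rw [Subgroup.orderOf_mk] at hgo
    have hcop : (orderOf g).Coprime p := by rw [hgo]; exact (Nat.coprime_primes hq hp.out).2 hqp
    have h1 : (MulAut.conjNormal g : MulAut P) = 1 :=
      hθ _ (hcop.coprime_dvd_left (orderOf_map_dvd _ g)) hg
    have h2 : g ∈ Subgroup.centralizer (P : Set G) := Subgroup.mem_centralizer_iff.2 fun y hy => by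
      have h3 := congrArg Subtype.val (DFunLike.congr_fun h1 (⟨y, hy⟩ : P))
      rw [MulAut.conjNormal_apply] at h3
      exact (mul_inv_eq_iff_eq_mul.1 h3).symm
    obtain ⟨k, hk⟩ := Core.isPGroup_pCore p G ⟨g, hC h2⟩
    have hk' : g ^ p ^ k = 1 := congrArg Subtype.val hk
    exact hq.ne_one (hgo ▸ Nat.eq_one_of_dvd_coprimes (hcop.pow_right k) dvd_rfl (orderOf_dvd_of_pow_eq_one hk'))
  have hle : ψ.ker ≤ P := Core.le_pCore inferInstance hK0
  have hd : p ^ 2 ∣ Nat.card (MulAut V) := by
    refine (hdvd.trans (Subgroup.index_dvd_of_le hle)).trans ?_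
    rw [Subgroup.index_ker]
    exact Subgroup.card_subgroup_dvd_card _
  have hV : IsPGroup p V := fun x => ⟨1, by rw [pow_one]; exact he x⟩
  obtain ⟨k, hk⟩ := hV.exists_card_eq
  have hk2 : k ≤ 2 := by rw [hk] at hcard; exact (Nat.pow_le_pow_iff_right hp.out.one_lt).mp hcard
  by_cases h2 : k = 2
  · subst h2
    obtain ⟨Φ, hΦ⟩ := OddLocal.RankTwo.exists_gl_hom hc he hk
    have h3 := hd.trans (Subgroup.card_dvd_of_injective Φ hΦ)
    rw [Matrix.card_GL_field, Fin.prod_univ_two] at h3
    simp only [ZMod.card, Fin.val_zero, Fin.val_one, pow_zero, pow_one] at h3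
    rw [show p ^ 2 - p = p * (p - 1) by rw [Nat.mul_sub, mul_one, sq],
      show p ^ 2 - 1 = (p + 1) * (p - 1) by rw [← one_pow 2, Nat.sq_sub_sq]; simp, pow_two,
      ← mul_assoc, mul_comm ((p + 1) * (p - 1)) p, mul_assoc] at h3
    have h4 := Nat.dvd_of_mul_dvd_mul_left hp.out.pos h3
    have hp1 := hp.out.two_le
    have hn1 : ¬ p ∣ p - 1 := fun h => by have := Nat.le_of_dvd (by omega) h; omega
    have hn2 : ¬ p ∣ p + 1 := fun h => by
      have := (Nat.dvd_add_right (dvd_refl p)).1 h
      exact hp.out.one_lt.ne' (Nat.dvd_one.1 this)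
    rcases hp.out.dvd_mul.1 h4 with h | h
    · rcases hp.out.dvd_mul.1 h with h | h
      · exact hn2 h
      · exact hn1 h
    · exact hn1 h
  · have hk1 : k ≤ 1 := by omega
    haveI hcyc : IsCyclic V := by
      interval_cases k
      · haveI : Subsingleton V := (Nat.card_eq_one_iff_unique.mp (by rw [hk, pow_zero])).1
        infer_instance
      · exact isCyclic_of_prime_card (by rw [hk, pow_one])
    rw [IsCyclic.card_mulAut, hk] at hd
    interval_cases k
    · rw [pow_zero, Nat.totient_one, Nat.dvd_one] at hd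
      exact absurd hd (Nat.one_lt_pow two_ne_zero hp.out.one_lt).ne'
    · rw [pow_one, Nat.totient_prime hp.out] at hd
      have h5 := Nat.le_of_dvd (by have := hp.out.two_le; omega) hd
      have h6 := Nat.le_self_pow two_ne_zero p
      have := hp.out.two_le
      omega

theorem relIndex_image {G Q : Type*} [Group G] [Finite G] [Group Q] {f : G →* Q} (hf : Function.Surjective f)
    {H K : Subgroup G} [H.Normal] [K.Normal] (hKH : K < H) (hker : H ⊓ f.ker ≤ K)
    (hchief : ∀ L : Subgroup G, L.Normal → K ≤ L → L ≤ H → L = K ∨ L = H) :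
    (K.map f).relIndex (H.map f) = K.relIndex H ∧
      ∀ L : Subgroup Q, L.Normal → K.map f ≤ L → L ≤ H.map f → L = K.map f ∨ L = H.map f := by
  refine ⟨?_, fun L hL hKL hLH => ?_⟩
  · rw [Subgroup.relIndex_map_map, show H ⊔ f.ker = H ⊔ (K ⊔ f.ker) by
      rw [← sup_assoc, sup_eq_left.2 hKH.le], Subgroup.relIndex_sup_right, ← Subgroup.inf_relIndex_right]
    congr 1
    refine le_antisymm ?_ (le_inf le_sup_left hKH.le)
    intro x hx
    obtain ⟨hx1, hx2⟩ := Subgroup.mem_inf.1 hx
    obtain ⟨k, hk, z, hz, rfl⟩ := Subgroup.mem_sup_of_normal_right.1 hx1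
    refine mul_mem hk (hker (Subgroup.mem_inf.2 ⟨?_, hz⟩))
    simpa using mul_mem (inv_mem (hKH.le hk)) hx2
  · haveI := hL
    rcases hchief (L.comap f ⊓ H) inferInstance
      (le_inf (Subgroup.map_le_iff_le_comap.1 hKL) hKH.le) inf_le_right with h | h
    · refine Or.inl (le_antisymm (fun y hy => ?_) hKL)
      obtain ⟨x, hx, rfl⟩ := hLH hy
      exact Subgroup.mem_map_of_mem f (h.le (Subgroup.mem_inf.2 ⟨hy, hx⟩))
    · exact Or.inr (le_antisymm hLH (Subgroup.map_le_iff_le_comap.2 (h.ge.trans inf_le_left)))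

theorem reduced (hp2 : p ≠ 2) {G : Type u} [Group G] [Finite G] (hG : Cfsg.IsPSolvable p G)
    (hO : Cfsg.pPrimeCore p G = ⊥) (hr : Cfsg.PRankLE p 2 G)
    (H K : Subgroup G) [H.Normal] [K.Normal] (hKH : K < H) {n : ℕ} (hn : K.relIndex H = p ^ n)
    (hchief : ∀ L : Subgroup G, L.Normal → K ≤ L → L ≤ H → L = K ∨ L = H) : n ≤ 2 := by
  set P := Cfsg.pCore p G with hP
  rcases hchief (K ⊔ H ⊓ P) inferInstance le_sup_left (sup_le hKH.le inf_le_left) with h | h
  · have hker : H ⊓ (QuotientGroup.mk' P).ker ≤ K := by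
      rw [QuotientGroup.ker_mk']; exact sup_eq_left.1 h
    have h1 := (relIndex_image (QuotientGroup.mk'_surjective P) hKH hker hchief).1
    have h2 : p ^ n ∣ P.index := by
      rw [← hn, ← h1, Subgroup.index_eq_card]
      exact (Subgroup.relIndex_dvd_card _ _).trans (Subgroup.card_subgroup_dvd_card _)
    by_contra hcon
    exact not_sq_dvd_index hp2 hr (Core.centralizer_pCore_le hG hO)
      ((pow_dvd_pow p (show 2 ≤ n by omega)).trans h2)
  · have h1 : K.relIndex H = (K ⊓ P).relIndex (H ⊓ P) := by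
      have e1 : K.relIndex H = K.relIndex (H ⊓ P) := by
        conv_lhs => rw [← h, sup_comm]
        rw [Subgroup.relIndex_sup_right]
      rw [e1, ← Subgroup.inf_relIndex_right K (H ⊓ P)]
      congr 1
      rw [← inf_assoc, inf_eq_left.2 hKH.le]
    have hlt : K ⊓ P < H ⊓ P := by
      refine lt_of_le_of_ne (inf_le_inf_right _ hKH.le) fun e => hKH.ne ?_
      rw [← h, ← e, sup_eq_left.2 inf_le_left]
    have h2 := chief_le hp2 hr (H ⊓ P) (K ⊓ P) ((Core.isPGroup_pCore p G).to_le inf_le_right) hlt
      (fun L hL hKL hLH => by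
        haveI := hL
        rcases hchief (K ⊔ L) inferInstance le_sup_left
          (sup_le hKH.le (hLH.trans inf_le_left)) with h' | h'
        · exact Or.inl (le_antisymm (le_inf (sup_eq_left.1 h') (hLH.trans inf_le_right)) hKL)
        · refine Or.inr (le_antisymm hLH fun x hx => ?_)
          obtain ⟨hxH, hxP⟩ := Subgroup.mem_inf.1 hx
          obtain ⟨k, hk, l, hl, rfl⟩ := Subgroup.mem_sup_of_normal_left.1 (h'.ge hxH)
          refine mul_mem (hKL (Subgroup.mem_inf.2 ⟨hk, ?_⟩)) hl
          simpa using mul_mem hxP (inv_mem (Subgroup.mem_inf.1 (hLH hl)).2))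
    rw [← h1, hn] at h2
    exact (Nat.pow_le_pow_iff_right hp.out.one_lt).mp h2


/-- Let p be an odd prime and G a finite p-solvable group with no elementary abelian subgroup of order p³. Then every chief factor H/K of G (H, K normal in G with no normal subgroup of G strictly between them) whose order is a power of p has order p or p². -/
theorem result {G : Type*} [Group G] [Finite G] {p : ℕ} [Fact p.Prime] (hp : p ≠ 2)
    (hG : Cfsg.IsPSolvable p G) (hr : Cfsg.PRankLE p 2 G)
    (H K : Subgroup G) [H.Normal] [K.Normal] (hKH : K < H) (hpow : ∃ n : ℕ, K.relIndex H = p ^ n)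
    (hchief : ∀ L : Subgroup G, L.Normal → K ≤ L → L ≤ H → L = K ∨ L = H) :
    K.relIndex H = p ∨ K.relIndex H = p ^ 2 := by
    obtain ⟨n, hn⟩ := hpow
    have hn0 : n ≠ 0 := fun h => hKH.not_ge (Subgroup.relIndex_eq_one.1 (by rw [hn, h, pow_zero]))
    set O := Cfsg.pPrimeCore p G with hO
    have hker : H ⊓ O ≤ K := by
      rcases hchief (K ⊔ H ⊓ O) inferInstance le_sup_left (sup_le hKH.le inf_le_left) with h | h
      · exact sup_eq_left.1 h
      · exfalso
        have h1 : p ^ n ∣ Nat.card O := by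
          rw [← hn]
          conv_lhs => rw [← h, sup_comm, Subgroup.relIndex_sup_right]
          exact (Subgroup.relIndex_dvd_card _ _).trans (Subgroup.card_dvd_of_le inf_le_right)
        exact hn0 (Nat.pow_right_injective (Fact.out : p.Prime).two_le ((Nat.eq_one_of_dvd_coprimes
          ((Cfsg.Agent.Core.card_pPrimeCore_coprime p G).pow_right n) h1 dvd_rfl).trans (pow_zero p).symm))
    set π := QuotientGroup.mk' O with hπ
    have hπs : Function.Surjective π := QuotientGroup.mk'_surjective O
    obtain ⟨h1, h2⟩ := relIndex_image hπs hKH (by rw [hπ, QuotientGroup.ker_mk']; exact hker) hchief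
    haveI := Subgroup.Normal.map (inferInstance : H.Normal) π hπs
    haveI := Subgroup.Normal.map (inferInstance : K.Normal) π hπs
    have hlt : K.map π < H.map π := by
      refine lt_of_le_of_ne (Subgroup.map_mono hKH.le) fun e => hn0 ?_
      rw [e, Subgroup.relIndex_self, hn] at h1
      exact Nat.pow_right_injective (Fact.out : p.Prime).two_le (h1.symm.trans (pow_zero p).symm)
    have hn2 := reduced hp (Cfsg.Agent.Core.isPSolvable_quotient hG O)
      (Cfsg.Agent.Core.pPrimeCore_quotient_pPrimeCore p G)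
      (Cfsg.Agent.Core.RankTwoQd.pRankLE_quotient (Cfsg.Agent.Core.card_pPrimeCore_coprime p G) hr)
      (H.map π) (K.map π) hlt (h1.trans hn) h2
    rcases (show n = 1 ∨ n = 2 by omega) with rfl | rfl
    · exact Or.inl (hn.trans (pow_one p))
    · exact Or.inr hn

end Cfsg.Agent.S1895
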