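import Cfsg.Statements.S1897
import Cfsg.Agent.FGS2.PSU33Data
import Cfsg.Agent.Linear.Card
-- import your own Cfsg.Agent.* helpers here

set_option autoImplicit false
open Cfsg

namespace Cfsg.Agent.S1897

open Cfsg.Agent
open scoped Matrix

lemma neg_one_not_sq : ∀ r : ZMod 3, r ^ 2 ≠ -1 + 0 * r := by decide

/-- The projective special unitary group PSU₃(3) (realised over the field with 9 elements) has a subgroup isomorphic to PSL₂(7). -/
theorem result {F : Type*} [Field F] [Fintype F] (hF : Fintype.card F = 9)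
    {K : Type*} [Field K] [Fintype K] (hK : Fintype.card K = 7) :
    ∃ H : Subgroup (Cfsg.PSU 3 F 3), Nonempty (H ≃* Matrix.ProjectiveSpecialLinearGroup (Fin 2) K) := by
  classical
  have hcK : Nat.card (Matrix.ProjectiveSpecialLinearGroup (Fin 2) K) = 168 := by
    have h2 := Linear.card_PSL_two (F := K)
    rw [hK] at h2
    simp only [show Nat.gcd 2 (7 - 1) = 2 by decide, show 7 * (7 ^ 2 - 1) = 336 by norm_num] at h2
    omega
  haveI : IsSimpleGroup (Matrix.ProjectiveSpecialLinearGroup (Fin 2) K) :=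
    Matrix.ProjectiveSpecialLinearGroup.rank_two_simple (by rw [Nat.card_eq_fintype_card, hK]; norm_num)
  obtain ⟨eK⟩ := OddChar.Simple168.equiv_model hcK
  obtain ⟨eG⟩ := FGS2.PSU33.graph_equiv_model
  let e : Matrix.ProjectiveSpecialLinearGroup (Fin 2) K ≃* FGS2.PSU33.graph := eK.trans eG.symm
  haveI : Fact (Nat.Prime 3) := ⟨Nat.prime_three⟩
  haveI : CharP F 3 := by
    obtain ⟨n, hp, hn⟩ := FiniteField.card F (ringChar F)
    have h3 : ringChar F = 3 := by
      have : ringChar F ∣ 3 ^ 2 := by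
        rw [show (3:ℕ) ^ 2 = 9 by norm_num, ← hF, hn]
        exact dvd_pow_self _ n.pos.ne'
      exact (Nat.prime_dvd_prime_iff_eq hp Nat.prime_three).1 (hp.dvd_of_dvd_pow this)
    exact h3 ▸ ringChar.charP F
  letI := ZMod.algebra F 3
  obtain ⟨u, hu⟩ : ∃ u : F, u * u = -1 := by
    obtain ⟨u, hu⟩ := FiniteField.isSquare_neg_one_iff.2 (by rw [hF]; norm_num : Fintype.card F % 4 ≠ 3)
    exact ⟨u, hu.symm⟩
  let φ : FGS2.PSU33.R9 →+* F :=
    (QuadraticAlgebra.lift (R := ZMod 3) (A := F) (a := -1) (b := 0) ⟨u, by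
      rw [hu, zero_smul, add_zero, neg_smul, one_smul]⟩).toRingHom
  have hφ : Function.Injective φ := by
    haveI : Fact (∀ r : ZMod 3, r ^ 2 ≠ -1 + 0 * r) := ⟨neg_one_not_sq⟩
    exact RingHom.injective φ
  let ψ : FGS2.PSU33.graph →* Matrix.SpecialLinearGroup (Fin 3) F :=
    (Matrix.SpecialLinearGroup.map φ).comp ((MonoidHom.snd _ _).comp FGS2.PSU33.graph.subtype)
  have hψ : Function.Injective ψ := by
    have hm : Function.Injective (Matrix.SpecialLinearGroup.map (n := Fin 3) φ) :=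
      fun x y h => Subtype.ext (Matrix.map_injective hφ (congrArg Subtype.val h :))
    exact hm.comp FGS2.PSU33.snd_injective
  have hSU : ∀ d, ψ d ∈ Cfsg.SU 3 F 3 := by
    intro d
    have hd := d.2
    have hle : FGS2.PSU33.graph ≤ (Cfsg.SU 3 F 3).comap
        ((Matrix.SpecialLinearGroup.map φ).comp (MonoidHom.snd _ _)) := by
      rw [FGS2.PSU33.graph, Subgroup.closure_le]
      intro g hg
      have key : ∀ s : Fin 3, Matrix.SpecialLinearGroup.map φ (FGS2.PSU33.gen s) ∈ Cfsg.SU 3 F 3 := by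
        intro s u v
        have hM := (FGS2.PSU33.gen_ok s).2
        set N := (FGS2.PSU33.mat (FGS2.PSU33.nxt 0 s)) with hN
        show Cfsg.hermForm 3 F 3 (N.map φ *ᵥ u) (N.map φ *ᵥ v) = Cfsg.hermForm 3 F 3 u v
        have hpow : (fun i => (N.map φ *ᵥ v) i ^ 3) = (N.map (fun x => x ^ 3)).map φ *ᵥ fun i => v i ^ 3 := by
          funext i
          show frobenius F 3 ((N.map φ *ᵥ v) i) = _
          simp [Matrix.mulVec, dotProduct, frobenius_def, add_pow_char, sum_pow_char, mul_pow, map_pow]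
        have hh : ∀ a b : Fin 3 → F, Cfsg.hermForm 3 F 3 a b = a ⬝ᵥ fun i => b i ^ 3 := fun _ _ => rfl
        rw [hh, hh, hpow, Matrix.dotProduct_mulVec, ← Matrix.vecMul_transpose, Matrix.vecMul_vecMul,
          ← Matrix.transpose_map, ← Matrix.map_mul, hM, Matrix.map_one φ (map_zero φ) (map_one φ),
          Matrix.vecMul_one]
      simp only [FGS2.PSU33.pairs, Set.mem_insert_iff, Set.mem_singleton_iff] at hg
      rcases hg with rfl | rfl | rfl
      · exact key 0
      · exact key 1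
      · exact key 2
    exact hle hd
  let η : Matrix.ProjectiveSpecialLinearGroup (Fin 2) K →* Cfsg.PSU 3 F 3 :=
    (QuotientGroup.mk' (Subgroup.center (Cfsg.SU 3 F 3))).comp ((ψ.codRestrict _ hSU).comp e.toMonoidHom)
  have hη : Function.Injective η := by
    rw [← MonoidHom.ker_eq_bot_iff]
    rcases η.normal_ker.eq_bot_or_eq_top with h | h
    · exact h
    · exfalso
      have hc : ∀ d : FGS2.PSU33.graph, ψ.codRestrict _ hSU d ∈ Subgroup.center (Cfsg.SU 3 F 3) := by
        intro d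
        have : e.symm d ∈ η.ker := h ▸ Subgroup.mem_top _
        simpa [η, MonoidHom.mem_ker] using this
      have ha : (OddChar.Simple168.transl, FGS2.PSU33.gen 0) ∈ FGS2.PSU33.graph :=
        Subgroup.subset_closure (by simp [FGS2.PSU33.pairs])
      have hb : (OddChar.Simple168.dbl, FGS2.PSU33.gen 1) ∈ FGS2.PSU33.graph :=
        Subgroup.subset_closure (by simp [FGS2.PSU33.pairs])
      have h1 := (Subgroup.mem_center_iff.1 (hc ⟨_, ha⟩)) (ψ.codRestrict _ hSU ⟨_, hb⟩)
      have h2 : (⟨_, hb⟩ : FGS2.PSU33.graph) * ⟨_, ha⟩ = ⟨_, ha⟩ * ⟨_, hb⟩ := hψ (by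
        rw [map_mul, map_mul]
        exact congrArg Subtype.val h1)
      exact FGS2.PSU33.gens_not_comm
        (congrArg (fun x : FGS2.PSU33.graph => (x.1.2 : Matrix (Fin 3) (Fin 3) FGS2.PSU33.R9)) h2).symm
  exact ⟨η.range, ⟨(MonoidHom.ofInjective hη).symm⟩⟩

end Cfsg.Agent.S1897
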