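import Cfsg.Statements.S1898
import Cfsg.Prelude.Def_Transfer

set_option autoImplicit false
open Cfsg
open scoped commutatorElement

namespace Cfsg.Agent.S1898

open scoped commutatorElement

theorem pow_four_mul {X : Type*} [Group X] (hel : Cfsg.IsElementaryAbelian 2 (commutator X))
    (hcen : commutator X ≤ Subgroup.center X) (x y : X) :
    (x * y) * (x * y) = x * x * (y * y) * ⁅y, x⁆ ∧
      ((x * y) ^ 4 = x ^ 4 * y ^ 4) := by
  have hc : ∀ u v : X, ∀ g : X, Commute ⁅u, v⁆ g := fun u v g => (Subgroup.mem_center_iff.1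
    (hcen (Subgroup.commutator_mem_commutator (Subgroup.mem_top u) (Subgroup.mem_top v))) g).symm
  have h2 : ∀ u v : X, ⁅u, v⁆ * ⁅u, v⁆ = 1 := fun u v => by
    rw [← pow_two]; exact hel.2 _ (Subgroup.commutator_mem_commutator (Subgroup.mem_top u) (Subgroup.mem_top v))
  have e : ∀ u v : X, (u * v) * (u * v) = u * u * (v * v) * ⁅v, u⁆ := by
    intro u v
    calc (u * v) * (u * v) = u * (⁅v, u⁆ * (u * v)) * v := by rw [commutatorElement_def]; group
      _ = u * ((u * v) * ⁅v, u⁆) * v := by rw [(hc v u (u * v)).eq]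
      _ = u * u * v * (⁅v, u⁆ * v) := by group
      _ = u * u * (v * v) * ⁅v, u⁆ := by rw [(hc v u v).eq]; group
  refine ⟨e x y, ?_⟩
  have hsq : ∀ u v : X, Commute (u * u) v := by
    intro u v
    have h1 : u * v * u⁻¹ = ⁅u, v⁆ * v := by rw [commutatorElement_def]; group
    show u * u * v = v * (u * u)
    calc u * u * v = u * (u * v * u⁻¹) * u := by group
      _ = u * (⁅u, v⁆ * v) * u := by rw [h1]
      _ = ⁅u, v⁆ * (u * v * u⁻¹) * (u * u) := by rw [← mul_assoc u, ← (hc u v u).eq]; group
      _ = (⁅u, v⁆ * ⁅u, v⁆) * v * (u * u) := by rw [h1]; group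
      _ = v * (u * u) := by rw [h2, one_mul]
  calc (x * y) ^ 4 = ((x * y) * (x * y)) * ((x * y) * (x * y)) := by
        rw [pow_succ, pow_succ, pow_two]; group
    _ = (x * x * (y * y)) * (x * x * (y * y)) * (⁅y, x⁆ * ⁅y, x⁆) := by
        rw [e x y]
        exact (hc y x _).mul_mul_mul_comm _ _
    _ = (x * x) * (x * x) * ((y * y) * (y * y)) := by
        rw [h2, mul_one]; exact (hsq y (x * x)).mul_mul_mul_comm _ _
    _ = x ^ 4 * y ^ 4 := by simp only [pow_succ, pow_zero, one_mul, mul_assoc]


/-- Let X be a finite 2-group whose derived subgroup is elementary abelian and central. Then the subgroup generated by the elements of order dividing 4 has exponent dividing 4, and every automorphism of X fixing each element of order dividing 4 has 2-power order. -/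
theorem result {X : Type*} [Group X] [Finite X] (hX : IsPGroup 2 X)
    (hel : Cfsg.IsElementaryAbelian 2 (commutator X)) (hcen : commutator X ≤ Subgroup.center X) :
    (∀ x ∈ Subgroup.closure {g : X | g ^ 4 = 1}, x ^ 4 = 1) ∧
      ∀ φ : MulAut X, (∀ g : X, g ^ 4 = 1 → φ g = g) → ∃ k : ℕ, φ ^ (2 ^ k) = 1 := by
  classical
  have h4 := fun x y => (pow_four_mul hel hcen x y).2
  refine ⟨fun x hx => ?_, fun φ hφ => ?_⟩
  · induction hx using Subgroup.closure_induction with
    | mem g hg => exact hg
    | one => exact one_pow 4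
    | mul a b _ _ ha hb => rw [h4, ha, hb, one_mul]
    | inv a _ ha => rw [inv_pow, ha, inv_one]
  · have ho : orderOf φ ≠ 0 := (orderOf_pos φ).ne'
    obtain ⟨k, n, hn, hkn⟩ := Nat.exists_eq_two_pow_mul_odd ho
    refine ⟨k, ?_⟩
    set ψ := φ ^ 2 ^ k with hψ
    have hψn : ψ ^ n = 1 := by rw [hψ, ← pow_mul, ← hkn, pow_orderOf_eq_one]
    have hψfix : ∀ g : X, g ^ 4 = 1 → ψ g = g := by
      intro g hg
      rw [hψ]
      have : ∀ j : ℕ, (φ ^ j) g = g := fun j => by
        induction j with
        | zero => rfl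
        | succ j ih => rw [pow_succ, MulAut.mul_apply, hφ g hg, ih]
      exact this _
    have key : ∀ (i : ℕ) (g : X), g ^ 2 ^ i = 1 → ψ g = g := by
      intro i
      induction i with
      | zero =>
        intro g hg
        exact hψfix g (by rw [pow_zero, pow_one] at hg; rw [hg, one_pow])
      | succ i ih =>
        intro g hg
        have hsq : ψ (g * g) = g * g := ih (g * g) (by rw [← pow_two, ← pow_mul, ← pow_succ']; exact hg)
        set c := g⁻¹ * ψ g with hc
        have hψg : ψ g = g * c := by rw [hc, mul_inv_cancel_left]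
        rw [map_mul, hψg, (pow_four_mul hel hcen g c).1, mul_assoc] at hsq
        have hcc : c * c = ⁅c, g⁆⁻¹ := eq_inv_of_mul_eq_one_left (mul_eq_left.1 hsq)
        have hc4 : c ^ 4 = 1 := by
          have : (c * c) ^ 2 = 1 := by
            rw [hcc, inv_pow, hel.2 _ (Subgroup.commutator_mem_commutator (Subgroup.mem_top _) (Subgroup.mem_top _)),
              inv_one]
          simpa [pow_succ, pow_two, mul_assoc] using this
        have hψc := hψfix c hc4
        have hiter : ∀ j : ℕ, (ψ ^ j) g = g * c ^ j := fun j => by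
          induction j with
          | zero => simp
          | succ j ihj => rw [pow_succ', MulAut.mul_apply, ihj, map_mul, map_pow, hψg, hψc, mul_assoc, ← pow_succ']
        have h := hiter n
        rw [hψn, MulAut.one_apply] at h
        have hcn : c ^ n = 1 := mul_eq_left.1 h.symm
        have : c = 1 := orderOf_eq_one_iff.1 (Nat.eq_one_of_dvd_coprimes
          (show Nat.Coprime n 4 by rw [show (4 : ℕ) = 2 ^ 2 by rfl]; exact (Nat.coprime_two_right.2 hn).pow_right 2)
          (orderOf_dvd_of_pow_eq_one hcn) (orderOf_dvd_of_pow_eq_one hc4))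
        rw [hψg, this, mul_one]
    ext g
    obtain ⟨i, hi⟩ := hX g
    exact key i g hi

end Cfsg.Agent.S1898
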