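import Cfsg.Statements.S1899


set_option autoImplicit false
open Cfsg
open scoped commutatorElement

namespace Cfsg.Agent.S1899

/-- Let a dihedral group of order 2n, n odd and n > 1, act on a finite abelian 2-group A through automorphisms d and t with d^n = 1, t² = 1 and t d t⁻¹ = d⁻¹, and suppose that d fixes only the identity. Then A is the internal direct product of C_A(t) and its image under d. -/
theorem result {A : Type*} [CommGroup A] [Finite A] (hA : IsPGroup 2 A)
    {n : ℕ} (hn : Odd n) (hn1 : 1 < n) (d t : MulAut A) (hd : d ^ n = 1) (ht : t ^ 2 = 1) (hdt : t * d * t⁻¹ = d⁻¹)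
    (hfix : ∀ a : A, d a = a → a = 1) :
    (MulEquiv.toMonoidHom t).eqLocus (MonoidHom.id A) ⊓ ((MulEquiv.toMonoidHom t).eqLocus (MonoidHom.id A)).map d.toMonoidHom = ⊥ ∧
      (MulEquiv.toMonoidHom t).eqLocus (MonoidHom.id A) ⊔ ((MulEquiv.toMonoidHom t).eqLocus (MonoidHom.id A)).map d.toMonoidHom = ⊤ := by
  have hd2 : ∀ a : A, d (d a) = a → a = 1 := by
    intro a ha
    refine hfix a ?_
    obtain ⟨m, hm⟩ := hn
    have h2 : ∀ k : ℕ, (d ^ (2 * k)) a = a := by
      intro k
      induction k with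
      | zero => rfl
      | succ k ih =>
        rw [Nat.mul_succ, pow_add, MulAut.mul_apply, pow_two, MulAut.mul_apply, ha, ih]
    have h3 : (d ^ n) a = a := by rw [hd]; rfl
    rw [hm, pow_succ', MulAut.mul_apply, h2] at h3
    exact h3
  have hdinv : ∀ a : A, d⁻¹ (d a) = a := fun a => by
    rw [← MulAut.mul_apply, inv_mul_cancel]; rfl
  have hdinv' : ∀ a : A, d (d⁻¹ a) = a := fun a => by
    rw [← MulAut.mul_apply, mul_inv_cancel]; rfl
  have htt : ∀ a : A, t (t a) = a := fun a => by
    rw [← MulAut.mul_apply, ← pow_two, ht]; rfl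
  have htd : ∀ a : A, t (d a) = d⁻¹ (t a) := fun a => by
    have h : t * d = d⁻¹ * t := by rw [← hdt]; group
    rw [← MulAut.mul_apply, h, MulAut.mul_apply]
  have htd' : ∀ a : A, t (d⁻¹ a) = d (t a) := fun a => by
    have h : t * d⁻¹ = d * t := by
      have h1 : (t * d * t⁻¹)⁻¹ = d⁻¹⁻¹ := by rw [hdt]
      rw [inv_inv] at h1
      calc t * d⁻¹ = (t * d * t⁻¹)⁻¹ * t := by group
        _ = d * t := by rw [h1]
    rw [← MulAut.mul_apply, h, MulAut.mul_apply]
  set C := (MulEquiv.toMonoidHom t).eqLocus (MonoidHom.id A) with hC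
  have hmem : ∀ a : A, a ∈ C ↔ t a = a := fun a => Iff.rfl
  refine ⟨?_, ?_⟩
  · rw [eq_bot_iff]
    rintro b ⟨hb, a, ha, rfl⟩
    have h1 : t (d a) = d a := (hmem _).mp hb
    rw [htd, (hmem a).mp ha] at h1
    have h2 : d (d a) = a := by rw [← h1, hdinv']
    rw [Subgroup.mem_bot]
    show d a = 1
    rw [hd2 a h2, map_one]
  · rw [eq_top_iff]
    intro a _
    let φ : A →* A := d.toMonoidHom / (d⁻¹ : MulAut A).toMonoidHom
    have hφ : ∀ y, φ y = d y / d⁻¹ y := fun y => rfl
    have hinj : Function.Injective φ := by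
      rw [injective_iff_map_eq_one]
      intro y hy
      rw [hφ, div_eq_one] at hy
      exact hd2 y (by rw [hy, hdinv'])
    obtain ⟨y, hy⟩ := (Finite.injective_iff_surjective.mp hinj) (a / t a)
    have hty : t y = y := hinj (by
      have h1 := congrArg t hy
      rw [hφ, map_div, map_div, htd, htd', htt] at h1
      rw [hy, hφ, ← inv_div (d⁻¹ (t y)) (d (t y)), h1, inv_div])
    rw [hφ] at hy
    have hx : a / d y ∈ C := by
      rw [hmem, map_div, htd, hty, div_eq_div_iff_mul_eq_mul]
      rw [div_eq_div_iff_mul_eq_mul] at hy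
      exact (mul_comm _ _).trans hy
    rw [show a = (a / d y) * d y from (div_mul_cancel a (d y)).symm]
    exact mul_mem (Subgroup.mem_sup_left hx) (Subgroup.mem_sup_right ⟨y, hty, rfl⟩)

end Cfsg.Agent.S1899
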