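import Cfsg.Statements.S1900
import Cfsg.Agent.Coprime.Generation
import Cfsg.Agent.Core.Cores
import Mathlib.GroupTheory.Nilpotent

set_option autoImplicit false
open Cfsg

namespace Cfsg.Agent.S1900

open Subgroup

variable {S : Type*} [Group S] [Finite S]

/-- One step: the part of `V` fixed by `y` is centralized by the part fixed by `x`. -/
theorem step {P : Subgroup S} {x y : S} {A B U V : Subgroup S} (hUV : U ≤ V)
    (hAx : ∀ a ∈ A, x * a * x⁻¹ = a) (hBx : ∀ b ∈ B, x * b * x⁻¹ ∈ B)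
    (hAB : ∀ g ∈ P, (g ∈ A → g ∈ B → g = 1)) (hAP : A ≤ P) (hBP : B ≤ P)
    (hBfix : ∀ b ∈ B, x * b * x⁻¹ = b → b ∈ A) (hVx : ∀ v ∈ V, x * v * x⁻¹ ∈ V)
    (hcomm : ∀ v ∈ V, ∀ g ∈ P, v * g * v⁻¹ * g⁻¹ ∈ U)
    (hUdec : ∀ u ∈ U, ∃ a ∈ A ⊓ U, ∃ b ∈ B ⊓ U, u = a * b)
    (hUA : ∀ a ∈ A ⊓ U, ∀ b ∈ B, Commute a b) (hUB : ∀ b ∈ B ⊓ U, ∀ a ∈ A, Commute a b) :
    ∀ b ∈ B ⊓ V, ∀ a ∈ A, a * b * a⁻¹ ∈ B := by
  -- `b ↦ x b x⁻¹ b⁻¹` is onto `B ⊓ V`
  have hsur : ∀ b1 ∈ B ⊓ V, ∃ b ∈ B ⊓ V, b1 = x * b * x⁻¹ * b⁻¹ := by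
    intro b1 hb1
    let f : ↥(B ⊓ V) → ↥(B ⊓ V) := fun b => ⟨x * b * x⁻¹ * (b : S)⁻¹,
      B.mul_mem (hBx b b.2.1) (B.inv_mem b.2.1), V.mul_mem (hVx b b.2.2) (V.inv_mem b.2.2)⟩
    have hinj : Function.Injective f := by
      intro b c e
      have e' : x * (b : S) * x⁻¹ * (b : S)⁻¹ = x * (c : S) * x⁻¹ * (c : S)⁻¹ := congrArg Subtype.val e
      have hfix : x * ((c : S)⁻¹ * b) * x⁻¹ = (c : S)⁻¹ * b := by
        have h2 : x * (b : S) * x⁻¹ = x * (c : S) * x⁻¹ * (c : S)⁻¹ * b := by rw [← e', inv_mul_cancel_right]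
        calc x * ((c : S)⁻¹ * b) * x⁻¹ = (x * (c : S) * x⁻¹)⁻¹ * (x * b * x⁻¹) := by group
          _ = (c : S)⁻¹ * b := by rw [h2]; group
      have hB' : (c : S)⁻¹ * b ∈ B := B.mul_mem (B.inv_mem c.2.1) b.2.1
      have := hAB _ (hBP hB') (hBfix _ hB' hfix) hB'
      exact Subtype.ext (inv_mul_eq_one.1 this).symm
    obtain ⟨b, hb⟩ := (Finite.injective_iff_surjective.1 hinj) ⟨b1, hb1⟩
    exact ⟨b, b.2, (congrArg Subtype.val hb).symm⟩
  -- the `A`-part of the commutator vanishes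
  have hform : ∀ b ∈ B ⊓ V, ∀ a ∈ A, ∃ b0 ∈ B ⊓ U, b * a * b⁻¹ = a * b0 := by
    intro b1 hb1 a ha
    obtain ⟨b, hb, rfl⟩ := hsur b1 hb1
    have hdec : ∀ c ∈ B ⊓ V, ∃ a0 ∈ A ⊓ U, ∃ b0 ∈ B ⊓ U, c * a * c⁻¹ = a0 * a * b0 := by
      intro c hc
      obtain ⟨a0, ha0, b0, hb0, e⟩ := hUdec _ (hcomm c hc.2 a (hAP ha))
      refine ⟨a0, ha0, b0, hb0, ?_⟩
      rw [mul_assoc a0, (hUB b0 hb0 a ha).eq, ← mul_assoc, ← e]
      group
    obtain ⟨a0, ha0, b0, hb0, e⟩ := hdec b hb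
    obtain ⟨a0', ha0', b0', hb0', e'⟩ := hdec _ hb1
    set b1' := x * b * x⁻¹ * b⁻¹ with hb1'
    have hconjB : b1' * b0 * b1'⁻¹ ∈ B := B.mul_mem (B.mul_mem hb1.1 hb0.1) (B.inv_mem hb1.1)
    have h1 : b1' * (a0 * a * b0) * b1'⁻¹ = a0 * a * (x * b0 * x⁻¹) := by
      rw [← e]
      calc b1' * (b * a * b⁻¹) * b1'⁻¹ = (x * b * x⁻¹) * a * (x * b * x⁻¹)⁻¹ := by rw [hb1']; group
        _ = (x * b * x⁻¹) * (x * a * x⁻¹) * (x * b * x⁻¹)⁻¹ := by rw [hAx a ha]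
        _ = x * (a0 * a * b0) * x⁻¹ := by rw [← e]; group
        _ = (x * a0 * x⁻¹) * (x * a * x⁻¹) * (x * b0 * x⁻¹) := by group
        _ = a0 * a * (x * b0 * x⁻¹) := by rw [hAx a0 ha0.1, hAx a ha]
    have h2 : b1' * (a0 * a * b0) * b1'⁻¹ = a0 * a0' * a * (b0' * (b1' * b0 * b1'⁻¹)) := by
      calc b1' * (a0 * a * b0) * b1'⁻¹ = (b1' * a0 * b1'⁻¹) * (b1' * a * b1'⁻¹) * (b1' * b0 * b1'⁻¹) := by group
        _ = a0 * (a0' * a * b0') * (b1' * b0 * b1'⁻¹) := by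
            rw [e', ← (hUA a0 ha0 b1' hb1.1).eq, mul_inv_cancel_right]
        _ = a0 * a0' * a * (b0' * (b1' * b0 * b1'⁻¹)) := by group
    have hA' : (a0 * a)⁻¹ * (a0 * a0' * a) ∈ A :=
      A.mul_mem (A.inv_mem (A.mul_mem ha0.1 ha)) (A.mul_mem (A.mul_mem ha0.1 ha0'.1) ha)
    have heq : (a0 * a)⁻¹ * (a0 * a0' * a) = x * b0 * x⁻¹ * (b0' * (b1' * b0 * b1'⁻¹))⁻¹ := by
      have h3 := h1.symm.trans h2
      calc (a0 * a)⁻¹ * (a0 * a0' * a)
          = (a0 * a)⁻¹ * ((a0 * a0' * a * (b0' * (b1' * b0 * b1'⁻¹))) * (b0' * (b1' * b0 * b1'⁻¹))⁻¹) := by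
            rw [mul_inv_cancel_right]
        _ = x * b0 * x⁻¹ * (b0' * (b1' * b0 * b1'⁻¹))⁻¹ := by rw [← h3]; group
    have hB' : (a0 * a)⁻¹ * (a0 * a0' * a) ∈ B := by
      rw [heq]
      exact B.mul_mem (hBx b0 hb0.1) (B.inv_mem (B.mul_mem hb0'.1 hconjB))
    have hone := hAB _ (hAP hA') hA' hB'
    have ha0'1 : a0' = 1 := by
      calc a0' = a * ((a0 * a)⁻¹ * (a0 * a0' * a)) * a⁻¹ := by group
        _ = 1 := by rw [hone]; group
    exact ⟨b0', hb0', by rw [e', ha0'1, one_mul]⟩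
  intro b hb a ha
  obtain ⟨b0, hb0, e⟩ := hform b hb a ha
  rw [show a * b * a⁻¹ = (a * (b * a⁻¹ * b⁻¹)) * b by group]
  refine B.mul_mem ?_ hb.1
  have : b * a⁻¹ * b⁻¹ = (a * b0)⁻¹ := by rw [← e]; group
  rw [this, (hUB b0 hb0 a ha).eq, mul_inv_rev, mul_inv_cancel_left]
  exact B.inv_mem hb0.1

/-- Normalizing implies centralizing. -/
theorem step' {P : Subgroup S} {y : S} {A B V : Subgroup S} (hV : ∀ a ∈ A, ∀ v ∈ V, a * v * a⁻¹ ∈ V)
    (hBy : ∀ b ∈ B, y * b * y⁻¹ = b) (hAy : ∀ a ∈ A, y * a * y⁻¹ ∈ A)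
    (hAB : ∀ g ∈ P, (g ∈ A → g ∈ B → g = 1)) (hAP : A ≤ P)
    (hAfix : ∀ a ∈ A, y * a * y⁻¹ = a → a ∈ B)
    (hnorm : ∀ b ∈ B ⊓ V, ∀ a ∈ A, a * b * a⁻¹ ∈ B) :
    ∀ b ∈ B ⊓ V, ∀ a ∈ A, Commute a b := by
  intro b hb a1 ha1
  let f : ↥A → ↥A := fun a => ⟨y * a * y⁻¹ * (a : S)⁻¹, A.mul_mem (hAy a a.2) (A.inv_mem a.2)⟩
  have hinj : Function.Injective f := by
    intro b c e
    have e' : y * (b : S) * y⁻¹ * (b : S)⁻¹ = y * (c : S) * y⁻¹ * (c : S)⁻¹ := congrArg Subtype.val e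
    have hfix : y * ((c : S)⁻¹ * b) * y⁻¹ = (c : S)⁻¹ * b := by
      have h2 : y * (b : S) * y⁻¹ = y * (c : S) * y⁻¹ * (c : S)⁻¹ * b := by rw [← e', inv_mul_cancel_right]
      calc y * ((c : S)⁻¹ * b) * y⁻¹ = (y * (c : S) * y⁻¹)⁻¹ * (y * b * y⁻¹) := by group
        _ = (c : S)⁻¹ * b := by rw [h2]; group
    have hA' : (c : S)⁻¹ * b ∈ A := A.mul_mem (A.inv_mem c.2) b.2
    have := hAB _ (hAP hA') hA' (hAfix _ hA' hfix)
    exact Subtype.ext (inv_mul_eq_one.1 this).symm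
  obtain ⟨⟨a, ha⟩, hfa⟩ := (Finite.injective_iff_surjective.1 hinj) ⟨a1, ha1⟩
  have ea : y * a * y⁻¹ * a⁻¹ = a1 := congrArg Subtype.val hfa
  subst ea
  have h : (y * a * y⁻¹) * b * (y * a * y⁻¹)⁻¹ = a * b * a⁻¹ := by
    calc (y * a * y⁻¹) * b * (y * a * y⁻¹)⁻¹ = (y * a * y⁻¹) * (y * b * y⁻¹) * (y * a * y⁻¹)⁻¹ := by rw [hBy b hb.1]
      _ = y * (a * b * a⁻¹) * y⁻¹ := by group
      _ = a * b * a⁻¹ := hBy _ (hnorm b hb a ha)
  -- `a1` fixes every `a b a⁻¹`; shift to `b`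
  have hb' : a⁻¹ * b * a ∈ B ⊓ V := by
    have h1 := hnorm b hb a⁻¹ (A.inv_mem ha)
    have h2 := hV a⁻¹ (A.inv_mem ha) b hb.2
    rw [inv_inv] at h1 h2
    exact ⟨h1, h2⟩
  have h' : (y * a * y⁻¹) * (a⁻¹ * b * a) * (y * a * y⁻¹)⁻¹ = b := by
    calc (y * a * y⁻¹) * (a⁻¹ * b * a) * (y * a * y⁻¹)⁻¹
        = (y * a * y⁻¹) * (y * (a⁻¹ * b * a) * y⁻¹) * (y * a * y⁻¹)⁻¹ := by rw [hBy _ hb'.1]
      _ = y * b * y⁻¹ := by group
      _ = b := hBy b hb.1
  show _ * b = b * _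
  calc y * a * y⁻¹ * a⁻¹ * b = ((y * a * y⁻¹) * (a⁻¹ * b * a) * (y * a * y⁻¹)⁻¹) * (y * a * y⁻¹ * a⁻¹) := by group
    _ = b * (y * a * y⁻¹ * a⁻¹) := by rw [h']


/-- Let S = PQ be a finite group with P a normal Sylow p-subgroup and Q elementary abelian of order q², q a prime different from p. If exactly two subgroups X₁, X₂ of order q in Q have a nontrivial centralizer in P, then P is the internal direct product of C_P(X₁) and C_P(X₂): they commute elementwise, meet trivially and generate P. -/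
theorem result {S : Type*} [Group S] [Finite S] {p q : ℕ} [Fact p.Prime] [Fact q.Prime] (hpq : p ≠ q)
    (P : Sylow p S) [(P : Subgroup S).Normal] (Q : Subgroup S) (hQ : Cfsg.IsElementaryAbelian q Q) (hQc : Nat.card Q = q ^ 2)
    (hS : (P : Subgroup S) ⊔ Q = ⊤)
    (X₁ X₂ : Subgroup S) (h₁ : X₁ ≤ Q) (h₂ : X₂ ≤ Q) (h₁₂ : X₁ ≠ X₂) (hc₁ : Nat.card X₁ = q) (hc₂ : Nat.card X₂ = q)
    (hf₁ : (P : Subgroup S) ⊓ Subgroup.centralizer (X₁ : Set S) ≠ ⊥)
    (hf₂ : (P : Subgroup S) ⊓ Subgroup.centralizer (X₂ : Set S) ≠ ⊥)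
    (honly : ∀ X : Subgroup S, X ≤ Q → Nat.card X = q →
      (P : Subgroup S) ⊓ Subgroup.centralizer (X : Set S) ≠ ⊥ → X = X₁ ∨ X = X₂) :
    ⁅(P : Subgroup S) ⊓ Subgroup.centralizer (X₁ : Set S), (P : Subgroup S) ⊓ Subgroup.centralizer (X₂ : Set S)⁆ = ⊥ ∧
      ((P : Subgroup S) ⊓ Subgroup.centralizer (X₁ : Set S)) ⊓ ((P : Subgroup S) ⊓ Subgroup.centralizer (X₂ : Set S)) = ⊥ ∧
      ((P : Subgroup S) ⊓ Subgroup.centralizer (X₁ : Set S)) ⊔ ((P : Subgroup S) ⊓ Subgroup.centralizer (X₂ : Set S)) = P := by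
  classical
  have hq := (Fact.out : q.Prime)
  have hp := (Fact.out : p.Prime)
  haveI := hQ.1
  set P' : Subgroup S := (P : Subgroup S) with hP'
  set A := P' ⊓ Subgroup.centralizer (X₁ : Set S) with hA
  set B := P' ⊓ Subgroup.centralizer (X₂ : Set S) with hB
  have hcop : (Nat.card Q).Coprime (Nat.card P') := by
    obtain ⟨i, hi⟩ := IsPGroup.iff_card.1 P.isPGroup'
    rw [hQc, hP', hi]
    exact Nat.Coprime.pow _ _ ((Nat.coprime_primes hq hp).2 hpq.symm)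
  have hQnc : ¬ IsCyclic Q := by
    intro hc
    obtain ⟨g, hg⟩ := IsCyclic.exists_ofOrder_eq_natCard (α := Q)
    have h1 : (g : Q) ^ q = 1 := Subtype.ext (by rw [SubmonoidClass.coe_pow]; exact hQ.2 g g.2)
    have := Nat.le_of_dvd hq.pos (hg ▸ orderOf_dvd_of_pow_eq_one h1)
    rw [hQc] at this
    nlinarith [hq.two_le]
  -- the fixed elements
  have hgen1 : ∀ X : Subgroup S, Nat.card X = q → ∀ e ∈ X, e ≠ 1 → zpowers e = X := by
    intro X hX e he he1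
    refine Subgroup.eq_of_le_of_card_ge (zpowers_le.2 he) ?_
    rw [Nat.card_zpowers, hX]
    rcases (Nat.dvd_prime hq).1 (hX ▸ (Subgroup.orderOf_mk e he ▸ _root_.orderOf_dvd_natCard (⟨e, he⟩ : X))) with h | h
    · exact absurd (orderOf_eq_one_iff.1 h) he1
    · exact h.ge
  obtain ⟨x, hx, hx1⟩ := (Subgroup.bot_or_exists_ne_one X₁).resolve_left fun e => hq.ne_one (by rw [← hc₁, e, card_bot])
  obtain ⟨y, hy, hy1⟩ := (Subgroup.bot_or_exists_ne_one X₂).resolve_left fun e => hq.ne_one (by rw [← hc₂, e, card_bot])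
  have hcent : ∀ X : Subgroup S, Nat.card X = q → ∀ e ∈ X, e ≠ 1 →
      centralizer (X : Set S) = centralizer ({e} : Set S) := by
    intro X hX e he he1
    rw [← hgen1 X hX e he he1, zpowers_eq_closure, centralizer_closure]
  have hAx' := hcent X₁ hc₁ x hx hx1
  have hBy' := hcent X₂ hc₂ y hy hy1
  have hAx : ∀ a ∈ A, x * a * x⁻¹ = a := fun a ha => by
    have := ha.2; rw [hAx'] at this
    rw [← mem_centralizer_singleton_iff.1 this, mul_inv_cancel_right]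
  have hBy : ∀ b ∈ B, y * b * y⁻¹ = b := fun b hb => by
    have := hb.2; rw [hBy'] at this
    rw [← mem_centralizer_singleton_iff.1 this, mul_inv_cancel_right]
  have hQcomm : ∀ u ∈ Q, ∀ v ∈ Q, u * v = v * u := fun u hu v hv =>
    congrArg Subtype.val (mul_comm' (⟨u, hu⟩ : Q) ⟨v, hv⟩)
  -- `Q` normalizes `A` and `B`
  have hQn : ∀ X : Subgroup S, X ≤ Q → ∀ u ∈ Q, ∀ a ∈ P' ⊓ centralizer (X : Set S),
      u * a * u⁻¹ ∈ P' ⊓ centralizer (X : Set S) := by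
    intro X hX u hu a ha
    refine ⟨(‹(P : Subgroup S).Normal›).conj_mem a ha.1 u, mem_centralizer_iff.2 fun w hw => ?_⟩
    have h2 := mem_centralizer_iff.1 ha.2 w hw
    calc w * (u * a * u⁻¹) = (w * u) * a * u⁻¹ := by group
      _ = u * (w * a) * u⁻¹ := by rw [← hQcomm u hu w (hX hw)]; group
      _ = (u * a) * (w * u⁻¹) := by rw [h2]; group
      _ = u * a * u⁻¹ * w := by rw [hQcomm w (hX hw) u⁻¹ (Q.inv_mem hu)]; group
  have hinf : A ⊓ B = ⊥ := by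
    by_contra hne
    have hall : A ⊓ B ≤ P' ⊓ centralizer (Q : Set S) := by
      refine le_inf (inf_le_left.trans inf_le_left) fun g hg => ?_
      have hQeq : X₁ ⊔ X₂ = Q := by
        refine Subgroup.eq_of_le_of_card_ge (sup_le h₁ h₂) ?_
        have hlt : X₁ < X₁ ⊔ X₂ := left_lt_sup.2 fun h => h₁₂ (Subgroup.eq_of_le_of_card_ge h (by rw [hc₁, hc₂])).symm
        have hd : Nat.card (X₁ ⊔ X₂ : Subgroup S) ∣ q ^ 2 := hQc ▸ card_dvd_of_le (sup_le h₁ h₂)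
        obtain ⟨i, hi, he⟩ := (Nat.dvd_prime_pow hq).1 hd
        rw [hQc, he]
        refine Nat.pow_le_pow_right hq.pos ?_
        by_contra hcon
        push Not at hcon
        have h3 := Subgroup.card_dvd_of_le hlt.le
        refine hlt.ne (Subgroup.eq_of_le_of_card_ge hlt.le ?_)
        rw [he, hc₁]
        calc q ^ i ≤ q ^ 1 := Nat.pow_le_pow_right hq.pos (by omega)
          _ = q := pow_one q
      rw [← hQeq]
      refine mem_centralizer_iff.2 fun w hw => ?_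
      have hle : X₁ ⊔ X₂ ≤ centralizer ({g} : Set S) := sup_le
        (fun w hw => mem_centralizer_singleton_iff.2 (mem_centralizer_iff.1 hg.1.2 w hw))
        (fun w hw => mem_centralizer_singleton_iff.2 (mem_centralizer_iff.1 hg.2.2 w hw))
      exact mem_centralizer_singleton_iff.1 (hle hw)
    -- every subgroup of order `q` would have a fixed point
    have hcov : (Q : Set S) ⊆ (X₁ : Set S) ∪ (X₂ : Set S) := by
      intro e he
      by_cases he1 : e = 1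
      · subst he1; exact Or.inl X₁.one_mem
      have hord : orderOf e = q := orderOf_eq_prime (hQ.2 e he) he1
      have hX := honly (zpowers e) (zpowers_le.2 he) (by rw [Nat.card_zpowers, hord]) (fun h => hne
        (le_bot_iff.1 (hall.trans (le_trans (inf_le_inf_left _ (centralizer_le (zpowers_le.2 he))) h.le))))
      rcases hX with h | h
      · exact Or.inl (h ▸ mem_zpowers e)
      · exact Or.inr (h ▸ mem_zpowers e)
    have hn := (Set.ncard_le_ncard hcov (Set.toFinite _)).trans (Set.ncard_union_le _ _)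
    rw [← Nat.card_coe_set_eq, ← Nat.card_coe_set_eq, ← Nat.card_coe_set_eq] at hn
    change Nat.card Q ≤ Nat.card X₁ + Nat.card X₂ at hn
    rw [hQc, hc₁, hc₂] at hn
    have hq2 : q = 2 := by nlinarith [hq.two_le]
    -- for `q = 2` use the product of the two generators
    have hxy : x * y ∈ Q := Q.mul_mem (h₁ hx) (h₂ hy)
    rcases hcov hxy with h | h
    · have : y ∈ X₁ := by simpa using X₁.mul_mem (X₁.inv_mem hx) h
      exact h₁₂ (((hgen1 X₂ hc₂ y hy hy1).symm).trans (hgen1 X₁ hc₁ y this hy1)).symm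
    · have : x ∈ X₂ := by simpa using X₂.mul_mem h (X₂.inv_mem hy)
      exact h₁₂ ((hgen1 X₁ hc₁ x hx hx1).symm.trans (hgen1 X₂ hc₂ x this hx1))
  have hAB : ∀ g ∈ P', g ∈ A → g ∈ B → g = 1 := fun g _ h h' => by
    have : g ∈ A ⊓ B := ⟨h, h'⟩
    rwa [hinf, mem_bot] at this
  -- decomposition of `Q`-invariant subgroups of `P`
  have hdecomp : ∀ U : Subgroup S, U ≤ P' → U.Normal → U = (A ⊓ U) ⊔ (B ⊓ U) := by
    intro U hUP hUn
    refine le_antisymm ?_ (sup_le inf_le_right inf_le_right)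
    have hj := Agent.Coprime.eq_centralizerJoin (N := U) (A := Q) hQnc
      (by rw [normalizer_eq_top_iff.2 hUn]; exact le_top) (hcop.coprime_dvd_right (card_dvd_of_le hUP))
    refine hj.ge.trans (iSup_le fun e => ?_)
    intro g hg
    by_cases hg1 : g = 1
    · subst hg1; exact one_mem _
    have hord : orderOf (e : S) = q := orderOf_eq_prime (hQ.2 e e.2.1) e.2.2
    have hXc := hcent (zpowers (e : S)) (by rw [Nat.card_zpowers, hord]) e (mem_zpowers _) e.2.2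
    have hX := honly (zpowers (e : S)) (zpowers_le.2 e.2.1) (by rw [Nat.card_zpowers, hord]) fun h => hg1 (by
      have : g ∈ P' ⊓ centralizer (zpowers (e : S) : Set S) := ⟨hUP hg.1, by rw [hXc]; exact hg.2⟩
      rwa [h, mem_bot] at this)
    rcases hX with h | h
    · exact mem_sup_left ⟨⟨hUP hg.1, by rw [← h, hXc]; exact hg.2⟩, hg.1⟩
    · exact mem_sup_right ⟨⟨hUP hg.1, by rw [← h, hXc]; exact hg.2⟩, hg.1⟩
  -- induction along the upper central series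
  haveI := P.isPGroup'.isNilpotent
  have hkey : ∀ i : ℕ, (∀ a ∈ A ⊓ (Subgroup.upperCentralSeries P' i).map P'.subtype, ∀ b ∈ B, Commute a b) ∧
      (∀ b ∈ B ⊓ (Subgroup.upperCentralSeries P' i).map P'.subtype, ∀ a ∈ A, Commute a b) := by
    intro i
    induction i with
    | zero =>
      constructor <;> intro g hg h' hh'
      · have h0 : g = 1 := by
          have h2 := (Subgroup.mem_inf.1 hg).2
          rw [Subgroup.upperCentralSeries_zero, Subgroup.map_bot, mem_bot] at h2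
          exact h2
        subst h0; exact Commute.one_left _
      · have h0 : g = 1 := by
          have h2 := (Subgroup.mem_inf.1 hg).2
          rw [Subgroup.upperCentralSeries_zero, Subgroup.map_bot, mem_bot] at h2
          exact h2
        subst h0; exact Commute.one_right _
    | succ i ih =>
      set U := (Subgroup.upperCentralSeries P' i).map P'.subtype with hU
      set V := (Subgroup.upperCentralSeries P' (i + 1)).map P'.subtype with hV
      have hUP : U ≤ P' := map_subtype_le _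
      haveI : U.Normal := Agent.Core.normal_map_subtype_of_characteristic (H := P') _
      haveI hVn : V.Normal := Agent.Core.normal_map_subtype_of_characteristic (H := P') _
      have hUV : U ≤ V := map_mono (Subgroup.upperCentralSeries_mono _ (Nat.le_succ i))
      have hcomm : ∀ v ∈ V, ∀ g ∈ P', v * g * v⁻¹ * g⁻¹ ∈ U := by
        rintro _ ⟨v, hv, rfl⟩ g hg
        exact ⟨_, Subgroup.mem_upperCentralSeries_succ_iff.1 hv ⟨g, hg⟩, by simp [commutatorElement_def]⟩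
      have hdec : ∀ u ∈ U, ∃ a ∈ A ⊓ U, ∃ b ∈ B ⊓ U, u = a * b := by
        intro u hu
        rw [hdecomp U hUP inferInstance] at hu
        have hn : B ⊓ U ≤ normalizer ((A ⊓ U : Subgroup S) : Set S) := by
          intro b hb
          refine centralizer_le_normalizer _ (mem_centralizer_iff.2 fun a ha => ?_)
          exact (ih.1 a ha b hb.1).eq
        rw [← SetLike.mem_coe, coe_mul_of_right_le_normalizer_left _ _ hn] at hu
        obtain ⟨a, ha, b, hb, rfl⟩ := hu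
        exact ⟨a, ha, b, hb, rfl⟩
      have hdec' : ∀ u ∈ U, ∃ b ∈ B ⊓ U, ∃ a ∈ A ⊓ U, u = b * a := by
        intro u hu
        obtain ⟨a, ha, b, hb, rfl⟩ := hdec u hu
        exact ⟨b, hb, a, ha, (ih.1 a ha b hb.1).eq⟩
      have hAy : ∀ a ∈ A, y * a * y⁻¹ ∈ A := hQn X₁ h₁ y (h₂ hy)
      have hBx : ∀ b ∈ B, x * b * x⁻¹ ∈ B := hQn X₂ h₂ x (h₁ hx)
      have hAfix : ∀ a ∈ A, y * a * y⁻¹ = a → a ∈ B := fun a ha e => ⟨ha.1, by
        rw [hBy']; exact mem_centralizer_singleton_iff.2 (mul_inv_eq_iff_eq_mul.1 e).symm⟩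
      have hBfix : ∀ b ∈ B, x * b * x⁻¹ = b → b ∈ A := fun b hb e => ⟨hb.1, by
        rw [hAx']; exact mem_centralizer_singleton_iff.2 (mul_inv_eq_iff_eq_mul.1 e).symm⟩
      have hAB' : ∀ g ∈ P', g ∈ B → g ∈ A → g = 1 := fun g hg h h' => hAB g hg h' h
      have n1 : ∀ b ∈ B ⊓ V, ∀ a ∈ A, a * b * a⁻¹ ∈ B :=
        step (y := y) hUV hAx hBx hAB inf_le_left inf_le_left hBfix (fun v hv => hVn.conj_mem v hv x)
          hcomm hdec ih.1 ih.2
      have n2 : ∀ a ∈ A ⊓ V, ∀ b ∈ B, b * a * b⁻¹ ∈ A :=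
        step (y := x) hUV hBy hAy hAB' inf_le_left inf_le_left hAfix (fun v hv => hVn.conj_mem v hv y)
          hcomm hdec' (fun b hb a ha => (ih.2 b hb a ha).symm) (fun a ha b hb => (ih.1 a ha b hb).symm)
      constructor
      · intro a ha b hb
        exact (step' (fun b _ v hv => hVn.conj_mem v hv b) hAx hBx hAB' inf_le_left hBfix n2 a ha b hb).symm
      · exact step' (fun a _ v hv => hVn.conj_mem v hv a) hBy hAy hAB inf_le_left hAfix n1
  refine ⟨?_, hinf, ?_⟩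
  · rw [commutator_eq_bot_iff_le_centralizer]
    intro a ha
    refine mem_centralizer_iff.2 fun b hb => ?_
    refine ((hkey (Group.nilpotencyClass P')).1 a ⟨ha, ?_⟩ b hb).symm.eq
    rw [Subgroup.upperCentralSeries_nilpotencyClass, ← MonoidHom.range_eq_map, range_subtype]
    exact ha.1
  · exact le_antisymm (sup_le inf_le_left inf_le_left)
      ((hdecomp P' le_rfl inferInstance).le.trans (sup_le_sup inf_le_left inf_le_left))

end Cfsg.Agent.S1900
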