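import Cfsg.Statements.S1904
import Cfsg.Agent.TwoGroups.ScnThree.Final
-- import your own Cfsg.Agent.* helpers here

set_option autoImplicit false
open Cfsg

namespace Cfsg.Agent.S1904

/-- Let X be a finite nonabelian 2-group with no normal abelian subgroup that is self-centralizing and contains an elementary abelian subgroup of order 8. Suppose a group A of automorphisms of X of odd order satisfies [X, A] = X. Then X is the quaternion group of order 8, or X is special of order 64 with exactly three involutions, all central, or X is extraspecial of order 32 with exactly eleven involutions (the central product of a quaternion group and a dihedral group of order 8). -/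
theorem result {X : Type*} [Group X] [Finite X] (hX : IsPGroup 2 X) (hna : ¬ IsMulCommutative X)
    (hscn : ¬ ∃ A : Subgroup X, A.Normal ∧ Subgroup.centralizer (A : Set X) = A ∧
      ∃ E : Subgroup X, E ≤ A ∧ Cfsg.IsElementaryAbelian 2 E ∧ Nat.card E = 8)
    (A : Subgroup (MulAut X)) (hA : Odd (Nat.card A))
    (hXA : Subgroup.closure {g : X | ∃ φ ∈ A, ∃ x : X, g = x⁻¹ * φ x} = ⊤) :
    Nonempty (X ≃* QuaternionGroup 2) ∨
      (Cfsg.IsSpecial 2 X ∧ Nat.card X = 64 ∧ Nat.card {x : X // orderOf x = 2} = 3 ∧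
        ∀ x : X, orderOf x = 2 → x ∈ Subgroup.center X) ∨
      (Cfsg.IsExtraspecial 2 X ∧ Nat.card X = 32 ∧ Nat.card {x : X // orderOf x = 2} = 11) := by
  have hn : ∀ E : Subgroup X, E.Normal → (∀ a ∈ E, ∀ b ∈ E, a * b = b * a) → (∀ a ∈ E, a ^ 2 = 1) →
      Nat.card E ≤ 4 := by
    intro E hE hc he
    by_contra h4
    haveI : Fact (Nat.Prime 2) := ⟨Nat.prime_two⟩
    haveI := hE
    obtain ⟨C, hCn, hEC, -, -, hC⟩ := S1894.result hX ⊤ E le_top ⟨⟨fun a b => Subtype.ext (hc a.1 a.2 b.1 b.2)⟩⟩
    obtain ⟨n, hn⟩ := IsPGroup.iff_card.1 (hX.to_subgroup E)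
    have h3 : 3 ≤ n := by
      by_contra h
      have := Nat.pow_le_pow_right two_pos (show n ≤ 2 by omega)
      omega
    obtain ⟨D, hD⟩ := Sylow.exists_subgroup_card_pow_prime 2 (G := E) (n := 3) (hn ▸ Nat.pow_dvd_pow 2 h3)
    refine hscn ⟨C, hCn, ?_, D.map E.subtype, (Subgroup.map_subtype_le D).trans hEC, ⟨⟨⟨?_⟩⟩, ?_⟩, ?_⟩
    · rwa [top_inf_eq] at hC
    · exact fun a b => Subtype.ext (hc _ (Subgroup.map_subtype_le D a.2) _ (Subgroup.map_subtype_le D b.2))
    · exact fun a ha => he a (Subgroup.map_subtype_le D ha)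
    · rw [Subgroup.card_map_of_injective E.subtype_injective, hD]; norm_num
  exact TwoGroups.ScnThree.classify ⟨hX, hn, hA, hXA⟩
    (fun h => hna ⟨⟨h⟩⟩)

end Cfsg.Agent.S1904
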