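import Mathlib
import Cfsg.Agent.Forms.CommInvol
import Cfsg.Prelude.Def_Transfer
import Cfsg.Agent.OddLocal.NilBasics

/-! A Sylow 2-subgroup embedded in GL(3, q), q odd, containing an elementary abelian group of
order 8 is abelian unless there is a subgroup of index two: transfer evaluated at a central
involution of determinant minus one. -/

set_option autoImplicit false
set_option maxHeartbeats 1000000

namespace Cfsg.Agent.S1906

open MulAction

/-- Transfer of a character at a central involution of the Sylow subgroup fixed by the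
normalizer. -/
theorem transfer_eq_neg_one {G : Type*} [Group G] [Finite G] (X : Sylow 2 G) {F : Type*} [Field F]
    (φ : ↥(X : Subgroup G) →* Fˣ) (z : G) (hz : z ∈ (X : Subgroup G)) (hz2 : z * z = 1)
    (hcen : ∀ x ∈ (X : Subgroup G), x * z = z * x)
    (hN : ∀ n ∈ Subgroup.normalizer ((X : Subgroup G) : Set G), n * z = z * n)
    (hφ : φ ⟨z, hz⟩ = -1) : MonoidHom.transfer φ z = -1 := by
  classical
  have : Fintype (G ⧸ (X : Subgroup G)) := Fintype.ofFinite _
  let T : (X : Subgroup G).LeftTransversal :=
    ⟨Set.range (Quotient.out : G ⧸ (X : Subgroup G) → G),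
      Subgroup.isComplement_range_left Quotient.out_eq'⟩
  have hT : ∀ q, (T.2.leftQuotientEquiv q : G) = q.out := fun q =>
    Subgroup.IsComplement.leftQuotientEquiv_apply Quotient.out_eq' q
  have hzinv : z⁻¹ = z := inv_eq_of_mul_eq_one_right hz2
  have hmem : ∀ q : G ⧸ (X : Subgroup G), q.out⁻¹ * (z * (z • q).out) ∈ (X : Subgroup G) := by
    intro q
    rw [← QuotientGroup.eq, QuotientGroup.out_eq', ← smul_eq_mul, MulAction.Quotient.coe_smul_out,
      ← mul_smul, hz2, one_smul]
  let f : G ⧸ (X : Subgroup G) → Fˣ := fun q => φ ⟨_, hmem q⟩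
  have htr : MonoidHom.transfer φ z = ∏ q, f q := by
    rw [MonoidHom.transfer_def (T := T)]
    simp only [Subgroup.leftTransversals.diff]
    refine Finset.prod_congr (Finset.ext fun q => by simp) fun q _ => ?_
    refine congrArg φ (Subtype.ext ?_)
    show (T.2.leftQuotientEquiv q : G)⁻¹ * ((z • T).2.leftQuotientEquiv q : G) = _
    rw [Subgroup.smul_apply_eq_smul_apply_inv_smul, hT, hT, hzinv, smul_eq_mul]
  have hpair : ∀ q, f q * f (z • q) = 1 := by
    intro q
    show φ ⟨_, hmem q⟩ * φ ⟨_, hmem (z • q)⟩ = 1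
    rw [← map_mul, ← φ.map_one]
    refine congrArg φ (Subtype.ext ?_)
    show q.out⁻¹ * (z * (z • q).out) * ((z • q).out⁻¹ * (z * (z • (z • q)).out)) = 1
    rw [← mul_smul z z q, hz2, one_smul]
    calc _ = q.out⁻¹ * (z * z) * q.out := by group
      _ = 1 := by rw [hz2]; group
  have hsq : ∀ q, z • q = q → f q = 1 ∨ f q = -1 := by
    intro q hq
    have h1 := hpair q
    rw [hq] at h1
    have h2 : ((f q : F) - 1) * ((f q : F) + 1) = 0 := by
      have := congrArg (Units.val) h1
      push_cast at this
      linear_combination this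
    rcases mul_eq_zero.1 h2 with h | h
    · exact Or.inl (Units.ext (by push_cast; linear_combination h))
    · exact Or.inr (Units.ext (by push_cast; linear_combination h))
  let S : Finset (G ⧸ (X : Subgroup G)) :=
    Finset.univ.filter fun q => z • q = q ∧ f q = -1
  have hcompl : ∏ q ∈ Sᶜ, f q = 1 := by
    refine Finset.prod_involution (fun q _ => z • q) (fun q _ => hpair q) ?_ ?_ ?_
    · intro q hq hne hfix
      rcases hsq q hfix with h | h
      · exact hne h
      · exact (Finset.mem_compl.1 hq) (Finset.mem_filter.2 ⟨Finset.mem_univ _, hfix, h⟩)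
    · intro q hq
      refine Finset.mem_compl.2 fun h => ?_
      obtain ⟨-, h1, h2⟩ := Finset.mem_filter.1 h
      rw [← mul_smul, hz2, one_smul] at h1
      exact (Finset.mem_compl.1 hq)
        (Finset.mem_filter.2 ⟨Finset.mem_univ _, h1.symm, by rwa [← h1] at h2⟩)
    · intro q _
      show z • z • q = q
      rw [← mul_smul, hz2, one_smul]
  have hinv : ∀ (x : ↥(X : Subgroup G)) (q : G ⧸ (X : Subgroup G)), q ∈ S → x • q ∈ S := by
    intro x q hq
    obtain ⟨-, h1, h2⟩ := Finset.mem_filter.1 hq
    have hfix : z • (x • q) = x • q := by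
      show z • ((x : G) • q) = (x : G) • q
      rw [← mul_smul, ← hcen _ x.2, mul_smul, h1]
    refine Finset.mem_filter.2 ⟨Finset.mem_univ _, hfix, ?_⟩
    -- the representative of x • q differs from x * q.out by an element of X
    obtain ⟨y, hy⟩ : ∃ y : ↥(X : Subgroup G), (x • q).out = (x : G) * q.out * (y : G) := by
      refine ⟨⟨((x : G) * q.out)⁻¹ * (x • q).out, ?_⟩,
        (mul_inv_cancel_left ((x : G) * q.out) (x • q).out).symm⟩
      rw [← QuotientGroup.eq, QuotientGroup.out_eq', ← smul_eq_mul,
        MulAction.Quotient.coe_smul_out]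
      rfl
    have e : (⟨_, hmem (x • q)⟩ : ↥(X : Subgroup G)) = y⁻¹ * ⟨_, hmem q⟩ * y := by
      refine Subtype.ext ?_
      show (x • q).out⁻¹ * (z * (z • (x • q)).out) = (y : G)⁻¹ * (q.out⁻¹ * (z * (z • q).out)) * y
      rw [hfix, h1, hy]
      calc ((x : G) * q.out * y)⁻¹ * (z * ((x : G) * q.out * y))
          = (y : G)⁻¹ * q.out⁻¹ * ((x : G)⁻¹ * (z * (x : G))) * (q.out * y) := by group
        _ = (y : G)⁻¹ * q.out⁻¹ * z * (q.out * y) := by rw [← hcen _ x.2]; group
        _ = _ := by group
    show φ _ = -1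
    rw [e, map_mul, map_mul, map_inv, mul_comm (φ y)⁻¹, inv_mul_cancel_right]
    exact h2
  have hX : IsPGroup 2 ↥(X : Subgroup G) := X.isPGroup'
  have : Fact (Nat.Prime 2) := ⟨Nat.prime_two⟩
  have hfixS : ∀ q, q ∈ fixedPoints ↥(X : Subgroup G) (G ⧸ (X : Subgroup G)) → q ∈ S := by
    intro q hq
    have hn : q.out ∈ Subgroup.normalizer ((X : Subgroup G) : Set G) :=
      Sylow.mem_fixedPoints_mul_left_cosets_iff_mem_normalizer.1 (by rwa [QuotientGroup.out_eq'])
    have h1 : z • q = q := hq ⟨z, hz⟩
    refine Finset.mem_filter.2 ⟨Finset.mem_univ _, h1, ?_⟩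
    rw [← hφ]
    refine congrArg φ (Subtype.ext ?_)
    show q.out⁻¹ * (z * (z • q).out) = z
    rw [h1, ← hN _ hn]; group
  let instS : MulAction ↥(X : Subgroup G) ↥(S : Set (G ⧸ (X : Subgroup G))) :=
    { smul := fun x q => ⟨x • (q : G ⧸ (X : Subgroup G)), hinv x q q.2⟩
      one_smul := fun q => Subtype.ext (one_smul _ _)
      mul_smul := fun a b q => Subtype.ext (mul_smul _ _ _) }
  have m1 := hX.card_modEq_card_fixedPoints (G ⧸ (X : Subgroup G))
  have m2 := hX.card_modEq_card_fixedPoints ↥(S : Set (G ⧸ (X : Subgroup G)))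
  have m3 : Nat.card (fixedPoints ↥(X : Subgroup G) ↥(S : Set (G ⧸ (X : Subgroup G)))) =
      Nat.card (fixedPoints ↥(X : Subgroup G) (G ⧸ (X : Subgroup G))) :=
    Nat.card_congr
      { toFun := fun q => ⟨q.1.1, fun x => congrArg Subtype.val (q.2 x)⟩
        invFun := fun q => ⟨⟨q.1, hfixS _ q.2⟩, fun x => Subtype.ext (q.2 x)⟩
        left_inv := fun q => rfl
        right_inv := fun q => rfl }
  have hodd : ¬ 2 ∣ (X : Subgroup G).index := X.not_dvd_index
  rw [Subgroup.index_eq_card] at hodd
  have hSodd : S.card % 2 = 1 := by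
    have h4 : Nat.card ↥(S : Set (G ⧸ (X : Subgroup G))) = S.card := by simp
    rw [h4, m3] at m2
    have := m2.trans m1.symm
    simp only [Nat.ModEq] at this
    omega
  have hS : ∏ q ∈ S, f q = -1 := by
    rw [Finset.prod_congr rfl (fun q hq => (Finset.mem_filter.1 hq).2.2), Finset.prod_const]
    exact Odd.neg_one_pow (Nat.odd_iff.2 hSodd)
  rw [htr, ← Finset.prod_mul_prod_compl S f, hS, hcompl, mul_one]

theorem result {G : Type*} [Group G] [Finite G] (hG : ∀ H : Subgroup G, H.index ≠ 2) (X : Sylow 2 G)
    {F : Type*} [Field F] [Fintype F] (hF : Odd (Fintype.card F))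
    (f : ↥(X : Subgroup G) →* GL (Fin 3) F) (hf : Function.Injective f)
    (E : Subgroup G) (hE : E ≤ (X : Subgroup G)) (hEa : Cfsg.IsElementaryAbelian 2 E) (hE8 : Nat.card E = 8) :
    IsMulCommutative (X : Subgroup G) := by
  classical
  have : Fact (Nat.Prime 2) := ⟨Nat.prime_two⟩
  have h2 : (2 : F) ≠ 0 := by
    apply Ring.two_ne_zero
    intro h
    have := (FiniteField.even_card_iff_char_two).1 h
    rw [Nat.odd_iff] at hF
    omega
  let ρ : ↥(X : Subgroup G) →* Matrix (Fin 3) (Fin 3) F := (Units.coeHom _).comp f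
  have hρ : Function.Injective ρ := fun a b h => hf (Units.ext h)
  let L : ↥(X : Subgroup G) → (Fin 3 → F) →ₗ[F] (Fin 3 → F) := fun x => Matrix.toLin' (ρ x)
  have hL : ∀ x y v, L x (L y v) = L (x * y) v := fun x y v => by
    simp [L, Matrix.toLin'_mul]
  have hL1 : ∀ v, L 1 v = v := fun v => by simp [L]
  have hLinj : Function.Injective L := fun a b h => hρ (Matrix.toLin'.injective h)
  let ι : ↥E → ↥(X : Subgroup G) := fun e => ⟨e, hE e.2⟩
  have hsq : ∀ a v, L (ι a) (L (ι a) v) = v := fun a v => by
    rw [hL, show ι a * ι a = 1 from Subtype.ext (by simpa [ι, pow_two] using hEa.2 _ a.2), hL1]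
  have hcomm : ∀ a b v, L (ι a) (L (ι b) v) = L (ι b) (L (ι a) v) := fun a b v => by
    rw [hL, hL]
    have := hEa.1
    rw [show ι a * ι b = ι b * ι a from
      Subtype.ext (show (a : G) * b = b * a from congrArg Subtype.val (this.is_comm.comm a b))]
  obtain ⟨b', hb'⟩ := Cfsg.Agent.Forms.exists_basis_joint_sign h2 (fun a => L (ι a)) hsq hcomm
  let b := b'.reindex (finCongr (by simp : Module.finrank F (Fin 3 → F) = 3))
  have hb : ∀ a i, L (ι a) (b i) = b i ∨ L (ι a) (b i) = -b i := fun a i => by
    simpa [b] using hb' a ((finCongr (by simp : Module.finrank F (Fin 3 → F) = 3)).symm i)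
  have hne : ∀ i, b i ≠ -b i := fun i h => by
    have : (2 : F) • b i = 0 := by rw [two_smul]; nth_rewrite 2 [h]; abel
    exact b.ne_zero i ((smul_eq_zero.1 this).resolve_left h2)
  -- sign patterns
  let sg : ↥E → Fin 3 → Bool := fun a i => decide (L (ι a) (b i) = b i)
  have hsg1 : ∀ a i, sg a i = true → L (ι a) (b i) = b i := fun a i h => by simpa [sg] using h
  have hsg0 : ∀ a i, sg a i = false → L (ι a) (b i) = -b i := fun a i h =>
    (hb a i).resolve_left (by simpa [sg] using h)
  have hsginj : Function.Injective sg := by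
    intro a c h
    have : L (ι a) = L (ι c) := b.ext fun i => by
      cases hi : sg a i
      · rw [hsg0 a i hi, hsg0 c i (by rw [← h]; exact hi)]
      · rw [hsg1 a i hi, hsg1 c i (by rw [← h]; exact hi)]
    exact Subtype.ext (congrArg Subtype.val (hLinj this) : _)
  have hsgsurj : Function.Surjective sg :=
    ((Nat.bijective_iff_injective_and_card sg).2 ⟨hsginj, by simp [hE8]⟩).2
  -- anything commuting with all of E is diagonal in the basis b
  have hdiag : ∀ x : ↥(X : Subgroup G), (∀ e : ↥E, x * ι e = ι e * x) →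
      ∀ i, ∃ c : F, L x (b i) = c • b i := by
    intro x hx i
    refine ⟨b.repr (L x (b i)) i, ?_⟩
    refine b.repr.injective (Finsupp.ext fun j => ?_)
    by_cases hij : j = i
    · subst hij; simp
    · obtain ⟨a, ha⟩ := hsgsurj (fun k => decide (k = i))
      have h1 : L (ι a) (L x (b i)) = L x (b i) := by
        rw [hL, ← hx, ← hL, hsg1 a i (by rw [ha]; simp)]
      have h3 : ∀ v, b.repr (L (ι a) v) j = - b.repr v j := by
        have : (b.coord j).comp (L (ι a)) = - b.coord j := b.ext fun k => by
          by_cases hk : k = i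
          · subst hk
            simp [hsg1 a k (by rw [ha]; simp), hij]
          · simp [hsg0 a k (by rw [ha]; simp [hk]), Finsupp.single_apply]
        exact fun v => by simpa using LinearMap.congr_fun this v
      have h4 := h3 (L x (b i))
      rw [h1] at h4
      have h5 : (2 : F) * b.repr (L x (b i)) j = 0 := by linear_combination h4
      rw [(mul_eq_zero.1 h5).resolve_left h2]
      simp [hij]
  -- the element acting as minus one
  obtain ⟨e0, he0⟩ := hsgsurj (fun _ => false)
  set z : ↥(X : Subgroup G) := ι e0 with hzdef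
  have hρz : ρ z = -1 := by
    refine Matrix.toLin'.injective (b.ext fun i => ?_)
    show L z (b i) = _
    rw [hzdef, hsg0 e0 i (by rw [he0])]
    simp
  have hzc : ∀ x, x * z = z * x := fun x => hρ (by rw [map_mul, map_mul, hρz]; simp)
  have hz2 : z * z = 1 := hρ (by rw [map_mul, hρz, map_one]; simp)
  let d : ↥(X : Subgroup G) →* Fˣ := Matrix.GeneralLinearGroup.det.comp f
  have hdz : d z = -1 := Units.ext (by
    show (ρ z).det = _
    rw [hρz, Matrix.det_neg, Matrix.det_one]; simp; norm_num)
  have hne1 : (-1 : Fˣ) ≠ 1 := fun h => h2 (by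
    have := congrArg Units.val h
    push_cast at this
    linear_combination -this)
  by_contra hnc
  -- the normalizer fixes z
  have hN : ∀ n ∈ Subgroup.normalizer ((X : Subgroup G) : Set G), n * (z : G) = (z : G) * n := by
    let W : Set ↥(X : Subgroup G) := {w | (∀ x, x * w = w * x) ∧ w * w = 1}
    have hWE : ∀ w ∈ W, ∃ e, ι e = w := by
      intro w hw
      have hd := hdiag w (fun e => (hw.1 (ι e)).symm)
      have hpm : ∀ i, L w (b i) = b i ∨ L w (b i) = -b i := by
        intro i
        obtain ⟨c, hc⟩ := hd i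
        have : (c * c) • b i = (1 : F) • b i := by
          rw [mul_smul, ← hc, ← map_smul, ← hc, hL, hw.2, hL1, one_smul]
        have hcc : (c - 1) * (c + 1) = 0 := by
          linear_combination smul_left_injective F (b.ne_zero i) this
        rcases mul_eq_zero.1 hcc with h | h
        · left; rw [hc, show c = 1 by linear_combination h, one_smul]
        · right; rw [hc, show c = -1 by linear_combination h, neg_one_smul]
      obtain ⟨e, he⟩ := hsgsurj (fun i => decide (L w (b i) = b i))
      refine ⟨e, hLinj (b.ext fun i => ?_)⟩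
      by_cases hi : L w (b i) = b i
      · rw [hi, hsg1 e i (by rw [he]; simp [hi])]
      · rw [(hpm i).resolve_left hi, hsg0 e i (by rw [he]; simp [hi])]
    have hWne : ∃ e, ι e ∉ W := by
      by_contra hall
      push_neg at hall
      apply hnc
      refine ⟨⟨fun x y => hLinj (b.ext fun i => ?_)⟩⟩
      obtain ⟨c, hc⟩ := hdiag x (fun e => (hall e).1 x) i
      obtain ⟨c', hc'⟩ := hdiag y (fun e => (hall e).1 y) i
      rw [← hL, ← hL, hc', map_smul, hc, map_smul, hc', smul_smul, smul_smul, mul_comm]
    -- the elements of E lying in W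
    let K : Subgroup ↥E :=
      { carrier := {e | ι e ∈ W}
        one_mem' := ⟨fun x => by rw [show ι 1 = 1 from rfl]; simp, by rw [show ι 1 = 1 from rfl]; simp⟩
        mul_mem' := fun {a c} ha hc => ⟨fun x => by
            show x * (ι a * ι c) = ι a * ι c * x
            rw [← mul_assoc, ha.1, mul_assoc, hc.1, mul_assoc],
          Subtype.ext (by simpa [ι, pow_two] using hEa.2 _ (mul_mem a.2 c.2))⟩
        inv_mem' := fun {a} ha => by
          have : a⁻¹ = a := inv_eq_of_mul_eq_one_right
            (Subtype.ext (by simpa [pow_two] using hEa.2 _ a.2))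
          simpa [this] using ha }
    have hK4 : Nat.card K ≤ 4 := by
      have hd : Nat.card K ∣ 2 ^ 3 := by
        have := K.card_subgroup_dvd_card
        rwa [hE8] at this
      obtain ⟨k, hk, hk'⟩ := (Nat.dvd_prime_pow Nat.prime_two).1 hd
      have hk3 : k ≠ 3 := fun h => by
        obtain ⟨e, he⟩ := hWne
        have : K = ⊤ := K.eq_top_of_card_eq (by rw [hk', h, hE8]; norm_num)
        exact he (show e ∈ K from this ▸ Subgroup.mem_top e)
      rw [hk']
      calc 2 ^ k ≤ 2 ^ 2 := Nat.pow_le_pow_right (by norm_num) (by omega)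
        _ = 4 := by norm_num
    -- a commutator involution in the centre
    obtain ⟨u, huW, hu1, hud, huc⟩ : ∃ u ∈ W, u ≠ 1 ∧ d u = 1 ∧
        u ∈ commutator ↥(X : Subgroup G) := by
      have hX : IsPGroup 2 ↥(X : Subgroup G) := X.isPGroup'
      have hcne : commutator ↥(X : Subgroup G) ≠ ⊥ := fun h =>
        hnc ⟨⟨fun x y => commutatorElement_eq_one_iff_mul_comm.1 (Subgroup.mem_bot.1
          (h ▸ Subgroup.commutator_mem_commutator (Subgroup.mem_top x) (Subgroup.mem_top y)))⟩⟩
      have : Nontrivial ↥(commutator ↥(X : Subgroup G)) := (Subgroup.nontrivial_iff_ne_bot _).2 hcne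
      have : Group.IsNilpotent ↥(X : Subgroup G) := hX.isNilpotent
      obtain ⟨v, hv1, hv2, hv3⟩ :=
        Cfsg.Agent.OddLocal.exists_ne_one_mem_center_of_normal (commutator ↥(X : Subgroup G)) hcne
      have hI : Nontrivial ↥(commutator ↥(X : Subgroup G) ⊓ Subgroup.center ↥(X : Subgroup G)) :=
        ⟨⟨⟨v, hv1, hv3⟩, 1, fun h => hv2 (congrArg Subtype.val h)⟩⟩
      obtain ⟨k, hk⟩ := IsPGroup.iff_card.1
        (hX.to_subgroup (commutator ↥(X : Subgroup G) ⊓ Subgroup.center ↥(X : Subgroup G)))
      have hk0 : k ≠ 0 := fun h => by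
        have := Finite.one_lt_card (α := ↥(commutator ↥(X : Subgroup G) ⊓
          Subgroup.center ↥(X : Subgroup G)))
        rw [hk, h] at this
        simp at this
      obtain ⟨u, hu⟩ := exists_prime_orderOf_dvd_card' (G := ↥(commutator ↥(X : Subgroup G) ⊓
        Subgroup.center ↥(X : Subgroup G))) 2 (by rw [hk]; exact dvd_pow_self 2 hk0)
      rw [← Subgroup.orderOf_coe] at hu
      refine ⟨u, ⟨fun x => Subgroup.mem_center_iff.1 u.2.2 x, ?_⟩, fun h => ?_, ?_, u.2.1⟩
      · have h2u := pow_orderOf_eq_one (u : ↥(X : Subgroup G))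
        rwa [hu, pow_two] at h2u
      · rw [h] at hu; simp at hu
      · exact MonoidHom.mem_ker.1 (Abelianization.commutator_subset_ker d u.2.1)
    have hzW : z ∈ W := ⟨hzc, hz2⟩
    have huz : u * z ∈ W := ⟨fun x => by rw [← mul_assoc, huW.1, mul_assoc, hzW.1, mul_assoc],
      by rw [mul_assoc, ← mul_assoc z u z, ← hzc u, mul_assoc u z z, hz2, mul_one, huW.2]⟩
    have huzne : u ≠ z := fun h => hne1 (by rw [← hdz, ← h, hud])
    have hzne : z ≠ 1 := fun h => hne1 (by rw [← hdz, h, map_one])
    have huzne1 : u * z ≠ 1 := fun h => huzne (by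
      calc u = u * (z * z) := by rw [hz2, mul_one]
        _ = z := by rw [← mul_assoc, h, one_mul])
    have hcases : ∀ w ∈ W, w = 1 ∨ w = u ∨ w = z ∨ w = u * z := by
      intro w hw
      by_contra hcon
      push_neg at hcon
      obtain ⟨a1, a2, a3, a4⟩ := hcon
      have hWfin : W ⊆ ι '' (K : Set ↥E) := fun w hw => by
        obtain ⟨e, he⟩ := hWE w hw
        exact ⟨e, show ι e ∈ W from he ▸ hw, he⟩
      let s : Finset ↥(X : Subgroup G) := {1, u, z, u * z, w}
      have hs : s.card = 5 := by
        have b1 : u ≠ u * z := fun h => hzne (by simpa using h.symm)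
        have b2 : z ≠ u * z := fun h => hu1 (by simpa using h.symm)
        simp only [s]
        rw [Finset.card_insert_of_notMem, Finset.card_insert_of_notMem,
          Finset.card_insert_of_notMem, Finset.card_pair (Ne.symm a4)] <;>
          simp [hu1.symm, hzne.symm, huzne1.symm, Ne.symm a1, huzne, b1, Ne.symm a2, b2, Ne.symm a3]
      have hsub : (s : Set ↥(X : Subgroup G)) ⊆ W := by
        intro v hv
        simp only [s, Finset.coe_insert, Finset.coe_singleton, Set.mem_insert_iff,
          Set.mem_singleton_iff] at hv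
        rcases hv with rfl | rfl | rfl | rfl | rfl
        · exact ⟨fun x => by simp, by simp⟩
        · exact huW
        · exact hzW
        · exact huz
        · exact hw
      have hle := Set.ncard_le_ncard (hsub.trans hWfin) (Set.toFinite _)
      rw [Set.ncard_coe_finset, hs] at hle
      have := hle.trans (Set.ncard_image_le (Set.toFinite _))
      have hKc : (K : Set ↥E).ncard = Nat.card K := (Nat.card_coe_set_eq _).symm
      omega
    intro n hn
    -- conjugation action on W
    have hconj : ∀ (m : G), m ∈ Subgroup.normalizer ((X : Subgroup G) : Set G) →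
        ∀ w : ↥(X : Subgroup G), m * w * m⁻¹ ∈ (X : Subgroup G) := fun m hm w =>
      (Subgroup.mem_normalizer_iff.1 hm _).1 w.2
    let cj : ↥(Subgroup.normalizer ((X : Subgroup G) : Set G)) →
        ↥(X : Subgroup G) →* ↥(X : Subgroup G) := fun m =>
      { toFun := fun w => ⟨(m : G) * w * (m : G)⁻¹, hconj _ m.2 w⟩
        map_one' := Subtype.ext (by simp)
        map_mul' := fun a c => Subtype.ext (by simp [mul_assoc]) }
    have hcjinj : ∀ m, Function.Injective (cj m) := fun m a c h => by
      have := congrArg Subtype.val h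
      simpa [cj] using this
    have hcjW : ∀ m w, w ∈ W → cj m w ∈ W := by
      intro m w hw
      refine ⟨fun x => ?_, by rw [← map_mul, hw.2, map_one]⟩
      have hsur : Function.Surjective (cj m) := (Finite.injective_iff_surjective).1 (hcjinj m)
      obtain ⟨x', rfl⟩ := hsur x
      rw [← map_mul, hw.1, map_mul]
    have hcju : ∀ m, cj m u = u := by
      intro m
      have hd1 : d (cj m u) = 1 := MonoidHom.mem_ker.1 (Abelianization.commutator_subset_ker d (by
        have hu' : u ∈ commutator ↥(X : Subgroup G) → cj m u ∈ commutator ↥(X : Subgroup G) := by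
          intro h
          have := Subgroup.mem_map_of_mem (cj m) h
          rw [commutator_def, Subgroup.map_commutator] at this
          exact Subgroup.commutator_mono le_top le_top this
        exact hu' huc))
      rcases hcases _ (hcjW m u huW) with h | h | h | h
      · exact absurd (hcjinj m (h.trans (map_one _).symm)) hu1
      · exact h
      · exact absurd (hd1.symm.trans ((congrArg d h).trans hdz)) hne1.symm
      · exact absurd (hd1.symm.trans ((congrArg d h).trans
          (by rw [map_mul, hud, hdz, one_mul]))) hne1.symm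
    have hcjz : ∀ m, cj m z = z ∨ cj m z = u * z := by
      intro m
      rcases hcases _ (hcjW m z hzW) with h | h | h | h
      · exact absurd (hcjinj m (h.trans (map_one _).symm)) hzne
      · exact absurd (hcjinj m (h.trans (hcju m).symm)) huzne.symm
      · exact Or.inl h
      · exact Or.inr h
    let m0 : ↥(Subgroup.normalizer ((X : Subgroup G) : Set G)) := ⟨n, hn⟩
    rcases hcjz m0 with h | h
    · have := congrArg Subtype.val h
      exact mul_inv_eq_iff_eq_mul.1 this
    exfalso
    have hswap : ∀ k : ℕ, cj (m0 ^ k) z = if Even k then z else u * z := by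
      intro k
      induction k with
      | zero => exact Subtype.ext (by simp [cj])
      | succ k ih =>
        have hc : cj (m0 ^ (k + 1)) z = cj m0 (cj (m0 ^ k) z) := by
          refine Subtype.ext ?_
          simp [cj, pow_succ', mul_assoc]
        rw [hc, ih]
        by_cases hk : Even k
        · rw [if_pos hk, h, if_neg (by simp [Nat.even_add_one, hk])]
        · rw [if_neg hk, map_mul, hcju, h, ← mul_assoc, huW.2, one_mul,
            if_pos (Nat.even_add_one.2 hk)]
    obtain ⟨k, o, ho, hko⟩ := Nat.exists_eq_two_pow_mul_odd (n := orderOf m0)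
      (orderOf_pos m0).ne'
    have hp : IsPGroup 2 (Subgroup.zpowers ((m0 : G) ^ o)) := by
      refine IsPGroup.of_card (n := (padicValNat 2 (orderOf ((m0 : G) ^ o)))) ?_
      rw [Nat.card_zpowers]
      have hd : orderOf ((m0 : G) ^ o) ∣ 2 ^ k := by
        apply orderOf_dvd_of_pow_eq_one
        rw [← pow_mul, mul_comm, ← hko, ← Subgroup.orderOf_coe, pow_orderOf_eq_one]
      obtain ⟨j, -, hj⟩ := (Nat.dvd_prime_pow Nat.prime_two).1 hd
      rw [hj, padicValNat.prime_pow]
    have hle : Subgroup.zpowers ((m0 : G) ^ o) ≤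
        Subgroup.normalizer ((X : Subgroup G) : Set G) := by
      rw [Subgroup.zpowers_le]; exact pow_mem m0.2 o
    have hsup := hp.to_sup_of_normal_right' X.isPGroup' hle
    have hin : (m0 : G) ^ o ∈ (X : Subgroup G) := by
      have heq := X.is_maximal' hsup le_sup_right
      exact (SetLike.ext_iff.1 heq _).1 (Subgroup.mem_sup_left (Subgroup.mem_zpowers _))
    have h1 := hswap o
    rw [if_neg (by simpa using ho)] at h1
    have h2' : cj (m0 ^ o) z = z := by
      refine Subtype.ext ?_
      show (((m0 ^ o : ↥(Subgroup.normalizer ((X : Subgroup G) : Set G))) : G)) * z * _ = _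
      rw [mul_inv_eq_iff_eq_mul]
      exact congrArg Subtype.val (hzc ⟨_, by simpa using hin⟩)
    rw [h2'] at h1
    exact hu1 (by simpa using h1.symm)
  have hτ := transfer_eq_neg_one X d z z.2 (congrArg Subtype.val hz2)
    (fun x hx => congrArg Subtype.val (hzc ⟨x, hx⟩)) hN hdz
  set τ : G →* Fˣ := MonoidHom.transfer d
  let R := τ.range
  have h2R : 2 ∣ Nat.card R := by
    have : orderOf (⟨τ z, ⟨(z : G), rfl⟩⟩ : R) = 2 := by
      rw [← Subgroup.orderOf_coe]
      exact orderOf_eq_prime (show τ z ^ 2 = 1 by rw [hτ]; simp)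
        (show τ z ≠ 1 by rw [hτ]; exact hne1)
    rw [← this]
    exact orderOf_dvd_natCard _
  apply hG ((powMonoidHom 2 : R →* R).range.comap τ.rangeRestrict)
  rw [Subgroup.index_comap_of_surjective _ τ.rangeRestrict_surjective,
    IsCyclic.index_powMonoidHom_range, Nat.gcd_eq_right h2R]

end Cfsg.Agent.S1906
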