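import Cfsg.Statements.S1907
import Cfsg.Agent.Core.Cores
import Cfsg.Agent.Coprime.Action
import Cfsg.Agent.PLocal.ZJ
import Cfsg.Agent.Core.PPrimeP

set_option autoImplicit false
open Cfsg
open scoped commutatorElement

namespace Cfsg.Agent.S1907

/-- Let P be a Sylow p-subgroup of a finite group G, H = P ∩ O_{p',p}(G), N = N_G(H) and D = O_{p'}(G). (a) If y is an element of p-power order of N and d ∈ D with d⁻¹ y d ∈ N, then d = d₁ d₂ with d₁ ∈ C_D(y) and d₂ ∈ C_D(H). (b) Two elements of P that are conjugate in G are conjugate in N. -/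
theorem result {G : Type*} [Group G] [Finite G] {p : ℕ} [Fact p.Prime] (P : Sylow p G) :
    (∀ y ∈ Subgroup.normalizer (((P : Subgroup G) ⊓ Cfsg.pPrimePCore p G : Subgroup G) : Set G), (∃ k : ℕ, orderOf y = p ^ k) →
      ∀ d ∈ Cfsg.pPrimeCore p G, d⁻¹ * y * d ∈ Subgroup.normalizer (((P : Subgroup G) ⊓ Cfsg.pPrimePCore p G : Subgroup G) : Set G) →
        ∃ d₁ ∈ Cfsg.pPrimeCore p G ⊓ Subgroup.centralizer ({y} : Set G),
          ∃ d₂ ∈ Cfsg.pPrimeCore p G ⊓ Subgroup.centralizer (((P : Subgroup G) ⊓ Cfsg.pPrimePCore p G : Subgroup G) : Set G), d = d₁ * d₂) ∧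
    ∀ x y : G, x ∈ (P : Subgroup G) → y ∈ (P : Subgroup G) → IsConj x y →
      ∃ n ∈ Subgroup.normalizer (((P : Subgroup G) ⊓ Cfsg.pPrimePCore p G : Subgroup G) : Set G), n * x * n⁻¹ = y := by
  set D := Cfsg.pPrimeCore p G with hDdef
  set M := Cfsg.pPrimePCore p G with hMdef
  set H := (P : Subgroup G) ⊓ M with hHdef
  set N := Subgroup.normalizer (H : Set G) with hNdef
  have hDn : ∀ A : Subgroup G, A ≤ Subgroup.normalizer (D : Set G) := fun A =>
    le_top.trans (Subgroup.normalizer_eq_top D).ge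
  have hHp : IsPGroup p H := P.isPGroup'.to_le inf_le_left
  have hcopH : (Nat.card H).Coprime (Nat.card D) := by
    obtain ⟨k, hk⟩ := IsPGroup.iff_card.mp hHp
    rw [hk]
    exact ((Core.card_pPrimeCore_coprime p G).symm).pow_left k
  have hDN : ∀ s ∈ D ⊓ N, s ∈ D ⊓ Subgroup.centralizer (H : Set G) := fun s hs =>
    ⟨hs.1, Coprime.mem_centralizer_of_conj_mem (hDn H) hcopH hs.1
      fun a ha => (Subgroup.mem_normalizer_iff.mp hs.2 a).mp ha⟩
  have hA : ∀ y ∈ N, (∃ k : ℕ, orderOf y = p ^ k) → ∀ d ∈ D, d⁻¹ * y * d ∈ N →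
      ∃ d₁ ∈ D ⊓ Subgroup.centralizer ({y} : Set G), ∃ d₂ ∈ D ⊓ Subgroup.centralizer (H : Set G), d = d₁ * d₂ := by
    rintro y hy ⟨k, hk⟩ d hd hdy
    haveI : Group.IsSolvable (Subgroup.zpowers y) := Group.isSolvable_of_comm fun a b => mul_comm' a b
    have hcop : (Nat.card (Subgroup.zpowers y)).Coprime (Nat.card D) := by
      rw [Nat.card_zpowers, hk]
      exact ((Core.card_pPrimeCore_coprime p G).symm).pow_left k
    obtain ⟨s, hs, c, hc, hsc⟩ := Coprime.exists_mem_centralizer_of_conj_le (S := N) (hDn _) hcop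
      (Subgroup.zpowers_le.mpr hy) (inv_mem hd) (fun a ha => by
        obtain ⟨z, rfl⟩ := Subgroup.mem_zpowers_iff.mp ha
        rw [inv_inv]
        have h1 : d⁻¹ * y ^ z * d = (d⁻¹ * y * d) ^ z := by
          have h2 := conj_zpow (i := z) (a := d⁻¹) (b := y)
          rw [inv_inv] at h2
          exact h2.symm
        rw [h1]
        exact zpow_mem hdy z)
    refine ⟨c⁻¹, inv_mem ⟨hc.1, ?_⟩, s⁻¹, inv_mem (hDN s hs), ?_⟩
    · exact Subgroup.mem_centralizer_singleton_iff.mpr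
        (Subgroup.mem_centralizer_iff.mp hc.2 y (Subgroup.mem_zpowers y)).symm
    · rw [← mul_inv_rev, ← hsc, inv_inv]
  refine ⟨hA, ?_⟩
  intro x y hx hy hconj
  obtain ⟨g, hg⟩ := isConj_iff.mp hconj
  obtain ⟨T, hT⟩ := PLocal.exists_sylow_inf P M
  have hPN : (P : Subgroup G) ≤ N := fun a ha => Coprime.mem_normalizer_of_conj_mem fun b hb =>
    ⟨(P : Subgroup G).mul_mem ((P : Subgroup G).mul_mem ha hb.1) ((P : Subgroup G).inv_mem ha), (inferInstance : M.Normal).conj_mem b hb.2 a⟩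
  have hMN : M ≤ D ⊔ N := by
    refine (Core.pPrimeCore_sup_sylow T).ge.trans ?_
    rw [hT]
    exact sup_le le_sup_left (le_sup_of_le_right Subgroup.le_normalizer)
  have hG : g ∈ D ⊔ N := by
    have h1 : N ⊔ M = ⊤ := by
      have := Sylow.normalizer_sup_eq_top T
      rwa [hT] at this
    exact (sup_le le_sup_right hMN : N ⊔ M ≤ D ⊔ N) (h1 ▸ Subgroup.mem_top g)
  obtain ⟨d, hd, n, hn, rfl⟩ := Subgroup.mem_sup_of_normal_left.mp hG
  have hx' : n * x * n⁻¹ ∈ N := mul_mem (mul_mem hn (hPN hx)) (inv_mem hn)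
  have he : (d⁻¹)⁻¹ * (n * x * n⁻¹) * d⁻¹ = y := by rw [← hg]; group
  have hord : ∃ k : ℕ, orderOf (n * x * n⁻¹) = p ^ k := by
    obtain ⟨k, hk⟩ := IsPGroup.iff_orderOf.mp P.isPGroup' ⟨x, hx⟩
    refine ⟨k, ?_⟩
    rw [Subgroup.orderOf_mk] at hk
    rw [← hk, ← MulAut.conj_apply]
    exact orderOf_injective (MulAut.conj n).toMonoidHom (MulAut.conj n).injective x
  obtain ⟨d₁, hd₁, d₂, hd₂, hdd⟩ := hA _ hx' hord d⁻¹ (inv_mem hd) (he ▸ hPN hy)
  have hd₂N : d₂ ∈ N := Coprime.mem_normalizer_of_conj_mem fun b hb => by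
    rw [← Subgroup.mem_centralizer_iff.mp hd₂.2 b hb, mul_inv_cancel_right]; exact hb
  refine ⟨d₂⁻¹ * n, mul_mem (inv_mem hd₂N) hn, ?_⟩
  rw [← he, hdd]
  have h3 : (n * x * n⁻¹) * d₁ = d₁ * (n * x * n⁻¹) :=
    (Subgroup.mem_centralizer_singleton_iff.mp hd₁.2).symm
  calc d₂⁻¹ * n * x * (d₂⁻¹ * n)⁻¹ = d₂⁻¹ * (d₁⁻¹ * (d₁ * (n * x * n⁻¹))) * d₂ := by group
    _ = _ := by rw [← h3]; group

end Cfsg.Agent.S1907
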