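import Cfsg.Statements.S1924
import Cfsg.Agent.Core.Residual
import Cfsg.Agent.Transfer.Thompson
import Mathlib.GroupTheory.SpecificGroups.Dihedral
import Mathlib.GroupTheory.Perm.Cycle.Type

set_option autoImplicit false
open Cfsg

namespace Cfsg.Agent.S1924

open Subgroup

theorem card_mul_relIdx {G : Type*} [Group G] {H K : Subgroup G} (h : H ≤ K) :
    Nat.card H * H.relIndex K = Nat.card K := by
  rw [← relIndex_bot_left, ← relIndex_bot_left, relIndex_mul_relIndex _ _ _ bot_le h]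

/-- An element acting semiregularly with an odd number of orbits is an odd permutation, so it avoids a
normal subgroup of index 2. -/
theorem exists_index_two_of_semiregular {G : Type*} [Group G] [Finite G] (H : Subgroup G) {z : G} {k : ℕ}
    (hz : orderOf z = 2 ^ (k + 1)) {r : ℕ} (hH : H.index = 2 ^ (k + 1) * r) (hr : Odd r)
    (h : ∀ g : G, ∀ i : ℕ, g * z ^ i * g⁻¹ ∈ H → z ^ i = 1) :
    ∃ M : Subgroup G, M.Normal ∧ M.index = 2 ∧ z ∉ M := by
  classical
  haveI : Fintype (G ⧸ H) := Fintype.ofFinite _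
  let φ := MulAction.toPermHom G (G ⧸ H)
  let σ : G →* ℤˣ := Equiv.Perm.sign.comp φ
  have hfree : ∀ i : ℕ, ∀ x : G ⧸ H, ((φ z) ^ i) x = x → z ^ i = 1 := by
    intro i x hx
    obtain ⟨g, rfl⟩ := QuotientGroup.mk_surjective x
    rw [← map_pow] at hx
    have hx' : ((z ^ i * g : G) : G ⧸ H) = (g : G ⧸ H) := hx
    have h1 := H.inv_mem (QuotientGroup.eq.mp hx')
    refine h g⁻¹ i ?_
    simpa [mul_assoc] using h1
  have hall : ∀ m ∈ (φ z).cycleType, m = 2 ^ (k + 1) := by
    intro m hm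
    rw [Equiv.Perm.cycleType_def, Multiset.mem_map] at hm
    obtain ⟨c, hc, rfl⟩ := hm
    have hc' : c ∈ (φ z).cycleFactorsFinset := hc
    have hcyc := (Equiv.Perm.mem_cycleFactorsFinset_iff.1 hc').1
    obtain ⟨x, hx⟩ := hcyc.nonempty_support
    have hcx := Equiv.Perm.cycle_is_cycleOf hx hc'
    have hord := hcyc.orderOf
    refine Nat.dvd_antisymm ?_ ?_
    · show c.support.card ∣ _
      rw [← hz, ← hord]
      refine orderOf_dvd_of_pow_eq_one ?_
      have h1 : ((φ z) ^ orderOf z) = 1 := by rw [← map_pow, pow_orderOf_eq_one, map_one]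
      refine hcyc.pow_eq_one_iff.2 ⟨x, Equiv.Perm.mem_support.1 hx, ?_⟩
      rw [hcx, Equiv.Perm.cycleOf_pow_apply_self, h1, Equiv.Perm.one_apply]
    · show _ ∣ c.support.card
      rw [← hz]
      refine orderOf_dvd_of_pow_eq_one (hfree _ x ?_)
      rw [← Equiv.Perm.cycleOf_pow_apply_self, ← hcx, ← hord, pow_orderOf_eq_one, Equiv.Perm.one_apply]
  have hsum : (φ z).cycleType.sum = H.index := by
    rw [Equiv.Perm.sum_cycleType, Subgroup.index_eq_card, Nat.card_eq_fintype_card, ← Finset.card_univ]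
    congr 1
    refine Finset.eq_univ_of_forall fun x => Equiv.Perm.mem_support.2 fun e => ?_
    have h1 := hfree 1 x (by rw [pow_one]; exact e)
    rw [pow_one] at h1
    have : 2 ≤ 2 ^ (k + 1) := by
      calc 2 = 2 ^ 1 := rfl
        _ ≤ 2 ^ (k + 1) := Nat.pow_le_pow_right two_pos (by omega)
    rw [h1, orderOf_one] at hz
    omega
  have hrep := Multiset.eq_replicate_card.2 hall
  have hcard : (φ z).cycleType.card = r := by
    rw [hrep, Multiset.sum_replicate, smul_eq_mul, hH, mul_comm] at hsum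
    exact mul_left_cancel₀ (pow_ne_zero _ two_ne_zero) hsum
  have hsign : σ z = -1 := by
    show Equiv.Perm.sign (φ z) = -1
    rw [Equiv.Perm.sign_of_cycleType, hsum, hcard, hH, pow_add,
      (Nat.even_mul.2 (Or.inl (Nat.even_pow.2 ⟨even_two, Nat.succ_ne_zero k⟩))).neg_one_pow,
      hr.neg_one_pow, one_mul]
  refine ⟨σ.ker, inferInstance, ?_, fun hm => ?_⟩
  · rw [Subgroup.index_ker]
    have htop : σ.range = ⊤ := by
      rw [eq_top_iff]
      intro x _
      rcases Int.units_eq_one_or x with rfl | rfl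
      · exact one_mem _
      · exact ⟨z, hsign⟩
    rw [htop, Subgroup.card_top, Nat.card_eq_fintype_card, Fintype.card_units_int]
  · rw [MonoidHom.mem_ker, hsign] at hm
    exact absurd hm (by decide)

/-- In a dihedral group, everything outside a cyclic subgroup of index 2 squares to `1`. -/
theorem sq_eq_one_of_notMem {n : ℕ} [NeZero n] (C : Subgroup (DihedralGroup n)) (hC : IsCyclic C)
    (hi : C.index = 2) {x : DihedralGroup n} (hx : x ∉ C) : x ^ 2 = 1 := by
  have hcard : Nat.card C = n := by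
    have := C.card_mul_index
    rw [hi, DihedralGroup.nat_card] at this
    omega
  cases x with
  | sr i => rw [pow_two, DihedralGroup.sr_mul_self]
  | r i =>
    obtain ⟨⟨g, hg⟩, hgen⟩ := IsCyclic.exists_ofOrder_eq_natCard (α := C)
    rw [Subgroup.orderOf_mk, hcard] at hgen
    have hgC : zpowers g = C := Subgroup.eq_of_le_of_card_ge (zpowers_le.2 hg)
      (by rw [Nat.card_zpowers, hgen, hcard])
    cases g with
    | r j =>
      refine absurd ?_ hx
      have hle : zpowers (DihedralGroup.r j) ≤ zpowers (DihedralGroup.r (1 : ZMod n)) :=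
        zpowers_le.2 ⟨(j.val : ℤ), by simp only [zpow_natCast, DihedralGroup.r_one_pow, ZMod.natCast_zmod_val]⟩
      have heq := Subgroup.eq_of_le_of_card_ge hle
        (by rw [Nat.card_zpowers, Nat.card_zpowers, hgen, DihedralGroup.orderOf_r_one])
      rw [← hgC, heq]
      exact ⟨(i.val : ℤ), by simp only [zpow_natCast, DihedralGroup.r_one_pow, ZMod.natCast_zmod_val]⟩
    | sr j =>
      rw [DihedralGroup.orderOf_sr] at hgen
      subst hgen
      rw [pow_two, DihedralGroup.r_mul_r]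
      have h0 : ∀ j : ZMod 2, j + j = 0 := by decide
      rw [h0 i]; rfl


/-- A consequence of Thompson's transfer lemma. Let G be a finite group, L a subgroup with O²(L) = L, T a Sylow 2-subgroup of L and S a Sylow 2-subgroup of G containing T. Suppose D ≤ S is a dihedral subgroup of order at least 4 (the four-group counts) with D ∩ T = 1 and S = TD as a set of products (so |S| = |T|·|D|), and C ≤ D is cyclic of index 2 in D. If no involution of D outside C is G-conjugate to an involution of the subgroup generated by T and C, and the involution of C is not G-conjugate to any involution of T, then G has a normal subgroup K, containing every Sylow 2-subgroup of L as a Sylow 2-subgroup, with G = KD. -/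
theorem result {G : Type*} [Group G] [Finite G] (L T S D C : Subgroup G) (hL : Cfsg.pResidual 2 ↥L = ⊤)
    (hTL : T ≤ L) (hT2 : IsPGroup 2 T) (hTsyl : ¬ 2 ∣ T.relIndex L)
    (hS2 : IsPGroup 2 S) (hSsyl : ¬ 2 ∣ S.index) (hTS : T ≤ S)
    (hDS : D ≤ S) (hDih : ∃ n : ℕ, 2 ≤ n ∧ Nonempty (↥D ≃* DihedralGroup n)) (hDT : D ⊓ T = ⊥) (hTD : T ⊔ D = S) (hTDc : Nat.card T * Nat.card D = Nat.card S)
    (hCD : C ≤ D) (hC : IsCyclic ↥C) (hCi : C.relIndex D = 2)
    (h1 : ∀ x ∈ D, x ∉ C → orderOf x = 2 → ∀ g : G, g * x * g⁻¹ ∈ T ⊔ C → False)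
    (h2 : ∀ c ∈ C, orderOf c = 2 → ∀ g : G, g * c * g⁻¹ ∈ T → False) :
    ∃ K : Subgroup G, K.Normal ∧ K ⊔ D = ⊤ ∧
      ∀ T' : Subgroup G, T' ≤ L → IsPGroup 2 T' → ¬ 2 ∣ T'.relIndex L → T' ≤ K ∧ ¬ 2 ∣ T'.relIndex K := by
  classical
  haveI : Fact (Nat.Prime 2) := ⟨Nat.prime_two⟩
  obtain ⟨n, hn, ⟨e⟩⟩ := hDih
  haveI : NeZero n := ⟨by omega⟩
  set K := pResidual 2 G with hK
  have hLK : L ≤ K := by
    have := Agent.Core.map_pResidual_le (p := 2) L.subtype
    rwa [hL, ← MonoidHom.range_eq_map, range_subtype] at this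
  have hTK : T ≤ K := hTL.trans hLK
  -- `S = T D`
  have hcomp : ∀ s ∈ S, ∃ t ∈ T, ∃ d ∈ D, s = t * d := by
    intro s hs
    let f : T × D → S := fun a => ⟨a.1 * a.2, S.mul_mem (hTS a.1.2) (hDS a.2.2)⟩
    have hinj : Function.Injective f := by
      rintro ⟨t, d⟩ ⟨t', d'⟩ h
      have h' : (t : G) * d = t' * d' := congrArg Subtype.val h
      have hm : (t' : G)⁻¹ * t = (d' : G) * (d : G)⁻¹ := by
        rw [eq_mul_inv_iff_mul_eq, mul_assoc, h', inv_mul_cancel_left]
      have h1 : (t' : G)⁻¹ * t ∈ D ⊓ T :=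
        mem_inf.2 ⟨hm ▸ D.mul_mem d'.2 (D.inv_mem d.2), T.mul_mem (T.inv_mem t'.2) t.2⟩
      rw [hDT, mem_bot, inv_mul_eq_one] at h1
      have h2 : d = d' := Subtype.ext (mul_left_cancel (h'.trans (by rw [h1])))
      rw [h2, Subtype.ext h1]
    haveI : Fintype S := Fintype.ofFinite _
    haveI : Fintype (T × D) := Fintype.ofFinite _
    have hsur := ((Fintype.bijective_iff_injective_and_card f).2 ⟨hinj, by
      simp only [← Nat.card_eq_fintype_card, Nat.card_prod, hTDc]⟩).2
    obtain ⟨⟨t, d⟩, h⟩ := hsur ⟨s, hs⟩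
    exact ⟨t, t.2, d, d.2, (congrArg Subtype.val h).symm⟩
  -- the elements of `D` outside `C` are involutions
  have hinv : ∀ x ∈ D, x ∉ C → orderOf x = 2 := by
    intro x hx hxC
    refine orderOf_eq_prime ?_ fun h => hxC (h ▸ C.one_mem)
    have hi : ((C.subgroupOf D).map e.toMonoidHom).index = 2 := (index_map_equiv _ e).trans hCi
    have hc : IsCyclic ((C.subgroupOf D).map e.toMonoidHom) :=
      isCyclic_of_surjective ((subgroupOfEquivOfLe hCD).symm.trans ((C.subgroupOf D).equivMapOfInjective _ e.injective))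
        (MulEquiv.surjective _)
    have h := sq_eq_one_of_notMem _ hc hi (x := e ⟨x, hx⟩) (fun hm => by
      obtain ⟨y, hy, hye⟩ := hm
      exact hxC (by rw [e.injective hye] at hy; exact hy))
    rw [← map_pow, ← map_one e] at h
    exact congrArg Subtype.val (e.injective h)
  -- `K ⊓ D ≤ C`
  have hKD : K ⊓ D ≤ C := by
    rintro x ⟨hxK, hxD⟩
    by_contra hxC
    have hx2 := hinv x hxD hxC
    have hxU : x ∉ T ⊔ C := fun h => h1 x hxD hxC hx2 1 (by simpa using h)
    have hUS : T ⊔ C ≤ S := sup_le hTS (hCD.trans hDS)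
    have hcard : Nat.card T * Nat.card C ≤ Nat.card (T ⊔ C : Subgroup G) := by
      rw [← Nat.card_prod]
      refine Nat.card_le_card_of_injective (fun a => ⟨a.1 * a.2, mul_mem (mem_sup_left a.1.2) (mem_sup_right a.2.2)⟩) ?_
      rintro ⟨t, d⟩ ⟨t', d'⟩ h
      have h' : (t : G) * d = t' * d' := congrArg Subtype.val h
      have hm : (t' : G)⁻¹ * t = (d' : G) * (d : G)⁻¹ := by
        rw [eq_mul_inv_iff_mul_eq, mul_assoc, h', inv_mul_cancel_left]
      have h1 : (t' : G)⁻¹ * t ∈ D ⊓ T :=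
        mem_inf.2 ⟨hm ▸ D.mul_mem (hCD d'.2) (D.inv_mem (hCD d.2)), T.mul_mem (T.inv_mem t'.2) t.2⟩
      rw [hDT, mem_bot, inv_mul_eq_one] at h1
      have h2 : d = d' := Subtype.ext (mul_left_cancel (h'.trans (by rw [h1])))
      rw [h2, Subtype.ext h1]
    have hD2 : Nat.card C * 2 = Nat.card D := by
      rw [← hCi, card_mul_relIdx hCD]
    have hUc : Nat.card (T ⊔ C : Subgroup G) * (T ⊔ C).relIndex S = Nat.card S := card_mul_relIdx hUS
    have hne : (T ⊔ C).relIndex S ≠ 1 := fun h => hxU (relIndex_eq_one.1 h (hDS hxD))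
    have h0 : (T ⊔ C).relIndex S ≠ 0 := fun h => by
      rw [h, mul_zero] at hUc; exact Nat.card_pos.ne' hUc.symm
    have hr2 : (T ⊔ C).relIndex S = 2 := by
      have h3 : Nat.card S = 2 * (Nat.card T * Nat.card C) := by rw [← hTDc, ← hD2]; ring
      have h4 : 0 < Nat.card (T ⊔ C : Subgroup G) := Nat.card_pos
      rw [h3] at hUc
      by_contra hne2
      have h5 : 3 * Nat.card (T ⊔ C : Subgroup G) ≤ Nat.card (T ⊔ C : Subgroup G) * (T ⊔ C).relIndex S := by
        rw [mul_comm]; exact Nat.mul_le_mul_left _ (by omega)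
      omega
    obtain ⟨M, hM, hMi, hxM⟩ := Agent.Transfer.exists_index_two_of_forall_notMem (T ⊔ C) (k := S.index)
      (by rw [← relIndex_mul_index hUS, hr2]) (Nat.odd_iff.2 (by omega)) (hx2 ▸ pow_orderOf_eq_one x)
      (fun g hg => h1 x hxD hxC hx2 g hg)
    refine hxM (Agent.Core.pResidual_le_of_isPGroup ?_ hxK)
    exact IsPGroup.of_card (n := 1) (by rw [pow_one, ← index_eq_card, hMi])
  -- the Sylow subgroup of `K`
  have hSK : ¬ 2 ∣ (S ⊓ K).relIndex K := by
    intro h
    refine hSsyl (h.trans ⟨(S ⊔ K).index, ?_⟩)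
    have e1 := relIndex_mul_index (inf_le_right : S ⊓ K ≤ K)
    have e2 := relIndex_mul_index (inf_le_left : S ⊓ K ≤ S)
    have e3 := relIndex_mul_index (le_sup_right : K ≤ S ⊔ K)
    rw [inf_relIndex_left, ← relIndex_sup_right] at e2
    rw [← e3, ← e2, mul_left_comm] at e1
    exact (Nat.eq_of_mul_eq_mul_left (Nat.pos_of_ne_zero Subgroup.index_ne_zero_of_finite) e1).symm
  -- `K ⊓ D = 1`
  have hE : K ⊓ D = ⊥ := by
    by_contra hE
    haveI : IsCyclic (K ⊓ D : Subgroup G) := isCyclic_of_injective (inclusion hKD) (inclusion_injective hKD)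
    obtain ⟨⟨z, hz⟩, hgen⟩ := IsCyclic.exists_ofOrder_eq_natCard (α := (K ⊓ D : Subgroup G))
    rw [Subgroup.orderOf_mk] at hgen
    obtain ⟨j, hj⟩ := IsPGroup.iff_card.1 (hS2.to_le (inf_le_right.trans hDS : K ⊓ D ≤ S))
    obtain ⟨k, rfl⟩ : ∃ k, j = k + 1 := Nat.exists_eq_succ_of_ne_zero fun h => hE (eq_bot_of_card_eq _ (by rw [hj, h, pow_zero]))
    rw [hj] at hgen
    have hTE : Nat.card (S ⊓ K : Subgroup G) = Nat.card T * Nat.card (K ⊓ D : Subgroup G) := by
      rw [← Nat.card_prod]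
      refine (Nat.card_congr (Equiv.ofBijective (fun a => (⟨a.1 * a.2, mem_inf.2 ⟨S.mul_mem (hTS a.1.2) (hDS a.2.2.2),
        K.mul_mem (hTK a.1.2) a.2.2.1⟩⟩ : (S ⊓ K : Subgroup G))) ⟨?_, ?_⟩)).symm
      · rintro ⟨t, d⟩ ⟨t', d'⟩ h
        have h' : (t : G) * d = t' * d' := congrArg Subtype.val h
        have hm : (t' : G)⁻¹ * t = (d' : G) * (d : G)⁻¹ := by
          rw [eq_mul_inv_iff_mul_eq, mul_assoc, h', inv_mul_cancel_left]
        have h1 : (t' : G)⁻¹ * t ∈ D ⊓ T :=
          mem_inf.2 ⟨hm ▸ D.mul_mem d'.2.2 (D.inv_mem d.2.2), T.mul_mem (T.inv_mem t'.2) t.2⟩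
        rw [hDT, mem_bot, inv_mul_eq_one] at h1
        have h2 : d = d' := Subtype.ext (mul_left_cancel (h'.trans (by rw [h1])))
        rw [h2, Subtype.ext h1]
      · rintro ⟨s, hs⟩
        obtain ⟨t, ht, d, hd, rfl⟩ := hcomp s (mem_inf.1 hs).1
        have hdK : d ∈ K := by
          have := K.mul_mem (K.inv_mem (hTK ht)) (mem_inf.1 hs).2
          rwa [inv_mul_cancel_left] at this
        exact ⟨(⟨t, ht⟩, ⟨d, mem_inf.2 ⟨hdK, hd⟩⟩), rfl⟩
    have hTr : T.relIndex (S ⊓ K) = 2 ^ (k + 1) := by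
      have h := card_mul_relIdx (le_inf hTS hTK : T ≤ S ⊓ K)
      rw [hTE, hj] at h
      exact Nat.eq_of_mul_eq_mul_left Nat.card_pos h
    have hidx : (T.subgroupOf K).index = 2 ^ (k + 1) * (S ⊓ K).relIndex K := by
      rw [← hTr, relIndex_mul_relIndex _ _ _ (le_inf hTS hTK) inf_le_right]; rfl
    obtain ⟨M, hM, hMi, hzM⟩ := exists_index_two_of_semiregular (T.subgroupOf K)
      (z := (⟨z, (mem_inf.1 hz).1⟩ : K)) (k := k) (by rw [Subgroup.orderOf_mk]; exact hgen) hidx
      (Nat.odd_iff.2 (by omega)) (by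
        intro g i hg
        by_contra hne
        have hzi : z ^ i ≠ 1 := fun h => hne (Subtype.ext (by rw [SubmonoidClass.coe_pow]; exact h))
        have hg' : (g : G) * z ^ i * (g : G)⁻¹ ∈ T := by
          rw [mem_subgroupOf] at hg
          simpa using hg
        have hzC : z ^ i ∈ C := C.pow_mem (hKD hz) i
        obtain ⟨l, hl⟩ := (IsPGroup.iff_orderOf.1 (hS2.to_le (hCD.trans hDS))) ⟨z ^ i, hzC⟩
        rw [Subgroup.orderOf_mk] at hl
        obtain ⟨l, rfl⟩ : ∃ l', l = l' + 1 := Nat.exists_eq_succ_of_ne_zero fun h => hzi (by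
          rwa [h, pow_zero, orderOf_eq_one_iff] at hl)
        refine h2 ((z ^ i) ^ 2 ^ l) (C.pow_mem hzC _) ?_ (g : G) ?_
        · rw [orderOf_pow' _ (pow_ne_zero _ two_ne_zero), hl, Nat.gcd_eq_right (pow_dvd_pow 2 (Nat.le_succ l)),
            pow_succ, Nat.mul_div_cancel_left _ (pow_pos two_pos l)]
        · rw [← conj_pow]; exact T.pow_mem hg' _)
    have htop : pResidual 2 K ≤ M := Agent.Core.pResidual_le_of_isPGroup
      (IsPGroup.of_card (n := 1) (by rw [pow_one, ← index_eq_card, hMi]))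
    exact hzM (htop (le_of_eq (Agent.Core.pResidual_pResidual 2 G).symm (mem_top _)))
  refine ⟨K, inferInstance, ?_, fun T' hT'L hT'2 hT' => ⟨hT'L.trans hLK, ?_⟩⟩
  · obtain ⟨P, hP⟩ := hS2.exists_le_sylow
    have hPS : (P : Subgroup G) = S := le_antisymm (by
      by_contra hlt
      have h3 : S.relIndex P ∣ S.index := Dvd.intro _ (relIndex_mul_index hP)
      obtain ⟨j, hj⟩ := IsPGroup.iff_card.1 P.isPGroup'
      have h4 : S.relIndex P ∣ 2 ^ j := hj ▸ Dvd.intro_left _ (card_mul_relIdx hP)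
      obtain ⟨i, -, hi⟩ := (Nat.dvd_prime_pow Nat.prime_two).1 h4
      rcases i with - | i
      · exact hlt (relIndex_eq_one.1 (by simpa using hi))
      · exact hSsyl ((Dvd.intro_left _ (pow_succ 2 i).symm).trans (hi ▸ h3))) hP
    have := Agent.Core.sylow_sup_pResidual P
    rw [hPS, ← hK, ← hTD] at this
    refine top_le_iff.1 (this.ge.trans (sup_le (sup_le (hTK.trans le_sup_left) le_sup_right) le_sup_left))
  · have hTS' : S ⊓ K = T := by
      refine le_antisymm (fun s hs => ?_) (le_inf hTS hTK)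
      obtain ⟨t, ht, d, hd, rfl⟩ := hcomp s (mem_inf.1 hs).1
      have hdK : d ∈ K := by
        have := K.mul_mem (K.inv_mem (hTK ht)) (mem_inf.1 hs).2
        rwa [inv_mul_cancel_left] at this
      have h : d ∈ K ⊓ D := mem_inf.2 ⟨hdK, hd⟩
      rw [hE, mem_bot] at h
      rwa [h, mul_one]
    rw [hTS', ← relIndex_mul_relIndex _ _ _ hTL hLK, Nat.prime_two.dvd_mul, not_or] at hSK
    rw [← relIndex_mul_relIndex _ _ _ hT'L hLK, Nat.prime_two.dvd_mul, not_or]
    exact ⟨hT', hSK.2⟩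

end Cfsg.Agent.S1924
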