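import Cfsg.Statements.S1935
import Cfsg.Agent.Transfer.QuadLimit.Core
import Cfsg.Agent.PLocal.Timmesfeld

set_option autoImplicit false
open Cfsg
open scoped commutatorElement

namespace Cfsg.Agent.S1935

/-- Let p ≥ 5 be a prime and, inside an ambient finite group, let G be a p-subgroup acting faithfully by conjugation on an elementary abelian p-subgroup V that it normalizes (only the identity of G centralizes V). Suppose V is an F-module for G: some nontrivial elementary abelian subgroup E of G satisfies #E · #C_V(E) ≥ #V. Then G contains such an offender A that moreover acts quadratically on V ([V, A, A] = 1) and is normal in its normal closure in G. -/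
theorem result {Ω : Type*} [Group Ω] [Finite Ω] (p : ℕ) [Fact p.Prime] (hp : 5 ≤ p) (V G : Subgroup Ω) (hV : Cfsg.IsElementaryAbelian p V) (hG : IsPGroup p ↥G) (hGV : G ≤ Subgroup.normalizer (V : Set Ω)) (hfaith : G ⊓ Subgroup.centralizer (V : Set Ω) = ⊥) (hF : ∃ E : Subgroup Ω, E ≤ G ∧ E ≠ ⊥ ∧ Cfsg.IsElementaryAbelian p E ∧ Nat.card ↥V ≤ Nat.card ↥E * Nat.card ↥(V ⊓ Subgroup.centralizer (E : Set Ω))) : ∃ A : Subgroup Ω, A ≤ G ∧ A ≠ ⊥ ∧ Cfsg.IsElementaryAbelian p A ∧ Nat.card ↥V ≤ Nat.card ↥A * Nat.card ↥(V ⊓ Subgroup.centralizer (A : Set Ω)) ∧ ⁅⁅V, A⁆, A⁆ = ⊥ ∧ ∀ g ∈ Subgroup.closure {x : Ω | ∃ h ∈ G, ∃ a ∈ A, x = h * a * h⁻¹}, ∀ a ∈ A, g * a * g⁻¹ ∈ A := by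
  classical
  have hc : ∀ a b : ↥V, a * b = b * a := hV.1.is_comm.comm
  letI : CommGroup ↥V := { (inferInstance : Group ↥V) with mul_comm := hc }
  have hexp : ∀ v : ↥V, v ^ p = 1 := fun v => Subtype.ext (hV.2 _ v.2)
  haveI : Module (ZMod p) (Additive ↥V) := AddCommGroup.zmodModule fun v => congrArg Additive.ofMul (hexp v.toMul)
  haveI : Finite (Additive ↥V) := Finite.of_equiv ↥V Additive.ofMul
  have hnm : ∀ (g : ↥G) (v : Ω), v ∈ V → (g : Ω) * v * (g : Ω)⁻¹ ∈ V := fun g v hv =>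
    (Subgroup.mem_normalizer_iff.mp (hGV g.2) v).mp hv
  let f : ↥G → Additive ↥V →+ Additive ↥V := fun g =>
    { toFun := fun v => Additive.ofMul ⟨(g : Ω) * (v.toMul : Ω) * (g : Ω)⁻¹, hnm g _ v.toMul.2⟩
      map_zero' := by simp
      map_add' := fun v w => by
        apply Additive.toMul.injective
        apply Subtype.ext
        simp [mul_assoc] }
  let ρ : ↥G →* Module.End (ZMod p) (Additive ↥V) :=
    { toFun := fun g => (f g).toZModLinearMap p
      map_one' := LinearMap.ext fun v => by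
        show f 1 v = v
        exact Additive.toMul.injective (Subtype.ext (by simp [f]))
      map_mul' := fun g h => LinearMap.ext fun v => by
        show f (g * h) v = f g (f h v)
        exact Additive.toMul.injective (Subtype.ext (by simp [f, mul_assoc])) }
  have hρv : ∀ (g : ↥G) (v : Additive ↥V), ((ρ g v).toMul : Ω) = (g : Ω) * (v.toMul : Ω) * (g : Ω)⁻¹ :=
    fun g v => rfl
  have hρ1 : ∀ g : ↥G, ρ g = 1 → g = 1 := by
    intro g hg
    apply Subtype.ext
    have : (g : Ω) ∈ G ⊓ Subgroup.centralizer (V : Set Ω) := by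
      refine ⟨g.2, Subgroup.mem_centralizer_iff.mpr fun v hv => ?_⟩
      have := congrArg (fun u : Additive ↥V => (u.toMul : Ω)) (LinearMap.congr_fun hg (Additive.ofMul ⟨v, hv⟩))
      simp only [hρv, Module.End.one_apply, toMul_ofMul] at this
      calc v * (g : Ω) = (g : Ω) * v * (g : Ω)⁻¹ * (g : Ω) := by rw [this]
        _ = (g : Ω) * v := by group
    rw [hfaith] at this
    exact Subgroup.mem_bot.mp this
  have hρ : Function.Injective ρ := (injective_iff_map_eq_one ρ).mpr hρ1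
  have hfix : ∀ (a : ↥G) (v : Additive ↥V), (ρ a - 1) v = 0 ↔ (a : Ω) * (v.toMul : Ω) = (v.toMul : Ω) * (a : Ω) := by
    intro a v
    rw [LinearMap.sub_apply, Module.End.one_apply, sub_eq_zero]
    constructor
    · intro h
      have := congrArg (fun u : Additive ↥V => (u.toMul : Ω)) h
      simp only [hρv] at this
      exact mul_inv_eq_iff_eq_mul.mp this
    · intro h
      apply Additive.toMul.injective
      apply Subtype.ext
      rw [hρv]
      exact mul_inv_eq_iff_eq_mul.mpr h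
  -- dictionary between subgroups and subspaces
  have bridge : ∀ (B : Subgroup ↥G) (L : Submodule (ZMod p) (Module.End (ZMod p) (Additive ↥V))),
      (∀ b, b ∈ B ↔ ρ b - 1 ∈ L) → (∀ x ∈ L, ∃ g, ρ g = 1 + x) →
      Nat.card ↥(B.map G.subtype) = Nat.card ↥L ∧
      Nat.card ↥(V ⊓ Subgroup.centralizer ((B.map G.subtype : Subgroup Ω) : Set Ω)) =
        Nat.card ↥(⨅ x : ↥L, LinearMap.ker (x : Module.End (ZMod p) (Additive ↥V))) := by
    intro B L hBL hL
    refine ⟨?_, ?_⟩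
    · rw [Subgroup.card_map_of_injective G.subtype_injective]
      refine Nat.card_eq_of_bijective (fun b : ↥B => (⟨ρ b - 1, (hBL b).mp b.2⟩ : ↥L)) ⟨fun a b h => ?_, fun x => ?_⟩
      · exact Subtype.ext (hρ (sub_left_injective (congrArg Subtype.val h)))
      · obtain ⟨g, hg⟩ := hL x x.2
        exact ⟨⟨g, (hBL g).mpr (by rw [hg, add_sub_cancel_left]; exact x.2)⟩,
          Subtype.ext (by simp [hg])⟩
    · have hiff : ∀ v : Additive ↥V, v ∈ (⨅ x : ↥L, LinearMap.ker (x : Module.End (ZMod p) (Additive ↥V))) ↔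
          (v.toMul : Ω) ∈ Subgroup.centralizer ((B.map G.subtype : Subgroup Ω) : Set Ω) := by
        intro v
        simp only [Submodule.mem_iInf, LinearMap.mem_ker, Subtype.forall, Subgroup.mem_centralizer_iff,
          SetLike.mem_coe]
        constructor
        · rintro h _ ⟨b, hb, rfl⟩
          exact (hfix b v).mp (h _ ((hBL b).mp hb))
        · intro h x hx
          obtain ⟨g, hg⟩ := hL x hx
          have hx' : x = ρ g - 1 := by rw [hg, add_sub_cancel_left]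
          rw [hx', hfix]
          exact h _ ⟨g, (hBL g).mpr (by rw [← hx']; exact hx), rfl⟩
      symm
      refine Nat.card_congr
        { toFun := fun v => ⟨((v : Additive ↥V).toMul : Ω), (v : Additive ↥V).toMul.2, (hiff v).mp v.2⟩
          invFun := fun w => ⟨Additive.ofMul ⟨w, w.2.1⟩, (hiff _).mpr w.2.2⟩
          left_inv := fun v => rfl
          right_inv := fun w => rfl }
  haveI : FiniteDimensional (ZMod p) (Additive ↥V) := Module.Finite.of_finite
  haveI : Finite (Module.End (ZMod p) (Additive ↥V)) :=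
    Finite.of_injective (fun f : Module.End (ZMod p) (Additive ↥V) => (f : Additive ↥V → Additive ↥V))
      DFunLike.coe_injective
  have hp1 : 1 < p := (Fact.out : p.Prime).one_lt
  have hcard : ∀ a b : ℕ, Nat.card ↥V = p ^ Module.finrank (ZMod p) (Additive ↥V) ∧
      (p ^ Module.finrank (ZMod p) (Additive ↥V) ≤ p ^ a * p ^ b ↔ Module.finrank (ZMod p) (Additive ↥V) ≤ a + b) := by
    intro a b
    refine ⟨?_, by rw [← pow_add, Nat.pow_le_pow_iff_right hp1]⟩
    rw [Nat.card_congr (Additive.ofMul : ↥V ≃ Additive ↥V), Module.natCard_eq_pow_finrank (K := ZMod p), Nat.card_zmod]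
  -- a quadratic offender
  obtain ⟨E, hEG, hE1, hEab, hEoff⟩ := hF
  have hVA : ∀ B : Subgroup Ω, B ≤ E → B ≤ Subgroup.normalizer (V : Set Ω) := fun B hB => (hB.trans hEG).trans hGV
  obtain ⟨A₀, hA₀E, hA₀1, hA₀off, hA₀max⟩ : ∃ A₀ : Subgroup Ω, A₀ ≤ E ∧ A₀ ≠ ⊥ ∧
      Nat.card ↥V ≤ PLocal.offVal V A₀ ∧ ∀ B ≤ A₀, PLocal.offVal V B ≤ PLocal.offVal V A₀ := by
    haveI : Nonempty {B : Subgroup Ω // B ≤ E} := ⟨⟨E, le_rfl⟩⟩
    obtain ⟨⟨M, hME⟩, hM⟩ := Finite.exists_max fun B : {B : Subgroup Ω // B ≤ E} => PLocal.offVal V B.1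
    have hbot : PLocal.offVal V (⊥ : Subgroup Ω) = Nat.card ↥V := by
      rw [PLocal.offVal, Subgroup.card_bot, one_mul]
      rw [show V ⊓ Subgroup.centralizer ((⊥ : Subgroup Ω) : Set Ω) = V from inf_eq_left.mpr fun v _ =>
        Subgroup.mem_centralizer_iff.mpr fun y hy => by rw [Subgroup.mem_bot.mp hy, one_mul, mul_one]]
    by_cases h : M = ⊥
    · refine ⟨E, le_rfl, hE1, hEoff, fun B hB => (hM ⟨B, hB⟩).trans ?_⟩
      subst h
      exact hbot.le.trans hEoff
    · exact ⟨M, hME, h, hEoff.trans (hM ⟨E, le_rfl⟩), fun B hB => hM ⟨B, hB.trans hME⟩⟩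
  have hAab : ⁅A₀, A₀⁆ ≤ Subgroup.centralizer (V : Set Ω) := by
    rw [Subgroup.commutator_le]
    intro a ha b hb
    rw [commutatorElement_eq_one_iff_mul_comm.mpr (congrArg Subtype.val (hEab.1.is_comm.comm ⟨a, hA₀E ha⟩ ⟨b, hA₀E hb⟩))]
    exact one_mem _
  have hne : ⁅V, A₀⁆ ≠ ⊥ := by
    intro h
    rw [Subgroup.commutator_eq_bot_iff_le_centralizer] at h
    apply hA₀1
    rw [eq_bot_iff, ← hfaith]
    exact le_inf (hA₀E.trans hEG) (Subgroup.le_centralizer_iff.mp h)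
  set B₀ := A₀ ⊓ Subgroup.centralizer ((⁅V, A₀⁆ : Subgroup Ω) : Set Ω) with hB₀
  have hBoff : PLocal.offVal V B₀ = PLocal.offVal V A₀ :=
    (PLocal.timmesfeld V A₀ hV.1 (hVA A₀ hA₀E) hAab hA₀max V le_rfl).2
  have hB1 : B₀ ≠ ⊥ := fun h => PLocal.commutator_replacement_ne_bot hV (hVA A₀ hA₀E)
    ⟨hA₀max, hAab, fun a ha => by rw [hEab.2 a (hA₀E ha)]; exact one_mem _⟩ (le_refl V) hne
    (by rw [← hB₀, h, Subgroup.commutator_bot_right])
  let BΓ : Subgroup ↥G := B₀.subgroupOf G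
  have hBG : B₀ ≤ G := (inf_le_left.trans hA₀E).trans hEG
  have hzero : ∀ a ∈ BΓ, ∀ b ∈ BΓ, (ρ a - 1) * (ρ b - 1) = 0 := by
    intro a ha b hb
    refine LinearMap.ext fun v => ?_
    rw [Module.End.mul_apply, LinearMap.zero_apply, hfix]
    have hw : (((ρ b - 1) v).toMul : Ω) ∈ ⁅V, A₀⁆ := by
      have e : (((ρ b - 1) v).toMul : Ω) = ⁅(b : Ω), (v.toMul : Ω)⁆ := by
        rw [LinearMap.sub_apply, Module.End.one_apply, toMul_sub, Subgroup.coe_div, hρv, commutatorElement_def,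
          div_eq_mul_inv]
      rw [e, Subgroup.commutator_comm]
      exact Subgroup.commutator_mem_commutator hb.1 v.toMul.2
    exact (Subgroup.mem_centralizer_iff.mp ha.2 _ hw).symm
  let L₀ : AddSubgroup (Module.End (ZMod p) (Additive ↥V)) :=
    { carrier := {x | ∃ b ∈ BΓ, x = ρ b - 1}
      zero_mem' := ⟨1, one_mem _, by simp⟩
      add_mem' := by
        rintro _ _ ⟨a, ha, rfl⟩ ⟨b, hb, rfl⟩
        refine ⟨a * b, mul_mem ha hb, ?_⟩
        have e : ρ (a * b) - 1 = (ρ a - 1) + (ρ b - 1) + (ρ a - 1) * (ρ b - 1) := by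
          simp only [map_mul, sub_mul, mul_sub, one_mul, mul_one]; abel
        rw [e, hzero a ha b hb, add_zero]
      neg_mem' := by
        rintro _ ⟨a, ha, rfl⟩
        refine ⟨a⁻¹, inv_mem ha, ?_⟩
        have h := hzero a ha a⁻¹ (inv_mem ha)
        have e : ρ (a * a⁻¹) - 1 = (ρ a - 1) + (ρ a⁻¹ - 1) + (ρ a - 1) * (ρ a⁻¹ - 1) := by
          simp only [map_mul, sub_mul, mul_sub, one_mul, mul_one]; abel
        rw [h, add_zero, mul_inv_cancel, map_one, sub_self] at e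
        exact neg_eq_of_add_eq_zero_right e.symm }
  let L := L₀.toZModSubmodule p
  have hBL : ∀ b, b ∈ BΓ ↔ ρ b - 1 ∈ L := fun b => ⟨fun hb => ⟨b, hb, rfl⟩, by
    rintro ⟨b', hb', h⟩
    rwa [hρ (sub_left_injective h)]⟩
  have hLg : ∀ x ∈ L, ∃ g, ρ g = 1 + x := by
    rintro x ⟨b, -, rfl⟩
    exact ⟨b, (add_sub_cancel _ _).symm⟩
  have hmap : BΓ.map G.subtype = B₀ := Subgroup.map_subgroupOf_eq_of_le hBG
  have hLO : Cfsg.Agent.Transfer.QuadLimit.IsLO ρ L := by
    refine ⟨fun h => hB1 ?_, ?_, hLg, ?_⟩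
    · rw [eq_bot_iff]
      intro b hb
      have : ρ ⟨b, hBG hb⟩ - 1 ∈ L := (hBL _).mp hb
      rw [h, Submodule.mem_bot, sub_eq_zero] at this
      exact Subgroup.mem_bot.mpr (congrArg Subtype.val (hρ1 _ this))
    · rintro _ ⟨a, ha, rfl⟩ _ ⟨b, hb, rfl⟩
      exact hzero a ha b hb
    · obtain ⟨h1, h2⟩ := bridge BΓ L hBL hLg
      rw [hmap] at h1 h2
      have h3 := hA₀off.trans hBoff.ge
      rw [PLocal.offVal, h1, h2, (hcard 0 0).1, Module.natCard_eq_pow_finrank (K := ZMod p) (V := ↥L),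
        Module.natCard_eq_pow_finrank (K := ZMod p) (V := ↥(⨅ x : ↥L, LinearMap.ker (x : Module.End (ZMod p) (Additive ↥V)))),
        Nat.card_zmod] at h3
      exact (hcard _ _).2.mp h3
  obtain ⟨M, ⟨hM0, hMz, hMg, hMc⟩, hMn⟩ :=
    Cfsg.Agent.Transfer.QuadLimit.exists_normal_in_closure ρ hp hρ hG ⟨L, hLO⟩
  let AΓ : Subgroup ↥G :=
    { carrier := {a | ρ a - 1 ∈ M}
      one_mem' := by simp
      mul_mem' := fun {a b} ha hb => by
        show ρ (a * b) - 1 ∈ M
        have e : ρ (a * b) - 1 = (ρ a - 1) + (ρ b - 1) + (ρ a - 1) * (ρ b - 1) := by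
          simp only [map_mul, sub_mul, mul_sub, one_mul, mul_one]; abel
        rw [e, hMz _ ha _ hb, add_zero]
        exact add_mem ha hb
      inv_mem' := fun {a} ha => by
        show ρ a⁻¹ - 1 ∈ M
        obtain ⟨g, hg⟩ := hMg _ (neg_mem ha)
        have : g = a⁻¹ := by
          refine eq_inv_of_mul_eq_one_left (hρ1 _ ?_)
          have e : ρ (g * a) = 1 + (-(ρ a - 1)) + (ρ a - 1) + (-(ρ a - 1)) * (ρ a - 1) := by
            rw [map_mul, hg]; simp only [neg_mul, sub_mul, add_mul, mul_sub, one_mul, mul_one, neg_sub]; abel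
          rw [e, hMz _ (neg_mem ha) _ ha, add_zero]; abel
        rw [← this, hg, add_sub_cancel_left]
        exact neg_mem ha }
  have hAM : ∀ b, b ∈ AΓ ↔ ρ b - 1 ∈ M := fun b => Iff.rfl
  obtain ⟨hA1, hA2⟩ := bridge AΓ M hAM hMg
  refine ⟨AΓ.map G.subtype, Subgroup.map_subtype_le _, fun h => hM0 ?_, ⟨⟨⟨?_⟩⟩, ?_⟩, ?_, ?_, ?_⟩
  · rw [eq_bot_iff]
    intro x hx
    obtain ⟨g, hg⟩ := hMg x hx
    have hgA : g ∈ AΓ := by rw [hAM, hg, add_sub_cancel_left]; exact hx
    have : (g : Ω) ∈ AΓ.map G.subtype := ⟨g, hgA, rfl⟩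
    rw [h, Subgroup.mem_bot] at this
    rw [show g = 1 from Subtype.ext this, map_one] at hg
    exact (Submodule.mem_bot _).mpr (by simpa using hg.symm)
  · rintro ⟨_, a, ha, rfl⟩ ⟨_, b, hb, rfl⟩
    apply Subtype.ext
    show (a : Ω) * b = b * a
    have e : ρ (a * b) = ρ (b * a) := by
      have h1 := hMz _ ha _ hb
      have h2 := hMz _ hb _ ha
      simp only [sub_mul, mul_sub, one_mul, mul_one] at h1 h2
      rw [sub_sub, sub_eq_zero] at h1 h2
      rw [map_mul, map_mul, h1, h2]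
      abel
    exact congrArg Subtype.val (hρ e)
  · rintro _ ⟨a, ha, rfl⟩
    show (a : Ω) ^ p = 1
    have hpow : ∀ n : ℕ, ρ a ^ n = 1 + n • (ρ a - 1) := by
      intro n
      induction n with
      | zero => simp
      | succ n ih =>
        rw [pow_succ, ih]
        have h1 : (n • (ρ a - 1)) * (ρ a - 1) = 0 := by rw [smul_mul_assoc, hMz _ ha _ ha, smul_zero]
        calc (1 + n • (ρ a - 1)) * ρ a = ρ a + n • (ρ a - 1) + (n • (ρ a - 1)) * (ρ a - 1) := by
              rw [mul_sub, mul_one, add_mul, one_mul]; abel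
          _ = _ := by rw [h1, succ_nsmul]; abel
    have : ρ (a ^ p) = 1 := by
      rw [map_pow, hpow, ← Nat.cast_smul_eq_nsmul (ZMod p), ZMod.natCast_self, zero_smul, add_zero]
    exact congrArg Subtype.val (hρ1 _ this)
  · rw [hA1, hA2, (hcard 0 0).1, Module.natCard_eq_pow_finrank (K := ZMod p) (V := ↥M),
      Module.natCard_eq_pow_finrank (K := ZMod p) (V := ↥(⨅ x : ↥M, LinearMap.ker (x : Module.End (ZMod p) (Additive ↥V)))),
      Nat.card_zmod]
    exact (hcard _ _).2.mpr hMc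
  · rw [Subgroup.commutator_eq_bot_iff_le_centralizer, Subgroup.commutator_le]
    rintro v hv _ ⟨a, ha, rfl⟩
    rw [Subgroup.mem_centralizer_iff]
    rintro _ ⟨b, hb, rfl⟩
    have e : (((ρ a - 1) (Additive.ofMul ⟨v, hv⟩)).toMul : Ω) = ⁅v, (a : Ω)⁆⁻¹ := by
      rw [LinearMap.sub_apply, Module.End.one_apply, toMul_sub, Subgroup.coe_div, hρv, commutatorElement_def,
        div_eq_mul_inv]
      simp [mul_assoc]
    have h0 := (hfix b _).mp (show (ρ b - 1) ((ρ a - 1) (Additive.ofMul ⟨v, hv⟩)) = 0 by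
      rw [← Module.End.mul_apply, hMz _ hb _ ha, LinearMap.zero_apply])
    rw [e] at h0
    exact (Commute.inv_right_iff.mp (h0 : Commute (b : Ω) _)).eq
  · intro g hg x hx
    obtain ⟨a, ha, rfl⟩ := hx
    have hsub : Subgroup.closure {x : Ω | ∃ h ∈ G, ∃ a ∈ AΓ.map G.subtype, x = h * a * h⁻¹} ≤
        (Subgroup.closure {d : ↥G | ∃ h a, ρ a - 1 ∈ M ∧ d = h * a * h⁻¹}).map G.subtype := by
      rw [MonoidHom.map_closure]
      refine Subgroup.closure_mono ?_
      rintro _ ⟨h, hh, _, ⟨b, hb, rfl⟩, rfl⟩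
      exact ⟨⟨h, hh⟩ * b * ⟨h, hh⟩⁻¹, ⟨_, b, hb, rfl⟩, rfl⟩
    obtain ⟨n, hn, rfl⟩ := hsub hg
    refine ⟨n * a * n⁻¹, ?_, rfl⟩
    show ρ (n * a * n⁻¹) - 1 ∈ M
    have := hMn n hn _ ha
    rwa [mul_sub, mul_one, sub_mul, ← map_mul, ← map_mul, ← map_mul, mul_inv_cancel, map_one] at this

end Cfsg.Agent.S1935
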