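import Cfsg.Statements.S1936
import Cfsg.Agent.Transfer.PPrimeExp.Main

set_option autoImplicit false
open Cfsg

namespace Cfsg.Agent.S1936

/-- Let p be a prime and G a finite group in which every subgroup of order prime to p is abelian of exponent dividing p − 1. Then G is solvable. -/
theorem result {G : Type*} [Group G] [Finite G] (p : ℕ) [Fact p.Prime] (h : ∀ H : Subgroup G, (Nat.card ↥H).Coprime p → IsMulCommutative ↥H ∧ ∀ x ∈ H, x ^ (p - 1) = 1) : Group.IsSolvable G := by
  exact Cfsg.Agent.Transfer.PPrimeExp.isSolvable_main (Nat.card G) rfl (Fact.out : p.Prime) h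

end Cfsg.Agent.S1936
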