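import Cfsg.Statements.S1939
import Cfsg.Agent.Coprime.Conjugacy

set_option autoImplicit false
open Cfsg
open scoped commutatorElement

namespace Cfsg.Agent.S1939

namespace Transfer

theorem burnside_fusion_elem' {G : Type*} [Group G] [Finite G] {p : ℕ} [Fact p.Prime] (S : Sylow p G) {a : G}
    (haS : a ∈ (S : Subgroup G)) (hwc : ∀ g : G, g * a * g⁻¹ ∈ (S : Subgroup G) → g * a * g⁻¹ = a)
    (hcen : ∀ s ∈ (S : Subgroup G), a * s = s * a) (g : G) (n : ℕ)
    (hg : g * a ^ n * g⁻¹ ∈ (S : Subgroup G)) : g * a ^ n * g⁻¹ = a ^ n ∧ True := by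
  set b := g * a ^ n * g⁻¹ with hb
  set C := Subgroup.centralizer ({b} : Set G) with hC
  have haC : a ∈ C := by rw [hC, Subgroup.mem_centralizer_singleton_iff]; exact hcen b hg
  have hgaC : g * a * g⁻¹ ∈ C := by
    rw [hC, Subgroup.mem_centralizer_singleton_iff, hb]
    have h2 : a * a ^ n = a ^ n * a := (Commute.self_pow a n).eq
    calc g * a * g⁻¹ * (g * a ^ n * g⁻¹) = g * (a * a ^ n) * g⁻¹ := by group
      _ = g * a ^ n * g⁻¹ * (g * a * g⁻¹) := by rw [h2]; group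
  have hz : ∀ y : G, y ∈ C → (∃ k : G, y = k * a * k⁻¹) → IsPGroup p (Subgroup.zpowers y) := by
    rintro y - ⟨k, rfl⟩
    have : Subgroup.zpowers (k * a * k⁻¹) = (Subgroup.zpowers a).map (MulAut.conj k).toMonoidHom := by
      rw [MonoidHom.map_zpowers]; rfl
    rw [this]
    exact (S.2.to_le (Subgroup.zpowers_le.mpr haS)).map _
  obtain ⟨T, hT⟩ := ((hz a haC ⟨1, by simp⟩).comap_subtype (K := C)).exists_le_sylow
  obtain ⟨T', hT'⟩ := ((hz _ hgaC ⟨g, rfl⟩).comap_subtype (K := C)).exists_le_sylow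
  obtain ⟨h, hh⟩ := MulAction.exists_smul_eq C T' T
  have haT : (⟨a, haC⟩ : C) ∈ (T : Subgroup C) := hT (Subgroup.mem_zpowers a)
  have hgT : h * ⟨g * a * g⁻¹, hgaC⟩ * h⁻¹ ∈ (T : Subgroup C) := by
    rw [← hh, Sylow.coe_subgroup_smul]
    exact Subgroup.mem_smul_pointwise_iff_exists _ _ _ |>.mpr
      ⟨_, hT' (Subgroup.mem_zpowers (g * a * g⁻¹)), rfl⟩
  obtain ⟨R, hR⟩ := (T.2.map C.subtype).exists_le_sylow
  obtain ⟨k, hk⟩ := MulAction.exists_smul_eq G R S
  have inS : ∀ y : C, y ∈ (T : Subgroup C) → k * y * k⁻¹ ∈ (S : Subgroup G) := by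
    intro y hy
    rw [← hk, Sylow.coe_subgroup_smul]
    exact Subgroup.mem_smul_pointwise_iff_exists _ _ _ |>.mpr ⟨_, hR ⟨y, hy, rfl⟩, rfl⟩
  have h1 : k * a * k⁻¹ = a := hwc k (inS _ haT)
  have h2 : k * ((h : G) * (g * a * g⁻¹) * (h : G)⁻¹) * k⁻¹ = a := by
    have h3 : k * ((h : G) * (g * a * g⁻¹) * (h : G)⁻¹) * k⁻¹ = k * h * g * a * (k * h * g)⁻¹ := by group
    rw [h3]
    exact hwc _ (by rw [← h3]; exact inS _ hgT)
  have h4 : (h : G) * (g * a * g⁻¹) * (h : G)⁻¹ = a := by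
    have e1 : k⁻¹ * (k * ((h : G) * (g * a * g⁻¹) * (h : G)⁻¹) * k⁻¹) * k = k⁻¹ * (k * a * k⁻¹) * k := by
      rw [h2, h1]
    simpa [mul_assoc] using e1
  have h5 : (h : G) * b * (h : G)⁻¹ = a ^ n := by
    rw [hb, ← conj_pow, ← conj_pow, h4]
  have h6 : (h : G) * b * (h : G)⁻¹ = b := by
    rw [Subgroup.mem_centralizer_singleton_iff.mp h.2, mul_inv_cancel_right]
  exact ⟨h6.symm.trans h5, trivial⟩

end Transfer


/-- Let S be a Sylow p-subgroup of the finite group G and a an element of S that is the only G-conjugate of a lying in S. Then every power of a has the same property: for every n, the only G-conjugate of a^n lying in S is a^n. -/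
theorem result {G : Type*} [Group G] [Finite G] {p : ℕ} [Fact p.Prime] (S : Sylow p G) (a : G)
    (haS : a ∈ (S : Subgroup G)) (hwc : ∀ g : G, g * a * g⁻¹ ∈ (S : Subgroup G) → g * a * g⁻¹ = a) (n : ℕ) :
    ∀ g : G, g * a ^ n * g⁻¹ ∈ (S : Subgroup G) → g * a ^ n * g⁻¹ = a ^ n := by
  intro g hg
  have hcen : ∀ s ∈ (S : Subgroup G), a * s = s * a := fun s hs => by
    have := hwc s ((S : Subgroup G).mul_mem ((S : Subgroup G).mul_mem hs haS) ((S : Subgroup G).inv_mem hs))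
    exact (mul_inv_eq_iff_eq_mul.mp this).symm
  exact (Transfer.burnside_fusion_elem' S haS hwc hcen g n hg).1

end Cfsg.Agent.S1939
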