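import Cfsg.Statements.S1940
import Mathlib.Algebra.GroupWithZero.Action.Basic
import Mathlib.Algebra.BigOperators.GroupWithZero.Action
import Mathlib.GroupTheory.Sylow

set_option autoImplicit false
open Cfsg
open scoped commutatorElement

namespace Cfsg.Agent.S1940

/-- Let the finite group L act by automorphisms on the finite abelian group M, and let N be an L-invariant subgroup of M such that M/N is a p-group on which L acts trivially (every l • m lies in the coset mN). If every element of M is a product of an element of N and an element fixed by a Sylow p-subgroup T of L, then every element of M is a product of an element of N and an element fixed by all of L. -/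
theorem result {L : Type*} [Group L] [Finite L] {M : Type*} [CommGroup M] [Finite M] [MulDistribMulAction L M]
    {p : ℕ} [Fact p.Prime] (N : Subgroup M) (hN : ∀ (l : L) (m : M), m ∈ N → l • m ∈ N)
    (hquot : IsPGroup p (M ⧸ N)) (htriv : ∀ (l : L) (m : M), (l • m) * m⁻¹ ∈ N) (T : Sylow p L)
    (hT : ∀ m : M, ∃ n ∈ N, ∃ c : M, (∀ t ∈ (T : Subgroup L), t • c = c) ∧ m = n * c) :
    ∀ m : M, ∃ n ∈ N, ∃ c : M, (∀ l : L, l • c = c) ∧ m = n * c := by
  classical
  intro m
  obtain ⟨k, hkc⟩ : ∃ k : ℕ, k = (T : Subgroup L).index := ⟨_, rfl⟩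
  have hk : ¬ p ∣ k := hkc ▸ T.not_dvd_index
  obtain ⟨n₀, hn₀, c, hc, hm⟩ := hT m
  haveI : Fintype (L ⧸ (T : Subgroup L)) := Fintype.ofFinite _
  let f : L ⧸ (T : Subgroup L) → M := Quotient.lift (fun l => l • c) (fun a b hab => by
    have h1 : a⁻¹ * b ∈ (T : Subgroup L) := QuotientGroup.leftRel_apply.mp hab
    have h2 := hc _ h1
    rw [← smul_smul, inv_smul_eq_iff] at h2
    exact h2.symm)
  set tr := ∏ q, f q with htr
  have hfix : ∀ l : L, l • tr = tr := by
    intro l
    rw [htr, Finset.smul_prod']
    exact Fintype.prod_equiv (MulAction.toPerm l) _ _ fun q => by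
      induction q using Quotient.inductionOn with
      | h a => exact smul_smul l a c
  have hq : QuotientGroup.mk' N tr = QuotientGroup.mk' N m ^ k := by
    have h1 : ∀ q, QuotientGroup.mk' N (f q) = QuotientGroup.mk' N m := by
      intro q
      induction q using Quotient.inductionOn with
      | h a =>
        show QuotientGroup.mk' N (a • c) = _
        rw [hm, map_mul, (QuotientGroup.eq_one_iff n₀).mpr hn₀ |> fun h => (show QuotientGroup.mk' N n₀ = 1 from h), one_mul]
        have := (QuotientGroup.eq_one_iff (N := N) ((a • c) * c⁻¹)).mpr (htriv a c)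
        rw [← QuotientGroup.mk'_apply, map_mul, map_inv, mul_inv_eq_one] at this
        exact this
    rw [htr, map_prod, Finset.prod_congr rfl (fun q _ => h1 q), Finset.prod_const, Finset.card_univ,
      ← Nat.card_eq_fintype_card, hkc]
    rfl
  obtain ⟨j, hj⟩ := IsPGroup.iff_card.mp hquot
  obtain ⟨e, he⟩ : ∃ e : ℕ, (QuotientGroup.mk' N m ^ k) ^ e = QuotientGroup.mk' N m := by
    have hcop : k.Coprime (orderOf (QuotientGroup.mk' N m)) :=
      (((Fact.out : p.Prime).coprime_iff_not_dvd.mpr hk).symm.pow_right j).coprime_dvd_right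
        (hj ▸ orderOf_dvd_natCard _)
    exact exists_pow_eq_self_of_coprime hcop
  refine ⟨m * (tr ^ e)⁻¹, ?_, tr ^ e, fun l => by rw [smul_pow', hfix l], by simp⟩
  rw [← QuotientGroup.eq_one_iff, ← QuotientGroup.mk'_apply, map_mul, map_inv, map_pow, hq, he, mul_inv_cancel]

end Cfsg.Agent.S1940
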