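import Cfsg.Statements.S1941
import Cfsg.Agent.Components.FStar
import Cfsg.Agent.Core.Fitting
import Cfsg.Agent.Core.Cores

set_option autoImplicit false
open Cfsg

namespace Cfsg.Agent.S1941

/-- Let G be a finite group with no nontrivial normal subgroup of order prime to p, T a Sylow p-subgroup of G and E(G) the layer of G (the subgroup generated by its components). An automorphism of G of p-power order that fixes T and E(G) elementwise is inner. -/
theorem result {G : Type*} [Group G] [Finite G] {p : ℕ} [Fact p.Prime] (hcore : Cfsg.pPrimeCore p G = ⊥)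
    (T : Sylow p G) (α : MulAut G) (hα : ∃ j : ℕ, orderOf α = p ^ j) (hfixT : ∀ x ∈ (T : Subgroup G), α x = x)
    (hfixE : ∀ x ∈ Cfsg.layer G, α x = x) : ∃ g : G, ∀ x : G, α x = g * x * g⁻¹ := by
    classical
    set E := Cfsg.layer G with hE
    set Fs := Cfsg.generalizedFittingSubgroup G with hFs
    have hFp : Cfsg.fittingSubgroup G = Cfsg.pCore p G := Cfsg.Agent.Core.fittingSubgroup_eq_pCore hcore
    have hfix : ∀ f ∈ Fs, α f = f := by
      have h1 : Fs ≤ α.toMonoidHom.eqLocus (MonoidHom.id G) :=
        sup_le (fun x hx => hfixE x hx) (fun x hx => hfixT x (Cfsg.Agent.Core.pCore_le_sylow T (hFp ▸ hx)))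
      exact fun f hf => h1 hf
    haveI hFsn : Fs.Normal := Cfsg.Agent.Components.generalizedFitting_normal
    set Z := Fs ⊓ Subgroup.centralizer (Fs : Set G) with hZdef
    haveI hZn : Z.Normal := inferInstance
    have hd : ∀ g : G, α g * g⁻¹ ∈ Z := by
      intro g
      have hc : α g * g⁻¹ ∈ Subgroup.centralizer (Fs : Set G) := by
        rw [Subgroup.mem_centralizer_iff]
        intro f hf
        have hf' : g⁻¹ * f * g ∈ Fs := by simpa using hFsn.conj_mem f hf g⁻¹
        have h1 := hfix _ hf'
        simp only [map_mul, map_inv, hfix f hf] at h1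
        calc f * (α g * g⁻¹) = α g * ((α g)⁻¹ * f * α g) * g⁻¹ := by group
          _ = α g * (g⁻¹ * f * g) * g⁻¹ := by rw [h1]
          _ = α g * g⁻¹ * f := by group
      exact Subgroup.mem_inf.2 ⟨Cfsg.Agent.Components.centralizer_generalizedFitting_le hc, hc⟩
    haveI hZc : IsMulCommutative ↥Z := ⟨⟨fun a b => Subtype.ext
      (Subgroup.mem_centralizer_iff.mp (Subgroup.mem_inf.1 b.2).2 (a : G) (Subgroup.mem_inf.1 a.2).1)⟩⟩
    open scoped IsMulCommutative in
    have hZp : IsPGroup p ↥Z := by
      refine (Cfsg.Agent.Core.isPGroup_pCore p G).to_le ?_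
      rw [← hFp]
      exact Cfsg.Agent.Components.le_fitting hZn CommGroup.isNilpotent
    open scoped IsMulCommutative in
    have key : ∃ v : ↥Z, ∀ g : G, α g * g⁻¹ = (v : G) * g * (v : G)⁻¹ * g⁻¹ := by
      have hcop : (Nat.card ↥Z).Coprime (T : Subgroup G).index := by
        obtain ⟨k, hk⟩ := IsPGroup.iff_card.mp hZp
        rw [hk]
        exact Nat.Coprime.pow_left _ ((Nat.Prime.coprime_iff_not_dvd Fact.out).2 T.not_dvd_index)
      haveI : Fintype (G ⧸ (T : Subgroup G)) := Fintype.ofFinite _
      let c : G → (↥Z →* ↥Z) := fun g =>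
        { toFun := fun z => ⟨g * (z : G) * g⁻¹, hZn.conj_mem _ z.2 g⟩
          map_one' := Subtype.ext (by simp)
          map_mul' := fun a b => Subtype.ext (by simp only [Subgroup.coe_mul]; group) }
      let d : G ⧸ (T : Subgroup G) → ↥Z := fun q => Quotient.liftOn' q (fun h => ⟨α h * h⁻¹, hd h⟩)
        (fun a b hab => Subtype.ext (by
          rw [QuotientGroup.leftRel_apply] at hab
          have h1 := hfixT _ hab
          rw [map_mul, map_inv] at h1
          show α a * a⁻¹ = α b * b⁻¹
          calc α a * a⁻¹ = α a * ((α a)⁻¹ * α b) * ((a⁻¹ * b)⁻¹) * a⁻¹ := by rw [h1]; group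
            _ = α b * b⁻¹ := by group))
      set w : ↥Z := ∏ q, d q with hw
      refine ⟨(powCoprime hcop).symm w, fun g => ?_⟩
      set v := (powCoprime hcop).symm w with hv
      have hvn : v ^ (T : Subgroup G).index = w := (powCoprime hcop).apply_symm_apply w
      have hsum : w = (⟨α g * g⁻¹, hd g⟩ : ↥Z) ^ (T : Subgroup G).index * c g w := by
        have h1 : ∀ q : G ⧸ (T : Subgroup G), d (g • q) = (⟨α g * g⁻¹, hd g⟩ : ↥Z) * c g (d q) := by
          intro q
          induction q using QuotientGroup.induction_on with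
          | H h =>
            refine Subtype.ext ?_
            show α (g * h) * (g * h)⁻¹ = α g * g⁻¹ * (g * (α h * h⁻¹) * g⁻¹)
            rw [map_mul]; group
        calc w = ∏ q, d (g • q) := (Equiv.prod_comp (MulAction.toPerm g) d).symm
          _ = _ := by
            rw [Finset.prod_congr rfl (fun q _ => h1 q), Finset.prod_mul_distrib, Finset.prod_const,
              Finset.card_univ, ← map_prod, ← Nat.card_eq_fintype_card]
            rfl
      have h2 : (powCoprime hcop) v = (powCoprime hcop) ((⟨α g * g⁻¹, hd g⟩ : ↥Z) * c g v) := by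
        show v ^ (T : Subgroup G).index = ((⟨α g * g⁻¹, hd g⟩ : ↥Z) * c g v) ^ (T : Subgroup G).index
        rw [mul_pow, ← map_pow (c g) v, hvn]
        exact hsum
      have h3 := congrArg Subtype.val ((powCoprime hcop).injective h2)
      have h4 : (v : G) = α g * g⁻¹ * (g * (v : G) * g⁻¹) := h3
      calc α g * g⁻¹ = (α g * g⁻¹ * (g * (v : G) * g⁻¹)) * g * (v : G)⁻¹ * g⁻¹ := by group
        _ = _ := by rw [← h4]
    obtain ⟨v, hv⟩ := key
    exact ⟨v, fun g => mul_right_cancel (hv g)⟩

end Cfsg.Agent.S1941
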