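import Cfsg.Statements.S1946
import Cfsg.Agent.TwoGroups.SmallFusion

set_option autoImplicit false
open Cfsg

namespace Cfsg.Agent.S1946

/-- Let P be a Sylow p-subgroup of the finite group G. Then G has a normal p-complement if and only if P controls the fusion of its elements of order dividing p (dividing 4 when p = 2): whenever such an element a of P has a G-conjugate g a g⁻¹ in P, that conjugate is already x a x⁻¹ for some x in P. -/
theorem result {G : Type*} [Group G] [Finite G] {p : ℕ} [Fact p.Prime] (P : Sylow p G) :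
    Cfsg.HasNormalPComplement p G ↔
      ∀ a ∈ (P : Subgroup G), (a ^ p = 1 ∨ (p = 2 ∧ a ^ 4 = 1)) → ∀ g : G, g * a * g⁻¹ ∈ (P : Subgroup G) →
        ∃ x ∈ (P : Subgroup G), g * a * g⁻¹ = x * a * x⁻¹ := by
  refine ⟨fun h a ha _ g hg => ?_, fun h => TwoGroups.SmallFusion.hasNPC_of_fusion P fun a ha hs g hg => h a ha hs g hg⟩
  have hsup := Transfer.sylow_sup_pResidual (G := G) P
  have hdisj := (Transfer.inf_pResidual_eq_bot_iff P).2 h
  obtain ⟨s, hs, k, hk, rfl⟩ := Subgroup.mem_sup_of_normal_right.1 (hsup.symm ▸ Subgroup.mem_top g :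
    g ∈ (P : Subgroup G) ⊔ pResidual p G)
  refine ⟨s, hs, ?_⟩
  have h1 : k * a * k⁻¹ * a⁻¹ ∈ (P : Subgroup G) ⊓ pResidual p G := by
    refine Subgroup.mem_inf.2 ⟨?_, ?_⟩
    · have := mul_mem (mul_mem (mul_mem (inv_mem hs) hg) hs) (inv_mem ha)
      simpa [mul_assoc] using this
    · rw [mul_assoc, mul_assoc, ← mul_assoc a]
      exact mul_mem hk ((inferInstance : (pResidual p G).Normal).conj_mem _ (inv_mem hk) a)
  rw [hdisj, Subgroup.mem_bot, mul_inv_eq_one] at h1
  calc s * k * a * (s * k)⁻¹ = s * (k * a * k⁻¹) * s⁻¹ := by group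
    _ = s * a * s⁻¹ := by rw [h1]

end Cfsg.Agent.S1946
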