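import Cfsg.Statements.S1949
import Cfsg.Agent.OddLocal.RankTwo.Omega
import Cfsg.Agent.TwoGroups.OddRankTwo
import Cfsg.Agent.Transfer.Basic

set_option autoImplicit false
open Cfsg

namespace Cfsg.Agent.S1949

open Cfsg.Agent
open scoped commutatorElement

theorem char_mem_iff {P : Type*} [Group P] (K : Subgroup P) [hK : K.Characteristic] (α : MulAut P) (x : P) :
    α x ∈ K ↔ x ∈ K :=
  SetLike.ext_iff.mp (Subgroup.characteristic_iff_comap_eq.mp hK α) x

theorem coprime_part {M : Type*} [Group M] [Finite M] {p : ℕ} [hp : Fact p.Prime] (a : M) :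
    ∃ k : ℕ, (orderOf (a ^ p ^ k)).Coprime p ∧ (a ^ p ^ k = 1 → ∃ j, orderOf a = p ^ j) := by
  obtain ⟨k, n, hn, hord⟩ := Nat.exists_eq_pow_mul_and_not_dvd (orderOf_pos a).ne' p hp.out.ne_one
  refine ⟨k, ?_, fun h => ?_⟩
  · refine Nat.Coprime.coprime_dvd_left (orderOf_dvd_of_pow_eq_one (n := n) ?_)
      (hp.out.coprime_iff_not_dvd.mpr hn).symm
    rw [← pow_mul, ← hord, pow_orderOf_eq_one]
  · obtain ⟨j, -, hj⟩ := (Nat.dvd_prime_pow hp.out).1 (orderOf_dvd_of_pow_eq_one h)
    exact ⟨j, hj⟩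

theorem mul_pow_sq {P : Type*} [Group P] {a b : P} (hca : Commute ⁅b, a⁆ a) (hcb : Commute ⁅b, a⁆ b)
    (hc : ⁅b, a⁆ ^ 2 = 1) : (a * b) ^ 4 = a ^ 4 * b ^ 4 := by
  rw [TwoGroups.OddRankTwo.mul_pow_choose (c := ⁅b, a⁆) (by rw [commutatorElement_def]; group) hca hcb 4,
    show Nat.choose 4 2 = 2 * 3 by rfl, pow_mul, hc, one_pow, mul_one]

theorem main {P : Type*} [Group P] [Finite P] {p : ℕ} [hp : Fact p.Prime] (hP : IsPGroup p P)
    (G : Subgroup (MulAut P)) (hG : Cfsg.Inn P ≤ G) :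
    ∃ D : Subgroup P,
      (∀ α ∈ G, D.map α.toMonoidHom = D) ∧
      D ≤ Subgroup.closure {y : P | ∃ α ∈ Cfsg.pResidual p ↥G, ∃ x : P, y = x⁻¹ * (α : MulAut P) x} ∧
      (∀ d ∈ D, d ^ p = 1 ∨ (p = 2 ∧ d ^ 4 = 1)) ∧
      ⁅D, (⊤ : Subgroup P)⁆ ≤ D ⊓ Subgroup.centralizer (D : Set P) ∧
      (∀ α ∈ G, (orderOf α).Coprime p → (∀ d ∈ D, α d = d) → α = 1) ∧
      ∀ A : Subgroup P, A ≤ D → IsMulCommutative ↥A →
        (∀ B : Subgroup P, A ≤ B → B ≤ D → IsMulCommutative ↥B → B = A) →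
        A.Normal ∧ ∀ α ∈ G, (∀ a ∈ A, α a = a) → ∃ k : ℕ, orderOf α = p ^ k := by
  classical
  set H := Subgroup.closure {y : P | ∃ α ∈ Cfsg.pResidual p ↥G, ∃ x : P, y = x⁻¹ * (α : MulAut P) x} with hH
  obtain ⟨D0, A0, hD0c, hA0, hD0A, hCD0, hpow, hcomm⟩ := OddLocal.RankTwo.exists_critical hP
  haveI := hD0c
  have hresn : (Cfsg.pResidual p ↥G).Normal := inferInstance
  have hHinv : ∀ α ∈ G, ∀ h ∈ H, α h ∈ H := by
    intro α hα h hh
    induction hh using Subgroup.closure_induction with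
    | mem y hy =>
      obtain ⟨β, hβ, x, rfl⟩ := hy
      refine Subgroup.subset_closure ⟨⟨α, hα⟩ * β * ⟨α, hα⟩⁻¹, hresn.conj_mem β hβ _, α x, ?_⟩
      simp [map_mul]
    | one => simp
    | mul a b _ _ ha hb => rw [map_mul]; exact mul_mem ha hb
    | inv a _ ha => rw [map_inv]; exact inv_mem ha
  have hconj : ∀ g : P, MulAut.conj g ∈ G := fun g => hG ⟨g, rfl⟩
  have hcen : ∀ a ∈ A0, ∀ d ∈ D0, a * d = d * a := fun a ha d hd =>
    Subgroup.mem_centralizer_iff.mp (hD0A hd) a ha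
  have hcp : ∀ x ∈ D0, ∀ y ∈ D0, ⁅x, y⁆ ^ p = 1 := by
    intro x hx y hy
    have hk : ∀ k : ℕ, x ^ k * y * (x ^ k)⁻¹ = ⁅x, y⁆ ^ k * y := by
      intro k
      induction k with
      | zero => simp
      | succ k ih =>
        calc x ^ (k + 1) * y * (x ^ (k + 1))⁻¹ = x * (x ^ k * y * (x ^ k)⁻¹) * x⁻¹ := by
              rw [pow_succ']; group
          _ = x * ⁅x, y⁆ ^ k * x⁻¹ * (x * y * x⁻¹) := by rw [ih]; group
          _ = ⁅x, y⁆ ^ k * (x * y * x⁻¹) := by
              rw [← (hcen _ (pow_mem (hcomm x hx y) k) x hx), mul_inv_cancel_right]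
          _ = ⁅x, y⁆ ^ k * (⁅x, y⁆ * y) := by
              rw [show ⁅x, y⁆ * y = x * y * x⁻¹ by rw [commutatorElement_def]; group]
          _ = ⁅x, y⁆ ^ (k + 1) * y := (mul_assoc _ _ _).symm.trans (by rw [pow_succ])
    have h := hk p
    rw [hcen _ (hpow x hx) y hy, mul_inv_cancel_right] at h
    exact mul_right_cancel (b := y) (by rw [← h, one_mul])
  have hclass : ∀ a ∈ D0, ∀ b ∈ D0, Commute ⁅b, a⁆ a ∧ Commute ⁅b, a⁆ b := fun a ha b hb =>
    ⟨hcen _ (hcomm b hb a) a ha, hcen _ (hcomm b hb a) b hb⟩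
  let e : ℕ := if p = 2 then 4 else p
  have hmul : ∀ a ∈ D0, ∀ b ∈ D0, (a * b) ^ e = a ^ e * b ^ e := by
    intro a ha b hb
    by_cases h2 : p = 2
    · rw [show e = 4 from if_pos h2]
      exact mul_pow_sq (hclass a ha b hb).1 (hclass a ha b hb).2 (h2 ▸ hcp b hb a ha)
    · rw [show e = p from if_neg h2]
      exact TwoGroups.OddRankTwo.mul_pow_prime h2 (hclass a ha b hb).1 (hclass a ha b hb).2 (hcp b hb a ha)
  let D : Subgroup P :=
    { carrier := {x | x ∈ D0 ∧ x ∈ H ∧ x ^ e = 1}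
      one_mem' := ⟨one_mem _, one_mem _, one_pow _⟩
      mul_mem' := fun {a b} ha hb => ⟨mul_mem ha.1 hb.1, mul_mem ha.2.1 hb.2.1, by
        rw [hmul a ha.1 b hb.1, ha.2.2, hb.2.2, one_mul]⟩
      inv_mem' := fun {a} ha => ⟨inv_mem ha.1, inv_mem ha.2.1, by rw [inv_pow, ha.2.2, inv_one]⟩ }
  have hDinv : ∀ α ∈ G, ∀ d ∈ D, α d ∈ D := fun α hα d hd =>
    ⟨(char_mem_iff D0 α d).2 hd.1, hHinv α hα d hd.2.1,
      show (α d) ^ e = 1 by rw [← map_pow, hd.2.2, map_one]⟩
  have hDn : D.Normal := ⟨fun d hd g => by simpa [MulAut.conj_apply] using hDinv _ (hconj g) d hd⟩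
  have hDexp : ∀ x ∈ D0, x ∈ H → x ^ p = 1 → x ∈ D := by
    refine fun x h1 h2 h3 => ⟨h1, h2, ?_⟩
    show x ^ e = 1
    by_cases h : p = 2
    · rw [show e = p * p from (if_pos h).trans (by rw [h]), pow_mul, h3, one_pow]
    · rw [show e = p from if_neg h, h3]
  have hDcomm : ⁅D, (⊤ : Subgroup P)⁆ ≤ D ⊓ Subgroup.centralizer (D : Set P) := by
    refine le_inf (Subgroup.commutator_le_left _ _) ?_
    rw [Subgroup.commutator_le]
    intro d hd g _
    rw [Subgroup.mem_centralizer_iff]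
    exact fun v hv => (hcen _ (hcomm d hd.1 g) v hv.1).symm
  have hfaith : ∀ α ∈ G, (orderOf α).Coprime p → (∀ d ∈ D, α d = d) → α = 1 := by
    intro α hα hcop hfix
    have hres : (⟨α, hα⟩ : G) ∈ Cfsg.pResidual p ↥G :=
      Transfer.mem_pResidual_of_coprime (by rwa [← Subgroup.orderOf_coe])
    have hshiftH : ∀ x : P, x⁻¹ * α x ∈ H := fun x => Subgroup.subset_closure ⟨_, hres, x, rfl⟩
    have hA0fix : ∀ (n : ℕ) (a : P), a ^ p ^ n = 1 → a ∈ A0 → a ∈ H → α a = a := by
      intro n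
      induction n with
      | zero =>
        intro a ha _ _
        rw [pow_zero, pow_one] at ha
        rw [ha, map_one]
      | succ n ih =>
        intro a ha haA haH
        rw [pow_succ', pow_mul] at ha
        have h1 := ih (a ^ p) ha (pow_mem haA p) (pow_mem haH p)
        have hc : Commute a⁻¹ (α a) :=
          Commute.inv_left (hcen a haA (α a) ((char_mem_iff D0 α a).2 (hA0 haA)))
        have hy : (a⁻¹ * α a) ^ p = 1 := by
          rw [hc.mul_pow, ← map_pow, h1, inv_pow, inv_mul_cancel]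
        refine OddLocal.RankTwo.fix_of_shift hP α hcop (hfix _ (hDexp _ ?_ (hshiftH a) hy))
        exact mul_mem (inv_mem (hA0 haA)) ((char_mem_iff D0 α a).2 (hA0 haA))
    have hD1 : ∀ x ∈ D0, x ∈ H → α x = x := by
      intro x hx hxH
      set y := x⁻¹ * α x with hy
      have hy0 : y ∈ D0 := mul_mem (inv_mem hx) ((char_mem_iff D0 α x).2 hx)
      obtain ⟨n, hn⟩ := hP (x ^ p)
      have hxp : α (x ^ p) = x ^ p := hA0fix n _ hn (hpow x hx) (pow_mem hxH p)
      rw [map_pow, show α x = x * y by rw [hy, mul_inv_cancel_left]] at hxp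
      refine OddLocal.RankTwo.fix_of_shift hP α hcop (hfix y ⟨hy0, hshiftH x, ?_⟩)
      by_cases h2 : p = 2
      · show y ^ e = 1
        rw [show e = 4 from if_pos h2]
        subst h2
        have h3 := TwoGroups.OddRankTwo.mul_pow_choose (c := ⁅y, x⁆) (a := x) (b := y)
          (by rw [commutatorElement_def]; group) (hclass x hx y hy0).1 (hclass x hx y hy0).2 2
        rw [hxp, Nat.choose_self, pow_one] at h3
        have h4 : y ^ 2 * ⁅y, x⁆ = 1 := by
          refine mul_left_cancel (a := x ^ 2) ?_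
          rw [mul_one, ← mul_assoc, ← h3]
        rw [show 4 = 2 * 2 from rfl, pow_mul, eq_inv_of_mul_eq_one_left h4, inv_pow, hcp y hy0 x hx, inv_one]
      · show y ^ e = 1
        rw [show e = p from if_neg h2]
        rw [TwoGroups.OddRankTwo.mul_pow_prime h2 (hclass x hx y hy0).1 (hclass x hx y hy0).2
          (hcp y hy0 x hx)] at hxp
        exact mul_left_cancel (a := x ^ p) (hxp.trans (mul_one _).symm)
    have hD0fix : ∀ x ∈ D0, α x = x := fun x hx =>
      OddLocal.RankTwo.fix_of_shift hP α hcop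
        (hD1 _ (mul_mem (inv_mem hx) ((char_mem_iff D0 α x).2 hx)) (hshiftH x))
    refine MulEquiv.ext fun x => ?_
    show α x = x
    refine OddLocal.RankTwo.fix_of_shift hP α hcop (hD0fix _ (hCD0 ?_))
    rw [Subgroup.mem_centralizer_iff]
    intro d hd
    have h1 : x * d * x⁻¹ ∈ D0 := (inferInstance : D0.Normal).conj_mem d hd x
    have h2 := hD0fix _ h1
    rw [map_mul, map_mul, map_inv, hD0fix d hd] at h2
    calc d * (x⁻¹ * α x) = x⁻¹ * (x * d * x⁻¹) * α x := by group
      _ = x⁻¹ * (α x * d * (α x)⁻¹) * α x := by rw [h2]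
      _ = x⁻¹ * α x * d := by group
  refine ⟨D, fun α hα => ?_, fun d hd => hd.2.1, fun d hd => ?_, hDcomm, hfaith, fun A hAD hAc hAmax => ?_⟩
  · refine le_antisymm ?_ fun d hd => ?_
    · rintro _ ⟨d, hd, rfl⟩
      exact hDinv α hα d hd
    · exact ⟨α⁻¹ d, hDinv _ (inv_mem hα) d hd, MulAut.apply_inv_self P α d⟩
  · by_cases h : p = 2
    · refine Or.inr ⟨h, ?_⟩
      have := hd.2.2
      rwa [show e = 4 from if_pos h] at this
    · refine Or.inl ?_
      have := hd.2.2
      rwa [show e = p from if_neg h] at this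
  · have hCA : ∀ x ∈ D, (∀ a ∈ A, x * a = a * x) → x ∈ A := by
      intro x hx hxa
      have hB := hAmax (Subgroup.closure ((A : Set P) ∪ {x})) (fun a ha => Subgroup.subset_closure (Or.inl ha))
        ((Subgroup.closure_le _).2 (Set.union_subset hAD (by simpa using hx)))
        (Subgroup.isMulCommutative_closure (by
          rintro a (ha | rfl) b (hb | rfl)
          · exact congrArg Subtype.val (mul_comm' (⟨a, ha⟩ : A) ⟨b, hb⟩)
          · exact (hxa a ha).symm
          · exact hxa b hb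
          · rfl))
      exact hB ▸ Subgroup.subset_closure (Or.inr rfl)
    have hcA : ∀ a ∈ A, ∀ g : P, ⁅a, g⁆ ∈ A := fun a ha g => by
      refine hCA _ (Subgroup.commutator_le_left D ⊤ (Subgroup.commutator_mem_commutator (hAD ha) (Subgroup.mem_top g)))
        fun b hb => ?_
      exact hcen _ (hcomm a (hAD ha).1 g) b (hAD hb).1
    refine ⟨⟨fun a ha g => ?_⟩, fun α hα hαA => ?_⟩
    · have h := inv_mem (hcA a ha g)
      rw [show g * a * g⁻¹ = (⁅a, g⁆)⁻¹ * a by rw [commutatorElement_def]; group]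
      exact mul_mem h ha
    · obtain ⟨k, hk1, hk2⟩ := coprime_part (p := p) α
      refine hk2 (hfaith _ (pow_mem hα _) hk1 fun d hd => ?_)
      set β := α ^ p ^ k with hβ
      have hβA : ∀ a ∈ A, β a = a := by
        intro a ha
        have : ∀ m : ℕ, (α ^ m) a = a := by
          intro m
          induction m with
          | zero => rfl
          | succ m ih => rw [pow_succ', MulAut.mul_apply, ih, hαA a ha]
        exact this _
      have hshift : d⁻¹ * β d ∈ A := by
        refine hCA _ (mul_mem (inv_mem hd) (hDinv β (pow_mem hα _) d hd)) fun a ha => ?_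
        have h1 : d * a * d⁻¹ ∈ A := by
          rw [show d * a * d⁻¹ = (⁅a, d⁆)⁻¹ * a by rw [commutatorElement_def]; group]
          exact mul_mem (inv_mem (hcA a ha d)) ha
        have h2 := hβA _ h1
        rw [map_mul, map_mul, map_inv, hβA a ha] at h2
        calc d⁻¹ * β d * a = d⁻¹ * (β d * a * (β d)⁻¹) * β d := by group
          _ = d⁻¹ * (d * a * d⁻¹) * β d := by rw [h2]
          _ = a * (d⁻¹ * β d) := by group
      exact OddLocal.RankTwo.fix_of_shift hP β hk1 (hβA _ hshift)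


/-- Let P be a finite p-group and G a group of automorphisms of P containing the inner automorphisms. Then there is a G-invariant subgroup D of P, contained in the subgroup generated by the elements x⁻¹α(x) with x in P and α in O^p(G), of exponent dividing p when p is odd and dividing 4 when p = 2, with [D, P] ≤ Z(D), such that every automorphism in G of order prime to p that fixes D elementwise is the identity; moreover every maximal abelian subgroup A of D is normal in P and every automorphism in G fixing A elementwise has p-power order. -/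
theorem result {P : Type*} [Group P] [Finite P] {p : ℕ} [Fact p.Prime] (hP : IsPGroup p P)
    (G : Subgroup (MulAut P)) (hG : Cfsg.Inn P ≤ G) :
    ∃ D : Subgroup P,
      (∀ α ∈ G, D.map α.toMonoidHom = D) ∧
      D ≤ Subgroup.closure {y : P | ∃ α ∈ Cfsg.pResidual p ↥G, ∃ x : P, y = x⁻¹ * (α : MulAut P) x} ∧
      (∀ d ∈ D, d ^ p = 1 ∨ (p = 2 ∧ d ^ 4 = 1)) ∧
      ⁅D, (⊤ : Subgroup P)⁆ ≤ D ⊓ Subgroup.centralizer (D : Set P) ∧
      (∀ α ∈ G, (orderOf α).Coprime p → (∀ d ∈ D, α d = d) → α = 1) ∧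
      ∀ A : Subgroup P, A ≤ D → IsMulCommutative ↥A →
        (∀ B : Subgroup P, A ≤ B → B ≤ D → IsMulCommutative ↥B → B = A) →
        A.Normal ∧ ∀ α ∈ G, (∀ a ∈ A, α a = a) → ∃ k : ℕ, orderOf α = p ^ k := by
    exact main hP G hG

end Cfsg.Agent.S1949
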