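import Cfsg.Statements.S1951
import Cfsg.Agent.Blocks.Orth
import Cfsg.Agent.Blocks.PrincipalConst
import Cfsg.Agent.Chars.SimpleDegreeTools
import Cfsg.Agent.Core.Cores
import Cfsg.Agent.Core.PiSeparable
import Cfsg.Agent.DegreeGraph.AbelianNormal

/-!
An elementary abelian Sylow subgroup with one class of non-identity elements, `p`-nilpotent
centralisers and `p`-solvable two-generated subgroups forces `p = 2`.

The singular elements form `1/q` of the group (`q = |P|`).  Block orthogonality identifies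
`∑ χ(g) conj χ(x)` over the principal block with `q` times the indicator of the singular elements.
Summing it over the products of `x` with its conjugates and using that at most one of
`x · y, x · y^2, …` is regular gives a lower bound for a cubic sum, and the integrality of
`χ(x)` gives a smaller upper bound unless `p = 2`.
-/

set_option autoImplicit false
set_option linter.unusedSectionVars false
set_option linter.unusedVariables false
set_option linter.style.haveILetI false
open Cfsg
open scoped ComplexConjugate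

namespace Cfsg.Agent.S1951

open Cfsg.Agent

universe u

/-- With a normal `p`-complement, the regular elements are exactly the core elements. -/
theorem core_spec {C : Type u} [Group C] [Finite C] {p : ℕ} [Fact p.Prime]
    (h : HasNormalPComplement p C) :
    (∀ g : C, g ∈ pPrimeCore p C ↔ ¬ p ∣ orderOf g) ∧
      ∃ Q : Sylow p C, Nat.card (pPrimeCore p C) * Nat.card Q = Nat.card C := by
  obtain ⟨Q, N, hN, hc⟩ := h
  haveI := hN
  have hcard : Nat.card N * Nat.card Q = Nat.card C := hc.card_mul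
  have hcop : (Nat.card N).Coprime p := by
    refine ((Fact.out : p.Prime).coprime_iff_not_dvd.2 fun hd => ?_).symm
    rw [Sylow.card_eq_multiplicity] at hcard
    exact Nat.not_dvd_ordCompl (Fact.out : p.Prime) (Nat.card_pos (α := C)).ne'
      (hd.trans (dvd_of_eq (Nat.eq_div_of_mul_eq_left
        (pow_ne_zero _ (Fact.out : p.Prime).ne_zero) hcard)))
  have hle : N ≤ pPrimeCore p C := Core.le_pPrimeCore hN hcop
  have hreg : ∀ g : C, g ∈ pPrimeCore p C → ¬ p ∣ orderOf g := fun g hg hd =>
    Core.not_dvd_card_pPrimeCore p C (hd.trans (Subgroup.orderOf_dvd_natCard _ hg))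
  have hmem : ∀ g : C, ¬ p ∣ orderOf g → g ∈ N := fun g hg => by
    have h1 : orderOf (g : C ⧸ N) ∣ orderOf g := orderOf_map_dvd (QuotientGroup.mk' N) g
    have h2 : orderOf (g : C ⧸ N) ∣ Nat.card Q := by
      rw [← hc.symm.index_eq_card, Subgroup.index_eq_card]
      exact orderOf_dvd_natCard _
    have hcop' : (orderOf g).Coprime (Nat.card Q) := by
      rw [Sylow.card_eq_multiplicity]
      exact Nat.Coprime.pow_right _ ((Fact.out : p.Prime).coprime_iff_not_dvd.2 hg).symm
    exact (QuotientGroup.eq_one_iff g).1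
      (orderOf_eq_one_iff.1 (Nat.eq_one_of_dvd_coprimes hcop' h1 h2))
  have heq : pPrimeCore p C = N := le_antisymm (fun g hg => hmem g (hreg g hg)) hle
  exact ⟨fun g => ⟨hreg g, fun hg => hle (hmem g hg)⟩, Q, by rw [heq, hcard]⟩

/-- A `p`-solvable group with abelian Sylow subgroups generated by `p`-elements has every regular
element in its `p'`-core. -/
theorem regular_mem_core {K : Type u} [Group K] [Finite K] {p : ℕ} [Fact p.Prime]
    (hs : IsPSolvable p K)
    (hab : ∀ Q : Sylow p K, ∀ a ∈ (Q : Subgroup K), ∀ b ∈ (Q : Subgroup K), a * b = b * a)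
    (T : Set K) (hT : Subgroup.closure T = ⊤) (hTp : ∀ t ∈ T, IsPGroup p (Subgroup.zpowers t))
    {g : K} (hg : ¬ p ∣ orderOf g) : g ∈ pPrimeCore p K := by
  set π := QuotientGroup.mk' (pPrimeCore p K) with hπ
  have hsurj : Function.Surjective π := QuotientGroup.mk'_surjective _
  have h0 : pPrimeCore p (K ⧸ pPrimeCore p K) = ⊥ := Core.pPrimeCore_quotient_pPrimeCore p K
  have hC := Core.centralizer_pCore_le (Core.isPSolvable_quotient hs (pPrimeCore p K)) h0
  have htop : pCore p (K ⧸ pPrimeCore p K) = ⊤ := by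
    rw [eq_top_iff, ← Subgroup.map_top_of_surjective π hsurj, ← hT, MonoidHom.map_closure,
      Subgroup.closure_le]
    rintro _ ⟨t, ht, rfl⟩
    have hzp : IsPGroup p (Subgroup.zpowers (π t)) := by
      rw [← MonoidHom.map_zpowers]; exact (hTp t ht).map π
    obtain ⟨R, hR⟩ := hzp.exists_le_sylow
    obtain ⟨Q, rfl⟩ := Sylow.mapSurjective_surjective hsurj p R
    refine hC (Subgroup.mem_centralizer_iff.2 fun c hc => ?_)
    have hcR := Core.pCore_le_sylow (Q.mapSurjective hsurj) hc
    have htR := hR (Subgroup.mem_zpowers (π t))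
    rw [Sylow.coe_mapSurjective] at hcR htR
    obtain ⟨a, ha, rfl⟩ := hcR
    obtain ⟨b, hb, hb'⟩ := htR
    rw [← hb', ← map_mul, ← map_mul, hab Q a ha b hb]
  have hP : IsPGroup p (K ⧸ pPrimeCore p K) := by
    have := Core.isPGroup_pCore p (K ⧸ pPrimeCore p K)
    rw [htop] at this
    exact this.of_equiv Subgroup.topEquiv
  obtain ⟨k, hk⟩ := IsPGroup.iff_orderOf.1 hP (π g)
  refine (QuotientGroup.eq_one_iff g).1 (orderOf_eq_one_iff.1 (?_ : orderOf (π g) = 1))
  rcases k with _ | k
  · simpa using hk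
  · exact absurd ((dvd_pow_self p k.succ_ne_zero).trans (hk ▸ orderOf_map_dvd π g)) hg

section group

variable {G : Type u} [Group G] [Fintype G] {p : ℕ} [Fact p.Prime]

/-- `q` times the number of singular elements is the group order. -/
theorem card_singular [DecidableEq G] (x : G) (hx : orderOf x = p)
    (hall : ∀ g : G, p ∣ orderOf g → IsConj x (Blocks.ppart p g))
    (hNC : HasNormalPComplement p ↥(Subgroup.centralizer ({x} : Set G))) (q : ℕ)
    (hq : ∀ Q : Sylow p ↥(Subgroup.centralizer ({x} : Set G)), Nat.card Q = q) :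
    q * (Finset.univ.filter fun g : G => p ∣ orderOf g).card = Nat.card G := by
  classical
  set C := Subgroup.centralizer ({x} : Set G) with hC
  obtain ⟨hcore, Q, hQ⟩ := core_spec hNC
  rw [hq Q] at hQ
  have hxk : ∃ k : ℕ, orderOf x = p ^ k := ⟨1, by rw [hx, pow_one]⟩
  set F := Finset.univ.filter fun g : G => Blocks.ppart p g = x with hF
  set S := Finset.univ.filter fun g : G => p ∣ orderOf g with hS
  have hFK : F.card = Nat.card (pPrimeCore p C) := by
    rw [Nat.card_eq_fintype_card, ← Finset.card_univ]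
    symm
    refine Finset.card_bij (fun k _ => x * ((k : C) : G)) ?_ ?_ ?_
    · intro k _
      have hcomm : Commute x ((k : C) : G) :=
        (Subgroup.mem_centralizer_singleton_iff.1 (k : C).2).symm
      have hreg : ¬ p ∣ orderOf ((k : C) : G) := by
        rw [Subgroup.orderOf_coe]; exact (hcore _).1 k.2
      simp [hF, Blocks.ppart_mul hcomm hxk hreg]
    · intro a _ b _ hab
      exact Subtype.ext (Subtype.ext (mul_left_cancel hab))
    · intro g hg
      obtain ⟨y, hy, hc, -, hy'⟩ := Blocks.isPPart_ppart (p := p) g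
      rw [(Finset.mem_filter.1 hg).2] at hy hc
      have hyC : y ∈ C := Subgroup.mem_centralizer_singleton_iff.2 hc.eq.symm
      refine ⟨⟨⟨y, hyC⟩, (hcore _).2 ?_⟩, Finset.mem_univ _, hy⟩
      rw [← Subgroup.orderOf_coe]; exact hy'
  have hrow : ∀ a : G,
      (Finset.univ.filter fun g : G => Blocks.ppart p g = a * x * a⁻¹).card = F.card := by
    intro a
    refine Finset.card_bij (fun g _ => a⁻¹ * g * a) ?_ ?_ ?_
    · intro g hg
      have := Blocks.ppart_conj (p := p) a⁻¹ g
      rw [inv_inv, (Finset.mem_filter.1 hg).2] at this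
      simp only [hF, Finset.mem_filter, Finset.mem_univ, true_and, this]
      group
    · intro b _ c _ hbc
      exact mul_left_cancel (mul_right_cancel hbc)
    · intro g hg
      refine ⟨a * g * a⁻¹, ?_, by group⟩
      simp only [Finset.mem_filter, Finset.mem_univ, true_and, Blocks.ppart_conj,
        (Finset.mem_filter.1 hg).2]
  have hcol : ∀ g : G, (Finset.univ.filter fun a : G => Blocks.ppart p g = a * x * a⁻¹).card =
      if g ∈ S then Nat.card C else 0 := by
    intro g
    split_ifs with hg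
    · obtain ⟨a₀, ha₀⟩ := isConj_iff.1 (hall g (Finset.mem_filter.1 hg).2)
      rw [Nat.card_eq_fintype_card, ← Finset.card_univ]
      symm
      refine Finset.card_bij (fun c _ => a₀ * (c : G)) ?_ ?_ ?_
      · intro c _
        have hc : (c : G) * x = x * c := Subgroup.mem_centralizer_singleton_iff.1 c.2
        simp only [Finset.mem_filter, Finset.mem_univ, true_and, mul_inv_rev, ← ha₀]
        rw [show a₀ * (c : G) * x * ((c : G)⁻¹ * a₀⁻¹) = a₀ * ((c : G) * x * (c : G)⁻¹) * a₀⁻¹ by
          group, hc, mul_inv_cancel_right]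
      · intro a _ b _ hab
        exact Subtype.ext (mul_left_cancel hab)
      · intro a ha
        have h1 := (Finset.mem_filter.1 ha).2
        rw [← ha₀] at h1
        refine ⟨⟨a₀⁻¹ * a, Subgroup.mem_centralizer_singleton_iff.2 ?_⟩, Finset.mem_univ _,
          mul_inv_cancel_left a₀ a⟩
        calc a₀⁻¹ * a * x = a₀⁻¹ * (a * x * a⁻¹) * a := by group
          _ = a₀⁻¹ * (a₀ * x * a₀⁻¹) * a := by rw [h1]
          _ = x * (a₀⁻¹ * a) := by group
    · rw [Finset.card_eq_zero, Finset.filter_eq_empty_iff]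
      intro a _ ha
      have hord : orderOf (Blocks.ppart p g) = p := by
        rw [ha, ← MulAut.conj_apply, MulEquiv.orderOf_eq, hx]
      refine hg (Finset.mem_filter.2 ⟨Finset.mem_univ _, hord ▸ ?_⟩)
      rw [Blocks.ppart]
      exact orderOf_pow_dvd _
  have hdouble : ∑ a : G, (Finset.univ.filter fun g : G => Blocks.ppart p g = a * x * a⁻¹).card =
      ∑ g : G, (Finset.univ.filter fun a : G => Blocks.ppart p g = a * x * a⁻¹).card := by
    simp only [Finset.card_filter]
    exact Finset.sum_comm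
  simp only [hrow, hcol, Finset.sum_ite_mem, Finset.univ_inter, Finset.sum_const,
    Finset.card_univ, smul_eq_mul, ← Nat.card_eq_fintype_card, hFK] at hdouble
  rw [← hQ, ← mul_assoc, mul_comm S.card, mul_assoc, mul_comm (Nat.card G)] at hdouble
  refine (Nat.eq_of_mul_eq_mul_left (Nat.card_pos (α := pPrimeCore p C)) ?_).symm
  rw [hdouble]; ring

/-- The arithmetic at the end. -/
theorem final_arith {ι : Type*} [DecidableEq ι] (s : Finset ι) (a f : ι → ℤ) (q P U N : ℝ)
    (hN : 0 < N) (hq : 3 ≤ q) (hP : 3 ≤ P) (hf : ∀ i ∈ s, 0 < f i)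
    (hlt : ∀ i ∈ s, 0 < a i → ((a i : ℝ) + q ≤ f i))
    (hsq : (∑ i ∈ s, (a i : ℝ) ^ 2) = q - 1) (hdeg : (∑ i ∈ s, (a i : ℝ) * f i) = -1)
    (hU : q * (N - U) = N * (1 + ∑ i ∈ s, (a i : ℝ) ^ 3 / f i)) (hU0 : 0 ≤ U)
    (hUle : (P - 1) * U ≤ N) : False := by
  obtain ⟨j, hj, hja⟩ : ∃ j ∈ s, a j ≤ -1 := by
    by_contra hne
    push Not at hne
    have : (0 : ℝ) ≤ ∑ i ∈ s, (a i : ℝ) * f i := Finset.sum_nonneg fun i hi => by
      have h1 : (0 : ℤ) ≤ a i := by linarith [hne i hi]
      exact mul_nonneg (by exact_mod_cast h1) (by exact_mod_cast (hf i hi).le)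
    linarith
  have hja' : (a j : ℝ) ≤ -1 := by exact_mod_cast hja
  have hnonpos : ∀ i ∈ s, a i ≤ 0 → (a i : ℝ) ^ 3 / f i ≤ 0 := fun i hi h => by
    have h1 : (a i : ℝ) ≤ 0 := by exact_mod_cast h
    refine div_nonpos_of_nonpos_of_nonneg ?_ (by exact_mod_cast (hf i hi).le)
    nlinarith [sq_nonneg (a i : ℝ)]
  have hone : ∀ i ∈ s, i ≠ j → (a i : ℝ) ^ 3 / f i ≤ (a i : ℝ) ^ 2 / 4 := by
    intro i hi hij
    rcases le_or_gt (a i) 0 with h | h
    · exact (hnonpos i hi h).trans (by positivity)
    · have h1 := hlt i hi h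
      have h2 : (0 : ℝ) < a i := by exact_mod_cast h
      have h4 : (a i : ℝ) ^ 2 + (a j : ℝ) ^ 2 ≤ q - 1 := by
        rw [← hsq, ← Finset.sum_pair (f := fun k => (a k : ℝ) ^ 2) hij]
        refine Finset.sum_le_sum_of_subset_of_nonneg ?_ fun k _ _ => sq_nonneg _
        intro k hk
        rcases Finset.mem_insert.1 hk with rfl | hk
        · exact hi
        · rwa [Finset.mem_singleton.1 hk]
      have h5 : (0 : ℝ) ≤ ((a i - 1) * (a i - 2) : ℤ) := by
        norm_cast
        rcases eq_or_lt_of_le (Int.add_one_le_iff.2 h) with h' | h'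
        · rw [← h']; norm_num
        · exact mul_nonneg (by linarith) (by linarith)
      push_cast at h5
      have h6 : 3 * (a i : ℝ) ≤ q := by nlinarith
      have hfi : (0 : ℝ) < f i := by exact_mod_cast hf i hi
      rw [div_le_iff₀ hfi]
      nlinarith [mul_le_mul_of_nonneg_left (by linarith : 4 * (a i : ℝ) ≤ f i) (sq_nonneg (a i : ℝ))]
  have hupper : ∑ i ∈ s, (a i : ℝ) ^ 3 / f i ≤ (q - 2) / 4 := by
    rw [← Finset.add_sum_erase s _ hj]
    have h1 : ∑ i ∈ s.erase j, (a i : ℝ) ^ 3 / f i ≤ ∑ i ∈ s.erase j, (a i : ℝ) ^ 2 / 4 :=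
      Finset.sum_le_sum fun i hi => hone i (Finset.mem_of_mem_erase hi) (Finset.ne_of_mem_erase hi)
    have h2 : ∑ i ∈ s.erase j, (a i : ℝ) ^ 2 / 4 = (q - 1 - (a j : ℝ) ^ 2) / 4 := by
      rw [← Finset.sum_div, ← hsq, ← Finset.add_sum_erase s _ hj]
      ring
    have h3 := hnonpos j hj (by linarith [hja])
    have h4 : (1 : ℝ) ≤ (a j : ℝ) ^ 2 := by nlinarith
    linarith
  have hU2 : 2 * U ≤ N := by nlinarith
  nlinarith [mul_le_mul_of_nonneg_left hupper hN.le]

end group

/-- Let p be a prime and P a nontrivial elementary abelian Sylow p-subgroup of a finite nonabelian simple group G whose nonidentity elements are all conjugate in G. Suppose that two elements of P are conjugate in G only if they are conjugate in N_G(P), that the centralizer of every element of order p of P has a normal p-complement, and that every two elements of order p of G generate a p-solvable subgroup. Then p = 2. -/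
theorem result {G : Type*} [Group G] [Finite G] [IsSimpleGroup G] (hG : ¬ IsMulCommutative G) {p : ℕ} [Fact p.Prime] (P : Sylow p G)
    (hP1 : (P : Subgroup G) ≠ ⊥) (hPe : Cfsg.IsElementaryAbelian p (P : Subgroup G))
    (hconj : ∀ x ∈ (P : Subgroup G), ∀ y ∈ (P : Subgroup G), x ≠ 1 → y ≠ 1 → ∃ g : G, g * x * g⁻¹ = y)
    (ha : ∀ x ∈ (P : Subgroup G), ∀ y ∈ (P : Subgroup G), (∃ g : G, g * x * g⁻¹ = y) →
      ∃ n ∈ Subgroup.normalizer ((P : Subgroup G) : Set G), n * x * n⁻¹ = y)
    (hb : ∀ x ∈ (P : Subgroup G), orderOf x = p → Cfsg.HasNormalPComplement p ↥(Subgroup.centralizer ({x} : Set G)))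
    (hc : ∀ x y : G, orderOf x = p → orderOf y = p → Cfsg.IsPSolvable p ↥(Subgroup.closure ({x, y} : Set G))) :
    p = 2 := by
  classical
  by_contra hp2
  have hp : p.Prime := Fact.out
  have hp3 : 3 ≤ p := by
    have := hp.two_le; omega
  haveI := Fintype.ofFinite G
  have hna : ¬ ∀ a b : G, a * b = b * a := fun h => hG ⟨⟨h⟩⟩
  obtain ⟨M, hMmax, hpM⟩ : ∃ M : Ideal AlgInt, M.IsMaximal ∧ (p : AlgInt) ∈ M :=
    DegreeGraph.exists_isMaximal_mem p
  haveI := hMmax
  obtain ⟨hPc, hPp⟩ := hPe
  have hPab : ∀ a ∈ (P : Subgroup G), ∀ b ∈ (P : Subgroup G), a * b = b * a := fun a ha' b hb' =>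
    congrArg Subtype.val (hPc.is_comm.comm (⟨a, ha'⟩ : (P : Subgroup G)) ⟨b, hb'⟩)
  obtain ⟨x, hxP, hx1⟩ := (Subgroup.ne_bot_iff_exists_ne_one).1 hP1 |>.elim
    fun z hz => (⟨(z : G), z.2, fun h => hz (Subtype.ext h)⟩ : ∃ x ∈ (P : Subgroup G), x ≠ 1)
  have hxp : orderOf x = p := orderOf_eq_prime (hPp x hxP) hx1
  have hxk : ∃ k : ℕ, orderOf x = p ^ k := ⟨1, by rw [hxp, pow_one]⟩
  -- every non-identity `p`-element is conjugate to `x`
  have hpel : ∀ y : G, IsPGroup p (Subgroup.zpowers y) → y ≠ 1 → IsConj x y ∧ orderOf y = p := by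
    intro y hy hy1
    obtain ⟨Q, hQ⟩ := hy.exists_le_sylow
    obtain ⟨g, hg⟩ := MulAction.exists_smul_eq G P Q
    have hyQ : g⁻¹ * y * g ∈ (P : Subgroup G) := by
      have h1 : y ∈ ((g • P : Sylow p G) : Subgroup G) := hg ▸ hQ (Subgroup.mem_zpowers y)
      rw [Sylow.coe_subgroup_smul, Subgroup.mem_pointwise_smul_iff_inv_smul_mem] at h1
      simpa [MulAut.smul_def, MulAut.conj_apply, MulAut.inv_def, MulAut.conj_symm_apply] using h1
    have hne : g⁻¹ * y * g ≠ 1 := fun h => hy1 (by
      have := congrArg (fun z => g * z * g⁻¹) h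
      simpa [mul_assoc] using this)
    obtain ⟨c, hc'⟩ := hconj x hxP _ hyQ hx1 hne
    have hxy : IsConj x y := isConj_iff.2 ⟨g * c, by
      rw [show g * c * x * (g * c)⁻¹ = g * (c * x * c⁻¹) * g⁻¹ by group, hc']; group⟩
    refine ⟨hxy, ?_⟩
    obtain ⟨d, rfl⟩ := isConj_iff.1 hxy
    rw [← MulAut.conj_apply, MulEquiv.orderOf_eq, hxp]
  have hzp : ∀ y : G, orderOf y = p → IsPGroup p (Subgroup.zpowers y) := fun y hy =>
    IsPGroup.of_card (n := 1) (by rw [Nat.card_zpowers, hy, pow_one])
  have hall : ∀ g : G, p ∣ orderOf g → IsConj x (Blocks.ppart p g) := by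
    intro g hg
    obtain ⟨k, hk⟩ := Blocks.exists_orderOf_ppart (p := p) g
    exact (hpel _ (IsPGroup.of_card (n := k) (by rw [Nat.card_zpowers, hk]))
      fun h => Blocks.ppart_one_iff.1 h hg).1
  -- the centraliser
  set q := Nat.card P with hqdef
  have hPC : (P : Subgroup G) ≤ Subgroup.centralizer ({x} : Set G) := fun a ha' =>
    Subgroup.mem_centralizer_singleton_iff.2 (hPab a ha' x hxP)
  have hq : ∀ Q : Sylow p ↥(Subgroup.centralizer ({x} : Set G)), Nat.card Q = q := by
    intro Q
    have h1 : p ^ (Nat.card G).factorization p ∣ Nat.card ↥(Subgroup.centralizer ({x} : Set G)) := by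
      rw [← Sylow.card_eq_multiplicity P]
      exact Subgroup.card_dvd_of_le hPC
    rw [hqdef, Sylow.card_eq_multiplicity, Sylow.card_eq_multiplicity]
    congr 1
    exact le_antisymm ((Nat.factorization_le_iff_dvd Nat.card_pos.ne' Nat.card_pos.ne').2
      (Subgroup.card_subgroup_dvd_card _) p)
      ((hp.pow_dvd_iff_le_factorization Nat.card_pos.ne').1 h1)
  have hq3 : 3 ≤ q := by
    have : p ∣ q := hxp ▸ Subgroup.orderOf_dvd_natCard _ hxP
    exact hp3.trans (Nat.le_of_dvd Nat.card_pos this)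
  have hS := card_singular x hxp hall (hb x hxP hxp) q hq
  obtain ⟨hcore, -⟩ := core_spec (hb x hxP hxp)
  -- the principal block
  set B := principalBlock M G with hB
  set B₀ := Finset.univ.filter (· ∈ B) with hB₀
  let A : IrrCharacter G → ℂ := fun χ => (χ : G → ℂ) x
  have hΦ : ∀ g : G, p ∣ orderOf g →
      ∑ χ ∈ B₀, (χ : G → ℂ) g * conj (A χ) = ∑ χ ∈ B₀, A χ * conj (A χ) := by
    intro g hg
    refine Finset.sum_congr rfl fun χ hχ => ?_
    congr 1
    obtain ⟨c, hc'⟩ := isConj_iff.1 (hall g hg)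
    have hpp : Blocks.ppart p (c⁻¹ * g * c) = x := by
      have := Blocks.ppart_conj (p := p) c⁻¹ g
      rw [inv_inv, ← hc'] at this
      rw [this]; group
    obtain ⟨v, hv, hvc, -, hv'⟩ := Blocks.isPPart_ppart (p := p) (c⁻¹ * g * c)
    rw [hpp] at hv hvc
    have hvC : v ∈ Subgroup.centralizer ({x} : Set G) :=
      Subgroup.mem_centralizer_singleton_iff.2 hvc.eq.symm
    have hvK : v ∈ centralizerPPrimeCore p x :=
      Subgroup.mem_map.2 ⟨⟨v, hvC⟩, (hcore _).2 (by rw [← Subgroup.orderOf_coe]; exact hv'), rfl⟩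
    have := Blocks.apply_mul_centralizerPPrimeCore hpM hxk hvK (Finset.mem_filter.1 hχ).2
    rw [hv] at this
    change (χ : G → ℂ) g = (χ : G → ℂ) x
    rw [← this, show g = c * (c⁻¹ * g * c) * c⁻¹ by group, Chars.isClassFunction_irr χ]
    group
  have hΦ0 : ∀ g : G, ¬ p ∣ orderOf g → ∑ χ ∈ B₀, (χ : G → ℂ) g * conj (A χ) = 0 := fun g hg =>
    Blocks.block_orth_weak hpM Blocks.isPBlock_principal hg (by rw [hxp])
  set X := ∑ χ ∈ B₀, A χ * conj (A χ) with hX
  have hone : Blocks.oneChar G ∈ B₀ :=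
    Finset.mem_filter.2 ⟨Finset.mem_univ _, Blocks.one_mem_principal⟩
  have hXq : X = (q : ℂ) := by
    have h1 : ∑ g : G, ∑ χ ∈ B₀, (χ : G → ℂ) g * conj (A χ) =
        ((Finset.univ.filter fun g : G => p ∣ orderOf g).card : ℂ) * X := by
      rw [← Finset.sum_filter_add_sum_filter_not Finset.univ (fun g : G => p ∣ orderOf g),
        Finset.sum_congr rfl fun g hg => hΦ g (Finset.mem_filter.1 hg).2,
        Finset.sum_eq_zero (s := Finset.univ.filter fun g : G => ¬ p ∣ orderOf g)
          fun g hg => hΦ0 g (Finset.mem_filter.1 hg).2, add_zero, Finset.sum_const, nsmul_eq_mul]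
    have h2 : ∑ g : G, ∑ χ ∈ B₀, (χ : G → ℂ) g * conj (A χ) = (Nat.card G : ℂ) := by
      rw [Finset.sum_comm, Finset.sum_eq_single (Blocks.oneChar G)]
      · simp [A, Blocks.coe_oneChar, Nat.card_eq_fintype_card]
      · intro χ _ hne
        have h3 : classInner (χ : G → ℂ) ((Blocks.oneChar G : IrrCharacter G) : G → ℂ) = 0 :=
          Chars.classInner_irr_of_ne χ.2 (Blocks.oneChar G).2 fun h => hne (Subtype.ext h)
        rw [Chars.classInner_def] at h3
        simp only [Blocks.coe_oneChar, map_one, mul_one] at h3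
        rw [← Finset.sum_mul,
          (mul_eq_zero.1 h3).resolve_left (inv_ne_zero Chars.card_ne_zero), zero_mul]
      · exact fun h => absurd hone h
    have hSC : (q : ℂ) * ((Finset.univ.filter fun g : G => p ∣ orderOf g).card : ℂ) =
        (Nat.card G : ℂ) := by exact_mod_cast hS
    have hne : ((Finset.univ.filter fun g : G => p ∣ orderOf g).card : ℂ) ≠ 0 := fun h => by
      rw [h, mul_zero] at hSC; exact Chars.card_ne_zero hSC.symm
    refine mul_left_cancel₀ hne ?_
    rw [← h1, h2, ← hSC, mul_comm]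
  -- integrality of the values
  have hvals : ∀ χ : IrrCharacter G, ∃ a f m : ℤ, A χ = a ∧ (χ : G → ℂ) 1 = f ∧ 0 < f ∧
      f + ((q : ℤ) - 1) * a = q * m := by
    intro χ
    obtain ⟨n, hn0, hn⟩ := Chars.exists_irr_apply_one_eq χ.2
    haveI := Fintype.ofFinite (P : Subgroup G)
    obtain ⟨m, hm⟩ := Chars.exists_classInner_eq_nat
      (Chars.isCharacter_restrict (Chars.irr_isCharacter χ) (P : Subgroup G))
      (Chars.isCharacter_one (G := (P : Subgroup G)))
    have hsum : ∑ y : (P : Subgroup G), (χ : G → ℂ) y = (n : ℂ) + ((q : ℂ) - 1) * A χ := by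
      rw [← Finset.add_sum_erase Finset.univ _ (Finset.mem_univ (1 : (P : Subgroup G))),
        OneMemClass.coe_one, hn]
      congr 1
      rw [Finset.sum_congr rfl (g := fun _ => A χ) fun y hy => ?_, Finset.sum_const,
        nsmul_eq_mul, Finset.card_erase_of_mem (Finset.mem_univ _), Finset.card_univ,
        ← Nat.card_eq_fintype_card, ← hqdef, Nat.cast_sub (by omega), Nat.cast_one]
      have hy1 : (y : G) ≠ 1 := fun h => Finset.ne_of_mem_erase hy (Subtype.ext h)
      obtain ⟨c, hc'⟩ := hconj x hxP y y.2 hx1 hy1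
      rw [← hc', Chars.isClassFunction_irr χ]
    rw [Chars.classInner_def] at hm
    simp only [map_one, mul_one] at hm
    rw [hsum, ← hqdef] at hm
    have hqc : (q : ℂ) ≠ 0 := Nat.cast_ne_zero.2 (by omega)
    have heq : (n : ℂ) + ((q : ℂ) - 1) * A χ = q * m := by
      rw [← hm, ← mul_assoc, mul_inv_cancel₀ hqc, one_mul]
    have hq1 : (q : ℂ) - 1 ≠ 0 := sub_ne_zero.2 fun h => by
      have : q = 1 := by exact_mod_cast h
      omega
    let r : ℚ := ((q : ℚ) * m - n) / ((q : ℚ) - 1)
    have hr : algebraMap ℚ ℂ r = A χ := by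
      simp only [r, map_div₀, map_sub, map_mul, map_natCast, map_one]
      rw [div_eq_iff hq1]; linear_combination (-1 : ℂ) * heq
    have hint : IsIntegral ℤ (A χ) :=
      Chars.isIntegral_of_isCharacter (Chars.irr_isCharacter χ) x
    obtain ⟨z, hz⟩ := IsIntegrallyClosed.isIntegral_iff.mp
      ((isIntegral_algebraMap_iff (algebraMap ℚ ℂ).injective).mp (hr ▸ hint))
    have hzA : A χ = (z : ℂ) := by rw [← hr, ← hz]; simp
    refine ⟨z, n, m, hzA, by simp [hn], by exact_mod_cast hn0, ?_⟩
    rw [hzA] at heq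
    exact_mod_cast heq
  choose a f m haA haf hf0 hafm using hvals
  set s := B₀.erase (Blocks.oneChar G) with hs
  have hone_a : a (Blocks.oneChar G) = 1 := by
    have := haA (Blocks.oneChar G)
    simp only [A, Blocks.coe_oneChar] at this
    exact_mod_cast this.symm
  have hone_f : f (Blocks.oneChar G) = 1 := by
    have := haf (Blocks.oneChar G)
    simp only [Blocks.coe_oneChar] at this
    exact_mod_cast this.symm
  have hlt : ∀ χ ∈ s, 0 < a χ → a χ + q ≤ f χ := by
    intro χ hχ hpos
    have hne := Finset.ne_of_mem_erase hχ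
    have h1 : (χ : G → ℂ) 1 ≠ 1 := fun h =>
      hne (Subtype.ext (Chars.SimpleDeg.eq_one_of_degree_one hna h))
    have hle : a χ ≤ f χ := by
      have := Chars.norm_le_of_isCharacter (Chars.irr_isCharacter χ) x
      change ‖A χ‖ ≤ _ at this
      rw [haA, haf, Complex.norm_intCast, Complex.intCast_re] at this
      exact_mod_cast (le_abs_self (a χ : ℝ)).trans this
    have hne' : a χ ≠ f χ := fun h =>
      hx1 (Chars.SimpleDeg.eq_one_of_apply_eq h1 (g := x) (by
        show A χ = _
        rw [haA, haf, h]))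
    have h2 : f χ - a χ = (q : ℤ) * (m χ - a χ) := by linear_combination hafm χ
    have h3 : 0 < m χ - a χ := by
      by_contra hcon
      push Not at hcon
      have : (q : ℤ) * (m χ - a χ) ≤ 0 :=
        mul_nonpos_of_nonneg_of_nonpos (Int.natCast_nonneg q) hcon
      omega
    nlinarith
  -- the three sums
  have hsq : (∑ χ ∈ s, (a χ : ℝ) ^ 2) = (q : ℝ) - 1 := by
    have h1 : (∑ χ ∈ B₀, (a χ : ℤ) ^ 2) = (q : ℤ) := by
      have h2 := hXq
      simp only [hX, haA, map_intCast, ← pow_two] at h2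
      exact_mod_cast h2
    rw [← Finset.add_sum_erase B₀ _ hone, hone_a] at h1
    have h3 : (∑ χ ∈ s, (a χ : ℤ) ^ 2) = (q : ℤ) - 1 := by linarith
    exact_mod_cast h3
  have hdeg : (∑ χ ∈ s, (a χ : ℝ) * f χ) = -1 := by
    have h1 : ∑ χ ∈ B₀, ((a χ : ℤ) * f χ : ℤ) = 0 := by
      have h2 := hΦ0 1 (by rw [orderOf_one]; exact hp.not_dvd_one)
      simp only [haA, haf, map_intCast] at h2
      rw [Finset.sum_congr rfl fun χ _ => mul_comm (a χ) (f χ)]
      exact_mod_cast h2
    rw [← Finset.add_sum_erase B₀ _ hone, hone_a, hone_f] at h1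
    have h3 : (∑ χ ∈ s, (a χ : ℤ) * f χ) = -1 := by linarith
    exact_mod_cast h3
  set R := Finset.univ.filter fun b : G => ¬ p ∣ orderOf (x * (b * x * b⁻¹)) with hR
  have hU : (q : ℝ) * ((Nat.card G : ℝ) - R.card) =
      (Nat.card G : ℝ) * (1 + ∑ χ ∈ s, (a χ : ℝ) ^ 3 / f χ) := by
    have h1 : ∑ b : G, ∑ χ ∈ B₀, (χ : G → ℂ) (x * (b * x * b⁻¹)) * conj (A χ) =
        (q : ℂ) * ((Nat.card G : ℂ) - R.card) := by
      rw [← Finset.sum_filter_add_sum_filter_not Finset.univ
          (fun b : G => ¬ p ∣ orderOf (x * (b * x * b⁻¹))),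
        Finset.sum_eq_zero (s := Finset.univ.filter fun b : G =>
          ¬ p ∣ orderOf (x * (b * x * b⁻¹))) fun b hb => hΦ0 _ (Finset.mem_filter.1 hb).2,
        zero_add, Finset.sum_congr rfl fun b hb => (hΦ _ (not_not.1 (Finset.mem_filter.1 hb).2)).trans
          hXq, Finset.sum_const, nsmul_eq_mul, mul_comm]
      congr 1
      rw [eq_sub_iff_add_eq, ← Nat.cast_add, add_comm, hR,
        Finset.card_filter_add_card_filter_not, Finset.card_univ, Nat.card_eq_fintype_card]
    rw [Finset.sum_comm] at h1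
    have h2 : ∀ χ ∈ B₀, ∑ b : G, (χ : G → ℂ) (x * (b * x * b⁻¹)) * conj (A χ) =
        (((Nat.card G : ℝ) * ((a χ : ℝ) ^ 3 / f χ) : ℝ) : ℂ) := by
      intro χ _
      rw [← Finset.sum_mul, Blocks.sum_apply_mul_conj, haf χ]
      change (Nat.card G : ℂ) * A χ * A χ / (f χ : ℂ) * conj (A χ) = _
      rw [haA, map_intCast]
      push_cast
      ring
    rw [Finset.sum_congr rfl h2, ← Complex.ofReal_sum, ← Finset.mul_sum,
      ← Finset.add_sum_erase B₀ _ hone, hone_a, hone_f] at h1
    norm_num at h1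
    rw [hs]
    simp only [← Nat.card_eq_fintype_card] at h1 ⊢
    exact_mod_cast h1.symm
  -- the conjugation trick
  have hUle : ((p : ℝ) - 1) * R.card ≤ (Nat.card G : ℝ) := by
    have hn : ∀ j : ℕ, ∃ n : G, j ∈ Finset.Icc 1 (p - 1) → n * x * n⁻¹ = x ^ j := by
      intro j
      by_cases hj : j ∈ Finset.Icc 1 (p - 1)
      · rw [Finset.mem_Icc] at hj
        obtain ⟨n, hn⟩ := hconj x hxP (x ^ j) (pow_mem hxP j) hx1 fun h => by
          have := Nat.le_of_dvd (by omega) (hxp ▸ orderOf_dvd_of_pow_eq_one h)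
          omega
        exact ⟨n, fun _ => hn⟩
      · exact ⟨1, fun h => absurd h hj⟩
    choose n hn using hn
    have hinj : Set.InjOn (fun bj : G × ℕ => bj.1 * n bj.2)
        ↑(R ×ˢ Finset.Icc 1 (p - 1)) := by
      rintro ⟨b, j⟩ hbj ⟨b', k⟩ hbk h
      simp only [Finset.coe_product, Set.mem_prod, Finset.mem_coe] at hbj hbk
      simp only at h
      have hord : ∀ d : G, orderOf (d * x * d⁻¹) = p := fun d => by
        rw [← MulAut.conj_apply, MulEquiv.orderOf_eq, hxp]
      set y := b * x * b⁻¹ with hy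
      set y' := b' * x * b'⁻¹ with hy'
      have hz : y ^ j = y' ^ k := by
        rw [hy, hy', conj_pow, conj_pow, ← hn j hbj.2, ← hn k hbk.2]
        calc b * (n j * x * (n j)⁻¹) * b⁻¹ = (b * n j) * x * (b * n j)⁻¹ := by group
          _ = (b' * n k) * x * (b' * n k)⁻¹ := by rw [h]
          _ = b' * (n k * x * (n k)⁻¹) * b'⁻¹ := by group
      have hj := Finset.mem_Icc.1 hbj.2
      have hk := Finset.mem_Icc.1 hbk.2
      have hkp : ¬ p ∣ k := fun hd => by
        have := Nat.le_of_dvd (by omega) hd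
        omega
      obtain ⟨k', -, hk'⟩ := Nat.exists_mul_mod_eq_one_of_coprime
        ((hp.coprime_iff_not_dvd.2 hkp).symm) hp.one_lt
      have hyy : y' = y ^ (j * k') := by
        rw [pow_mul, hz, ← pow_mul]
        conv_lhs => rw [← pow_one y']
        exact pow_eq_pow_iff_modEq.2 (by rw [hord b', Nat.ModEq, hk', Nat.one_mod_eq_one.2 (by omega)])
      set K := Subgroup.closure ({x, y} : Set G) with hK
      have hxK : x ∈ K := Subgroup.subset_closure (Set.mem_insert _ _)
      have hyK : y ∈ K := Subgroup.subset_closure (Set.mem_insert_of_mem _ rfl)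
      have hy'K : y' ∈ K := hyy ▸ pow_mem hyK _
      have hsol : IsPSolvable p K := hc x y hxp (hord b)
      have habK : ∀ Q : Sylow p K, ∀ u ∈ (Q : Subgroup K), ∀ v ∈ (Q : Subgroup K),
          u * v = v * u := by
        intro Q u hu v hv
        obtain ⟨T, hT⟩ := (Q.2.map K.subtype).exists_le_sylow
        obtain ⟨d, hd⟩ := MulAction.exists_smul_eq G P T
        have hu' : (u : G) ∈ ((d • P : Sylow p G) : Subgroup G) := hd ▸ hT ⟨u, hu, rfl⟩
        have hv' : (v : G) ∈ ((d • P : Sylow p G) : Subgroup G) := hd ▸ hT ⟨v, hv, rfl⟩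
        rw [Sylow.coe_subgroup_smul, Subgroup.mem_pointwise_smul_iff_inv_smul_mem] at hu' hv'
        have := hPab _ hu' _ hv'
        rw [← smul_mul', ← smul_mul'] at this
        exact Subtype.ext (MulAction.injective (MulAut.conj d)⁻¹ this)
      have hreg : ∀ w : G, ∀ hw : w ∈ K, ¬ p ∣ orderOf (x * w) →
          (⟨x, hxK⟩ * ⟨w, hw⟩ : K) ∈ pPrimeCore p K := by
        intro w hw hr
        refine regular_mem_core hsol habK {⟨x, hxK⟩, ⟨y, hyK⟩} ?_ ?_ ?_
        · apply Subgroup.map_injective K.subtype_injective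
          rw [MonoidHom.map_closure, ← MonoidHom.range_eq_map, Subgroup.range_subtype,
            Set.image_insert_eq, Set.image_singleton]
          rfl
        · rintro t (rfl | rfl)
          · refine IsPGroup.of_card (n := 1) ?_
            rw [Nat.card_zpowers, Subgroup.orderOf_mk, hxp, pow_one]
          · refine IsPGroup.of_card (n := 1) ?_
            rw [Nat.card_zpowers, Subgroup.orderOf_mk, hord b, pow_one]
        · rw [← Subgroup.orderOf_coe]; exact hr
      have h1 := hreg y hyK (Finset.mem_filter.1 hbj.1).2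
      have h2 := hreg y' hy'K (Finset.mem_filter.1 hbk.1).2
      let π := QuotientGroup.mk' (pPrimeCore p K)
      have e1 : π ⟨x, hxK⟩ * π ⟨y, hyK⟩ = 1 := by
        rw [← map_mul]; exact (QuotientGroup.eq_one_iff _).2 h1
      have e2 : π ⟨x, hxK⟩ * π ⟨y', hy'K⟩ = 1 := by
        rw [← map_mul]; exact (QuotientGroup.eq_one_iff _).2 h2
      have e3 : π ⟨y', hy'K⟩ = π ⟨y, hyK⟩ := mul_left_cancel (e2.trans e1.symm)
      have e4 : π ⟨y, hyK⟩ ^ j = π ⟨y, hyK⟩ ^ k := by
        conv_rhs => rw [← e3]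
        rw [← map_pow, ← map_pow]
        congr 1
        exact Subtype.ext hz
      have e5 : orderOf (π ⟨y, hyK⟩) = p := by
        refine orderOf_eq_prime ?_ fun h0 => ?_
        · rw [← map_pow]
          have : (⟨y, hyK⟩ : K) ^ p = 1 :=
            Subtype.ext (orderOf_dvd_iff_pow_eq_one.1 (dvd_of_eq (hord b)))
          rw [this, map_one]
        · refine Core.not_dvd_card_pPrimeCore p K ?_
          have h3 := Subgroup.orderOf_dvd_natCard _ ((QuotientGroup.eq_one_iff _).1 h0)
          rwa [Subgroup.orderOf_mk, hord b] at h3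
      have hjk : j = k := by
        have := pow_eq_pow_iff_modEq.1 e4
        rw [e5, Nat.ModEq, Nat.mod_eq_of_lt (by omega), Nat.mod_eq_of_lt (by omega)] at this
        exact this
      subst hjk
      exact Prod.ext (mul_right_cancel h) rfl
    have hcard := Finset.card_le_card_of_injOn (t := Finset.univ) (fun bj : G × ℕ => bj.1 * n bj.2)
      (fun _ _ => Finset.mem_univ _) hinj
    rw [Finset.card_product, Nat.card_Icc, Finset.card_univ, ← Nat.card_eq_fintype_card] at hcard
    have h1 : ((p : ℝ) - 1) = ((p - 1 + 1 - 1 : ℕ) : ℝ) := by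
      rw [Nat.add_sub_cancel, Nat.cast_sub hp.one_le, Nat.cast_one]
    rw [h1]
    calc ((p - 1 + 1 - 1 : ℕ) : ℝ) * R.card = ((R.card * (p - 1 + 1 - 1) : ℕ) : ℝ) := by
          push_cast; ring
      _ ≤ (Nat.card G : ℝ) := by exact_mod_cast hcard
  refine final_arith s a f q p R.card (Nat.card G) (Nat.cast_pos.2 Nat.card_pos)
    (by exact_mod_cast hq3) (by exact_mod_cast hp3) (fun χ _ => hf0 χ)
    (fun χ hχ hpos => by exact_mod_cast hlt χ hχ hpos) hsq hdeg hU (Nat.cast_nonneg _) hUle

end Cfsg.Agent.S1951
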