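import Cfsg.Statements.S1954
import Cfsg.Agent.PLocal.FusionControl

set_option autoImplicit false
open Cfsg
open scoped commutatorElement

namespace Cfsg.Agent.S1954

/-- Let N be a normal subgroup of the finite group G, P a Sylow p-subgroup of G, and V a subgroup of P ∩ N normal in P ∩ N such that N_N(V) controls strong fusion in P ∩ N with respect to N (whenever a subgroup A of P ∩ N has n A n⁻¹ ≤ P ∩ N for some n in N, then n = h c with h in N_N(V) and c in C_N(A)). Let W be the subgroup generated by the conjugates of V under N_G(P ∩ N). Then N_G(W) controls strong fusion in P with respect to G. -/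
theorem result {G : Type*} [Group G] [Finite G] {p : ℕ} [Fact p.Prime] (N : Subgroup G) [N.Normal] (P : Sylow p G) (V : Subgroup G)
    (hV : V ≤ (P : Subgroup G) ⊓ N) (hVn : ∀ x ∈ (P : Subgroup G) ⊓ N, V.map (MulAut.conj x).toMonoidHom = V)
    (hctrl : ∀ A : Subgroup G, A ≤ (P : Subgroup G) ⊓ N → ∀ n ∈ N, A.map (MulAut.conj n).toMonoidHom ≤ (P : Subgroup G) ⊓ N →
      ∃ h ∈ N ⊓ Subgroup.normalizer (V : Set G), ∃ c ∈ N ⊓ Subgroup.centralizer (A : Set G), n = h * c)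
    (W : Subgroup G) (hW : W = Subgroup.closure (⋃ x ∈ Subgroup.normalizer (((P : Subgroup G) ⊓ N : Subgroup G) : Set G),
      ((V.map (MulAut.conj x).toMonoidHom : Subgroup G) : Set G))) :
    ∀ A : Subgroup G, A ≤ (P : Subgroup G) → ∀ g : G, A.map (MulAut.conj g).toMonoidHom ≤ (P : Subgroup G) →
        ∃ h ∈ Subgroup.normalizer (W : Set G), ∃ c ∈ Subgroup.centralizer (A : Set G), g = h * c := by
  set S := (P : Subgroup G) ⊓ N with hSdef
  set t : Set G := (Subgroup.normalizer (S : Set G) : Set G)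
  set f : G → Subgroup G := fun x => V.map (MulAut.conj x).toMonoidHom with hf
  have hfS : ∀ x ∈ t, f x ≤ S := by
    rintro x hx _ ⟨v, hv, rfl⟩
    exact (Subgroup.mem_normalizer_iff.mp hx v).mp (hV hv)
  have hfn : ∀ x ∈ t, ∀ s ∈ S, s ∈ Subgroup.normalizer (f x : Set G) := by
    intro x hx s hs
    have hs' : x⁻¹ * s * x ∈ S := by
      have := (Subgroup.mem_normalizer_iff.mp (inv_mem hx) s).mp hs
      rwa [inv_inv] at this
    refine Coprime.mem_normalizer_of_conj_mem ?_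
    rintro _ ⟨v, hv, rfl⟩
    have h1 : (x⁻¹ * s * x) * v * (x⁻¹ * s * x)⁻¹ ∈ V := by
      have := hVn _ hs'
      exact this ▸ ⟨v, hv, rfl⟩
    refine ⟨_, h1, ?_⟩
    show x * ((x⁻¹ * s * x) * v * (x⁻¹ * s * x)⁻¹) * x⁻¹ = s * (x * v * x⁻¹) * s⁻¹
    group
  have hc : ∀ x ∈ t, ∀ B : Subgroup G, B ≤ S → ∀ n ∈ N, (∀ b ∈ B, n * b * n⁻¹ ∈ S) →
      ∃ h ∈ N ⊓ Subgroup.normalizer (f x : Set G), ∃ c ∈ N ⊓ Subgroup.centralizer (B : Set G), n = h * c := by
    intro x hx B hB n hn hBn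
    have hconjS : ∀ b ∈ S, x⁻¹ * b * x ∈ S := fun b hb => by
      have := (Subgroup.mem_normalizer_iff.mp (inv_mem hx) b).mp hb
      rwa [inv_inv] at this
    obtain ⟨h, hh, c, hc, he⟩ := hctrl (B.map (MulAut.conj x⁻¹).toMonoidHom)
      (by rintro _ ⟨b, hb, rfl⟩; show x⁻¹ * b * x⁻¹⁻¹ ∈ S; rw [inv_inv]; exact hconjS b (hB hb))
      (x⁻¹ * n * x) (by have := (inferInstance : N.Normal).conj_mem n hn x⁻¹; rwa [inv_inv] at this)
      (by
        rintro _ ⟨_, ⟨b, hb, rfl⟩, rfl⟩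
        show (x⁻¹ * n * x) * (x⁻¹ * b * x⁻¹⁻¹) * (x⁻¹ * n * x)⁻¹ ∈ S
        have he : (x⁻¹ * n * x) * (x⁻¹ * b * x⁻¹⁻¹) * (x⁻¹ * n * x)⁻¹ = x⁻¹ * (n * b * n⁻¹) * x := by group
        rw [he]; exact hconjS _ (hBn b hb))
    refine ⟨x * h * x⁻¹, Subgroup.mem_inf.mpr ⟨(inferInstance : N.Normal).conj_mem h hh.1 x, ?_⟩,
      x * c * x⁻¹, Subgroup.mem_inf.mpr ⟨(inferInstance : N.Normal).conj_mem c hc.1 x, ?_⟩, ?_⟩
    · refine Coprime.mem_normalizer_of_conj_mem ?_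
      rintro _ ⟨v, hv, rfl⟩
      refine ⟨h * v * h⁻¹, (Subgroup.mem_normalizer_iff.mp hh.2 v).mp hv, ?_⟩
      show x * (h * v * h⁻¹) * x⁻¹ = (x * h * x⁻¹) * (x * v * x⁻¹) * (x * h * x⁻¹)⁻¹
      group
    · rw [Subgroup.mem_centralizer_iff]
      intro b hb
      have h1 := Subgroup.mem_centralizer_iff.mp hc.2 (x⁻¹ * b * x⁻¹⁻¹) ⟨b, hb, rfl⟩
      calc b * (x * c * x⁻¹) = x * ((x⁻¹ * b * x⁻¹⁻¹) * c) * x⁻¹ := by group
        _ = _ := by rw [h1]; group
    · calc n = x * (x⁻¹ * n * x) * x⁻¹ := by group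
        _ = _ := by rw [he]; group
  have hXW : ∀ h : G, (∀ x ∈ t, ∀ w ∈ f x, h * w * h⁻¹ ∈ W) → h ∈ Subgroup.normalizer (W : Set G) := by
    intro h hh
    refine Coprime.mem_normalizer_of_conj_mem fun w hw => ?_
    rw [hW] at hw
    induction hw using Subgroup.closure_induction with
    | mem w hw =>
      simp only [Set.mem_iUnion] at hw
      obtain ⟨x, hx, hwx⟩ := hw
      exact hh x hx w hwx
    | one => simp
    | mul a b _ _ ha hb =>
      have := mul_mem ha hb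
      rwa [show h * a * h⁻¹ * (h * b * h⁻¹) = h * (a * b) * h⁻¹ by group] at this
    | inv a _ ha =>
      have := inv_mem ha
      rwa [show (h * a * h⁻¹)⁻¹ = h * a⁻¹ * h⁻¹ by group] at this
  have hfW : ∀ x ∈ t, f x ≤ W := fun x hx w hw => by
    rw [hW]
    exact Subgroup.subset_closure (Set.mem_iUnion₂.mpr ⟨x, hx, hw⟩)
  refine fun A hA g hg => PLocal.control_lift N P (Subgroup.normalizer (W : Set G)) ?_ ?_ A hA g hg
  · intro y hy
    refine hXW y fun x hx => ?_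
    rintro _ ⟨v, hv, rfl⟩
    refine hfW (y * x) (mul_mem hy hx) ⟨v, hv, ?_⟩
    show (y * x) * v * (y * x)⁻¹ = y * (x * v * x⁻¹) * y⁻¹
    group
  · intro B hB n hn hBn
    obtain ⟨h, hhN, hh, c, hc', he⟩ := PLocal.control_family N S f t hfS hfn hc B hB n hn hBn
    exact ⟨h, hXW h fun x hx w hw => hfW x hx ((Subgroup.mem_normalizer_iff.mp (hh x hx) w).mp hw), c, hc', he⟩

end Cfsg.Agent.S1954
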