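import Cfsg.Statements.S2162
import Cfsg.Agent.Suzuki.SquareZero

set_option autoImplicit false
open Cfsg

namespace Cfsg.Agent.S2162

/-- Conjugacy of involutions in the special linear group over a finite field of characteristic two, in dimension at least 3: two elements of order 2 of SL_n(F) are conjugate in SL_n(F) exactly when the matrices a − 1 and b − 1 have the same rank (the rank of a − 1 is the dimension of the commutator space [V, a]). -/
theorem result {F : Type*} [Field F] [Fintype F] [CharP F 2] {n : ℕ} (hn : 3 ≤ n) (a b : Matrix.SpecialLinearGroup (Fin n) F) (ha : orderOf a = 2) (hb : orderOf b = 2) :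
    IsConj a b ↔ ((a : Matrix (Fin n) (Fin n) F) - 1).rank = ((b : Matrix (Fin n) (Fin n) F) - 1).rank := by
  classical
  have hsq : ∀ c : F, IsSquare c := fun c => FiniteField.isSquare_of_char_two (ringChar.eq F 2) c
  have hN : ∀ x : Matrix.SpecialLinearGroup (Fin n) F, orderOf x = 2 →
      ((x : Matrix (Fin n) (Fin n) F) - 1) * ((x : Matrix (Fin n) (Fin n) F) - 1) = 0 ∧
        (x : Matrix (Fin n) (Fin n) F) - 1 ≠ 0 := by
    intro x hx
    have h2 : (x : Matrix (Fin n) (Fin n) F) * x = 1 := by
      have h : x ^ 2 = 1 := hx ▸ pow_orderOf_eq_one x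
      rw [pow_two] at h
      exact congrArg Subtype.val h
    refine ⟨?_, fun e => ?_⟩
    · have h20 : (2 : F) = 0 := by exact_mod_cast CharP.cast_eq_zero F 2
      rw [sub_mul, mul_sub, mul_sub, h2, mul_one, one_mul]
      ext i j
      simp [CharTwo.sub_eq_add, add_comm, CharTwo.add_self_eq_zero]
    · have hx1 : x = 1 := Subtype.ext (sub_eq_zero.1 e)
      rw [hx1, orderOf_one] at hx
      omega
  constructor
  · intro h
    obtain ⟨g, hg⟩ := isConj_iff.1 h
    have e : (b : Matrix (Fin n) (Fin n) F) - 1 =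
        (g : Matrix (Fin n) (Fin n) F) * ((a : Matrix (Fin n) (Fin n) F) - 1) *
          ((g⁻¹ : Matrix.SpecialLinearGroup (Fin n) F) : Matrix (Fin n) (Fin n) F) := by
      rw [← hg]
      have h1 : (g : Matrix (Fin n) (Fin n) F) *
          ((g⁻¹ : Matrix.SpecialLinearGroup (Fin n) F) : Matrix (Fin n) (Fin n) F) = 1 :=
        congrArg Subtype.val (mul_inv_cancel g)
      rw [mul_sub, sub_mul, mul_one, h1]
      rfl
    rw [e, Matrix.rank_mul_eq_left_of_isUnit_det _ _ ?_, Matrix.rank_mul_eq_right_of_isUnit_det _ _ ?_]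
    · rw [g.2]; exact isUnit_one
    · rw [(g⁻¹).2]; exact isUnit_one
  · intro h
    obtain ⟨P, hP⟩ := Cfsg.Agent.Suzuki.sqzero_conj _ _ (hN a ha).1 (hN b hb).1 h (hN a ha).2 hsq
    refine isConj_iff.2 ⟨P, mul_inv_eq_iff_eq_mul.2 (Subtype.ext ?_)⟩
    show (P : Matrix (Fin n) (Fin n) F) * a = b * (P : Matrix (Fin n) (Fin n) F)
    rw [mul_sub, sub_mul, mul_one, one_mul, sub_left_inj] at hP
    exact hP

end Cfsg.Agent.S2162
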