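import Cfsg.Statements.S2163
import Cfsg.Agent.Suzuki.CharTwoInv

set_option autoImplicit false
open Cfsg

namespace Cfsg.Agent.S2163

/-- Over a finite field of characteristic two and for n ≥ 3: for every ℓ with 1 ≤ ℓ and 2ℓ ≤ n, the matrix j_ℓ that is the identity plus the entries 1 in positions (n − ℓ + i, i) for i < ℓ (an identity block of size ℓ in the lower left corner) lies in SL_n(F), has order 2, and j_ℓ − 1 has rank ℓ. Together with the conjugacy criterion by rank, these matrices represent the conjugacy classes of involutions of SL_n(F). -/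
theorem result {F : Type*} [Field F] [Fintype F] [CharP F 2] {n : ℕ} (hn : 3 ≤ n) (ℓ : ℕ) (h1 : 1 ≤ ℓ) (h2 : 2 * ℓ ≤ n) :
    ∃ a : Matrix.SpecialLinearGroup (Fin n) F, (a : Matrix (Fin n) (Fin n) F) = 1 + Matrix.of (fun i j : Fin n => if j.val < ℓ ∧ i.val = j.val + (n - ℓ) then (1 : F) else 0) ∧ orderOf a = 2 ∧ ((a : Matrix (Fin n) (Fin n) F) - 1).rank = ℓ := by
  classical
  have h2 : (2 : F) = 0 := by exact_mod_cast CharP.cast_eq_zero F 2
  set N : Matrix (Fin n) (Fin n) F :=
    Matrix.of (fun i j : Fin n => if j.val < ℓ ∧ i.val = j.val + (n - ℓ) then (1 : F) else 0) with hN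
  have hN2 : N * N = 0 := by
    ext i j
    simp only [Matrix.mul_apply, Matrix.zero_apply]
    refine Finset.sum_eq_zero fun k _ => ?_
    simp only [hN, Matrix.of_apply]
    split_ifs with e1 e2
    · omega
    all_goals simp
  have hdet : (1 + N).det = 1 := by
    rw [Matrix.det_of_lowerTriangular]
    · refine Finset.prod_eq_one fun i _ => ?_
      simp only [Matrix.add_apply, Matrix.one_apply_eq, hN, Matrix.of_apply]
      rw [if_neg (by omega), add_zero]
    · intro i j hij
      have hij' : i < j := hij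
      simp only [Matrix.add_apply, Matrix.one_apply_ne hij'.ne, hN, Matrix.of_apply]
      rw [if_neg (by have : i.val < j.val := hij'; omega), add_zero]
  obtain ⟨a, ha⟩ : ∃ a : Matrix.SpecialLinearGroup (Fin n) F, a.1 = 1 + N := ⟨⟨1 + N, hdet⟩, rfl⟩
  refine ⟨a, ha, orderOf_eq_prime ?_ ?_, ?_⟩
  · rw [pow_two]
    apply Subtype.ext
    show a.1 * a.1 = 1
    rw [ha, mul_add, mul_one, add_mul, one_mul, hN2, add_zero, add_assoc, ← two_smul F N, h2, zero_smul,
      add_zero]
  · intro e
    have e1 := congrFun (congrFun ((ha.symm.trans (congrArg Subtype.val e)) : 1 + N = (1 : Matrix (Fin n) (Fin n) F))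
      ⟨n - ℓ, by omega⟩) ⟨0, by omega⟩
    simp only [Matrix.add_apply, hN, Matrix.of_apply] at e1
    rw [if_pos ⟨by omega, by simp⟩, Matrix.one_apply_ne (by simp [Fin.ext_iff]; omega), zero_add] at e1
    exact one_ne_zero e1
  · show (a.1 - 1).rank = ℓ
    rw [ha, add_sub_cancel_left]
    refine Cfsg.Agent.Suzuki.rank_eq_of_factor N
      (Matrix.of fun (i : Fin n) (k : Fin ℓ) => if i.val = k.val + (n - ℓ) then (1 : F) else 0)
      (Matrix.of fun (k : Fin ℓ) (j : Fin n) => if j.val = k.val then (1 : F) else 0) ?_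
      (fun k => ⟨k.val + (n - ℓ), by omega⟩) (fun k => ⟨k.val, by omega⟩) ?_
    · ext i j
      simp only [Matrix.mul_apply, hN, Matrix.of_apply, mul_ite, mul_one, mul_zero, ← ite_and]
      by_cases hj : j.val < ℓ
      · rw [Finset.sum_eq_single (⟨j.val, hj⟩ : Fin ℓ) (fun k _ hk => by
          rw [if_neg]; exact fun hh => hk (Fin.ext hh.1.symm)) (fun hh => absurd (Finset.mem_univ _) hh)]
        refine if_congr ⟨fun hh => ⟨rfl, hh.2⟩, fun hh => ⟨hj, hh.2⟩⟩ rfl rfl
      · rw [if_neg fun hh => hj hh.1, Finset.sum_eq_zero fun k _ => by rw [if_neg]; exact fun hh => hj (hh.1 ▸ k.2)]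
    · ext k k'
      simp only [Matrix.submatrix_apply, hN, Matrix.of_apply, Matrix.one_apply, Fin.ext_iff]
      refine if_congr ⟨fun hh => by omega, fun hh => ⟨k'.2, by omega⟩⟩ rfl rfl

end Cfsg.Agent.S2163
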