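import Cfsg.Statements.S2164
import Cfsg.Agent.Forms.UnitaryInvolTwo

set_option autoImplicit false
open Cfsg

namespace Cfsg.Agent.S2164

/-- Conjugacy of involutions in the special unitary group SU_n(q), q even, n ≥ 3, realised over the field F with q² elements as the matrices of determinant 1 preserving the form Σ u_i v_i^q: for two elements of order 2 of SU_n(q) the following are equivalent — they are conjugate in SU_n(q); they are conjugate in SL_n(F); the matrices a − 1 and b − 1 have the same rank. -/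
theorem result {F : Type*} [Field F] [Fintype F] [CharP F 2] {n q : ℕ} (hF : Fintype.card F = q ^ 2) (hn : 3 ≤ n) (a b : ↥(Cfsg.SU n F q)) (ha : orderOf a = 2) (hb : orderOf b = 2) :
    (IsConj a b ↔ IsConj (a : Matrix.SpecialLinearGroup (Fin n) F) (b : Matrix.SpecialLinearGroup (Fin n) F)) ∧
    (IsConj a b ↔ (((a : Matrix.SpecialLinearGroup (Fin n) F) : Matrix (Fin n) (Fin n) F) - 1).rank = (((b : Matrix.SpecialLinearGroup (Fin n) F) : Matrix (Fin n) (Fin n) F) - 1).rank) := by
  have h1 : IsConj a b → IsConj (a : Matrix.SpecialLinearGroup (Fin n) F)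
      (b : Matrix.SpecialLinearGroup (Fin n) F) := fun h => (Cfsg.SU n F q).subtype.map_isConj h
  have h2 : IsConj (a : Matrix.SpecialLinearGroup (Fin n) F) (b : Matrix.SpecialLinearGroup (Fin n) F) →
      (((a : Matrix.SpecialLinearGroup (Fin n) F) : Matrix (Fin n) (Fin n) F) - 1).rank =
        (((b : Matrix.SpecialLinearGroup (Fin n) F) : Matrix (Fin n) (Fin n) F) - 1).rank := by
    intro h
    obtain ⟨k, hk⟩ := isConj_iff.1 h
    rw [← hk]
    have e : (((k * a.1 * k⁻¹ : Matrix.SpecialLinearGroup (Fin n) F)) : Matrix (Fin n) (Fin n) F) - 1 =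
        (k : Matrix (Fin n) (Fin n) F) * ((a.1 : Matrix (Fin n) (Fin n) F) - 1) *
          ((k⁻¹ : Matrix.SpecialLinearGroup (Fin n) F) : Matrix (Fin n) (Fin n) F) := by
      have hk1 : (k : Matrix (Fin n) (Fin n) F) *
          ((k⁻¹ : Matrix.SpecialLinearGroup (Fin n) F) : Matrix (Fin n) (Fin n) F) = 1 := by
        rw [← Matrix.SpecialLinearGroup.coe_mul, mul_inv_cancel, Matrix.SpecialLinearGroup.coe_one]
      rw [Matrix.mul_sub, Matrix.sub_mul, Matrix.mul_one, hk1]
      simp only [Matrix.SpecialLinearGroup.coe_mul]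
    rw [e, Matrix.rank_mul_eq_left_of_isUnit_det _ _ (by rw [Matrix.SpecialLinearGroup.det_coe]; exact isUnit_one),
      Matrix.rank_mul_eq_right_of_isUnit_det _ _ (by rw [Matrix.SpecialLinearGroup.det_coe]; exact isUnit_one)]
  exact ⟨⟨h1, fun h => Cfsg.Agent.Forms.su_involution_isConj hF a b ha hb (h2 h)⟩,
    ⟨fun h => h2 (h1 h), Cfsg.Agent.Forms.su_involution_isConj hF a b ha hb⟩⟩

end Cfsg.Agent.S2164
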