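import Cfsg.Statements.S2165
import Cfsg.Agent.Suzuki.CharTwoInv

set_option autoImplicit false
open Cfsg

namespace Cfsg.Agent.S2165

/-- In SU_n(q), q even, n ≥ 3 (matrices of determinant 1 over the field with q² elements preserving Σ u_i v_i^q): for every ℓ with 1 ≤ ℓ and 2ℓ ≤ n, the permutation matrix of the involution of {0, …, n−1} exchanging i and n − ℓ + i for each i < ℓ lies in SU_n(q), has order 2, and differs from the identity by a matrix of rank ℓ. So every rank between 1 and n/2 occurs for involutions of SU_n(q). -/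
theorem result {F : Type*} [Field F] [Fintype F] [CharP F 2] {n q : ℕ} (hF : Fintype.card F = q ^ 2) (hn : 3 ≤ n) (ℓ : ℕ) (h1 : 1 ≤ ℓ) (h2 : 2 * ℓ ≤ n) :
    ∃ a : ↥(Cfsg.SU n F q), (((a : Matrix.SpecialLinearGroup (Fin n) F) : Matrix (Fin n) (Fin n) F) = Matrix.of (fun i j : Fin n => if (j.val < ℓ ∧ i.val = j.val + (n - ℓ)) ∨ (i.val < ℓ ∧ j.val = i.val + (n - ℓ)) ∨ (i = j ∧ ℓ ≤ i.val ∧ i.val < n - ℓ) then (1 : F) else 0)) ∧ orderOf a = 2 ∧ ((((a : Matrix.SpecialLinearGroup (Fin n) F) : Matrix (Fin n) (Fin n) F)) - 1).rank = ℓ := by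
  classical
  have h20 : (2 : F) = 0 := by exact_mod_cast CharP.cast_eq_zero F 2
  let pi : Fin n → Fin n := fun i =>
    if hi : i.val < ℓ then ⟨i.val + (n - ℓ), by omega⟩
    else if hi' : n - ℓ ≤ i.val then ⟨i.val - (n - ℓ), by omega⟩ else i
  have hpv : ∀ i, (pi i).val = if i.val < ℓ then i.val + (n - ℓ)
      else if n - ℓ ≤ i.val then i.val - (n - ℓ) else i.val := fun i => by
    simp only [pi]; split_ifs <;> rfl
  have hpi : ∀ i, pi (pi i) = i := by
    intro i
    apply Fin.ext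
    rw [hpv, hpv]
    split_ifs <;> omega
  have hcond : ∀ i j : Fin n, ((j.val < ℓ ∧ i.val = j.val + (n - ℓ)) ∨
      (i.val < ℓ ∧ j.val = i.val + (n - ℓ)) ∨ (i = j ∧ ℓ ≤ i.val ∧ i.val < n - ℓ)) ↔ j = pi i := by
    intro i j
    simp only [Fin.ext_iff, hpv]
    split_ifs <;> omega
  set A : Matrix (Fin n) (Fin n) F := Matrix.of (fun i j : Fin n =>
    if (j.val < ℓ ∧ i.val = j.val + (n - ℓ)) ∨ (i.val < ℓ ∧ j.val = i.val + (n - ℓ)) ∨
      (i = j ∧ ℓ ≤ i.val ∧ i.val < n - ℓ) then (1 : F) else 0) with hA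
  have hAe : ∀ i j, A i j = if j = pi i then 1 else 0 := fun i j => by
    simp only [hA, Matrix.of_apply]
    exact if_congr (hcond i j) rfl rfl
  have hAv : ∀ v : Fin n → F, A.mulVec v = fun i => v (pi i) := fun v => by
    funext i
    simp [Matrix.mulVec, dotProduct, hAe]
  have hA2 : A * A = 1 := by
    ext i j
    rw [Matrix.mul_apply, Finset.sum_eq_single (pi i) (fun k _ hk => by rw [hAe, if_neg hk, zero_mul])
      (fun hh => absurd (Finset.mem_univ _) hh), hAe, if_pos rfl, one_mul, hAe, hpi, Matrix.one_apply]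
    exact if_congr eq_comm rfl rfl
  have hdet : A.det = 1 := by
    have h2 : A.det * A.det = 1 := by rw [← Matrix.det_mul, hA2, Matrix.det_one]
    rcases mul_self_eq_one_iff.1 h2 with e | e
    · exact e
    · rw [e, CharTwo.neg_eq]
  have hmem : (⟨A, hdet⟩ : Matrix.SpecialLinearGroup (Fin n) F) ∈ Cfsg.SU n F q := by
    intro u v
    show Cfsg.hermForm n F q (A.mulVec u) (A.mulVec v) = Cfsg.hermForm n F q u v
    rw [hAv, hAv]
    exact Equiv.sum_comp (⟨pi, pi, hpi, hpi⟩ : Fin n ≃ Fin n) (fun i => u i * v i ^ q)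
  refine ⟨⟨⟨A, hdet⟩, hmem⟩, rfl, orderOf_eq_prime ?_ ?_, ?_⟩
  · apply Subtype.ext
    apply Subtype.ext
    show (((⟨⟨A, hdet⟩, hmem⟩ : ↥(Cfsg.SU n F q)) ^ 2).1).1 = 1
    rw [pow_two]
    exact hA2
  · intro e
    have e1 := congrFun (congrFun (congrArg (fun x : ↥(Cfsg.SU n F q) => x.1.1) e) ⟨0, by omega⟩)
      ⟨n - ℓ, by omega⟩
    have hp0 : pi ⟨0, by omega⟩ = ⟨n - ℓ, by omega⟩ := by simp [pi, show 0 < ℓ by omega]
    simp only [hAe, hp0] at e1
    rw [if_pos trivial] at e1
    have e2 : (1 : F) = (1 : Matrix (Fin n) (Fin n) F) ⟨0, by omega⟩ ⟨n - ℓ, by omega⟩ := e1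
    rw [Matrix.one_apply_ne (by simp [Fin.ext_iff]; omega)] at e2
    exact one_ne_zero e2
  · show (A - 1).rank = ℓ
    let C : Matrix (Fin n) (Fin ℓ) F :=
      Matrix.of fun i k => if i.val = k.val ∨ i.val = k.val + (n - ℓ) then (1 : F) else 0
    refine Cfsg.Agent.Suzuki.rank_eq_of_factor (A - 1) C C.transpose ?_
      (fun k => ⟨k.val, by omega⟩) (fun k => ⟨k.val, by omega⟩) ?_
    · ext i j
      simp only [Matrix.mul_apply, Matrix.transpose_apply, C, Matrix.of_apply, Matrix.sub_apply,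
        Matrix.one_apply, hAe, CharTwo.sub_eq_add]
      by_cases hi : i.val < ℓ ∨ n - ℓ ≤ i.val
      · obtain ⟨k, hk⟩ : ∃ k : Fin ℓ, i.val = k.val ∨ i.val = k.val + (n - ℓ) := by
          rcases hi with hi | hi
          · exact ⟨⟨i.val, hi⟩, Or.inl rfl⟩
          · exact ⟨⟨i.val - (n - ℓ), by omega⟩, Or.inr (by simp; omega)⟩
        rw [Finset.sum_eq_single k (fun k' _ hk' => by
          rw [if_neg (fun hh => hk' (Fin.ext (by have := k.2; have := k'.2; omega))), zero_mul])
          (fun hh => absurd (Finset.mem_univ _) hh), if_pos hk, one_mul]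
        have hp : (pi i).val = if i.val < ℓ then i.val + (n - ℓ) else i.val - (n - ℓ) := by
          simp only [pi]; split_ifs <;> first | rfl | omega
        have := k.2
        simp only [Fin.ext_iff, hp]
        split_ifs <;> first | omega | simp | (exfalso; omega)
      · push Not at hi
        have hp : pi i = i := Fin.ext (by rw [hpv, if_neg (by omega), if_neg (by omega)])
        rw [hp, Finset.sum_eq_zero (fun k _ => by
          rw [if_neg (by have := k.2; omega), zero_mul])]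
        simp only [eq_comm (a := j)]
        split_ifs
        · exact CharTwo.add_self_eq_zero _
        · simp
    · ext k k'
      have hp : pi (⟨k.val, by omega⟩ : Fin n) = ⟨k.val + (n - ℓ), by omega⟩ := by simp [pi, k.2]
      simp only [Matrix.submatrix_apply, Matrix.sub_apply, hAe, hp, Matrix.one_apply, Fin.ext_iff,
        CharTwo.sub_eq_add]
      rw [if_neg (show ¬ k'.val = k.val + (n - ℓ) by omega), zero_add]

end Cfsg.Agent.S2165
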