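import Cfsg.Statements.S2167
import Cfsg.Agent.Suzuki.CharTwoInv

set_option autoImplicit false
open Cfsg

namespace Cfsg.Agent.S2167

/-- For an involution t of the symplectic group Sp_{2m}(F), m ≥ 2, F a finite field of characteristic two (matrices A with A J Aᵀ = J acting on column vectors, alternating form f(u, v) = u ⬝ (J v)): the set V(t) of vectors v with f(v, t v) = 0 has either q^{2m} or q^{2m−1} elements, q the order of F (it is a subspace of codimension at most 1), and if it is the whole space then t − 1 has even rank. -/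
theorem result {F : Type*} [Field F] [Fintype F] [CharP F 2] {m : ℕ} (hm : 2 ≤ m) (a : ↥(Matrix.symplecticGroup (Fin m) F)) (ha : orderOf a = 2) :
    (Nat.card {v : Fin m ⊕ Fin m → F // Cfsg.sympForm m F v (Matrix.mulVec ((a : ↥(Matrix.symplecticGroup (Fin m) F)) : Matrix (Fin m ⊕ Fin m) (Fin m ⊕ Fin m) F) v) = 0} = Fintype.card F ^ (2 * m) ∨ Nat.card {v : Fin m ⊕ Fin m → F // Cfsg.sympForm m F v (Matrix.mulVec ((a : ↥(Matrix.symplecticGroup (Fin m) F)) : Matrix (Fin m ⊕ Fin m) (Fin m ⊕ Fin m) F) v) = 0} * Fintype.card F = Fintype.card F ^ (2 * m)) ∧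
    ((∀ v : Fin m ⊕ Fin m → F, Cfsg.sympForm m F v (Matrix.mulVec ((a : ↥(Matrix.symplecticGroup (Fin m) F)) : Matrix (Fin m ⊕ Fin m) (Fin m ⊕ Fin m) F) v) = 0) → Even (((a : ↥(Matrix.symplecticGroup (Fin m) F)) : Matrix (Fin m ⊕ Fin m) (Fin m ⊕ Fin m) F) - 1).rank) := by
  classical
  have h2 : (2 : F) = 0 := by exact_mod_cast CharP.cast_eq_zero F 2
  set A : Matrix (Fin m ⊕ Fin m) (Fin m ⊕ Fin m) F := a.1 with hA
  set J : Matrix (Fin m ⊕ Fin m) (Fin m ⊕ Fin m) F := Matrix.J (Fin m) F with hJ
  have hA2 : A * A = 1 := by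
    have : a ^ 2 = 1 := by rw [← ha]; exact pow_orderOf_eq_one a
    have := congrArg Subtype.val this
    rw [pow_two] at this
    exact this
  have hmem : A * J * A.transpose = J := SymplecticGroup.mem_iff.1 a.2
  have hmem' : A.transpose * J * A = J := SymplecticGroup.mem_iff'.1 a.2
  have hJA : J * A = A.transpose * J := by
    calc J * A = (A * A).transpose * (J * A) := by rw [hA2, Matrix.transpose_one, Matrix.one_mul]
      _ = A.transpose * (A.transpose * J * A) := by
          rw [Matrix.transpose_mul]; simp only [Matrix.mul_assoc]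
      _ = _ := by rw [hmem']
  have hJt : J.transpose = J := by
    rw [hJ, Matrix.J_transpose]
    ext i j
    simp [CharTwo.neg_eq]
  have hS : (J * A).transpose = J * A := by rw [Matrix.transpose_mul, hJt, hJA]
  have hg : ∀ v, Cfsg.sympForm m F v (A.mulVec v) = dotProduct v ((J * A).mulVec v) := fun v => by
    simp [Cfsg.sympForm, ← hJ, Matrix.mulVec_mulVec]
  let g : (Fin m ⊕ Fin m → F) →+ F := AddMonoidHom.mk'
    (fun v => Cfsg.sympForm m F v (A.mulVec v)) (fun v w => by
      rw [hg, hg, hg, Matrix.mulVec_add, dotProduct_add, add_dotProduct, add_dotProduct]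
      have : dotProduct v ((J * A).mulVec w) = dotProduct w ((J * A).mulVec v) := by
        rw [Matrix.dotProduct_mulVec, ← Matrix.mulVec_transpose, hS, dotProduct_comm]
      rw [this]
      linear_combination (dotProduct w ((J * A).mulVec v)) * h2)
  constructor
  · by_cases hall : ∀ v, g v = 0
    · left
      rw [show Fintype.card F ^ (2 * m) = Nat.card (Fin m ⊕ Fin m → F) by
        rw [Nat.card_fun, Nat.card_eq_fintype_card, Nat.card_sum, Nat.card_fin, two_mul]]
      exact Nat.card_congr (Equiv.subtypeUnivEquiv hall)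
    · right
      push Not at hall
      obtain ⟨v, hv⟩ := hall
      have hsurj : Function.Surjective g := by
        intro c
        obtain ⟨r, hr⟩ := (FiniteField.isSquare_of_char_two (by rw [ringChar.eq F 2]) (c / g v))
        refine ⟨r • v, ?_⟩
        show Cfsg.sympForm m F (r • v) (A.mulVec (r • v)) = c
        rw [hg, Matrix.mulVec_smul, dotProduct_smul, smul_dotProduct, smul_eq_mul, smul_eq_mul,
          ← mul_assoc, ← hr, ← hg]
        exact div_mul_cancel₀ c hv
      have h1 := g.ker.card_mul_index
      rw [AddSubgroup.index_ker, AddMonoidHom.range_eq_top.2 hsurj,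
        AddSubgroup.card_top, Nat.card_fun, Nat.card_sum, Nat.card_fin,
        Nat.card_eq_fintype_card (α := F), ← two_mul] at h1
      rw [← h1]
      rfl
  · intro hall
    have hrank : (A - 1).rank = (J * (A - 1)).rank := by
      refine (Matrix.rank_mul_eq_right_of_isUnit_det J _ ?_).symm
      exact Matrix.isUnit_det_J _ F
    show Even (A - 1).rank
    rw [hrank]
    refine Cfsg.Agent.Suzuki.even_rank_alternating _ (fun i j => ?_) (fun v => ?_)
    · have e : (J * (A - 1)).transpose = J * (A - 1) := by
        rw [Matrix.mul_sub, Matrix.mul_one, Matrix.transpose_sub, hS, hJt]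
      exact congrFun (congrFun e j) i
    · rw [Matrix.mul_sub, Matrix.mul_one, Matrix.sub_mulVec, dotProduct_sub, ← hg, hall v, zero_sub,
        neg_eq_zero, hJ]
      simp only [Matrix.J, dotProduct, Matrix.mulVec, Fintype.sum_sum_type, Matrix.fromBlocks,
        Matrix.of_apply, Sum.elim_inl, Sum.elim_inr, Matrix.zero_apply, zero_mul, mul_zero,
        Finset.sum_const_zero, zero_add, add_zero, Matrix.neg_apply, Matrix.one_apply, ite_mul,
        neg_mul, one_mul, Finset.sum_neg_distrib, Finset.sum_ite_eq, Finset.mem_univ, if_true]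
      simp only [mul_neg, Finset.sum_neg_distrib, neg_add_eq_sub]
      simp [mul_comm]

end Cfsg.Agent.S2167
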