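import Cfsg.Statements.S2173
import Cfsg.Agent.Forms.InvolTwoConj

set_option autoImplicit false
open Cfsg

namespace Cfsg.Agent.S2173

/-- For the quadratic form Σ x_i y_i + (z₁² + c z₁ z₂ + d z₂²) in dimension 2m with anisotropic binary part over a finite field F of characteristic two, m ≥ 4 (minus type): two involutions of the commutator subgroup Ω that are conjugate in the full isometry group O are conjugate by an element of Ω (no class of involutions of O inside Ω splits). -/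
theorem result {F : Type*} [Field F] [Fintype F] [CharP F 2] {m : ℕ} (hm : 4 ≤ m) (c d : F) (hcd : ∀ z₁ z₂ : F, z₁ ^ 2 + c * z₁ * z₂ + d * z₂ ^ 2 = 0 → z₁ = 0 ∧ z₂ = 0) (t s : ↥(Cfsg.isometryGroup F (Cfsg.quadFormMinus (m - 1) F c d))) (ht : orderOf t = 2) (hs : orderOf s = 2) (htO : t ∈ Cfsg.Omega F (Cfsg.quadFormMinus (m - 1) F c d)) (hsO : s ∈ Cfsg.Omega F (Cfsg.quadFormMinus (m - 1) F c d)) (hconj : IsConj t s) :
    ∃ g ∈ Cfsg.Omega F (Cfsg.quadFormMinus (m - 1) F c d), g * t * g⁻¹ = s := by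
  have h1 : Module.finrank F ((Fin (m - 1) ⊕ Fin (m - 1)) ⊕ Fin 2 → F) = 2 * m := by simp; omega
  have hQ := Cfsg.Agent.Forms.qMinus_nondegenerate (m := m - 1) c d (Cfsg.Agent.Forms.disc_ne_zero hcd)
  have hgen := Cfsg.Agent.Forms.closure_reflectionSet_char_two hQ (Or.inr (Or.inl (by omega)))
  refine (Cfsg.Agent.Forms.omega_conj_spec (Q := Cfsg.Agent.Forms.qMinus (m - 1) F c d) (Cfsg.Agent.Forms.coe_qMinus (m - 1) F c d) (Cfsg.Agent.Forms.qMinus_nondegenerate c d (Cfsg.Agent.Forms.disc_ne_zero hcd)) hgen (by omega) t s ht hconj).1 ?_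
  rintro ⟨hd, hv⟩
  rw [h1] at hd
  have hsing : ∀ w ∈ LinearMap.range (Matrix.mulVecLin (((t : GL ((Fin (m - 1) ⊕ Fin (m - 1)) ⊕ Fin 2) F) : Matrix ((Fin (m - 1) ⊕ Fin (m - 1)) ⊕ Fin 2) ((Fin (m - 1) ⊕ Fin (m - 1)) ⊕ Fin 2) F) - 1)),
      Cfsg.Agent.Forms.qMinus (m - 1) F c d w = 0 := by
    rintro _ ⟨v, rfl⟩
    rw [Cfsg.Agent.Forms.coe_qMinus, Matrix.mulVecLin_apply, Matrix.sub_mulVec, Matrix.one_mulVec,
      sub_eq_add_neg, add_comm, show -v = v from funext fun i => CharTwo.neg_eq _]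
    exact hv v
  have := Cfsg.Agent.Forms.finrank_singular_minus hcd hsing
  change _ ≤ _ at this
  unfold Matrix.rank at hd
  omega

end Cfsg.Agent.S2173
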