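import Cfsg.Statements.S2174
import Cfsg.Agent.FGS3.F4InvFinal
-- import your own Cfsg.Agent.* helpers here

set_option autoImplicit false
open Cfsg

namespace Cfsg.Agent.S2174

/-- Conjugacy classes of involutions in the Chevalley group of type F₄ over a finite field F of characteristic two (the matrix group generated by the root elements x_r(t)). In this problem's root numbering for type F₄ (the Chevalley data module; fundamental roots p₁, p₂ short and p₃, p₄ long; roots indexed by their coefficient vectors in increasing order) let r = 47 be the highest root (2,4,3,2), s = 44 the highest short root (2,3,2,1), and α = 39 = (1,2,2,1), β = 45 = (2,4,2,1), an orthogonal short/long pair; consider the four elements x_r(1), x_s(1), x_r(1)x_s(1), x_α(1)x_β(1). Then: each invertible matrix equal to one of these four products lies in the group and has order 2; every element of order 2 of the group is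 conjugate in the group to one of them; and no two of them are conjugate in the group (so, the four matrices being distinct, the group has exactly four conjugacy classes of involutions). -/
theorem result {F : Type*} [Field F] [Fintype F] [CharP F 2] :
    (∀ y : GL Cfsg.Lie.chevF4.Idx F, ((y : GL Cfsg.Lie.chevF4.Idx F) : Matrix Cfsg.Lie.chevF4.Idx Cfsg.Lie.chevF4.Idx F) ∈ [Cfsg.Lie.chevF4.x F 47 1, Cfsg.Lie.chevF4.x F 44 1, Cfsg.Lie.chevF4.x F 47 1 * Cfsg.Lie.chevF4.x F 44 1, Cfsg.Lie.chevF4.x F 39 1 * Cfsg.Lie.chevF4.x F 45 1] → y ∈ Cfsg.Lie.chevF4.group F ∧ orderOf y = 2) ∧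
    (∀ g ∈ Cfsg.Lie.chevF4.group F, orderOf g = 2 → ∃ y ∈ Cfsg.Lie.chevF4.group F, ((y : GL Cfsg.Lie.chevF4.Idx F) : Matrix Cfsg.Lie.chevF4.Idx Cfsg.Lie.chevF4.Idx F) ∈ [Cfsg.Lie.chevF4.x F 47 1, Cfsg.Lie.chevF4.x F 44 1, Cfsg.Lie.chevF4.x F 47 1 * Cfsg.Lie.chevF4.x F 44 1, Cfsg.Lie.chevF4.x F 39 1 * Cfsg.Lie.chevF4.x F 45 1] ∧ ∃ h ∈ Cfsg.Lie.chevF4.group F, h * g * h⁻¹ = y) ∧
    (∀ y₁ ∈ Cfsg.Lie.chevF4.group F, ∀ y₂ ∈ Cfsg.Lie.chevF4.group F, ((y₁ : GL Cfsg.Lie.chevF4.Idx F) : Matrix Cfsg.Lie.chevF4.Idx Cfsg.Lie.chevF4.Idx F) ∈ [Cfsg.Lie.chevF4.x F 47 1, Cfsg.Lie.chevF4.x F 44 1, Cfsg.Lie.chevF4.x F 47 1 * Cfsg.Lie.chevF4.x F 44 1, Cfsg.Lie.chevF4.x F 39 1 * Cfsg.Lie.chevF4.x F 45 1] → ((y₂ : GL Cfsg.Lie.chevF4.Idx F) : Matrix Cfsg.Lie.chevF4.Idx Cfsg.Lie.chevF4.Idx F) ∈ [Cfsg.Lie.chevF4.x F 47 1, Cfsg.Lie.chevF4.x F 44 1, Cfsg.Lie.chevF4.x F 47 1 * Cfsg.Lie.chevF4.x F 44 1, Cfsg.Lie.chevF4.x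 F 39 1 * Cfsg.Lie.chevF4.x F 45 1] →
      (∃ h ∈ Cfsg.Lie.chevF4.group F, h * y₁ * h⁻¹ = y₂) → ((y₁ : GL Cfsg.Lie.chevF4.Idx F) : Matrix Cfsg.Lie.chevF4.Idx Cfsg.Lie.chevF4.Idx F) = ((y₂ : GL Cfsg.Lie.chevF4.Idx F) : Matrix Cfsg.Lie.chevF4.Idx Cfsg.Lie.chevF4.Idx F)) := by
  classical
  open Cfsg.Agent.FGS3.F4Inv in
  have lift : ∀ y : GL Cfsg.Lie.chevF4.Idx F,
      ((y : GL Cfsg.Lie.chevF4.Idx F) : Matrix Cfsg.Lie.chevF4.Idx Cfsg.Lie.chevF4.Idx F) ∈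
        [Cfsg.Lie.chevF4.x F 47 1, Cfsg.Lie.chevF4.x F 44 1, Cfsg.Lie.chevF4.x F 47 1 * Cfsg.Lie.chevF4.x F 44 1,
          Cfsg.Lie.chevF4.x F 39 1 * Cfsg.Lie.chevF4.x F 45 1] →
      y = cF.xu 47 1 ∨ y = cF.xu 44 1 ∨ y = cF.xu 47 1 * cF.xu 44 1 ∨ y = cF.xu 39 1 * cF.xu 45 1 := by
    intro y hy
    simp only [List.mem_cons, List.not_mem_nil, or_false] at hy
    exact hy.imp (fun h => Units.ext h) (Or.imp (fun h => Units.ext h)
      (Or.imp (fun h => Units.ext h) (fun h => Units.ext h)))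
  open Cfsg.Agent.FGS3.F4Inv in
  refine ⟨fun y hy => ?_, fun g hg h2 => ?_, fun y₁ _ y₂ _ h1 h2 h => ?_⟩
  · obtain ⟨o1, o2, o3, o4⟩ := rep_order (F := F)
    rcases lift y hy with rfl | rfl | rfl | rfl
    · exact ⟨cF.xu_mem_group _ _, o1⟩
    · exact ⟨cF.xu_mem_group _ _, o2⟩
    · exact ⟨mul_mem (cF.xu_mem_group _ _) (cF.xu_mem_group _ _), o3⟩
    · exact ⟨mul_mem (cF.xu_mem_group _ _) (cF.xu_mem_group _ _), o4⟩
  · rcases every hg h2 with h | h | h | h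
    · exact ⟨_, cF.xu_mem_group _ _, List.mem_cons_self, h⟩
    · exact ⟨_, cF.xu_mem_group _ _, List.mem_cons_of_mem _ List.mem_cons_self, h⟩
    · exact ⟨_, mul_mem (cF.xu_mem_group _ _) (cF.xu_mem_group _ _),
        List.mem_cons_of_mem _ (List.mem_cons_of_mem _ List.mem_cons_self), h⟩
    · exact ⟨_, mul_mem (cF.xu_mem_group _ _) (cF.xu_mem_group _ _),
        List.mem_cons_of_mem _ (List.mem_cons_of_mem _ (List.mem_cons_of_mem _ List.mem_cons_self)), h⟩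
  · exact congrArg Units.val (rep_distinct (lift y₁ h1) (lift y₂ h2) h)

end Cfsg.Agent.S2174
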