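import Cfsg.Statements.S2175
import Cfsg.Agent.Suzuki.SLInv.DataE6
import Cfsg.Agent.Suzuki.SLInv.Classes
import Cfsg.Agent.Chev.OrdersByType

set_option autoImplicit false
open Cfsg
open Cfsg.Agent.Chev Cfsg.Agent.Suzuki.SLInv

namespace Cfsg.Agent.S2175

/-- Conjugacy classes of involutions in the Chevalley group of type E₆ over a finite field F of characteristic two (the matrix group generated by the root elements x_r(t)). In this problem's root numbering for type E₆ (the Chevalley data module; fundamental roots numbered so that p₁–p₃–p₄–p₅–p₆ is the long chain of the diagram and p₂ is joined to p₄; roots indexed by their coefficient vectors in increasing order) let r = 71 be the highest root (1,2,2,3,2,1), α = 68 = (1,1,2,2,1,1), β = 66 = (1,1,1,2,2,1), γ = 55 = (0,1,1,2,2,1), δ = 65 = (1,1,1,2,1,1), ε = 67 = (1,1,2,2,1,0) (α ⊥ β and γ, δ, ε pairwise orthogonal); consider x_r(1), x_α(1)x_β(1) and x_γ(1)x_δ(1)x_ε(1).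 Then: each invertible matrix equal to one of these three products lies in the group and has order 2; every element of order 2 of the group is conjugate in the group to one of them; and no two of them are conjugate in the group (so, the three matrices being distinct, the group has exactly three conjugacy classes of involutions). -/
theorem result {F : Type*} [Field F] [Fintype F] [CharP F 2] :
    (∀ y : GL Cfsg.Lie.chevE6.Idx F, ((y : GL Cfsg.Lie.chevE6.Idx F) : Matrix Cfsg.Lie.chevE6.Idx Cfsg.Lie.chevE6.Idx F) ∈ [Cfsg.Lie.chevE6.x F 71 1, Cfsg.Lie.chevE6.x F 68 1 * Cfsg.Lie.chevE6.x F 66 1, Cfsg.Lie.chevE6.x F 55 1 * Cfsg.Lie.chevE6.x F 65 1 * Cfsg.Lie.chevE6.x F 67 1] → y ∈ Cfsg.Lie.chevE6.group F ∧ orderOf y = 2) ∧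
    (∀ g ∈ Cfsg.Lie.chevE6.group F, orderOf g = 2 → ∃ y ∈ Cfsg.Lie.chevE6.group F, ((y : GL Cfsg.Lie.chevE6.Idx F) : Matrix Cfsg.Lie.chevE6.Idx Cfsg.Lie.chevE6.Idx F) ∈ [Cfsg.Lie.chevE6.x F 71 1, Cfsg.Lie.chevE6.x F 68 1 * Cfsg.Lie.chevE6.x F 66 1, Cfsg.Lie.chevE6.x F 55 1 * Cfsg.Lie.chevE6.x F 65 1 * Cfsg.Lie.chevE6.x F 67 1] ∧ ∃ h ∈ Cfsg.Lie.chevE6.group F, h * g * h⁻¹ = y) ∧
    (∀ y₁ ∈ Cfsg.Lie.chevE6.group F, ∀ y₂ ∈ Cfsg.Lie.chevE6.group F, ((y₁ : GL Cfsg.Lie.chevE6.Idx F) : Matrix Cfsg.Lie.chevE6.Idx Cfsg.Lie.chevE6.Idx F) ∈ [Cfsg.Lie.chevE6.x F 71 1, Cfsg.Lie.chevE6.x F 68 1 * Cfsg.Lie.chevE6.x F 66 1, Cfsg.Lie.chevE6.x F 55 1 * Cfsg.Lie.chevE6.x F 65 1 * Cfsg.Lie.chevE6.x F 67 1] → ((y₂ : GL Cfsg.Lie.chevE6.Idx F) : Matrix Cfsg.Lie.chevE6.Idx Cfsg.Lie.chevE6.Idx F) ∈ [Cfsg.Lie.chevE6.x F 71 1, Cfsg.Lie.chevE6.x F 68 1 * Cfsg.Lie.chevE6.x F 66 1, Cfsg.Lie.chevE6.x F 55 1 * Cfsg.Lie.chevE6.x F 65 1 * Cfsg.Lie.chevE6.x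 F 67 1] →
      (∃ h ∈ Cfsg.Lie.chevE6.group F, h * y₁ * h⁻¹ = y₂) → ((y₁ : GL Cfsg.Lie.chevE6.Idx F) : Matrix Cfsg.Lie.chevE6.Idx Cfsg.Lie.chevE6.Idx F) = ((y₂ : GL Cfsg.Lie.chevE6.Idx F) : Matrix Cfsg.Lie.chevE6.Idx Cfsg.Lie.chevE6.Idx F)) := by
  classical
  have sl := E6.sl
  have val : ∀ w ∈ [[71], [68,66], [55,65,67]], ∀ y : GL Cfsg.Lie.chevE6.Idx F,
      (y : Matrix Cfsg.Lie.chevE6.Idx Cfsg.Lie.chevE6.Idx F) = (W allOKE6 w : GL Cfsg.Lie.chevE6.Idx F) →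
        y ∈ Cfsg.Lie.chevE6.group F ∧ orderOf y = 2 := by
    intro w hw y hy
    obtain rfl : y = W allOKE6 w := Units.ext hy
    refine ⟨W_mem allOKE6 sl w, order_two allOKE6 (W_sq allOKE6 sl E6.repsOK ?_) ?_⟩
    · fin_cases hw <;> decide +kernel
    · intro e
      have e' := congrArg (fun g : GL Cfsg.Lie.chevE6.Idx F => ((g : Matrix Cfsg.Lie.chevE6.Idx Cfsg.Lie.chevE6.Idx F) - 1).rank) e
      simp only [Units.val_one, sub_self, Matrix.rank_zero] at e'
      fin_cases hw <;> simp [E6.rank0, E6.rank1, E6.rank2] at e'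
  have v0 : ((W allOKE6 [71] : GL Cfsg.Lie.chevE6.Idx F) : Matrix _ _ F) = Cfsg.Lie.chevE6.x F 71 1 := by
    simp only [val_cons_word, W_nil, Units.val_one, mul_one, mul_assoc]
  have v1 : ((W allOKE6 [68,66] : GL Cfsg.Lie.chevE6.Idx F) : Matrix _ _ F) = Cfsg.Lie.chevE6.x F 68 1 * Cfsg.Lie.chevE6.x F 66 1 := by
    simp only [val_cons_word, W_nil, Units.val_one, mul_one, mul_assoc]
  have v2 : ((W allOKE6 [55,65,67] : GL Cfsg.Lie.chevE6.Idx F) : Matrix _ _ F) = Cfsg.Lie.chevE6.x F 55 1 * Cfsg.Lie.chevE6.x F 65 1 * Cfsg.Lie.chevE6.x F 67 1 := by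
    simp only [val_cons_word, W_nil, Units.val_one, mul_one, mul_assoc]
  refine ⟨fun y hy => ?_, fun g hg h2 => ?_, fun y₁ _ y₂ _ h₁ h₂ hc => ?_⟩
  · simp only [List.mem_cons, List.not_mem_nil, or_false] at hy
    rcases hy with h | h | h
    · exact val [71] (by simp) y (h.trans v0.symm)
    · exact val [68,66] (by simp) y (h.trans v1.symm)
    · exact val [55,65,67] (by simp) y (h.trans v2.symm)
  · have hq := two_dvd_card F
    have h0 : 0 < Fintype.card F := Fintype.card_pos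
    obtain ⟨M, hM, hord⟩ : ∃ M, ¬ 2 ∣ M ∧ Nat.gcd 3 (Fintype.card F - 1) * Nat.card ↥(Cfsg.Lie.chevE6.group F) =
        Fintype.card F ^ (Cfsg.Lie.chevE6.nroots / 2) * M := by
      rw [show Cfsg.Lie.chevE6.nroots / 2 = 36 by decide +kernel]
      rw [orderE6 rfl]
      simp only [mul_assoc]
      refine ⟨_, ?_, rfl⟩
      simp only [Nat.prime_two.dvd_mul, not_or]
      and_intros <;> exact not_dvd_pow_pred hq h0 (by norm_num)
    obtain ⟨j, hj, k, hk, e⟩ := cover allOKE6 sl E6.same E6.repsOK E6.extOK E6.redOK (by decide) hM hord hg h2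
    simp only [E6.cls, List.mem_cons, List.not_mem_nil, or_false] at hj
    rcases hj with rfl | rfl | rfl
    · exact ⟨_, W_mem allOKE6 sl _, by rw [show E6.reps.getD 1 [] = [71] from rfl, v0]; simp, k, hk, e⟩
    · exact ⟨_, W_mem allOKE6 sl _, by rw [show E6.reps.getD 2 [] = [68,66] from rfl, v1]; simp, k, hk, e⟩
    · exact ⟨_, W_mem allOKE6 sl _, by rw [show E6.reps.getD 3 [] = [55,65,67] from rfl, v2]; simp, k, hk, e⟩
  · have hr := rank_conj hc
    simp only [List.mem_cons, List.not_mem_nil, or_false] at h₁ h₂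
    rcases h₁ with p | p | p <;> rcases h₂ with r | r | r <;>
      first
        | exact p.trans r.symm
        | (rw [p, r] at hr
           simp only [← v0, ← v1, ← v2, E6.rank0, E6.rank1, E6.rank2] at hr
           exact absurd hr (by norm_num))

end Cfsg.Agent.S2175
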