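import Cfsg.Statements.S2177
import Cfsg.Agent.LeadWork.G2TwoClasses

set_option autoImplicit false
open Cfsg

namespace Cfsg.Agent.S2177

/-- Conjugacy classes of involutions in the Chevalley group of type G₂ over a finite field F of characteristic two with at least four elements (the matrix group generated by the root elements x_r(t)). In this problem's root numbering for type G₂ (the Chevalley data module; p₁ = a short, p₂ = b long; roots indexed by coefficient vectors in increasing order) let 11 be the highest root 3a + 2b (long) and 9 the short root 2a + b; consider x_{3a+2b}(1) and x_{2a+b}(1). Then: each invertible matrix equal to one of these two products lies in the group and has order 2; every element of order 2 of the group is conjugate in the group to one of them; and no two of them are conjugate in the group (so, the two matrices being distinct, the group has exactly two conjugacy classes of involutions).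 -/
theorem result {F : Type*} [Field F] [Fintype F] [CharP F 2] (hF : 4 ≤ Fintype.card F) :
    (∀ y : GL Cfsg.Lie.chevG2.Idx F, ((y : GL Cfsg.Lie.chevG2.Idx F) : Matrix Cfsg.Lie.chevG2.Idx Cfsg.Lie.chevG2.Idx F) ∈ [Cfsg.Lie.chevG2.x F 11 1, Cfsg.Lie.chevG2.x F 9 1] → y ∈ Cfsg.Lie.chevG2.group F ∧ orderOf y = 2) ∧
    (∀ g ∈ Cfsg.Lie.chevG2.group F, orderOf g = 2 → ∃ y ∈ Cfsg.Lie.chevG2.group F, ((y : GL Cfsg.Lie.chevG2.Idx F) : Matrix Cfsg.Lie.chevG2.Idx Cfsg.Lie.chevG2.Idx F) ∈ [Cfsg.Lie.chevG2.x F 11 1, Cfsg.Lie.chevG2.x F 9 1] ∧ ∃ h ∈ Cfsg.Lie.chevG2.group F, h * g * h⁻¹ = y) ∧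
    (∀ y₁ ∈ Cfsg.Lie.chevG2.group F, ∀ y₂ ∈ Cfsg.Lie.chevG2.group F, ((y₁ : GL Cfsg.Lie.chevG2.Idx F) : Matrix Cfsg.Lie.chevG2.Idx Cfsg.Lie.chevG2.Idx F) ∈ [Cfsg.Lie.chevG2.x F 11 1, Cfsg.Lie.chevG2.x F 9 1] → ((y₂ : GL Cfsg.Lie.chevG2.Idx F) : Matrix Cfsg.Lie.chevG2.Idx Cfsg.Lie.chevG2.Idx F) ∈ [Cfsg.Lie.chevG2.x F 11 1, Cfsg.Lie.chevG2.x F 9 1] →
      (∃ h ∈ Cfsg.Lie.chevG2.group F, h * y₁ * h⁻¹ = y₂) → ((y₁ : GL Cfsg.Lie.chevG2.Idx F) : Matrix Cfsg.Lie.chevG2.Idx Cfsg.Lie.chevG2.Idx F) = ((y₂ : GL Cfsg.Lie.chevG2.Idx F) : Matrix Cfsg.Lie.chevG2.Idx Cfsg.Lie.chevG2.Idx F)) := by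
  have hX : ∀ (y : GL Cfsg.Lie.chevG2.Idx F) (r : ℕ),
      (y : Matrix Cfsg.Lie.chevG2.Idx Cfsg.Lie.chevG2.Idx F) = Cfsg.Lie.chevG2.x F r 1 →
        y = Chev.certG2.xu r 1 := fun y r h => Units.ext (by simp [h])
  have hmem : ∀ r, Chev.certG2.xu (F := F) r 1 ∈ Cfsg.Lie.chevG2.group F := fun r => Chev.certG2.xu_mem_group r 1
  refine ⟨?_, ?_, ?_⟩
  · intro y hy
    simp only [List.mem_cons, List.not_mem_nil, or_false] at hy
    have : ∃ r < 12, y = Chev.certG2.xu r 1 := by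
      rcases hy with h | h
      · exact ⟨11, by norm_num, hX y 11 h⟩
      · exact ⟨9, by norm_num, hX y 9 h⟩
    obtain ⟨r, hr, rfl⟩ := this
    refine ⟨hmem r, orderOf_eq_prime ?_ ?_⟩
    · rw [pow_two]; exact LeadWork.G2Two.sq_one r 1
    · intro h
      exact one_ne_zero (Chev.certG2.xu_eq_one (show r < Cfsg.Lie.chevG2.nroots from hr) h)
  · intro g hg h2
    rcases LeadWork.G2Two.every hg h2 with ⟨h, hh, e⟩ | ⟨h, hh, e⟩
    · exact ⟨_, hmem 11, by simp, h, hh, e⟩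
    · exact ⟨_, hmem 9, by simp, h, hh, e⟩
  · intro y₁ _ y₂ _ h₁ h₂ ⟨h, hh, e⟩
    simp only [List.mem_cons, List.not_mem_nil, or_false] at h₁ h₂
    rcases h₁ with a | a <;> rcases h₂ with b | b
    · rw [a, b]
    · rw [hX y₁ 11 a, hX y₂ 9 b] at e
      exact absurd ⟨h, hh, e⟩ LeadWork.G2Two.not_conj
    · rw [hX y₁ 9 a, hX y₂ 11 b] at e
      exact absurd ⟨h⁻¹, inv_mem hh, by rw [← e]; group⟩ LeadWork.G2Two.not_conj
    · rw [a, b]

end Cfsg.Agent.S2177
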