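import Cfsg.Statements.S2178
import Cfsg.Agent.LeadWork.RootCentralizerData

set_option autoImplicit false
open Cfsg

namespace Cfsg.Agent.S2178

/-- Centralizers of the long and the short root involutions in the Chevalley group G of type F₄ over a finite field F of characteristic two (this problem's root numbering for type F₄, from the Chevalley data module: fundamental roots p₁, p₂ short, p₃, p₄ long, with indices 33, 27, 25, 24, their negatives 14, 20, 22, 23; highest root 47, highest short root 44; U the subgroup generated by the positive root subgroups). For an element t of G with matrix x_47(1): the centralizer of t in G is the subgroup generated by U and the root subgroups X_{−p₁}, X_{−p₂}, X_{−p₃} (the unipotent radical of the maximal parabolic subgroup whose Levi factor has fundamental roots p₁, p₂, p₃, together with that Levi factor's root subgroups; the Levi factor is of type C₃). For an element u of G with matrix x_44(1): the centralizer of u in G is generated by U and X_{−p₂}, X_{−p₃}, X_{−p₄} (the same construction for the Levi factor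 with fundamental roots p₂, p₃, p₄, of type B₃). -/
theorem result {F : Type*} [Field F] [Fintype F] [CharP F 2] (t u : GL Cfsg.Lie.chevF4.Idx F) (ht : (t : Matrix Cfsg.Lie.chevF4.Idx Cfsg.Lie.chevF4.Idx F) = Cfsg.Lie.chevF4.x F 47 1) (hu : (u : Matrix Cfsg.Lie.chevF4.Idx Cfsg.Lie.chevF4.Idx F) = Cfsg.Lie.chevF4.x F 44 1) :
    Cfsg.Lie.chevF4.group F ⊓ Subgroup.centralizer {t} = Cfsg.Lie.chevF4.posUnipotent F ⊔ Cfsg.Lie.chevF4.rootSubgroup F 14 ⊔ Cfsg.Lie.chevF4.rootSubgroup F 20 ⊔ Cfsg.Lie.chevF4.rootSubgroup F 22 ∧
    Cfsg.Lie.chevF4.group F ⊓ Subgroup.centralizer {u} = Cfsg.Lie.chevF4.posUnipotent F ⊔ Cfsg.Lie.chevF4.rootSubgroup F 20 ⊔ Cfsg.Lie.chevF4.rootSubgroup F 22 ⊔ Cfsg.Lie.chevF4.rootSubgroup F 23 := by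
  classical
  have hz : ∀ (r : ℕ) (x : GL Cfsg.Lie.chevF4.Idx F),
      (x : Matrix Cfsg.Lie.chevF4.Idx Cfsg.Lie.chevF4.Idx F) = Cfsg.Lie.chevF4.x F r 1 →
        x = LeadWork.RootCent.zElt [r] Chev.certF4 fun _ => 1 := fun r x hx => by
    refine Units.ext ?_
    simp [LeadWork.RootCent.zElt, Chev.Cert.wu, hx]
  refine ⟨?_, ?_⟩
  · rw [LeadWork.RootCent.centralizer_eq LeadWork.RootCent.dataF4long Chev.certF4 Chev.coxF4
      (fun m _ hm => LeadWork.RootCent.uniq_single LeadWork.RootCent.dataF4long Chev.certF4 hm) (hz 47 t ht),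
      LeadWork.RootCent.levPar_eq_closure (T := [14, 20, 22]) (fun s => ?_), LeadWork.RootCent.closure_cons,
      LeadWork.RootCent.closure_cons, LeadWork.RootCent.closure_cons, LeadWork.RootCent.closure_nil, sup_bot_eq]
    · simp only [sup_assoc]
    · have h : ([0, 1, 2].map fun i => Cfsg.Lie.chevF4.neg (Cfsg.Lie.chevF4.simple i)) = [14, 20, 22] := by
        decide +kernel
      rw [← h, List.mem_map]
      exact exists_congr fun i => and_congr_right fun _ => eq_comm
  · rw [LeadWork.RootCent.centralizer_eq LeadWork.RootCent.dataF4short Chev.certF4 Chev.coxF4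
      (fun m _ hm => LeadWork.RootCent.uniq_single LeadWork.RootCent.dataF4short Chev.certF4 hm) (hz 44 u hu),
      LeadWork.RootCent.levPar_eq_closure (T := [20, 22, 23]) (fun s => ?_), LeadWork.RootCent.closure_cons,
      LeadWork.RootCent.closure_cons, LeadWork.RootCent.closure_cons, LeadWork.RootCent.closure_nil, sup_bot_eq]
    · simp only [sup_assoc]
    · have h : ([1, 2, 3].map fun i => Cfsg.Lie.chevF4.neg (Cfsg.Lie.chevF4.simple i)) = [20, 22, 23] := by
        decide +kernel
      rw [← h, List.mem_map]
      exact exists_congr fun i => and_congr_right fun _ => eq_comm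

end Cfsg.Agent.S2178
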