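import Cfsg.Statements.S2179
import Cfsg.Agent.LeadWork.RootCentralizerV

set_option autoImplicit false
open Cfsg

namespace Cfsg.Agent.S2179

/-- Centralizers of the two remaining classes of involutions in the Chevalley group G of type F₄ over a finite field F of characteristic two (this problem's root numbering for type F₄, from the Chevalley data module: p₁, p₂ short, p₃, p₄ long with indices 33, 27, 25, 24 and negatives 14, 20, 22, 23; U generated by the positive root subgroups). For an element of G with matrix x_47(1)x_44(1) (highest root times highest short root): its centralizer in G is generated by U, X_{−p₂} and X_{−p₃}. For an element of G with matrix x_39(1)x_45(1) (roots (1,2,2,1) and (2,4,2,1), an orthogonal short/long pair): its centralizer in G is generated by X_{p₁}, X_{−p₁}, X_{p₄}, X_{−p₄} and the root subgroups of all positive roots other than p₂ (27), p₃ (25), p₁ + p₂ (34) and p₃ + p₄ (26). -/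
theorem result {F : Type*} [Field F] [Fintype F] [CharP F 2] (w v : GL Cfsg.Lie.chevF4.Idx F) (hw : (w : Matrix Cfsg.Lie.chevF4.Idx Cfsg.Lie.chevF4.Idx F) = Cfsg.Lie.chevF4.x F 47 1 * Cfsg.Lie.chevF4.x F 44 1) (hv : (v : Matrix Cfsg.Lie.chevF4.Idx Cfsg.Lie.chevF4.Idx F) = Cfsg.Lie.chevF4.x F 39 1 * Cfsg.Lie.chevF4.x F 45 1) :
    Cfsg.Lie.chevF4.group F ⊓ Subgroup.centralizer {w} = Cfsg.Lie.chevF4.posUnipotent F ⊔ Cfsg.Lie.chevF4.rootSubgroup F 20 ⊔ Cfsg.Lie.chevF4.rootSubgroup F 22 ∧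
    Cfsg.Lie.chevF4.group F ⊓ Subgroup.centralizer {v} = Cfsg.Lie.chevF4.rootSubgroup F 33 ⊔ Cfsg.Lie.chevF4.rootSubgroup F 14 ⊔ Cfsg.Lie.chevF4.rootSubgroup F 24 ⊔ Cfsg.Lie.chevF4.rootSubgroup F 23 ⊔
      Subgroup.closure {g : GL Cfsg.Lie.chevF4.Idx F | ∃ (r : ℕ) (c : F), Cfsg.Lie.chevF4.IsPosRoot r ∧ r ∉ [27, 25, 34, 26] ∧ (g : Matrix Cfsg.Lie.chevF4.Idx Cfsg.Lie.chevF4.Idx F) = Cfsg.Lie.chevF4.x F r c} := by
  classical
  refine ⟨?_, ?_⟩
  · have hz : w = LeadWork.RootCent.zElt [47, 44] Chev.certF4 fun _ => 1 :=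
      Units.ext (by simp [LeadWork.RootCent.zElt, Chev.Cert.wu, hw])
    rw [LeadWork.RootCent.centralizer_eq LeadWork.RootCent.dataF4both Chev.certF4 Chev.coxF4
      (fun m hmN hm => LeadWork.RootCent.uniq_pair LeadWork.RootCent.dataF4both (by decide +kernel)
        (by decide +kernel) (by decide +kernel) Chev.certF4 Chev.coxF4 3 (by decide +kernel) (by decide +kernel)
        (by decide +kernel) hmN hm) hz,
      LeadWork.RootCent.levPar_eq_closure (T := [20, 22]) (fun s => ?_), LeadWork.RootCent.closure_cons,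
      LeadWork.RootCent.closure_cons, LeadWork.RootCent.closure_nil, sup_bot_eq]
    · simp only [sup_assoc]
    · have h : ([1, 2].map fun i => Cfsg.Lie.chevF4.neg (Cfsg.Lie.chevF4.simple i)) = [20, 22] := by
        decide +kernel
      rw [← h, List.mem_map]
      exact exists_congr fun i => and_congr_right fun _ => eq_comm
  · rw [LeadWork.RootCent.V.centralizer_eq Chev.coxF4 (v := v) (Units.ext (by simp [hv]))]
    have hp : Cfsg.Lie.chevF4.IsPosRoot 33 ∧ Cfsg.Lie.chevF4.IsPosRoot 24 ∧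
        (33 : ℕ) ∉ LeadWork.RootCent.V.out4 ∧ (24 : ℕ) ∉ LeadWork.RootCent.V.out4 := by decide +kernel
    refine le_antisymm (Chev.Cert.span_le Chev.certF4 fun r hr t => ?_) ?_
    · rcases hr with ⟨h1, h2⟩ | rfl | rfl
      · exact Subgroup.mem_sup_right (Subgroup.subset_closure ⟨r, t, h1,
          fun h => h2 (by simp only [LeadWork.RootCent.V.out4, List.mem_cons, List.not_mem_nil, or_false] at h ⊢; omega),
          Chev.Cert.coe_xu _ _ _⟩)
      · exact Subgroup.mem_sup_left (Subgroup.mem_sup_left (Subgroup.mem_sup_left (Subgroup.mem_sup_right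
          (Chev.certF4.mem_rootSubgroup.mpr ⟨t, rfl⟩))))
      · exact Subgroup.mem_sup_left (Subgroup.mem_sup_right (Chev.certF4.mem_rootSubgroup.mpr ⟨t, rfl⟩))
    · have hroot : ∀ r, LeadWork.RootCent.V.PK r → Cfsg.Lie.chevF4.rootSubgroup F r ≤
          Chev.spanGroup Cfsg.Lie.chevF4 F LeadWork.RootCent.V.PK := fun r hr x hx => by
        obtain ⟨t, rfl⟩ := Chev.certF4.mem_rootSubgroup.mp hx
        exact Chev.certF4.xu_mem_span hr t
      refine sup_le (sup_le (sup_le (sup_le (hroot 33 (Or.inl ⟨hp.1, hp.2.2.1⟩)) (hroot 14 (Or.inr (Or.inl rfl))))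
        (hroot 24 (Or.inl ⟨hp.2.1, hp.2.2.2⟩))) (hroot 23 (Or.inr (Or.inr rfl)))) ((Subgroup.closure_le _).mpr ?_)
      rintro g ⟨r, c, h1, h2, hg⟩
      exact Subgroup.subset_closure ⟨r, c, Or.inl ⟨h1,
        fun h => h2 (by simp only [LeadWork.RootCent.V.out4, List.mem_cons, List.not_mem_nil, or_false] at h ⊢; omega)⟩, hg⟩

end Cfsg.Agent.S2179
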