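import Cfsg.Statements.S2180
import Cfsg.Agent.LeadWork.RootCentralizerG2
-- import your own Cfsg.Agent.* helpers here

set_option autoImplicit false
open Cfsg

namespace Cfsg.Agent.S2180

/-- Centralizers of involutions in the Chevalley group G of type G₂ over a finite field F of characteristic two with at least four elements (this problem's root numbering for type G₂, from the Chevalley data module: a = p₁ short with index 7, b = p₂ long with index 6, −a = 4, −b = 5, 2a + b = 9, 3a + b = 10, 3a + 2b = 11; U generated by the positive root subgroups). For an element z of G with matrix x_{3a+2b}(1): the centralizer of z in G is generated by U and X_{−a}. For an element t of G with matrix x_{2a+b}(1): the centralizer of t in G is generated by X_{2a+b}, X_{3a+b}, X_{3a+2b}, X_b and X_{−b}. -/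
theorem result {F : Type*} [Field F] [Fintype F] [CharP F 2] (hF : 4 ≤ Fintype.card F) (z t : GL Cfsg.Lie.chevG2.Idx F) (hz : (z : Matrix Cfsg.Lie.chevG2.Idx Cfsg.Lie.chevG2.Idx F) = Cfsg.Lie.chevG2.x F 11 1) (ht : (t : Matrix Cfsg.Lie.chevG2.Idx Cfsg.Lie.chevG2.Idx F) = Cfsg.Lie.chevG2.x F 9 1) :
    Cfsg.Lie.chevG2.group F ⊓ Subgroup.centralizer {z} = Cfsg.Lie.chevG2.posUnipotent F ⊔ Cfsg.Lie.chevG2.rootSubgroup F 4 ∧
    Cfsg.Lie.chevG2.group F ⊓ Subgroup.centralizer {t} = Cfsg.Lie.chevG2.rootSubgroup F 9 ⊔ Cfsg.Lie.chevG2.rootSubgroup F 10 ⊔ Cfsg.Lie.chevG2.rootSubgroup F 11 ⊔ Cfsg.Lie.chevG2.rootSubgroup F 6 ⊔ Cfsg.Lie.chevG2.rootSubgroup F 5 := by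
  classical
  refine ⟨?_, ?_⟩
  · rw [LeadWork.RootCent.centralizer_eq LeadWork.RootCent.dataG2long Chev.certG2 Chev.coxG2
      (fun m _ hm => LeadWork.RootCent.uniq_single LeadWork.RootCent.dataG2long Chev.certG2 hm)
      (t := z) (Units.ext (by simp [LeadWork.RootCent.zElt, Chev.Cert.wu, hz])),
      LeadWork.RootCent.levPar_eq_closure (T := [4]) (fun s => ?_), LeadWork.RootCent.closure_cons,
      LeadWork.RootCent.closure_nil, sup_bot_eq]
    have h : Cfsg.Lie.chevG2.neg (Cfsg.Lie.chevG2.simple 0) = 4 := by decide +kernel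
    simp [h]
  · rw [LeadWork.RootCent.G.centralizer_eq Chev.coxG2 (v := t) (Units.ext (by simp [ht]))]
    have hp : ∀ r ∈ [9, 10, 11, 6], LeadWork.RootCent.G.PK r := by
      intro r hr
      have key : ∀ r ∈ [9, 10, 11, 6], Cfsg.Lie.chevG2.IsPosRoot r ∧ r ∉ LeadWork.RootCent.G.out4 := by decide +kernel
      exact Or.inl (key r hr)
    have hroot : ∀ r, LeadWork.RootCent.G.PK r → Cfsg.Lie.chevG2.rootSubgroup F r ≤
        Chev.spanGroup Cfsg.Lie.chevG2 F LeadWork.RootCent.G.PK := fun r hr x hx => by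
      obtain ⟨c, rfl⟩ := Chev.certG2.mem_rootSubgroup.mp hx
      exact Chev.certG2.xu_mem_span hr c
    refine le_antisymm (Chev.Cert.span_le Chev.certG2 fun r hr c => ?_)
      (sup_le (sup_le (sup_le (sup_le (hroot 9 (hp 9 (by simp))) (hroot 10 (hp 10 (by simp))))
        (hroot 11 (hp 11 (by simp)))) (hroot 6 (hp 6 (by simp)))) (hroot 5 (Or.inr rfl)))
    have hmem := (Chev.certG2.mem_rootSubgroup (r := r)).mpr ⟨c, rfl⟩
    have key : ∀ r < 12, LeadWork.RootCent.G.PK r → r = 9 ∨ r = 10 ∨ r = 11 ∨ r = 6 ∨ r = 5 := by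
      unfold LeadWork.RootCent.G.PK
      decide +kernel
    have hlt : r < 12 := by
      rcases hr with ⟨h, -⟩ | h
      · exact h.1
      · omega
    rcases key r hlt hr with rfl | rfl | rfl | rfl | rfl
    · exact Subgroup.mem_sup_left (Subgroup.mem_sup_left (Subgroup.mem_sup_left (Subgroup.mem_sup_left hmem)))
    · exact Subgroup.mem_sup_left (Subgroup.mem_sup_left (Subgroup.mem_sup_left (Subgroup.mem_sup_right hmem)))
    · exact Subgroup.mem_sup_left (Subgroup.mem_sup_left (Subgroup.mem_sup_right hmem))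
    · exact Subgroup.mem_sup_left (Subgroup.mem_sup_right hmem)
    · exact Subgroup.mem_sup_right hmem

end Cfsg.Agent.S2180
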