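import Cfsg.Statements.S2181
import Cfsg.Agent.Suzuki.SLInv.DataE7
import Cfsg.Agent.Suzuki.SLInv.Classes
import Cfsg.Agent.Chev.OrdersByType

set_option autoImplicit false
open Cfsg
open Cfsg.Agent.Chev Cfsg.Agent.Suzuki.SLInv

namespace Cfsg.Agent.S2181

/-- The Chevalley group of type E₇ over a finite field of characteristic two (the matrix group generated by the root elements) has exactly five conjugacy classes of elements of order 2. -/
theorem result {F : Type*} [Field F] [Fintype F] [CharP F 2] :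
    (ConjClasses.mk '' {g : ↥(Cfsg.Lie.chevE7.group F) | orderOf g = 2}).ncard = 5 := by
  classical
  let G := Cfsg.Lie.chevE7.group F
  have hmem : ∀ i : Fin 5, (W allOKE7 (E7.reps.getD (i.1 + 1) []) : GL Cfsg.Lie.chevE7.Idx F) ∈ G :=
    fun _ => W_mem allOKE7 E7.sl _
  let f : Fin 5 → ConjClasses ↥G := fun i => ConjClasses.mk ⟨_, hmem i⟩
  have hrank : ∀ i : Fin 5, (((W allOKE7 (E7.reps.getD (i.1 + 1) []) : GL Cfsg.Lie.chevE7.Idx F) :
      Matrix Cfsg.Lie.chevE7.Idx Cfsg.Lie.chevE7.Idx F) - 1).rank = [34, 52, 62, 53, 63].getD i.1 0 := by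
    intro i
    fin_cases i
    · exact E7.rank0
    · exact E7.rank1
    · exact E7.rank2
    · exact E7.rank3
    · exact E7.rank4
  have hrange : ConjClasses.mk '' {g : ↥G | orderOf g = 2} = Set.range f := by
    ext C
    constructor
    · rintro ⟨g, hg, rfl⟩
      have hq := two_dvd_card F
      have h0 : 0 < Fintype.card F := Fintype.card_pos
      obtain ⟨M, hM, hord⟩ : ∃ M, ¬ 2 ∣ M ∧ Nat.gcd 2 (Fintype.card F - 1) * Nat.card ↥G =
          Fintype.card F ^ (Cfsg.Lie.chevE7.nroots / 2) * M := by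
        rw [show Cfsg.Lie.chevE7.nroots / 2 = 63 by decide +kernel, orderE7 rfl]
        simp only [mul_assoc]
        refine ⟨_, ?_, rfl⟩
        simp only [Nat.prime_two.dvd_mul, not_or]
        and_intros <;> exact not_dvd_pow_pred hq h0 (by norm_num)
      obtain ⟨j, hj, k, hk, e⟩ := cover allOKE7 E7.sl E7.same E7.repsOK E7.extOK E7.redOK (by decide) hM hord g.2
        (by rw [Subgroup.orderOf_coe]; exact hg)
      obtain ⟨i, rfl⟩ : ∃ i : Fin 5, i.1 + 1 = j := by
        simp only [E7.cls, List.mem_cons, List.not_mem_nil, or_false] at hj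
        exact ⟨⟨j - 1, by omega⟩, by simp only; omega⟩
      exact ⟨i, (ConjClasses.mk_eq_mk_iff_isConj.2 (isConj_iff.2 ⟨⟨k, hk⟩, Subtype.ext e⟩)).symm⟩
    · rintro ⟨i, rfl⟩
      refine ⟨_, ?_, rfl⟩
      show orderOf _ = 2
      rw [← Subgroup.orderOf_coe]
      refine order_two allOKE7 (W_sq allOKE7 E7.sl E7.repsOK ?_) fun e => ?_
      · fin_cases i <;> decide +kernel
      · have := hrank i
        rw [e, Units.val_one, sub_self, Matrix.rank_zero] at this
        fin_cases i <;> simp at this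
  have hinj : Function.Injective f := by
    intro a b h
    obtain ⟨k, hk⟩ := isConj_iff.1 (ConjClasses.mk_eq_mk_iff_isConj.1 h)
    have hr := rank_conj (D := Cfsg.Lie.chevE7) ⟨(k : GL Cfsg.Lie.chevE7.Idx F), k.2, congrArg Subtype.val hk⟩
    rw [hrank a, hrank b] at hr
    revert hr
    fin_cases a <;> fin_cases b <;> simp
  rw [hrange, Set.ncard_range_of_injective hinj, Nat.card_fin]

end Cfsg.Agent.S2181
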