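import Cfsg.Statements.S2197
import Cfsg.Agent.TitsTwoTrans.Main

set_option autoImplicit false
open Cfsg

namespace Cfsg.Agent.S2197

/-- The Tits group (the commutator subgroup of ²F₄(2)) has no faithful 2-transitive action on a finite set with more than two points. -/
theorem result {Ω : Type*} [Fintype Ω] [MulAction Cfsg.Lie.TitsGroup Ω] [FaithfulSMul Cfsg.Lie.TitsGroup Ω] (hΩ : 3 ≤ Fintype.card Ω) :
    ¬ MulAction.IsMultiplyPretransitive Cfsg.Lie.TitsGroup Ω 2 := by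
  have key : ∀ (H : Subgroup (GL Cfsg.Lie.chevF4.Idx (ZMod 2))),
      H = Cfsg.Agent.Chev.Ree4.tw (ZMod 2) 0 → ∀ [MulAction ↥(commutator ↥H) Ω] [FaithfulSMul ↥(commutator ↥H) Ω],
        ¬ MulAction.IsMultiplyPretransitive ↥(commutator ↥H) Ω 2 := by
    rintro H rfl
    exact Cfsg.Agent.TitsTwoTrans.no_two_transitive hΩ
  exact key (Cfsg.Lie.twistedF4 (ZMod 2) 1) (by rw [Cfsg.Agent.Chev.Ree4.tw, pow_zero])

end Cfsg.Agent.S2197
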