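import Cfsg.Statements.S2231
import Cfsg.Agent.Linear.GL2Sylow
-- import your own Cfsg.Agent.* helpers here

set_option autoImplicit false
open Cfsg

namespace Cfsg.Agent.S2231

theorem commute_of_sylow_comm {G : Type*} [Group G] [Finite G] {p : ℕ} [Fact p.Prime]
    (S : Sylow p G) (hS : ∀ a ∈ (S : Subgroup G), ∀ b ∈ (S : Subgroup G), a * b = b * a)
    {H : Type*} [Group H] (hI : Cfsg.Involves H G) (U : Subgroup H) (hU : IsPGroup p U) :
    ∀ x ∈ U, ∀ y ∈ U, x * y = y * x := by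
  obtain ⟨K, R, hR, ⟨e⟩⟩ := hI
  haveI := hR
  let π : K →* H := e.toMonoidHom.comp (QuotientGroup.mk' (R.subgroupOf K))
  have hπ : Function.Surjective π := e.surjective.comp (QuotientGroup.mk'_surjective _)
  haveI : Finite H := Finite.of_surjective π hπ
  obtain ⟨Q, hQ⟩ := hU.exists_le_sylow
  obtain ⟨P⟩ : Nonempty (Sylow p K) := inferInstance
  obtain ⟨h, hh⟩ := MulAction.exists_smul_eq H (P.mapSurjective hπ) Q
  have hP : ∀ a ∈ (P : Subgroup K), ∀ b ∈ (P : Subgroup K), a * b = b * a := by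
    intro a ha b hb
    obtain ⟨T, hT⟩ := (P.isPGroup'.map K.subtype).exists_le_sylow
    obtain ⟨g, hg⟩ := MulAction.exists_smul_eq G S T
    have key : ∀ z ∈ (T : Subgroup G), g⁻¹ * z * g ∈ (S : Subgroup G) := by
      intro z hz
      rw [← hg] at hz
      obtain ⟨w, hw, rfl⟩ := hz
      simp [MulAut.conj, mul_assoc]
      exact hw
    have h := hS _ (key _ (hT (Subgroup.mem_map_of_mem _ ha))) _
      (key _ (hT (Subgroup.mem_map_of_mem _ hb)))
    apply Subtype.ext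
    refine mul_left_cancel (a := g⁻¹) (mul_right_cancel (b := g) ?_)
    show g⁻¹ * ((a : G) * b) * g = g⁻¹ * ((b : G) * a) * g
    calc g⁻¹ * ((a : G) * b) * g = g⁻¹ * a * g * (g⁻¹ * b * g) := by group
      _ = g⁻¹ * b * g * (g⁻¹ * a * g) := h
      _ = g⁻¹ * ((b : G) * a) * g := by group
  intro x hx y hy
  have hx' := hQ hx
  have hy' := hQ hy
  rw [← hh] at hx' hy'
  obtain ⟨x', hx1, rfl⟩ := hx'
  obtain ⟨y', hy1, rfl⟩ := hy'
  obtain ⟨a, ha, rfl⟩ := hx1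
  obtain ⟨b, hb, rfl⟩ := hy1
  show (MulAut.conj h) (π a) * (MulAut.conj h) (π b) = (MulAut.conj h) (π b) * (MulAut.conj h) (π a)
  rw [← map_mul, ← map_mul, ← map_mul, ← map_mul, hP a ha b hb]

/-- The upper unitriangular group. -/
def heis (p : ℕ) : Subgroup (Matrix.SpecialLinearGroup (Fin 3) (ZMod p)) where
  carrier := {M | M.1 1 0 = 0 ∧ M.1 2 0 = 0 ∧ M.1 2 1 = 0 ∧ M.1 0 0 = 1 ∧ M.1 1 1 = 1 ∧ M.1 2 2 = 1}
  one_mem' := by simp
  mul_mem' {a b} := by
    rintro ⟨h1, h2, h3, h4, h5, h6⟩ ⟨k1, k2, k3, k4, k5, k6⟩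
    simp only [Set.mem_setOf_eq, Matrix.SpecialLinearGroup.coe_mul, Matrix.mul_apply, Fin.sum_univ_three,
      h1, h2, h3, h4, h5, h6, k1, k2, k3, k4, k5, k6]
    norm_num
  inv_mem' {a} := by
    rintro ⟨h1, h2, h3, h4, h5, h6⟩
    simp only [Set.mem_setOf_eq, Matrix.SpecialLinearGroup.coe_inv]
    simp [Matrix.adjugate_fin_three, h1, h2, h3, h4, h5, h6]

theorem isPGroup_heis {p : ℕ} [Fact p.Prime] (hp : p ≠ 2) : IsPGroup p (heis p) := by
  intro M
  refine ⟨1, Subtype.ext (Subtype.ext ?_)⟩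
  rw [pow_one, SubmonoidClass.coe_pow, Matrix.SpecialLinearGroup.coe_pow]
  obtain ⟨h1, h2, h3, h4, h5, h6⟩ := M.2
  set A : Matrix (Fin 3) (Fin 3) (ZMod p) := M.1.1 - 1 with hA
  have hM : M.1.1 = A + 1 := by rw [hA, sub_add_cancel]
  have hA3 : A ^ 3 = 0 := by
    rw [pow_three, hA]
    ext i j
    fin_cases i <;> fin_cases j <;>
      simp [Matrix.mul_apply, Fin.sum_univ_three, h1, h2, h3, h4, h5, h6]
  rw [hM, add_pow_char_of_commute (R := Matrix (Fin 3) (Fin 3) (ZMod p)) p (Commute.one_right A),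
    one_pow]
  have : 3 ≤ p := by
    have := (Fact.out : p.Prime).two_le
    omega
  rw [pow_eq_zero_of_le this hA3, zero_add]
  rfl

/-- Let p be an odd prime and K a finite field of characteristic p. Then Qd(p) (the natural semidirect product of an elementary abelian group of order p² by SL₂(p)) is not involved in the projective special linear group PSL₂(K). -/
theorem result {p : ℕ} [Fact p.Prime] (hp : p ≠ 2) {K : Type*} [Field K] [Fintype K] [CharP K p] : ¬ Cfsg.Involves ↥(Cfsg.qd p) (Matrix.ProjectiveSpecialLinearGroup (Fin 2) K) := by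
  classical
  intro hI
  let S := (Cfsg.Agent.Linear.sylowU2 (F := K) p).mapSurjective
    (QuotientGroup.mk'_surjective (Subgroup.center (Matrix.SpecialLinearGroup (Fin 2) K)))
  have hS : ∀ a ∈ (S : Subgroup (Matrix.ProjectiveSpecialLinearGroup (Fin 2) K)),
      ∀ b ∈ (S : Subgroup (Matrix.ProjectiveSpecialLinearGroup (Fin 2) K)), a * b = b * a := by
    rintro _ ⟨a, ⟨x, rfl⟩, rfl⟩ _ ⟨b, ⟨y, rfl⟩, rfl⟩
    rw [← map_mul, ← map_mul, ← map_mul, ← map_mul, mul_comm]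
  have hU : IsPGroup p ((heis p).subgroupOf (Cfsg.qd p)) :=
    (isPGroup_heis hp).comap_of_injective _ (Cfsg.qd p).subtype_injective
  let x : Matrix.SpecialLinearGroup (Fin 3) (ZMod p) :=
    ⟨!![1, 1, 0; 0, 1, 0; 0, 0, 1], by simp [Matrix.det_fin_three]⟩
  let y : Matrix.SpecialLinearGroup (Fin 3) (ZMod p) :=
    ⟨!![1, 0, 0; 0, 1, 1; 0, 0, 1], by simp [Matrix.det_fin_three]⟩
  have hx : x ∈ Cfsg.qd p := Subgroup.subset_closure ⟨rfl, rfl, rfl⟩
  have hy : y ∈ Cfsg.qd p := Subgroup.subset_closure ⟨rfl, rfl, rfl⟩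
  have h := commute_of_sylow_comm S hS hI _ hU ⟨x, hx⟩
    (Subgroup.mem_subgroupOf.2 ⟨rfl, rfl, rfl, rfl, rfl, rfl⟩) ⟨y, hy⟩
    (Subgroup.mem_subgroupOf.2 ⟨rfl, rfl, rfl, rfl, rfl, rfl⟩)
  have h' : x.1 * y.1 = y.1 * x.1 := congrArg (fun u : Cfsg.qd p =>
    ((u : Matrix.SpecialLinearGroup (Fin 3) (ZMod p)).1 : Matrix (Fin 3) (Fin 3) (ZMod p))) h
  have h02 := congrFun (congrFun h' 0) 2
  simp [x, y, Matrix.mul_apply, Fin.sum_univ_three] at h02

end Cfsg.Agent.S2231
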