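import Cfsg.Statements.S2232
import Cfsg.Agent.Forms.UnitaryOrder
import Cfsg.Agent.KnownA.UnitaryElems
import Cfsg.Agent.Forms.HermOrder

set_option autoImplicit false
open Cfsg

namespace Cfsg.Agent.S2232

open Matrix Module
open Cfsg.Agent.KnownA (act act_mul_apply su_ext)

section Unitary

variable {F : Type*} [Field F] [Fintype F] {q : ℕ} (hF : Fintype.card F = q ^ 2)
include hF

/-- In `SU_3` the commutator subgroup of the normalizer of a non-trivial `p`-subgroup is a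
`p`-group. -/
theorem commutator_normalizer {p : ℕ} [Fact p.Prime] [CharP F p] (R : Subgroup (Cfsg.SU 3 F q))
    (hR : IsPGroup p R) (hR1 : R ≠ ⊥) {x y : Cfsg.SU 3 F q}
    (hx : x ∈ Subgroup.normalizer (R : Set (Cfsg.SU 3 F q)))
    (hy : y ∈ Subgroup.normalizer (R : Set (Cfsg.SU 3 F q))) :
    ∃ k : ℕ, (x * y * x⁻¹ * y⁻¹) ^ p ^ k = 1 := by
  classical
  set σ := Forms.frobQ hF
  set B := Forms.hermB 3 hF with hBdef
  have hB : Forms.IsHerm q σ B := Forms.isHerm_std hF
  have hiso : ∀ (g : Cfsg.SU 3 F q) u v, B (act g u) (act g v) = B u v := fun g u v =>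
    KnownA.act_ub hF g u v
  have hinv : ∀ (g : Cfsg.SU 3 F q) v, act g⁻¹ (act g v) = v := fun g v => by
    rw [← act_mul_apply, inv_mul_cancel, KnownA.act_one]; rfl
  have hinv' : ∀ (g : Cfsg.SU 3 F q) v, act g (act g⁻¹ v) = v := fun g v => by
    rw [← act_mul_apply, mul_inv_cancel, KnownA.act_one]; rfl
  let W : Submodule F (Fin 3 → F) := ⨅ r : R, LinearMap.ker (act (r : Cfsg.SU 3 F q) - 1)
  have hW : ∀ {v}, v ∈ W ↔ ∀ r : R, act (r : Cfsg.SU 3 F q) v = v := fun {v} => by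
    simp [W, Submodule.mem_iInf, sub_eq_zero]
  set L := W ⊓ Forms.perp B W with hL
  -- a fixed vector in an invariant non-zero subspace
  have hfix : ∀ U : Submodule F (Fin 3 → F), (∀ r : R, ∀ v ∈ U, act (r : Cfsg.SU 3 F q) v ∈ U) →
      U ≠ ⊥ → ∃ v ∈ U, v ≠ 0 ∧ v ∈ W := by
    intro U hU hU0
    letI : MulAction R U :=
      { smul := fun r v => ⟨act (r : Cfsg.SU 3 F q) v, hU r v v.2⟩
        one_smul := fun v => Subtype.ext (by
          show act ((1 : R) : Cfsg.SU 3 F q) (v : Fin 3 → F) = v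
          rw [Subgroup.coe_one, KnownA.act_one]; rfl)
        mul_smul := fun r s v => Subtype.ext (by
          show act ((r * s : R) : Cfsg.SU 3 F q) (v : Fin 3 → F) = _
          rw [Subgroup.coe_mul, act_mul_apply]; rfl) }
    have hpU : p ∣ Nat.card U := by
      rw [Module.natCard_eq_pow_finrank (K := F)]
      have h0 : 0 < finrank F U := Nat.pos_of_ne_zero fun h0 => hU0 (Submodule.finrank_eq_zero.1 h0)
      refine dvd_pow ?_ h0.ne'
      rw [Nat.card_eq_fintype_card]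
      exact (CharP.cast_eq_zero_iff F p _).1 (Nat.cast_card_eq_zero F)
    have h0 : (0 : U) ∈ MulAction.fixedPoints R U := fun r => Subtype.ext (map_zero _)
    obtain ⟨v, hv, hv0⟩ := hR.exists_fixed_point_of_prime_dvd_card_of_fixed_point U hpU h0
    exact ⟨v, v.2, fun e => hv0 (Subtype.ext e.symm), hW.2 fun r => congrArg Subtype.val (hv r)⟩
  have hperp : ∀ r : R, ∀ v ∈ Forms.perp B W, act (r : Cfsg.SU 3 F q) v ∈ Forms.perp B W := by
    intro r v hv w hw
    rw [← hW.1 hw r, hiso]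
    exact hv w hw
  have hW0 : W ≠ ⊥ := by
    obtain ⟨v, -, hv0, hv⟩ := hfix ⊤ (fun r v _ => Submodule.mem_top) top_ne_bot
    exact fun h => hv0 ((Submodule.mem_bot F).1 (h ▸ hv))
  have hL0 : L ≠ ⊥ := by
    intro h0
    obtain ⟨r, hr, hr1⟩ : ∃ r ∈ R, r ≠ (1 : Cfsg.SU 3 F q) := by
      by_contra! hcon
      exact hR1 (eq_bot_iff.2 fun r hr => Subgroup.mem_bot.2 (hcon r hr))
    obtain ⟨u, hu⟩ : ∃ u, act r u ≠ u := by
      by_contra! hcon
      exact hr1 (su_ext fun v => by rw [hcon v, KnownA.act_one]; rfl)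
    have hmem : act r u - u ∈ Forms.perp B W := fun w hw => by
      rw [map_sub]
      conv_lhs => arg 1; rw [← hW.1 hw ⟨r, hr⟩]
      rw [hiso, sub_self]
    obtain ⟨v, hv, hv0, hvW⟩ := hfix _ hperp
      (fun h => sub_ne_zero.2 hu ((Submodule.mem_bot F).1 (h ▸ hmem)))
    exact hv0 ((Submodule.mem_bot F).1 (h0 ▸ (⟨hvW, hv⟩ : v ∈ L)))
  have hLiso : L ≤ Forms.perp B L :=
    inf_le_right.trans (Forms.perp_antitone inf_le_left)
  have hL1 : finrank F L = 1 := by
    have h1 := hB.form.finrank_le_of_le_perp hLiso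
    rw [Module.finrank_fin_fun] at h1
    have h2 : 0 < finrank F L := Nat.pos_of_ne_zero fun h0 => hL0 (Submodule.finrank_eq_zero.1 h0)
    omega
  -- elements of the normalizer preserve `L`
  set N := Subgroup.normalizer (R : Set (Cfsg.SU 3 F q))
  have hWN : ∀ g ∈ N, ∀ v ∈ W, act g v ∈ W := by
    intro g hg v hv
    refine hW.2 fun r => ?_
    have hc : g⁻¹ * r * g ∈ R := by
      have := (Subgroup.mem_normalizer_iff.1 (N.inv_mem hg) r).1 r.2
      rwa [inv_inv] at this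
    have h1 := hW.1 hv ⟨_, hc⟩
    have h2 := congrArg (act g) h1
    rw [← act_mul_apply, show g * (g⁻¹ * r * g) = r * g by group, act_mul_apply] at h2
    exact h2
  have hLN : ∀ g ∈ N, ∀ v ∈ L, act g v ∈ L := by
    intro g hg v hv
    refine ⟨hWN g hg v hv.1, fun w hw => ?_⟩
    rw [← hinv' g w, hiso]
    exact hv.2 _ (hWN _ (N.inv_mem hg) w hw)
  set P := Forms.perp B L with hPdef
  have hPN : ∀ g ∈ N, ∀ v ∈ P, act g v ∈ P := by
    intro g hg v hv w hw
    rw [← hinv' g w, hiso]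
    exact hv _ (hLN _ (N.inv_mem hg) w hw)
  have hP2 : finrank F P = 2 := by
    have := hB.form.finrank_perp L
    rw [hL1, Module.finrank_fin_fun, ← hPdef] at this
    omega
  obtain ⟨a, ha, ha0⟩ := Submodule.exists_mem_ne_zero_of_ne_bot (p := L) hL0
  have hLspan : ∀ v ∈ L, ∃ m : F, v = m • a := fun v hv => by
    obtain ⟨m, hm⟩ := exists_smul_eq_of_finrank_eq_one hL1 (x := (⟨a, ha⟩ : ↥L))
      (fun e => ha0 (congrArg Subtype.val e)) ⟨v, hv⟩
    exact ⟨m, (congrArg Subtype.val hm).symm⟩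
  obtain ⟨b, hb, hbL⟩ : ∃ b ∈ P, b ∉ L := by
    by_contra! hcon
    have := Submodule.finrank_mono (show P ≤ L from hcon)
    omega
  have hPspan : ∀ v ∈ P, ∃ m n : F, v = m • a + n • b := by
    intro v hv
    have hsup : L ⊔ Submodule.span F {b} = P := by
      refine Submodule.eq_of_le_of_finrank_le
        (sup_le hLiso ((Submodule.span_singleton_le_iff_mem _ _).2 hb)) ?_
      have hlt : L < L ⊔ Submodule.span F {b} :=
        lt_of_le_of_ne le_sup_left fun e => hbL (e ▸ Submodule.mem_sup_right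
          (Submodule.mem_span_singleton_self b))
      have := Submodule.finrank_lt_finrank_of_lt hlt
      omega
    rw [← hsup] at hv
    obtain ⟨y, hy, z, hz, rfl⟩ := Submodule.mem_sup.1 hv
    obtain ⟨m, rfl⟩ := hLspan y hy
    obtain ⟨n, rfl⟩ := Submodule.mem_span_singleton.1 hz
    exact ⟨m, n, rfl⟩
  -- the two scalars of an element of the normalizer
  have hsc : ∀ g : N, ∃ μ ν : F, act (g : Cfsg.SU 3 F q) a = μ • a ∧
      ∃ m : F, act (g : Cfsg.SU 3 F q) b = m • a + ν • b := fun g => by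
    obtain ⟨μ, hμ⟩ := hLspan _ (hLN g g.2 a ha)
    obtain ⟨m, ν, hν⟩ := hPspan _ (hPN g g.2 b (hb))
    exact ⟨μ, ν, hμ, m, hν⟩
  choose μ ν hμ m hν using hsc
  have huniqL : ∀ s t : F, s • a = t • a → s = t := fun s t h => by
    have : (s - t) • a = 0 := by rw [sub_smul, h, sub_self]
    exact sub_eq_zero.1 ((smul_eq_zero.1 this).resolve_right ha0)
  have huniqP : ∀ s t s' t' : F, s • a + t • b = s' • a + t' • b → t = t' := fun s t s' t' h => by
    by_contra hne
    refine hbL ?_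
    have h1 : (t - t') • b = (s' - s) • a := by
      rw [sub_smul, sub_smul]
      linear_combination (norm := module) h
    have h2 : b = (t - t')⁻¹ • ((s' - s) • a) := by
      rw [← h1, smul_smul, inv_mul_cancel₀ (sub_ne_zero.2 hne), one_smul]
    rw [h2]
    exact Submodule.smul_mem _ _ (Submodule.smul_mem _ _ ha)
  have hμmul : ∀ g g' : N, μ (g * g') = μ g * μ g' := fun g g' => huniqL _ _ (by
    rw [← hμ, Subgroup.coe_mul, act_mul_apply, hμ, map_smul, hμ, smul_smul, mul_comm])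
  have hνmul : ∀ g g' : N, ν (g * g') = ν g * ν g' := fun g g' => by
    refine huniqP (m (g * g')) _ (m g' * μ g + ν g' * m g) _ ?_
    rw [← hν, Subgroup.coe_mul, act_mul_apply, hν, map_add, map_smul, map_smul, hμ, hν, smul_add,
      smul_smul, smul_smul, smul_smul, add_smul, add_assoc, mul_comm (ν g) (ν g')]
  let χ : N →* F × F :=
    { toFun := fun g => (μ g, ν g)
      map_one' := by
        refine Prod.ext (huniqL _ _ ?_) (huniqP (m 1) _ 0 _ ?_)
        · rw [← hμ]; simp [KnownA.act_one]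
        · rw [← hν]; simp [KnownA.act_one]
      map_mul' := fun g g' => Prod.ext (hμmul g g') (hνmul g g') }
  let χu : N →* (F × F)ˣ := χ.toHomUnits
  set c : N := ⟨x, hx⟩ * ⟨y, hy⟩ * (⟨x, hx⟩ : N)⁻¹ * (⟨y, hy⟩ : N)⁻¹ with hc
  have hcv : χ c = 1 := by
    have h1 : χu c = 1 := by
      rw [hc, map_mul, map_mul, map_mul, map_inv, map_inv, mul_comm (χu ⟨x, hx⟩),
        mul_inv_cancel_right, mul_inv_cancel]
    exact congrArg Units.val h1
  have hcμ : μ c = 1 := congrArg Prod.fst hcv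
  have hcν : ν c = 1 := congrArg Prod.snd hcv
  set C : Module.End F (Fin 3 → F) := act (c : Cfsg.SU 3 F q)
  have hC1 : ∀ v, C v - v ∈ P := by
    intro v w hw
    obtain ⟨t, rfl⟩ := hLspan w hw
    have h1 := hiso (c : Cfsg.SU 3 F q) a v
    rw [hμ c, hcμ, one_smul] at h1
    rw [map_sub, LinearMap.map_smulₛₗ, LinearMap.smul_apply, LinearMap.smul_apply]
    show σ t • B a (C v) - σ t • B a v = 0
    rw [h1, sub_self]
  have hC2 : ∀ v ∈ P, C v - v ∈ L := by
    intro v hv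
    obtain ⟨s, t, rfl⟩ := hPspan v hv
    show act (c : Cfsg.SU 3 F q) (s • a + t • b) - _ ∈ L
    rw [map_add, map_smul, map_smul, hμ, hν, hcμ, hcν, one_smul, one_smul, smul_add, smul_smul]
    have : s • a + ((t * m c) • a + t • b) - (s • a + t • b) = (t * m c) • a := by abel
    rw [this]
    exact Submodule.smul_mem _ _ ha
  have hC3 : (C - 1) ^ 3 = 0 := by
    refine LinearMap.ext fun v => ?_
    obtain ⟨t, ht⟩ := hLspan _ (hC2 _ (hC1 v))
    rw [pow_succ', pow_two, Module.End.mul_apply, Module.End.mul_apply]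
    show C (C (C v - v) - (C v - v)) - (C (C v - v) - (C v - v)) = 0
    rw [ht, map_smul]
    show t • act (c : Cfsg.SU 3 F q) a - t • a = 0
    rw [hμ, hcμ, one_smul, sub_self]
  have hp := (Fact.out : p.Prime)
  haveI : CharP (Module.End F (Fin 3 → F)) p :=
    charP_of_injective_algebraMap (R := F) (algebraMap F (Module.End F (Fin 3 → F))).injective p
  have hpow : ∀ n : ℕ, C ^ n = act ((c : Cfsg.SU 3 F q) ^ n) := fun n => by
    induction n with
    | zero => rw [pow_zero, pow_zero, KnownA.act_one]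
    | succ n ih => rw [pow_succ', pow_succ', KnownA.act_mul, ← ih]
  refine ⟨2, su_ext fun v => ?_⟩
  have hce : (c : Cfsg.SU 3 F q) = x * y * x⁻¹ * y⁻¹ := rfl
  have h9 : (C - 1) ^ p ^ 2 = 0 := by
    have : 3 ≤ p ^ 2 := by nlinarith [hp.two_le]
    exact pow_eq_zero_of_le this hC3
  rw [sub_pow_char_pow_of_commute p 2 (Commute.one_right C), one_pow, sub_eq_zero] at h9
  rw [← hce, ← hpow, h9, KnownA.act_one]

end Unitary

section Qd

variable {p : ℕ} [Fact p.Prime]

/-- Matrices with last row `(0, 0, 1)`. -/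
def aff (p : ℕ) [Fact p.Prime] : Subgroup (Matrix.SpecialLinearGroup (Fin 3) (ZMod p)) where
  carrier := {M | M.1 2 0 = 0 ∧ M.1 2 1 = 0 ∧ M.1 2 2 = 1}
  one_mem' := by simp
  mul_mem' {a b} := by
    rintro ⟨h1, h2, h3⟩ ⟨k1, k2, k3⟩
    simp [Matrix.mul_apply, Fin.sum_univ_three, h1, h2, h3, k1, k2, k3]
  inv_mem' {a} := by
    rintro ⟨h1, h2, h3⟩
    have hdet := a.2
    rw [Matrix.det_fin_three, h1, h2, h3] at hdet
    simp only [Set.mem_setOf_eq, Matrix.SpecialLinearGroup.coe_inv, Matrix.adjugate_fin_three, h1, h2, h3]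
    simp only [Matrix.of_apply, Matrix.cons_val', Matrix.cons_val_zero, Matrix.cons_val_one,
      Matrix.cons_val, Matrix.cons_val_fin_one]
    refine ⟨?_, ?_, ?_⟩ <;> first | ring1 | linear_combination hdet

theorem qd_le_aff : Cfsg.qd p ≤ aff p := (Subgroup.closure_le _).2 fun _ h => h

/-- The translations. -/
def trans (p : ℕ) [Fact p.Prime] : Subgroup (Matrix.SpecialLinearGroup (Fin 3) (ZMod p)) where
  carrier := {M | M.1 0 0 = 1 ∧ M.1 0 1 = 0 ∧ M.1 1 0 = 0 ∧ M.1 1 1 = 1 ∧ M.1 2 0 = 0 ∧ M.1 2 1 = 0 ∧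
    M.1 2 2 = 1}
  one_mem' := by simp
  mul_mem' {a b} := by
    rintro ⟨h1, h2, h3, h4, h5, h6, h7⟩ ⟨k1, k2, k3, k4, k5, k6, k7⟩
    simp [Matrix.mul_apply, Fin.sum_univ_three, h1, h2, h3, h4, h5, h6, h7, k1, k2, k3, k4, k5, k6, k7]
  inv_mem' {a} := by
    rintro ⟨h1, h2, h3, h4, h5, h6, h7⟩
    simp [Matrix.adjugate_fin_three, h1, h2, h3, h4, h5, h6, h7]

instance trans_normal : ((trans p).subgroupOf (Cfsg.qd p)).Normal where
  conj_mem := by
    intro n hn g
    obtain ⟨k1, k2, k3⟩ := qd_le_aff g.2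
    rw [Subgroup.mem_subgroupOf] at hn ⊢
    obtain ⟨h1, h2, h3, h4, h5, h6, h7⟩ := hn
    rw [Subgroup.coe_mul, Subgroup.coe_mul, InvMemClass.coe_inv]
    set a : Matrix.SpecialLinearGroup (Fin 3) (ZMod p) := (g : Matrix.SpecialLinearGroup (Fin 3) (ZMod p))
    set t : Matrix.SpecialLinearGroup (Fin 3) (ZMod p) := (n : Matrix.SpecialLinearGroup (Fin 3) (ZMod p))
    have hdet := a.2
    rw [Matrix.det_fin_three, k1, k2, k3] at hdet
    refine ⟨?_, ?_, ?_, ?_, ?_, ?_, ?_⟩ <;>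
      simp [Matrix.mul_apply, Fin.sum_univ_three, Matrix.adjugate_fin_three, k1, k2, k3, h1, h2, h3,
        h4, h5, h6, h7] <;>
      first | ring1 | linear_combination hdet

theorem isPGroup_trans : IsPGroup p (trans p) := by
  intro M
  refine ⟨1, Subtype.ext (Subtype.ext ?_)⟩
  rw [pow_one, SubmonoidClass.coe_pow, Matrix.SpecialLinearGroup.coe_pow]
  obtain ⟨h1, h2, h3, h4, h5, h6, h7⟩ := M.2
  set A : Matrix (Fin 3) (Fin 3) (ZMod p) := M.1.1 - 1 with hA
  have hM : M.1.1 = A + 1 := by rw [hA, sub_add_cancel]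
  have hA2 : A ^ 2 = 0 := by
    rw [pow_two, hA]
    ext i j
    fin_cases i <;> fin_cases j <;>
      simp [Matrix.mul_apply, Fin.sum_univ_three, h1, h2, h3, h4, h5, h6, h7]
  rw [hM, add_pow_char_of_commute (R := Matrix (Fin 3) (Fin 3) (ZMod p)) p (Commute.one_right A),
    one_pow, pow_eq_zero_of_le (Fact.out : p.Prime).two_le hA2, zero_add]
  rfl

end Qd


/-- Let p be an odd prime, q a power of p and K a finite field with q² elements. Then Qd(p) (the natural semidirect product of an elementary abelian group of order p² by SL₂(p)) is not involved in the projective special unitary group PSU₃(q) realised over K. -/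
theorem result {p : ℕ} [Fact p.Prime] (hp : p ≠ 2) {K : Type*} [Field K] [Fintype K] [CharP K p] (n : ℕ) (hn : 1 ≤ n) (hK : Fintype.card K = (p ^ n) ^ 2) : ¬ Cfsg.Involves ↥(Cfsg.qd p) (Cfsg.PSU 3 K (p ^ n)) := by
  classical
  have hp' := (Fact.out : p.Prime)
  have hp2 : 3 ≤ p := by have := hp'.two_le; omega
  rintro ⟨K₀, R₀, hR₀, ⟨e⟩⟩
  haveI := hR₀
  -- pull back to `SU`
  let π₀ := QuotientGroup.mk' (Subgroup.center (Cfsg.SU 3 K (p ^ n)))
  let H := K₀.comap π₀
  let φ : H →* ↥(Cfsg.qd p) :=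
    e.toMonoidHom.comp ((QuotientGroup.mk' (R₀.subgroupOf K₀)).comp (π₀.subgroupComap K₀))
  have hφ : Function.Surjective φ := e.surjective.comp ((QuotientGroup.mk'_surjective _).comp
    (MonoidHom.subgroupComap_surjective_of_surjective _ _ (QuotientGroup.mk'_surjective _)))
  let V := (trans p).subgroupOf (Cfsg.qd p)
  have hV : IsPGroup p V := (isPGroup_trans (p := p)).comap_of_injective _ (Cfsg.qd p).subtype_injective
  let X := V.comap φ
  haveI : X.Normal := Subgroup.normal_comap φ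
  obtain ⟨P⟩ : Nonempty (Sylow p X) := inferInstance
  set R := ((P : Subgroup X).map X.subtype) with hRdef
  have hsup : Subgroup.normalizer (R : Set H) ⊔ X = ⊤ := Sylow.normalizer_sup_eq_top P
  -- the Sylow subgroup covers `V`
  let ψ : X →* V := φ.subgroupComap V
  have hψ : Function.Surjective ψ := MonoidHom.subgroupComap_surjective_of_surjective _ _ hφ
  have htop : ((P.mapSurjective hψ : Sylow p V) : Subgroup V) = ⊤ := by
    have h := (P.mapSurjective hψ).isPGroup'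
    obtain ⟨k, hk⟩ := IsPGroup.iff_card.1 hV
    refine Subgroup.eq_top_of_card_eq _ ?_
    rw [Sylow.card_eq_multiplicity, hk, Nat.Prime.factorization_pow hp', Finsupp.single_eq_same]
  have hRV : ∀ v ∈ V, ∃ r ∈ R, φ r = v := by
    intro v hv
    have : (⟨v, hv⟩ : V) ∈ ((P.mapSurjective hψ : Sylow p V) : Subgroup V) := by
      rw [htop]; trivial
    obtain ⟨r, hr, hrv⟩ := this
    exact ⟨r, ⟨r, hr, rfl⟩, congrArg Subtype.val hrv⟩
  -- the normalizer covers everything
  have hcov : ∀ y : ↥(Cfsg.qd p), ∃ x ∈ Subgroup.normalizer (R : Set H), φ x = y := by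
    intro y
    obtain ⟨h, rfl⟩ := hφ y
    have hh : h ∈ Subgroup.normalizer (R : Set H) ⊔ X := by rw [hsup]; trivial
    obtain ⟨x, hx, z, hz, rfl⟩ := Subgroup.mem_sup_of_normal_right.1 hh
    obtain ⟨r, hr, hrz⟩ := hRV (φ z) hz
    exact ⟨x * r, mul_mem hx (Subgroup.le_normalizer hr), by rw [map_mul, map_mul, hrz]⟩
  set R' := R.map H.subtype with hR'def
  have hR'p : IsPGroup p R' := (P.isPGroup'.map _).map _
  have hR'1 : R' ≠ ⊥ := by
    intro h0
    have hR0 : ∀ r ∈ R, r = 1 := fun r hr => by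
      have : (r : ↥(Cfsg.SU 3 K (p ^ n))) ∈ R' := ⟨r, hr, rfl⟩
      rw [h0, Subgroup.mem_bot] at this
      exact Subtype.ext this
    let T : Matrix.SpecialLinearGroup (Fin 3) (ZMod p) :=
      ⟨!![1, 0, 1; 0, 1, 0; 0, 0, 1], by simp [Matrix.det_fin_three]⟩
    have hT : T ∈ Cfsg.qd p := Subgroup.subset_closure ⟨rfl, rfl, rfl⟩
    obtain ⟨r, hr, hrT⟩ := hRV ⟨T, hT⟩ (Subgroup.mem_subgroupOf.2 ⟨rfl, rfl, rfl, rfl, rfl, rfl, rfl⟩)
    rw [hR0 r hr, map_one] at hrT
    have := congrArg (fun u : ↥(Cfsg.qd p) =>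
      ((u : Matrix.SpecialLinearGroup (Fin 3) (ZMod p)).1 : Matrix (Fin 3) (Fin 3) (ZMod p)) 0 2) hrT
    simp [T] at this
  -- a commutator of order two
  obtain ⟨s, t, hst⟩ := ZMod.sq_add_sq p (-1 : ZMod p)
  let A : Matrix.SpecialLinearGroup (Fin 3) (ZMod p) :=
    ⟨!![0, 1, 0; -1, 0, 0; 0, 0, 1], by simp [Matrix.det_fin_three]⟩
  let B : Matrix.SpecialLinearGroup (Fin 3) (ZMod p) :=
    ⟨!![s, t, 0; t, -s, 0; 0, 0, 1], by
      simp [Matrix.det_fin_three]
      linear_combination (-1 : ZMod p) * hst⟩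
  have hA : A ∈ Cfsg.qd p := Subgroup.subset_closure ⟨rfl, rfl, rfl⟩
  have hB : B ∈ Cfsg.qd p := Subgroup.subset_closure ⟨rfl, rfl, rfl⟩
  obtain ⟨x, hx, hxA⟩ := hcov ⟨A, hA⟩
  obtain ⟨y, hy, hyB⟩ := hcov ⟨B, hB⟩
  have hmem : ∀ z ∈ Subgroup.normalizer (R : Set H),
      (z : ↥(Cfsg.SU 3 K (p ^ n))) ∈ Subgroup.normalizer (R' : Set ↥(Cfsg.SU 3 K (p ^ n))) := by
    intro z hz
    exact Subgroup.le_normalizer_map H.subtype ⟨z, hz, rfl⟩
  haveI : Fact p.Prime := ⟨hp'⟩
  obtain ⟨k, hk⟩ := commutator_normalizer (p := p) hK R' hR'p hR'1 (hmem x hx) (hmem y hy)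
  have hk' : (x * y * x⁻¹ * y⁻¹) ^ p ^ k = 1 := Subtype.ext (by push_cast; exact hk)
  have hD := congrArg φ hk'
  rw [map_pow, map_mul, map_mul, map_mul, map_inv, map_inv, hxA, hyB, map_one] at hD
  have hAB : A * B * A⁻¹ * B⁻¹ * (A * B * A⁻¹ * B⁻¹) = 1 ∧ A * B * A⁻¹ * B⁻¹ ≠ 1 := by
    let D : Matrix.SpecialLinearGroup (Fin 3) (ZMod p) :=
      ⟨!![-1, 0, 0; 0, -1, 0; 0, 0, 1], by simp [Matrix.det_fin_three]⟩
    have h1 : A * B = D * (B * A) := by
      refine Subtype.ext ?_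
      show A.1 * B.1 = D.1 * (B.1 * A.1)
      ext i j
      fin_cases i <;> fin_cases j <;> simp [A, B, D, Matrix.mul_apply, Fin.sum_univ_three]
    have h2 : A * B * A⁻¹ * B⁻¹ = D := by rw [h1]; group
    rw [h2]
    refine ⟨Subtype.ext ?_, fun h3 => ?_⟩
    · show D.1 * D.1 = 1
      ext i j
      fin_cases i <;> fin_cases j <;> simp [D, Matrix.mul_apply, Fin.sum_univ_three]
    · have h4 := congrArg (fun u : Matrix.SpecialLinearGroup (Fin 3) (ZMod p) =>
        (u.1 : Matrix (Fin 3) (Fin 3) (ZMod p)) 0 0) h3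
      simp [D] at h4
      haveI : Fact (2 < p) := ⟨by omega⟩
      exact ZMod.neg_one_ne_one h4
  have hD' : (A * B * A⁻¹ * B⁻¹) ^ p ^ k = 1 := by
    have := congrArg Subtype.val hD
    push_cast at this
    exact this
  have hodd : Odd (p ^ k) := (hp'.odd_of_ne_two hp).pow
  obtain ⟨j, hj⟩ := hodd
  rw [hj, pow_succ, pow_mul, pow_two, hAB.1, one_pow, one_mul] at hD'
  exact hAB.2 hD' 

end Cfsg.Agent.S2232
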