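import Cfsg.Statements.S2245
import Cfsg.Agent.KnownA.SylowTwoUniqueOvergroup
-- import your own Cfsg.Agent.* helpers here

set_option autoImplicit false
open Cfsg

namespace Cfsg.Agent.S2245

/-- For n ≥ 5 with n ≠ 6, a Sylow 2-subgroup of the alternating group A_n lies in exactly one maximal subgroup of A_n if and only if n = 2^k + 1 for some k ≥ 2; the same holds for the symmetric group S_n. -/
theorem result (n : ℕ) (hn : 5 ≤ n) (h6 : n ≠ 6) :
    ((∀ R : Sylow 2 ↥(alternatingGroup (Fin n)), (∃! M : Subgroup ↥(alternatingGroup (Fin n)), IsCoatom M ∧ (R : Subgroup ↥(alternatingGroup (Fin n))) ≤ M) ↔ ∃ k : ℕ, 2 ≤ k ∧ n = 2 ^ k + 1) ∧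
    (∀ R : Sylow 2 (Equiv.Perm (Fin n)), (∃! M : Subgroup (Equiv.Perm (Fin n)), IsCoatom M ∧ (R : Subgroup (Equiv.Perm (Fin n))) ≤ M) ↔ ∃ k : ℕ, 2 ≤ k ∧ n = 2 ^ k + 1)) := by
  classical
  obtain ⟨hA, hS⟩ : (∀ R : Sylow 2 ↥(alternatingGroup (Fin n)),
      (∃! M, IsCoatom M ∧ (R : Subgroup ↥(alternatingGroup (Fin n))) ≤ M) ↔
        ∃ k : ℕ, 2 ≤ k ∧ Fintype.card (Fin n) = 2 ^ k + 1) ∧
      (∀ R : Sylow 2 (Equiv.Perm (Fin n)),
      (∃! M, IsCoatom M ∧ (R : Subgroup (Equiv.Perm (Fin n))) ≤ M) ↔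
        ∃ k : ℕ, 2 ≤ k ∧ Fintype.card (Fin n) = 2 ^ k + 1) :=
    ⟨fun R => KnownA.SylowTwoOvergroups.unique_overgroup_alternating (by simpa using hn)
      (by simpa using h6) R,
     fun R => KnownA.SylowTwoOvergroups.unique_overgroup_perm (by simpa using hn)
      (by simpa using h6) R⟩
  simp only [Fintype.card_fin] at hA hS
  exact ⟨hA, hS⟩

end Cfsg.Agent.S2245
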