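import Cfsg.Statements.S2257
import Cfsg.Agent.TwoGroups.PSLEvenFinal

set_option autoImplicit false
open Cfsg

namespace Cfsg.Agent.S2257

/-- Let G = PSL_2(F) with F a field of order q = 2^p, p prime, and for x ∈ G call the solubilizer of x the set of y ∈ G such that x and y generate a solvable subgroup. Then the solubilizer of an involution has 3q(q − 1) elements; that of a non-identity element of order dividing q − 1 has 2q(q − 1) elements; and that of a non-identity element of order dividing q + 1 has 2(q + 1) elements. -/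
theorem result (p : ℕ) (hp : p.Prime) {F : Type*} [Field F] [Fintype F]
    (hF : Fintype.card F = 2 ^ p) (x : Matrix.ProjectiveSpecialLinearGroup (Fin 2) F) :
    (orderOf x = 2 → Nat.card {y : Matrix.ProjectiveSpecialLinearGroup (Fin 2) F // Group.IsSolvable ↥(Subgroup.closure ({x, y} : Set (Matrix.ProjectiveSpecialLinearGroup (Fin 2) F)))} = 3 * 2 ^ p * (2 ^ p - 1)) ∧
    (x ≠ 1 → orderOf x ∣ 2 ^ p - 1 → Nat.card {y : Matrix.ProjectiveSpecialLinearGroup (Fin 2) F // Group.IsSolvable ↥(Subgroup.closure ({x, y} : Set (Matrix.ProjectiveSpecialLinearGroup (Fin 2) F)))} = 2 * 2 ^ p * (2 ^ p - 1)) ∧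
    (x ≠ 1 → orderOf x ∣ 2 ^ p + 1 → Nat.card {y : Matrix.ProjectiveSpecialLinearGroup (Fin 2) F // Group.IsSolvable ↥(Subgroup.closure ({x, y} : Set (Matrix.ProjectiveSpecialLinearGroup (Fin 2) F)))} = 2 * (2 ^ p + 1)) := by
    classical
    haveI : Fintype (Matrix.ProjectiveSpecialLinearGroup (Fin 2) F) := Fintype.ofFinite _
    have hf : Cfsg.Agent.TwoGroups.PSLEven.Hyp F p := ⟨hF, hp.two_le⟩
    have hq := Cfsg.Agent.TwoGroups.PSLEven.four_le hf
    have hmin : Cfsg.Agent.TwoGroups.PSLEven.NoSub F := by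
      intro F₀ _ _ r hr h
      obtain ⟨c, hc⟩ := CharP.exists F₀
      obtain ⟨n, hc', hn⟩ := FiniteField.card F₀ c
      rw [hF, hn, ← pow_mul] at h
      have hc2 : c = 2 := ((Nat.prime_dvd_prime_iff_eq hc' Nat.prime_two).1
        (hc'.dvd_of_dvd_pow (h ▸ dvd_pow_self c (Nat.mul_ne_zero n.pos.ne' hr.ne_zero)))) 
      subst hc2
      have hpn := Nat.pow_right_injective (le_refl 2) h
      have h1 : (n : ℕ) = 1 := by
        rcases (Nat.dvd_prime hp).1 ⟨r, hpn⟩ with e | e
        · exact e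
        · have h2 := hr.two_le
          have h3 := hp.pos
          rw [e] at hpn
          nlinarith
      rw [hn, h1, pow_one]
    have hsol : ∀ y, Group.IsSolvable ↥(Subgroup.closure ({x, y} : Set (Matrix.ProjectiveSpecialLinearGroup (Fin 2) F))) ↔
        Cfsg.Agent.TwoGroups.PSLEven.Pr x y := by
      intro y
      constructor
      · intro h e
        refine Cfsg.Agent.Linear.PSL2Dickson.not_solvable_psl (K := F) hq ?_
        rw [e] at h
        exact solvable_of_surjective (f := (Subgroup.topEquiv (G := Matrix.ProjectiveSpecialLinearGroup (Fin 2) F)).toMonoidHom)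
          (Subgroup.topEquiv (G := Matrix.ProjectiveSpecialLinearGroup (Fin 2) F)).surjective
      · haveI := Cfsg.Agent.TwoGroups.PSLEven.charTwo hf
        exact fun h => ((Cfsg.Agent.Linear.PSL2Dickson.minimal_iff 2 hF).2 (Or.inl ⟨p, hp, rfl⟩)).2.2 _ h
    rw [show Nat.card {y : Matrix.ProjectiveSpecialLinearGroup (Fin 2) F // Group.IsSolvable ↥(Subgroup.closure ({x, y} : Set (Matrix.ProjectiveSpecialLinearGroup (Fin 2) F)))} =
        (Finset.univ.filter (Cfsg.Agent.TwoGroups.PSLEven.Pr x)).card by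
      rw [Nat.card_congr (Equiv.subtypeEquivRight hsol), Nat.card_eq_fintype_card, Fintype.card_subtype], ← hF]
    have hcop := Cfsg.Agent.TwoGroups.PSLEven.coprime_pred_succ hf
    have hev := Cfsg.Agent.TwoGroups.PSLEven.even hf
    refine ⟨fun ho => ?_, fun h1 ho => ?_, fun h1 ho => ?_⟩
    · refine Cfsg.Agent.TwoGroups.PSLEven.card_sol_invol hf hmin ⟨?_, fun e => by rw [e, orderOf_one] at ho; omega⟩
      have h2 := pow_orderOf_eq_one x
      rwa [ho, pow_two] at h2
    · refine (Cfsg.Agent.TwoGroups.PSLEven.card_sol_plus hf hmin (x := x) ⟨h1, ?_⟩).1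
      rcases Cfsg.Agent.TwoGroups.PSLEven.cent_cases hf h1 with e | ⟨e, -⟩ | e
      · exact absurd (Cfsg.Agent.TwoGroups.PSLEven.eq_one_of_dvd_both hf (Dvd.dvd.mul_left ho _)
          (e ▸ Cfsg.Agent.TwoGroups.PSLEven.orderOf_dvd_cent hf x)) h1
      · exact e
      · refine absurd (orderOf_eq_one_iff.1 ?_) h1
        have h := Nat.dvd_gcd (e ▸ Cfsg.Agent.TwoGroups.PSLEven.orderOf_dvd_cent hf x) ho
        rw [Nat.coprime_self_sub_right (by omega) |>.mpr (Nat.coprime_one_right _)] at h
        exact Nat.dvd_one.1 h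
    · refine (Cfsg.Agent.TwoGroups.PSLEven.card_sol_minus hf hmin (x := x) ⟨h1, ?_⟩).1
      rcases Cfsg.Agent.TwoGroups.PSLEven.cent_cases hf h1 with e | ⟨e, -⟩ | e
      · exact e
      · exact absurd (Cfsg.Agent.TwoGroups.PSLEven.eq_one_of_dvd_both hf
          (Dvd.dvd.mul_left (e ▸ Cfsg.Agent.TwoGroups.PSLEven.orderOf_dvd_cent hf x) _) ho) h1
      · exact absurd (Cfsg.Agent.TwoGroups.PSLEven.eq_one_of_dvd_both hf
          (Dvd.dvd.mul_right (e ▸ Cfsg.Agent.TwoGroups.PSLEven.orderOf_dvd_cent hf x) _) ho) h1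

end Cfsg.Agent.S2257
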