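import Cfsg.Statements.S2268


set_option autoImplicit false
open Cfsg

namespace Cfsg.Agent.S2268

/-- Let G be a finite group with an abelian Sylow p-subgroup P and let Q ≤ P. Then N_G(Q) = (N_G(Q) ∩ N_G(P))·C_G(Q), so that N_G(Q)/C_G(Q) is a homomorphic image of the subgroup (N_G(Q) ∩ N_G(P))/C_G(P) of N_G(P)/C_G(P); in particular the order of N_G(Q)/C_G(Q) divides the order of N_G(P)/C_G(P). -/
theorem result {G : Type*} [Group G] [Finite G] {p : ℕ} [Fact p.Prime]
    (P : Sylow p G) (hP : IsMulCommutative (P : Subgroup G)) (Q : Subgroup G) (hQ : Q ≤ (P : Subgroup G)) :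
    Subgroup.normalizer (Q : Set G) =
      (Subgroup.normalizer (Q : Set G) ⊓ Subgroup.normalizer ((P : Subgroup G) : Set G)) ⊔ Subgroup.centralizer (Q : Set G) ∧
    ((Subgroup.centralizer (Q : Set G)).subgroupOf (Subgroup.normalizer (Q : Set G))).index ∣ ((Subgroup.centralizer ((P : Subgroup G) : Set G)).subgroupOf (Subgroup.normalizer ((P : Subgroup G) : Set G))).index := by
  set N := Subgroup.normalizer (Q : Set G) with hN
  set C := Subgroup.centralizer (Q : Set G) with hC
  set M := Subgroup.normalizer ((P : Subgroup G) : Set G) with hM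
  set D := Subgroup.centralizer ((P : Subgroup G) : Set G) with hD
  haveI : IsMulCommutative P := hP
  have hCN : C ≤ N := by
    intro c hc
    rw [hN, Subgroup.mem_normalizer_iff]
    intro h
    rw [hC, Subgroup.mem_centralizer_iff] at hc
    constructor
    · intro hh
      rw [← hc h hh, mul_assoc, mul_inv_cancel, mul_one]
      exact hh
    · intro hh
      have h1 := hc _ hh
      have h2 : c * h * c⁻¹ = h := by
        have : c * h = c * (c * h * c⁻¹) := by rw [← h1]; group
        exact (mul_left_cancel this).symm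
      rwa [h2] at hh
  have hPC : (P : Subgroup G) ≤ C := P.le_centralizer.trans (Subgroup.centralizer_le hQ)
  have hDC : D ≤ C := Subgroup.centralizer_le hQ
  haveI hCn : (C.subgroupOf N).Normal := by
    refine ⟨fun a ha g => ?_⟩
    rw [Subgroup.mem_subgroupOf, Subgroup.mem_centralizer_iff] at ha ⊢
    intro h hh
    have hh' : (g : G)⁻¹ * h * g ∈ Q := (Subgroup.mem_normalizer_iff''.mp g.2 h).mp hh
    have h1 := ha _ hh'
    simp only [Subgroup.coe_mul, Subgroup.coe_inv]
    calc h * ((g : G) * a * (g : G)⁻¹) = g * (((g : G)⁻¹ * h * g) * a) * (g : G)⁻¹ := by group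
      _ = g * (a * ((g : G)⁻¹ * h * g)) * (g : G)⁻¹ := by rw [h1]
      _ = (g : G) * a * (g : G)⁻¹ * h := by group
  have hfr : ∀ g ∈ N, ∃ a ∈ N ⊓ M, ∃ c ∈ C, g = a * c := by
    intro g hg
    have hle : ((g⁻¹ • P : Sylow p G) : Subgroup G) ≤ C := by
      rintro _ ⟨y, hy, rfl⟩
      have := hCn.conj_mem ⟨y, hCN (hPC hy)⟩ (Subgroup.mem_subgroupOf.mpr (hPC hy)) ⟨g⁻¹, inv_mem hg⟩
      exact Subgroup.mem_subgroupOf.mp this
    obtain ⟨c, hc⟩ := MulAction.exists_smul_eq C ((g⁻¹ • P).subtype hle) (P.subtype hPC)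
    simp_rw [Sylow.smul_subtype, Subgroup.smul_def, smul_smul] at hc
    have hm := Sylow.smul_eq_iff_mem_normalizer.mp (Sylow.subtype_injective hc)
    refine ⟨((c : G) * g⁻¹)⁻¹, Subgroup.mem_inf.mpr ⟨inv_mem (mul_mem (hCN c.2) (inv_mem hg)), inv_mem hm⟩, c, c.2, ?_⟩
    group
  refine ⟨?_, ?_⟩
  · refine le_antisymm (fun g hg => ?_) (sup_le inf_le_left hCN)
    obtain ⟨a, ha, c, hc, rfl⟩ := hfr g hg
    exact mul_mem (Subgroup.mem_sup_left ha) (Subgroup.mem_sup_right hc)
  · let f : ↥(N ⊓ M) →* N ⧸ C.subgroupOf N :=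
      (QuotientGroup.mk' _).comp (Subgroup.inclusion inf_le_left)
    have hf : Function.Surjective f := by
      intro y
      obtain ⟨⟨g, hg⟩, rfl⟩ := QuotientGroup.mk_surjective y
      obtain ⟨a, ha, c, hc, rfl⟩ := hfr g hg
      refine ⟨⟨a, ha⟩, ?_⟩
      show QuotientGroup.mk (Subgroup.inclusion inf_le_left ⟨a, ha⟩) = _
      rw [QuotientGroup.eq, Subgroup.mem_subgroupOf]
      simpa using hc
    have h1 : (C.subgroupOf N).index = f.ker.index := by
      rw [Subgroup.index_ker, MonoidHom.range_eq_top.mpr hf, Subgroup.card_top]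
      rfl
    have h2 : D.subgroupOf (N ⊓ M) ≤ f.ker := by
      intro a ha
      rw [MonoidHom.mem_ker]
      show QuotientGroup.mk (Subgroup.inclusion inf_le_left a) = 1
      rw [QuotientGroup.eq_one_iff, Subgroup.mem_subgroupOf]
      exact hDC ha
    haveI hDn : (D.subgroupOf M).Normal := by
      refine ⟨fun a ha g => ?_⟩
      rw [Subgroup.mem_subgroupOf, Subgroup.mem_centralizer_iff] at ha ⊢
      intro h hh
      have hh' : (g : G)⁻¹ * h * g ∈ (P : Subgroup G) := (Subgroup.mem_normalizer_iff''.mp g.2 h).mp hh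
      have h1 := ha _ hh'
      simp only [Subgroup.coe_mul, Subgroup.coe_inv]
      calc h * ((g : G) * a * (g : G)⁻¹) = g * (((g : G)⁻¹ * h * g) * a) * (g : G)⁻¹ := by group
        _ = g * (a * ((g : G)⁻¹ * h * g)) * (g : G)⁻¹ := by rw [h1]
        _ = (g : G) * a * (g : G)⁻¹ * h := by group
    rw [h1]
    refine (Subgroup.index_dvd_of_le h2).trans ?_
    let i : ↥(N ⊓ M) →* M := Subgroup.inclusion inf_le_right
    have h3 : D.subgroupOf (N ⊓ M) = (D.subgroupOf M).comap i := rfl
    rw [h3, Subgroup.index_comap]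
    exact Subgroup.relIndex_dvd_index_of_normal _ _

end Cfsg.Agent.S2268
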