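import Cfsg.Statements.S2270
import Cfsg.Agent.KnownA.RealFusion

set_option autoImplicit false
open Cfsg

namespace Cfsg.Agent.S2270

/-- Let n ≥ 3, p an odd prime, and P an abelian Sylow p-subgroup of the symmetric group S_n (with p dividing n!, so that P ≠ 1). Then N(P)/C(P) has even order. -/
theorem result (n : ℕ) (hn : 3 ≤ n) {p : ℕ} [Fact p.Prime] (hp : p ≠ 2) (hpn : p ≤ n)
    (P : Sylow p (Equiv.Perm (Fin n))) (hP : IsMulCommutative (P : Subgroup (Equiv.Perm (Fin n)))) :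
    2 ∣ ((Subgroup.centralizer ((P : Subgroup (Equiv.Perm (Fin n))) : Set (Equiv.Perm (Fin n)))).subgroupOf (Subgroup.normalizer ((P : Subgroup (Equiv.Perm (Fin n))) : Set (Equiv.Perm (Fin n))))).index := by
  haveI := hP
  have hdvd : p ∣ Nat.card (Equiv.Perm (Fin n)) := by
    rw [Nat.card_perm, Nat.card_fin]
    exact (Fact.out : p.Prime).dvd_factorial.mpr hpn
  have hne : (P : Subgroup (Equiv.Perm (Fin n))) ≠ ⊥ := P.ne_bot_of_dvd_card hdvd
  obtain ⟨x, hx, hx1⟩ := (Subgroup.ne_bot_iff_exists_ne_one.mp hne) |> fun ⟨⟨x, hx⟩, h⟩ =>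
    (⟨x, hx, fun e => h (Subtype.ext e)⟩ : ∃ x ∈ (P : Subgroup (Equiv.Perm (Fin n))), x ≠ 1)
  exact Cfsg.Agent.KnownA.two_dvd_automizer_of_real hp P x hx hx1
    (Equiv.Perm.isConj_iff_cycleType_eq.mpr (Equiv.Perm.cycleType_inv x).symm)

end Cfsg.Agent.S2270
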