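import Cfsg.Statements.S2278
import Cfsg.Agent.Linear.SLThreeSmall

set_option autoImplicit false
open Cfsg

namespace Cfsg.Agent.S2278

/-- Let F be a finite field. Then SL_3(F) is generated by two conjugate regular unipotent elements: there are u with u − 1 nilpotent and (u − 1)² ≠ 0, and g, such that u and g u g⁻¹ generate SL_3(F). -/
theorem result {F : Type*} [Field F] [Fintype F] :
    ∃ u g : Matrix.SpecialLinearGroup (Fin 3) F, IsNilpotent ((u : Matrix (Fin 3) (Fin 3) F) - 1) ∧ ((u : Matrix (Fin 3) (Fin 3) F) - 1) ^ (3 - 1) ≠ 0 ∧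
      Subgroup.closure ({u, g * u * g⁻¹} : Set (Matrix.SpecialLinearGroup (Fin 3) F)) = ⊤ := by
  have h : ∃ u g : Matrix.SpecialLinearGroup (Fin 3) F, Cfsg.Agent.Linear.SLThree.IsRegUni u.1 ∧
      Subgroup.closure ({u, g * u * g⁻¹} : Set (Matrix.SpecialLinearGroup (Fin 3) F)) = ⊤ := by
    rcases Nat.lt_or_ge (Fintype.card F) 5 with h | h
    · exact Cfsg.Agent.Linear.SLThree.exists_conjugates_small h
    · exact Cfsg.Agent.Linear.SLThree.exists_conjugates h
  obtain ⟨u, g, ⟨h1, h2⟩, h3⟩ := h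
  exact ⟨u, g, h1, h2, h3⟩

end Cfsg.Agent.S2278
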