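import Cfsg.Statements.S2282
import Cfsg.Agent.Forms.SUThreeRegCases
import Cfsg.Agent.Forms.SUOddRegMain

set_option autoImplicit false
open Cfsg

namespace Cfsg.Agent.S2282

/-- Let F be a field with q² elements, n ≥ 3 odd with (n, q) ≠ (3, 2), and SU_n(q) the special unitary group of the standard Hermitian form Σ u_i v_i^q. Then SU_n(q) is generated by three conjugate regular unipotent elements: there are u ∈ SU_n(q) with u − 1 nilpotent and (u − 1)^(n−1) ≠ 0, and g, h ∈ SU_n(q), such that u, g u g⁻¹ and h u h⁻¹ generate SU_n(q). -/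
theorem result {F : Type*} [Field F] [Fintype F] (q : ℕ) (hF : Fintype.card F = q ^ 2) (n : ℕ) (hn : 3 ≤ n) (hodd : Odd n) (h32 : ¬ (n = 3 ∧ q = 2)) :
    ∃ u g h : ↥(Cfsg.SU n F q), (IsNilpotent (((u : Matrix.SpecialLinearGroup (Fin n) F) : Matrix (Fin n) (Fin n) F) - 1) ∧ (((u : Matrix.SpecialLinearGroup (Fin n) F) : Matrix (Fin n) (Fin n) F) - 1) ^ (n - 1) ≠ 0) ∧
      Subgroup.closure ({u, g * u * g⁻¹, h * u * h⁻¹} : Set ↥(Cfsg.SU n F q)) = ⊤ := by
  obtain ⟨k, rfl⟩ := hodd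
  rcases (by omega : k = 1 ∨ 2 ≤ k) with hk | hk
  · subst hk
    have hq : 3 ≤ q := by
      have := Forms.two_le_q hF
      have : q ≠ 2 := fun h => h32 ⟨rfl, h⟩
      omega
    obtain ⟨e, f, z, hfr⟩ := Forms.SUThree.exists_frame hF
    have h : ∃ u g : ↥(Cfsg.SU 3 F q), (IsNilpotent (((u : Matrix.SpecialLinearGroup (Fin 3) F) : Matrix (Fin 3) (Fin 3) F) - 1) ∧ (((u : Matrix.SpecialLinearGroup (Fin 3) F) : Matrix (Fin 3) (Fin 3) F) - 1) ^ (3 - 1) ≠ 0) ∧
        Subgroup.closure ({u, g * u * g⁻¹} : Set ↥(Cfsg.SU 3 F q)) = ⊤ := by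
      by_cases h5 : q = 5
      · exact Forms.SUThree.gen_five hF hfr h5
      by_cases h8 : q = 8
      · exact Forms.SUThree.gen_eight hF hfr h8
      exact Forms.SUThree.gen_generic hF hfr hq h5 h8
    obtain ⟨u, g, hu, hgen⟩ := h
    refine ⟨u, g, g, hu, top_le_iff.1 (hgen.ge.trans (Subgroup.closure_mono ?_))⟩
    intro x hx
    rcases hx with rfl | rfl
    · exact Or.inl rfl
    · exact Or.inr (Or.inl rfl)
  · exact Forms.SUOdd.exists_generators hF (j := k - 2) (by omega)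

end Cfsg.Agent.S2282
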