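import Cfsg.Statements.S2332
import Cfsg.Agent.KnownA.SLMin.Main
import Cfsg.Agent.KnownA.SLMin.Perm
import Cfsg.Agent.KnownA.RepSimple

set_option autoImplicit false
open Cfsg

namespace Cfsg.Agent.S2332

/-- Smallest degree of a non-linear irreducible complex representation of SL_n over a finite field with q elements, for n ≥ 3 and (n, q) not one of (3, 2), (3, 4), (4, 2), (4, 3): every irreducible complex representation of SL_n(F) of degree at least 2 has degree at least (q^n − q)/(q − 1), and there is an irreducible complex representation of exactly that degree. -/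
theorem result {F : Type*} [Field F] [Fintype F] [DecidableEq F] (n : ℕ) (hn : 3 ≤ n)
    (hex : (n, Fintype.card F) ≠ (3, 2) ∧ (n, Fintype.card F) ≠ (3, 4) ∧ (n, Fintype.card F) ≠ (4, 2) ∧ (n, Fintype.card F) ≠ (4, 3)) :
    (∀ (k : ℕ) (ρ : Representation ℂ (Matrix.SpecialLinearGroup (Fin n) F) (Fin k → ℂ)), ρ.IsIrreducible → 2 ≤ k → (Fintype.card F ^ n - Fintype.card F) / (Fintype.card F - 1) ≤ k) ∧
    (∃ ρ : Representation ℂ (Matrix.SpecialLinearGroup (Fin n) F) (Fin ((Fintype.card F ^ n - Fintype.card F) / (Fintype.card F - 1)) → ℂ), ρ.IsIrreducible) := by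
  classical
  obtain ⟨N, rfl⟩ : ∃ N, n = 1 + N := ⟨n - 1, by omega⟩
  set q := Fintype.card F with hq
  have hq2 : 2 ≤ q := Fintype.one_lt_card
  have hgeom := Cfsg.Agent.KnownA.SLMin.tgt_geom q N
  have htgt : (q ^ (1 + N) - q) / (q - 1) = Cfsg.Agent.KnownA.SLMin.tgt q N := by
    apply Nat.div_eq_of_eq_mul_left (by omega)
    rw [add_mul, one_mul, add_comm N 1] at hgeom
    omega
  refine ⟨fun k ρ hirr hk => ?_, ?_⟩
  · rw [htgt]
    have hex' : ¬ Cfsg.Agent.KnownA.SLMin.Exc q N := by
      rintro (⟨rfl, h | h⟩ | ⟨rfl, h | h⟩) <;> simp [h] at hex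
    let σ := ρ.comp (Cfsg.Agent.KnownA.SLMin.reix (F := F) (N := N)).toMonoidHom
    obtain ⟨g, hg⟩ := Cfsg.Agent.KnownA.exists_not_scalar_of_irreducible ρ hirr (by simpa using hk)
    have hσ : ∃ g, σ g ≠ 1 := ⟨Cfsg.Agent.KnownA.SLMin.reix.symm g, by
      simpa [σ] using hg 1⟩
    simpa using Cfsg.Agent.KnownA.SLMin.min_degree N (by omega) hex' _ σ hσ
  · let X := Projectivization F (Fin (1 + N) → F)
    let _ : Fintype X := Fintype.ofFinite X
    have hX : Fintype.card X = Cfsg.Agent.KnownA.SLMin.tgt q N + 1 := by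
      rw [← Nat.card_eq_fintype_card, Projectivization.card'', Nat.card_eq_fintype_card (α := F),
        Nat.card_fun, Nat.card_eq_fintype_card (α := F), Nat.card_fin, ← hq, add_comm 1 N, ← hgeom,
        Nat.mul_div_cancel _ (by omega)]
    have : Nonempty X := Fintype.card_pos_iff.mp (by omega)
    have hdim : Module.finrank ℂ (Cfsg.Agent.KnownA.SLMin.aug X) = (q ^ (1 + N) - q) / (q - 1) := by
      rw [Cfsg.Agent.KnownA.SLMin.finrank_aug, hX, htgt, Nat.add_sub_cancel]
    let e := LinearEquiv.ofFinrankEq (Cfsg.Agent.KnownA.SLMin.aug X) (Fin ((q ^ (1 + N) - q) / (q - 1)) → ℂ)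
      (by rw [hdim, Module.finrank_fin_fun])
    let π : Representation ℂ (Matrix.SpecialLinearGroup (Fin (1 + N)) F) (Fin ((q ^ (1 + N) - q) / (q - 1)) → ℂ) :=
      (LinearEquiv.conjAlgEquiv ℂ e).toAlgHom.toMonoidHom.comp (Cfsg.Agent.KnownA.SLMin.augRep _ X)
    refine ⟨π, ?_⟩
    have hpos : 0 < (q ^ (1 + N) - q) / (q - 1) := by
      rw [htgt]
      exact lt_of_lt_of_le (Nat.pow_pos (show 0 < q by omega)) (Cfsg.Agent.KnownA.SLMin.le_tgt (q := q) (N := N) (by omega))
    have : Nontrivial (Subrepresentation π) := ⟨⊥, ⊤, fun h => by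
      have : Nonempty (Fin ((q ^ (1 + N) - q) / (q - 1))) := ⟨⟨0, hpos⟩⟩
      exact bot_ne_top (congrArg Subrepresentation.toSubmodule h)⟩
    refine IsSimpleOrder.mk fun T => ?_
    rcases Cfsg.Agent.KnownA.SLMin.augRep_irreducible (G := Matrix.SpecialLinearGroup (Fin (1 + N)) F) (X := X) (by
        have := Nat.div_mul_le_self (q ^ (1 + N) - q) (q - 1)
        rw [htgt] at hpos
        omega) (T.toSubmodule.comap e.toLinearMap) (fun g f hf => by
        have := T.apply_mem_toSubmodule g hf
        simpa [π] using this) with h | h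
    · left
      refine Subrepresentation.toSubmodule_injective (Submodule.comap_injective_of_surjective e.surjective ?_)
      rw [h]
      exact (LinearMap.ker_eq_bot.mpr e.injective).symm
    · right
      refine Subrepresentation.toSubmodule_injective (Submodule.comap_injective_of_surjective e.surjective ?_)
      rw [h]
      rfl

end Cfsg.Agent.S2332
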