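import Cfsg.Statements.S2337
import Cfsg.Agent.KnownA.RepSimple
import Cfsg.Agent.KnownA.SzMinDegree

set_option autoImplicit false
open Cfsg

namespace Cfsg.Agent.S2337

/-- For the Suzuki group Sz(q), q = 2^(2m+1) with m ≥ 1 (realised inside Sp₄ over the field with q elements), every irreducible complex representation of degree at least 2 has degree at least 2^m·(q − 1). -/
theorem result {F : Type*} [Field F] [Fintype F] (m : ℕ) (hm : 1 ≤ m) (hF : Fintype.card F = 2 ^ (2 * m + 1)) :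
    (∀ (k : ℕ) (ρ : Representation ℂ (Cfsg.Lie.Sz F (2 ^ (m + 1))) (Fin k → ℂ)), ρ.IsIrreducible → 2 ≤ k → 2 ^ m * (2 ^ (2 * m + 1) - 1) ≤ k) := by
  intro k ρ hirr hk
  have h : Suzuki.Ctx F m := ⟨hm, by rw [Nat.card_eq_fintype_card, hF]⟩
  let e := Suzuki.lieEquiv h
  haveI : IsSimpleGroup (Cfsg.Sz F m) := Suzuki.simple h
  haveI : Nontrivial (Cfsg.Lie.Sz F (2 ^ (m + 1))) := e.toEquiv.nontrivial_congr.mp inferInstance
  haveI : IsSimpleGroup (Cfsg.Lie.Sz F (2 ^ (m + 1))) :=
    IsSimpleGroup.isSimpleGroup_of_surjective e.toMonoidHom e.surjective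
  have hdim : Module.finrank ℂ (Fin k → ℂ) = k := Module.finrank_fin_fun ℂ
  have hinj := KnownA.injective_of_irreducible_of_simple ρ hirr (by rw [hdim]; exact hk)
  have := KnownA.sz_min_degree h ((ρ : _ →* Module.End ℂ (Fin k → ℂ)).comp e.toMonoidHom)
    (hinj.comp e.injective)
  rwa [hdim] at this

end Cfsg.Agent.S2337
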