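import Cfsg.Statements.S2338
import Cfsg.Agent.Suzuki.G2MinOneC
import Cfsg.Agent.Suzuki.G2MinThreeC
import Cfsg.Agent.Chev.Simple
import Cfsg.Agent.Chev.OrdersByType
import Cfsg.Agent.Chars.Eigen
import Cfsg.Agent.KnownA.RepSimple

set_option autoImplicit false
open Cfsg

namespace Cfsg.Agent.S2338

/-- Lower bounds for the degrees of non-linear irreducible complex representations of the Chevalley group of type G₂ over a finite field with q elements: the degree is at least q³ + 1 when q ≡ 1 (mod 3) and q > 4, at least q³ − 1 when q ≡ 2 (mod 3) and q > 2, and at least q⁴ + q² + 1 when q ≡ 0 (mod 3) and q > 3. -/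
theorem result {F : Type*} [Field F] [Fintype F] (k : ℕ) (ρ : Representation ℂ (Cfsg.Lie.chevG2.group F) (Fin k → ℂ)) (hρ : ρ.IsIrreducible) (hk : 2 ≤ k) :
    (Fintype.card F % 3 = 1 → 4 < Fintype.card F → Fintype.card F ^ 3 + 1 ≤ k) ∧
    (Fintype.card F % 3 = 2 → 2 < Fintype.card F → Fintype.card F ^ 3 - 1 ≤ k) ∧
    (Fintype.card F % 3 = 0 → 3 < Fintype.card F → Fintype.card F ^ 4 + Fintype.card F ^ 2 + 1 ≤ k) := by
  classical
  obtain ⟨ψ, hψ⟩ := Cfsg.Agent.Suzuki.TraceProj.exists_primitive F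
  have hdim : Module.finrank ℂ (Fin k → ℂ) = k := Module.finrank_fin_fun ℂ
  have hfaith : 2 < Fintype.card F → ∀ r, r < 12 → Cfsg.Agent.Suzuki.G2Min.op ρ r (1 : F) ≠ 1 := by
    intro hq r hr e
    have hF : ∃ a : F, a ≠ 0 ∧ a ≠ 1 := by
      by_contra h
      push Not at h
      have : (Finset.univ : Finset F) ⊆ {0, 1} := fun a _ => by
        simp only [Finset.mem_insert, Finset.mem_singleton]
        exact or_iff_not_imp_left.2 (h a)
      have := Finset.card_le_card this
      rw [Finset.card_univ] at this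
      have := this.trans Finset.card_le_two
      omega
    obtain ⟨C⟩ := Cfsg.Agent.Chev.nonempty_cert (D := Cfsg.Lie.chevG2) (by simp)
    obtain ⟨M, hM⟩ := Cfsg.Agent.Chev.exists_cox (D := Cfsg.Lie.chevG2) (by simp)
    obtain ⟨pa, hpa⟩ := Cfsg.Agent.Chev.exists_tree (D := Cfsg.Lie.chevG2) (by simp)
    haveI := (C.isSimple_group hM hpa (by decide) (C.commutator_eq_top
      (Cfsg.Agent.Chev.group_perfect_of_mem C (by simp) fun _ => hF))).1
    have hinj := Cfsg.Agent.KnownA.injective_of_irreducible_of_simple ρ hρ (by rw [hdim]; exact hk)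
    have h1 : Cfsg.Agent.Suzuki.G2Min.xg r (1 : F) = Cfsg.Agent.Suzuki.G2Min.xg r 0 := by
      refine hinj ?_
      rw [Cfsg.Agent.Suzuki.G2Min.xg_zero, map_one]
      exact e
    exact one_ne_zero (Cfsg.Agent.Suzuki.G2Min.xg_inj hr h1)
  have h3 : Fintype.card F % 3 ≠ 0 → (3 : F) ≠ 0 := by
    intro hm h0
    have hc : (Fintype.card F : F) = 0 := FiniteField.cast_card_eq_zero F
    rw [← Nat.div_add_mod (Fintype.card F) 3, Nat.cast_add, Nat.cast_mul, show ((3 : ℕ) : F) = 3 from Nat.cast_ofNat,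
      h0, zero_mul, zero_add] at hc
    rcases (show Fintype.card F % 3 = 1 ∨ Fintype.card F % 3 = 2 by omega) with h | h <;> rw [h] at hc
    · simp at hc
    · exact one_ne_zero (α := F) (by push_cast at hc; linear_combination h0 - hc)
  refine ⟨fun h1 h4 => ?_, fun h2 hq => ?_, fun h0 hq => ?_⟩
  · exact (Cfsg.Agent.Suzuki.G2Min.bound_one ρ hψ (h3 (by omega)) (hfaith (by omega) 11 (by norm_num)) h1 h4).trans_eq hdim
  · exact (Cfsg.Agent.Suzuki.G2Min.bound_two ρ hψ (h3 (by omega)) (hfaith hq 11 (by norm_num)) h2 hq).trans_eq hdim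
  · obtain ⟨p, hp⟩ := CharP.exists F
    obtain ⟨n, hpp, hn⟩ := FiniteField.card F p
    have hp3 : p = 3 := by
      have : 3 ∣ p ^ (n : ℕ) := hn ▸ Nat.dvd_of_mod_eq_zero h0
      exact ((Nat.prime_dvd_prime_iff_eq Nat.prime_three hpp).1 (Nat.prime_three.dvd_of_dvd_pow this)).symm
    subst hp3
    have h3' : (3 : F) = 0 := by exact_mod_cast CharP.cast_eq_zero F 3
    have h9 : 9 ≤ Fintype.card F := by
      have h2n : 2 ≤ (n : ℕ) := by
        by_contra hcon
        rw [show (n : ℕ) = 1 by have := n.pos; omega, pow_one] at hn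
        omega
      rw [hn]
      calc 9 = 3 ^ 2 := by norm_num
        _ ≤ _ := Nat.pow_le_pow_right (by norm_num) h2n
    haveI := hρ
    have hdvd := Cfsg.Agent.Chars.rep_finrank_dvd_card ρ
    rw [Cfsg.Agent.Chev.orderG2 rfl] at hdvd
    exact (Cfsg.Agent.Suzuki.G2Min.bound_three ρ hψ h3' h9 (hfaith (by omega) 8 (by norm_num)) hdvd).trans_eq hdim

end Cfsg.Agent.S2338
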