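import Cfsg.Statements.S2347
import Cfsg.Agent.KnownA.WeilIrred

set_option autoImplicit false
open Cfsg

namespace Cfsg.Agent.S2347

/-- Smallest degree of a non-linear irreducible complex representation of the symplectic group Sp_{2n} over a finite field of odd order q, n ≥ 2: every irreducible complex representation of degree at least 2 has degree at least (q^n − 1)/2, and there is an irreducible complex representation of exactly that degree (a Weil representation). -/
theorem result {F : Type*} [Field F] [Fintype F] [DecidableEq F] (n : ℕ) (hn : 2 ≤ n) (hodd : Odd (Fintype.card F)) :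
    (∀ (k : ℕ) (ρ : Representation ℂ (Matrix.symplecticGroup (Fin n) F) (Fin k → ℂ)), ρ.IsIrreducible → 2 ≤ k → (Fintype.card F ^ n - 1) / 2 ≤ k) ∧
    (∃ ρ : Representation ℂ (Matrix.symplecticGroup (Fin n) F) (Fin ((Fintype.card F ^ n - 1) / 2) → ℂ), ρ.IsIrreducible) := by
  have h2 : (2 : F) ≠ 0 := by
    intro e
    have h := (FiniteField.even_card_iff_char_two (F := F)).mp
      (CharP.ringChar_of_prime_eq_zero Nat.prime_two (by exact_mod_cast e))
    exact (Nat.not_even_iff_odd.mpr hodd) (Nat.even_iff.mpr h)
  exact ⟨fun k ρ hirr hk => KnownA.sp_min_degree_le h2 hn ρ hirr hk, KnownA.sp_min_degree_attained h2 hn⟩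

end Cfsg.Agent.S2347
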