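import Cfsg.Statements.S2459
import Cfsg.Agent.KnownB.PSLAbsorb
import Cfsg.Agent.KnownB.ThreeByThree

set_option autoImplicit false
open Cfsg

namespace Cfsg.Agent.S2459


/-- A form of Thompson's conjecture for PSL(3,q), q > 2 (covering the non-identity elements), with a semisimple class: for F a finite field of characteristic p with more than 2 elements there is an element x of PSL(3,F) of order prime to p such that every non-identity element of PSL(3,F) is a product of two conjugates of x. -/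
theorem result {F : Type*} [Field F] [Fintype F] (p : ℕ) [Fact p.Prime] [CharP F p] (h3 : 3 ≤ Fintype.card F) :
    ∃ x : Matrix.ProjectiveSpecialLinearGroup (Fin 3) F, ¬ p ∣ orderOf x ∧ ∀ g : Matrix.ProjectiveSpecialLinearGroup (Fin 3) F, g ≠ 1 → ∃ u v : Matrix.ProjectiveSpecialLinearGroup (Fin 3) F, g = (u * x * u⁻¹) * (v * x * v⁻¹) := by
  classical
  have key : ∀ (D : Matrix (Fin 3) (Fin 3) F) (hD : D.det = 1),
      (∀ d : F, d ≠ 0 → ∃ E : Matrix (Fin 3) (Fin 3) F, E.det = d ∧ D * E = E * D) →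
      (∀ A : Matrix (Fin 3) (Fin 3) F, A.det = 1 →
        (∀ t : F, Matrix.scalar (Fin 3) t ≠ A) → KnownB.CovBy D A) →
      ∀ g : Matrix.ProjectiveSpecialLinearGroup (Fin 3) F, g ≠ 1 → ∃ u v,
        g = (u * KnownB.pslMk 3 F ⟨D, hD⟩ * u⁻¹) * (v * KnownB.pslMk 3 F ⟨D, hD⟩ * v⁻¹) := by
    intro D hD hcomm hcov g hg
    obtain ⟨A, rfl⟩ := KnownB.pslMk_surjective g
    obtain ⟨X, Y, ⟨P, hP, hXP⟩, ⟨Q, hQ, hYQ⟩, hXY⟩ := hcov A A.det_coe (fun t ht =>
      hg ((KnownB.pslMk_eq_one_iff A).mpr ⟨t, ht⟩))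
    have hfix : ∀ (X P : Matrix (Fin 3) (Fin 3) F), P.det ≠ 0 → X * P = P * D →
        ∃ U : Matrix.SpecialLinearGroup (Fin 3) F,
          (U * ⟨D, hD⟩ * U⁻¹ : Matrix.SpecialLinearGroup (Fin 3) F).val = X := by
      intro X P hP hXP
      obtain ⟨E, hE, hDE⟩ := hcomm P.det⁻¹ (inv_ne_zero hP)
      let U : Matrix.SpecialLinearGroup (Fin 3) F :=
        ⟨P * E, by rw [Matrix.det_mul, hE, mul_inv_cancel₀ hP]⟩
      refine ⟨U, ?_⟩
      have h1 : X * U.val = U.val * D := by
        show X * (P * E) = P * E * D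
        rw [← Matrix.mul_assoc, hXP, Matrix.mul_assoc, hDE, ← Matrix.mul_assoc]
      have h2 : U.val * (U⁻¹).val = 1 := by
        rw [← Matrix.SpecialLinearGroup.coe_mul, mul_inv_cancel, Matrix.SpecialLinearGroup.coe_one]
      show U.val * D * (U⁻¹).val = X
      rw [← h1, Matrix.mul_assoc, h2, Matrix.mul_one]
    obtain ⟨U, hU⟩ := hfix X P hP hXP
    obtain ⟨V, hV⟩ := hfix Y Q hQ hYQ
    refine ⟨KnownB.pslMk 3 F U, KnownB.pslMk 3 F V, ?_⟩
    have hA : A = U * ⟨D, hD⟩ * U⁻¹ * (V * ⟨D, hD⟩ * V⁻¹) := by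
      apply Subtype.ext
      show A.val = (U * ⟨D, hD⟩ * U⁻¹ : Matrix.SpecialLinearGroup (Fin 3) F).val *
        (V * ⟨D, hD⟩ * V⁻¹ : Matrix.SpecialLinearGroup (Fin 3) F).val
      rw [hU, hV, hXY]
    conv_lhs => rw [hA]
    simp only [map_mul, map_inv]
    rfl
  have hord : ∀ (D : Matrix (Fin 3) (Fin 3) F) (hD : D.det = 1) (k : ℕ),
      ¬ p ∣ k → D ^ k = 1 → ¬ p ∣ orderOf (KnownB.pslMk 3 F ⟨D, hD⟩) := by
    intro D hD k hk hpow hdvd
    refine hk (hdvd.trans ((KnownB.orderOf_pslMk_dvd_iff _ k).mpr ⟨1, ?_⟩))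
    show _ = D ^ k
    rw [hpow, map_one]
  obtain ⟨fexp, hfp, hF⟩ := FiniteField.card F p
  rcases Nat.lt_or_ge (Fintype.card F) 4 with h4 | h4
  · have hq : Fintype.card F = 3 := by omega
    obtain ⟨D, hD, h13, hcov⟩ := KnownB.covBy_three (F := F) hq
    have hp3 : p = 3 := by
      rw [hq] at hF
      exact ((Nat.prime_dvd_prime_iff_eq hfp Nat.prime_three).mp (hF ▸ dvd_pow_self p fexp.ne_zero))
    refine ⟨KnownB.pslMk 3 F ⟨D, hD⟩, hord D hD 13 (by subst hp3; norm_num) h13,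
      key D hD ?_ hcov⟩
    intro d hd
    refine ⟨d • 1, ?_, by simp⟩
    rw [Matrix.det_smul, Matrix.det_one, mul_one, Fintype.card_fin]
    have h2 : d ^ 2 = 1 := by
      have := FiniteField.pow_card_sub_one_eq_one d hd
      rwa [hq] at this
    rw [pow_succ, h2, one_mul]
  · obtain ⟨a, ha0, ha1, ha2⟩ : ∃ a : F, a ≠ 0 ∧ a ≠ 1 ∧ a ≠ -1 := by
      by_contra hcon
      push Not at hcon
      have hsub : (Finset.univ : Finset F) ⊆ {0, 1, -1} := fun x _ => by
        by_cases h0 : x = 0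
        · simp [h0]
        by_cases h1 : x = 1
        · simp [h1]
        simp [hcon x h0 h1]
      have h1 := Finset.card_le_card hsub
      have h2 : ({0, 1, -1} : Finset F).card ≤ 3 := Finset.card_le_three
      rw [Finset.card_univ] at h1
      omega
    have hsq : a ≠ a⁻¹ := by
      intro h
      have h3 : (a - 1) * (a + 1) = 0 := by
        have : a * a = 1 := by nth_rewrite 2 [h]; exact mul_inv_cancel₀ ha0
        linear_combination this
      rcases mul_eq_zero.mp h3 with h | h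
      · exact ha1 (sub_eq_zero.mp h)
      · exact ha2 (eq_neg_of_add_eq_zero_left h)
    have hD : (Matrix.diagonal ![a, 1, a⁻¹]).det = 1 := by
      simp [Matrix.det_diagonal, Fin.prod_univ_three, ha0]
    refine ⟨KnownB.pslMk 3 F ⟨_, hD⟩, hord _ hD (Fintype.card F - 1) ?_ ?_,
      key _ hD ?_ (KnownB.covBy_split (by field_simp) ha1 hsq ?_)⟩
    · intro hdvd
      have h1 : p ∣ Fintype.card F := hF ▸ dvd_pow_self p fexp.ne_zero
      have h2 := Nat.dvd_sub h1 hdvd
      rw [Nat.sub_sub_self Fintype.card_pos] at h2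
      exact hfp.one_lt.ne' (Nat.dvd_one.mp h2)
    · rw [Matrix.diagonal_pow, ← Matrix.diagonal_one]
      congr 1
      funext i
      fin_cases i <;> simp [FiniteField.pow_card_sub_one_eq_one _ ha0]
    · intro d _
      refine ⟨Matrix.diagonal ![d, 1, 1], by simp [Matrix.det_diagonal, Fin.prod_univ_three], ?_⟩
      rw [Matrix.diagonal_mul_diagonal, Matrix.diagonal_mul_diagonal]
      congr 1
      funext i
      exact mul_comm _ _
    · intro h
      exact ha1 (inv_eq_one.mp h.symm)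

end Cfsg.Agent.S2459
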