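import Cfsg.Statements.S2460
import Cfsg.Agent.Chev.B2Cov.Q4
import Cfsg.Agent.Forms.SpFourAdjoint

set_option autoImplicit false
open Cfsg

namespace Cfsg.Agent.S2460

/-- A form of Thompson's conjecture for the simple groups PSp(4,q), q ≥ 3 (covering the non-identity elements), with a semisimple class: for F a finite field of characteristic p with at least 3 elements there is an element x of PSp(4,F) of order prime to p such that every non-identity element of PSp(4,F) is a product of two conjugates of x. -/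
theorem result {F : Type*} [Field F] [Fintype F] (p : ℕ) [Fact p.Prime] [CharP F p] (h3 : 3 ≤ Fintype.card F) :
    ∃ x : Cfsg.PSp 2 F, ¬ p ∣ orderOf x ∧ ∀ g : Cfsg.PSp 2 F, g ≠ 1 → ∃ u v : Cfsg.PSp 2 F, g = (u * x * u⁻¹) * (v * x * v⁻¹) := by
  classical
  have key : ∀ (T : GL (Fin 2) F) (N : ℕ), ¬ p ∣ N → T ^ N = 1 →
      (∀ g ∈ Cfsg.Lie.chevB2.group F, Cfsg.Agent.Chev.B2Cov.Cov (Cfsg.Agent.Chev.B2Cov.Psi T) g) →
      ∃ x : Cfsg.PSp 2 F, ¬ p ∣ orderOf x ∧ ∀ g : Cfsg.PSp 2 F, g ≠ 1 →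
        ∃ u v : Cfsg.PSp 2 F, g = (u * x * u⁻¹) * (v * x * v⁻¹) := by
    intro T N hN hT hcov
    let e : Cfsg.PSp 2 F ≃* Cfsg.Lie.chevB2.group F := Cfsg.Agent.Forms.chevB2EquivPSp F
    let z : Cfsg.Lie.chevB2.group F := ⟨_, Cfsg.Agent.Chev.B2Cov.Psi_mem T⟩
    refine ⟨e.symm z, fun hd => hN (hd.trans (orderOf_dvd_of_pow_eq_one ?_)), fun g _ => ?_⟩
    · have hz : z ^ N = 1 := by
        apply Subtype.ext
        rw [SubgroupClass.coe_pow, ← map_pow, hT, map_one]
        rfl
      rw [← map_pow, hz, map_one]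
    · obtain ⟨u, hu, v, hv, he⟩ := hcov (e g : Cfsg.Lie.chevB2.group F) (e g).2
      refine ⟨e.symm ⟨u, hu⟩, e.symm ⟨v, hv⟩, e.injective ?_⟩
      simp only [map_mul, map_inv, MulEquiv.apply_symm_apply]
      exact Subtype.ext he
  have hp := (Fact.out : p.Prime)
  obtain ⟨n, -, hn⟩ := FiniteField.card F p
  have hpq : p ∣ Fintype.card F := by
    rw [hn]; exact dvd_pow_self p n.ne_zero
  by_cases h2 : (2 : F) = 0
  · have hp2 : p = 2 := by
      have := (CharP.cast_eq_zero_iff F p 2).mp (by exact_mod_cast h2)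
      exact (Nat.prime_dvd_prime_iff_eq hp Nat.prime_two).mp this
    subst hp2
    by_cases h4 : Fintype.card F = 4
    · obtain ⟨w, D⟩ := Cfsg.Agent.Chev.G2Cov.exists_f4Data h2 h4
      exact key D.T0 15 (by norm_num) D.T0_order (Cfsg.Agent.Chev.B2Cov.cover_four D)
    · have h7 : 7 ≤ Fintype.card F := by
        by_contra hlt
        rw [hn] at h3 h4 hlt
        rcases le_or_gt (n : ℕ) 2 with h | h
        · interval_cases h' : (n : ℕ) <;> omega
        · have := Nat.pow_le_pow_right (show 0 < 2 by norm_num) h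
          omega
      obtain ⟨T, hT, hcov⟩ := Cfsg.Agent.Chev.B2Cov.cover_even h2 h7
      exact key T _ (fun hd => by
        have : 2 ∣ 1 := by
          have h := Nat.dvd_sub hpq hd
          rwa [Nat.sub_sub_self (by omega)] at h
        omega) hT hcov
  · obtain ⟨T, hT, hcov⟩ := Cfsg.Agent.Chev.B2Cov.cover_odd h2
    refine key T _ (fun hd => ?_) hT hcov
    rcases (Nat.Prime.dvd_mul hp).mp hd with h | h
    · have hp2 := (Nat.prime_dvd_prime_iff_eq hp Nat.prime_two).mp h
      exact h2 (by have := CharP.cast_eq_zero F p; rw [hp2] at this; exact_mod_cast this)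
    · have := Nat.dvd_sub h hpq
      simp at this
      exact hp.one_lt.ne' this

end Cfsg.Agent.S2460
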