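import Cfsg.Statements.S2466
import Cfsg.Agent.PermGroups.AltOrders
import Mathlib.Tactic.Linarith

set_option autoImplicit false
open Cfsg

namespace Cfsg.Agent.S2466

/-- Adjacency of odd primes in the prime graph of the alternating groups: let r ≠ s be odd primes at most n. The alternating group of degree n has an element of order r·s if and only if r + s ≤ n. -/
theorem result (n r s : ℕ) (hr : r.Prime) (hs : s.Prime) (hr2 : r ≠ 2) (hs2 : s ≠ 2) (hrs : r ≠ s) (hrn : r ≤ n) (hsn : s ≤ n) :
    (r * s ∈ Set.range (orderOf : alternatingGroup (Fin n) → ℕ)) ↔ r + s ≤ n := by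
  rw [PermGroups.mem_range_orderOf_alternating]
  constructor
  · rintro ⟨m, h2, hsum, -, hlcm⟩
    obtain ⟨a, ha, hra⟩ := PermGroups.exists_mem_dvd_of_prime_dvd_lcm hr (hlcm ▸ dvd_mul_right r s)
    obtain ⟨b, hb, hsb⟩ := PermGroups.exists_mem_dvd_of_prime_dvd_lcm hs (hlcm ▸ dvd_mul_left s r)
    have hra' : r ≤ a := Nat.le_of_dvd (by have := h2 a ha; omega) hra
    have hsb' : s ≤ b := Nat.le_of_dvd (by have := h2 b hb; omega) hsb
    by_cases hab : a = b
    · subst hab
      have h1 : r * s ≤ a := Nat.le_of_dvd (by have := h2 a ha; omega)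
        (Nat.Coprime.mul_dvd_of_dvd_of_dvd ((Nat.coprime_primes hr hs).2 hrs) hra hsb)
      have h3 : a ≤ m.sum := Multiset.single_le_sum (fun _ _ => Nat.zero_le _) a ha
      have := hr.two_le
      have := hs.two_le
      nlinarith
    · have hb' : b ∈ m.erase a := (Multiset.mem_erase_of_ne (Ne.symm hab)).2 hb
      have h3 : b ≤ (m.erase a).sum := Multiset.single_le_sum (fun _ _ => Nat.zero_le _) b hb'
      rw [← Multiset.cons_erase ha, Multiset.sum_cons] at hsum
      omega
  · intro h
    refine ⟨{r, s}, ?_, by simpa using h, ?_, ?_⟩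
    · intro a ha
      rcases Multiset.mem_cons.1 ha with rfl | ha
      · exact hr.two_le
      · exact (Multiset.mem_singleton.1 ha) ▸ hs.two_le
    · have h1 := hr.odd_of_ne_two hr2
      have h3 := hs.odd_of_ne_two hs2
      simp only [Multiset.insert_eq_cons, Multiset.sum_cons, Multiset.sum_singleton, Multiset.card_cons, Multiset.card_singleton]
      rw [Nat.odd_iff] at h1 h3
      rw [Nat.even_iff]
      omega
    · simp [lcm_eq_nat_lcm, Nat.Coprime.lcm_eq_mul ((Nat.coprime_primes hr hs).2 hrs)]

end Cfsg.Agent.S2466
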