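import Cfsg.Statements.S2467
import Cfsg.Agent.PermGroups.AltOrders

set_option autoImplicit false
open Cfsg

namespace Cfsg.Agent.S2467

/-- Adjacency of 2 and an odd prime in the prime graph of the alternating groups: let r be an odd prime at most n, with n ≥ 4. The alternating group of degree n has an element of order 2r if and only if r + 4 ≤ n. -/
theorem result (n r : ℕ) (hn : 4 ≤ n) (hr : r.Prime) (hr2 : r ≠ 2) (hrn : r ≤ n) :
    (2 * r ∈ Set.range (orderOf : alternatingGroup (Fin n) → ℕ)) ↔ r + 4 ≤ n := by
  rw [PermGroups.mem_range_orderOf_alternating]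
  have h3r : 3 ≤ r := by have := hr.two_le; omega
  have hcop : Nat.Coprime 2 r := (Nat.coprime_primes Nat.prime_two hr).2 (Ne.symm hr2)
  constructor
  · rintro ⟨m, h2, hsum, hev, hlcm⟩
    obtain ⟨b, hb, h2b⟩ := PermGroups.exists_mem_dvd_of_prime_dvd_lcm Nat.prime_two (hlcm ▸ dvd_mul_right 2 r)
    obtain ⟨a, ha, hra⟩ := PermGroups.exists_mem_dvd_of_prime_dvd_lcm hr (hlcm ▸ dvd_mul_left r 2)
    have ha' : r ≤ a := Nat.le_of_dvd (by have := h2 a ha; omega) hra
    by_cases hae : Even a
    · have h2r : 2 * r ≤ a := Nat.le_of_dvd (by have := h2 a ha; omega)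
        (Nat.Coprime.mul_dvd_of_dvd_of_dvd hcop hae.two_dvd hra)
      obtain ⟨c, hc, -⟩ := PermGroups.exists_second_even ha hae hev
      have h4 : c ≤ (m.erase a).sum := Multiset.single_le_sum (fun _ _ => Nat.zero_le _) c hc
      have := h2 c (Multiset.mem_of_mem_erase hc)
      rw [← Multiset.cons_erase ha, Multiset.sum_cons] at hsum
      omega
    · have hbe : Even b := even_iff_two_dvd.2 h2b
      have hab : a ≠ b := fun h => hae (h ▸ hbe)
      obtain ⟨c, hc, hce⟩ := PermGroups.exists_second_even hb hbe hev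
      have hac : a ≠ c := fun h => hae (h ▸ hce)
      have hc' : c ∈ (m.erase a).erase b := by
        rw [Multiset.erase_comm]
        exact (Multiset.mem_erase_of_ne (Ne.symm hac)).2 hc
      have h4 : c ≤ ((m.erase a).erase b).sum := Multiset.single_le_sum (fun _ _ => Nat.zero_le _) c hc'
      have hb' : b ∈ m.erase a := (Multiset.mem_erase_of_ne (Ne.symm hab)).2 hb
      have := h2 b hb
      have := h2 c (Multiset.mem_of_mem_erase hc)
      rw [← Multiset.cons_erase ha, Multiset.sum_cons, ← Multiset.cons_erase hb', Multiset.sum_cons] at hsum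
      omega
  · intro h
    refine ⟨{r, 2, 2}, ?_, by simp; omega, ?_, ?_⟩
    · intro a ha
      simp only [Multiset.insert_eq_cons, Multiset.mem_cons, Multiset.mem_singleton] at ha
      omega
    · have h1 := hr.odd_of_ne_two hr2
      simp only [Multiset.insert_eq_cons, Multiset.sum_cons, Multiset.sum_singleton, Multiset.card_cons, Multiset.card_singleton]
      rw [Nat.odd_iff] at h1
      rw [Nat.even_iff]
      omega
    · simp [lcm_eq_nat_lcm, Nat.Coprime.lcm_eq_mul hcop.symm, mul_comm]

end Cfsg.Agent.S2467
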