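import Cfsg.Statements.S2474
import Cfsg.Agent.Forms.PrimeGraphBC

set_option autoImplicit false
open Cfsg

namespace Cfsg.Agent.S2474

/-- For q odd and n ≥ 3 the simple groups PΩ(2n+1,q) and PSp(2n,q) (which have the same order but different sets of element orders) have the same prime graph: for all distinct primes r, s, one of them has an element of order r·s if and only if the other does. -/
theorem result {F : Type*} [Field F] [Fintype F] (hodd : Odd (Fintype.card F)) (n : ℕ) (hn : 3 ≤ n) (r s : ℕ) (hr : r.Prime) (hs : s.Prime) (hrs : r ≠ s) :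
    (r * s ∈ Set.range (orderOf : Cfsg.POmega F (Cfsg.quadFormOdd n F) → ℕ)) ↔ (r * s ∈ Set.range (orderOf : Cfsg.PSp n F → ℕ)) := by
  classical
  have h2 : (2 : F) ≠ 0 := Forms.two_ne_zero_of_odd rfl hodd
  obtain ⟨p, _⟩ := CharP.exists F
  haveI : Fact p.Prime := ⟨CharP.char_is_prime F p⟩
  obtain ⟨B, hA, hB, π, hπs, hπ⟩ := Forms.exists_psp_hom (F := F) n (by omega)
  have hc : ∀ (g : Forms.altGroup B) (c : F),
      (∀ x, (g : (Fin (n + n) → F) ≃ₗ[F] (Fin (n + n) → F)) x = c • x) → c * c = 1 := by
    intro g c hg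
    obtain ⟨x, y, hxy⟩ : ∃ x y, B x y ≠ 0 := by
      by_contra hcon
      push Not at hcon
      haveI : NeZero (n + n) := ⟨by omega⟩
      have h := hB.1 (Pi.single 0 1) fun y => hcon _ y
      simpa using congrFun h 0
    have h := g.2.1 x y
    rw [hg, hg, map_smul, map_smul, LinearMap.smul_apply, smul_eq_mul, smul_eq_mul,
      ← mul_assoc] at h
    exact mul_right_cancel₀ hxy (by rw [h, one_mul])
  have hbot : Subgroup.center ↥(commutator (Forms.orthGroup (Forms.qOdd n F))) = ⊥ := by
    rw [← Subgroup.card_eq_one]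
    exact Forms.card_center_omega_odd (Forms.qOdd_nondegenerate h2) (by simp; omega) h2
      (by simp only [Module.finrank_fintype_fun_eq_card, Fintype.card_sum, Fintype.card_fin,
            Fintype.card_unit]
          exact ⟨n, by ring⟩)
  rw [← Forms.coe_qOdd]
  let E : Cfsg.POmega F ⇑(Forms.qOdd n F) ≃* ↥(commutator (Forms.orthGroup (Forms.qOdd n F))) :=
    (Forms.centerQuotientCongr (Forms.omegaEquiv (Forms.qOdd n F))).trans
      ((QuotientGroup.quotientMulEquivOfEq hbot).trans QuotientGroup.quotientBot)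
  rw [Forms.mem_range_iff_hasPair hr hs hrs, Forms.hasPair_congr E,
    ← Forms.mem_range_iff_hasPair hr hs hrs]
  exact Forms.primeGraph_eq h2 hn hA hB π hπs hπ hc p hr hs hrs

end Cfsg.Agent.S2474
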