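import Cfsg.Statements.S2475
import Cfsg.Agent.Linear.PSL2Spectrum
-- import your own Cfsg.Agent.* helpers here

set_option autoImplicit false
open Cfsg

namespace Cfsg.Agent.S2475

/-- The set of element orders of PSL(2,q): let F be a finite field of characteristic p with q ≥ 4 elements and d = gcd(2, q − 1). The orders of elements of PSL(2,F) are exactly the divisors of p, of (q − 1)/d and of (q + 1)/d. -/
theorem result {F : Type*} [Field F] [Fintype F] (p : ℕ) [Fact p.Prime] [CharP F p] (h4 : 4 ≤ Fintype.card F) :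
    Set.range (orderOf : Matrix.ProjectiveSpecialLinearGroup (Fin 2) F → ℕ) =
      {m : ℕ | m ∣ p ∨ m ∣ (Fintype.card F - 1) / Nat.gcd 2 (Fintype.card F - 1) ∨ m ∣ (Fintype.card F + 1) / Nat.gcd 2 (Fintype.card F - 1)} := by
  exact Cfsg.Agent.Linear.PSL2Classes.range_orderOf p

end Cfsg.Agent.S2475
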