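import Cfsg.Statements.S2479
import Cfsg.Agent.KnownB.SLClassNumber

set_option autoImplicit false
open Cfsg

namespace Cfsg.Agent.S2479

/-- The number of conjugacy classes of SL(n,q): for F a finite field with q elements, the number k of conjugacy classes of SL(n,F) satisfies q^(n−1) < k and k ≤ (5/2)·q^(n−1) for n ≥ 2, and k ≤ q^(n−1) + 3q^(n−2) for n ≥ 3. -/
theorem result {F : Type*} [Field F] [Fintype F] (n : ℕ) (hn : 2 ≤ n) :
    Fintype.card F ^ (n - 1) < Nat.card (ConjClasses (Matrix.SpecialLinearGroup (Fin n) F)) ∧ 2 * Nat.card (ConjClasses (Matrix.SpecialLinearGroup (Fin n) F)) ≤ 5 * Fintype.card F ^ (n - 1) ∧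
      (3 ≤ n → Nat.card (ConjClasses (Matrix.SpecialLinearGroup (Fin n) F)) ≤ Fintype.card F ^ (n - 1) + 3 * Fintype.card F ^ (n - 2)) := by
  classical
  have hq : 2 ≤ Fintype.card F := Fintype.one_lt_card
  have h := Cfsg.Agent.KnownB.ClassTuples.card_SL_classes_le (F := F) (show 1 ≤ n by omega)
  have hp : 0 < Fintype.card F - 1 := by omega
  refine ⟨Cfsg.Agent.KnownB.ClassTuples.lt_card_SL_classes hn, ?_, fun h3 => ?_⟩
  · refine Nat.le_of_mul_le_mul_left ?_ hp
    have h5 := Cfsg.Agent.KnownB.ClassTuples.B_le_five hq hn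
    calc (Fintype.card F - 1) * (2 * Nat.card (ConjClasses (Matrix.SpecialLinearGroup (Fin n) F)))
        = 2 * ((Fintype.card F - 1) * Nat.card (ConjClasses (Matrix.SpecialLinearGroup (Fin n) F))) := by ring
      _ ≤ 2 * Cfsg.Agent.KnownB.ClassTuples.B (Fintype.card F) n := Nat.mul_le_mul_left 2 h
      _ ≤ _ := h5.trans_eq (by ring)
  · exact Nat.le_of_mul_le_mul_left (h.trans (Cfsg.Agent.KnownB.ClassTuples.B_ge_three hq h3)) hp

end Cfsg.Agent.S2479
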