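import Cfsg.Statements.S2488
import Cfsg.Agent.FGS2.A6Facts
import Cfsg.Agent.OddLocal.NilBasics
-- import your own Cfsg.Agent.* helpers here

set_option autoImplicit false
open scoped Pointwise
open Cfsg

namespace Cfsg.Agent.S2488

open Cfsg.Agent.FGS2.A6Facts

/-- Let G be a finite group with a normal subgroup N of index 4 isomorphic to the alternating group of degree 6 and with trivial centralizer in G (so G is the full automorphism group of A₆). Then any two Sylow 2-subgroups of G have a non-trivial intersection: for a Sylow 2-subgroup H and every x ∈ G, H ∩ H^x ≠ 1. -/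
theorem result {G : Type*} [Group G] [Finite G] (N : Subgroup G) [N.Normal]
    (e : N ≃* alternatingGroup (Fin 6)) (hidx : N.index = 4)
    (hC : Subgroup.centralizer (N : Set G) = ⊥)
    (H : Sylow 2 G) (x : G) :
    (H : Subgroup G) ⊓ MulAut.conj x • (H : Subgroup G) ≠ ⊥ := by
  classical
  haveI := Fact.mk Nat.prime_two
  have hNc : Nat.card N = 360 := by
    rw [Nat.card_congr e.toEquiv, nat_card_alternatingGroup, Nat.card_eq_fintype_card, Fintype.card_fin]
    rfl
  have hG : Nat.card G = 1440 := by rw [← N.index_mul_card, hidx, hNc]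
  have hH : Nat.card (H : Subgroup G) = 32 := by
    rw [H.card_eq_multiplicity, hG, show (1440 : ℕ) = 2 ^ 5 * 45 by norm_num,
      Nat.factorization_mul (by norm_num) (by norm_num), Finsupp.add_apply,
      Nat.Prime.factorization_pow Nat.prime_two, Finsupp.single_eq_same,
      Nat.factorization_eq_zero_of_not_dvd (by norm_num)]
    rfl
  -- the intersection with N is nontrivial
  let K : Subgroup (H : Subgroup G) := N.subgroupOf H
  have hKne : Nontrivial K := by
    rw [← Finite.one_lt_card_iff_nontrivial]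
    have h1 := K.index_mul_card
    have h2 : K.index ≤ 4 := by
      rw [← hidx]
      exact Subgroup.relIndex_top_right N ▸ Subgroup.relIndex_le_of_le_right le_top
        (by rw [Subgroup.relIndex_top_right, hidx]; norm_num)
    rw [hH] at h1
    by_contra hle
    have := Nat.mul_le_mul h2 (show Nat.card K ≤ 1 by omega)
    omega
  have : K.Normal := Subgroup.Normal.comap ‹N.Normal› _
  obtain ⟨z0, hz0K, hz0c, hz0⟩ : ∃ z ∈ K, z ∈ Subgroup.center (H : Subgroup G) ∧ orderOf z = 2 := by
    haveI := H.2.isNilpotent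
    have hne : K ⊓ Subgroup.center (H : Subgroup G) ≠ ⊥ := by
      obtain ⟨y, hy1, hy2, hy3⟩ := Cfsg.Agent.OddLocal.exists_ne_one_mem_center_of_normal K
        ((Subgroup.nontrivial_iff_ne_bot K).1 hKne)
      intro h
      exact hy2 (Subgroup.mem_bot.1 (h ▸ (⟨hy1, hy3⟩ : y ∈ K ⊓ Subgroup.center (H : Subgroup G))))
    have h2 : 2 ∣ Nat.card (K ⊓ Subgroup.center (H : Subgroup G) : Subgroup (H : Subgroup G)) := by
      obtain ⟨k, hk⟩ := (H.2.to_subgroup _).exists_card_eq
      rcases k with _ | k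
      · exact absurd (Subgroup.card_eq_one.1 (hk.trans (pow_zero 2))) hne
      · rw [hk, pow_succ]; exact dvd_mul_left _ _
    obtain ⟨z, hz⟩ := exists_prime_orderOf_dvd_card' 2 h2
    exact ⟨z.1, z.2.1, z.2.2, by rwa [Subgroup.orderOf_coe]⟩
  set z : G := z0.1 with hz
  have hzN : z ∈ N := hz0K
  have hzo : orderOf z = 2 := by rw [hz, Subgroup.orderOf_coe, hz0]
  have hz2 : z * z = 1 := by rw [← pow_two, ← hzo, pow_orderOf_eq_one]
  have hz1 : z ≠ 1 := fun h => by simp [h] at hzo
  let a : A := e ⟨z, hzN⟩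
  have ha2 : a * a = 1 := by
    rw [← map_mul, ← map_one e]; congr 1; exact Subtype.ext hz2
  have ha1 : a ≠ 1 := fun h => hz1 (congrArg Subtype.val (e.map_eq_one_iff.1 h))
  -- the centralizer of z is H
  set C := Subgroup.centralizer ({z} : Set G) with hC'
  have hHC : (H : Subgroup G) ≤ C := fun h hh => Subgroup.mem_centralizer_singleton_iff.2
    (congrArg Subtype.val (Subgroup.mem_center_iff.1 hz0c ⟨h, hh⟩))
  have hCN : Nat.card (N.subgroupOf C) ≤ 8 := by
    rw [← a6_centralizer a ha2 ha1, ← Nat.card_eq_finsetCard]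
    refine Nat.card_le_card_of_injective
      (fun c => ⟨e ⟨c.1.1, c.2⟩, Finset.mem_filter.2 ⟨Finset.mem_univ _, ?_⟩⟩) ?_
    · rw [← map_mul, ← map_mul]; congr 1
      exact Subtype.ext (Subgroup.mem_centralizer_singleton_iff.1 c.1.2)
    · intro c d hcd
      have h1 := e.injective (congrArg Subtype.val hcd)
      exact Subtype.ext (Subtype.ext (congrArg Subtype.val h1 :))
  have hCeq : (H : Subgroup G) = C := by
    refine Subgroup.eq_of_le_of_card_ge hHC ?_
    rw [hH]
    have h1 := (N.subgroupOf C).index_mul_card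
    have h2 : (N.subgroupOf C).index ≤ 4 := by
      rw [← hidx]
      exact Subgroup.relIndex_top_right N ▸ Subgroup.relIndex_le_of_le_right le_top
        (by rw [Subgroup.relIndex_top_right, hidx]; norm_num)
    have := Nat.mul_le_mul h2 hCN
    omega
  -- the second involution
  set w : G := x * z * x⁻¹ with hw
  have hwN : w ∈ N := ‹N.Normal›.conj_mem z hzN x
  letI : MulAction (H : Subgroup G) N :=
    MulAction.compHom N ((MulAut.conjNormal (H := N)).comp (H : Subgroup G).subtype)
  let n : N := ⟨w, hwN⟩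
  have hn2 : n * n = 1 := Subtype.ext (by
    show w * w = 1
    rw [hw, show x * z * x⁻¹ * (x * z * x⁻¹) = x * (z * z) * x⁻¹ by group, hz2]; group)
  set S := MulAction.stabilizer (H : Subgroup G) n with hS
  have hsmall : (MulAction.orbit (H : Subgroup G) n).ncard ≤ 31 := by
    set T := Finset.univ.filter fun v : A => v * v = 1 ∧ (a * v) ^ 5 = 1 with hT
    set U := (Finset.univ.filter fun g : A => g * g = 1) \ T with hU
    have hTU : T.card ≤ 31 ∧ U.card ≤ 31 := by
      obtain ⟨h1, h2⟩ := a6_five a ha2 ha1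
      refine ⟨h2, ?_⟩
      rw [hU, Finset.card_sdiff_of_subset (fun v hv => ?_), a6_inv]
      · rw [← hT] at h1; omega
      · simp only [hT, Finset.mem_filter] at hv ⊢; exact ⟨hv.1, hv.2.1⟩
    have hstep : ∀ m ∈ MulAction.orbit (H : Subgroup G) n,
        e m * e m = 1 ∧ ((a * e m) ^ 5 = 1 ↔ (a * e n) ^ 5 = 1) := by
      rintro _ ⟨h, rfl⟩
      let φ : MulAut N := MulAut.conjNormal (H := N) h.1
      have hfix : φ ⟨z, hzN⟩ = ⟨z, hzN⟩ := Subtype.ext (by
        show h.1 * z * h.1⁻¹ = z
        have := Subgroup.mem_centralizer_singleton_iff.1 (hHC h.2)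
        rw [this, mul_inv_cancel_right])
      show e (φ n) * e (φ n) = 1 ∧ ((a * e (φ n)) ^ 5 = 1 ↔ _)
      refine ⟨by rw [← map_mul, ← map_mul, hn2, map_one, map_one], ?_⟩
      have : (a * e (φ n)) ^ 5 = e (φ ((⟨z, hzN⟩ * n) ^ 5)) := by
        rw [map_pow, map_pow, map_mul, map_mul, hfix]
      rw [this, e.map_eq_one_iff, φ.map_eq_one_iff, ← e.map_eq_one_iff, map_pow, map_mul]
    have himg : ∃ W : Finset A, W.card ≤ 31 ∧ e '' MulAction.orbit (H : Subgroup G) n ⊆ (W : Set A) := by
      by_cases h5 : (a * e n) ^ 5 = 1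
      · refine ⟨T, hTU.1, ?_⟩
        rintro _ ⟨m, hm, rfl⟩
        simp [hT, (hstep m hm).1, (hstep m hm).2.2 h5]
      · refine ⟨U, hTU.2, ?_⟩
        rintro _ ⟨m, hm, rfl⟩
        simp [hU, hT, (hstep m hm).1, mt (hstep m hm).2.1 h5]
    obtain ⟨W, hW, hsub⟩ := himg
    have := Set.ncard_le_ncard hsub W.finite_toSet
    rw [Set.ncard_image_of_injective _ e.injective, Set.ncard_coe_finset] at this
    omega
  have hS1 := S.index_mul_card
  rw [MulAction.index_stabilizer, hH] at hS1
  intro hbot
  have hSbot : S = ⊥ := by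
    rw [eq_bot_iff]
    intro s hs
    have hs' : s.1 * w * s.1⁻¹ = w := congrArg Subtype.val (MulAction.mem_stabilizer_iff.1 hs)
    have hmem : x⁻¹ * s.1 * x ∈ C := by
      rw [Subgroup.mem_centralizer_singleton_iff]
      rw [hw] at hs'
      calc x⁻¹ * s.1 * x * z = x⁻¹ * (s.1 * (x * z * x⁻¹) * s.1⁻¹) * (s.1 * x) := by group
        _ = x⁻¹ * (x * z * x⁻¹) * (s.1 * x) := by rw [hs']
        _ = z * (x⁻¹ * s.1 * x) := by group
    rw [← hCeq] at hmem
    have hin : s.1 ∈ (H : Subgroup G) ⊓ MulAut.conj x • (H : Subgroup G) := by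
      refine ⟨s.2, Subgroup.mem_pointwise_smul_iff_inv_smul_mem.2 ?_⟩
      simpa [MulAut.smul_def, mul_assoc] using hmem
    rw [hbot, Subgroup.mem_bot] at hin
    exact Subgroup.mem_bot.2 (Subtype.ext hin)
  rw [hSbot, Subgroup.card_bot, mul_one] at hS1
  omega

end Cfsg.Agent.S2488
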