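import Cfsg.Statements.S2493
import Cfsg.Agent.DoubleComm.Cover
-- import your own Cfsg.Agent.* helpers here

set_option autoImplicit false
open Cfsg

namespace Cfsg.Agent.S2493

/-- Let n ≥ 5 and let G be a finite perfect group whose centre has order 2 with G/Z(G) isomorphic to the alternating group of degree n (the double cover of the alternating group). Then every element of G is a commutator. -/
theorem result {G : Type*} [Group G] [Finite G] (hperf : commutator G = ⊤) {n : ℕ} (hn : 5 ≤ n)
    (hZ : Nat.card (Subgroup.center G) = 2) (e : G ⧸ Subgroup.center G ≃* alternatingGroup (Fin n))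
    (g : G) :
    ∃ a b : G, a * b * a⁻¹ * b⁻¹ = g := by
  classical
  set π : G →* alternatingGroup (Fin n) := e.toMonoidHom.comp (QuotientGroup.mk' (Subgroup.center G))
  obtain ⟨⟨z, hz⟩, hz1⟩ : ∃ z : Subgroup.center G, z ≠ 1 := by
    haveI : Nontrivial (Subgroup.center G) :=
      Finite.one_lt_card_iff_nontrivial.mp (by rw [hZ]; norm_num)
    exact exists_ne 1
  have hcases : ∀ w ∈ Subgroup.center G, w = 1 ∨ w = z := fun w hw => by
    by_cases h1 : w = 1
    · exact Or.inl h1
    refine Or.inr ?_
    by_contra h2
    have hz' : z ≠ 1 := fun e => hz1 (Subtype.ext e)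
    have h3 : 3 ≤ Nat.card (Subgroup.center G) := by
      calc 3 = ({1, ⟨z, hz⟩, ⟨w, hw⟩} : Finset (Subgroup.center G)).card := by
            rw [Finset.card_insert_of_notMem (by simp [Subtype.ext_iff, Ne.symm hz', Ne.symm h1]),
              Finset.card_insert_of_notMem (by simp [Subtype.ext_iff, Ne.symm h2]),
              Finset.card_singleton]
        _ ≤ Nat.card (Subgroup.center G) := by
            rw [← Set.ncard_coe_finset]
            exact (Set.ncard_le_ncard (Set.subset_univ _)).trans (le_of_eq (Set.ncard_univ _))
    omega
  have hsq : z * z = 1 := by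
    have := congrArg Subtype.val (pow_card_eq_one' (x := (⟨z, hz⟩ : Subgroup.center G)))
    rwa [hZ, pow_two] at this
  refine DoubleComm.Cover.exists_commutator hn (π := π) (z := z)
    { surj := e.surjective.comp (QuotientGroup.mk'_surjective _)
      central := fun g => (Subgroup.mem_center_iff.mp hz g).symm
      sq := hsq
      ne := fun h => hz1 (Subtype.ext h)
      map_z := ?_
      ker := fun g hg => hcases g ?_
      perfect := hperf } g
  · show e (QuotientGroup.mk' (Subgroup.center G) z) = 1
    rw [show QuotientGroup.mk' (Subgroup.center G) z = 1 from (QuotientGroup.eq_one_iff z).mpr hz, map_one]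
  · exact (QuotientGroup.eq_one_iff g).mp (e.injective (by rw [map_one]; exact hg))

end Cfsg.Agent.S2493
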