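import Cfsg.Statements.S2504
import Cfsg.Agent.FGS2.AbelianPermBound
-- import your own Cfsg.Agent.* helpers here

set_option autoImplicit false
open Cfsg

namespace Cfsg.Agent.S2504

open FGS2.AbelianPermBound

/-- The largest order of an abelian subgroup of the alternating group of degree n is 3^k when n = 3k, 4·3^(k−1) when n = 3k + 1, and 16·3^(k−2) when n = 3k + 2, for every k ≥ 2 (so for all degrees n ≥ 6). -/
theorem result (k : ℕ) (hk : 2 ≤ k) :
    IsGreatest {c : ℕ | ∃ A : Subgroup (alternatingGroup (Fin (3 * k))), IsMulCommutative A ∧ Nat.card A = c} (3 ^ k) ∧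
    IsGreatest {c : ℕ | ∃ A : Subgroup (alternatingGroup (Fin (3 * k + 1))), IsMulCommutative A ∧ Nat.card A = c}
      (4 * 3 ^ (k - 1)) ∧
    IsGreatest {c : ℕ | ∃ A : Subgroup (alternatingGroup (Fin (3 * k + 2))), IsMulCommutative A ∧ Nat.card A = c}
      (16 * 3 ^ (k - 2)) := by
  obtain ⟨j, rfl⟩ : ∃ j, k = j + 2 := ⟨k - 2, by omega⟩
  obtain ⟨e1, e2, e3⟩ := bestOdd_three j
  obtain ⟨f1, f2, f3⟩ := best_three (j + 1)
  obtain ⟨g1, g2, g3⟩ := best_three j
  have hp : 1 ≤ 3 ^ j := Nat.one_le_pow _ _ (by norm_num)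
  rw [Nat.add_sub_cancel]
  refine ⟨?_, ?_, ?_⟩
  · refine alternating_greatest (ach_three_pow (j + 2)) e1 ?_
    rw [show 3 * (j + 2) - 2 = 3 * (j + 1) + 1 by omega, g2, pow_succ, pow_succ]
    omega
  · rw [show j + 2 - 1 = j + 1 by omega]
    refine alternating_greatest ?_ e2 ?_
    · rw [show 3 * (j + 2) + 1 = 4 + 3 * (j + 1) by omega]
      exact ach_add ach_klein (ach_three_pow (j + 1))
    · rw [show 3 * (j + 2) + 1 - 2 = 3 * (j + 1) + 2 by omega, g3]
      omega
  · refine alternating_greatest ?_ e3 ?_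
    · rw [show 3 * (j + 2) + 2 = 4 + 4 + 3 * j by omega, show 16 * 3 ^ j = 4 * 4 * 3 ^ j by ring]
      exact ach_add (ach_add ach_klein ach_klein) (ach_three_pow j)
    · rw [show 3 * (j + 2) + 2 - 2 = 3 * (j + 1 + 1) by omega, f1, pow_succ, pow_succ]
      omega

end Cfsg.Agent.S2504
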