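import Cfsg.Statements.S2505
import Cfsg.Agent.FGS2.AbelianPermBound
-- import your own Cfsg.Agent.* helpers here

set_option autoImplicit false
open Cfsg

namespace Cfsg.Agent.S2505

open FGS2.AbelianPermBound

/-- The largest order of an abelian subgroup of the symmetric group of degree n is 3^k when n = 3k, 4·3^(k−1) when n = 3k + 1, and 2·3^k when n = 3k + 2, for every k ≥ 1. -/
theorem result (k : ℕ) (hk : 1 ≤ k) :
    IsGreatest {c : ℕ | ∃ A : Subgroup (Equiv.Perm (Fin (3 * k))), IsMulCommutative A ∧ Nat.card A = c} (3 ^ k) ∧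
    IsGreatest {c : ℕ | ∃ A : Subgroup (Equiv.Perm (Fin (3 * k + 1))), IsMulCommutative A ∧ Nat.card A = c}
      (4 * 3 ^ (k - 1)) ∧
    IsGreatest {c : ℕ | ∃ A : Subgroup (Equiv.Perm (Fin (3 * k + 2))), IsMulCommutative A ∧ Nat.card A = c}
      (2 * 3 ^ k) := by
  obtain ⟨j, rfl⟩ : ∃ j, k = j + 1 := ⟨k - 1, by omega⟩
  obtain ⟨e1, e2, e3⟩ := best_three j
  refine ⟨?_, ?_, ?_⟩
  · rw [← e1]; exact symmetric_greatest (e1.symm ▸ ach_three_pow (j + 1))
  · rw [Nat.add_sub_cancel, ← e2]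
    refine symmetric_greatest (e2.symm ▸ ?_)
    rw [show 3 * (j + 1) + 1 = 4 + 3 * j by omega]
    exact ach_add (ach_weaken ach_klein False) (ach_three_pow j)
  · rw [← e3]
    refine symmetric_greatest (e3.symm ▸ ?_)
    rw [show 3 * (j + 1) + 2 = 2 + 3 * (j + 1) by omega]
    exact ach_add (ach_cycle False 2 le_rfl False.elim) (ach_three_pow (j + 1))

end Cfsg.Agent.S2505
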