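import Cfsg.Statements.S2510
import Cfsg.Agent.KnownB.PSLAbsorb
import Cfsg.Agent.KnownB.SpectrumAbsorb

set_option autoImplicit false
open Cfsg

namespace Cfsg.Agent.S2510

/-- Let F be a finite field with q = p^a elements, n ≥ 2 (with q ≥ 4 when n = 2), L = PSL(n, F), and let r be a prime dividing q − 1 and not dividing n. Then for every m the direct product L × L × L × (ℤ/r)^m has the same set of element orders as L × L × L; and if n − 1 ≠ p^j for every j ≥ 0 (so never when n = 2, since 1 = p^0), then already L × L × (ℤ/r)^m has the same set of element orders as L × L. -/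
theorem result {F : Type*} [Field F] [Fintype F] (p a n r m : ℕ) (hp : p.Prime) (ha : 1 ≤ a) (hF : Fintype.card F = p ^ a)
    (hn : 2 ≤ n) (hn2 : n = 2 → 4 ≤ Fintype.card F) (hr : r.Prime) (hrq : r ∣ Fintype.card F - 1) (hrn : ¬ r ∣ n) :
    Set.range (orderOf : Matrix.ProjectiveSpecialLinearGroup (Fin n) F × Matrix.ProjectiveSpecialLinearGroup (Fin n) F × Matrix.ProjectiveSpecialLinearGroup (Fin n) F × Multiplicative (Fin m → ZMod r) → ℕ) =
      Set.range (orderOf : Matrix.ProjectiveSpecialLinearGroup (Fin n) F × Matrix.ProjectiveSpecialLinearGroup (Fin n) F × Matrix.ProjectiveSpecialLinearGroup (Fin n) F → ℕ) ∧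
    ((¬ ∃ j : ℕ, n - 1 = p ^ j) →
      Set.range (orderOf : Matrix.ProjectiveSpecialLinearGroup (Fin n) F × Matrix.ProjectiveSpecialLinearGroup (Fin n) F × Multiplicative (Fin m → ZMod r) → ℕ) =
        Set.range (orderOf : Matrix.ProjectiveSpecialLinearGroup (Fin n) F × Matrix.ProjectiveSpecialLinearGroup (Fin n) F → ℕ)) := by
  classical
  haveI : Fact p.Prime := ⟨hp⟩
  haveI : Fact r.Prime := ⟨hr⟩
  haveI : CharP F p := (CharP.charP_iff_prime_eq_zero hp).mpr (by
    have h := Nat.cast_card_eq_zero F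
    rw [hF, Nat.cast_pow] at h
    exact eq_zero_of_pow_eq_zero h)
  have hrp : r ≠ p := by
    rintro rfl
    have h1 : r ∣ Fintype.card F := hF ▸ dvd_pow_self r (by omega)
    have h2 : r ∣ 1 := by
      have hpos : 1 ≤ Fintype.card F := Fintype.card_pos
      have := Nat.dvd_sub h1 hrq
      rwa [Nat.sub_sub_self hpos] at this
    exact hr.one_lt.ne' (Nat.dvd_one.mp h2)
  obtain ⟨ρ, hρ⟩ : ∃ ρ : F, IsPrimitiveRoot ρ r := by
    obtain ⟨u, hu⟩ := exists_prime_orderOf_dvd_card (G := Fˣ) r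
      (by rw [Fintype.card_units]; exact hrq)
    exact ⟨(u : F), IsPrimitiveRoot.coe_units_iff.mpr (hu ▸ IsPrimitiveRoot.orderOf u)⟩
  obtain ⟨y, hy, hdich⟩ :=
    KnownB.exists_singer_bound (p := p) (by omega : 0 < n) hrn hρ
  let e : Matrix (Fin n) (Fin n) F := Matrix.diagonal fun i => if (i : ℕ) = 0 then 1 else 0
  obtain ⟨z₀, hz₀, -⟩ := KnownB.exists_order_r hrn hρ e
    (by
      simp only [e, Matrix.diagonal_mul_diagonal]
      congr 1
      funext i
      split_ifs <;> simp)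
    (fun h => by
      have := congrArg (fun M => M ⟨0, by omega⟩ ⟨0, by omega⟩) h
      simp [e] at this)
    (fun h => by
      have := congrArg (fun M => M ⟨1, by omega⟩ ⟨1, by omega⟩) h
      simp [e] at this)
  have hA : ∀ a : Multiplicative (Fin m → ZMod r), a ^ r = 1 := by
    intro a
    apply Multiplicative.toAdd.injective
    funext i
    simp
  have assoc3 : ∀ x : (Matrix.ProjectiveSpecialLinearGroup (Fin n) F ×
      Matrix.ProjectiveSpecialLinearGroup (Fin n) F ×
      Matrix.ProjectiveSpecialLinearGroup (Fin n) F) × Multiplicative (Fin m → ZMod r),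
      orderOf (x.1.1, x.1.2.1, x.1.2.2, x.2) = orderOf x := by
    rintro ⟨⟨a, b, c⟩, d⟩
    simp [Prod.orderOf_mk, Nat.lcm_assoc]
  have assoc2 : ∀ x : (Matrix.ProjectiveSpecialLinearGroup (Fin n) F ×
      Matrix.ProjectiveSpecialLinearGroup (Fin n) F) × Multiplicative (Fin m → ZMod r),
      orderOf (x.1.1, x.1.2, x.2) = orderOf x := by
    rintro ⟨⟨a, b⟩, d⟩
    simp [Prod.orderOf_mk, Nat.lcm_assoc]
  refine ⟨?_, fun hpow => ?_⟩
  · rw [← KnownB.range_orderOf_prod_eq r hA (KnownB.cube_absorb hp hr hy hz₀ hdich)]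
    ext k
    constructor
    · rintro ⟨⟨a, b, c, d⟩, rfl⟩
      exact ⟨((a, b, c), d), (assoc3 ((a, b, c), d)).symm⟩
    · rintro ⟨⟨⟨a, b, c⟩, d⟩, rfl⟩
      exact ⟨(a, b, c, d), assoc3 ((a, b, c), d)⟩
  · obtain ⟨h₀, hh₀⟩ := KnownB.exists_unipotent_absorb (p := p) hn hpow hrn hrp hρ
    rw [← KnownB.range_orderOf_prod_eq r hA (KnownB.square_absorb hp hr hy hh₀ hdich hrp)]
    ext k
    constructor
    · rintro ⟨⟨a, b, d⟩, rfl⟩
      exact ⟨((a, b), d), (assoc2 ((a, b), d)).symm⟩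
    · rintro ⟨⟨⟨a, b⟩, d⟩, rfl⟩
      exact ⟨(a, b, d), assoc2 ((a, b), d)⟩

end Cfsg.Agent.S2510
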