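import Cfsg.Statements.S2511
import Cfsg.Agent.Forms.UnitarySpectrum

set_option autoImplicit false
open Cfsg

namespace Cfsg.Agent.S2511

/-- Let F be a finite field with q² elements, q = p^a, n ≥ 3 with (n, q) ≠ (3, 2), L = PSU(n, q) realised over F, and let r be a prime dividing q + 1 and not dividing n. Then for every m the direct product L × L × L × (ℤ/r)^m has the same set of element orders as L × L × L; and if n − 1 is not a power of p, then already L × L × (ℤ/r)^m has the same set of element orders as L × L. -/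
theorem result {F : Type*} [Field F] [Fintype F] (p a n q r m : ℕ) (hp : p.Prime) (ha : 1 ≤ a) (hq : q = p ^ a) (hF : Fintype.card F = q ^ 2)
    (hn : 3 ≤ n) (hn3 : ¬ (n = 3 ∧ q = 2)) (hr : r.Prime) (hrq : r ∣ q + 1) (hrn : ¬ r ∣ n) :
    Set.range (orderOf : Cfsg.PSU n F q × Cfsg.PSU n F q × Cfsg.PSU n F q × Multiplicative (Fin m → ZMod r) → ℕ) = Set.range (orderOf : Cfsg.PSU n F q × Cfsg.PSU n F q × Cfsg.PSU n F q → ℕ) ∧
    ((¬ ∃ j : ℕ, n - 1 = p ^ j) →
      Set.range (orderOf : Cfsg.PSU n F q × Cfsg.PSU n F q × Multiplicative (Fin m → ZMod r) → ℕ) = Set.range (orderOf : Cfsg.PSU n F q × Cfsg.PSU n F q → ℕ)) := by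
  classical
  haveI : Fact p.Prime := ⟨hp⟩
  haveI : Fact r.Prime := ⟨hr⟩
  haveI : CharP F p := (CharP.charP_iff_prime_eq_zero hp).mpr (by
    have h := Nat.cast_card_eq_zero F
    rw [hF, hq, Nat.cast_pow, Nat.cast_pow, ← pow_mul] at h
    exact eq_zero_of_pow_eq_zero h)
  obtain ⟨hrp, y, z₀, hy, hz₀, hdich, hsq⟩ := Forms.psu_spectrum_data hF (p := p) hn hr hrq hrn
  have hA : ∀ x : Multiplicative (Fin m → ZMod r), x ^ r = 1 := by
    intro x
    apply Multiplicative.toAdd.injective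
    funext i
    simp
  have assoc3 : ∀ x : (Cfsg.PSU n F q × Cfsg.PSU n F q × Cfsg.PSU n F q) × Multiplicative (Fin m → ZMod r),
      orderOf (x.1.1, x.1.2.1, x.1.2.2, x.2) = orderOf x := by
    rintro ⟨⟨a, b, c⟩, d⟩
    simp [Prod.orderOf_mk, Nat.lcm_assoc]
  have assoc2 : ∀ x : (Cfsg.PSU n F q × Cfsg.PSU n F q) × Multiplicative (Fin m → ZMod r),
      orderOf (x.1.1, x.1.2, x.2) = orderOf x := by
    rintro ⟨⟨a, b⟩, d⟩
    simp [Prod.orderOf_mk, Nat.lcm_assoc]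
  refine ⟨?_, fun hpow => ?_⟩
  · have habs : ∀ x : Cfsg.PSU n F q × Cfsg.PSU n F q × Cfsg.PSU n F q,
        ∃ w : Cfsg.PSU n F q × Cfsg.PSU n F q × Cfsg.PSU n F q, orderOf w = Nat.lcm (orderOf x) r :=
      fun x => Forms.cube_absorb_of (G := Cfsg.PSU n F q) (c := Nat.clog p n) hp hr hy hz₀ hdich x
    rw [← KnownB.range_orderOf_prod_eq r hA habs]
    ext k
    constructor
    · rintro ⟨⟨a, b, c, d⟩, rfl⟩
      exact ⟨((a, b, c), d), (assoc3 ((a, b, c), d)).symm⟩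
    · rintro ⟨⟨⟨a, b, c⟩, d⟩, rfl⟩
      exact ⟨(a, b, c, d), assoc3 ((a, b, c), d)⟩
  · obtain ⟨h₀, hh₀⟩ := hsq hpow
    have habs : ∀ x : Cfsg.PSU n F q × Cfsg.PSU n F q,
        ∃ w : Cfsg.PSU n F q × Cfsg.PSU n F q, orderOf w = Nat.lcm (orderOf x) r := fun x =>
      Forms.square_absorb_of (G := Cfsg.PSU n F q) (c := Nat.clog p n) hp hr hy hh₀ hdich hrp x
    rw [← KnownB.range_orderOf_prod_eq r hA habs]
    ext k
    constructor
    · rintro ⟨⟨a, b, d⟩, rfl⟩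
      exact ⟨((a, b), d), (assoc2 ((a, b), d)).symm⟩
    · rintro ⟨⟨⟨a, b⟩, d⟩, rfl⟩
      exact ⟨(a, b, d), assoc2 ((a, b), d)⟩

end Cfsg.Agent.S2511
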