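import Cfsg.Statements.S2512
import Cfsg.Agent.Forms.SympSpectrum

set_option autoImplicit false
open Cfsg

namespace Cfsg.Agent.S2512

/-- Let F be a finite field of odd order q = p^a, n ≥ 2 (with q ≥ 3 automatic), and L = PSp(2n, F). Then for every m the direct product L × L × L × (ℤ/2)^m has the same set of element orders as L × L × L; and if 2n − 1 is not a power of p, then already L × L × (ℤ/2)^m has the same set of element orders as L × L. -/
theorem result {F : Type*} [Field F] [Fintype F] (p a n m : ℕ) (hp : p.Prime) (ha : 1 ≤ a) (hF : Fintype.card F = p ^ a) (hodd : Odd (Fintype.card F))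
    (hn : 2 ≤ n) :
    Set.range (orderOf : Cfsg.PSp n F × Cfsg.PSp n F × Cfsg.PSp n F × Multiplicative (Fin m → ZMod 2) → ℕ) = Set.range (orderOf : Cfsg.PSp n F × Cfsg.PSp n F × Cfsg.PSp n F → ℕ) ∧
    ((¬ ∃ j : ℕ, 2 * n - 1 = p ^ j) →
      Set.range (orderOf : Cfsg.PSp n F × Cfsg.PSp n F × Multiplicative (Fin m → ZMod 2) → ℕ) = Set.range (orderOf : Cfsg.PSp n F × Cfsg.PSp n F → ℕ)) := by
  classical
  haveI : Fact p.Prime := ⟨hp⟩
  haveI : CharP F p := (CharP.charP_iff_prime_eq_zero hp).mpr (by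
    have h := Nat.cast_card_eq_zero F
    rw [hF, Nat.cast_pow] at h
    exact eq_zero_of_pow_eq_zero h)
  have hp2 : p ≠ 2 := by
    rintro rfl
    rw [hF, Nat.odd_pow_iff (by omega)] at hodd
    exact absurd hodd (by decide)
  have h2 : (2 : F) ≠ 0 := by
    intro h
    have : ((2 : ℕ) : F) = 0 := by exact_mod_cast h
    exact hp2 ((Nat.prime_dvd_prime_iff_eq hp Nat.prime_two).1 ((CharP.cast_eq_zero_iff F p 2).1 this))
  obtain ⟨y, z₀, hy, hz₀, hdich, hsq⟩ := Forms.psp_spectrum_data (p := p) h2 hn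
  have hA : ∀ x : Multiplicative (Fin m → ZMod 2), x ^ 2 = 1 := by
    intro x
    apply Multiplicative.toAdd.injective
    funext i
    simpa using Or.inl (show (2 : ZMod 2) = 0 by decide)
  have assoc3 : ∀ x : (Cfsg.PSp n F × Cfsg.PSp n F × Cfsg.PSp n F) × Multiplicative (Fin m → ZMod 2),
      orderOf (x.1.1, x.1.2.1, x.1.2.2, x.2) = orderOf x := by
    rintro ⟨⟨a, b, c⟩, d⟩
    simp [Prod.orderOf_mk, Nat.lcm_assoc]
  have assoc2 : ∀ x : (Cfsg.PSp n F × Cfsg.PSp n F) × Multiplicative (Fin m → ZMod 2),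
      orderOf (x.1.1, x.1.2, x.2) = orderOf x := by
    rintro ⟨⟨a, b⟩, d⟩
    simp [Prod.orderOf_mk, Nat.lcm_assoc]
  refine ⟨?_, fun hpow => ?_⟩
  · rw [← KnownB.range_orderOf_prod_eq 2 hA (Forms.cube_absorb_of hp Nat.prime_two hy hz₀ hdich)]
    ext k
    constructor
    · rintro ⟨⟨a, b, c, d⟩, rfl⟩
      exact ⟨((a, b, c), d), (assoc3 ((a, b, c), d)).symm⟩
    · rintro ⟨⟨⟨a, b, c⟩, d⟩, rfl⟩
      exact ⟨(a, b, c, d), assoc3 ((a, b, c), d)⟩
  · obtain ⟨h₀, hh₀⟩ := hsq hpow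
    have habs : ∀ x : Cfsg.PSp n F × Cfsg.PSp n F,
        ∃ w : Cfsg.PSp n F × Cfsg.PSp n F, orderOf w = Nat.lcm (orderOf x) 2 := fun x =>
      Forms.square_absorb_of (G := Cfsg.PSp n F) (c := Nat.clog p (n + n)) hp Nat.prime_two hy hh₀
        hdich hp2.symm x
    rw [← KnownB.range_orderOf_prod_eq 2 hA habs]
    ext k
    constructor
    · rintro ⟨⟨a, b, d⟩, rfl⟩
      exact ⟨((a, b), d), (assoc2 ((a, b), d)).symm⟩
    · rintro ⟨⟨⟨a, b⟩, d⟩, rfl⟩
      exact ⟨(a, b, d), assoc2 ((a, b), d)⟩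

end Cfsg.Agent.S2512
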