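import Cfsg.Statements.S2513
import Cfsg.Agent.KnownB.LinearOrders
import Cfsg.Agent.KnownB.NatLcm

set_option autoImplicit false
open Cfsg

namespace Cfsg.Agent.S2513

open Matrix

variable {F : Type*} [Field F] [Fintype F] {n : ℕ}

theorem units_eq_one (hF : Fintype.card F = 2) (a : Fˣ) : a = 1 := by
  classical
  have h : Fintype.card Fˣ = 1 := by rw [Fintype.card_units, hF]
  exact (Fintype.card_le_one_iff_subsingleton.mp h.le).elim a 1

theorem two_eq_zero (hF : Fintype.card F = 2) : (2 : F) = 0 := by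
  have := Nat.cast_card_eq_zero F
  rw [hF] at this
  exact_mod_cast this

/-- The orders of elements of `PSL_n(F)` and of `GL_n(F)` agree for the field with two elements. -/
theorem range_orderOf_psl (hF : Fintype.card F = 2) :
    Set.range (orderOf : Matrix.ProjectiveSpecialLinearGroup (Fin n) F → ℕ) =
      Set.range (orderOf : GL (Fin n) F → ℕ) := by
  have hbot : Subgroup.center (Matrix.SpecialLinearGroup (Fin n) F) = ⊥ := by
    rw [Subgroup.eq_bot_iff_forall]
    intro A hA
    obtain ⟨r, hr, hr'⟩ := Matrix.SpecialLinearGroup.mem_center_iff.mp hA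
    apply Matrix.SpecialLinearGroup.ext
    intro i j
    have hne : r ≠ 0 := by
      intro h0
      have hn : Fintype.card (Fin n) ≠ 0 := by simpa using (Fin.pos i).ne'
      rw [h0, zero_pow hn] at hr
      exact zero_ne_one hr
    have hr1 : r = 1 := congrArg Units.val (units_eq_one hF (Units.mk0 r hne))
    rw [← hr', hr1, map_one]
    rfl
  ext m
  constructor
  · rintro ⟨x, rfl⟩
    obtain ⟨s, rfl⟩ := QuotientGroup.mk_surjective x
    refine ⟨Matrix.SpecialLinearGroup.toGL s, ?_⟩
    rw [orderOf_injective _ Matrix.SpecialLinearGroup.toGL_injective]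
    rw [← orderOf_injective (QuotientGroup.mk' (Subgroup.center (Matrix.SpecialLinearGroup (Fin n) F)))
      ?_ s]
    · rfl
    · rw [← MonoidHom.ker_eq_bot_iff, QuotientGroup.ker_mk', hbot]
  · rintro ⟨g, rfl⟩
    have hdet : (g : Matrix (Fin n) (Fin n) F).det = 1 := by
      have := congrArg Units.val (units_eq_one hF (Matrix.GeneralLinearGroup.det g))
      simpa using this
    let s : Matrix.SpecialLinearGroup (Fin n) F := ⟨g, hdet⟩
    refine ⟨QuotientGroup.mk' _ s, ?_⟩
    rw [orderOf_injective (QuotientGroup.mk' _) ?_ s,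
      ← orderOf_injective _ Matrix.SpecialLinearGroup.toGL_injective s]
    · congr 1
      exact Units.ext rfl
    · rw [← MonoidHom.ker_eq_bot_iff, QuotientGroup.ker_mk', hbot]

/-- Element orders of direct powers, in terms of the orders of the factor. -/
theorem range_pi {G H : Type*} [Group G] [Group H] (ι : Type*) [Fintype ι]
    (h : Set.range (orderOf : G → ℕ) = Set.range (orderOf : H → ℕ)) :
    Set.range (orderOf : (ι → G) → ℕ) = Set.range (orderOf : (ι → H) → ℕ) := by
  ext m
  constructor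
  · rintro ⟨x, rfl⟩
    have hx : ∀ i, orderOf (x i) ∈ Set.range (orderOf : H → ℕ) := fun i => h ▸ ⟨x i, rfl⟩
    choose y hy using hx
    exact ⟨y, by rw [Pi.orderOf, Pi.orderOf]; simp only [hy]⟩
  · rintro ⟨x, rfl⟩
    have hx : ∀ i, orderOf (x i) ∈ Set.range (orderOf : G → ℕ) := fun i => h.symm ▸ ⟨x i, rfl⟩
    choose y hy using hx
    exact ⟨y, by rw [Pi.orderOf, Pi.orderOf]; simp only [hy]⟩

theorem range_pi_le {G : Type*} [Group G] {k l : ℕ} (hkl : k ≤ l) :
    Set.range (orderOf : (Fin k → G) → ℕ) ⊆ Set.range (orderOf : (Fin l → G) → ℕ) := by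
  rintro m ⟨x, rfl⟩
  refine ⟨fun i => if h : (i : ℕ) < k then x ⟨i, h⟩ else 1, ?_⟩
  rw [Pi.orderOf, Pi.orderOf]
  apply Nat.dvd_antisymm
  · refine Finset.lcm_dvd fun i _ => ?_
    try dsimp only
    split_ifs with h
    · exact Finset.dvd_lcm (f := fun i => orderOf (x i)) (Finset.mem_univ _)
    · simp
  · refine Finset.lcm_dvd fun i _ => ?_
    refine dvd_trans ?_ (Finset.dvd_lcm (Finset.mem_univ (Fin.castLE hkl i)))
    simp

theorem main (hF : Fintype.card F = 2) (hn : 2 ≤ n) (k : ℕ) (x : Fin k → GL (Fin n) F) :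
    ∃ y : Fin ((n + 3) / 2) → GL (Fin n) F, orderOf y = orderOf x := by
  classical
  have hm : orderOf x ≠ 0 := (orderOf_pos x).ne'
  set m := orderOf x with hmdef
  set a := m.factorization 2 with hadef
  set m' := m / 2 ^ a with hm'def
  have hsplit : 2 ^ a * m' = m := Nat.ordProj_mul_ordCompl_eq_self m 2
  have hodd : Nat.Coprime 2 m' := Nat.coprime_ordCompl Nat.prime_two hm
  have hcomp : Finset.univ.lcm (fun i => orderOf (x i)) = m := (Pi.orderOf x).symm
  have h2a : ∃ g : GL (Fin n) F, orderOf g = 2 ^ a := by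
    rcases Nat.eq_zero_or_pos a with ha | ha
    · exact ⟨1, by simp [ha]⟩
    obtain ⟨i, _, hi⟩ := KnownB.prime_pow_dvd_finset_lcm Finset.univ (fun i => orderOf (x i))
      Nat.prime_two ha (hcomp ▸ (hsplit ▸ dvd_mul_right _ _))
    obtain ⟨c, hc⟩ := hi
    have hc0 : c ≠ 0 := fun h0 => (orderOf_pos (x i)).ne' (by simp only [hc, h0, mul_zero])
    refine ⟨x i ^ c, ?_⟩
    rw [orderOf_pow_of_dvd hc0 ⟨2 ^ a, by rw [hc, mul_comm]⟩, hc,
      Nat.mul_div_cancel _ (Nat.pos_of_ne_zero hc0)]
  let L : ℕ := Finset.univ.lcm (fun j : Fin ((n + 1) / 2) => 2 ^ (n - (j : ℕ)) - 1)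
  have hL : ∀ d, 0 < d → d ≤ n → Fintype.card F ^ d - 1 ∣ L := by
    rw [hF]
    -- every `d ≤ n` has a multiple in the upper half
    suffices H : ∀ e d, 0 < d → d ≤ n → n - d ≤ e → 2 ^ d - 1 ∣ L from
      fun d hd hdn => H n d hd hdn (Nat.sub_le _ _)
    intro e
    induction e with
    | zero =>
      intro d hd hdn he
      have h0 : 0 < (n + 1) / 2 := by omega
      have := Finset.dvd_lcm (f := fun j : Fin ((n + 1) / 2) => 2 ^ (n - (j : ℕ)) - 1)
        (Finset.mem_univ (⟨0, h0⟩ : Fin ((n + 1) / 2)))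
      have hd' : d = n := by omega
      simpa [hd'] using this
    | succ e ih =>
      intro d hd hdn he
      by_cases h : n < 2 * d
      · have h0 : n - d < (n + 1) / 2 := by omega
        have := Finset.dvd_lcm (f := fun j : Fin ((n + 1) / 2) => 2 ^ (n - (j : ℕ)) - 1)
          (Finset.mem_univ (⟨n - d, h0⟩ : Fin ((n + 1) / 2)))
        have hd' : n - (n - d) = d := by omega
        simpa [hd'] using this
      · exact (Nat.pow_sub_one_dvd_pow_sub_one 2 (dvd_mul_left d 2)).trans
          (ih (2 * d) (by omega) (by omega) (by omega))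
  have hm'L : m' ∣ L := by
    have hxi : ∀ i, orderOf (x i) ∣ 2 ^ a * L := by
      intro i
      have hdvd : orderOf (x i) ∣ m := hcomp ▸ Finset.dvd_lcm (f := fun i => orderOf (x i)) (Finset.mem_univ i)
      have hco : Nat.Coprime 2 (orderOf (x i ^ 2 ^ a)) := by
        apply Nat.Coprime.coprime_dvd_right _ hodd
        apply orderOf_dvd_of_pow_eq_one
        rw [← pow_mul, hsplit]
        exact orderOf_dvd_iff_pow_eq_one.mp hdvd
      have hne : ((orderOf (x i ^ 2 ^ a) : ℕ) : F) ≠ 0 := by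
        obtain ⟨j, hj⟩ := Nat.coprime_two_left.mp hco
        rw [hj]
        push_cast
        rw [two_eq_zero hF]
        simp
      have := KnownB.orderOf_dvd_of_coprime (x i ^ 2 ^ a) hne hL
      rw [orderOf_dvd_iff_pow_eq_one, ← pow_mul] at this
      exact orderOf_dvd_of_pow_eq_one this
    have : m ∣ 2 ^ a * L := hcomp ▸ Finset.lcm_dvd (fun i _ => hxi i)
    rw [← hsplit] at this
    exact Nat.dvd_of_mul_dvd_mul_left (Nat.two_pow_pos a) this
  have hreal : ∀ j : Fin ((n + 1) / 2),
      ∃ g : GL (Fin n) F, orderOf g = Nat.gcd m' (2 ^ (n - (j : ℕ)) - 1) := by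
    intro j
    have := j.2
    refine KnownB.exists_gl_orderOf (d := n - (j : ℕ)) (by omega) (Nat.sub_le _ _) ?_
    rw [hF]
    exact Nat.gcd_dvd_right _ _
  choose z hz using hreal
  obtain ⟨u, hu⟩ := h2a
  refine ⟨fun i => if h : (i : ℕ) < (n + 1) / 2 then z ⟨i, h⟩ else u, ?_⟩
  rw [Pi.orderOf]
  apply Nat.dvd_antisymm
  · refine Finset.lcm_dvd fun i _ => ?_
    try dsimp only
    rw [← hsplit]
    split_ifs with h
    · rw [hz]; exact dvd_mul_of_dvd_right (Nat.gcd_dvd_left _ _) _
    · rw [hu]; exact dvd_mul_right _ _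
  · rw [← hsplit]
    apply Nat.Coprime.mul_dvd_of_dvd_of_dvd (Nat.Coprime.pow_left a hodd)
    · refine dvd_trans ?_ (Finset.dvd_lcm
        (Finset.mem_univ (⟨(n + 1) / 2, by omega⟩ : Fin ((n + 3) / 2))))
      simp [hu]
    · refine (KnownB.dvd_finset_lcm_gcd _ _ hm'L).trans (Finset.lcm_dvd fun j _ => ?_)
      refine dvd_trans ?_ (Finset.dvd_lcm
        (Finset.mem_univ (⟨(j : ℕ), by omega⟩ : Fin ((n + 3) / 2))))
      simp [hz]


/-- Let F be the field with two elements, n ≥ 2, L = PSL(n, F) and k₀ = ⌊(n + 3)/2⌋. Then for every k ≥ k₀ the direct product of k copies of L has the same set of element orders as the direct product of k₀ copies of L. -/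
theorem result {F : Type*} [Field F] [Fintype F] (hF : Fintype.card F = 2) (n k : ℕ) (hn : 2 ≤ n) (hk : (n + 3) / 2 ≤ k) :
    Set.range (orderOf : (Fin k → Matrix.ProjectiveSpecialLinearGroup (Fin n) F) → ℕ) = Set.range (orderOf : (Fin ((n + 3) / 2) → Matrix.ProjectiveSpecialLinearGroup (Fin n) F) → ℕ) := by
  rw [range_pi (Fin k) (range_orderOf_psl hF),
    range_pi (Fin ((n + 3) / 2)) (range_orderOf_psl hF)]
  refine subset_antisymm ?_ (range_pi_le hk)
  rintro m ⟨x, rfl⟩
  obtain ⟨y, hy⟩ := main hF hn k x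
  exact ⟨y, hy⟩

end Cfsg.Agent.S2513
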