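import Cfsg.Statements.S2514
import Cfsg.Agent.KnownB.SpectrumAbsorb

set_option autoImplicit false
open Cfsg

namespace Cfsg.Agent.S2514
open Cfsg.Agent.KnownB

theorem lcm_split {k : ℕ} {f : Fin (k + 1) → ℕ} (i : Fin (k + 1)) :
    Finset.univ.lcm f = Nat.lcm (f i) (Finset.univ.lcm fun j => f (i.succAbove j)) := by
  apply Nat.dvd_antisymm
  · refine Finset.lcm_dvd fun l _ => ?_
    rcases Fin.eq_self_or_eq_succAbove i l with rfl | ⟨l', rfl⟩
    · exact Nat.dvd_lcm_left _ _
    · exact (Finset.dvd_lcm (f := fun j => f (i.succAbove j)) (Finset.mem_univ l')).trans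
        (Nat.dvd_lcm_right _ _)
  · exact Nat.lcm_dvd (Finset.dvd_lcm (Finset.mem_univ i))
      (Finset.lcm_dvd fun j _ => Finset.dvd_lcm (Finset.mem_univ _))

theorem exists_max {K : Type*} [Group K] [Finite K] (h : K) :
    ∃ M, M ∈ {n : ℕ | n ∈ Set.range (orderOf : K → ℕ) ∧
      ∀ m ∈ Set.range (orderOf : K → ℕ), n ∣ m → m = n} ∧ orderOf h ∣ M := by
  obtain ⟨g, hg, hmax⟩ := Set.Finite.exists_maximalFor (fun g : K => orderOf g)
    {g : K | orderOf h ∣ orderOf g} (Set.toFinite _) ⟨h, dvd_rfl⟩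
  refine ⟨orderOf g, ⟨⟨g, rfl⟩, ?_⟩, hg⟩
  rintro m ⟨g', rfl⟩ hdvd
  have hle := Nat.le_of_dvd (orderOf_pos g') hdvd
  exact le_antisymm (hmax (hg.trans hdvd) hle) hle


/-- For a finite group X write μ(X) for the set of element orders of X that are maximal under divisibility. Let G and H be finite groups and k ≥ 1 such that μ(H) ⊆ μ(G) and μ(G) has fewer than k elements outside μ(H). Then the direct product of k copies of G has the same set of element orders as the direct product of k − 1 copies of G with H. -/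
theorem result {G H : Type*} [Group G] [Finite G] [Group H] [Finite H] (k : ℕ) (hk : 1 ≤ k)
    (hsub : {n : ℕ | n ∈ Set.range (orderOf : H → ℕ) ∧ ∀ m ∈ Set.range (orderOf : H → ℕ), n ∣ m → m = n} ⊆ {n : ℕ | n ∈ Set.range (orderOf : G → ℕ) ∧ ∀ m ∈ Set.range (orderOf : G → ℕ), n ∣ m → m = n})
    (hfew : ({n : ℕ | n ∈ Set.range (orderOf : G → ℕ) ∧ ∀ m ∈ Set.range (orderOf : G → ℕ), n ∣ m → m = n} \ {n : ℕ | n ∈ Set.range (orderOf : H → ℕ) ∧ ∀ m ∈ Set.range (orderOf : H → ℕ), n ∣ m → m = n}).ncard < k) :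
    Set.range (orderOf : (Fin k → G) → ℕ) = Set.range (orderOf : (Fin (k - 1) → G) × H → ℕ) := by
  classical
  obtain ⟨k, rfl⟩ : ∃ k', k = k' + 1 := ⟨k - 1, by omega⟩
  show Set.range (orderOf : (Fin (k + 1) → G) → ℕ) = Set.range (orderOf : (Fin k → G) × H → ℕ)
  ext N
  constructor
  · rintro ⟨x, rfl⟩
    choose M hM hdM using fun i => exists_max (x i)
    by_cases hH : ∃ i, ∃ h : H, orderOf (x i) ∣ orderOf h
    · obtain ⟨i, h, hh⟩ := hH
      obtain ⟨h', hh'⟩ := exists_orderOf_dvd hh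
      refine ⟨(fun j => x (i.succAbove j), h'), ?_⟩
      rw [Prod.orderOf_mk, hh', Pi.orderOf, Pi.orderOf, lcm_split i,
        Nat.lcm_comm]
    · have hnot : ∀ i, M i ∈ {n : ℕ | n ∈ Set.range (orderOf : G → ℕ) ∧
          ∀ m ∈ Set.range (orderOf : G → ℕ), n ∣ m → m = n} \
          {n : ℕ | n ∈ Set.range (orderOf : H → ℕ) ∧
          ∀ m ∈ Set.range (orderOf : H → ℕ), n ∣ m → m = n} := fun i => ⟨hM i, fun hmem => by
        obtain ⟨⟨h, hh⟩, -⟩ := hmem
        exact hH ⟨i, h, hh ▸ hdM i⟩⟩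
      have hfin : ({n : ℕ | n ∈ Set.range (orderOf : G → ℕ) ∧
          ∀ m ∈ Set.range (orderOf : G → ℕ), n ∣ m → m = n} \
          {n : ℕ | n ∈ Set.range (orderOf : H → ℕ) ∧
          ∀ m ∈ Set.range (orderOf : H → ℕ), n ∣ m → m = n}).Finite :=
        ((Set.finite_range (orderOf : G → ℕ)).subset fun n hn => hn.1).subset Set.sdiff_subset
      obtain ⟨i, -, j, -, hij, hMij⟩ := Finset.exists_ne_map_eq_of_card_lt_of_maps_to
        (s := (Finset.univ : Finset (Fin (k + 1)))) (t := hfin.toFinset) (f := M)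
        (by rw [← Set.ncard_eq_toFinset_card _ hfin]; simpa using hfew)
        (fun a _ => hfin.mem_toFinset.mpr (hnot a))
      obtain ⟨g, hg⟩ : ∃ g : G, orderOf g = Nat.lcm (orderOf (x i)) (orderOf (x j)) := by
        obtain ⟨g₀, hg₀⟩ := (hM i).1
        apply exists_orderOf_dvd (x := g₀)
        rw [hg₀]
        exact Nat.lcm_dvd (hdM i) (hMij ▸ hdM j)
      obtain ⟨j', rfl⟩ := Fin.exists_succAbove_eq hij.symm
      refine ⟨(fun l => if l = j' then g else x (i.succAbove l), 1), ?_⟩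
      rw [Prod.orderOf_mk, orderOf_one, Nat.lcm_one_right, Pi.orderOf, Pi.orderOf]
      apply Nat.dvd_antisymm
      · refine Finset.lcm_dvd fun l _ => ?_
        split_ifs with h
        · rw [hg]
          exact Nat.lcm_dvd (Finset.dvd_lcm (f := fun i => orderOf (x i)) (Finset.mem_univ _))
            (Finset.dvd_lcm (f := fun i => orderOf (x i)) (Finset.mem_univ _))
        · exact Finset.dvd_lcm (f := fun i => orderOf (x i)) (Finset.mem_univ _)
      · refine Finset.lcm_dvd fun l _ => ?_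
        have hjg := Finset.dvd_lcm
          (f := fun l => orderOf (if l = j' then g else x (i.succAbove l))) (Finset.mem_univ j')
        simp only [if_true, hg] at hjg
        rcases Fin.eq_self_or_eq_succAbove i l with rfl | ⟨l', rfl⟩
        · exact (Nat.dvd_lcm_left _ _).trans hjg
        · by_cases h : l' = j'
          · subst h; exact (Nat.dvd_lcm_right _ _).trans hjg
          · refine dvd_trans ?_ (Finset.dvd_lcm (Finset.mem_univ l'))
            simp [h]
  · rintro ⟨⟨x, h⟩, rfl⟩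
    obtain ⟨M, hM, hdM⟩ := exists_max h
    obtain ⟨⟨g₀, hg₀⟩, -⟩ := hsub hM
    obtain ⟨g, hg⟩ := exists_orderOf_dvd (x := g₀) (hg₀.symm ▸ hdM)
    refine ⟨Fin.cons g x, ?_⟩
    rw [Prod.orderOf_mk, Pi.orderOf, Pi.orderOf, lcm_split 0,
      Nat.lcm_comm]
    simp [hg]

end Cfsg.Agent.S2514
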