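import Cfsg.Statements.S2516


set_option autoImplicit false
open Cfsg

namespace Cfsg.Agent.S2516


/-- Let F be a field of characteristic p > 0, V a non-zero finite-dimensional F-vector space, G a finite group and ρ a representation of G on V; form the semidirect product V ⋊ G. For g ∈ G of order k, the coset Vg contains an element of order pk if and only if the minimal polynomial of ρ(g) does not divide 1 + X + ⋯ + X^(k−1). -/
theorem result {F : Type*} [Field F] (p : ℕ) [Fact p.Prime] [CharP F p] {V : Type*} [AddCommGroup V] [Module F V] [FiniteDimensional F V] [Nontrivial V]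
    {G : Type*} [Group G] [Finite G] (ρ : Representation F G V) (g : G) :
    (∃ x : Multiplicative V ⋊[(MulAutMultiplicative V).symm.toMonoidHom.comp
        ((DistribMulAction.toAddAut ((V →ₗ[F] V)ˣ) V).comp ρ.asGroupHom)] G,
        x.right = g ∧ orderOf x = p * orderOf g) ↔
      ¬ (minpoly F (ρ g) ∣ ∑ i ∈ Finset.range (orderOf g), (Polynomial.X : Polynomial F) ^ i) := by
  classical
  set φ : G →* MulAut (Multiplicative V) := (MulAutMultiplicative V).symm.toMonoidHom.comp
        ((DistribMulAction.toAddAut ((V →ₗ[F] V)ˣ) V).comp ρ.asGroupHom) with hφ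
  have happ : ∀ (h : G) (v : V), φ h (Multiplicative.ofAdd v) = Multiplicative.ofAdd (ρ h v) :=
    fun h v => rfl
  have hpow : ∀ (x : Multiplicative V ⋊[φ] G) (k : ℕ), (x ^ k).right = x.right ^ k ∧
      (x ^ k).left = Multiplicative.ofAdd
        ((∑ i ∈ Finset.range k, (ρ x.right) ^ i) (Multiplicative.toAdd x.left)) := by
    intro x k
    induction k with
    | zero => exact ⟨by rw [pow_zero, pow_zero]; rfl, by simp⟩
    | succ k ih =>
      rw [pow_succ, SemidirectProduct.mul_right, SemidirectProduct.mul_left, ih.1, ih.2, pow_succ,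
        Finset.sum_range_succ, LinearMap.add_apply, ofAdd_add, ← map_pow]
      exact ⟨rfl, congrArg _ (happ (x.right ^ k) (Multiplicative.toAdd x.left))⟩
  set S : V →ₗ[F] V := ∑ i ∈ Finset.range (orderOf g), (ρ g) ^ i with hS
  have hpV : ∀ v : V, p • v = 0 := fun v => by
    rw [← Nat.cast_smul_eq_nsmul F, CharP.cast_eq_zero, zero_smul]
  have key : ∀ x : Multiplicative V ⋊[φ] G, x.right = g →
      (orderOf x = p * orderOf g ↔ S (Multiplicative.toAdd x.left) ≠ 0) := by
    intro x hx
    obtain ⟨h1, h2⟩ := hpow x (orderOf g)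
    rw [hx, pow_orderOf_eq_one] at h1
    rw [hx, ← hS] at h2
    have hxo : orderOf g ∣ orderOf x := by
      rw [← hx]; exact orderOf_map_dvd (SemidirectProduct.rightHom) x
    have hxp : x ^ (orderOf g) = SemidirectProduct.inl (Multiplicative.ofAdd
        (S (Multiplicative.toAdd x.left))) :=
      SemidirectProduct.ext (by rw [h2]; rfl) (by rw [h1]; rfl)
    have hg0 : 0 < orderOf g := orderOf_pos g
    by_cases h0 : S (Multiplicative.toAdd x.left) = 0
    · refine iff_of_false (fun h => ?_) (not_not.mpr h0)
      have h3 := orderOf_dvd_of_pow_eq_one (show x ^ orderOf g = 1 by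
        rw [hxp, h0, ofAdd_zero, map_one])
      rw [h] at h3
      exact (Fact.out : p.Prime).one_lt.not_ge
        (Nat.le_of_mul_le_mul_right (by simpa using Nat.le_of_dvd hg0 h3) hg0)
    · refine iff_of_true ?_ h0
      obtain ⟨m, hm⟩ := hxo
      have hpow' : orderOf (x ^ orderOf g) = p := by
        rw [hxp, orderOf_injective _ SemidirectProduct.inl_injective]
        refine orderOf_eq_prime ?_ (fun h => h0 (by simpa using congrArg Multiplicative.toAdd h))
        rw [← ofAdd_nsmul, hpV, ofAdd_zero]
      have hfin : IsOfFinOrder x := by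
        rw [isOfFinOrder_iff_pow_eq_one]
        refine ⟨orderOf g * p, Nat.mul_pos hg0 (Fact.out : p.Prime).pos, ?_⟩
        rw [pow_mul, ← hpow', pow_orderOf_eq_one]
      rw [orderOf_pow_of_dvd hg0.ne' ⟨m, hm⟩] at hpow'
      rw [hm, Nat.mul_div_cancel_left _ hg0] at hpow'
      rw [hm, hpow', mul_comm]
  have hdvd : minpoly F (ρ g) ∣ ∑ i ∈ Finset.range (orderOf g), (Polynomial.X : Polynomial F) ^ i ↔
      S = 0 := by
    rw [minpoly.dvd_iff, map_sum]
    simp only [map_pow, Polynomial.aeval_X, hS]
  rw [hdvd]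
  constructor
  · rintro ⟨x, hx, ho⟩ h0
    exact (key x hx).mp ho (by rw [h0]; rfl)
  · intro h0
    obtain ⟨v, hv⟩ : ∃ v, S v ≠ 0 := by
      by_contra hcon
      push Not at hcon
      exact h0 (LinearMap.ext fun v => by simpa using hcon v)
    exact ⟨⟨Multiplicative.ofAdd v, g⟩, rfl, (key _ rfl).mpr (by simpa using hv)⟩

end Cfsg.Agent.S2516
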