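import Cfsg.Statements.S2521


set_option autoImplicit false
open Cfsg

namespace Cfsg.Agent.S2521


/-- Let B be a finite group that is the semidirect product of a nilpotent normal subgroup U by an abelian subgroup T (U ∩ T = 1, UT = B), and let t ∈ T have centralizer exactly T. Then every element of the coset tU is conjugate to t in B: for each u ∈ U there is b ∈ B with b t b⁻¹ = t u. -/
theorem result {B : Type*} [Group B] [Finite B] (U T : Subgroup B) [U.Normal] (hU : Group.IsNilpotent ↥U) (hT : IsMulCommutative ↥T)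
    (hcompl : Subgroup.IsComplement' U T) (t : B) (ht : t ∈ T) (hreg : Subgroup.centralizer ({t} : Set B) = T) (u : B) (hu : u ∈ U) :
    ∃ b : B, b * t * b⁻¹ = t * u := by
  classical
  have key : ∀ b : U, t⁻¹ * ((b : B) * t * (b : B)⁻¹) ∈ U := by
    intro b
    have h1 : t⁻¹ * (b : B) * t⁻¹⁻¹ ∈ U := Subgroup.Normal.conj_mem inferInstance _ b.2 t⁻¹
    have := U.mul_mem h1 (U.inv_mem b.2)
    simpa [mul_assoc] using this
  let f : U → U := fun b => ⟨_, key b⟩
  have hinj : Function.Injective f := by
    intro b c h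
    have h1 : (b : B) * t * (b : B)⁻¹ = (c : B) * t * (c : B)⁻¹ :=
      mul_left_cancel (Subtype.ext_iff.mp h)
    have h2 : (c : B)⁻¹ * b ∈ T := by
      rw [← hreg, Subgroup.mem_centralizer_singleton_iff]
      have h3 := congrArg (fun y => (c : B)⁻¹ * y * b) h1
      simpa [mul_assoc] using h3
    have h4 : (c : B)⁻¹ * b = 1 := by
      have := hcompl.disjoint.le_bot (Subgroup.mem_inf.mpr ⟨U.mul_mem (U.inv_mem c.2) b.2, h2⟩)
      simpa using this
    exact Subtype.ext (inv_mul_eq_one.mp h4).symm
  obtain ⟨b, hb⟩ := Finite.injective_iff_surjective.mp hinj ⟨u, hu⟩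
  refine ⟨b, ?_⟩
  have := congrArg (fun y : U => t * (y : B)) hb
  simpa [f] using this

end Cfsg.Agent.S2521
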