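import Cfsg.Statements.S2551
import Cfsg.Agent.Linear.IsoA8
-- import your own Cfsg.Agent.* helpers here

set_option autoImplicit false
open Cfsg

namespace Cfsg.Agent.S2551

open Matrix

variable {F : Type*} [Field F] [Fintype F]

lemma two_cases (hF : Fintype.card F = 2) (a : F) : a = 0 ∨ a = 1 := by
  classical
  have h : ({0, 1} : Finset F) = Finset.univ := Finset.eq_univ_of_card _ (by simp [hF])
  have := Finset.mem_univ a
  rw [← h] at this
  simpa using this

lemma pair_li (hF : Fintype.card F = 2) {v w : Fin 4 → F} (hv : v ≠ 0) (hw : w ≠ 0) (h : v ≠ w) :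
    LinearIndependent F ![v, w] := by
  refine linearIndependent_fin2.mpr ⟨by simpa using hw, fun a => ?_⟩
  rcases two_cases hF a with ha | ha
  · simp only [Matrix.cons_val_one, Matrix.cons_val_zero, ha, zero_smul]; exact hv.symm
  · simp only [Matrix.cons_val_one, Matrix.cons_val_zero, ha, one_smul]; exact h.symm

lemma exists_pair_map (hF : Fintype.card F = 2) {v w v' w' : Fin 4 → F} (hv : v ≠ 0) (hw : w ≠ 0)
    (h : v ≠ w) (hv' : v' ≠ 0) (hw' : w' ≠ 0) (h' : v' ≠ w') :
    ∃ g : GL (Fin 4) F, (g : Matrix (Fin 4) (Fin 4) F) *ᵥ v = v' ∧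
      (g : Matrix (Fin 4) (Fin 4) F) *ᵥ w = w' := by
  classical
  have l1 := pair_li hF hv hw h
  have l2 := pair_li hF hv' hw' h'
  let b1 := Module.Basis.sumExtend l1
  let b2 := Module.Basis.sumExtend l2
  have := Fintype.ofFinite (Module.Basis.sumExtendIndex l1)
  have := Fintype.ofFinite (Module.Basis.sumExtendIndex l2)
  have c1 := Module.finrank_eq_card_basis b1
  have c2 := Module.finrank_eq_card_basis b2
  have e : Module.Basis.sumExtendIndex l1 ≃ Module.Basis.sumExtendIndex l2 :=
    Fintype.equivOfCardEq (by rw [Fintype.card_sum] at c1 c2; omega)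
  let B := b1.equiv b2 (Equiv.sumCongr (Equiv.refl _) e)
  have hB : ∀ i, B (![v, w] i) = ![v', w'] i := fun i => by
    have k1 : b1 (Sum.inl i) = ![v, w] i := by
      simp only [b1]; unfold Module.Basis.sumExtend
      simp only [Module.Basis.reindex_apply, Module.Basis.extend_apply_self, Equiv.symm_symm]; rfl
    have k2 : b2 (Sum.inl i) = ![v', w'] i := by
      simp only [b2]; unfold Module.Basis.sumExtend
      simp only [Module.Basis.reindex_apply, Module.Basis.extend_apply_self, Equiv.symm_symm]; rfl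
    rw [← k1, ← k2]; simp [B]
  refine ⟨⟨LinearMap.toMatrix' B.toLinearMap, LinearMap.toMatrix' B.symm.toLinearMap, ?_, ?_⟩, ?_, ?_⟩
  · rw [← LinearMap.toMatrix'_comp, ← LinearMap.toMatrix'_id]
    congr 1; ext1 x; simp
  · rw [← LinearMap.toMatrix'_comp, ← LinearMap.toMatrix'_id]
    congr 1; ext1 x; simp
  · show LinearMap.toMatrix' B.toLinearMap *ᵥ v = v'
    rw [LinearMap.toMatrix'_mulVec]
    simpa using hB 0
  · show LinearMap.toMatrix' B.toLinearMap *ᵥ w = w'
    rw [LinearMap.toMatrix'_mulVec]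
    simpa using hB 1

lemma odd105 : ((105 : ℕ) : ZMod 2) ≠ 0 := by decide

lemma two_add : (1 : ZMod 2) + 1 = 0 := by decide

lemma card_GL4 (hF : Fintype.card F = 2) : Nat.card (GL (Fin 4) F) = 20160 := by
  rw [Matrix.card_GL_field, hF, Fin.prod_univ_four]
  rfl

open Classical in
theorem two_transitive (hF : Fintype.card F = 2) (H : Subgroup (GL (Fin 4) F))
    (hH : Nat.card H = 2520) {v w v' w' : Fin 4 → F} (hv : v ≠ 0) (hw : w ≠ 0)
    (h : v ≠ w) (hv' : v' ≠ 0) (hw' : w' ≠ 0) (h' : v' ≠ w') :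
    ∃ g ∈ H, (g : Matrix (Fin 4) (Fin 4) F) *ᵥ v = v' ∧
      (g : Matrix (Fin 4) (Fin 4) F) *ᵥ w = w' := by
  letI : MulAction (GL (Fin 4) F) (Fin 4 → F) :=
    { smul := fun g v => (g : Matrix (Fin 4) (Fin 4) F) *ᵥ v
      one_smul := fun v => by show ((1 : GL (Fin 4) F) : Matrix (Fin 4) (Fin 4) F) *ᵥ v = v; simp
      mul_smul := fun a b v => by
        show ((a * b : GL (Fin 4) F) : Matrix (Fin 4) (Fin 4) F) *ᵥ v = (a : Matrix (Fin 4) (Fin 4) F) *ᵥ ((b : Matrix (Fin 4) (Fin 4) F) *ᵥ v)
        simp [Matrix.mulVec_mulVec] }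
  have hz : ∀ (g : GL (Fin 4) F) (x : Fin 4 → F), x ≠ 0 → g • x ≠ 0 := fun g x hx he => by
    have h0 : g⁻¹ • (0 : Fin 4 → F) = 0 := Matrix.mulVec_zero _
    exact hx (by rw [← inv_smul_smul g x, he, h0])
  let P : Finset ((Fin 4 → F) × (Fin 4 → F)) :=
    Finset.univ.filter fun p => p.1 ≠ 0 ∧ p.2 ≠ 0 ∧ p.1 ≠ p.2
  have hP : P.card = 210 := by
    have : P = (Finset.univ.filter fun x : Fin 4 → F => x ≠ 0).offDiag := by
      ext p; simp [P]
    rw [this, Finset.offDiag_card, Finset.filter_ne', Finset.card_erase_of_mem (Finset.mem_univ _),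
      Finset.card_univ, Fintype.card_fun, hF, Fintype.card_fin]
    rfl
  have hmem : ∀ (g : GL (Fin 4) F), ∀ p ∈ P, g • p ∈ P := fun g p hp => by
    simp only [P, Finset.mem_filter, Finset.mem_univ, true_and] at hp ⊢
    exact ⟨hz g _ hp.1, hz g _ hp.2.1, fun he => hp.2.2 (MulAction.injective g he)⟩
  have horb : ∀ p ∈ P, (MulAction.orbit H p).ncard = 105 ∨ (MulAction.orbit H p).ncard = 210 := by
    intro p hp
    have hp' := hp
    simp only [P, Finset.mem_filter, Finset.mem_univ, true_and] at hp'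
    have hG : MulAction.orbit (GL (Fin 4) F) p = (P : Set _) := by
      refine subset_antisymm ?_ fun q hq => ?_
      · rintro _ ⟨g, rfl⟩; exact Finset.mem_coe.2 (hmem g p hp)
      · simp only [P, Finset.mem_coe, Finset.mem_filter, Finset.mem_univ, true_and] at hq
        obtain ⟨g, h1, h2⟩ := exists_pair_map hF hp'.1 hp'.2.1 hp'.2.2 hq.1 hq.2.1 hq.2.2
        exact ⟨g, Prod.ext h1 h2⟩
    set S := MulAction.stabilizer (GL (Fin 4) F) p
    have hS : Nat.card S = 96 := by
      have := S.index_mul_card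
      rw [MulAction.index_stabilizer, hG, Set.ncard_coe_finset, hP, card_GL4 hF] at this
      omega
    set T := MulAction.stabilizer H p
    have hT : Nat.card T = Nat.card (H.subgroupOf S) := by
      refine Nat.card_congr ⟨fun x => ⟨⟨x.1.1, x.2⟩, x.1.2⟩, fun x => ⟨⟨x.1.1, x.2⟩, x.1.2⟩,
        fun x => rfl, fun x => rfl⟩
    have hidx : H.index = 8 := by
      have := H.index_mul_card
      rw [hH, card_GL4 hF] at this
      omega
    have h1 : Nat.card T ∣ 24 := by
      have a : Nat.card T ∣ 96 := hS ▸ hT ▸ Subgroup.card_subgroup_dvd_card _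
      have b : Nat.card T ∣ 2520 := hH ▸ Subgroup.card_subgroup_dvd_card T
      exact (Nat.dvd_gcd a b).trans (by norm_num)
    have h2 : 12 ≤ Nat.card T := by
      have a := (H.subgroupOf S).index_mul_card
      have b : (H.subgroupOf S).index ≤ H.index :=
        Subgroup.relIndex_top_right H ▸ Subgroup.relIndex_le_of_le_right le_top
          (by rw [Subgroup.relIndex_top_right]; exact Subgroup.index_ne_zero_of_finite)
      rw [hidx] at b
      rw [← hT, hS] at a
      have := Nat.mul_le_mul_right (Nat.card T) b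
      omega
    have h3 := T.index_mul_card
    rw [MulAction.index_stabilizer, hH] at h3
    have h4 : Nat.card T = 12 ∨ Nat.card T = 24 := by
      have hle := Nat.le_of_dvd (by norm_num) h1
      interval_cases (Nat.card T) <;> first | omega | (norm_num at h1)
    rcases h4 with e | e <;> rw [e] at h3 <;> omega
  have hsub : ∀ p ∈ P, MulAction.orbit H p ⊆ (P : Set _) := by
    rintro p hp _ ⟨g, rfl⟩; exact Finset.mem_coe.2 (hmem g.1 p hp)
  by_cases hex : ∃ p ∈ P, (MulAction.orbit H p).ncard = 210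
  · obtain ⟨p, hp, hc⟩ := hex
    have heq := Set.eq_of_subset_of_ncard_le (hsub p hp) (by rw [hc, Set.ncard_coe_finset, hP])
      (Finset.finite_toSet _)
    have m1 : (v, w) ∈ MulAction.orbit H p := by rw [heq]; simp [P, hv, hw, h]
    have m2 : (v', w') ∈ MulAction.orbit H p := by rw [heq]; simp [P, hv', hw', h']
    rw [← MulAction.orbit_eq_iff] at m1
    rw [← m1] at m2
    obtain ⟨g, hg⟩ := m2
    exact ⟨g.1, g.2, congrArg Prod.fst hg, congrArg Prod.snd hg⟩
  · exfalso
    haveI := Fact.mk Nat.prime_two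
    obtain ⟨t, ht⟩ := exists_prime_orderOf_dvd_card' (G := H) 2 (by rw [hH]; norm_num)
    obtain ⟨x, hx⟩ : ∃ x : Fin 4 → F, t.1 • x ≠ x := by
      by_contra hc
      push Not at hc
      have h1 : t = 1 := Subtype.ext (Units.ext (Matrix.ext_of_mulVec_single fun i => by
        have := hc (Pi.single i 1)
        change (t.1 : Matrix (Fin 4) (Fin 4) F) *ᵥ _ = _ at this
        exact this.trans (Matrix.one_mulVec _).symm))
      simp [h1] at ht
    have hx0 : x ≠ 0 := fun e => hx (by subst e; exact Matrix.mulVec_zero _)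
    have hp : (x, t.1 • x) ∈ P := by simp [P, hx0, hz _ _ hx0, Ne.symm hx]
    have hodd : (MulAction.orbit H (x, t.1 • x)).ncard = 105 := by
      rcases horb _ hp with e | e
      · exact e
      · exact absurd ⟨_, hp, e⟩ hex
    let O := (MulAction.orbit H (x, t.1 • x)).toFinset
    have hO : O.card = 105 := by rw [← hodd, Set.ncard_eq_toFinset_card']
    have hsw : ∀ q ∈ O, q.swap ∈ O := by
      intro q hq
      simp only [O, Set.mem_toFinset] at hq ⊢
      obtain ⟨g, rfl⟩ := hq
      refine ⟨g * t, ?_⟩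
      have htt : t.1 * t.1 = 1 := by
        have := pow_orderOf_eq_one t
        rw [ht, pow_two] at this
        exact congrArg Subtype.val this
      refine Prod.ext ?_ ?_
      · show (g.1 * t.1) • x = g.1 • t.1 • x
        rw [mul_smul]
      · show (g.1 * t.1) • t.1 • x = g.1 • x
        rw [← mul_smul, mul_assoc, htt, mul_one]
    have hfix : ∀ q ∈ O, q.swap ≠ q := by
      intro q hq he
      have := hsub _ hp (Set.mem_toFinset.1 hq)
      simp only [P, Finset.mem_coe, Finset.mem_filter, Finset.mem_univ, true_and] at this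
      exact this.2.2 (congrArg Prod.snd he)
    have hev : ((O.card : ℕ) : ZMod 2) = 0 := by
      rw [Finset.card_eq_sum_ones, Nat.cast_sum, Nat.cast_one]
      exact Finset.sum_involution (fun q _ => q.swap) (fun _ _ => two_add)
        (fun q hq _ => hfix q hq) hsw (fun q _ => Prod.swap_swap q)
    rw [hO] at hev
    exact odd105 hev

lemma gl_equiv_psl (hF : Fintype.card F = 2) :
    Nonempty (GL (Fin 4) F ≃* Matrix.ProjectiveSpecialLinearGroup (Fin 4) F) := by
  classical
  let f : Matrix.SpecialLinearGroup (Fin 4) F →* GL (Fin 4) F := Matrix.SpecialLinearGroup.toGL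
  have hinj : Function.Injective f := fun a b h => Subtype.ext (congrArg Units.val h :)
  have hsur : Function.Surjective f := fun g => by
    refine ⟨⟨g.1, ?_⟩, Units.ext rfl⟩
    rcases two_cases hF g.1.det with h | h
    · exact absurd h ((Matrix.isUnit_iff_isUnit_det _).1 g.isUnit).ne_zero
    · exact h
  have hc : Subgroup.center (Matrix.SpecialLinearGroup (Fin 4) F) = ⊥ := by
    rw [← Subgroup.card_eq_one, Cfsg.Agent.Linear.card_center_SL, hF]
    rfl
  exact ⟨((MulEquiv.ofBijective f ⟨hinj, hsur⟩).symm).trans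
    ((QuotientGroup.quotientMulEquivOfEq hc).trans QuotientGroup.quotientBot).symm⟩

lemma a7_embeds : ∃ f : alternatingGroup (Fin 7) →* alternatingGroup (Fin 8), Function.Injective f := by
  let e : Fin 7 ≃ {x : Fin 8 // (x : ℕ) < 7} :=
    ⟨fun i => ⟨i.castSucc, i.2⟩, fun x => ⟨x.1, x.2⟩, fun i => rfl, fun x => rfl⟩
  refine ⟨((Equiv.Perm.extendDomainHom e).comp (alternatingGroup (Fin 7)).subtype).codRestrict _
    fun s => ?_, ?_⟩
  · rw [Equiv.Perm.mem_alternatingGroup]
    exact (Equiv.Perm.sign_extendDomain _ e).trans (Equiv.Perm.mem_alternatingGroup.1 s.2)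
  · intro a b hab
    exact Subtype.ext (Equiv.Perm.extendDomainHom_injective e (congrArg Subtype.val hab :))

/-- Let F be the field with 2 elements. GL_4(F) (≅ A_8) has a subgroup isomorphic to the alternating group A_7, and every such subgroup acts 2-transitively on the 15 non-zero vectors of F⁴: any ordered pair of distinct non-zero vectors is carried to any other by some element of the subgroup. -/
theorem result {F : Type*} [Field F] [Fintype F] (hF : Fintype.card F = 2) : (∃ H : Subgroup (Matrix.GeneralLinearGroup (Fin 4) F), Nonempty (H ≃* alternatingGroup (Fin 7))) ∧ ∀ H : Subgroup (Matrix.GeneralLinearGroup (Fin 4) F), Nonempty (H ≃* alternatingGroup (Fin 7)) → ∀ v w v' w' : Fin 4 → F, v ≠ 0 → w ≠ 0 → v ≠ w → v' ≠ 0 → w' ≠ 0 → v' ≠ w' → ∃ g ∈ H, (g : Matrix (Fin 4) (Fin 4) F).mulVec v = v' ∧ (g : Matrix (Fin 4) (Fin 4) F).mulVec w = w' := by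
  refine ⟨?_, fun H ⟨e⟩ v w v' w' hv hw h hv' hw' h' => ?_⟩
  · obtain ⟨i⟩ := gl_equiv_psl hF
    obtain ⟨j⟩ := Cfsg.Agent.Linear.PSL4_two_iso hF
    obtain ⟨f, hf⟩ := a7_embeds
    exact ⟨((i.trans j).symm.toMonoidHom.comp f).range,
      ⟨(MonoidHom.ofInjective ((i.trans j).symm.injective.comp hf)).symm⟩⟩
  · refine two_transitive hF H ?_ hv hw h hv' hw' h'
    rw [Nat.card_congr e.toEquiv, nat_card_alternatingGroup, Nat.card_eq_fintype_card, Fintype.card_fin]
    rfl

end Cfsg.Agent.S2551
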