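import Cfsg.Statements.S2579
import Cfsg.Agent.KnownB.AutPSL.Transv

set_option autoImplicit false
open Cfsg

namespace Cfsg.Agent.S2579
open Cfsg.Agent.KnownB Cfsg.Agent.KnownB.AutPSL

open Matrix in
theorem exists_tv {n : ℕ} {F : Type*} [Field F] (M : Matrix (Fin n) (Fin n) F)
    (h : Cfsg.IsTransvection M) :
    ∃ u φ : Fin n → F, u ≠ 0 ∧ φ ≠ 0 ∧ φ ⬝ᵥ u = 0 ∧ M = 1 + Matrix.vecMulVec u φ := by
  classical
  obtain ⟨hr, hsq⟩ := h
  obtain ⟨⟨u, hu⟩, hne, hspan⟩ :=
    finrank_eq_one_iff'.mp (hr : Module.finrank F (LinearMap.range (M - 1).mulVecLin) = 1)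
  have hu0 : u ≠ 0 := fun h => hne (Subtype.ext h)
  choose φ hφ using fun j => hspan ⟨(M - 1) *ᵥ Pi.single j 1, ⟨Pi.single j 1, rfl⟩⟩
  have hM : M - 1 = Matrix.vecMulVec u φ := by
    ext i j
    have := congrFun (congrArg Subtype.val (hφ j)) i
    simp only [Submodule.coe_smul, Pi.smul_apply, smul_eq_mul, Matrix.mulVec_single_one,
      Matrix.col_apply] at this
    rw [Matrix.vecMulVec_apply, mul_comm]
    exact this.symm
  have hφ0 : φ ≠ 0 := by
    intro h
    obtain ⟨x, hx⟩ := hu
    apply hu0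
    rw [← hx, Matrix.mulVecLin_apply, hM, h, Matrix.vecMulVec_mulVec]
    simp
  refine ⟨u, φ, hu0, hφ0, ?_, by rw [← hM]; abel⟩
  rw [hM, Matrix.vecMulVec_mul_vecMulVec] at hsq
  by_contra hd
  have := (vecMulVec_eq_zero_iff' u _).mp hsq
  rcases this with h | h
  · exact hu0 h
  · exact hφ0 ((smul_eq_zero.mp h).resolve_left hd)


/-- In SL_n(F) with n ≥ 3, over a finite field F, any two transvections (matrices t with t − 1 of rank one and square zero) are conjugate by an element of SL_n(F). -/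
theorem result {F : Type*} [Field F] [Finite F] {n : ℕ} (hn : 3 ≤ n) (s t : Matrix.SpecialLinearGroup (Fin n) F) (hs : Cfsg.IsTransvection (s : Matrix (Fin n) (Fin n) F)) (ht : Cfsg.IsTransvection (t : Matrix (Fin n) (Fin n) F)) : IsConj s t := by
  classical
  haveI : Nontrivial (Fin n) := Fin.nontrivial_iff_two_le.mpr (by omega)
  have hz : ∃ a b c : Fin n, a ≠ b ∧ c ≠ a ∧ c ≠ b :=
    ⟨⟨0, by omega⟩, ⟨1, by omega⟩, ⟨2, by omega⟩, by simp, by simp, by simp⟩
  obtain ⟨a, b, c, hab, hca, hcb⟩ := hz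
  have key : ∀ r : Matrix.SpecialLinearGroup (Fin n) F,
      Cfsg.IsTransvection (r : Matrix (Fin n) (Fin n) F) →
      IsConj (Matrix.SpecialLinearGroup.transvection hab (1 : F)) r := by
    intro r hr
    obtain ⟨u, φ, hu, hφ, h0, hrv⟩ := exists_tv r.val hr
    obtain ⟨P, hP1, hP2⟩ := exists_frame u φ hu hφ h0 hab
    let d : Fin n → F := Function.update (fun _ => 1) c (P.val.det)⁻¹
    have hPd : P.val.det ≠ 0 := (Matrix.GeneralLinearGroup.det P).ne_zero
    have hdet : (P.val * Matrix.diagonal d).det = 1 := by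
      rw [Matrix.det_mul, Matrix.det_diagonal, Finset.prod_update_of_mem (Finset.mem_univ _)]
      simp [hPd]
    let G : Matrix.SpecialLinearGroup (Fin n) F := ⟨P.val * Matrix.diagonal d, hdet⟩
    have hda : d a = 1 := Function.update_of_ne hca.symm _ _
    have hdb : d b = 1 := Function.update_of_ne hcb.symm _ _
    refine isConj_iff.mpr ⟨G, ?_⟩
    rw [mul_inv_eq_iff_eq_mul]
    apply Subtype.ext
    show P.val * Matrix.diagonal d * Matrix.transvection a b (1 : F) =
      r.val * (P.val * Matrix.diagonal d)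
    rw [hrv, Matrix.add_mul, Matrix.one_mul, ← Matrix.mul_assoc, Matrix.vecMulVec_mul,
      Matrix.vecMulVec_mul, hP2, Matrix.transvection, Matrix.mul_add, Matrix.mul_one]
    congr 1
    rw [← hP1, Matrix.single_eq_single_vecMulVec_single, Matrix.mul_vecMulVec,
      ← Matrix.mulVec_mulVec]
    congr 1
    · congr 1
      funext i
      rw [Matrix.mulVec_diagonal]
      by_cases hia : i = a
      · subst hia; simp [hda]
      · simp [hia]
    · funext i
      rw [Matrix.vecMul_diagonal]
      by_cases hib : i = b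
      · subst hib; simp [hdb]
      · simp [hib]
  exact (key s hs).symm.trans (key t ht)

end Cfsg.Agent.S2579
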