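import Cfsg.Statements.S2787
import Cfsg.Agent.Components.NoQuadraticPSL

set_option autoImplicit false
open Cfsg

namespace Cfsg.Agent.S2787

/-- Let p be a prime and let H act by conjugation on the elementary abelian p-subgroup V of a finite group, irreducibly (no H-invariant subgroups of V other than 1 and V) and nontrivially, and suppose H/C_H(V) is isomorphic to PSL₂(F) for a field F with p^n elements, p^n odd, or p = 3 and H/C_H(V) is isomorphic to a Ree group ²G₂(3^(2m+1)), m ≥ 1. Then no subgroup A of H acting nontrivially on V acts quadratically: [V, A, A] = 1 forces [V, A] = 1. -/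
theorem result {G : Type*} [Group G] [Finite G] {p : ℕ} [Fact p.Prime] (V H : Subgroup G) (hV : Cfsg.IsElementaryAbelian p V) (hHV : H ≤ Subgroup.normalizer (V : Set G)) (hirr : ∀ U : Subgroup G, U ≤ V → H ≤ Subgroup.normalizer (U : Set G) → U = ⊥ ∨ U = V) (hnt : ¬ H ≤ Subgroup.centralizer (V : Set G)) [hn : ((Subgroup.centralizer (V : Set G)).subgroupOf H).Normal] (hq : (∃ (F : Type) (_ : Field F) (_ : Fintype F) (n : ℕ), Fintype.card F = p ^ n ∧ Odd (Fintype.card F) ∧ Nonempty (↥H ⧸ (Subgroup.centralizer (V : Set G)).subgroupOf H ≃* Matrix.ProjectiveSpecialLinearGroup (Fin 2) F)) ∨ (p = 3 ∧ Cfsg.Lie.IsoRee (↥H ⧸ (Subgroup.centralizer (V : Set G)).subgroupOf H))) (A : Subgroup G) (hA : A ≤ H) (hquad : ⁅⁅V, A⁆, A⁆ = ⊥) : ⁅V, A⁆ = ⊥ := by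
  have key : A ≤ Subgroup.centralizer (V : Set G) := by
    intro x hx
    rcases hq with ⟨F, _, _, n, hF, hodd, ⟨e⟩⟩ | ⟨rfl, K, _, _, m, hm, hK, ⟨e⟩⟩
    · have hp2 : p ≠ 2 := by
        rintro rfl
        rw [hF] at hodd
        rcases Nat.eq_zero_or_pos n with rfl | hn0
        · exact absurd (hF ▸ Fintype.one_lt_card (α := F)) (by simp)
        · exact Nat.not_even_iff_odd.2 hodd (Nat.even_pow.2 ⟨even_two, hn0.ne'⟩)
      exact Cfsg.Agent.Components.NoQuadraticPSL.psl_case hp2 hV hHV hF e hquad (x := ⟨x, hA hx⟩) hx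
    · exact Cfsg.Agent.Components.NoQuadraticPSL.ree_case hm hK hV hHV hirr e hquad
        (x := ⟨x, hA hx⟩) hx
  rw [Subgroup.commutator_eq_bot_iff_le_centralizer]
  exact Subgroup.le_centralizer_iff.1 key

end Cfsg.Agent.S2787
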