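import Cfsg.Statements.S2907
import Cfsg.Agent.LocalEven.Conj
import Cfsg.Agent.Core.Cores

set_option autoImplicit false
open Cfsg

namespace Cfsg.Agent.S2907

/-- Let X be a finite semi-extraspecial p-group and x an element of X outside the centre. Then the index of C_X(x) in X equals the order of Z(X), and the commutators [x, y], y ∈ X, form exactly the centre Z(X). -/
theorem result {X : Type*} [Group X] [Finite X] {p : ℕ} [Fact p.Prime] (hX : Cfsg.IsSemiExtraspecial p X) (x : X) (hx : x ∉ Subgroup.center X) : (Subgroup.centralizer ({x} : Set X)).index = Nat.card ↥(Subgroup.center X) ∧ {z : X | ∃ y : X, z = x * y * x⁻¹ * y⁻¹} = (Subgroup.center X : Set X) := by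
  classical
  obtain ⟨⟨hXp, hfr, hder⟩, hY⟩ := hX
  have hmem : ∀ y : X, x * y * x⁻¹ * y⁻¹ ∈ Subgroup.center X := fun y => by
    rw [← hder, commutator_def]
    exact Subgroup.commutator_mem_commutator (Subgroup.mem_top x) (Subgroup.mem_top y)
  let f : X →* ↥(Subgroup.center X) := MonoidHom.mk' (fun y => ⟨_, hmem y⟩) fun a b => by
    refine Subtype.ext ?_
    show x * (a * b) * x⁻¹ * (a * b)⁻¹ = x * a * x⁻¹ * a⁻¹ * (x * b * x⁻¹ * b⁻¹)
    calc x * (a * b) * x⁻¹ * (a * b)⁻¹ = x * a * x⁻¹ * (x * b * x⁻¹ * b⁻¹) * a⁻¹ := by group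
      _ = x * a * x⁻¹ * (a⁻¹ * (x * b * x⁻¹ * b⁻¹)) := by
        rw [mul_assoc (x * a * x⁻¹), ← Subgroup.mem_center_iff.mp (hmem b) a⁻¹]
      _ = _ := by group
  have hker : f.ker = Subgroup.centralizer ({x} : Set X) := by
    ext y
    rw [MonoidHom.mem_ker, Subgroup.mem_centralizer_singleton_iff]
    constructor
    · intro h
      have := congrArg Subtype.val h
      exact (mul_inv_eq_iff_eq_mul.mp (mul_inv_eq_one.mp this)).symm
    · intro h
      refine Subtype.ext ?_
      show x * y * x⁻¹ * y⁻¹ = 1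
      rw [← h, mul_inv_cancel_right, mul_inv_cancel]
  have htop : f.range = ⊤ := by
    by_contra hne
    obtain ⟨M, hM, hle⟩ := (eq_top_or_exists_le_coatom f.range).resolve_left hne
    set Y := M.map (Subgroup.center X).subtype with hYdef
    have hYM : Y.subgroupOf (Subgroup.center X) = M := by
      rw [hYdef, Subgroup.subgroupOf, Subgroup.comap_map_eq_self_of_injective (Subgroup.subtype_injective _)]
    obtain ⟨hYn, ⟨-, -, hd⟩, hc⟩ := hY Y (Subgroup.map_subtype_le _) (hYM.symm ▸ hM)
    haveI := hYn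
    set π := QuotientGroup.mk' Y with hπ
    have hxc : π x ∈ Subgroup.center (X ⧸ Y) := by
      refine Subgroup.mem_center_iff.mpr fun q => ?_
      obtain ⟨y, rfl⟩ := QuotientGroup.mk'_surjective Y q
      have h1 : π (x * y * x⁻¹ * y⁻¹) = 1 := (QuotientGroup.eq_one_iff _).mpr ⟨f y, hle ⟨y, rfl⟩, rfl⟩
      simp only [map_mul, map_inv] at h1
      exact (mul_inv_eq_iff_eq_mul.mp (mul_inv_eq_one.mp h1)).symm
    have hZle : (Subgroup.center X).map π ≤ Subgroup.center (X ⧸ Y) := by
      rintro _ ⟨z, hz, rfl⟩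
      refine Subgroup.mem_center_iff.mpr fun q => ?_
      obtain ⟨y, rfl⟩ := QuotientGroup.mk'_surjective Y q
      rw [← map_mul, ← map_mul, Subgroup.mem_center_iff.mp hz y]
    have hne1 : (Subgroup.center X).map π ≠ ⊥ := by
      intro h
      apply hM.1
      rw [eq_top_iff]
      intro z _
      have : π (z : X) = 1 := Subgroup.mem_bot.mp (h ▸ Subgroup.mem_map_of_mem π z.2)
      obtain ⟨w, hw, hwz⟩ := (QuotientGroup.eq_one_iff (z : X)).mp this
      rwa [← Subtype.ext (show (w : X) = z from hwz)]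
    have heq : (Subgroup.center X).map π = Subgroup.center (X ⧸ Y) := by
      refine Subgroup.eq_of_le_of_card_ge hZle ?_
      rw [hc]
      rcases (hc ▸ (Fact.out : p.Prime)).eq_one_or_self_of_dvd _ (Subgroup.card_dvd_of_le hZle) with h | h
      · exact absurd (Subgroup.eq_bot_of_card_eq _ h) hne1
      · rw [h, hc]
    rw [← heq] at hxc
    obtain ⟨z, hz, hzx⟩ := hxc
    apply hx
    have h1 : z⁻¹ * x ∈ Y := QuotientGroup.eq.mp hzx
    have h2 : z * (z⁻¹ * x) ∈ Subgroup.center X := Subgroup.mul_mem _ hz (Subgroup.map_subtype_le _ h1)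
    rwa [mul_inv_cancel_left] at h2
  refine ⟨?_, ?_⟩
  · rw [← hker, Subgroup.index_ker, htop, Subgroup.card_top]
  · ext z
    constructor
    · rintro ⟨y, rfl⟩
      exact hmem y
    · intro hz
      obtain ⟨y, hy⟩ := htop.ge (Subgroup.mem_top (⟨z, hz⟩ : ↥(Subgroup.center X)))
      exact ⟨y, (congrArg Subtype.val hy).symm⟩


end Cfsg.Agent.S2907
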