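import Cfsg.Statements.S2909
import Cfsg.Agent.LocalEven.Commutator
import Cfsg.Agent.LocalEven.Replacement
import Cfsg.Agent.Coprime.Generation
import Cfsg.Agent.Coprime.PxQ

set_option autoImplicit false
open Cfsg

open scoped commutatorElement

namespace Cfsg.Agent.S2909

/-- Let p be a prime, E a normal p-subgroup of the finite group G, and U a non-cyclic elementary abelian p-subgroup of G such that either C_E(U) = C_E(u) for every nontrivial u ∈ U, or [E, U] = [E, ⟨u⟩] for every nontrivial u ∈ U. If R is a subgroup of order prime to p normalized by U, then [R, U] centralizes E. -/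
theorem result {G : Type*} [Group G] [Finite G] {p : ℕ} [Fact p.Prime] (E : Subgroup G) [E.Normal] (hE : IsPGroup p ↥E) (U : Subgroup G) (hU : Cfsg.IsElementaryAbelian p U) (hnc : ¬ IsCyclic ↥U) (hcond : (∀ u ∈ U, u ≠ 1 → E ⊓ Subgroup.centralizer (U : Set G) = E ⊓ Subgroup.centralizer ({u} : Set G)) ∨ (∀ u ∈ U, u ≠ 1 → ⁅E, U⁆ = ⁅E, Subgroup.zpowers u⁆)) (R : Subgroup G) (hR : ¬ p ∣ Nat.card ↥R) (hRU : U ≤ Subgroup.normalizer (R : Set G)) : ⁅R, U⁆ ≤ Subgroup.centralizer (E : Set G) := by
  classical
  have hpp := (Fact.out : p.Prime)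
  haveI := hU.1
  have hUp : IsPGroup p U := fun u => ⟨1, by rw [pow_one]; exact Subtype.ext (hU.2 u.1 u.2)⟩
  have hEN : ∀ X : Subgroup G, X ≤ Subgroup.normalizer (E : Set G) := fun X => by
    rw [Subgroup.normalizer_eq_top E]; exact le_top
  have hcop : (Nat.card U).Coprime (Nat.card R) := by
    obtain ⟨k, hk⟩ := IsPGroup.iff_card.mp hUp
    rw [hk]
    exact (hpp.coprime_iff_not_dvd.mpr hR).pow_left k
  set C := Subgroup.centralizer (E : Set G) with hC
  haveI hCn : C.Normal := by rw [hC]; infer_instance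
  let S : Subgroup G :=
    { carrier := {r | ∀ v ∈ U, ⁅r, v⁆ ∈ C}
      one_mem' := fun v _ => by simp
      mul_mem' := fun {a b} ha hb v hv => by
        rw [show ⁅a * b, v⁆ = a * ⁅b, v⁆ * a⁻¹ * ⁅a, v⁆ by simp only [commutatorElement_def]; group]
        exact C.mul_mem (hCn.conj_mem _ (hb v hv) a) (ha v hv)
      inv_mem' := fun {a} ha v hv => by
        rw [show ⁅a⁻¹, v⁆ = a⁻¹ * ⁅a, v⁆⁻¹ * a⁻¹⁻¹ by simp only [commutatorElement_def]; group]
        exact hCn.conj_mem _ (C.inv_mem (ha v hv)) _ }
  suffices h : R ≤ S from Subgroup.commutator_le.mpr fun r hr v hv => h hr v hv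
  rw [← Coprime.eq_centralizerJoin hnc hRU hcop]
  refine iSup_le ?_
  rintro ⟨u, hu, hu1⟩
  simp only
  set Ru := R ⊓ Subgroup.centralizer {u} with hRu
  set W := ⁅Ru, U⁆ with hW
  suffices h : W ≤ C from fun r hr v hv => h (Subgroup.commutator_mem_commutator hr hv)
  set P := Subgroup.zpowers u with hP
  have hPU : P ≤ U := Subgroup.zpowers_le.mpr hu
  have hUu : U ≤ Subgroup.centralizer {u} := fun v hv => by
    rw [Subgroup.mem_centralizer_singleton_iff]
    exact congrArg Subtype.val (mul_comm' (⟨v, hv⟩ : U) ⟨u, hu⟩)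
  have hURu : U ≤ Subgroup.normalizer (Ru : Set G) := fun v hv => by
    rw [Subgroup.mem_normalizer_iff]
    intro y
    rw [hRu, Subgroup.mem_inf, Subgroup.mem_inf]
    exact and_congr (Subgroup.mem_normalizer_iff.mp (hRU hv) y)
      (Subgroup.mem_normalizer_iff.mp (Subgroup.le_normalizer (hUu hv)) y)
  have hWR : W ≤ Ru := Subgroup.le_normalizer_iff_commutator_le_left.mp hURu
  have hPRu : ⁅P, Ru⁆ = ⊥ := by
    rw [Subgroup.commutator_eq_bot_iff_le_centralizer, Subgroup.le_centralizer_iff, hP,
      Subgroup.zpowers_eq_closure, Subgroup.centralizer_closure]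
    exact inf_le_right
  have hPW : ⁅P, W⁆ = ⊥ := le_bot_iff.mp (hPRu ▸ Subgroup.commutator_mono le_rfl hWR)
  have hWcop : (Nat.card W).Coprime p :=
    Nat.Coprime.coprime_dvd_left (Subgroup.card_dvd_of_le (hWR.trans inf_le_left))
      ((Nat.coprime_comm).mp (hpp.coprime_iff_not_dvd.mpr hR))
  rw [hC, ← Subgroup.commutator_eq_bot_iff_le_centralizer]
  -- it is enough that every element of `W` centralizes `E`
  rw [Subgroup.commutator_eq_bot_iff_le_centralizer]
  intro w hw
  set Q := Subgroup.zpowers w with hQ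
  have hQW : Q ≤ W := Subgroup.zpowers_le.mpr hw
  have hwcop : (orderOf w).Coprime p :=
    hWcop.coprime_dvd_left (Subgroup.orderOf_dvd_natCard W hw)
  rcases hcond with hc | hc
  · -- centralizers
    have h1 : ⁅E ⊓ Subgroup.centralizer (P : Set G), Q⁆ = ⊥ := by
      have hEP : E ⊓ Subgroup.centralizer (P : Set G) = E ⊓ Subgroup.centralizer (U : Set G) := by
        rw [hP, Subgroup.zpowers_eq_closure, Subgroup.centralizer_closure, hc u hu hu1]
      set D := E ⊓ Subgroup.centralizer (U : Set G) with hD
      have hRuD : Ru ≤ Subgroup.normalizer (D : Set G) := fun r hr => by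
        rw [← hEP, Subgroup.mem_normalizer_iff]
        intro y
        rw [Subgroup.mem_inf, Subgroup.mem_inf]
        refine and_congr (Subgroup.mem_normalizer_iff.mp (hEN Ru hr) y) ?_
        have hrc : r ∈ Subgroup.centralizer (P : Set G) :=
          Subgroup.commutator_eq_bot_iff_le_centralizer.mp (Subgroup.commutator_comm P Ru ▸ hPRu) hr
        have : r ∈ Subgroup.normalizer (Subgroup.centralizer (P : Set G) : Set G) := Subgroup.le_normalizer hrc
        exact Subgroup.mem_normalizer_iff.mp this y
      have hUD : ⁅D, U⁆ = ⊥ := Subgroup.commutator_eq_bot_iff_le_centralizer.mpr inf_le_right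
      have hDR : ⁅D, Ru⁆ ≤ D := Subgroup.le_normalizer_iff_commutator_le_left.mp hRuD
      have h2 : ⁅⁅U, D⁆, Ru⁆ = ⊥ := by rw [Subgroup.commutator_comm U D, hUD, Subgroup.commutator_bot_left]
      have h3 : ⁅⁅D, Ru⁆, U⁆ = ⊥ := le_bot_iff.mp (hUD ▸ Subgroup.commutator_mono hDR le_rfl)
      have h4 : ⁅⁅Ru, U⁆, D⁆ = ⊥ := Subgroup.commutator_commutator_eq_bot_of_rotate h2 h3
      rw [hEP]
      refine le_bot_iff.mp ?_
      rw [← h4, Subgroup.commutator_comm ⁅Ru, U⁆ D]
      exact Subgroup.commutator_mono le_rfl hQW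
    have hQsol : Group.IsSolvable Q := by infer_instance
    have := Coprime.commutator_eq_bot_of_PxQ (P := P) (Q := Q) (hUp.to_le hPU)
      (LocalEven.coprime_zpowers hwcop) (le_bot_iff.mp (hPW ▸ Subgroup.commutator_mono le_rfl hQW))
      _ E rfl hE (hEN P) (hEN Q) h1
    rw [Subgroup.commutator_comm] at this
    exact (Subgroup.commutator_eq_bot_iff_le_centralizer.mp this) (Subgroup.mem_zpowers w)
  · -- commutators
    have hcu := hc u hu hu1
    set D := ⁅E, P⁆ with hD
    have hDE : D ≤ E := Subgroup.commutator_le_left E P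
    have hRuP : Ru ≤ Subgroup.centralizer (P : Set G) :=
      Subgroup.commutator_eq_bot_iff_le_centralizer.mp (Subgroup.commutator_comm P Ru ▸ hPRu)
    set K := E ⊔ P with hK
    have hKp : IsPGroup p K := hE.to_sup_of_normal_left' (hUp.to_le hPU) (hEN P)
    have hRK : Ru ≤ Subgroup.normalizer (K : Set G) := fun r hr => by
      rw [← LocalEven.cj_eq_self_iff, hK, LocalEven.cj, Subgroup.map_sup]
      change LocalEven.cj r E ⊔ LocalEven.cj r P = _
      rw [LocalEven.cj_eq_self_iff.mpr (hEN Ru hr),
        LocalEven.cj_eq_self_iff.mpr (Subgroup.centralizer_le_normalizer _ (hRuP hr))]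
    have hI : ∀ k, Ru ≤ Subgroup.normalizer (Cfsg.iterCommutator E K k : Set G) := by
      intro k
      induction k with
      | zero => exact hEN Ru
      | succ k ih => exact LocalEven.le_normalizer_comm ih hRK
    have hKN : ∀ k, K ≤ Subgroup.normalizer (Cfsg.iterCommutator E K k : Set G) := by
      intro k
      induction k with
      | zero => exact hEN K
      | succ k _ => exact Subgroup.normalizer_commutator_ge_right _ _
    have hJK : ∀ k, Cfsg.iterCommutator E K k ≤ K := by
      intro k
      induction k with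
      | zero => exact le_sup_left
      | succ k ih => exact (Subgroup.le_normalizer_iff_commutator_le_left.mp (hKN k)).trans ih
    have hRD : Ru ≤ Subgroup.normalizer (D : Set G) :=
      LocalEven.le_normalizer_comm (hEN Ru) (hRuP.trans (Subgroup.centralizer_le_normalizer _))
    have hUD : U ≤ Subgroup.normalizer (D : Set G) := by
      rw [← hcu]; exact Subgroup.normalizer_commutator_ge_right _ _
    have hED : E ≤ Subgroup.normalizer (D : Set G) := Subgroup.normalizer_commutator_ge_left _ _
    have hEW : ⁅E, W⁆ ≤ D := by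
      rw [Subgroup.commutator_comm, hW]
      refine LocalEven.three_le hRD hUD hED ?_ ?_
      · have : ⁅U, E⁆ = D := by rw [Subgroup.commutator_comm, hcu]
        rw [this]
        exact Subgroup.le_normalizer_iff_commutator_le_left.mp hRD
      · refine (Subgroup.commutator_mono (Subgroup.commutator_le_left E Ru) le_rfl).trans ?_
        rw [hcu]
    have hWn : ∀ k, W ≤ Subgroup.normalizer (Cfsg.iterCommutator E K k : Set G) := fun k => hWR.trans (hI k)
    have hD1 : D ≤ Cfsg.iterCommutator E K 1 := Subgroup.commutator_mono le_rfl le_sup_right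
    have hKW : ⁅K, W⁆ ≤ Cfsg.iterCommutator E K 1 := by
      refine LocalEven.comm_sup_le (le_sup_left.trans (hKN 1)) (le_sup_right.trans (hKN 1)) (hEW.trans hD1) ?_
      rw [hPW]; exact bot_le
    have step : ∀ k, ⁅Cfsg.iterCommutator E K k, W⁆ ≤ Cfsg.iterCommutator E K (k + 1) := by
      intro k
      induction k with
      | zero => exact hEW.trans hD1
      | succ k ih =>
        show ⁅⁅Cfsg.iterCommutator E K k, K⁆, W⁆ ≤ Cfsg.iterCommutator E K (k + 2)
        have hJN := (hJK k).trans (hKN (k + 2))
        refine LocalEven.three_le hJN (hKN _) (hWn _) ?_ ?_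
        · refine (Subgroup.commutator_mono hKW le_rfl).trans ?_
          refine (Subgroup.commutator_mono (Subgroup.commutator_mono (le_sup_left : E ≤ K) (le_refl K)) le_rfl).trans ?_
          refine LocalEven.three_le (hKN _) (hKN _) hJN ?_ le_rfl
          rw [Subgroup.commutator_comm K]
          exact le_rfl
        · rw [Subgroup.commutator_comm W]
          exact Subgroup.commutator_mono ih le_rfl
    obtain ⟨n, hn⟩ := LocalEven.exists_iterCommutator_eq_bot hE hKp (hEN K)
    have hQsub : ∀ k, Cfsg.iterCommutator E Q k ≤ Cfsg.iterCommutator E K k := by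
      intro k
      induction k with
      | zero => exact le_rfl
      | succ k ih => exact (Subgroup.commutator_mono ih hQW).trans (step k)
    exact LocalEven.coprime_stab hE ((hEN ⊤) (Subgroup.mem_top w)) hwcop (le_bot_iff.mp ((hQsub n).trans hn.le))

end Cfsg.Agent.S2909
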