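import Cfsg.Statements.S2910
import Cfsg.Agent.S0071
import Cfsg.Agent.OddLocal.FixOrderP
import Cfsg.Agent.Transfer.Basic

set_option autoImplicit false
open Cfsg

namespace Cfsg.Agent.S2910

/-- Let p be an odd prime dividing the order of the finite group G and P a Sylow p-subgroup of G. If Ω₁(P) (generated by the elements of order dividing p) is contained in the centre of G, then G has a normal p-complement. In particular, if G is quasisimple then Ω₁(P) is not central in G. -/
theorem result {G : Type*} [Group G] [Finite G] {p : ℕ} [Fact p.Prime] (hp : p ≠ 2) (hdiv : p ∣ Nat.card G) (P : Sylow p G) (hZ : Cfsg.omegaOne p (P : Subgroup G) ≤ Subgroup.center G) : Cfsg.HasNormalPComplement p G ∧ ¬ Cfsg.IsQuasisimple G := by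
  have h1 : Cfsg.HasNormalPComplement p G := by
    refine ⟨P, ?_⟩
    refine (Cfsg.Agent.S0071.result P).mpr fun Q hQ g hg hcop => ?_
    rw [Subgroup.mem_centralizer_iff]
    intro x hx
    have h := OddLocal.fixed_of_fixed_order_p hp g hcop _ Q le_rfl (P.isPGroup'.to_le hQ)
      (fun y hy => (Subgroup.mem_normalizer_iff.mp hg y).mp hy) (fun y hy hyp => ?_) x hx
    · exact (mul_inv_eq_iff_eq_mul.mp h).symm
    · rw [Subgroup.mem_center_iff.mp (hZ (Subgroup.subset_closure ⟨hQ hy, hyp⟩)) g,
        mul_inv_cancel_right]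
  refine ⟨h1, fun hq => ?_⟩
  obtain ⟨N, hN, hc, k, hk⟩ := Transfer.hasNormalPComplement_iff_exists.mp h1
  haveI := hq.1
  rcases Nat.eq_zero_or_pos k with rfl | hk0
  · rw [pow_zero, Subgroup.index_eq_one] at hk
    subst hk
    rw [Subgroup.card_top] at hc
    exact (Fact.out : p.Prime).ne_one (Nat.eq_one_of_dvd_coprimes hc hdiv dvd_rfl)
  · have hQ : IsPGroup p (G ⧸ N) := IsPGroup.of_card (n := k) (Subgroup.index_eq_card N ▸ hk)
    haveI := hQ.isNilpotent
    haveI : Group.IsPerfect (G ⧸ N) := Group.IsPerfect.ofSurjective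
      (f := QuotientGroup.mk' N) (QuotientGroup.mk'_surjective N)
    haveI : Nontrivial (G ⧸ N) := Finite.one_lt_card_iff_nontrivial.mp (by
      rw [← Subgroup.index_eq_card, hk]; exact Nat.one_lt_pow hk0.ne' (Fact.out : p.Prime).one_lt)
    exact Group.IsPerfect.not_isNilpotent (G := G ⧸ N) inferInstance


end Cfsg.Agent.S2910
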