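import Cfsg.Statements.S2912
import Cfsg.Agent.LocalEven.ExtraspecialModule

set_option autoImplicit false
open Cfsg

namespace Cfsg.Agent.S2912

/-- Let p and r be distinct primes, let E be an extraspecial subgroup of order p^(2w+1) of a finite group, and let A be an elementary abelian r-subgroup normalized by E on which E acts faithfully (C_E(A) = 1). If n ≥ 1 is least with p dividing rⁿ − 1 (the smallest dimension of a faithful representation of a group of order p over the field with r elements), then the order of A is at least r^(n·p^w). -/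
theorem result {G : Type*} [Group G] [Finite G] {p r : ℕ} [Fact p.Prime] [hr : Fact r.Prime] (hpr : p ≠ r) (E A : Subgroup G) (w : ℕ) (hE : Cfsg.IsExtraspecial p ↥E) (hEcard : Nat.card ↥E = p ^ (2 * w + 1)) (hA : Cfsg.IsElementaryAbelian r A) (hnorm : E ≤ Subgroup.normalizer (A : Set G)) (hfaith : E ⊓ Subgroup.centralizer (A : Set G) = ⊥) (n : ℕ) (hn : 1 ≤ n) (hdiv : p ∣ r ^ n - 1) (hmin : ∀ k : ℕ, 1 ≤ k → p ∣ r ^ k - 1 → n ≤ k) : r ^ (n * p ^ w) ≤ Nat.card ↥A := by
  obtain ⟨hAc, hAr⟩ := hA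
  haveI := hAc
  letI : CommGroup ↥A := { (inferInstance : Group ↥A) with mul_comm := fun a b => mul_comm' a b }
  let φ : ↥E →* MulAut ↥A := A.normalizerMonoidHom.comp (Subgroup.inclusion hnorm)
  have hφ : ∀ (e : ↥E) (a : ↥A), ((φ e a : ↥A) : G) = (e : G) * a * (e : G)⁻¹ := fun e a => rfl
  haveI : Nontrivial ↥(Subgroup.center ↥E) := by
    rw [← Finite.one_lt_card_iff_nontrivial, hE.2]; exact (Fact.out : p.Prime).one_lt
  obtain ⟨z, hz⟩ := exists_ne (1 : ↥(Subgroup.center ↥E))
  refine Cfsg.Agent.LocalEven.extraspecial_group_bound hpr hE hEcard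
    (fun a => Subtype.ext (hAr _ a.2)) φ z.2 (fun h => hz ?_) n hmin
  have hmem : ((z : ↥E) : G) ∈ E ⊓ Subgroup.centralizer (A : Set G) := by
    refine ⟨(z : ↥E).2, Subgroup.mem_centralizer_iff.mpr fun a ha => ?_⟩
    have h2 := congrArg Subtype.val (DFunLike.congr_fun h (⟨a, ha⟩ : ↥A))
    rw [hφ] at h2
    exact (mul_inv_eq_iff_eq_mul.mp h2).symm
  rw [hfaith, Subgroup.mem_bot] at hmem
  exact Subtype.ext (Subtype.ext hmem)


end Cfsg.Agent.S2912
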