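import Cfsg.Statements.S2922
import Cfsg.Agent.LocalEven.CharP
import Cfsg.Agent.Coprime.PxQ


set_option autoImplicit false
open Cfsg

namespace Cfsg.Agent.S2922

/-- Let p be a prime, X a finite group, B a p-subgroup of X and C a normal subgroup of B. If N_X(C) has characteristic p (its generalized Fitting subgroup is O_p(N_X(C))), then N_X(B) and C_X(B) have characteristic p. -/
theorem result {X : Type*} [Group X] [Finite X] {p : ℕ} [Fact p.Prime] (B C : Subgroup X) (hB : IsPGroup p ↥B) (hCB : C ≤ B) (hCn : (C.subgroupOf B).Normal) (hC : Cfsg.generalizedFittingSubgroup ↥(Subgroup.normalizer (C : Set X)) = Cfsg.pCore p ↥(Subgroup.normalizer (C : Set X))) : Cfsg.generalizedFittingSubgroup ↥(Subgroup.normalizer (B : Set X)) = Cfsg.pCore p ↥(Subgroup.normalizer (B : Set X)) ∧ Cfsg.generalizedFittingSubgroup ↥(Subgroup.centralizer (B : Set X)) = Cfsg.pCore p ↥(Subgroup.centralizer (B : Set X)) := by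
  set K := Subgroup.normalizer (C : Set X)
  set CB := Subgroup.centralizer (B : Set X) with hCB0
  set M := Subgroup.normalizer (B : Set X) with hM
  have hBK : B ≤ K := Subgroup.normal_subgroupOf_iff_le_normalizer hCB |>.mp hCn
  have hCBK : CB ≤ K := (Subgroup.centralizer_le (SetLike.coe_subset_coe.mpr hCB)).trans
    (Subgroup.centralizer_le_normalizer _)
  have hCBM : CB ≤ M := Subgroup.centralizer_le_normalizer _
  have hK := (LocalEven.charP_iff K).mp (LocalEven.generalizedFitting_eq_pCore_iff.mp hC)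
  set R := LocalEven.op p K
  have hRK : K ≤ Subgroup.normalizer (R : Set X) := LocalEven.map_pCore_normalized K
  have hRop : R ⊓ CB ≤ LocalEven.op p CB := LocalEven.le_op inf_le_right
    (le_trans (le_inf (hCBK.trans hRK) Subgroup.le_normalizer)
      Subgroup.inf_normalizer_le_normalizer_inf)
    ((LocalEven.isPGroup_op K).to_le inf_le_left)
  have main : ∀ Y : Subgroup X, LocalEven.op p CB ≤ LocalEven.op p Y →
      Y ⊓ Subgroup.centralizer (LocalEven.op p Y : Set X) ≤ CB →
      Subgroup.centralizer (Cfsg.pCore p ↥Y : Set ↥Y) ≤ Cfsg.pCore p ↥Y := by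
    intro Y hop hD
    rw [LocalEven.charP_iff]
    refine LocalEven.le_op inf_le_left (le_trans (le_inf Subgroup.le_normalizer
      ((LocalEven.map_pCore_normalized Y).trans (LocalEven.normalizer_le_normalizer_cent _)))
      Subgroup.inf_normalizer_le_normalizer_inf) ?_
    refine LocalEven.isPGroup_of_coprime fun c hc hcop => ?_
    have hcCB := hD hc
    have hZ : (Nat.card ↥(Subgroup.zpowers c)).Coprime p := LocalEven.coprime_zpowers hcop
    have h1 : ⁅R, Subgroup.zpowers c⁆ = ⊥ := by
      refine Coprime.commutator_eq_bot_of_PxQ hB hZ ?_ _ R rfl (LocalEven.isPGroup_op K)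
        (hBK.trans hRK) (Subgroup.zpowers_le.mpr (hRK (hCBK hcCB))) ?_
      · rw [Subgroup.commutator_comm, Subgroup.commutator_eq_bot_iff_le_centralizer]
        exact Subgroup.zpowers_le.mpr hcCB
      · rw [Subgroup.commutator_comm, Subgroup.commutator_eq_bot_iff_le_centralizer]
        exact Subgroup.zpowers_le.mpr (Subgroup.centralizer_le
          (SetLike.coe_subset_coe.mpr (hRop.trans hop)) (Subgroup.mem_inf.mp hc).2)
    rw [Subgroup.commutator_comm, Subgroup.commutator_eq_bot_iff_le_centralizer] at h1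
    have h2 : c ∈ R := hK (Subgroup.mem_inf.mpr ⟨hCBK hcCB, h1 (Subgroup.mem_zpowers c)⟩)
    obtain ⟨k, hk⟩ := IsPGroup.iff_orderOf.mp (LocalEven.isPGroup_op K) ⟨c, h2⟩
    rw [Subgroup.orderOf_mk] at hk
    exact orderOf_eq_one_iff.mp (Nat.eq_one_of_dvd_coprimes (hcop.pow_right k) dvd_rfl hk.dvd)
  refine ⟨LocalEven.generalizedFitting_eq_pCore_iff.mpr (main M ?_ ?_),
    LocalEven.generalizedFitting_eq_pCore_iff.mpr (main CB le_rfl inf_le_left)⟩
  · refine LocalEven.le_op ((LocalEven.op_le CB).trans hCBM) ?_ (LocalEven.isPGroup_op CB)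
    intro g hg
    rw [← LocalEven.cj_eq_self_iff, LocalEven.op, ← LocalEven.map_pCore_cj,
      LocalEven.cj_eq_self_iff.mpr (LocalEven.normalizer_le_normalizer_cent B hg)]
  · exact inf_le_right.trans (Subgroup.centralizer_le (SetLike.coe_subset_coe.mpr
      (LocalEven.le_op Subgroup.le_normalizer le_rfl hB)))

end Cfsg.Agent.S2922
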