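import Cfsg.Statements.S2924
import Cfsg.Agent.LocalEven.InvertedCores
import Cfsg.Agent.S0028
import Cfsg.Agent.Components.FStar

set_option autoImplicit false
open Cfsg

namespace Cfsg.Agent.S2924

/-- Let X be a finite group and Y an elementary abelian 2-subgroup of X of order at least 8 such that C_X(x) has no components (E(C_X(x)) = 1) for every nontrivial x ∈ Y, and F*(C_X(z)) = O₂(C_X(z)) for some nontrivial z ∈ Y. Then the subgroup generated by the cores O(C_X(y)), y ∈ Y nontrivial, has odd order and is normalized by N_X(Y). -/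
theorem result {X : Type*} [Group X] [Finite X] (Y : Subgroup X) (hY : Cfsg.IsElementaryAbelian 2 Y) (h8 : 8 ≤ Nat.card ↥Y) (hE : ∀ x ∈ Y, x ≠ 1 → Cfsg.layer ↥(Subgroup.centralizer ({x} : Set X)) = ⊥) (hz : ∃ z ∈ Y, z ≠ 1 ∧ Cfsg.generalizedFittingSubgroup ↥(Subgroup.centralizer ({z} : Set X)) = Cfsg.pCore 2 ↥(Subgroup.centralizer ({z} : Set X))) : Odd (Nat.card ↥(⨆ y : {y : X // y ∈ Y ∧ y ≠ 1}, (Cfsg.oddCore ↥(Subgroup.centralizer ({(y : X)} : Set X))).map (Subgroup.centralizer ({(y : X)} : Set X)).subtype)) ∧ Subgroup.normalizer (Y : Set X) ≤ Subgroup.normalizer ((⨆ y : {y : X // y ∈ Y ∧ y ≠ 1}, (Cfsg.oddCore ↥(Subgroup.centralizer ({(y : X)} : Set X))).map (Subgroup.centralizer ({(y : X)} : Set X)).subtype : Subgroup X) : Set X) := by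
  classical
  haveI : Fact (Nat.Prime 2) := ⟨Nat.prime_two⟩
  obtain ⟨z, hzY, hz1, hzF⟩ := hz
  have hcm : ∀ a ∈ Y, ∀ b ∈ Y, a * b = b * a := fun a ha b hb => Cfsg.Agent.PLocal.comm_of_EA hY ha hb
  have hsq : ∀ a ∈ Y, a * a = 1 := fun a ha => by rw [← pow_two]; exact hY.2 a ha
  have hzz : z * z = 1 := hsq z hzY
  let θ : X → Subgroup X := fun y => (Cfsg.oddCore ↥(Subgroup.centralizer ({y} : Set X))).map
    (Subgroup.centralizer ({y} : Set X)).subtype
  have hθC : ∀ y, θ y ≤ Subgroup.centralizer ({y} : Set X) := fun y => Subgroup.map_subtype_le _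
  have hθcop : ∀ y, (Nat.card ↥(θ y)).Coprime 2 := fun y => by
    show (Nat.card ↥((Cfsg.oddCore _).map _)).Coprime 2
    rw [Cfsg.Agent.Core.card_map_subtype]
    exact Cfsg.Agent.Core.card_pPrimeCore_coprime 2 _
  have hθn : ∀ y g, g ∈ Subgroup.centralizer ({y} : Set X) → ∀ t ∈ θ y, g * t * g⁻¹ ∈ θ y := by
    rintro y g hg _ ⟨t, ht, rfl⟩
    exact ⟨⟨g, hg⟩ * t * ⟨g, hg⟩⁻¹, (inferInstance :
      (Cfsg.oddCore ↥(Subgroup.centralizer ({y} : Set X))).Normal).conj_mem t ht _, rfl⟩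
  set H := Subgroup.centralizer ({z} : Set X) with hH
  obtain ⟨-, hO1⟩ := Cfsg.Agent.Components.generalizedFitting_eq_pCore_iff.mp hzF
  set U := (Cfsg.pCore 2 ↥H).map H.subtype with hU
  have hUp : IsPGroup 2 ↥U := (Cfsg.Agent.Core.isPGroup_pCore 2 ↥H).map _
  have hUn : ∀ g ∈ H, ∀ u ∈ U, g * u * g⁻¹ ∈ U := by
    rintro g hg _ ⟨t, ht, rfl⟩
    exact ⟨⟨g, hg⟩ * t * ⟨g, hg⟩⁻¹, (inferInstance :
      (Cfsg.pCore 2 ↥H).Normal).conj_mem t ht _, rfl⟩
  have hHn : H ≤ Subgroup.normalizer (U : Set X) := fun g hg =>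
    Cfsg.Agent.Coprime.mem_normalizer_of_conj_mem (hUn g hg)
  have hsing : ∀ a ∈ Y, ∀ b ∈ Y, a ∈ Subgroup.centralizer ({b} : Set X) := fun a ha b hb =>
    Subgroup.mem_centralizer_singleton_iff.mpr (hcm a ha b hb)
  -- the involution fixes no nontrivial element of a core
  have hR : ∀ y ∈ Y, θ y ⊓ H = ⊥ := by
    intro y hy
    have hyH : y ∈ H := hsing y hy z hzY
    have hcen := Cfsg.Agent.S0028.result 2 (Subgroup.zpowers y) (θ y ⊓ H) U
      (fun a => ⟨1, Subtype.ext (by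
        obtain ⟨i, hi⟩ := Subgroup.mem_zpowers_iff.mp a.2
        show (a : X) ^ 2 ^ 1 = 1
        rw [← hi, pow_one, ← zpow_natCast, zpow_comm, zpow_natCast, hY.2 y hy, one_zpow])⟩)
      ((hθcop y).coprime_dvd_left (Subgroup.card_dvd_of_le inf_le_left)) hUp
      (Subgroup.zpowers_le.mpr (fun r hr => Subgroup.mem_centralizer_singleton_iff.mp (hθC y hr.1)))
      ((Subgroup.zpowers_le.mpr hyH).trans hHn) (inf_le_right.trans hHn) ?_
    · rw [eq_bot_iff]
      intro r hr
      have h1 : (⟨r, hr.2⟩ : ↥H) ∈ Cfsg.pCore 2 ↥H := by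
        rw [← hzF]
        refine Cfsg.Agent.Components.centralizer_generalizedFitting_le ?_
        intro u hu
        rw [hzF] at hu
        exact Subtype.ext (hcen hr u ⟨u, hu, rfl⟩)
      obtain ⟨k, hk⟩ := Cfsg.Agent.Core.isPGroup_pCore 2 ↥H ⟨_, h1⟩
      refine Subgroup.mem_bot.mpr (orderOf_eq_one_iff.mp ?_)
      refine Nat.eq_one_of_dvd_coprimes (((hθcop y).coprime_dvd_left
        (Subgroup.orderOf_dvd_natCard _ hr.1)).pow_right k) dvd_rfl ?_
      exact orderOf_dvd_of_pow_eq_one (congrArg (fun a : ↥(Cfsg.pCore 2 ↥H) => ((a : ↥H) : X)) hk)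
    · intro v hv r hr
      have hvy : v ∈ Subgroup.centralizer ({y} : Set X) :=
        Subgroup.mem_centralizer_singleton_iff.mpr (hv.2 y (Subgroup.mem_zpowers y)).symm
      have h1 : v * r * v⁻¹ * r⁻¹ ∈ θ y ⊓ U := by
        refine ⟨(θ y).mul_mem (hθn y v hvy r hr.1) ((θ y).inv_mem hr.1), ?_⟩
        have h2 := U.mul_mem hv.1 (hUn r hr.2 _ (U.inv_mem hv.1))
        have e : v * (r * v⁻¹ * r⁻¹) = v * r * v⁻¹ * r⁻¹ := by group
        rwa [e] at h2
      have hb : θ y ⊓ U = ⊥ := by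
        obtain ⟨k, hk⟩ := IsPGroup.iff_card.mp hUp
        exact Subgroup.inf_eq_bot_of_coprime (hk ▸ (hθcop y).pow_right k)
      rw [hb, Subgroup.mem_bot, mul_inv_eq_one, mul_inv_eq_iff_eq_mul] at h1
      exact h1.symm
  have hinv : ∀ y ∈ Y, ∀ t ∈ θ y, z * t * z = t⁻¹ := by
    intro y hy
    have hz' : z⁻¹ = z := inv_eq_of_mul_eq_one_left hzz
    refine Cfsg.Agent.LocalEven.inverts_of_fixed_point_free hzz (hθcop y) (fun t ht => ?_) fun t ht he => ?_
    · have := hθn y z (hsing z hzY y hy) t ht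
      rwa [hz'] at this
    · have : t ∈ θ y ⊓ H := ⟨ht, Subgroup.mem_centralizer_singleton_iff.mpr (by
        calc t * z = z * t * z * z := by rw [he]
          _ = z * t := by rw [mul_assoc (z * t), hzz, mul_one])⟩
      rw [hR y hy] at this
      exact Subgroup.mem_bot.mp this
  have hab : ∀ y ∈ Y, ∀ a ∈ θ y, ∀ b ∈ θ y, a * b = b * a := fun y hy =>
    Cfsg.Agent.LocalEven.comm_of_inverted hzz (hinv y hy)
  -- balance
  have hbal : ∀ x ∈ Y, ∀ y ∈ Y, y ≠ 1 → θ x ⊓ Subgroup.centralizer ({y} : Set X) ≤ θ y := by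
    intro x hx y hy hy1
    set Cy := Subgroup.centralizer ({y} : Set X) with hCy
    let z' : ↥Cy := ⟨z, hsing z hzY y hy⟩
    have hzE : Cfsg.layer ↥(Subgroup.centralizer ({z'} : Set ↥Cy)) = ⊥ := by
      have hy' : y ∈ H := hsing y hy z hzY
      let y' : ↥H := ⟨y, hy'⟩
      let N := Subgroup.normalizer ((Subgroup.zpowers y' : Subgroup ↥H) : Set ↥H)
      have hN : ∀ g : ↥H, g ∈ N ↔ (g : X) * y = y * g := by
        intro g
        refine ⟨fun hg => ?_, fun hg => ?_⟩
        · have h1 := (Subgroup.mem_normalizer_iff.mp hg y').mp (Subgroup.mem_zpowers y')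
          obtain ⟨i, hi⟩ := Subgroup.mem_zpowers_iff.mp h1
          have h2 : y ^ i = (g : X) * y * (g : X)⁻¹ := congrArg Subtype.val hi
          rcases Int.even_or_odd i with ⟨k, rfl⟩ | ⟨k, rfl⟩
          · exfalso
            refine hy1 ?_
            rw [← two_mul, zpow_mul, zpow_two, hsq y hy, one_zpow] at h2
            exact (conj_eq_one_iff.mp h2.symm)
          · rw [zpow_add_one, zpow_mul, zpow_two, hsq y hy, one_zpow, one_mul] at h2
            exact mul_inv_eq_iff_eq_mul.mp h2.symm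
        · refine Subgroup.centralizer_le_normalizer _ ?_
          intro a ha
          obtain ⟨i, rfl⟩ := Subgroup.mem_zpowers_iff.mp ha
          exact ((Commute.zpow_right (show Commute g y' from Subtype.ext hg) i).eq).symm
      let e : ↥N ≃* ↥(Subgroup.centralizer ({z'} : Set ↥Cy)) :=
        { toFun := fun g => ⟨⟨(g.1 : X), Subgroup.mem_centralizer_singleton_iff.mpr ((hN g.1).mp g.2)⟩,
            Subgroup.mem_centralizer_singleton_iff.mpr
              (Subtype.ext (Subgroup.mem_centralizer_singleton_iff.mp g.1.2))⟩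
          invFun := fun g => ⟨⟨((g : ↥Cy) : X), Subgroup.mem_centralizer_singleton_iff.mpr
            (congrArg Subtype.val (Subgroup.mem_centralizer_singleton_iff.mp g.2))⟩,
            (hN _).mpr (Subgroup.mem_centralizer_singleton_iff.mp g.1.2)⟩
          left_inv := fun g => rfl
          right_inv := fun g => rfl
          map_mul' := fun a b => rfl }
      have h := Cfsg.Agent.Components.fstar_normalizer_eq_pCore hzF (P := Subgroup.zpowers y')
        (fun a => ⟨1, by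
          obtain ⟨i, hi⟩ := Subgroup.mem_zpowers_iff.mp a.2
          refine Subtype.ext ?_
          show (a : ↥H) ^ 2 ^ 1 = 1
          rw [← hi, pow_one, ← zpow_natCast, zpow_comm, zpow_natCast,
            show y' ^ 2 = 1 from Subtype.ext (hY.2 y hy), one_zpow]⟩)
      rw [← Cfsg.Agent.Components.layer_map e,
        (Cfsg.Agent.Components.generalizedFitting_eq_pCore_iff.mp h).1, Subgroup.map_bot]
    have hL : Cfsg.pLayer 2 ↥Cy = ⊥ := Cfsg.Agent.LocalEven.pLayer_two_eq_bot (hE y hy hy1)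
      (z := z') (Subtype.ext hzz) (fun o ho => Subtype.ext (hinv y hy o ⟨o, ho, rfl⟩)) hzE
    let x' : ↥Cy := ⟨x, hsing x hx y hy⟩
    intro t ht
    have h1 := Cfsg.Agent.Components.le_pPrimeCore_of_local hL (P := Subgroup.zpowers x')
      (W := (θ x).subgroupOf Cy) ?_ ?_ ?_ ?_ (show (⟨t, ht.2⟩ : ↥Cy) ∈ (θ x).subgroupOf Cy from ht.1)
    · exact ⟨⟨t, ht.2⟩, h1, rfl⟩
    · intro a
      refine ⟨1, Subtype.ext ?_⟩
      obtain ⟨i, hi⟩ := Subgroup.mem_zpowers_iff.mp a.2
      show (a : ↥Cy) ^ 2 ^ 1 = 1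
      rw [← hi, pow_one, ← zpow_natCast, zpow_comm, zpow_natCast,
        show x' ^ 2 = 1 from Subtype.ext (hY.2 x hx), one_zpow]
    · intro w hw a ha
      obtain ⟨i, rfl⟩ := Subgroup.mem_zpowers_iff.mp ha
      exact ((Commute.zpow_right (show Commute w x' from
        Subtype.ext (Subgroup.mem_centralizer_singleton_iff.mp (hθC x hw))) i).eq).symm
    · refine (hθcop x).coprime_dvd_left ?_
      rw [← Cfsg.Agent.Core.card_map_subtype]
      exact Subgroup.card_dvd_of_le (Subgroup.map_comap_le _ _)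
    · intro g hg
      refine Cfsg.Agent.Coprime.mem_normalizer_of_conj_mem fun w hw => ?_
      exact hθn x g (Subgroup.mem_centralizer_singleton_iff.mpr
        (congrArg Subtype.val (hg x' (Subgroup.mem_zpowers x')).symm)) w hw
  -- all generators commute
  set W := ⨆ y : {y : X // y ∈ Y ∧ y ≠ 1}, θ y with hW
  let S : Set X := {t | ∃ y ∈ Y, y ≠ 1 ∧ t ∈ θ y ∧ ∃ B ≤ Y, B.relIndex Y ≤ 2 ∧
    t ∈ Subgroup.centralizer (B : Set X)}
  have hWS : W ≤ Subgroup.closure S := by
    refine iSup_le fun y => ?_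
    have hAX : Y ≤ Subgroup.normalizer (θ y : Set X) := fun g hg =>
      Cfsg.Agent.Coprime.mem_normalizer_of_conj_mem (hθn y g (hsing g hg y y.2.1))
    rw [Cfsg.Agent.Components.le_iSup_hyperplanes (p := 2) hY
      ((Nat.Prime.coprime_iff_not_dvd Nat.prime_two).mp (Nat.coprime_comm.mp (hθcop y))) hAX]
    exact iSup_le fun B t ht => Subgroup.subset_closure
      ⟨y, y.2.1, y.2.2, ht.1, B, B.2.1, B.2.2, ht.2⟩
  have hSW : Subgroup.closure S ≤ W := by
    rw [Subgroup.closure_le]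
    rintro t ⟨y, hy, hy1, ht, -⟩
    exact (show θ y ≤ W from le_iSup (fun y : {y : X // y ∈ Y ∧ y ≠ 1} => θ y) ⟨y, hy, hy1⟩) ht
  have hWeq : W = Subgroup.closure S := le_antisymm hWS hSW
  have hcomm : ∀ a ∈ S, ∀ b ∈ S, a * b = b * a := by
    rintro a ⟨y, hy, hy1, ha, B, hB, hBi, haB⟩ b ⟨y', hy', hy1', hb, B', hB', hBi', hbB⟩
    obtain ⟨c, ⟨hcB, hcB'⟩, hc1⟩ := Cfsg.Agent.Components.hyperplanes_meet (p := 2)
      (A := Y) (by norm_num; exact h8) hBi hBi' hB
    exact hab c (hB hcB) a (hbal y hy c (hB hcB) hc1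
      ⟨ha, Subgroup.mem_centralizer_singleton_iff.mpr (haB c hcB).symm⟩) b
      (hbal y' hy' c (hB hcB) hc1 ⟨hb, Subgroup.mem_centralizer_singleton_iff.mpr (hbB c hcB').symm⟩)
  have hSo : ∀ a ∈ S, Odd (orderOf a) := by
    rintro a ⟨y, -, -, ha, -⟩
    exact Nat.coprime_two_right.mp ((hθcop y).coprime_dvd_left (Subgroup.orderOf_dvd_natCard _ ha))
  refine ⟨?_, ?_⟩
  · show Odd (Nat.card ↥W)
    have hWc : ∀ a ∈ W, ∀ b ∈ W, a * b = b * a := by
      rw [hWeq]
      intro a ha b hb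
      haveI := Subgroup.isMulCommutative_closure hcomm
      exact congrArg Subtype.val (mul_comm' (⟨a, ha⟩ : ↥(Subgroup.closure S)) ⟨b, hb⟩)
    have hodd : ∀ a ∈ W, Odd (orderOf a) := by
      rw [hWeq]
      intro a ha
      induction ha using Subgroup.closure_induction with
      | mem a ha => exact hSo a ha
      | one => simp
      | mul a b ha' hb' iha ihb =>
        refine (Nat.odd_mul.mpr ⟨iha, ihb⟩).of_dvd_nat ?_
        exact (show Commute a b from hWc a (hWeq ▸ ha') b (hWeq ▸ hb')).orderOf_mul_dvd_mul_orderOf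
      | inv a _ iha => rwa [orderOf_inv]
    rw [← Nat.not_even_iff_odd, even_iff_two_dvd]
    intro hd
    obtain ⟨a, ha⟩ := exists_prime_orderOf_dvd_card' 2 hd
    have := hodd a a.2
    rw [Subgroup.orderOf_coe, ha] at this
    exact absurd this (by decide)
  · intro g hg
    show g ∈ Subgroup.normalizer (W : Set X)
    refine Subgroup.mem_normalizer_fintype fun w hw => ?_
    have hmap : W.map (MulAut.conj g).toMonoidHom ≤ W := by
      rw [hW, Subgroup.map_iSup]
      refine iSup_le fun y => ?_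
      have hgy : g * (y : X) * g⁻¹ ∈ Y := (Subgroup.mem_normalizer_iff.mp hg y).mp y.2.1
      refine le_trans ?_ (le_iSup (fun y : {y : X // y ∈ Y ∧ y ≠ 1} => θ y)
        ⟨g * (y : X) * g⁻¹, hgy, fun h => y.2.2 (conj_eq_one_iff.mp h)⟩)
      exact (Cfsg.Agent.LocalEven.core_centralizer_conj g (y : X)).le
    exact hmap ⟨w, hw, rfl⟩


end Cfsg.Agent.S2924
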