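import Cfsg.Statements.S2925
import Cfsg.Agent.Components.Pump

set_option autoImplicit false
open Cfsg

namespace Cfsg.Agent.S2925

/-- Let K be a component of the finite group X and T a Sylow 2-subgroup of X. If some abelian normal subgroup Y of T does not normalize K, then K ⧸ Z(K) has abelian Sylow 2-subgroups. -/
theorem result {X : Type*} [Group X] [Finite X] (K : Subgroup X) (hK : Cfsg.IsComponent K) (T : Sylow 2 X) (Y : Subgroup X) (hYT : Y ≤ (T : Subgroup X)) (hYn : (Y.subgroupOf (T : Subgroup X)).Normal) (hYab : IsMulCommutative ↥Y) (hnot : ¬ Y ≤ Subgroup.normalizer (K : Set X)) (P : Sylow 2 (↥K ⧸ Subgroup.center ↥K)) : IsMulCommutative ↥(P : Subgroup (↥K ⧸ Subgroup.center ↥K)) :=by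
  haveI : Fact (Nat.Prime 2) := ⟨Nat.prime_two⟩
  open Components in
  obtain ⟨y, hy, hyn⟩ := SetLike.not_le_iff_exists.mp hnot
  set L := LocalCore.cj y K with hL
  have hne : L ≠ K := fun h => hyn (LocalCore.cj_eq_iff.mp h)
  have hc : L ≤ Subgroup.centralizer (K : Set X) := components_commute_le (isComponent_conj hK y) hK hne
  set S := (T : Subgroup X).subgroupOf K with hS
  have hSi : ¬ 2 ∣ S.index := not_dvd_relIndex_of_isSubnormal T hK.1
  have hSp : IsPGroup 2 ↥S := T.isPGroup'.comap_subtype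
  set π := QuotientGroup.mk' (Subgroup.center ↥K) with hπ
  have hcomm : ∀ s ∈ S, ∀ r ∈ S, π s * π r = π r * π s := by
    intro s hs r hr
    have hY : ∀ v : ↥K, v ∈ S → (v : X) * (y * (v : X)⁻¹ * y⁻¹) ∈ Y := fun v hv => by
      have h1 : (v : X) * y * (v : X)⁻¹ ∈ Y := hYn.conj_mem ⟨y, hYT hy⟩ hy ⟨(v : X), hv⟩
      have h2 := mul_mem h1 (inv_mem hy)
      rw [show (v : X) * (y * (v : X)⁻¹ * y⁻¹) = (v : X) * y * (v : X)⁻¹ * y⁻¹ by group]
      exact h2
    set a := y * (s : X)⁻¹ * y⁻¹ with ha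
    set b := y * (r : X)⁻¹ * y⁻¹ with hb
    have haL : a ∈ L := LocalCore.mem_cj (inv_mem s.2)
    have hbL : b ∈ L := LocalCore.mem_cj (inv_mem r.2)
    have hcom : ((s : X) * a) * ((r : X) * b) = ((r : X) * b) * ((s : X) * a) :=
      congrArg Subtype.val (hYab.is_comm.comm ⟨_, hY s hs⟩ ⟨_, hY r hr⟩)
    have e1 : (r : X) * a = a * r := Subgroup.mem_centralizer_iff.mp (hc haL) r r.2
    have e2 : (s : X) * b = b * s := Subgroup.mem_centralizer_iff.mp (hc hbL) s s.2
    have hkey : ((r : X) * s)⁻¹ * ((s : X) * r) = (b * a) * (a * b)⁻¹ := by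
      have h1 : (s : X) * r * (a * b) = (r : X) * s * (b * a) := by
        calc (s : X) * r * (a * b) = (s : X) * ((r : X) * a) * b := by group
          _ = (s : X) * a * ((r : X) * b) := by rw [e1]; group
          _ = (r : X) * b * ((s : X) * a) := hcom
          _ = (r : X) * (b * s) * a := by group
          _ = (r : X) * s * (b * a) := by rw [← e2]; group
      calc ((r : X) * s)⁻¹ * ((s : X) * r) = ((r : X) * s)⁻¹ * ((s : X) * r * (a * b)) * (a * b)⁻¹ := by group
        _ = _ := by rw [h1]; group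
    rw [← map_mul, ← map_mul]
    refine ((QuotientGroup.eq (a := r * s) (b := s * r)).mpr ?_).symm
    rw [Subgroup.mem_center_iff]
    intro k
    apply Subtype.ext
    show (k : X) * (((r : X) * s)⁻¹ * ((s : X) * r)) = ((r : X) * s)⁻¹ * ((s : X) * r) * (k : X)
    rw [hkey]
    exact Subgroup.mem_centralizer_iff.mp (hc (mul_mem (mul_mem hbL haL) (inv_mem (mul_mem haL hbL)))) k k.2
  let S0 : Sylow 2 ↥K := hSp.toSylow hSi
  let S1 : Sylow 2 (↥K ⧸ Subgroup.center ↥K) := S0.mapSurjective (QuotientGroup.mk'_surjective _)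
  obtain ⟨g, hg⟩ := MulAction.exists_smul_eq (↥K ⧸ Subgroup.center ↥K) S1 P
  refine ⟨⟨?_⟩⟩
  rintro ⟨u, hu⟩ ⟨v, hv⟩
  rw [← hg] at hu hv
  obtain ⟨_, ⟨s, hs, rfl⟩, rfl⟩ := hu
  obtain ⟨_, ⟨r, hr, rfl⟩, rfl⟩ := hv
  apply Subtype.ext
  show MulAut.conj g (π s) * MulAut.conj g (π r) = MulAut.conj g (π r) * MulAut.conj g (π s)
  rw [← map_mul, hcomm s hs r hr, map_mul]

end Cfsg.Agent.S2925
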