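import Cfsg.Statements.S2928
import Cfsg.Agent.PermGroups.FourSetCode
-- import your own Cfsg.Agent.* helpers here

set_option autoImplicit false
open Cfsg

namespace Cfsg.Agent.S2928

/-- Let n ≥ 8 and let H be a subgroup of the symmetric group of degree n whose generalized Fitting subgroup F*(H) is quasisimple. If H contains a Sylow 2-subgroup of the alternating group of degree n, then F*(H) is isomorphic to an alternating group of degree m for some m ∈ {n − 3, n − 2, n − 1, n}. -/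
theorem result (n : ℕ) (hn : 8 ≤ n) (H : Subgroup (Equiv.Perm (Fin n))) (hF : Cfsg.IsQuasisimple ↥(Cfsg.generalizedFittingSubgroup ↥H)) (hS : ∃ P : Sylow 2 ↥(alternatingGroup (Fin n)), ((P : Subgroup ↥(alternatingGroup (Fin n))).map (alternatingGroup (Fin n)).subtype) ≤ H) : ∃ m : ℕ, (m = n - 3 ∨ m = n - 2 ∨ m = n - 1 ∨ m = n) ∧ Nonempty (↥(Cfsg.generalizedFittingSubgroup ↥H) ≃* ↥(alternatingGroup (Fin m))) := by
  classical
  obtain ⟨P, hP⟩ := hS
  have hc := Cfsg.Agent.PermGroups.FourSetFStar.moved_compl_card hF P hP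
  rw [Finset.card_compl, Fintype.card_fin] at hc
  have hle := (Finset.card_le_univ (Cfsg.Agent.PermGroups.FourSetFStar.moved H)).trans
    (le_of_eq (Fintype.card_fin n))
  have h8 := Cfsg.Agent.PermGroups.FourSetFStar.eight_le hn hF P hP
  obtain ⟨t, ht, u₀, hu₀, hne⟩ :=
    Cfsg.Agent.PermGroups.FourSetFStar.exists_three hF P hP h8
  obtain ⟨S, h5, ⟨e⟩, hmem⟩ :=
    Cfsg.Agent.PermGroups.ThreeCycleFStar.exists_altOn hF ⟨t, ht⟩
  have hsub : Cfsg.Agent.PermGroups.FourSetFStar.moved H ⊆ S := by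
    intro u hu
    obtain ⟨h, hh, rfl⟩ :=
      Cfsg.Agent.PermGroups.FourSetFStar.transitive hF P hP hu₀ hu
    set g : Equiv.Perm (Fin n) := h * t * h⁻¹ with hg
    have hgH : g ∈ H := H.mul_mem (H.mul_mem hh t.2) (H.inv_mem hh)
    have hg3 : g.IsThreeCycle := by
      rw [hg, Equiv.Perm.IsThreeCycle, Equiv.Perm.cycleType_conj]; exact ht
    have hgu : g (h u₀) ≠ h u₀ := by simpa [hg] using hne
    obtain ⟨h1, h2, h3⟩ := Cfsg.Agent.Suzuki.AutAlt.ne_two hg3 hgu
    exact hmem _ _ _ h1 h2 h3 (by rwa [← Cfsg.Agent.Suzuki.AutAlt.eq_cyc hg3 hgu])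
  have h1 := Finset.card_le_card hsub
  have h2 := (Finset.card_le_univ S).trans (le_of_eq (Fintype.card_fin n))
  refine ⟨S.card, by omega, ⟨e.trans (Equiv.altCongrHom (Fintype.equivFinOfCardEq (by simp)))⟩⟩

end Cfsg.Agent.S2928
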