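import Cfsg.Statements.S2929
import Cfsg.Agent.PermGroups.ThreeCycleFStar
-- import your own Cfsg.Agent.* helpers here

set_option autoImplicit false
open Cfsg

namespace Cfsg.Agent.S2929

/-- Let n ≥ 5 and let H be a subgroup of the symmetric group of degree n whose generalized Fitting subgroup F*(H) is quasisimple. If H contains a Sylow 3-subgroup of the symmetric group, then F*(H) is isomorphic to an alternating group of degree m for some m ∈ {n − 2, n − 1, n}. -/
theorem result (n : ℕ) (hn : 5 ≤ n) (H : Subgroup (Equiv.Perm (Fin n))) (hF : Cfsg.IsQuasisimple ↥(Cfsg.generalizedFittingSubgroup ↥H)) (hS : ∃ P : Sylow 3 (Equiv.Perm (Fin n)), (P : Subgroup (Equiv.Perm (Fin n))) ≤ H) : ∃ m : ℕ, (m = n - 2 ∨ m = n - 1 ∨ m = n) ∧ Nonempty (↥(Cfsg.generalizedFittingSubgroup ↥H) ≃* ↥(alternatingGroup (Fin m))) := by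
  obtain ⟨P, hP⟩ := hS
  obtain ⟨φ, hφ, hc⟩ := Cfsg.Agent.PermGroups.ThreeCycleFStar.card_bound H P hP
  have hne : ∀ i a b, a ≠ b → φ (i, a) ≠ φ (i, b) := fun i a b h e => h (congrArg Prod.snd (hφ e))
  have i₀ : Fin (n / 3) := ⟨0, by omega⟩
  obtain ⟨S, h5, ⟨e⟩, hmem⟩ := Cfsg.Agent.PermGroups.ThreeCycleFStar.exists_altOn hF
    ⟨⟨_, hc i₀⟩, Cfsg.Agent.Suzuki.AutAlt.cyc_three (hne i₀ 0 1 (by simp))
      (hne i₀ 0 2 (by simp)) (hne i₀ 1 2 (by simp))⟩
  have hrot : ∀ i a, φ (i, a) ∈ S := by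
    intro i a
    have h01 := hne i 0 1 (by simp)
    have h02 := hne i 0 2 (by simp)
    have h12 := hne i 1 2 (by simp)
    have h1 := hc i
    rw [Cfsg.Agent.PermGroups.ThreeCycleFStar.cyc_rot h01 h02 h12] at h1
    have h2 := h1
    rw [Cfsg.Agent.PermGroups.ThreeCycleFStar.cyc_rot h12 h01.symm h02.symm] at h2
    fin_cases a
    · exact hmem _ _ _ h01 h02 h12 (hc i)
    · exact hmem _ _ _ h12 h01.symm h02.symm h1
    · exact hmem _ _ _ h02.symm h12.symm h01 h2
  have hlow : 3 * (n / 3) ≤ S.card := by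
    have := Finset.card_le_card (s := Finset.univ.image φ) (t := S) (by
      intro u hu
      obtain ⟨⟨i, a⟩, -, rfl⟩ := Finset.mem_image.1 hu
      exact hrot i a)
    rw [Finset.card_image_of_injective _ hφ] at this
    simpa [mul_comm] using this
  have hup : S.card ≤ n := by simpa using Finset.card_le_univ S
  refine ⟨S.card, ?_, ⟨e.trans (Equiv.altCongrHom (Fintype.equivFinOfCardEq (by simp)))⟩⟩
  omega

end Cfsg.Agent.S2929
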