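import Cfsg.Statements.S2930
import Cfsg.Agent.PermGroups.MinimalThree
import Cfsg.Agent.Components.FStar
-- import your own Cfsg.Agent.* helpers here

set_option autoImplicit false
open Cfsg

namespace Cfsg.Agent.S2930

/-- Let X be a finite 3-minimal group (a Sylow 3-subgroup is not normal and lies in a unique maximal subgroup) whose generalized Fitting subgroup is isomorphic to an alternating group of degree n ≥ 5. Then X = F*(X), and n = 6, n = 9, or n = 3ᵃ + 1 for some a ≥ 2. -/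
theorem result {X : Type*} [Group X] [Finite X] (hX : Cfsg.IsPMinimal 3 X) (n : ℕ) (hn : 5 ≤ n) (hF : Nonempty (↥(Cfsg.generalizedFittingSubgroup X) ≃* ↥(alternatingGroup (Fin n)))) : Cfsg.generalizedFittingSubgroup X = ⊤ ∧ (n = 6 ∨ n = 9 ∨ ∃ a : ℕ, 2 ≤ a ∧ n = 3 ^ a + 1) := by
  obtain ⟨e⟩ := hF
  haveI : Fact (Nat.Prime 3) := ⟨Nat.prime_three⟩
  set F := Cfsg.generalizedFittingSubgroup X with hFdef
  haveI hFn : F.Normal := by rw [hFdef]; infer_instance
  have hC : Subgroup.centralizer (F : Set X) ≤ F :=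
    Cfsg.Agent.Components.centralizer_generalizedFitting_le
  obtain ⟨P⟩ : Nonempty (Sylow 3 X) := inferInstance
  have hPF : (P : Subgroup X) ≤ F := fun x hx => by
    refine Cfsg.Agent.PermGroups.MinimalThree.mem_of_three hn F hC e ?_
    obtain ⟨k, hk⟩ := P.isPGroup' ⟨x, hx⟩
    have hd : orderOf x ∣ 3 ^ k := orderOf_dvd_of_pow_eq_one (congrArg Subtype.val hk)
    obtain ⟨i, -, hi⟩ := (Nat.dvd_prime_pow Nat.prime_three).1 hd
    exact ⟨i, hi⟩
  obtain ⟨hPn, M, ⟨hM, hPM⟩, huniq⟩ := hX P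
  have hFtop : F = ⊤ := by
    by_contra hne
    obtain ⟨K, hK, hFK⟩ := (eq_top_or_exists_le_coatom F).resolve_left hne
    have hN : Subgroup.normalizer ((P : Subgroup X) : Set X) ≠ ⊤ := fun h =>
      hPn (Subgroup.normalizer_eq_top_iff.1 h)
    obtain ⟨K', hK', hNK⟩ := (eq_top_or_exists_le_coatom _).resolve_left hN
    have e1 := huniq K ⟨hK, hPF.trans hFK⟩
    have e2 := huniq K' ⟨hK', Subgroup.le_normalizer.trans hNK⟩
    subst e1 e2
    apply hK.1
    refine eq_top_iff.2 ?_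
    have hfr := Sylow.normalizer_sup_eq_top (N := F) (P.subtype hPF)
    have hmap : ((P.subtype hPF : Sylow 3 ↥F) : Subgroup ↥F).map F.subtype = (P : Subgroup X) := by
      rw [Sylow.coe_subtype, Subgroup.map_subgroupOf_eq_of_le hPF]
    rw [hmap] at hfr
    rw [← hfr]
    exact sup_le hNK hFK
  refine ⟨hFtop, Cfsg.Agent.PermGroups.MinimalThree.degrees hn ?_⟩
  let eX : X ≃* ↥(alternatingGroup (Fin n)) :=
    (Subgroup.topEquiv.symm.trans (MulEquiv.subgroupCongr hFtop.symm)).trans e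
  intro Q
  have hback : ∀ K : Subgroup X, (K.map eX.toMonoidHom).comap eX.toMonoidHom = K := fun K =>
    Subgroup.comap_map_eq_self_of_injective eX.injective K
  have hfwd : ∀ K : Subgroup ↥(alternatingGroup (Fin n)),
      (K.comap eX.toMonoidHom).map eX.toMonoidHom = K := fun K =>
    Subgroup.map_comap_eq_self_of_surjective eX.surjective K
  let O : Subgroup X ≃o Subgroup ↥(alternatingGroup (Fin n)) := eX.mapSubgroup
  let Q' : Sylow 3 X := Q.comapOfInjective eX.toMonoidHom eX.injective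
    (by rw [MonoidHom.range_eq_top.2 eX.surjective]; exact le_top)
  obtain ⟨hQn, K, ⟨hK, hQK⟩, hu⟩ := hX Q'
  have hQ' : (Q' : Subgroup X) = (Q : Subgroup _).comap eX.toMonoidHom := rfl
  refine ⟨fun h => hQn ?_, O K, ⟨(O.isCoatom_iff K).2 hK, ?_⟩, ?_⟩
  · rw [hQ']; exact h.comap _
  · show (Q : Subgroup _) ≤ K.map eX.toMonoidHom
    rw [← hfwd (Q : Subgroup _)]
    exact Subgroup.map_mono (hQ' ▸ hQK)
  · rintro K' ⟨hK', hQK'⟩
    have hco : IsCoatom (O.symm K') := (O.symm.isCoatom_iff K').2 hK'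
    have hle : (Q' : Subgroup X) ≤ O.symm K' := by
      rw [hQ']
      intro x hx
      obtain ⟨y, hy, hyx⟩ := (show eX x ∈ O (O.symm K') by rw [O.apply_symm_apply]; exact hQK' hx)
      rwa [← eX.injective hyx]
    rw [← hu _ ⟨hco, hle⟩, O.apply_symm_apply]

end Cfsg.Agent.S2930
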