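import Cfsg.Statements.S2931
import Cfsg.Agent.SmallOrder.SylowEight.Orth
import Cfsg.Agent.SmallOrder.SylowEight.Symp
import Cfsg.Agent.Linear.Sp42

set_option autoImplicit false
open Cfsg

namespace Cfsg.Agent.S2931

theorem sylow_transport {G H : Type*} [Group G] [Finite G] [Group H] [Finite H] (e : G ≃* H) (Q : Sylow 2 H) :
    ∃ Q₀ : Sylow 2 G, Nonempty (↥(Q₀ : Subgroup G) ≃* ↥(Q : Subgroup H)) := by
  refine ⟨Q.mapSurjective (f := e.symm.toMonoidHom) e.symm.surjective, ⟨?_⟩⟩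
  exact (e.symm.subgroupMap (Q : Subgroup H)).symm

theorem binary (K : Type) [Field K] (e : ZMod 2 ≃+* K) (a b : K)
    (hab : ∀ z₁ z₂ : K, z₁ ^ 2 + a * z₁ * z₂ + b * z₂ ^ 2 = 0 → z₁ = 0 ∧ z₂ = 0) : a = 1 ∧ b = 1 := by
  obtain ⟨a, rfl⟩ := e.surjective a
  obtain ⟨b, rfl⟩ := e.surjective b
  have h : ∀ z₁ z₂ : ZMod 2, z₁ ^ 2 + a * z₁ * z₂ + b * z₂ ^ 2 = 0 → z₁ = 0 ∧ z₂ = 0 := by
    intro z₁ z₂ hz
    have := hab (e z₁) (e z₂) (by rw [← map_zero e, ← hz]; simp only [map_add, map_mul, map_pow])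
    simpa using this
  have key : ∀ a b : ZMod 2, (∀ z₁ z₂ : ZMod 2, z₁ ^ 2 + a * z₁ * z₂ + b * z₂ ^ 2 = 0 → z₁ = 0 ∧ z₂ = 0) →
      a = 1 ∧ b = 1 := by decide
  obtain ⟨rfl, rfl⟩ := key a b h
  exact ⟨map_one e, map_one e⟩

/-- The Sylow 2-subgroups of the alternating group of degree 8 and of PSp₄(3) are isomorphic, and so are the Sylow 2-subgroups of the symmetric group of degree 8 and of the full isometry group of a non-degenerate quadratic form of minus type in dimension 6 over the field with 2 elements. -/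
theorem result (F : Type) [Field F] [Fintype F] (hF : Fintype.card F = 3) (K : Type) [Field K] [Fintype K] (hK : Fintype.card K = 2) (a b : K) (hab : ∀ z₁ z₂ : K, z₁ ^ 2 + a * z₁ * z₂ + b * z₂ ^ 2 = 0 → z₁ = 0 ∧ z₂ = 0) (P : Sylow 2 ↥(alternatingGroup (Fin 8))) (Q : Sylow 2 (Cfsg.PSp 2 F)) (P' : Sylow 2 (Equiv.Perm (Fin 8))) (Q' : Sylow 2 ↥(Cfsg.isometryGroup K (Cfsg.quadFormMinus 2 K a b))) : Nonempty (↥(P : Subgroup ↥(alternatingGroup (Fin 8))) ≃* ↥(Q : Subgroup (Cfsg.PSp 2 F))) ∧ Nonempty (↥(P' : Subgroup (Equiv.Perm (Fin 8))) ≃* ↥(Q' : Subgroup ↥(Cfsg.isometryGroup K (Cfsg.quadFormMinus 2 K a b)))) := by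
  classical
  refine ⟨?_, ?_⟩
  · let e0 := Cfsg.Agent.Linear.spCongr (l := Fin 2) (ZMod.ringEquivOfPrime F Nat.prime_three hF)
    let e : Cfsg.PSp 2 (ZMod 3) ≃* Cfsg.PSp 2 F := QuotientGroup.congr _ _ e0 (by
      refine le_antisymm ?_ fun x hx => ⟨e0.symm x, Subgroup.mem_center_iff.mpr fun y => e0.injective ?_, e0.apply_symm_apply x⟩
      · rintro _ ⟨x, hx, rfl⟩
        refine Subgroup.mem_center_iff.mpr fun y => e0.symm.injective ?_
        simp only [MonoidHom.coe_coe, map_mul, MulEquiv.symm_apply_apply]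
        exact Subgroup.mem_center_iff.mp hx _
      · simp only [map_mul, MulEquiv.apply_symm_apply]
        exact Subgroup.mem_center_iff.mp hx _)
    haveI : Finite (Cfsg.PSp 2 F) := Finite.of_equiv _ e.toEquiv
    obtain ⟨Q₀, ⟨f⟩⟩ := sylow_transport e Q
    obtain ⟨g⟩ := Cfsg.Agent.SmallOrder.SylowEight.symp_result P Q₀
    exact ⟨g.trans f⟩
  · obtain ⟨e⟩ : Nonempty (ZMod 2 ≃+* K) := ⟨ZMod.ringEquivOfPrime K Nat.prime_two hK⟩
    obtain ⟨rfl, rfl⟩ := binary K e a b hab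
    let eq := Cfsg.Agent.Forms.isometryGroupMapEquiv e (Cfsg.quadFormMinus 2 (ZMod 2) 1 1)
      (Cfsg.quadFormMinus 2 K 1 1) (fun v => by
        simp only [Cfsg.quadFormMinus, map_add, map_sum, map_mul, map_pow, map_one, one_mul,
          Function.comp_apply])
    obtain ⟨Q₀, ⟨f⟩⟩ := sylow_transport eq Q'
    obtain ⟨g⟩ := Cfsg.Agent.SmallOrder.SylowEight.orth_result P' Q₀
    exact ⟨g.trans f⟩

end Cfsg.Agent.S2931
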