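import Cfsg.Statements.S2958
import Cfsg.Agent.LocalEven.Conj


set_option autoImplicit false
open Cfsg

namespace Cfsg.Agent.S2958

/-- Let X, A, B be subgroups of a group G such that G is generated by the conjugates of X and every conjugate of X is contained in A or in B. Then A = G or B = G. -/
theorem result {G : Type*} [Group G] (X A B : Subgroup G) (hgen : (⨆ g : G, X.map (MulAut.conj g).toMonoidHom) = ⊤) (hcover : ∀ g : G, X.map (MulAut.conj g).toMonoidHom ≤ A ∨ X.map (MulAut.conj g).toMonoidHom ≤ B) : A = ⊤ ∨ B = ⊤ := by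
  open Cfsg.Agent.LocalEven in
  let I := {g : G // X.map (MulAut.conj g).toMonoidHom ≤ A ∧ ¬ X.map (MulAut.conj g).toMonoidHom ≤ B}
  let P : Subgroup G := ⨆ i : I, LocalEven.cj (i : G) X
  have hPA : P ≤ A := iSup_le fun i => i.2.1
  rcases isEmpty_or_nonempty I with hI | ⟨⟨i⟩⟩
  · right
    rw [eq_top_iff, ← hgen]
    exact iSup_le fun g => (hcover g).elim
      (fun h => by_contra fun hb => hI.false ⟨g, h, hb⟩) id
  have hnorm : (⊤ : Subgroup G) ≤ Subgroup.normalizer (P : Set G) := by
    rw [← hgen]
    refine iSup_le fun h => ?_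
    by_cases hB : X.map (MulAut.conj h).toMonoidHom ≤ B
    · have key : ∀ z ∈ LocalEven.cj h X, LocalEven.cj z P ≤ P := by
        intro z hz
        rw [LocalEven.cj, Subgroup.map_iSup]
        refine iSup_le fun j => ?_
        rw [show Subgroup.map (MulAut.conj z).toMonoidHom (LocalEven.cj (j : G) X) = LocalEven.cj (z * j) X
          from LocalEven.cj_cj z j X]
        have hnB : ¬ LocalEven.cj (z * j) X ≤ B := by
          intro hle
          apply j.2.2
          intro x hx
          have h1 : z * x * z⁻¹ ∈ B := hle (by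
            rw [← LocalEven.cj_cj]; exact LocalEven.conj_mem_cj hx)
          simpa [mul_assoc] using B.mul_mem (B.mul_mem (B.inv_mem (hB hz)) h1) (hB hz)
        exact le_iSup (fun i : I => LocalEven.cj (i : G) X)
          ⟨z * j, (hcover _).resolve_right hnB, hnB⟩
      intro z hz
      rw [← LocalEven.cj_eq_self_iff]
      refine le_antisymm (key z hz) ?_
      have := LocalEven.cj_mono (g := z) (key z⁻¹ (inv_mem hz))
      rwa [LocalEven.cj_cj, mul_inv_cancel, LocalEven.cj_one] at this
    · exact le_trans (le_iSup (fun i : I => LocalEven.cj (i : G) X) ⟨h, (hcover h).resolve_right hB, hB⟩)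
        Subgroup.le_normalizer
  left
  rw [eq_top_iff, ← hgen]
  refine iSup_le fun g => le_trans ?_ hPA
  have hi : LocalEven.cj (i : G) X ≤ P := le_iSup (fun i : I => LocalEven.cj (i : G) X) i
  have := LocalEven.cj_mono (g := g * (i : G)⁻¹) hi
  rw [LocalEven.cj_cj, inv_mul_cancel_right,
    LocalEven.cj_eq_self_iff.mpr (hnorm (Subgroup.mem_top _))] at this
  exact this

end Cfsg.Agent.S2958
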