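import Mathlib.GroupTheory.Perm.MaximalSubgroups
import Cfsg.Statements.S2963


set_option autoImplicit false
open Cfsg

namespace Cfsg.Agent.S2963

open Pointwise

/-- Let n be odd. If the symmetric group of degree n is a minimal parabolic group for the prime 2, that is, a Sylow 2-subgroup is not normal and lies in exactly one maximal subgroup, then n = 2^m + 1 for some natural number m. -/
theorem result (n : ℕ) (hn : Odd n) (h : Cfsg.IsPMinimal 2 (Equiv.Perm (Fin n))) : ∃ m : ℕ, n = 2 ^ m + 1 := by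
  classical
  haveI : Fact (Nat.Prime 2) := ⟨Nat.prime_two⟩
  obtain ⟨T⟩ := (inferInstance : Nonempty (Sylow 2 (Equiv.Perm (Fin n))))
  obtain ⟨hTn, M, -, huniq⟩ := h T
  -- a fixed point
  obtain ⟨a, ha⟩ : (MulAction.fixedPoints ↥(T : Subgroup (Equiv.Perm (Fin n))) (Fin n)).Nonempty := by
    refine T.isPGroup'.nonempty_fixed_point_of_prime_not_dvd_card (Fin n) ?_
    rw [Nat.card_eq_fintype_card, Fintype.card_fin]
    intro hd
    exact absurd (even_iff_two_dvd.mpr hd) (Nat.not_even_iff_odd.mpr hn)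
  have hfix : ∀ s ∈ (T : Subgroup (Equiv.Perm (Fin n))), s a = a := fun s hs => ha ⟨s, hs⟩
  by_cases hall : ∃ b, b ≠ a
  swap
  · exfalso
    push Not at hall
    apply hTn
    haveI : Subsingleton (Fin n) := ⟨fun x y => (hall x).trans (hall y).symm⟩
    haveI : Subsingleton (Equiv.Perm (Fin n)) := ⟨fun x y => Equiv.ext fun z => Subsingleton.elim _ _⟩
    exact ⟨fun x hx g => by rwa [Subsingleton.elim (g * x * g⁻¹) x]⟩
  obtain ⟨b, hb⟩ := hall
  set B := MulAction.orbit ↥(T : Subgroup (Equiv.Perm (Fin n))) b with hB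
  have haB : a ∉ B := by
    rintro ⟨s, hs⟩
    have hs' : (s : Equiv.Perm (Fin n)) b = a := hs
    refine hb ((s : Equiv.Perm (Fin n)).injective ?_)
    rw [hs', hfix _ s.2]
  by_cases hBall : ∀ c, c ≠ a → c ∈ B
  · have hcard : Nat.card B = n - 1 := by
      have : B = ({a} : Set (Fin n))ᶜ := by
        ext c
        refine ⟨fun hc h => haB ((Set.mem_singleton_iff.mp h) ▸ hc), fun hc => hBall c hc⟩
      rw [this, Nat.card_coe_set_eq, Set.ncard_compl, Set.ncard_singleton, Nat.card_eq_fintype_card, Fintype.card_fin]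
    obtain ⟨m, hm⟩ := T.isPGroup'.card_orbit b
    refine ⟨m, ?_⟩
    rw [← hB, hcard] at hm
    have := hn.pos
    omega
  · exfalso
    push Not at hBall
    obtain ⟨c, hca, hcB⟩ := hBall
    have hodd : ∀ s : Set (Fin n), Nat.card (Fin n) ≠ 2 * s.ncard := fun s e => by
      rw [Nat.card_eq_fintype_card, Fintype.card_fin] at e
      exact absurd hn (Nat.not_odd_iff_even.mpr (e ▸ even_two_mul _))
    have h1 := Equiv.Perm.isCoatom_stabilizer (s := ({a} : Set (Fin n))) (Set.singleton_nonempty a)
      ⟨b, hb⟩ (hodd _)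
    have h2 := Equiv.Perm.isCoatom_stabilizer (s := B) ⟨b, MulAction.mem_orbit_self b⟩ ⟨a, haB⟩ (hodd _)
    have e1 := huniq _ ⟨h1, fun s hs => by
      rw [MulAction.mem_stabilizer_iff, Set.smul_set_singleton]
      exact congrArg _ (hfix s hs)⟩
    have e2 := huniq _ ⟨h2, fun s hs => by
      rw [MulAction.mem_stabilizer_iff]
      exact MulAction.smul_orbit (⟨s, hs⟩ : ↥(T : Subgroup (Equiv.Perm (Fin n)))) b⟩
    have hmem : Equiv.swap a c ∈ MulAction.stabilizer (Equiv.Perm (Fin n)) B := by
      rw [MulAction.mem_stabilizer_set]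
      intro x
      show Equiv.swap a c x ∈ B ↔ x ∈ B
      by_cases hxa : x = a
      · subst hxa
        rw [Equiv.swap_apply_left]
        exact iff_of_false hcB haB
      by_cases hxc : x = c
      · subst hxc
        rw [Equiv.swap_apply_right]
        exact iff_of_false haB hcB
      · rw [Equiv.swap_apply_of_ne_of_ne hxa hxc]
    rw [e2, ← e1, MulAction.mem_stabilizer_iff, Set.smul_set_singleton, Set.singleton_eq_singleton_iff] at hmem
    exact hca (by rw [← Equiv.swap_apply_left a c]; exact hmem)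


end Cfsg.Agent.S2963
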