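import Cfsg.Statements.S2998
import Cfsg.Agent.LocalEven.SylowMk


set_option autoImplicit false
open Cfsg

namespace Cfsg.Agent.S2998

/-- Let G be a finite group, p a prime, P a Sylow p-subgroup of G and x ∈ P an element such that N_G(R) ≤ C_G(x) for every nontrivial subgroup R of P. Then P ≤ C_G(x); every G-conjugate of x lying in P equals x (so g ∈ C_G(x) whenever g x g⁻¹ ∈ P); and for every normal subgroup N of G, the image of x in G ⧸ N has the same property with respect to the image of P: the normalizer of every nontrivial subgroup of the image of P centralizes the image of x. -/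
theorem result {G : Type*} [Group G] [Finite G] {p : ℕ} [Fact p.Prime] (P : Sylow p G) (x : G) (hxP : x ∈ (P : Subgroup G)) (hlc : ∀ R : Subgroup G, R ≤ (P : Subgroup G) → R ≠ ⊥ → Subgroup.normalizer (R : Set G) ≤ Subgroup.centralizer ({x} : Set G)) : (P : Subgroup G) ≤ Subgroup.centralizer ({x} : Set G) ∧ (∀ g : G, g * x * g⁻¹ ∈ (P : Subgroup G) → g * x * g⁻¹ = x) ∧ ∀ (N : Subgroup G) [N.Normal], ∀ R : Subgroup (G ⧸ N), R ≤ (P : Subgroup G).map (QuotientGroup.mk' N) → R ≠ ⊥ → Subgroup.normalizer (R : Set (G ⧸ N)) ≤ Subgroup.centralizer ({(QuotientGroup.mk x : G ⧸ N)} : Set (G ⧸ N)) := by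
  have hP : (P : Subgroup G) ≤ Subgroup.centralizer ({x} : Set G) := by
    by_cases h : (P : Subgroup G) = ⊥
    · rw [h]; exact bot_le
    · exact Subgroup.le_normalizer.trans (hlc _ le_rfl h)
  refine ⟨hP, fun g hg => ?_, fun N _ R hR hne => ?_⟩
  · by_cases hx : x = 1
    · simp [hx]
    have hne : ∀ z : G, z ≠ 1 → Subgroup.zpowers z ≠ ⊥ := fun z hz => by
      simpa [Subgroup.zpowers_eq_bot] using hz
    have hx' : g * x * g⁻¹ ≠ 1 := fun e => hx (conj_eq_one_iff.mp e)
    set C := Subgroup.centralizer ({x} : Set G) with hC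
    have hCC : LocalEven.cj g C ≤ C := by
      refine le_trans ?_ (hlc (Subgroup.zpowers (g * x * g⁻¹)) (Subgroup.zpowers_le.mpr hg)
        (hne _ hx'))
      rw [hC, LocalEven.cj_centralizer, Set.image_singleton, ← Subgroup.centralizer_closure,
        ← Subgroup.zpowers_eq_closure]
      exact Subgroup.centralizer_le_normalizer _
    have hgC : LocalEven.cj g C = C := Subgroup.eq_of_le_of_card_ge hCC (LocalEven.card_cj _ _).ge
    obtain ⟨U, hUC, hU, hPU, c, hc, hcU⟩ := LocalEven.exists_cj_le_common P.isPGroup'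
      (LocalEven.isPGroup_cj (g := g) P.isPGroup') hP
      ((LocalEven.cj_mono hP).trans hgC.le)
    rw [P.is_maximal' hU hPU, LocalEven.cj_cj] at hcU
    have hn := LocalEven.cj_eq_self_iff.mp (Subgroup.eq_of_le_of_card_ge hcU
      (LocalEven.card_cj _ _).ge)
    have hPne : (P : Subgroup G) ≠ ⊥ := fun e => hx (Subgroup.mem_bot.mp (e ▸ hxP))
    have hcg : c * g ∈ C := hlc _ le_rfl hPne hn
    have : g ∈ C := by simpa using mul_mem (inv_mem hc) hcg
    rw [hC, Subgroup.mem_centralizer_singleton_iff] at this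
    rw [this, mul_inv_cancel_right]
  · obtain ⟨Q, hQ, hQne, -, hle⟩ := LocalEven.exists_normalizer_map_le P N R hR hne
    refine hle.trans ((Subgroup.map_mono (hlc Q hQ hQne)).trans ?_)
    rintro _ ⟨c, hc, rfl⟩
    rw [SetLike.mem_coe, Subgroup.mem_centralizer_singleton_iff] at hc
    rw [Subgroup.mem_centralizer_singleton_iff]
    exact congrArg (QuotientGroup.mk' N) hc

end Cfsg.Agent.S2998
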