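import Cfsg.Statements.S3003
import Cfsg.Agent.LocalEven.Conj
import Cfsg.Agent.Coprime.Generation

set_option autoImplicit false
open Cfsg

namespace Cfsg.Agent.S3003

/-- Let G be a finite group, p a prime and Q a large p-subgroup of G: C_G(Q) ≤ Q and N_G(U) ≤ N_G(Q) for every nontrivial subgroup U of C_G(Q). Let Q ≤ G₁ ≤ G, let R be a subgroup of order prime to p normalized by G₁, and let U ≤ G₁ be a p-subgroup. If U contains a nontrivial element which is G₁-conjugate to an element of Z(Q), then C_R(U) = 1. In particular, if U is elementary abelian of order at least p² and every maximal subgroup of U contains a nontrivial element G₁-conjugate into Z(Q), then R = 1. -/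
theorem result {G : Type*} [Group G] [Finite G] {p : ℕ} [Fact p.Prime] (Q : Subgroup G) (hQp : IsPGroup p ↥Q) (hlarge : Cfsg.IsLarge Q) (G₁ : Subgroup G) (hQG : Q ≤ G₁) (R : Subgroup G) (hR : (Nat.card ↥R).Coprime p) (hGR : G₁ ≤ Subgroup.normalizer (R : Set G)) (U : Subgroup G) (hUG : U ≤ G₁) (hUp : IsPGroup p ↥U) : ((∃ x ∈ U, x ≠ 1 ∧ ∃ g ∈ G₁, g * x * g⁻¹ ∈ Q ⊓ Subgroup.centralizer (Q : Set G)) → R ⊓ Subgroup.centralizer (U : Set G) = ⊥) ∧ (Cfsg.IsElementaryAbelian p U → p ^ 2 ≤ Nat.card ↥U → (∀ U₀ : Subgroup G, U₀ ≤ U → IsCoatom (U₀.subgroupOf U) → ∃ x ∈ U₀, x ≠ 1 ∧ ∃ g ∈ G₁, g * x * g⁻¹ ∈ Q ⊓ Subgroup.centralizer (Q : Set G)) → R = ⊥) := by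
  classical
  have hpp := (Fact.out : p.Prime)
  have hQR : Q ⊓ R = ⊥ := by
    rw [← Subgroup.card_eq_one]
    obtain ⟨k, hk⟩ := IsPGroup.iff_card.mp (hQp.to_le (inf_le_left : Q ⊓ R ≤ Q))
    have h1 : (p ^ k).Coprime p := hk ▸ hR.coprime_dvd_left (Subgroup.card_dvd_of_le inf_le_right)
    cases k with
    | zero => simpa using hk
    | succ k => exact absurd (Nat.eq_one_of_dvd_coprimes h1 (dvd_pow_self p k.succ_ne_zero) dvd_rfl) hpp.ne_one
  have first : ∀ W : Subgroup G, (∃ x ∈ W, x ≠ 1 ∧ ∃ g ∈ G₁, g * x * g⁻¹ ∈ Q ⊓ Subgroup.centralizer (Q : Set G)) →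
      R ⊓ Subgroup.centralizer (W : Set G) = ⊥ := by
    rintro W ⟨x, hxW, hx1, g, hg, hz⟩
    rw [eq_bot_iff]
    intro r hr
    obtain ⟨hrR, hrW⟩ := Subgroup.mem_inf.mp hr
    set z := g * x * g⁻¹ with hzdef
    set s := g * r * g⁻¹ with hs
    have hsR : s ∈ R := (Subgroup.mem_normalizer_iff.mp (hGR hg) r).mp hrR
    have hzs : z * s = s * z := by
      calc z * s = g * (x * r) * g⁻¹ := by simp only [hzdef, hs]; group
        _ = g * (r * x) * g⁻¹ := by rw [Subgroup.mem_centralizer_iff.mp hrW x hxW]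
        _ = _ := by simp only [hzdef, hs]; group
    have hz1 : z ≠ 1 := fun e => hx1 (by simpa [hzdef] using e)
    have hN := hlarge.2 (Subgroup.zpowers z) (Subgroup.zpowers_le.mpr (Subgroup.mem_inf.mp hz).2) (by simpa using hz1)
    have hsN : s ∈ Subgroup.normalizer (Q : Set G) := by
      refine hN (Subgroup.centralizer_le_normalizer _ ?_)
      rw [Subgroup.zpowers_eq_closure, Subgroup.centralizer_closure, Subgroup.mem_centralizer_singleton_iff]
      exact hzs.symm
    have hsC : s ∈ Subgroup.centralizer (Q : Set G) := by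
      rw [Subgroup.mem_centralizer_iff]
      intro q hq
      have h1 : q * s * q⁻¹ * s⁻¹ ∈ Q ⊓ R := by
        refine Subgroup.mem_inf.mpr ⟨?_, mul_mem ((Subgroup.mem_normalizer_iff.mp (hGR (hQG hq)) s).mp hsR) (inv_mem hsR)⟩
        have := Q.mul_mem hq ((Subgroup.mem_normalizer_iff.mp hsN _).mp (Q.inv_mem hq))
        simpa [mul_assoc] using this
      rw [hQR, Subgroup.mem_bot] at h1
      calc q * s = (q * s * q⁻¹ * s⁻¹) * (s * q) := by group
        _ = s * q := by rw [h1, one_mul]
    have : s ∈ Q ⊓ R := Subgroup.mem_inf.mpr ⟨hlarge.1 hsC, hsR⟩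
    rw [hQR, Subgroup.mem_bot] at this
    rw [Subgroup.mem_bot]
    simpa [hs] using this
  refine ⟨first U, fun hU hcard hmax => ?_⟩
  obtain ⟨hUc, hUe⟩ := hU
  haveI := hUc
  letI : CommGroup U := { (inferInstance : Group U) with mul_comm := mul_comm' }
  -- centralizers in `R` of proper subgroups of `U` are trivial
  have key : ∀ (n : ℕ) (V : Subgroup U), V.index = n → V ≠ ⊤ →
      R ⊓ Subgroup.centralizer ((V.map U.subtype : Subgroup G) : Set G) = ⊥ := by
    intro n
    induction n using Nat.strong_induction_on with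
    | _ n ih =>
    intro V hn hV
    by_cases hco : IsCoatom V
    · refine first _ (hmax (V.map U.subtype) (Subgroup.map_subtype_le V) ?_)
      rwa [Subgroup.subgroupOf, Subgroup.comap_map_eq_self_of_injective U.subtype_injective]
    obtain ⟨E, hEV, hEmax⟩ := (Set.toFinite {E : Subgroup U | E ⊓ V = ⊥}).exists_maximalFor id _
      ⟨⊥, (bot_inf_eq V : (⊥ : Subgroup U) ⊓ V = ⊥)⟩
    have hexp : ∀ y : U, y ^ p = 1 := fun y => Subtype.ext (hUe y.1 y.2)
    have hcompl : E ⊔ V = ⊤ := by
      rw [eq_top_iff]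
      intro y _
      by_contra hy
      have hbot : (E ⊔ Subgroup.zpowers y) ⊓ V = ⊥ := by
        rw [eq_bot_iff]
        intro z hz
        obtain ⟨hz1, hz2⟩ := Subgroup.mem_inf.mp hz
        obtain ⟨e, he, _, ⟨i, rfl⟩, rfl⟩ := Subgroup.mem_sup.mp hz1
        simp only at hz2 ⊢
        by_cases hi : (p : ℤ) ∣ i
        · obtain ⟨j, rfl⟩ := hi
          have h1 : y ^ ((p : ℤ) * j) = 1 := by rw [zpow_mul, zpow_natCast, hexp, one_zpow]
          rw [h1, mul_one] at hz2 ⊢
          rw [← hEV]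
          exact Subgroup.mem_inf.mpr ⟨he, hz2⟩
        · exfalso
          apply hy
          have hyi : y ^ i ∈ E ⊔ V := by
            rw [show y ^ i = e⁻¹ * (e * y ^ i) by group]
            exact Subgroup.mul_mem_sup (inv_mem he) hz2
          have hcop : IsCoprime (p : ℤ) i := (Nat.prime_iff_prime_int.mp hpp).coprime_iff_not_dvd.mpr hi
          obtain ⟨a, b, hab⟩ := hcop
          have : y = (y ^ i) ^ b := by
            conv_lhs => rw [← zpow_one y, ← hab, zpow_add, mul_comm a, zpow_mul, zpow_natCast, hexp, one_zpow, one_mul,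
              mul_comm b, zpow_mul]
          rw [this]
          exact zpow_mem hyi b
      exact hy ((le_sup_left : E ≤ E ⊔ V) (hEmax (j := E ⊔ Subgroup.zpowers y) hbot le_sup_left
        ((le_sup_right : _ ≤ E ⊔ Subgroup.zpowers y) (Subgroup.mem_zpowers y))))
    have hnc : ¬ IsCyclic E := by
      intro hc
      apply hco
      refine ⟨hV, fun W hW => ?_⟩
      obtain ⟨w, hwW, hwV⟩ := SetLike.exists_of_lt hW
      obtain ⟨e, he, v, hv, rfl⟩ := Subgroup.mem_sup.mp (hcompl ▸ Subgroup.mem_top w : w ∈ E ⊔ V)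
      have heW : e ∈ W := by simpa using mul_mem hwW (inv_mem (hW.le hv))
      have he1 : (⟨e, he⟩ : E) ≠ 1 := fun h => hwV (by rw [show e = 1 from congrArg Subtype.val h, one_mul]; exact hv)
      have hcard' : Nat.card E = p := by
        have h2 : Monoid.exponent E ∣ p := Monoid.exponent_dvd_of_forall_pow_eq_one fun z => Subtype.ext (hexp z.1)
        rw [IsCyclic.exponent_eq_card] at h2
        rcases hpp.eq_one_or_self_of_dvd _ h2 with h3 | h3
        · haveI := (Nat.card_eq_one_iff_unique.mp h3).1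
          exact absurd (Subsingleton.elim (⟨e, he⟩ : E) 1) he1
        · exact h3
      have htop : Subgroup.zpowers (⟨e, he⟩ : E) = ⊤ := Subgroup.eq_top_of_card_eq _ (by
        rw [Nat.card_zpowers, hcard']
        exact orderOf_eq_prime (Subtype.ext (hexp e)) he1)
      refine eq_top_iff.mpr (hcompl ▸ sup_le (fun z hz => ?_) hW.le)
      obtain ⟨i, hi⟩ := (htop ▸ Subgroup.mem_top (⟨z, hz⟩ : E) : (⟨z, hz⟩ : E) ∈ Subgroup.zpowers (⟨e, he⟩ : E))
      have := congrArg Subtype.val hi
      simp only [Subgroup.coe_zpow] at this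
      exact this ▸ zpow_mem heW i
    set W := R ⊓ Subgroup.centralizer ((V.map U.subtype : Subgroup G) : Set G) with hW
    set A := E.map U.subtype with hA
    haveI : IsMulCommutative A := ⟨⟨by
      rintro ⟨_, a, ha, rfl⟩ ⟨_, b, hb, rfl⟩
      exact Subtype.ext (congrArg U.subtype (mul_comm a b))⟩⟩
    have hAnc : ¬ IsCyclic A := fun h =>
      hnc (isCyclic_of_surjective (Subgroup.equivMapOfInjective E _ U.subtype_injective).symm
        (MulEquiv.surjective _))
    have hAU : A ≤ U := Subgroup.map_subtype_le E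
    have hUcent : U ≤ Subgroup.centralizer ((V.map U.subtype : Subgroup G) : Set G) :=
      (Subgroup.le_centralizer_iff_isMulCommutative.mpr hUc).trans (Subgroup.centralizer_le (Subgroup.map_subtype_le V))
    have hAN : A ≤ Subgroup.normalizer (W : Set G) := by
      intro a ha
      rw [Subgroup.mem_normalizer_iff]
      intro y
      rw [hW, Subgroup.mem_inf, Subgroup.mem_inf]
      exact and_congr (Subgroup.mem_normalizer_iff.mp (hGR (hUG (hAU ha))) y)
        (Subgroup.mem_normalizer_iff.mp (Subgroup.le_normalizer (hUcent (hAU ha))) y)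
    have hcop : (Nat.card A).Coprime (Nat.card W) := by
      obtain ⟨k, hk⟩ := IsPGroup.iff_card.mp (hUp.to_le hAU)
      rw [hk]
      exact ((hR.coprime_dvd_left (Subgroup.card_dvd_of_le inf_le_left)).symm).pow_left k
    rw [← Coprime.eq_centralizerJoin hAnc hAN hcop, eq_bot_iff]
    refine iSup_le ?_
    rintro ⟨_, ⟨e, he, rfl⟩, he1⟩
    simp only
    set V' := V ⊔ Subgroup.zpowers e
    have hlt : V < V' := by
      refine lt_of_le_of_ne le_sup_left fun h => he1 ?_
      have h1 : e ∈ V := h ▸ (le_sup_right : _ ≤ V') (Subgroup.mem_zpowers e)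
      rw [show e = 1 from Subgroup.mem_bot.mp (hEV ▸ Subgroup.mem_inf.mpr ⟨he, h1⟩), map_one]
    have hV' : V' ≠ ⊤ := by
      intro h
      apply hnc
      have : E = Subgroup.zpowers e := by
        refine le_antisymm (fun z hz => ?_) (Subgroup.zpowers_le.mpr he)
        obtain ⟨v, hv, f, hf, rfl⟩ := Subgroup.mem_sup.mp (h ▸ Subgroup.mem_top z : z ∈ V')
        have : v ∈ E := by simpa using mul_mem hz (inv_mem (Subgroup.zpowers_le.mpr he hf))
        rw [show v = 1 from Subgroup.mem_bot.mp (hEV ▸ Subgroup.mem_inf.mpr ⟨this, hv⟩), one_mul]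
        exact hf
      rw [this]; infer_instance
    have hlt' : V'.index < n := hn ▸ Subgroup.index_strictAnti hlt
    have h2 := ih _ hlt' V' rfl hV'
    rw [← h2]
    refine fun w hw => ?_
    obtain ⟨hwW, hwe⟩ := Subgroup.mem_inf.mp hw
    obtain ⟨hwR, hwV⟩ := Subgroup.mem_inf.mp hwW
    refine Subgroup.mem_inf.mpr ⟨hwR, ?_⟩
    rw [Subgroup.map_sup, ← Subgroup.zpowers_le, Subgroup.le_centralizer_iff]
    refine sup_le (Subgroup.le_centralizer_iff.mp (Subgroup.zpowers_le.mpr hwV)) ?_
    rw [Subgroup.le_centralizer_iff, Subgroup.zpowers_le, MonoidHom.map_zpowers, Subgroup.zpowers_eq_closure,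
      Subgroup.centralizer_closure]
    exact hwe
  have hne : (⊥ : Subgroup U) ≠ ⊤ := by
    intro e
    have : Nat.card U = 1 := by rw [← Subgroup.card_top (G := U), ← e, Subgroup.card_bot]
    have := hpp.two_le
    nlinarith [pow_two p]
  have h := key _ ⊥ rfl hne
  rw [Subgroup.map_bot] at h
  have hc : Subgroup.centralizer ((⊥ : Subgroup G) : Set G) = ⊤ := by
    ext y; simp [Subgroup.mem_centralizer_iff]
  rwa [hc, inf_top_eq] at h


end Cfsg.Agent.S3003
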