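import Cfsg.Statements.S3006
import Cfsg.Agent.LocalEven.ChermakDelgado

set_option autoImplicit false
open scoped Pointwise
open Cfsg

namespace Cfsg.Agent.S3006

/-- Let P be a finite p-group, Q a centrally large subgroup of P (|Q|·|Z(Q)| maximal among subgroups of P) and A an abelian subgroup of P of largest order. Then QA = AQ is a centrally large subgroup of P, C_{QA}(Q ∩ A) = Z(Q)·A, and the subgroup generated by all centrally large subgroups of P contains C_P(Z(J(P))), where J(P) is generated by the abelian subgroups of largest order. -/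
theorem result {p : ℕ} [Fact p.Prime] (P : Type*) [Group P] [Finite P] (hP : IsPGroup p P) (Q A : Subgroup P) (hQ : Cfsg.IsCentrallyLarge Q) (hA : A ∈ Cfsg.maxAbelianSubgroups P) : ((Q ⊔ A : Subgroup P) : Set P) = (Q : Set P) * (A : Set P) ∧ Cfsg.IsCentrallyLarge (Q ⊔ A) ∧ (Q ⊔ A) ⊓ Subgroup.centralizer ((Q ⊓ A : Subgroup P) : Set P) = (Q ⊓ Subgroup.centralizer (Q : Set P)) ⊔ A ∧ (((Q ⊓ Subgroup.centralizer (Q : Set P)) ⊔ A : Subgroup P) : Set P) = ((Q ⊓ Subgroup.centralizer (Q : Set P)) : Set P) * (A : Set P) ∧ Subgroup.centralizer ((Cfsg.thompsonSubgroupA P ⊓ Subgroup.centralizer (Cfsg.thompsonSubgroupA P : Set P) : Subgroup P) : Set P) ≤ Cfsg.centrallyLargeJoin P := by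
  obtain ⟨h1, h2, h3⟩ := LocalEven.CD.cl_sup_maxAb hQ hA
  have zQ : Subgroup.centralizer (Q : Set P) ≤ Q := (LocalEven.CD.cl_iff.mp hQ).2
  rw [inf_eq_right.mpr zQ]
  have hAA := LocalEven.CD.maxAb_le_cz hA
  have hnA : Subgroup.centralizer (Q : Set P) ⊓ A ≤ A := inf_le_right
  have key : ∀ x ∈ (Q ⊔ A) ⊓ Subgroup.centralizer ((Q ⊓ A : Subgroup P) : Set P),
      ∃ z ∈ Subgroup.centralizer (Q : Set P), ∃ a ∈ A, x = z * a := by
    rintro x ⟨hx, hxc⟩
    obtain ⟨q, hq, a, ha, rfl⟩ := h2 x hx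
    have haT : a ∈ LocalEven.CD.cz (Q ⊓ A) := LocalEven.CD.cz_anti inf_le_right (hAA ha)
    have hqT : q ∈ LocalEven.CD.cz (Q ⊓ A) := (Subgroup.mul_mem_cancel_right _ haT).mp hxc
    have hqB : q ∈ Subgroup.centralizer (Q : Set P) ⊔ (Q ⊓ A) := by
      have := LocalEven.CD.maxAb_cz h3
      rw [← this]
      show q ∈ LocalEven.CD.cz (LocalEven.CD.cz Q ⊔ (Q ⊓ A))
      rw [LocalEven.CD.cz_sup]
      exact ⟨LocalEven.CD.le_cz_cz Q hq, hqT⟩
    obtain ⟨z, hz, t, ht, rfl⟩ := LocalEven.CD.exists_mul_of_normalizes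
      (LocalEven.CD.le_normalizer_of_cz (LocalEven.CD.cz_anti inf_le_left)) hqB
    exact ⟨z, hz, t * a, mul_mem ht.2 ha, mul_assoc _ _ _⟩
  have hle : Subgroup.centralizer (Q : Set P) ⊔ A ≤
      (Q ⊔ A) ⊓ Subgroup.centralizer ((Q ⊓ A : Subgroup P) : Set P) :=
    sup_le (le_inf (zQ.trans le_sup_left) (LocalEven.CD.cz_anti inf_le_left))
      (le_inf le_sup_right (hAA.trans (LocalEven.CD.cz_anti inf_le_right)))
  refine ⟨LocalEven.CD.coe_sup_eq_mul h2, h1, le_antisymm ?_ hle,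
    ?_, ?_⟩
  · intro x hx
    obtain ⟨z, hz, a, ha, rfl⟩ := key x hx
    exact mul_mem (Subgroup.mem_sup_left hz) (Subgroup.mem_sup_right ha)
  · convert LocalEven.CD.coe_sup_eq_mul (H := LocalEven.CD.cz Q) (K := A)
      fun x hx => key x (hle hx) using 2
    exact Set.inter_eq_right.mpr zQ
  · refine LocalEven.CD.cz_center_thompson_le LocalEven.CD.cl_centrallyLargeJoin ?_
    refine sSup_le fun B hB => ?_
    exact le_sup_right.trans (le_sSup (LocalEven.CD.cl_sup_maxAb hQ hB).1)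


end Cfsg.Agent.S3006
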