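import Cfsg.Statements.S3007
import Cfsg.Agent.LocalEven.ChermakDelgado

set_option autoImplicit false
open Cfsg

namespace Cfsg.Agent.S3007

/-- Let P be a finite p-group and Q, R minimal centrally large subgroups of P (centrally large: |Q|·|Z(Q)| maximal among subgroups of P; minimal among such under inclusion). Then Q = (Q ∩ R)·Z(Q), the derived subgroups [Q, Q] and [R, R] coincide, |Q| = |R| and |Z(Q)| = |Z(R)|; and if Q is abelian then the minimal centrally large subgroups of P are exactly the abelian subgroups of P of largest order. -/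
theorem result {p : ℕ} [Fact p.Prime] (P : Type*) [Group P] [Finite P] (hP : IsPGroup p P) (Q R : Subgroup P) (hQ : Cfsg.IsMinimalCentrallyLarge Q) (hR : Cfsg.IsMinimalCentrallyLarge R) : (Q ⊓ R) ⊔ (Q ⊓ Subgroup.centralizer (Q : Set P)) = Q ∧ ⁅Q, Q⁆ = ⁅R, R⁆ ∧ Nat.card ↥Q = Nat.card ↥R ∧ Nat.card ↥(Q ⊓ Subgroup.centralizer (Q : Set P)) = Nat.card ↥(R ⊓ Subgroup.centralizer (R : Set P)) ∧ (IsMulCommutative ↥Q → ∀ X : Subgroup P, Cfsg.IsMinimalCentrallyLarge X ↔ X ∈ Cfsg.maxAbelianSubgroups P) := by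
  open LocalEven LocalEven.CD in
  obtain ⟨hc1, hc2⟩ := mcl_card hQ hR
  have zQ := (LocalEven.CD.cl_iff.mp hQ.1).2
  have zR := (LocalEven.CD.cl_iff.mp hR.1).2
  rw [inf_eq_right.mpr zQ, inf_eq_right.mpr zR]
  refine ⟨LocalEven.CD.mcl_eq_sup hQ hR.1, ?_, hc1, hc2, fun hab X => ?_⟩
  · rw [LocalEven.CD.mcl_commutator hQ hR.1, LocalEven.CD.mcl_commutator hR hQ.1, inf_comm]
  have hQab := LocalEven.CD.isMulCommutative_iff.mp hab
  have mQ : Nat.card Q * Nat.card (LocalEven.CD.cz Q) = _ := (LocalEven.CD.cl_iff.mp hQ.1).1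
  rw [le_antisymm zQ hQab] at mQ
  have hmax : ∀ B : Subgroup P, IsMulCommutative B → Nat.card B ≤ Nat.card Q := by
    intro B hB
    have h1 := LocalEven.CD.measure_le B
    have h2 := Subgroup.card_le_of_le (LocalEven.CD.isMulCommutative_iff.mp hB)
    rw [← mQ] at h1
    exact Nat.mul_self_le_mul_self_iff.mp ((Nat.mul_le_mul_left _ h2).trans h1)
  constructor
  · intro hX
    refine ⟨LocalEven.CD.isMulCommutative_iff.mpr ?_, fun B hB => ?_⟩
    · refine Subgroup.commutator_eq_bot_iff_le_centralizer.mp ?_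
      rw [LocalEven.CD.mcl_commutator hX hQ.1, inf_comm, ← LocalEven.CD.mcl_commutator hQ hX.1]
      exact Subgroup.commutator_eq_bot_iff_le_centralizer.mpr hQab
    · rw [(LocalEven.CD.mcl_card hX hQ).1]; exact hmax B hB
  · intro hX
    have hXX := LocalEven.CD.maxAb_le_cz hX
    have hcard : Nat.card X = Nat.card Q := le_antisymm (hmax X hX.1) (hX.2 Q hab)
    have hXcl : Cfsg.IsCentrallyLarge X := LocalEven.CD.cl_iff.mpr
      ⟨LocalEven.CD.mem_of_ge (by rw [LocalEven.CD.maxAb_cz hX, hcard, mQ]),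
        (LocalEven.CD.maxAb_cz hX).le⟩
    refine ⟨hXcl, fun R' hR' hcl => Subgroup.eq_of_le_of_card_ge hR' ?_⟩
    obtain ⟨Q', hQ'R, hQ'⟩ := LocalEven.CD.exists_mcl_le hcl
    rw [hcard, ← (LocalEven.CD.mcl_card hQ' hQ).1]
    exact Subgroup.card_le_of_le hQ'R


end Cfsg.Agent.S3007
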