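import Cfsg.Statements.S3008
import Cfsg.Agent.LocalEven.ChermakDelgadoNormal

set_option autoImplicit false
open Cfsg

namespace Cfsg.Agent.S3008

/-- Let P be a finite p-group, with J(P) generated by its abelian subgroups of largest order and J̃(P) = C_P(Z(J(P))); call R ≤ P centrally large if |R|·|Z(R)| is as large as possible, and let P_MCL be generated by the minimal centrally large subgroups. Then: for every centrally large Q, Q·J(P) ⊇ J̃(P); some minimal centrally large subgroup of P is normalized by both J(P) and P_MCL; if P = J(P) and d(P)² = |P|·|Z(P)|, where d(P) is the largest order of an abelian subgroup, then every minimal centrally large subgroup of P is abelian; and if every minimal centrally large subgroup is abelian then J̃(P) = J(P). -/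
theorem result {p : ℕ} [Fact p.Prime] (P : Type*) [Group P] [Finite P] (hP : IsPGroup p P) : (∀ Q : Subgroup P, Cfsg.IsCentrallyLarge Q → Subgroup.centralizer ((Cfsg.thompsonSubgroupA P ⊓ Subgroup.centralizer (Cfsg.thompsonSubgroupA P : Set P) : Subgroup P) : Set P) ≤ Q ⊔ Cfsg.thompsonSubgroupA P) ∧ (∃ Q : Subgroup P, Cfsg.IsMinimalCentrallyLarge Q ∧ Cfsg.thompsonSubgroupA P ≤ Subgroup.normalizer (Q : Set P) ∧ Cfsg.minimalCentrallyLargeJoin P ≤ Subgroup.normalizer (Q : Set P)) ∧ (Cfsg.thompsonSubgroupA P = ⊤ → (∀ A ∈ Cfsg.maxAbelianSubgroups P, Nat.card ↥A ^ 2 = Nat.card P * Nat.card ↥(Subgroup.center P)) → ∀ Q : Subgroup P, Cfsg.IsMinimalCentrallyLarge Q → IsMulCommutative ↥Q) ∧ ((∀ Q : Subgroup P, Cfsg.IsMinimalCentrallyLarge Q → IsMulCommutative ↥Q) → Subgroup.centralizer ((Cfsg.thompsonSubgroupA P ⊓ Subgroup.centralizer (Cfsg.thompsonSubgroupA P : Set P) : Subgroup P) : Set P) = Cfsg.thompsonSubgroupA P) := by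
  haveI := hP.isNilpotent
  have h1 : ∀ Q : Subgroup P, Cfsg.IsCentrallyLarge Q →
      Subgroup.centralizer ((Cfsg.thompsonSubgroupA P ⊓
        Subgroup.centralizer (Cfsg.thompsonSubgroupA P : Set P) : Subgroup P) : Set P) ≤
          Q ⊔ Cfsg.thompsonSubgroupA P :=
    fun Q hQ => LocalEven.CD.cz_center_thompson_le (LocalEven.CD.cl_sup_sSup_maxAb hQ) le_sup_right
  obtain ⟨Q0, hQ0, hn⟩ := LocalEven.CD.exists_mcl_normalized (G := P)
  refine ⟨h1, ⟨Q0, hQ0, le_sup_left.trans hn, le_sup_right.trans hn⟩, ?_, ?_⟩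
  · intro hJ hd Q hQ
    obtain ⟨A, hA⟩ := LocalEven.CD.exists_maxAb (G := P)
    have htop : Cfsg.IsCentrallyLarge (⊤ : Subgroup P) := by
      have := LocalEven.CD.cl_sup_sSup_maxAb hQ.1
      rwa [hJ, sup_top_eq] at this
    have hA2 : Cfsg.IsCentrallyLarge A := by
      refine LocalEven.CD.cl_iff.mpr ⟨LocalEven.CD.mem_of_ge ?_, (LocalEven.CD.maxAb_cz hA).le⟩
      have e : Nat.card (⊤ : Subgroup P) * Nat.card (LocalEven.CD.cz (⊤ : Subgroup P)) =
          Cfsg.maxCentralizerProduct P := (LocalEven.CD.cl_iff.mp htop).1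
      rw [LocalEven.CD.cz, Subgroup.coe_top, Subgroup.centralizer_univ, Subgroup.card_top] at e
      rw [LocalEven.CD.maxAb_cz hA, ← sq, hd A hA, e]
    obtain ⟨R, hRA, hR⟩ := LocalEven.CD.exists_mcl_le hA2
    refine LocalEven.CD.isMulCommutative_iff.mpr
      (Subgroup.commutator_eq_bot_iff_le_centralizer.mp (le_bot_iff.mp ?_))
    rw [LocalEven.CD.mcl_commutator hQ hR.1]
    refine le_trans (Subgroup.commutator_mono (inf_le_right.trans hRA) (inf_le_right.trans hRA)) ?_
    exact (Subgroup.commutator_eq_bot_iff_le_centralizer.mpr (LocalEven.CD.maxAb_le_cz hA)).le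
  · intro hall
    refine le_antisymm ((h1 Q0 hQ0.1).trans (sup_le ?_ le_rfl)) ?_
    · refine le_sSup ?_
      refine ⟨hall Q0 hQ0, fun B hB => ?_⟩
      have hQab := LocalEven.CD.isMulCommutative_iff.mp (hall Q0 hQ0)
      have mQ : Nat.card Q0 * Nat.card (LocalEven.CD.cz Q0) = _ :=
        (LocalEven.CD.cl_iff.mp hQ0.1).1
      rw [le_antisymm (LocalEven.CD.cl_iff.mp hQ0.1).2 hQab] at mQ
      have hm := LocalEven.CD.measure_le B
      rw [← mQ] at hm
      exact Nat.mul_self_le_mul_self_iff.mp ((Nat.mul_le_mul_left _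
        (Subgroup.card_le_of_le (LocalEven.CD.isMulCommutative_iff.mp hB))).trans hm)
    · exact LocalEven.CD.le_cz_symm inf_le_right


end Cfsg.Agent.S3008
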