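import Cfsg.Statements.S3009
import Cfsg.Agent.Linear.SL2Quadratic
import Cfsg.Agent.Linear.Card

set_option autoImplicit false
open Cfsg

namespace Cfsg.Agent.S3009

open scoped commutatorElement
open Cfsg.Agent.Linear Cfsg.Agent.Linear.SL2Quad

/-- Let p be a prime and let G and V be subgroups of a finite group with V elementary abelian and normalized by G, and G isomorphic to SL₂(F) for a finite field F with pⁿ elements. Suppose G acts irreducibly and nontrivially on V by conjugation (no G-invariant subgroups of V other than 1 and V, and [V, G] ≠ 1), and let S be a Sylow p-subgroup of G and V₀ = C_V(S). If [V, S, S] = 1 or |V| ≤ |V₀|², then G acts on V as SL₂(F) on its natural two-dimensional module; in particular |V| = |F|². -/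
theorem result {X : Type*} [Group X] [Finite X] {p : ℕ} [Fact p.Prime] (G V : Subgroup X) (hV : Cfsg.IsElementaryAbelian p V) (hGV : G ≤ Subgroup.normalizer (V : Set X)) (F : Type) [Field F] [Fintype F] (n : ℕ) (hF : Fintype.card F = p ^ n) (hG : Nonempty (↥G ≃* Matrix.SpecialLinearGroup (Fin 2) F)) (hirr : ∀ U : Subgroup X, U ≤ V → G ≤ Subgroup.normalizer (U : Set X) → U = ⊥ ∨ U = V) (hnt : ⁅V, G⁆ ≠ ⊥) (S : Sylow p ↥G) (hyp : ⁅⁅V, (S : Subgroup ↥G).map G.subtype⁆, (S : Subgroup ↥G).map G.subtype⁆ = ⊥ ∨ Nat.card ↥V ≤ Nat.card ↥(V ⊓ Subgroup.centralizer (((S : Subgroup ↥G).map G.subtype : Subgroup X) : Set X)) ^ 2) : Cfsg.ActsAsSL2OnSection F ⊤ G V ⊥ := by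
  classical
  obtain ⟨e₀⟩ := hG
  have hr := (Fact.out : p.Prime)
  obtain ⟨c, hc, hcF⟩ : ∃ c, c.Prime ∧ CharP F c :=
    ⟨ringChar F, CharP.char_is_prime F _, inferInstance⟩
  haveI := Fact.mk hc
  obtain ⟨m, -, hm⟩ := FiniteField.card F c
  have hq1 : 1 < Fintype.card F := Fintype.one_lt_card
  obtain rfl : c = p := (Nat.prime_dvd_prime_iff_eq hc hr).1
    (hc.dvd_of_dvd_pow (n := n) (hF ▸ hm.symm ▸ dvd_pow_self c m.ne_zero))
  letI : CommGroup ↥V := { (inferInstance : Group ↥V) with mul_comm := hV.1.is_comm.comm }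
  have hVr : ∀ v : ↥V, v ^ c = 1 := fun v => Subtype.ext (hV.2 v v.2)
  -- align the Sylow subgroup
  let upHom : Multiplicative F →* Matrix.SpecialLinearGroup (Fin 2) F :=
    MonoidHom.mk' (fun x => up (Multiplicative.toAdd x)) fun x y => up_add _ _
  have hupinj : Function.Injective upHom := fun x y h => by
    have := congrArg (fun g : Matrix.SpecialLinearGroup (Fin 2) F => g.1 0 1) h
    simpa [upHom, coe_up] using this
  have hcardR : Nat.card upHom.range =
      c ^ (Nat.card (Matrix.SpecialLinearGroup (Fin 2) F)).factorization c := by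
    rw [← Nat.card_congr (MonoidHom.ofInjective hupinj).toEquiv, card_SL_two,
      Nat.card_congr Multiplicative.toAdd, Nat.card_eq_fintype_card]
    have hne : Fintype.card F ^ 2 - 1 ≠ 0 := by
      have := Nat.one_lt_pow two_ne_zero hq1
      omega
    have hnd : ¬ c ∣ Fintype.card F ^ 2 - 1 := by
      intro h
      have h1 : c ∣ Fintype.card F ^ 2 := dvd_pow (hm ▸ dvd_pow_self c m.ne_zero) two_ne_zero
      have h2 := Nat.dvd_sub h1 h
      rw [show Fintype.card F ^ 2 - (Fintype.card F ^ 2 - 1) = 1 by omega] at h2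
      exact hr.one_lt.ne' (Nat.dvd_one.1 h2)
    rw [Nat.factorization_mul (by omega) hne, Finsupp.add_apply,
      Nat.factorization_eq_zero_of_not_dvd hnd, add_zero, hm, hr.factorization_pow,
      Finsupp.single_eq_same]
  obtain ⟨g, hg⟩ := MulAction.exists_smul_eq (Matrix.SpecialLinearGroup (Fin 2) F)
    (S.mapSurjective (f := e₀.toMonoidHom) e₀.surjective) (Sylow.ofCard upHom.range hcardR)
  let e : ↥G ≃* Matrix.SpecialLinearGroup (Fin 2) F := e₀.trans (MulAut.conj g)
  have hS : ∀ s : ↥G, s ∈ (S : Subgroup ↥G) ↔ ∃ x : F, e s = up x := by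
    intro s
    have h1 := congrArg (fun P : Sylow c (Matrix.SpecialLinearGroup (Fin 2) F) =>
      (P : Subgroup (Matrix.SpecialLinearGroup (Fin 2) F))) hg
    simp only [Sylow.coe_subgroup_smul] at h1
    change _ = upHom.range at h1
    constructor
    · intro hs
      have : e s ∈ upHom.range := h1 ▸ Subgroup.smul_mem_pointwise_smul _ (MulAut.conj g) _
        (Subgroup.mem_map_of_mem e₀.toMonoidHom hs)
      obtain ⟨x, hx⟩ := this
      exact ⟨Multiplicative.toAdd x, hx.symm⟩
    · rintro ⟨x, hx⟩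
      have h2 : e s ∈ upHom.range := ⟨Multiplicative.ofAdd x, hx.symm⟩
      rw [← h1] at h2
      obtain ⟨y, ⟨z, hz, rfl⟩, hy⟩ := h2
      exact e.injective hy ▸ hz
  -- the action
  let cj : ↥G →* MulAut ↥V := MonoidHom.mk' (fun g =>
    { toFun := fun v => ⟨g * v * (g : X)⁻¹, (Subgroup.mem_normalizer_iff.1 (hGV g.2) v).1 v.2⟩
      invFun := fun v => ⟨(g : X)⁻¹ * v * g, by
        have := (Subgroup.mem_normalizer_iff.1 (inv_mem (hGV g.2)) v).1 v.2
        simpa using this⟩
      left_inv := fun v => Subtype.ext (by simp [mul_assoc])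
      right_inv := fun v => Subtype.ext (by simp [mul_assoc])
      map_mul' := fun v w => Subtype.ext (by simp [mul_assoc]) })
    fun g g' => MulEquiv.ext fun v => Subtype.ext (by simp [mul_assoc])
  let θ : Matrix.SpecialLinearGroup (Fin 2) F →* MulAut ↥V := cj.comp e.symm.toMonoidHom
  have hθ : ∀ a v, ((θ a v : ↥V) : X) = (e.symm a : X) * v * (e.symm a : X)⁻¹ := fun a v => rfl
  have hmem : ∀ z : F, (e.symm (up z) : X) ∈ (S : Subgroup ↥G).map G.subtype := fun z =>
    Subgroup.mem_map_of_mem _ ((hS _).2 ⟨z, e.apply_symm_apply _⟩)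
  haveI : Module (ZMod c) (Additive ↥V) := AddCommGroup.zmodModule fun v => by
    rw [← toMul_eq_one, toMul_nsmul]
    exact hVr _
  refine (natural_mulAut hVr θ ?_ ?_ ?_).elim fun ψ hψ => ?_
  · intro U hU
    have hUn : G ≤ Subgroup.normalizer ((U.map V.subtype : Subgroup X) : Set X) := by
      intro g hg
      have hconj : ∀ g' : ↥G, ∀ x ∈ U.map V.subtype, (g' : X) * x * (g' : X)⁻¹ ∈ U.map V.subtype := by
        rintro g' _ ⟨v, hv, rfl⟩
        refine ⟨θ (e g') v, hU _ v hv, ?_⟩
        show ((θ (e g') v : ↥V) : X) = _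
        rw [hθ, MulEquiv.symm_apply_apply]
        rfl
      refine Subgroup.mem_normalizer_iff.2 fun x => ⟨hconj ⟨g, hg⟩ x, fun h => ?_⟩
      have := hconj ⟨g, hg⟩⁻¹ _ h
      simpa [mul_assoc] using this
    rcases hirr (U.map V.subtype) (Subgroup.map_subtype_le _) hUn with h | h
    · exact Or.inl ((Subgroup.map_eq_bot_iff_of_injective _ V.subtype_injective).1 h)
    · refine Or.inr (Subgroup.map_injective V.subtype_injective ?_)
      rw [h, ← MonoidHom.range_eq_map, Subgroup.range_subtype]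
  · by_contra hall
    push Not at hall
    refine hnt (Subgroup.commutator_eq_bot_iff_le_centralizer.2 fun v hv =>
      Subgroup.mem_centralizer_iff.2 fun g hg => ?_)
    have h1 := congrArg Subtype.val (hall (e ⟨g, hg⟩) ⟨v, hv⟩)
    rw [hθ, MulEquiv.symm_apply_apply] at h1
    exact mul_inv_eq_iff_eq_mul.1 h1
  · rcases hyp with h | h
    · left
      intro x y v
      rw [Subgroup.commutator_eq_bot_iff_le_centralizer] at h
      have hwc : ((θ (up y) v / v : ↥V) : X) ∈ ⁅V, (S : Subgroup ↥G).map G.subtype⁆ := by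
        rw [Subgroup.commutator_comm, Subgroup.coe_div, hθ, div_eq_mul_inv]
        exact Subgroup.commutator_mem_commutator (hmem y) v.2
      refine Subtype.ext ?_
      rw [hθ, Subgroup.mem_centralizer_iff.1 (h hwc) _ (hmem x), mul_inv_cancel_right]
    · right
      refine h.trans (Nat.pow_le_pow_left ?_ 2)
      let f : ↥(V ⊓ Subgroup.centralizer (((S : Subgroup ↥G).map G.subtype : Subgroup X) : Set X)) →
          {a : ↥V // ∀ x : F, θ (up x) a = a} := fun v => ⟨⟨v.1, v.2.1⟩, fun x => Subtype.ext (by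
        rw [hθ, Subgroup.mem_centralizer_iff.1 v.2.2 _ (hmem x), mul_inv_cancel_right])⟩
      refine Nat.card_le_card_of_injective f fun v w e => Subtype.ext ?_
      exact congrArg (fun z : {a : ↥V // ∀ x : F, θ (up x) a = a} => (z.1 : X)) e
  · refine ⟨hGV, bot_le, e.toMonoidHom, ψ.toMonoidHom, MonoidHom.range_eq_top.2 e.surjective,
      ψ.surjective, fun u => ?_, fun a u => ⟨cj a u, rfl, ?_⟩⟩
    · show ψ u = 1 ↔ _
      rw [MulEquiv.map_eq_one_iff, Subgroup.mem_bot, OneMemClass.coe_eq_one]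
    · have := hψ (e a) u
      rwa [show θ (e a) u = cj a u by
        show cj (e.symm (e a)) u = _
        rw [MulEquiv.symm_apply_apply]] at this

end Cfsg.Agent.S3009
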