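import Cfsg.Statements.S3011
import Cfsg.Agent.S0200
import Cfsg.Agent.Core.PiNumber

set_option autoImplicit false
open Cfsg

namespace Cfsg.Agent.S3011

/-- Let G be a finite group and V a nontrivial elementary abelian 2-subgroup of G of order at most 4 such that, whenever an element of V inverts an element h of G of odd order, some nontrivial element of V commutes with h. Then V meets O₂(G) nontrivially. (The case of order at most 4 has a short argument from the Baer–Suzuki theorem.) -/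
theorem result {G : Type*} [Group G] [Finite G] (V : Subgroup G) (hV : Cfsg.IsElementaryAbelian 2 V) (hV1 : V ≠ ⊥) (hS : Cfsg.IsSidkiPair V) (h4 : Nat.card V ≤ 4) : V ⊓ Cfsg.pCore 2 G ≠ ⊥ := by
  by_contra hcon
  obtain ⟨hcomm, hexp⟩ := hV
  have hsq : ∀ x ∈ V, x * x = 1 := fun x hx => by rw [← sq]; exact hexp x hx
  have hinv : ∀ x ∈ V, x⁻¹ = x := fun x hx => inv_eq_of_mul_eq_one_right (hsq x hx)
  have hVc : ∀ x ∈ V, ∀ y ∈ V, x * y = y * x := fun x hx y hy =>
    congrArg Subtype.val (hcomm.is_comm.comm ⟨x, hx⟩ ⟨y, hy⟩)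
  have hI : ∀ v ∈ V, v ≠ 1 → ∃ h : G, h ≠ 1 ∧ Odd (orderOf h) ∧ v * h * v⁻¹ = h⁻¹ := by
    intro v hv hv1
    refine Cfsg.Agent.S0200.result v (orderOf_eq_prime (hexp v hv) hv1) fun N hN hN2 hvN => hv1 ?_
    have : v ∈ V ⊓ Cfsg.pCore 2 G := ⟨hv, (show N ≤ Cfsg.pCore 2 G from le_sSup ⟨hN, hN2⟩) hvN⟩
    rw [hcon] at this
    exact this
  have odd2 : ∀ h : G, Odd (orderOf h) → ∀ x : G, x * (h * h) = h * h * x → x * h = h * x := by
    rintro h ⟨m, hm⟩ x hx
    have e : (h * h) ^ (m + 1) = h := by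
      rw [← sq, ← pow_mul, show 2 * (m + 1) = orderOf h + 1 by omega, pow_succ,
        pow_orderOf_eq_one, one_mul]
    have := (Commute.pow_right (show Commute x (h * h) from hx) (m + 1)).eq
    rwa [e] at this
  have noinv : ∀ h : G, Odd (orderOf h) → h * h = 1 → h = 1 := by
    rintro h ⟨m, hm⟩ hh
    have := pow_orderOf_eq_one h
    rwa [hm, pow_succ, pow_mul, sq, hh, one_pow, one_mul] at this
  -- the first pair
  obtain ⟨a, haV, ha1⟩ := (Subgroup.bot_or_exists_ne_one V).resolve_left hV1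
  obtain ⟨h, hh1, hho, hah⟩ := hI a haV ha1
  obtain ⟨b, hbV, hb1, hbh⟩ := hS h a haV hho hah
  have hba : b ≠ a := by
    rintro rfl
    refine hh1 (noinv h hho ?_)
    rw [hbh, mul_inv_cancel_right] at hah
    calc h * h = h * h⁻¹ := by rw [← hah]
      _ = 1 := mul_inv_cancel h
  have hcard : ∀ x y : G, x ∈ V → y ∈ V → x ≠ 1 → y ≠ 1 → x ≠ y →
      ∀ w ∈ V, w = 1 ∨ w = x ∨ w = y ∨ w = x * y := by
    intro x y hx hy hx1 hy1 hxy w hw
    have hs : ({1, x, y, x * y} : Set G) ⊆ (V : Set G) := by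
      intro t ht
      rcases ht with rfl | rfl | rfl | rfl
      exacts [V.one_mem, hx, hy, mul_mem hx hy]
    have hn : ({1, x, y, x * y} : Set G).ncard = 4 := by
      have h1 : x * y ≠ 1 := fun e => hxy ((eq_inv_of_mul_eq_one_left e).trans (hinv y hy))
      rw [Set.ncard_eq_four]
      exact ⟨1, x, y, x * y, Ne.symm hx1, Ne.symm hy1, Ne.symm h1, hxy,
        fun e => hy1 (left_eq_mul.mp e), fun e => hx1 (right_eq_mul.mp e), rfl⟩
    have := Set.eq_of_subset_of_ncard_le hs (by rw [hn, ← Nat.card_coe_set_eq]; exact h4) (Set.toFinite _)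
    have hw' : w ∈ ({1, x, y, x * y} : Set G) := this ▸ hw
    exact hw'
  obtain ⟨k, hk1, hko, hbk⟩ := hI b hbV hb1
  obtain ⟨u, huV, hu1, huk⟩ := hS k b hbV hko hbk
  have hub : u ≠ b := by
    rintro rfl
    refine hk1 (noinv k hko ?_)
    rw [huk, mul_inv_cancel_right] at hbk
    calc k * k = k * k⁻¹ := by rw [← hbk]
      _ = 1 := mul_inv_cancel k
  have huh : u * h * u⁻¹ = h⁻¹ := by
    rcases hcard a b haV hbV ha1 hb1 (Ne.symm hba) u huV with rfl | rfl | rfl | rfl
    · exact absurd rfl hu1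
    · exact hah
    · exact absurd rfl hub
    · calc a * b * h * (a * b)⁻¹ = a * (b * h * b⁻¹) * a⁻¹ := by group
        _ = a * h * a⁻¹ := by rw [hbh, mul_inv_cancel_right]
        _ = h⁻¹ := hah
  -- the conjugate of `k` by `h`
  set k' := h⁻¹ * k * h with hk'
  have hbk' : b * k' * b⁻¹ = k'⁻¹ := by
    have hb' : b * h⁻¹ = h⁻¹ * b := (show Commute b h from hbh).inv_right.eq
    calc b * k' * b⁻¹ = b * h⁻¹ * k * h * b⁻¹ := by rw [hk']; group
      _ = h⁻¹ * (b * k * b⁻¹) * (b * h) * b⁻¹ := by rw [hb']; group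
      _ = h⁻¹ * k⁻¹ * (h * b) * b⁻¹ := by rw [hbk, hbh]
      _ = k'⁻¹ := by rw [hk']; group
  have hk'o : Odd (orderOf k') := by
    rwa [hk', show h⁻¹ * k * h = h⁻¹ * k * (h⁻¹)⁻¹ by group, ← MulAut.conj_apply,
      MulEquiv.orderOf_eq]
  obtain ⟨w, hwV, hw1, hwk⟩ := hS k' b hbV hk'o hbk'
  have hconj : ∀ x : G, x * k' = k' * x → (h * x * h⁻¹) * k = k * (h * x * h⁻¹) := by
    intro x hx
    calc h * x * h⁻¹ * k = h * (x * k') * h⁻¹ := by rw [hk']; group
      _ = h * (k' * x) * h⁻¹ := by rw [hx]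
      _ = k * (h * x * h⁻¹) := by rw [hk']; group
  have hux : ∀ x : G, x * h * x⁻¹ = h⁻¹ → x * x = 1 → h * x * h⁻¹ = x * (h * h)⁻¹ := by
    intro x hx hxx
    have hx' : x⁻¹ = x := inv_eq_of_mul_eq_one_right hxx
    rw [hx'] at hx
    calc h * x * h⁻¹ = x * (x * h * x) * h⁻¹ := by
          rw [← mul_assoc x (x * h), ← mul_assoc x x, hxx, one_mul]
      _ = _ := by rw [hx]; group
  have hkh : k * h = h * k := by
    rcases hcard u b huV hbV hu1 hb1 hub w hwV with rfl | rfl | rfl | rfl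
    · exact absurd rfl hw1
    · have e := hconj w hwk
      rw [hux w huh (hsq w huV)] at e
      refine odd2 h hho k ?_
      have h1 : (h * h)⁻¹ * k = k * (h * h)⁻¹ := by
        refine mul_left_cancel (a := w) ?_
        rw [← mul_assoc, e, ← mul_assoc, ← huk, mul_assoc]
      exact ((show Commute (h * h)⁻¹ k from h1).symm.inv_right.eq.symm.trans (by rw [inv_inv])).symm.trans
        (by rw [inv_inv])
    · exfalso
      refine hk1 ?_
      have e1 : w * k' * w⁻¹ = k' := by rw [hwk, mul_inv_cancel_right]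
      rw [hbk'] at e1
      have : k' = 1 := noinv k' hk'o (by nth_rewrite 1 [← e1]; exact inv_mul_cancel k')
      calc k = h * k' * h⁻¹ := by rw [hk']; group
        _ = 1 := by rw [this]; group
    · exfalso
      have hx : u * b * h * (u * b)⁻¹ = h⁻¹ := by
        calc u * b * h * (u * b)⁻¹ = u * (b * h * b⁻¹) * u⁻¹ := by group
          _ = u * h * u⁻¹ := by rw [hbh, mul_inv_cancel_right]
          _ = h⁻¹ := huh
      have e := hconj _ hwk
      rw [hux _ hx (hsq _ hwV)] at e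
      have hxk : u * b * k * (u * b)⁻¹ = k⁻¹ := by
        calc u * b * k * (u * b)⁻¹ = u * (b * k * b⁻¹) * u⁻¹ := by group
          _ = u * k⁻¹ * u⁻¹ := by rw [hbk]
          _ = (u * k * u⁻¹)⁻¹ := by group
          _ = k⁻¹ := by rw [huk, mul_inv_cancel_right]
      set y := (h * h)⁻¹
      have hy : y * k * y⁻¹ = k⁻¹ := by
        have h1 : (u * b) * (y * k * y⁻¹) * (u * b)⁻¹ = k := by
          calc _ = u * b * y * k * (u * b * y)⁻¹ := by group
            _ = k := by rw [e, mul_inv_cancel_right]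
        have h2 : (u * b) * (k⁻¹) * (u * b)⁻¹ = k := by
          rw [show u * b * k⁻¹ * (u * b)⁻¹ = (u * b * k * (u * b)⁻¹)⁻¹ by group, hxk, inv_inv]
        exact (MulAut.conj (u * b)).injective (h1.trans h2.symm)
      have hy2 : (y * y) * k = k * (y * y) := by
        have h3 : (y * y) * k * (y * y)⁻¹ = k := by
          calc _ = y * (y * k * y⁻¹) * y⁻¹ := by group
            _ = y * k⁻¹ * y⁻¹ := by rw [hy]
            _ = (y * k * y⁻¹)⁻¹ := by group
            _ = k := by rw [hy, inv_inv]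
        exact mul_inv_eq_iff_eq_mul.mp h3
      have hyo : Odd (orderOf y) := by
        rw [orderOf_inv, ← sq]
        exact (hho.of_dvd_nat (orderOf_pow_dvd 2))
      have hyk := odd2 y hyo k hy2.symm
      rw [← hyk, mul_inv_cancel_right] at hy
      refine hk1 (noinv k hko ?_)
      nth_rewrite 1 [hy]
      exact inv_mul_cancel k
  -- the product
  set l := h * k
  have hlo : Odd (orderOf l) := by
    refine (hho.mul hko).of_dvd_nat ?_
    exact (show Commute h k from hkh.symm).orderOf_mul_dvd_mul_orderOf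
  have hul : u * l * u⁻¹ = h⁻¹ * k := by
    calc u * l * u⁻¹ = (u * h * u⁻¹) * (u * k * u⁻¹) := by simp only [l]; group
      _ = h⁻¹ * k := by rw [huh, huk, mul_inv_cancel_right]
  have hbl : b * l * b⁻¹ = h * k⁻¹ := by
    calc b * l * b⁻¹ = (b * h * b⁻¹) * (b * k * b⁻¹) := by simp only [l]; group
      _ = h * k⁻¹ := by rw [hbk, hbh, mul_inv_cancel_right]
  have hxl : u * b * l * (u * b)⁻¹ = l⁻¹ := by
    calc u * b * l * (u * b)⁻¹ = (u * h * u⁻¹) * (u * k * u⁻¹)⁻¹ := by
          rw [show u * b * l * (u * b)⁻¹ = u * (b * l * b⁻¹) * u⁻¹ by group, hbl]; group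
      _ = h⁻¹ * k⁻¹ := by rw [huh, huk, mul_inv_cancel_right]
      _ = l⁻¹ := by
          show h⁻¹ * k⁻¹ = (h * k)⁻¹
          rw [show h * k = k * h from hkh.symm]; group
  obtain ⟨z, hzV, hz1, hzl⟩ := hS l (u * b) (mul_mem huV hbV) hlo hxl
  have hz' : z * l * z⁻¹ = l := by rw [hzl, mul_inv_cancel_right]
  rcases hcard u b huV hbV hu1 hb1 hub z hzV with rfl | rfl | rfl | rfl
  · exact hz1 rfl
  · rw [hul] at hz'
    have e : h⁻¹ = h := mul_right_cancel (show h⁻¹ * k = h * k from hz')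
    refine hh1 (noinv h hho ?_)
    nth_rewrite 1 [← e]
    exact inv_mul_cancel h
  · rw [hbl] at hz'
    have e : k⁻¹ = k := mul_left_cancel (show h * k⁻¹ = h * k from hz')
    refine hk1 (noinv k hko ?_)
    nth_rewrite 1 [← e]
    exact inv_mul_cancel k
  · rw [hxl] at hz'
    have hl : l = 1 := noinv l hlo (by nth_rewrite 1 [← hz']; exact inv_mul_cancel l)
    have e : h = k⁻¹ := eq_inv_of_mul_eq_one_left hl
    rw [e, show u * k⁻¹ * u⁻¹ = (u * k * u⁻¹)⁻¹ by group, huk, mul_inv_cancel_right, inv_inv] at huh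
    refine hk1 (noinv k hko ?_)
    nth_rewrite 1 [← huh]
    exact inv_mul_cancel k


end Cfsg.Agent.S3011
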