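import Cfsg.Statements.S3012
import Cfsg.Agent.LocalEven.Conj

set_option autoImplicit false
open Cfsg

namespace Cfsg.Agent.S3012

/-- Let G be a finite group, V a nontrivial elementary abelian 2-subgroup of G satisfying the Sidki pair condition (every odd-order element inverted by an element of V commutes with a nontrivial element of V), and K a normal subgroup of G with V ∩ K = 1. Then the image of V in G/K satisfies the Sidki pair condition in G/K. -/
theorem result {G : Type*} [Group G] [Finite G] (V K : Subgroup G) [K.Normal] (hV : Cfsg.IsElementaryAbelian 2 V) (hV1 : V ≠ ⊥) (hS : Cfsg.IsSidkiPair V) (hVK : V ⊓ K = ⊥) : Cfsg.IsSidkiPair (V.map (QuotientGroup.mk' K)) := by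
  classical
  set π := QuotientGroup.mk' K with hπ
  intro h' v' hv' hodd hinv
  obtain ⟨v, hv, rfl⟩ := hv'
  obtain ⟨h, rfl⟩ := QuotientGroup.mk'_surjective K h'
  have hvv : v * v = 1 := by rw [← pow_two]; exact hV.2 v hv
  have hv' : v⁻¹ = v := inv_eq_of_mul_eq_one_left hvv
  set d := v * (h * v * h⁻¹) with hd
  have hd1 : π d = (π h)⁻¹ * (π h)⁻¹ := by
    calc π d = π v * π h * (π v)⁻¹ * (π h)⁻¹ := by
          rw [hd]; simp only [map_mul, map_inv]
          rw [show (π v)⁻¹ = π v by rw [← map_inv, hv']]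
          group
      _ = _ := by rw [hinv]
  have hdi : v * d * v⁻¹ = d⁻¹ := by
    rw [hd, mul_inv_rev, mul_inv_rev, mul_inv_rev, inv_inv, hv']
    calc v * (v * (h * v * h⁻¹)) * v = (v * v) * (h * v * h⁻¹) * v := by group
      _ = h * (v * h⁻¹) * v := by rw [hvv, one_mul]; group
  obtain ⟨e, m, hm, hem⟩ := Nat.exists_eq_pow_mul_and_not_dvd (orderOf_pos d).ne' 2 (by norm_num)
  have hmo : Odd m := Nat.not_even_iff_odd.mp (by rwa [even_iff_two_dvd])
  have hd2 : Odd (orderOf (d ^ 2 ^ e)) := hmo.of_dvd_nat (orderOf_dvd_of_pow_eq_one (by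
    rw [← pow_mul, ← hem, pow_orderOf_eq_one]))
  obtain ⟨w, hw, hw1, hwd⟩ := hS _ v hv hd2 (by rw [← conj_pow, hdi, inv_pow])
  refine ⟨π w, Subgroup.mem_map_of_mem π hw, fun e1 => hw1 ?_, ?_⟩
  · have : w ∈ V ⊓ K := ⟨hw, (QuotientGroup.eq_one_iff w).mp e1⟩
    rw [hVK] at this
    exact Subgroup.mem_bot.mp this
  · have h1 : Commute (π w) ((π h)⁻¹ ^ (2 ^ (e + 1))) := by
      have := congrArg π hwd
      simp only [map_mul, map_pow, hd1, ← pow_two, ← pow_mul] at this
      rwa [← pow_succ'] at this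
    rw [inv_pow, Commute.inv_right_iff] at h1
    obtain ⟨j, hj⟩ := exists_pow_eq_self_of_coprime (x := π h) (n := 2 ^ (e + 1))
      ((Nat.coprime_two_left.mpr hodd).pow_left _)
    rw [← hj]
    exact (h1.pow_right j).eq


end Cfsg.Agent.S3012
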