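import Cfsg.Statements.S3013
import Cfsg.Agent.LocalEven.Conj

set_option autoImplicit false
open Cfsg

namespace Cfsg.Agent.S3013

/-- Let G be a finite group and V a nontrivial elementary abelian 2-subgroup of G satisfying the Sidki pair condition. Let v ∈ V and let x be an element of odd order inverted by v, and put C = C_G(v) ∩ C_G(x), the centralizer of the dihedral subgroup generated by v and x. Then C ∩ V is nontrivial and satisfies the Sidki pair condition inside C: every odd-order element of C inverted by an element of C ∩ V commutes with a nontrivial element of C ∩ V. -/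
theorem result {G : Type*} [Group G] [Finite G] (V : Subgroup G) (hV : Cfsg.IsElementaryAbelian 2 V) (hV1 : V ≠ ⊥) (hS : Cfsg.IsSidkiPair V) (v x : G) (hv : v ∈ V) (hx : Odd (orderOf x)) (hinv : v * x * v⁻¹ = x⁻¹) (C : Subgroup G) (hC : C = Subgroup.centralizer ({v} : Set G) ⊓ Subgroup.centralizer ({x} : Set G)) : C ⊓ V ≠ ⊥ ∧ Cfsg.IsSidkiPair ((C ⊓ V).subgroupOf C) := by
  classical
  subst hC
  have hcomm : ∀ a ∈ V, ∀ b ∈ V, a * b = b * a := fun a ha b hb =>
    congrArg Subtype.val (hV.1.is_comm.comm ⟨a, ha⟩ ⟨b, hb⟩)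
  refine ⟨fun hbot => ?_, ?_⟩
  · obtain ⟨w, hw, hw1, hwx⟩ := hS x v hv hx hinv
    have : w ∈ Subgroup.centralizer ({v} : Set G) ⊓ Subgroup.centralizer ({x} : Set G) ⊓ V :=
      ⟨⟨Subgroup.mem_centralizer_singleton_iff.mpr (hcomm w hw v hv),
        Subgroup.mem_centralizer_singleton_iff.mpr hwx⟩, hw⟩
    rw [hbot] at this
    exact hw1 (Subgroup.mem_bot.mp this)
  intro h u hu hh hhu
  have hh' : Odd (orderOf (h : G)) := by rwa [Subgroup.orderOf_coe]
  have hhu' : (u : G) * h * (u : G)⁻¹ = (h : G)⁻¹ := congrArg Subtype.val hhu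
  have huV : (u : G) ∈ V := hu.2
  have hux : (u : G) * x = x * u := Subgroup.mem_centralizer_singleton_iff.mp u.2.2
  have hhv : (h : G) * v = v * h := Subgroup.mem_centralizer_singleton_iff.mp h.2.1
  have hhx : (h : G) * x = x * h := Subgroup.mem_centralizer_singleton_iff.mp h.2.2
  have hc : Commute (h : G) x := hhx
  have hodd : Odd (orderOf ((h : G) * x)) := (Nat.odd_mul.mpr ⟨hh', hx⟩).of_dvd_nat hc.orderOf_mul_dvd_mul_orderOf
  have hinv' : ((u : G) * v) * ((h : G) * x) * ((u : G) * v)⁻¹ = ((h : G) * x)⁻¹ := by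
    calc ((u : G) * v) * ((h : G) * x) * ((u : G) * v)⁻¹
        = (u : G) * (v * h * v⁻¹ * (v * x * v⁻¹)) * (u : G)⁻¹ := by group
      _ = (u : G) * h * ((u : G)⁻¹ * u) * x⁻¹ * (u : G)⁻¹ := by
        rw [← hhv, mul_inv_cancel_right, hinv]; group
      _ = ((u : G) * h * (u : G)⁻¹) * (u * x⁻¹ * (u : G)⁻¹) := by group
      _ = (h : G)⁻¹ * x⁻¹ := by
        rw [hhu', show (u : G) * x⁻¹ * (u : G)⁻¹ = ((u : G) * x * (u : G)⁻¹)⁻¹ by group, hux, mul_inv_cancel_right]
      _ = (x * h)⁻¹ := by group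
      _ = ((h : G) * x)⁻¹ := by rw [hhx]
  obtain ⟨w, hw, hw1, hwc⟩ := hS _ _ (V.mul_mem huV hv) hodd hinv'
  have hwv : w * v = v * w := hcomm w hw v hv
  have h2 : w * ((h : G) * x⁻¹) = (h : G) * x⁻¹ * w := by
    have e1 : v * ((h : G) * x) * v⁻¹ = (h : G) * x⁻¹ := by
      calc v * ((h : G) * x) * v⁻¹ = v * h * v⁻¹ * (v * x * v⁻¹) := by group
        _ = (h : G) * x⁻¹ := by rw [← hhv, mul_inv_cancel_right, hinv]
    have hwcc : Commute w ((h : G) * x) := hwc
    have hwvc : Commute w v := hwv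
    rw [← e1]
    exact ((hwvc.mul_right hwcc).mul_right hwvc.inv_right).eq
  -- squares
  have hxx : Commute w (x * x) := by
    have h3 : Commute w (((h : G) * x⁻¹)⁻¹ * ((h : G) * x)) := (show Commute w _ from h2).inv_right.mul_right hwc
    rwa [show ((h : G) * x⁻¹)⁻¹ * ((h : G) * x) = x * x by group] at h3
  have hwx : Commute w x := by
    obtain ⟨k, hk⟩ := hx
    have h4 := hxx.pow_right (k + 1)
    rwa [show (x * x) ^ (k + 1) = x by
      rw [← pow_two, ← pow_mul, show 2 * (k + 1) = orderOf x + 1 by omega, pow_succ, pow_orderOf_eq_one, one_mul]] at h4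
  have hwh : Commute w (h : G) := by
    have := (show Commute w _ from hwc).mul_right hwx.inv_right
    rwa [mul_inv_cancel_right] at this
  refine ⟨⟨w, Subgroup.mem_centralizer_singleton_iff.mpr hwv, Subgroup.mem_centralizer_singleton_iff.mpr hwx.eq⟩,
    ⟨⟨Subgroup.mem_centralizer_singleton_iff.mpr hwv, Subgroup.mem_centralizer_singleton_iff.mpr hwx.eq⟩, hw⟩,
    fun e => hw1 (congrArg Subtype.val e), Subtype.ext hwh.eq⟩


end Cfsg.Agent.S3013
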