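import Cfsg.Statements.S3014
import Cfsg.Agent.LocalEven.PairTransfer
import Cfsg.Agent.Core.PiNumber

set_option autoImplicit false
open Cfsg

namespace Cfsg.Agent.S3014

/-- Let G be a finite group and H ≤ M ≤ G subgroups such that for every g ∈ G the subgroup generated by H and g H g⁻¹ meets M exactly in H. If H is a maximal subgroup of M and M is a maximal subgroup of G, then the normal closure of H in G meets M exactly in H. -/
theorem result {G : Type*} [Group G] [Finite G] (H M : Subgroup G) (hHM : H ≤ M) (hcl : ∀ g : G, (H ⊔ H.map (MulAut.conj g).toMonoidHom) ⊓ M = H) (hmaxH : IsCoatom (H.subgroupOf M)) (hmaxM : IsCoatom M) : Subgroup.normalClosure (H : Set G) ⊓ M = H := by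
  by_cases hn : H.Normal
  · rw [Subgroup.normalClosure_eq_self]
    exact inf_eq_left.mpr hHM
  have hMH : M ≤ Subgroup.normalizer (H : Set G) := by
    intro g hg
    rw [← LocalEven.cj_eq_self_iff]
    refine Subgroup.eq_of_le_of_card_ge ?_ (LocalEven.card_cj g H).ge
    refine le_trans (le_inf le_sup_right ?_) (hcl g).le
    rintro _ ⟨x, hx, rfl⟩
    exact mul_mem (mul_mem hg (hHM hx)) (inv_mem hg)
  have hne : ¬ M ≤ H := fun h => hmaxH.1 (Subgroup.subgroupOf_eq_top.mpr h)
  have hMn : ¬ M.Normal := by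
    intro hM
    refine hn ⟨fun x hx g => ?_⟩
    refine (hcl g).le ?_
    refine Subgroup.mem_inf.mpr ⟨Subgroup.mem_sup_right ⟨x, hx, rfl⟩, hM.conj_mem x (hHM hx) g⟩
  have hself : Subgroup.normalizer (M : Set G) ≤ M := by
    rcases hmaxM.le_iff.mp (Subgroup.le_normalizer (H := M)) with h | h
    · exact absurd (Subgroup.normalizer_eq_top_iff.mp h) hMn
    · exact h.le
  set N := Subgroup.normalClosure (H : Set G) with hN
  have hHN : H ≤ N := Subgroup.le_normalClosure
  by_contra hcon
  have hMN : M ≤ N := by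
    obtain ⟨y, hy, hyH⟩ := SetLike.exists_of_lt (lt_of_le_of_ne (le_inf hHN hHM) (Ne.symm hcon))
    refine Subgroup.subgroupOf_eq_top.mp (hmaxH.2 _ (lt_of_le_not_ge ?_ fun h => hyH ?_))
    · exact fun x hx => hHN hx
    · exact h (show (⟨y, hy.2⟩ : M) ∈ N.subgroupOf M from hy.1)
  have hNtop : N = ⊤ := by
    rcases hmaxM.le_iff.mp hMN with h | h
    · exact h
    · exact absurd (h ▸ Subgroup.normalClosure_normal) hMn
  have hX : ∀ g : G, (H ⊔ LocalEven.cj g H) ≠ ⊤ := by
    intro g h
    have := hcl g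
    rw [h, top_inf_eq] at this
    exact hne this.le
  have hnorm : ∀ g : G, (H ⊔ LocalEven.cj g H).Normal → H ⊔ LocalEven.cj g H = ⊤ := by
    intro g hg
    rw [← top_le_iff, ← hNtop]
    exact Subgroup.normalClosure_le_normal (fun x hx => Subgroup.mem_sup_left hx)
  haveI : (H.subgroupOf M).Normal := Subgroup.normal_subgroupOf_of_le_normalizer hMH
  have hprime : (H.relIndex M).Prime := by
    have hc : Nat.card (M ⧸ H.subgroupOf M) ≠ 1 := fun h =>
      hmaxH.1 (Subgroup.index_eq_one.mp h)
    obtain ⟨q, hq, hqd⟩ := Nat.exists_prime_and_dvd hc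
    haveI := Fact.mk hq
    obtain ⟨x, hx⟩ := exists_prime_orderOf_dvd_card' q hqd
    have hlt : H.subgroupOf M < (Subgroup.zpowers x).comap (QuotientGroup.mk' _) := by
      refine lt_of_le_not_ge (fun y hy => ?_) fun h => ?_
      · rw [Subgroup.mem_comap, QuotientGroup.mk'_apply, (QuotientGroup.eq_one_iff y).mpr hy]
        exact one_mem _
      · obtain ⟨y, rfl⟩ := QuotientGroup.mk_surjective x
        have := h (show y ∈ Subgroup.comap _ _ from Subgroup.mem_zpowers _)
        rw [(QuotientGroup.eq_one_iff y).mpr this, orderOf_one] at hx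
        exact hq.ne_one hx.symm
    have htop : Subgroup.zpowers x = ⊤ := by
      have := congrArg (Subgroup.map (QuotientGroup.mk' (H.subgroupOf M))) (hmaxH.2 _ hlt)
      rwa [Subgroup.map_comap_eq_self_of_surjective (QuotientGroup.mk'_surjective _),
        Subgroup.map_top_of_surjective _ (QuotientGroup.mk'_surjective _)] at this
    show (Nat.card (M ⧸ H.subgroupOf M)).Prime
    rw [← Subgroup.card_top, ← htop, Nat.card_zpowers, hx]
    exact hq
  obtain ⟨φ, hφ⟩ := LocalEven.exists_hom_of_prime_index H hprime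
  obtain ⟨m, hm, hτ⟩ := LocalEven.exists_transfer_eq_self φ (by
    obtain ⟨y, hy, hyH⟩ := SetLike.not_le_iff_exists.mp hne
    exact ⟨⟨y, hy⟩, fun h => hyH ((hφ _).mp h)⟩) (fun g hg m hm h => (hφ _).mpr
    (LocalEven.pair_key hHM hmaxM hMH hmaxH hself hX hnorm hg m.2 (fun h' => hm ((hφ m).mpr h')) h))
  refine hm ?_
  rw [← hτ]
  have hle : N ≤ (MonoidHom.transfer φ).ker := by
    refine Subgroup.normalClosure_le_normal fun x hx => ?_
    rw [SetLike.mem_coe, MonoidHom.mem_ker]
    classical
    haveI : Fintype (Quotient (MulAction.orbitRel (Subgroup.zpowers x) (G ⧸ M))) :=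
      Fintype.ofFinite _
    rw [MonoidHom.transfer_eq_prod_quotient_orbitRel_zpowers_quot]
    refine Finset.prod_eq_one fun q _ => (hφ _).mpr ?_
    set g0 := q.out.out
    refine (hcl g0⁻¹).le ?_
    refine Subgroup.mem_inf.mpr ⟨Subgroup.mem_sup_right ?_,
      QuotientGroup.out_conj_pow_minimalPeriod_mem M x q.out⟩
    refine ⟨_, H.pow_mem hx (Function.minimalPeriod (x • ·) q.out), ?_⟩
    simp [g0]
  exact hle (hNtop ▸ Subgroup.mem_top _)


end Cfsg.Agent.S3014
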