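import Cfsg.Statements.S3015
import Cfsg.Agent.LocalEven.PairTransfer
import Cfsg.Agent.Core.PiNumber

set_option autoImplicit false
open Cfsg

namespace Cfsg.Agent.S3015

/-- Let G be a finite non-abelian simple group, M a maximal subgroup of G and H a normal subgroup of M of prime index in M. Then G is generated by H together with one of its conjugates. -/
theorem result {G : Type*} [Group G] [Finite G] [IsSimpleGroup G] (hG : ¬ IsMulCommutative G) (M H : Subgroup G) (hmaxM : IsCoatom M) (hHM : H ≤ M) (hHn : (H.subgroupOf M).Normal) (hidx : (H.relIndex M).Prime) : ∃ g : G, H ⊔ H.map (MulAut.conj g).toMonoidHom = ⊤ := by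
  by_contra hcon
  push Not at hcon
  have hMH : M ≤ Subgroup.normalizer (H : Set G) :=
    (Subgroup.normal_subgroupOf_iff_le_normalizer hHM).mp hHn
  have hne : ¬ M ≤ H := fun h =>
    hidx.ne_one (Subgroup.relIndex_eq_one.mpr h)
  have hMbot : M ≠ ⊥ := fun h => hne (h ▸ bot_le)
  have hMn : ¬ M.Normal := fun h => by
    rcases h.eq_bot_or_eq_top with h | h
    · exact hMbot h
    · exact hmaxM.1 h
  have hself : Subgroup.normalizer (M : Set G) ≤ M := by
    rcases hmaxM.le_iff.mp (Subgroup.le_normalizer (H := M)) with h | h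
    · exact absurd (Subgroup.normalizer_eq_top_iff.mp h) hMn
    · exact h.le
  haveI := hHn
  have hmaxH : IsCoatom (H.subgroupOf M) := by
    refine ⟨fun h => hne (Subgroup.subgroupOf_eq_top.mp h), fun K hK => ?_⟩
    have h1 : K.index ∣ H.relIndex M := Subgroup.index_dvd_of_le hK.le
    rcases hidx.eq_one_or_self_of_dvd _ h1 with h | h
    · exact Subgroup.index_eq_one.mp h
    · exact absurd h (Subgroup.index_strictAnti hK).ne
  obtain ⟨φ, hφ⟩ := LocalEven.exists_hom_of_prime_index H hidx
  have hτ0 : ∀ g, MonoidHom.transfer φ g = 1 := by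
    rcases (MonoidHom.normal_ker (MonoidHom.transfer φ)).eq_bot_or_eq_top with h | h
    · refine absurd ?_ hG
      refine ⟨⟨fun a b => (MonoidHom.ker_eq_bot_iff _).mp h ?_⟩⟩
      rw [map_mul, map_mul, mul_comm]
    · exact fun g => MonoidHom.mem_ker.mp (h ▸ Subgroup.mem_top g)
  have hkey : ∀ g : G, g ∉ M → ∀ m : M, φ m ≠ 1 → g⁻¹ * (m : G) * g ∈ M →
      g⁻¹ * (m : G) * g ∈ H := by
    intro g hg m hm h
    have hmH : (m : G) ∉ H := fun h' => hm ((hφ m).mpr h')
    by_cases hH : H = ⊥
    · subst hH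
      rw [Subgroup.relIndex_bot_left] at hidx
      haveI := Fact.mk hidx
      by_contra hgm
      rw [Subgroup.mem_bot] at hgm
      have hgen : ∀ y : G, y ∈ M → y ≠ 1 → Subgroup.zpowers y = M := fun y hy hy1 =>
        Subgroup.eq_of_le_of_card_ge (Subgroup.zpowers_le.mpr hy) (by
          have hd : orderOf y ∣ Nat.card M := Subgroup.orderOf_dvd_natCard M hy
          rw [Nat.card_zpowers,
            (hidx.eq_one_or_self_of_dvd _ hd).resolve_left (fun e => hy1 (orderOf_eq_one_iff.mp e))])
      refine hg (hself (LocalEven.cj_eq_self_iff.mp (Subgroup.eq_of_le_of_card_ge ?_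
        (LocalEven.card_cj g M).ge)))
      show M.map _ ≤ M
      have hle : Subgroup.zpowers (g⁻¹ * (m : G) * g) ≤ LocalEven.cj g⁻¹ M := by
        rw [Subgroup.zpowers_le, LocalEven.mem_cj]
        simpa [mul_assoc] using m.2
      rw [hgen _ h hgm] at hle
      have := LocalEven.cj_mono (g := g) hle
      rwa [LocalEven.cj_cj, mul_inv_cancel, LocalEven.cj_one] at this
    · refine LocalEven.pair_key hHM hmaxM hMH hmaxH hself hcon ?_ hg m.2 hmH h
      intro g' hg'
      rcases hg'.eq_bot_or_eq_top with h' | h'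
      · exact absurd (sup_eq_bot_iff.mp h').1 hH
      · exact h'
  obtain ⟨m, hm, hτ⟩ := LocalEven.exists_transfer_eq_self φ (by
    obtain ⟨y, hy, hyH⟩ := SetLike.not_le_iff_exists.mp hne
    exact ⟨⟨y, hy⟩, fun h => hyH ((hφ _).mp h)⟩)
    (fun g hg m hm h => (hφ _).mpr (hkey g hg m hm h))
  exact hm (hτ ▸ hτ0 _)


end Cfsg.Agent.S3015
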