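import Cfsg.Statements.S3021
import Cfsg.Agent.LocalEven.Conj


set_option autoImplicit false
open Cfsg

namespace Cfsg.Agent.S3021

/-- Let G be a finite group, p a prime and H a p-subgroup of G that is extremely closed (for every g, the subgroup generated by H and g H g⁻¹ meets N_G(H) exactly in H). Then every p-subgroup Q of G containing H has N_G(Q) ≤ N_G(H); in particular every Sylow p-subgroup P of G containing H normalizes H, and H is strongly closed in P with respect to G. -/
theorem result {G : Type*} [Group G] [Finite G] {p : ℕ} [Fact p.Prime] (H : Subgroup G) (hHp : IsPGroup p H) (hcl : Cfsg.IsExtremelyClosed H) : (∀ Q : Subgroup G, IsPGroup p Q → H ≤ Q → Subgroup.normalizer (Q : Set G) ≤ Subgroup.normalizer (H : Set G)) ∧ ∀ P : Sylow p G, H ≤ (P : Subgroup G) → (P : Subgroup G) ≤ Subgroup.normalizer (H : Set G) ∧ Cfsg.IsStronglyClosed H (P : Subgroup G) := by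
  have key : ∀ g : G, LocalEven.cj g H ≤ Subgroup.normalizer (H : Set G) → LocalEven.cj g H ≤ H := by
    intro g hg
    conv_rhs => rw [← hcl g]
    exact le_inf le_sup_right hg
  have hQN : ∀ Q : Subgroup G, IsPGroup p Q → H ≤ Q → Q ≤ Subgroup.normalizer (H : Set G) := by
    intro Q hQ hHQ
    refine inf_eq_left.mp (LocalEven.eq_of_normalizer_le hQ inf_le_left ?_)
    rintro n ⟨hnQ, hn⟩
    refine ⟨hnQ, LocalEven.cj_eq_self_iff.mp (Subgroup.eq_of_le_of_card_ge (key n ?_)
      (LocalEven.card_cj _ _).ge)⟩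
    refine le_trans ?_ (inf_le_right : Q ⊓ Subgroup.normalizer (H : Set G) ≤ _)
    calc LocalEven.cj n H ≤ LocalEven.cj n (Q ⊓ Subgroup.normalizer (H : Set G)) :=
          LocalEven.cj_mono (le_inf hHQ Subgroup.le_normalizer)
      _ = _ := LocalEven.cj_eq_self_iff.mpr hn
  refine ⟨fun Q hQ hHQ n hn => LocalEven.cj_eq_self_iff.mp
    (Subgroup.eq_of_le_of_card_ge (key n ?_) (LocalEven.card_cj _ _).ge), fun P hHP => ?_⟩
  · refine le_trans ?_ (hQN Q hQ hHQ)
    calc LocalEven.cj n H ≤ LocalEven.cj n Q := LocalEven.cj_mono hHQ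
      _ = Q := LocalEven.cj_eq_self_iff.mpr hn
  · have hPN := hQN P P.isPGroup' hHP
    refine ⟨hPN, hHP, fun x hx g hg => ?_⟩
    rw [← hcl g]
    exact ⟨Subgroup.mem_sup_right (LocalEven.conj_mem_cj hx), hPN hg⟩

end Cfsg.Agent.S3021
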