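import Cfsg.Statements.S3025
import Cfsg.Agent.OddLocal.UniqueSubgroup

set_option autoImplicit false
open Cfsg

namespace Cfsg.Agent.S3025

/-- Let F be a finite group and H a nontrivial subgroup of F that is contained in every nontrivial subgroup of F which H normalizes. Then F has a nontrivial normal subgroup N contained in every nontrivial normal subgroup of F (a unique minimal normal subgroup), N is simple, and one of the following holds: C_F(N) = 1; or H = N has prime order p, C_F(N) is cyclic of order a power of p, and F/C_F(N) is cyclic of order dividing p − 1; or H = N has order 2, N is central in F, and F is a generalized quaternion group. -/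
theorem result {F : Type*} [Group F] [Finite F] (H : Subgroup F) (hH : H ≠ ⊥)
    (hmin : ∀ R : Subgroup F, R ≠ ⊥ → H ≤ Subgroup.normalizer (R : Set F) → H ≤ R) :
    ∃ N : Subgroup F, N.Normal ∧ N ≠ ⊥ ∧ (∀ M : Subgroup F, M.Normal → M ≠ ⊥ → N ≤ M) ∧ IsSimpleGroup ↥N ∧
      (Subgroup.centralizer (N : Set F) = ⊥ ∨
       (H = N ∧ (Nat.card N).Prime ∧ IsCyclic ↥(Subgroup.centralizer (N : Set F)) ∧
          (∃ k : ℕ, 1 ≤ k ∧ Nat.card ↥(Subgroup.centralizer (N : Set F)) = Nat.card N ^ k) ∧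
          (∃ g : F, Subgroup.centralizer (N : Set F) ⊔ Subgroup.zpowers g = ⊤) ∧
          (Subgroup.centralizer (N : Set F)).index ∣ Nat.card N - 1) ∨
       (H = N ∧ Nat.card N = 2 ∧ Subgroup.centralizer (N : Set F) = ⊤ ∧
          ∃ k : ℕ, 1 ≤ k ∧ Nonempty (F ≃* QuaternionGroup (2 ^ k)))) := by
  classical
  obtain ⟨N, ⟨hNn, hN1⟩, hNmin⟩ : ∃ N : Subgroup F, Minimal (fun M : Subgroup F => M.Normal ∧ M ≠ ⊥) N := by
    obtain ⟨N, -, hN⟩ := (Set.toFinite {M : Subgroup F | M.Normal ∧ M ≠ ⊥}).exists_le_minimal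
      (a := (⊤ : Subgroup F)) ⟨inferInstance, fun h => hH (le_bot_iff.mp (h ▸ le_top))⟩
    exact ⟨N, hN⟩
  haveI := hNn
  have hle : ∀ M : Subgroup F, M.Normal → M ≠ ⊥ → H ≤ M := fun M hM h1 =>
    hmin M h1 (by rw [Subgroup.normalizer_eq_top (H := M)]; exact le_top)
  have hmono : ∀ M : Subgroup F, M.Normal → M ≠ ⊥ → N ≤ M := by
    intro M hM h1
    have h2 := hNmin (y := N ⊓ M) ⟨inferInstance, fun h => hH (le_bot_iff.mp (h ▸ le_inf (hle N hNn hN1) (hle M hM h1)))⟩ inf_le_left
    exact h2.trans inf_le_right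
  have hHN : H ≤ N := hle N hNn hN1
  haveI : Nontrivial ↥N := (Subgroup.nontrivial_iff_ne_bot N).mpr hN1
  -- simplicity
  have hsimple : IsSimpleGroup ↥N := by
    refine ⟨fun M hM => ?_⟩
    by_contra hcon
    push Not at hcon
    obtain ⟨S, hSM, ⟨hSn, hS1⟩, hSmin⟩ := (Set.toFinite {S : Subgroup ↥N | S.Normal ∧ S ≠ ⊥}).exists_le_minimal
      (a := M) ⟨hM, hcon.1⟩
    set S' := S.map N.subtype with hS'
    have hnormN : N ≤ Subgroup.normalizer (S' : Set F) := by
      intro n hn
      refine Subgroup.mem_normalizer_fintype ?_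
      rintro _ ⟨s, hs, rfl⟩
      exact ⟨⟨n, hn⟩ * s * ⟨n, hn⟩⁻¹, hSn.conj_mem s hs _, rfl⟩
    have hH' : ∀ T : Subgroup ↥N, T.Normal → T ≠ ⊥ → H.subgroupOf N ≤ T := by
      intro T hT hT1 x hx
      have h2 : H ≤ T.map N.subtype := hmin _ (fun h => hT1 ((Subgroup.map_eq_bot_iff_of_injective T N.subtype_injective).mp h))
        (fun h hh => Subgroup.mem_normalizer_fintype (by
          rintro _ ⟨s, hs, rfl⟩
          exact ⟨⟨h, hHN hh⟩ * s * ⟨h, hHN hh⟩⁻¹, hT.conj_mem s hs _, rfl⟩))
      obtain ⟨y, hy, hyx⟩ := h2 hx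
      rwa [← Subtype.ext (hyx : (y : F) = x)]
    have hS'n : S'.Normal := by
      refine ⟨fun x hx g => ?_⟩
      obtain ⟨s, hs, rfl⟩ := hx
      set T := S.comap (MulAut.conjNormal g⁻¹ : MulAut ↥N).toMonoidHom with hT
      haveI := hSn
      have hTn : T.Normal := by rw [hT]; infer_instance
      have hT1 : T ≠ ⊥ := by
        intro h
        apply hS1
        rw [eq_bot_iff]
        intro u hu
        obtain ⟨t, rfl⟩ := (MulAut.conjNormal g⁻¹ : MulAut ↥N).surjective u
        have : t ∈ T := hu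
        rw [h, Subgroup.mem_bot] at this
        rw [this, map_one]; exact one_mem _
      have hne : S ⊓ T ≠ ⊥ := by
        intro h
        have := le_inf (hH' S hSn hS1) (hH' T hTn hT1)
        rw [h, le_bot_iff, Subgroup.subgroupOf_eq_bot, disjoint_iff, inf_eq_left.mpr hHN] at this
        exact hH this
      have hST : S ≤ T := (hSmin (y := S ⊓ T) ⟨inferInstance, hne⟩ inf_le_left).trans inf_le_right
      have heq : S = T := Subgroup.eq_of_le_of_card_ge hST (le_of_eq (Nat.card_congr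
        ((MulAut.conjNormal g⁻¹ : MulAut ↥N).toEquiv.subtypeEquiv fun a => Iff.rfl)))
      have hmem : (MulAut.conjNormal g : MulAut ↥N) s ∈ T := by
        show (MulAut.conjNormal g⁻¹ : MulAut ↥N) ((MulAut.conjNormal g : MulAut ↥N) s) ∈ S
        rw [← MulAut.mul_apply, ← map_mul, inv_mul_cancel, map_one]
        exact hs
      rw [← heq] at hmem
      exact ⟨_, hmem, MulAut.conjNormal_apply g s⟩
    have := hmono S' hS'n (fun h => hS1 ((Subgroup.map_eq_bot_iff_of_injective S N.subtype_injective).mp h))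
    exact hcon.2 (top_le_iff.mp fun x _ => hSM (by
      obtain ⟨y, hy, hyx⟩ := this x.2
      rwa [← Subtype.ext (hyx : (y : F) = (x : F))]))
  refine ⟨N, hNn, hN1, hmono, hsimple, ?_⟩
  set C := Subgroup.centralizer (N : Set F) with hC
  by_cases hC1 : C = ⊥
  · exact Or.inl hC1
  right
  haveI : C.Normal := by rw [hC]; infer_instance
  have hNC : N ≤ C := hmono C inferInstance hC1
  haveI : IsMulCommutative ↥N := ⟨⟨fun a b => Subtype.ext (Subgroup.mem_centralizer_iff.mp (hNC b.2) a a.2)⟩⟩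
  set p := Nat.card ↥N with hp
  have hpp : p.Prime := by
    letI : CommGroup ↥N := { (inferInstance : Group ↥N) with mul_comm := fun a b => mul_comm' a b }
    exact IsSimpleGroup.prime_card
  haveI : Fact p.Prime := ⟨hpp⟩
  have hHeq : H = N := by
    haveI : Fact (Nat.card ↥N).Prime := ⟨hpp⟩
    rcases Subgroup.eq_bot_or_eq_top_of_prime_card (H.subgroupOf N) with h | h
    · rw [Subgroup.subgroupOf_eq_bot, disjoint_iff, inf_eq_left.mpr hHN] at h
      exact absurd h hH
    · exact le_antisymm hHN (Subgroup.subgroupOf_eq_top.mp h)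
  have hNR : ∀ R : Subgroup F, R ≤ C → R ≠ ⊥ → N ≤ R := fun R hR h1 => hHeq ▸ hmin R h1 (fun h hh =>
    (Subgroup.centralizer_le_normalizer (R : Set F)) (Subgroup.mem_centralizer_iff.mpr fun r hr =>
      ((Subgroup.mem_centralizer_iff.mp (hR hr) h (hHN hh))).symm))
  have hNz : ∀ c ∈ C, c ≠ 1 → N ≤ Subgroup.zpowers c := fun c hc hc1 =>
    hNR _ (Subgroup.zpowers_le.mpr hc) (by rwa [Ne, Subgroup.zpowers_eq_bot])
  have hCp : IsPGroup p ↥C := by
    refine IsPGroup.of_card (n := (Nat.card ↥C).primeFactorsList.length) (Nat.eq_prime_pow_of_unique_prime_dvd Nat.card_pos.ne' ?_)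
    intro q hq hqd
    haveI := Fact.mk hq
    obtain ⟨c, hc⟩ := exists_prime_orderOf_dvd_card' q hqd
    have h1 := Subgroup.card_dvd_of_le (hNz c c.2 (fun h => hq.one_lt.ne' (by
      rw [← hc, ← Subgroup.orderOf_coe, h, orderOf_one])))
    rw [Nat.card_zpowers, Subgroup.orderOf_coe, hc] at h1
    exact ((Nat.prime_dvd_prime_iff_eq hpp hq).mp h1).symm
  have hu : Cfsg.Agent.OddLocal.UniqueOrderP p ↥C := by
    refine Cfsg.Agent.OddLocal.UniqueOrderP.of_card fun A B hA hB => ?_
    have key : ∀ A : Subgroup ↥C, Nat.card A = p → A.map C.subtype = N := by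
      intro A hA
      refine (Subgroup.eq_of_le_of_card_ge (hNR _ (Subgroup.map_subtype_le A) ?_) ?_).symm
      · intro h
        rw [(Subgroup.map_eq_bot_iff_of_injective A C.subtype_injective).mp h, Subgroup.card_bot] at hA
        exact hpp.one_lt.ne hA
      · rw [Subgroup.card_map_of_injective C.subtype_injective, hA]
    exact Subgroup.map_injective C.subtype_injective ((key A hA).trans (key B hB).symm)
  -- the automorphisms induced on the minimal normal subgroup
  haveI : IsCyclic ↥N := isCyclic_of_prime_card (rfl : Nat.card ↥N = p)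
  set φ : F →* MulAut ↥N := MulAut.conjNormal with hφ
  have hker : φ.ker = C := by
    ext g
    rw [MonoidHom.mem_ker, hC, Subgroup.mem_centralizer_iff]
    constructor
    · intro h n hn
      have := congrArg Subtype.val (DFunLike.congr_fun h (⟨n, hn⟩ : ↥N))
      rw [hφ, MulAut.conjNormal_apply] at this
      exact (mul_inv_eq_iff_eq_mul.mp this).symm
    · intro h
      refine MulEquiv.ext fun n => Subtype.ext ?_
      rw [hφ, MulAut.conjNormal_apply]
      exact mul_inv_eq_iff_eq_mul.mpr (h n n.2).symm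
  haveI : IsCyclic (ZMod (Nat.card ↥N))ˣ := inferInstanceAs (IsCyclic (ZMod p)ˣ)
  haveI : IsCyclic (MulAut ↥N) := isCyclic_of_surjective (IsCyclic.mulAutMulEquiv ↥N).symm.toMonoidHom (IsCyclic.mulAutMulEquiv ↥N).symm.surjective
  have hcardAut : Nat.card (MulAut ↥N) = p - 1 := by
    rw [Nat.card_congr (IsCyclic.mulAutMulEquiv ↥N).toEquiv, Nat.card_eq_fintype_card]
    exact ZMod.card_units p
  have hidx : C.index ∣ p - 1 := by
    rw [← hker, Subgroup.index_ker, ← hcardAut]
    exact Subgroup.card_subgroup_dvd_card _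
  by_cases hcyc : IsCyclic ↥C
  · refine Or.inl ⟨hHeq, hpp, hcyc, ?_, ?_, hidx⟩
    · obtain ⟨k, hk⟩ := IsPGroup.iff_card.mp hCp
      refine ⟨k, Nat.one_le_iff_ne_zero.mpr fun h0 => hC1 (Subgroup.eq_bot_of_card_eq _ (by rw [hk, h0, pow_zero])), hk⟩
    · obtain ⟨⟨_, g, rfl⟩, hg⟩ := IsCyclic.exists_generator (α := ↥φ.range)
      refine ⟨g, top_le_iff.mp fun f _ => ?_⟩
      obtain ⟨i, hi⟩ := Subgroup.mem_zpowers_iff.mp (hg ⟨φ f, f, rfl⟩)
      have hi' : φ g ^ i = φ f := congrArg Subtype.val hi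
      have hfc : f * (g ^ i)⁻¹ ∈ C := by
        rw [← hker, MonoidHom.mem_ker, map_mul, map_inv, map_zpow, hi', mul_inv_cancel]
      have := Subgroup.mul_mem_sup hfc (Subgroup.zpow_mem (Subgroup.zpowers g) (Subgroup.mem_zpowers g) i)
      rwa [inv_mul_cancel_right] at this
  · rcases Cfsg.Agent.OddLocal.isCyclic_or_quaternion hCp hu with h | ⟨hp2, n, ⟨e⟩⟩
    · exact absurd h hcyc
    · have htop : C = ⊤ := Subgroup.index_eq_one.mp (Nat.dvd_one.mp (by rw [hp2] at hidx; exact hidx))
      refine Or.inr ⟨hHeq, hp2, htop, n, Nat.one_le_iff_ne_zero.mpr ?_, ⟨?_⟩⟩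
      · rintro rfl
        refine hcyc (isCyclic_of_orderOf_eq_card (e.symm (QuaternionGroup.xa 0)) ?_)
        rw [MulEquiv.orderOf_eq, QuaternionGroup.orderOf_xa, Nat.card_congr e.toEquiv,
          Nat.card_eq_fintype_card, QuaternionGroup.card]
        norm_num
      · exact (Subgroup.topEquiv.symm.trans (MulEquiv.subgroupCongr htop.symm)).trans e


end Cfsg.Agent.S3025
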