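import Cfsg.Statements.S3027


set_option autoImplicit false
open Cfsg

namespace Cfsg.Agent.S3027

/-- Let G be a finite group and D a normal subgroup of G such that G/D is perfect (that is, G = G′D). Then among the subnormal subgroups B of G with BD = G there is a least one, and it is normal in G. -/
theorem result {G : Type*} [Group G] [Finite G] (D : Subgroup G) [D.Normal] (hperf : ⁅(⊤ : Subgroup G), (⊤ : Subgroup G)⁆ ⊔ D = ⊤) :
    ∃ B : Subgroup G, B.Normal ∧ B ⊔ D = ⊤ ∧ ∀ B' : Subgroup G, B'.IsSubnormal → B' ⊔ D = ⊤ → B ≤ B' := by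
  classical
  -- supplements are closed under commutators
  have key : ∀ X Y Z : Subgroup G, X ⊔ D = ⊤ → Y ⊔ D = ⊤ → ⁅X, Y⁆ ≤ Z → Z ⊔ D = ⊤ := by
    intro X Y Z hX hY hZ
    have hsurj := QuotientGroup.mk'_surjective D
    have him : ∀ U : Subgroup G, U ⊔ D = ⊤ ↔ U.map (QuotientGroup.mk' D) = ⊤ := by
      intro U
      have := Subgroup.comap_map_eq (QuotientGroup.mk' D) U
      rw [QuotientGroup.ker_mk'] at this
      rw [← this, ← Subgroup.comap_top (QuotientGroup.mk' D)]
      exact (Subgroup.comap_injective hsurj).eq_iff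
    rw [him] at hX hY ⊢
    refine top_le_iff.mp ?_
    calc ⊤ = (⁅(⊤ : Subgroup G), (⊤ : Subgroup G)⁆).map (QuotientGroup.mk' D) := ((him _).mp hperf).symm
      _ = ⁅X.map (QuotientGroup.mk' D), Y.map (QuotientGroup.mk' D)⁆ := by
        rw [Subgroup.map_commutator, hX, hY, Subgroup.map_top_of_surjective _ hsurj]
      _ = (⁅X, Y⁆).map (QuotientGroup.mk' D) := (Subgroup.map_commutator _ _ _).symm
      _ ≤ Z.map (QuotientGroup.mk' D) := Subgroup.map_mono hZ
  -- the least normal supplement
  obtain ⟨B, ⟨hBn, hBD⟩, hBmin⟩ := (Set.toFinite {B : Subgroup G | B.Normal ∧ B ⊔ D = ⊤}).exists_minimalFor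
    id _ ⟨⊤, inferInstance, top_sup_eq D⟩
  refine ⟨B, hBn, hBD, ?_⟩
  have least : ∀ N : Subgroup G, N.Normal → N ⊔ D = ⊤ → B ≤ N := by
    intro N hN hND
    have h1 := hBmin (j := B ⊓ N) ⟨inferInstance, key B N _ hBD hND (Subgroup.commutator_le_inf B N)⟩ inf_le_left
    exact h1.trans inf_le_right
  intro B' hs
  induction hs using Subgroup.IsSubnormal.rec with
  | top => intro _; exact le_top
  | step H K hHK hK hn ih =>
    intro hHD
    have hKD : K ⊔ D = ⊤ := top_le_iff.mp (hHD ▸ sup_le_sup_right hHK D)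
    have hBK := ih hKD
    have hBH : B ≤ Subgroup.normalizer (H : Set G) := hBK.trans ((Subgroup.normal_subgroupOf_iff_le_normalizer hHK).mp hn)
    set M := B ⊓ H
    have hM1 : M ⊔ D = ⊤ := key B H _ hBD hHD
      (le_inf (Subgroup.commutator_le_left B H) (Subgroup.le_normalizer_iff_commutator_le_right.mp hBH))
    have hBM : B ≤ Subgroup.normalizer (M : Set G) := fun b hb => by
      rw [Subgroup.mem_normalizer_iff]
      intro x
      rw [Subgroup.mem_inf, Subgroup.mem_inf, ← Subgroup.mem_normalizer_iff.mp (hBH hb) x,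
        ← Subgroup.mem_normalizer_iff.mp (Subgroup.le_normalizer hb) x]
    -- finitely many conjugates
    haveI : Fintype G := Fintype.ofFinite G
    have hconj : ∀ g : G, M.map (MulAut.conj g).toMonoidHom ≤ B ∧
        B ≤ Subgroup.normalizer ((M.map (MulAut.conj g).toMonoidHom : Subgroup G) : Set G) ∧
        M.map (MulAut.conj g).toMonoidHom ⊔ D = ⊤ := by
      intro g
      refine ⟨?_, ?_, ?_⟩
      · rintro _ ⟨x, hx, rfl⟩; exact hBn.conj_mem x (Subgroup.mem_inf.mp hx).1 g
      · calc B = B.map (MulAut.conj g).toMonoidHom := ((Subgroup.Normal.map_conj_eq (H := B) g)).symm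
          _ ≤ _ := (Subgroup.map_mono hBM).trans (Subgroup.le_normalizer_map _)
      · have h2 := congrArg (Subgroup.map (MulAut.conj g).toMonoidHom) hM1
        rwa [Subgroup.map_sup, (show D.map (MulAut.conj g).toMonoidHom = D from Subgroup.Normal.map_conj_eq (H := D) g),
          Subgroup.map_top_of_surjective _ (MulAut.conj g).surjective] at h2
    have hfin : ∀ s : Finset G, B ≤ Subgroup.normalizer ((B ⊓ s.inf (fun g => M.map (MulAut.conj g).toMonoidHom) : Subgroup G) : Set G) ∧
        (B ⊓ s.inf (fun g => M.map (MulAut.conj g).toMonoidHom)) ⊔ D = ⊤ := by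
      intro s
      induction s using Finset.induction with
      | empty => rw [Finset.inf_empty, inf_top_eq]; exact ⟨Subgroup.le_normalizer, hBD⟩
      | @insert g s hg ihs =>
        rw [Finset.inf_insert, inf_left_comm]
        obtain ⟨a1, a2, a3⟩ := hconj g
        refine ⟨?_, key _ _ _ a3 ihs.2 (le_inf ?_ ?_)⟩
        · intro b hb
          rw [Subgroup.mem_normalizer_iff]
          intro x
          exact (Subgroup.mem_inf.trans (and_congr (Subgroup.mem_normalizer_iff.mp (a2 hb) x)
            (Subgroup.mem_normalizer_iff.mp (ihs.1 hb) x))).trans Subgroup.mem_inf.symm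
        · exact Subgroup.le_normalizer_iff_commutator_le_left.mp (inf_le_left.trans a2)
        · exact Subgroup.le_normalizer_iff_commutator_le_right.mp (a1.trans ihs.1)
    have hcore : B ≤ M.normalCore := by
      refine least _ inferInstance (top_le_iff.mp ?_)
      rw [← (hfin Finset.univ).2]
      refine sup_le_sup_right (fun x hx => ?_) D
      intro g
      have h3 := (Subgroup.mem_inf.mp hx).2
      have h4 : x ∈ M.map (MulAut.conj g⁻¹).toMonoidHom :=
        (Finset.inf_le (f := fun g => M.map (MulAut.conj g).toMonoidHom) (Finset.mem_univ g⁻¹)) h3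
      obtain ⟨y, hy, rfl⟩ := h4
      simpa [mul_assoc] using hy
    exact hcore.trans ((Subgroup.normalCore_le M).trans inf_le_right)


end Cfsg.Agent.S3027
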