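import Cfsg.Statements.S3044
import Cfsg.Agent.LocalEven.IsolatedPMinFinal

set_option autoImplicit false
set_option linter.style.haveILetI false
open Cfsg

namespace Cfsg.Agent.S3044

open Cfsg.Agent Cfsg.Agent.LocalEven

/-- Let G be a finite group, p a prime, S a Sylow p-subgroup of G and P a p-minimal subgroup of G containing S (S is not normal in P and lies in exactly one maximal subgroup of P). Let L be the subgroup generated by N_G(S) and all p-minimal subgroups of G containing S other than P, and suppose P is isolated: O_p(L) is not contained in O_p(P). Put Y for the normal closure of O^p(P) in G. Then G = YL; P is again isolated in the subgroup YS (the subgroup L₀ generated by N_{YS}(S) and the p-minimal subgroups of YS containing S other than P has O_p(L₀) not contained in O_p(P)); and either Y = O^p(P), or p divides |Y/O_p(Y)|, Y/O_p(Y) is generated by its components (a central product of quasisimple groups), and S permutes these components transitively by conjugation. -/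
theorem result {G : Type*} [Group G] [Finite G] {p : ℕ} [Fact p.Prime] (S : Sylow p G) (P : Subgroup G) (hSP : (S : Subgroup G) ≤ P) (hPmin : Cfsg.IsPMinimal p ↥P)
    (L Y : Subgroup G)
    (hL : L = Subgroup.normalizer ((S : Subgroup G) : Set G) ⊔ ⨆ P' : {P' : Subgroup G // (S : Subgroup G) ≤ P' ∧ Cfsg.IsPMinimal p ↥P' ∧ P' ≠ P}, (P' : Subgroup G))
    (hiso : ¬ (Cfsg.pCore p ↥L).map L.subtype ≤ (Cfsg.pCore p ↥P).map P.subtype)
    (hY : Y = Subgroup.normalClosure (((Cfsg.pResidual p ↥P).map P.subtype : Subgroup G) : Set G)) :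
    Y ⊔ L = ⊤ ∧
    ¬ (Cfsg.pCore p ↥((Subgroup.normalizer ((S : Subgroup G) : Set G) ⊓ (Y ⊔ (S : Subgroup G))) ⊔
          ⨆ P' : {P' : Subgroup G // (S : Subgroup G) ≤ P' ∧ P' ≤ Y ⊔ (S : Subgroup G) ∧ Cfsg.IsPMinimal p ↥P' ∧ P' ≠ P}, (P' : Subgroup G))).map
        (Subgroup.subtype _) ≤ (Cfsg.pCore p ↥P).map P.subtype ∧
    ((Cfsg.pResidual p ↥P).map P.subtype = Y ∨
     ∃ _ : (Cfsg.pCore p ↥Y).Normal,
       p ∣ Nat.card (↥Y ⧸ Cfsg.pCore p ↥Y) ∧ Cfsg.layer (↥Y ⧸ Cfsg.pCore p ↥Y) = ⊤ ∧
       ∀ K₁ K₂ : Subgroup (↥Y ⧸ Cfsg.pCore p ↥Y), Cfsg.IsComponent K₁ → Cfsg.IsComponent K₂ →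
         ∃ s ∈ (S : Subgroup G), ((K₂.comap (QuotientGroup.mk' (Cfsg.pCore p ↥Y))).map Y.subtype) = (((K₁.comap (QuotientGroup.mk' (Cfsg.pCore p ↥Y))).map Y.subtype)).map (MulAut.conj s).toMonoidHom) := by
  subst hL
  have hd0 : Iso.Isolated S P := ⟨hSP, hPmin, hiso⟩
  haveI hYn : Y.Normal := hY ▸ Subgroup.normalClosure_normal
  haveI hn : (Cfsg.pCore p G).Normal := inferInstance
  have d := hd0.isoData hY
  refine ⟨?_, ?_, ?_⟩
  · have := hd0.sup_eq_top (Y := Y) (hY ▸ Subgroup.le_normalClosure)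
    exact this
  · intro hcon
    refine hd0.hiso (le_trans ?_ hcon)
    refine Iso.le_coreIn (Iso.core_le_S.trans ?_) ((Core.isPGroup_pCore p _).map _) ?_
    · exact (le_inf Subgroup.le_normalizer le_sup_right).trans le_sup_left
    · refine le_trans (sup_le ?_ (iSup_le fun X => ?_)) (Iso.le_normalizer_map_subtype _)
      · exact inf_le_left.trans le_sup_left
      · exact Iso.le_othersJoin X.2.1 X.2.2.2.1 X.2.2.2.2
  · by_cases hp : p ∣ Nat.card ↥(Y.map (QuotientGroup.mk' (Cfsg.pCore p G)))
    · right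
      refine ⟨inferInstance, ?_, ?_, ?_⟩
      · rw [Nat.card_congr (Iso.imageEquiv (p := p) Y).toEquiv]; exact hp
      · refine Subgroup.map_injective (f := (Iso.imageEquiv (p := p) Y).toMonoidHom)
          (Iso.imageEquiv (p := p) Y).injective ?_
        rw [Components.layer_map, d.layer_top hp]
        exact (Subgroup.map_top_of_surjective _ (Iso.imageEquiv (p := p) Y).surjective).symm
      · intro K₁ K₂ hK₁ hK₂
        have hc : ∀ K, Cfsg.IsComponent K → Cfsg.IsComponent ((K.map (Iso.imageEquiv (p := p) Y).toMonoidHom).map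
            (Y.map (QuotientGroup.mk' (Cfsg.pCore p G))).subtype) := fun K hK =>
          (Components.isComponent_subtype_iff d.normal.isSubnormal _).mpr
            (Components.isComponent_map_equiv (Iso.imageEquiv (p := p) Y) hK)
        obtain ⟨_, ⟨s, hs, rfl⟩, e⟩ := d.transitive hp (hc _ hK₁) (Subgroup.map_subtype_le _) (hc _ hK₂)
          (Subgroup.map_subtype_le _)
        refine ⟨s, hs, ?_⟩
        rw [Iso.comap_mk_eq Y K₂, Iso.comap_mk_eq Y K₁, e, Iso.comap_cj_inf]
    · left
      have hcop := ((Fact.out : p.Prime).coprime_iff_not_dvd.mpr hp).symm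
      obtain ⟨t, ht, -, htY⟩ := d.exists_prime_pgroup hcop
      haveI := Fact.mk ht
      exact Iso.residual_eq hSP hY (d.eq_q hcop (IsPGroup.isNilpotent htY))

end Cfsg.Agent.S3044
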