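import Cfsg.Statements.S3045
import Cfsg.Agent.LocalEven.IsolatedPMinFinal

set_option autoImplicit false
set_option linter.style.haveILetI false
open Cfsg

namespace Cfsg.Agent.S3045

open Cfsg.Agent Cfsg.Agent.LocalEven

/-- Let G be a finite group, p a prime, S a Sylow p-subgroup of G and P a p-minimal subgroup of G containing S. Let L be the subgroup generated by N_G(S) and all p-minimal subgroups of G containing S other than P, and suppose O_p(L) is not contained in O_p(P). Put Y for the normal closure of O^p(P) in G. Then O^p(P) is contained in the preimage in G of F*(G/O_p(G)); and if Y is solvable, then Y = O^p(P) and Y/O_p(Y) is a t-group of nilpotency class at most 2 for some prime t ≠ p. -/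
theorem result {G : Type*} [Group G] [Finite G] {p : ℕ} [Fact p.Prime] (S : Sylow p G) (P : Subgroup G) (hSP : (S : Subgroup G) ≤ P) (hPmin : Cfsg.IsPMinimal p ↥P)
    (L Y : Subgroup G)
    (hL : L = Subgroup.normalizer ((S : Subgroup G) : Set G) ⊔ ⨆ P' : {P' : Subgroup G // (S : Subgroup G) ≤ P' ∧ Cfsg.IsPMinimal p ↥P' ∧ P' ≠ P}, (P' : Subgroup G))
    (hiso : ¬ (Cfsg.pCore p ↥L).map L.subtype ≤ (Cfsg.pCore p ↥P).map P.subtype)
    (hY : Y = Subgroup.normalClosure (((Cfsg.pResidual p ↥P).map P.subtype : Subgroup G) : Set G)) [hn : (Cfsg.pCore p G).Normal] :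
    (Cfsg.pResidual p ↥P).map P.subtype ≤ (Cfsg.generalizedFittingSubgroup (G ⧸ Cfsg.pCore p G)).comap (QuotientGroup.mk' (Cfsg.pCore p G)) ∧
    (Group.IsSolvable ↥Y → (Cfsg.pResidual p ↥P).map P.subtype = Y ∧
       ∃ _ : (Cfsg.pCore p ↥Y).Normal, ∃ t : ℕ, t.Prime ∧ t ≠ p ∧ IsPGroup t (↥Y ⧸ Cfsg.pCore p ↥Y) ∧
         ∃ _ : Group.IsNilpotent (↥Y ⧸ Cfsg.pCore p ↥Y), Group.nilpotencyClass (↥Y ⧸ Cfsg.pCore p ↥Y) ≤ 2) := by
  subst hL
  have hd0 : Iso.Isolated S P := ⟨hSP, hPmin, hiso⟩
  haveI hYn : Y.Normal := hY ▸ Subgroup.normalClosure_normal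
  have d := hd0.isoData hY
  have key : ¬ p ∣ Nat.card ↥(Y.map (QuotientGroup.mk' (Cfsg.pCore p G))) →
      (Cfsg.pResidual p ↥P).map P.subtype = Y ∧
      ∃ t : ℕ, t.Prime ∧ t ≠ p ∧ IsPGroup t ↥(Y.map (QuotientGroup.mk' (Cfsg.pCore p G))) ∧
        ∃ _ : Group.IsNilpotent ↥(Y.map (QuotientGroup.mk' (Cfsg.pCore p G))),
          Group.nilpotencyClass ↥(Y.map (QuotientGroup.mk' (Cfsg.pCore p G))) ≤ 2 := by
    intro hp
    have hcop := ((Fact.out : p.Prime).coprime_iff_not_dvd.mpr hp).symm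
    obtain ⟨t, ht, htp, htY⟩ := d.exists_prime_pgroup hcop
    haveI := Fact.mk ht
    haveI hnil := IsPGroup.isNilpotent htY
    refine ⟨Iso.residual_eq hSP hY (d.eq_q hcop hnil), t, ht, htp, htY, hnil, ?_⟩
    rw [← Subgroup.lowerCentralSeries_eq_bot_iff_nilpotencyClass_le,
      ← Components.map_inj_eq_bot_iff (Y.map (QuotientGroup.mk' (Cfsg.pCore p G))).subtype_injective]
    simp only [Subgroup.lowerCentralSeries_succ, Subgroup.lowerCentralSeries_zero,
      Subgroup.map_commutator, ← MonoidHom.range_eq_map, Subgroup.range_subtype]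
    exact d.class_two hnil
  refine ⟨?_, fun hsol => ?_⟩
  · rw [← Subgroup.map_le_iff_le_comap]
    refine d.q_le.trans ?_
    by_cases hp : p ∣ Nat.card ↥(Y.map (QuotientGroup.mk' (Cfsg.pCore p G)))
    · refine le_trans ?_ Components.layer_le_generalizedFitting
      have h := Components.layer_map_subtype_le (S := Y.map (QuotientGroup.mk' (Cfsg.pCore p G)))
        d.normal.isSubnormal
      rw [d.layer_top hp, ← MonoidHom.range_eq_map, Subgroup.range_subtype] at h
      exact h
    · obtain ⟨-, t, -, -, -, hnil, -⟩ := key hp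
      exact (Components.le_fitting d.normal hnil).trans Components.fitting_le_generalizedFitting
  · have hp : ¬ p ∣ Nat.card ↥(Y.map (QuotientGroup.mk' (Cfsg.pCore p G))) := fun hp =>
      d.y_ne_bot (Components.perfect_eq_bot_of_le_solvable (d.perfect hp) le_rfl
        (Components.isSolvable_map _ hsol))
    obtain ⟨h1, t, ht, htp, htY, hnil, hc⟩ := key hp
    haveI := Fact.mk ht
    set e := Iso.imageEquiv (p := p) Y
    haveI hnil' : Group.IsNilpotent (↥Y ⧸ Cfsg.pCore p ↥Y) :=
      IsPGroup.isNilpotent (htY.of_equiv e.symm)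
    refine ⟨h1, inferInstance, t, ht, htp, htY.of_equiv e.symm, hnil', ?_⟩
    exact (Group.nilpotencyClass_le_of_surjective e.symm.toMonoidHom e.symm.surjective).trans hc

end Cfsg.Agent.S3045
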