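import Cfsg.Statements.S3048
import Cfsg.Agent.Core.Cores
import Cfsg.Agent.Core.Fitting
import Cfsg.Agent.Components.FStar

set_option autoImplicit false
universe u
open Cfsg

namespace Cfsg.Agent.S3048

/-- Minimal counterexample reduction for the Sidki pair problem. Let G be a finite group and V a nontrivial elementary abelian 2-subgroup satisfying the Sidki pair condition with V ∩ O₂(G) = 1. Suppose that for every finite group H of smaller order, every nontrivial elementary abelian 2-subgroup W of H satisfying the Sidki pair condition meets O₂(H) nontrivially, and that the same holds in G for every such subgroup W of order smaller than that of V. Then the generalized Fitting subgroup F*(G) is a non-abelian simple group and G = V F*(G). -/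
theorem result {G : Type u} [Group G] [Finite G] (V : Subgroup G) (hV : Cfsg.IsElementaryAbelian 2 V) (hV1 : V ≠ ⊥) (hS : Cfsg.IsSidkiPair V) (hVO : V ⊓ Cfsg.pCore 2 G = ⊥) (hminG : ∀ (H : Type u) [Group H] [Finite H] (W : Subgroup H), Nat.card H < Nat.card G → Cfsg.IsElementaryAbelian 2 W → W ≠ ⊥ → Cfsg.IsSidkiPair W → W ⊓ Cfsg.pCore 2 H ≠ ⊥) (hminV : ∀ W : Subgroup G, Nat.card W < Nat.card V → Cfsg.IsElementaryAbelian 2 W → W ≠ ⊥ → Cfsg.IsSidkiPair W → W ⊓ Cfsg.pCore 2 G ≠ ⊥) : IsSimpleGroup ↥(Cfsg.generalizedFittingSubgroup G) ∧ ¬ IsMulCommutative ↥(Cfsg.generalizedFittingSubgroup G) ∧ V ⊔ Cfsg.generalizedFittingSubgroup G = ⊤ := by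
  classical
  haveI : Fact (Nat.Prime 2) := ⟨Nat.prime_two⟩
  have hsq : ∀ v ∈ V, v⁻¹ = v := by
    intro v hv
    have h2 : v * v = 1 := by
      have := hV.2 v hv
      rwa [pow_two] at this
    exact inv_eq_of_mul_eq_one_right h2
  have hcm : ∀ v ∈ V, ∀ w ∈ V, v * w = w * v := fun v hv w hw =>
    congrArg Subtype.val (hV.1.1.comm ⟨v, hv⟩ ⟨w, hw⟩)
  have hsub : ∀ H W : Subgroup G, W ≤ V → Cfsg.IsElementaryAbelian 2 (W.subgroupOf H) := by
    intro H W hWV
    refine ⟨⟨⟨fun a b => Subtype.ext (Subtype.ext ?_)⟩⟩, fun a ha => Subtype.ext ?_⟩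
    · exact hcm _ (hWV a.2) _ (hWV b.2)
    · exact hV.2 _ (hWV ha)
  -- odd commuting products
  have hodd : ∀ a b : G, Odd (orderOf a) → Odd (orderOf b) → a * b = b * a → Odd (orderOf (a * b)) := by
    intro a b ha hb hab
    exact (ha.mul hb).of_dvd_nat (Commute.orderOf_mul_dvd_mul_orderOf hab)
  have hodd1 : ∀ a : G, Odd (orderOf a) → a * a = 1 → a = 1 := by
    intro a ha h
    rw [← orderOf_eq_one_iff]
    rcases (Nat.dvd_prime Nat.prime_two).mp (orderOf_dvd_of_pow_eq_one (by rwa [pow_two] : a ^ 2 = 1)) with h1 | h1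
    · exact h1
    · rw [h1] at ha; exact absurd ha (by decide)
  -- (1) the 2-core is trivial
  have hO : Cfsg.pCore 2 G = ⊥ := by
    by_contra hQ
    haveI : (Cfsg.pCore 2 G).Normal := inferInstance
    let π := QuotientGroup.mk' (Cfsg.pCore 2 G)
    have hlt : Nat.card (G ⧸ Cfsg.pCore 2 G) < Nat.card G := by
      rw [Subgroup.card_eq_card_quotient_mul_card_subgroup (Cfsg.pCore 2 G)]
      exact lt_mul_of_one_lt_right Nat.card_pos ((Subgroup.one_lt_card_iff_ne_bot _).mpr hQ)
    have hW1 : V.map π ≠ ⊥ := by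
      intro h
      rw [Subgroup.map_eq_bot_iff, QuotientGroup.ker_mk'] at h
      exact hV1 (by rw [← hVO, inf_eq_left.mpr h])
    have hWe : Cfsg.IsElementaryAbelian 2 (V.map π) := by
      refine ⟨⟨⟨?_⟩⟩, ?_⟩
      · rintro ⟨_, a, ha, rfl⟩ ⟨_, b, hb, rfl⟩
        refine Subtype.ext ?_
        show π a * π b = π b * π a
        rw [← map_mul, hcm a ha b hb, map_mul]
      · rintro _ ⟨a, ha, rfl⟩
        rw [← map_pow, hV.2 a ha, map_one]
    refine hminG (G ⧸ Cfsg.pCore 2 G) (V.map π) hlt hWe hW1 ?_ (by rw [Cfsg.Agent.Core.pCore_quotient_pCore]; exact inf_bot_eq _)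
    rintro h _ ⟨v, hv, rfl⟩ hh hinv
    obtain ⟨g, rfl⟩ : ∃ g, π g = h := QuotientGroup.mk'_surjective (Cfsg.pCore 2 G) h
    set x := v * g * v⁻¹ * g⁻¹ with hx
    have hxi : π x = (π g * π g)⁻¹ := by
      rw [hx, map_mul, map_inv, map_mul, map_mul, map_inv, hinv]
      group
    have hxv : v * x * v⁻¹ = x⁻¹ := by
      have h2 : v * v = 1 := by
        have := hV.2 v hv
        rwa [pow_two] at this
      calc v * x * v⁻¹ = (v * v) * g * v⁻¹ * g⁻¹ * v⁻¹ := by rw [hx]; group
        _ = g * v * g⁻¹ * v⁻¹ := by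
          rw [h2, one_mul]
          calc g * v⁻¹ * g⁻¹ * v⁻¹ = g * v * g⁻¹ * v⁻¹ := by rw [hsq v hv]
            _ = _ := rfl
        _ = x⁻¹ := by rw [hx]; group
    obtain ⟨a, m, hm, ham⟩ := Nat.exists_eq_two_pow_mul_odd (orderOf_pos x).ne'
    have hyo : Odd (orderOf (x ^ 2 ^ a)) := by
      rw [orderOf_pow' x (pow_ne_zero _ (by norm_num)), ham, Nat.gcd_eq_right (dvd_mul_right _ _),
        Nat.mul_div_cancel_left _ (by positivity : 0 < 2 ^ a)]
      exact hm
    obtain ⟨w, hw, hw1, hwy⟩ := hS (x ^ 2 ^ a) v hv hyo (by rw [← conj_pow, hxv, inv_pow])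
    refine ⟨π w, Subgroup.mem_map_of_mem π hw, fun h1 => hw1 ?_, ?_⟩
    · have : w ∈ V ⊓ Cfsg.pCore 2 G := ⟨hw, (QuotientGroup.eq_one_iff w).mp h1⟩
      rwa [hVO, Subgroup.mem_bot] at this
    · have h3 : Commute (π w) ((π g ^ (2 ^ (a + 1)))⁻¹) := by
        have h4 : π (x ^ 2 ^ a) = (π g ^ (2 ^ (a + 1)))⁻¹ := by
          rw [map_pow, hxi, inv_pow, ← pow_two, ← pow_mul, ← pow_succ']
        rw [← h4]
        show π w * π _ = π _ * π w
        rw [← map_mul, hwy, map_mul]
      have hco : (2 ^ (a + 1)).Coprime (orderOf (π g)) := Nat.Coprime.pow_left _ (Nat.coprime_two_left.mpr hh)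
      obtain ⟨j, hj⟩ := exists_pow_eq_self_of_coprime hco
      have h5 : Commute (π w) (π g ^ (2 ^ (a + 1))) := by simpa using h3.inv_right
      have h6 := h5.pow_right j
      rw [hj] at h6
      exact h6
  -- elements of the core of an overgroup of a normal subgroup centralize it
  have hcent : ∀ M H : Subgroup G, M.Normal → M ≤ H → ∀ a : ↥H, a ∈ Cfsg.pCore 2 ↥H →
      (a : G) ∈ Subgroup.centralizer (M : Set G) := by
    intro M H hM hMH a ha
    haveI := hM
    rw [Subgroup.mem_centralizer_iff]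
    intro m hm
    have hK : (Cfsg.pCore 2 ↥H).map H.subtype ⊓ M ≤ Cfsg.pCore 2 G := by
      have hN : (((Cfsg.pCore 2 ↥H).map H.subtype ⊓ M).subgroupOf M).Normal := by
        refine ⟨fun b hb c => ?_⟩
        obtain ⟨⟨k, hk, hkb⟩, -⟩ := hb
        refine ⟨⟨⟨c, hMH c.2⟩ * k * ⟨c, hMH c.2⟩⁻¹, Subgroup.Normal.conj_mem inferInstance k hk _, ?_⟩, (c * b * c⁻¹).2⟩
        show (c : G) * (k : G) * (c : G)⁻¹ = (c : G) * (b : G) * (c : G)⁻¹
        rw [show (k : G) = (b : G) from hkb]
      have hp : IsPGroup 2 ↥((((Cfsg.pCore 2 ↥H).map H.subtype ⊓ M)).subgroupOf M) :=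
        (((Cfsg.Agent.Core.isPGroup_pCore 2 ↥H).map _).to_le inf_le_left).of_equiv
          (Subgroup.subgroupOfEquivOfLe inf_le_right).symm
      have h := Cfsg.Agent.Core.le_pCore hN hp
      rw [Cfsg.Agent.Core.pCore_eq_subgroupOf 2 M] at h
      exact fun b hb => h (x := ⟨b, hb.2⟩) hb
    have h1 : (a : G) * m * (a : G)⁻¹ * m⁻¹ ∈ (Cfsg.pCore 2 ↥H).map H.subtype ⊓ M := by
      refine ⟨⟨a * (⟨m, hMH hm⟩ * a⁻¹ * ⟨m, hMH hm⟩⁻¹), mul_mem ha (Subgroup.Normal.conj_mem inferInstance _ (inv_mem ha) _), ?_⟩,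
        mul_mem (hM.conj_mem m hm _) (Subgroup.inv_mem M hm)⟩
      show (a : G) * (m * (a : G)⁻¹ * m⁻¹) = _
      group
    have h2 := hK h1
    rw [hO, Subgroup.mem_bot, mul_inv_eq_one, mul_inv_eq_iff_eq_mul] at h2
    exact h2.symm
  -- the pair is inherited by proper overgroups of V
  have hinh : ∀ H : Subgroup G, H ≠ ⊤ → V ≤ H → ∃ a : ↥H, a ∈ Cfsg.pCore 2 ↥H ∧ (a : G) ∈ V ∧ (a : G) ≠ 1 := by
    intro H hH hVH
    have hne : V.subgroupOf H ≠ ⊥ := by
      intro h
      exact hV1 (by rw [← inf_eq_left.mpr hVH, ← disjoint_iff, ← Subgroup.subgroupOf_eq_bot]; exact h)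
    have hlt : Nat.card ↥H < Nat.card G :=
      lt_of_le_of_ne (Subgroup.card_le_card_group H) fun h => hH (Subgroup.eq_top_of_card_eq H h)
    have h := hminG ↥H (V.subgroupOf H) hlt (hsub H V le_rfl) hne (by
      intro h v hv hh hinv
      rw [← Subgroup.orderOf_coe] at hh
      obtain ⟨w, hw, hw1, hwh⟩ := hS h v hv hh (congrArg Subtype.val hinv)
      exact ⟨⟨w, hVH hw⟩, hw, fun h1 => hw1 (congrArg Subtype.val h1), Subtype.ext hwh⟩)
    obtain ⟨⟨a, ha⟩, ha1⟩ := Subgroup.ne_bot_iff_exists_ne_one.mp h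
    exact ⟨a, ha.2, ha.1, fun h1 => ha1 (Subtype.ext (Subtype.ext h1))⟩
  -- (2) centralizers of normal subgroups
  have hU : ∀ M : Subgroup G, M.Normal → M ≠ ⊥ → V ⊓ Subgroup.centralizer (M : Set G) = ⊥ := by
    intro M hM hM1
    haveI := hM
    set C := Subgroup.centralizer (M : Set G) with hC
    haveI hCn : C.Normal := inferInstance
    have hMC : ∀ z ∈ M, z ∈ C → z * z = 1 → z = 1 := by
      intro z hz hzC hz2
      let Ω : Subgroup G :=
        { carrier := {z | z ∈ M ∧ z ∈ C ∧ z * z = 1}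
          one_mem' := ⟨one_mem _, one_mem _, one_mul 1⟩
          mul_mem' := fun {a b} ha hb => ⟨mul_mem ha.1 hb.1, mul_mem ha.2.1 hb.2.1, by
            have := Subgroup.mem_centralizer_iff.mp hb.2.1 a ha.1
            calc a * b * (a * b) = a * (b * a) * b := by group
              _ = a * (a * b) * b := by rw [this]
              _ = (a * a) * (b * b) := by group
              _ = 1 := by rw [ha.2.2, hb.2.2, one_mul]⟩
          inv_mem' := fun {a} ha => ⟨inv_mem ha.1, inv_mem ha.2.1, by rw [← mul_inv_rev, ha.2.2, inv_one]⟩ }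
      have hΩn : Ω.Normal := ⟨fun a ha g => ⟨hM.conj_mem a ha.1 g, hCn.conj_mem a ha.2.1 g, by
        rw [show g * a * g⁻¹ * (g * a * g⁻¹) = g * (a * a) * g⁻¹ by group, ha.2.2, mul_one, mul_inv_cancel]⟩⟩
      have hΩp : IsPGroup 2 ↥Ω := fun a => ⟨1, Subtype.ext (by rw [pow_one, Subgroup.coe_pow, pow_two]; exact a.2.2.2)⟩
      have h := Cfsg.Agent.Core.le_pCore hΩn hΩp (show z ∈ Ω from ⟨hz, hzC, hz2⟩)
      rwa [hO, Subgroup.mem_bot] at h
    by_contra hUne
    set U := V ⊓ C with hUd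
    rcases eq_or_lt_of_le (inf_le_left : U ≤ V) with hUV | hUV
    · -- all of V centralizes M
      have hVC : V ≤ C := inf_eq_left.mp hUV
      by_cases hCt : C = ⊤
      · -- M is central
        have hMz : M ≤ Subgroup.center G := fun z hz => Subgroup.mem_center_iff.mpr fun g =>
          (Subgroup.mem_centralizer_iff.mp ((hCt ▸ Subgroup.mem_top g : g ∈ C)) z hz).symm
        let π := QuotientGroup.mk' M
        have hlt : Nat.card (G ⧸ M) < Nat.card G := by
          rw [Subgroup.card_eq_card_quotient_mul_card_subgroup M]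
          exact lt_mul_of_one_lt_right Nat.card_pos ((Subgroup.one_lt_card_iff_ne_bot _).mpr hM1)
        have hVM : ∀ v ∈ V, v ∈ M → v = 1 := fun v hv hvM => hMC v hvM (hCt ▸ Subgroup.mem_top v) (by
          have := hV.2 v hv
          rwa [pow_two] at this)
        have hW1 : V.map π ≠ ⊥ := by
          intro h
          rw [Subgroup.map_eq_bot_iff, QuotientGroup.ker_mk'] at h
          exact hV1 ((Subgroup.eq_bot_iff_forall V).mpr fun v hv => hVM v hv (h hv))
        have hWe : Cfsg.IsElementaryAbelian 2 (V.map π) := by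
          refine ⟨⟨⟨?_⟩⟩, ?_⟩
          · rintro ⟨_, a, ha, rfl⟩ ⟨_, b, hb, rfl⟩
            refine Subtype.ext ?_
            show π a * π b = π b * π a
            rw [← map_mul, hcm a ha b hb, map_mul]
          · rintro _ ⟨a, ha, rfl⟩
            rw [← map_pow, hV.2 a ha, map_one]
        have h := hminG (G ⧸ M) (V.map π) hlt hWe hW1 (by
          rintro h _ ⟨v, hv, rfl⟩ hh hinv
          obtain ⟨g, rfl⟩ : ∃ g, π g = h := QuotientGroup.mk'_surjective M h
          set x := v * g * v⁻¹ * g⁻¹ with hx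
          have hxi : π x = (π g * π g)⁻¹ := by
            rw [hx, map_mul, map_inv, map_mul, map_mul, map_inv, hinv]
            group
          have hxv : v * x * v⁻¹ = x⁻¹ := by
            have h2 : v * v = 1 := by
              have := hV.2 v hv
              rwa [pow_two] at this
            calc v * x * v⁻¹ = (v * v) * g * v⁻¹ * g⁻¹ * v⁻¹ := by rw [hx]; group
              _ = g * v * g⁻¹ * v⁻¹ := by rw [h2, one_mul, hsq v hv]
              _ = x⁻¹ := by rw [hx]; group
          obtain ⟨a, m, hm, ham⟩ := Nat.exists_eq_two_pow_mul_odd (orderOf_pos x).ne'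
          have hyo : Odd (orderOf (x ^ 2 ^ a)) := by
            rw [orderOf_pow' x (pow_ne_zero _ (by norm_num)), ham, Nat.gcd_eq_right (dvd_mul_right _ _),
              Nat.mul_div_cancel_left _ (by positivity : 0 < 2 ^ a)]
            exact hm
          obtain ⟨w, hw, hw1, hwy⟩ := hS (x ^ 2 ^ a) v hv hyo (by rw [← conj_pow, hxv, inv_pow])
          refine ⟨π w, Subgroup.mem_map_of_mem π hw, fun h1 => hw1 (hVM w hw ((QuotientGroup.eq_one_iff w).mp h1)), ?_⟩
          have h3 : Commute (π w) ((π g ^ (2 ^ (a + 1)))⁻¹) := by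
            have h4 : π (x ^ 2 ^ a) = (π g ^ (2 ^ (a + 1)))⁻¹ := by
              rw [map_pow, hxi, inv_pow, ← pow_two, ← pow_mul, ← pow_succ']
            rw [← h4]
            show π w * π _ = π _ * π w
            rw [← map_mul, hwy, map_mul]
          have hco : (2 ^ (a + 1)).Coprime (orderOf (π g)) := Nat.Coprime.pow_left _ (Nat.coprime_two_left.mpr hh)
          obtain ⟨j, hj⟩ := exists_pow_eq_self_of_coprime hco
          have h5 : Commute (π w) (π g ^ (2 ^ (a + 1))) := by simpa using h3.inv_right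
          have h6 := h5.pow_right j
          rw [hj] at h6
          exact h6)
        obtain ⟨⟨a, ha⟩, ha1⟩ := Subgroup.ne_bot_iff_exists_ne_one.mp h
        obtain ⟨v, hv, hva⟩ := ha.1
        set P := (Cfsg.pCore 2 (G ⧸ M)).comap π with hP
        haveI : Group.IsNilpotent ↥(Cfsg.pCore 2 (G ⧸ M)) := (Cfsg.Agent.Core.isPGroup_pCore 2 (G ⧸ M)).isNilpotent
        haveI : Group.IsNilpotent ↥P := by
          refine Subgroup.isNilpotent_of_ker_le_center (π.subgroupComap (Cfsg.pCore 2 (G ⧸ M))) (fun b hb => ?_)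
          have hbM : (b : G) ∈ M := (QuotientGroup.eq_one_iff (b : G)).mp (congrArg Subtype.val (MonoidHom.mem_ker.mp hb))
          exact Subgroup.mem_center_iff.mpr fun c => Subtype.ext (Subgroup.mem_center_iff.mp (hMz hbM) c)
        have hvP : v ∈ P := by rw [hP, Subgroup.mem_comap, hva]; exact ha.2
        obtain ⟨T, hT⟩ := ((IsPGroup.of_card (n := 1) (by
          rw [Nat.card_zpowers, pow_one]
          refine orderOf_eq_prime (Subtype.ext ?_) fun h1 => ha1 (Subtype.ext ?_)
          · exact hV.2 v hv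
          · show a = 1
            rw [← hva, show v = 1 from congrArg Subtype.val h1, map_one]) :
            IsPGroup 2 ↥(Subgroup.zpowers (⟨v, hvP⟩ : ↥P)))).exists_le_sylow
        have h7 : (⟨v, hvP⟩ : ↥P) ∈ Cfsg.pCore 2 ↥P := by
          rw [Cfsg.Agent.Core.pCore_eq_sylow T]; exact hT (Subgroup.mem_zpowers _)
        rw [Cfsg.Agent.Core.pCore_eq_bot_of_normal P hO, Subgroup.mem_bot] at h7
        exact ha1 (Subtype.ext (by show a = 1; rw [← hva, show v = 1 from congrArg Subtype.val h7, map_one]))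
      · obtain ⟨a, ha, -, ha1⟩ := hinh C hCt hVC
        rw [Cfsg.Agent.Core.pCore_eq_bot_of_normal C hO, Subgroup.mem_bot] at ha
        exact ha1 (congrArg Subtype.val ha)
    · -- a proper nontrivial centralizer in V
      have hUe : Cfsg.IsElementaryAbelian 2 U :=
        ⟨⟨⟨fun a b => Subtype.ext (hcm _ a.2.1 _ b.2.1)⟩⟩, fun a ha => hV.2 a ha.1⟩
      have hUcard : Nat.card ↥U < Nat.card ↥V :=
        lt_of_le_of_ne (Subgroup.card_le_of_le hUV.le) fun h => hUV.ne (Subgroup.eq_of_le_of_card_ge hUV.le h.ge)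
      have hnS : ¬ Cfsg.IsSidkiPair U := fun h => hminV U hUcard hUe hUne h (by rw [hO, inf_bot_eq])
      obtain ⟨h, u, hu, hh, hinv, hno⟩ : ∃ h u, u ∈ U ∧ Odd (orderOf h) ∧ u * h * u⁻¹ = h⁻¹ ∧
          ∀ w ∈ U, w ≠ 1 → w * h ≠ h * w := by
        simpa [Cfsg.IsSidkiPair] using hnS
      have hh1 : h ≠ 1 := by
        rintro rfl
        obtain ⟨⟨w, hw⟩, hw1⟩ := Subgroup.ne_bot_iff_exists_ne_one.mp hUne
        exact hno w hw (fun h1 => hw1 (Subtype.ext h1)) (by simp)
      have hhC : h ∈ C := by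
        have h2 : h ^ 2 ∈ C := by
          rw [show h ^ 2 = h * u * h⁻¹ * u⁻¹ by
            rw [pow_two]
            calc h * h = h * (u * h * u⁻¹)⁻¹ := by rw [hinv, inv_inv]
              _ = _ := by group]
          exact mul_mem (hCn.conj_mem u hu.2 h) (inv_mem hu.2)
        obtain ⟨j, hj⟩ := exists_pow_eq_self_of_coprime (n := 2) (Nat.coprime_two_left.mpr hh)
        rw [← hj]; exact pow_mem h2 j
      set T := V ⊓ Subgroup.centralizer ({h} : Set G) with hT
      have hTU : ∀ w ∈ T, w ∈ U → w = 1 := fun w hw hwU => by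
        by_contra h1
        exact hno w hwU h1 ((Subgroup.mem_centralizer_iff.mp hw.2 h rfl).symm)
      have hTm : ∀ w ∈ V, w * h = h * w → w ∈ T := fun w hw hwh =>
        ⟨hw, Subgroup.mem_centralizer_iff.mpr fun y hy => by rw [Set.mem_singleton_iff.mp hy]; exact hwh.symm⟩
      set H := M ⊔ T with hH
      have hodM : ∀ m ∈ H, Odd (orderOf m) → m ∈ M := by
        intro m hm hmo
        rw [hH, ← SetLike.mem_coe, Subgroup.normal_mul] at hm
        obtain ⟨a, ha, t, ht, rfl⟩ := hm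
        rw [← QuotientGroup.eq_one_iff]
        refine orderOf_eq_one_iff.mp (Nat.eq_one_of_dvd_coprimes (Nat.coprime_two_left.mpr hmo)
          (orderOf_dvd_of_pow_eq_one ?_) (orderOf_map_dvd (QuotientGroup.mk' M) _))
        rw [QuotientGroup.mk_mul, (QuotientGroup.eq_one_iff a).mpr ha, one_mul, ← QuotientGroup.mk_pow, hV.2 t ht.1]
        rfl
      have huM : ∀ m ∈ M, u * m = m * u := fun m hm => (Subgroup.mem_centralizer_iff.mp hu.2 m hm).symm
      have hHt : H ≠ ⊤ := by
        intro e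
        have hm : h ∈ M := hodM h (e ▸ Subgroup.mem_top h) hh
        have h2 := huM h hm
        rw [h2, mul_inv_cancel_right] at hinv
        exact hh1 (hodd1 h hh (by nth_rewrite 2 [hinv]; exact mul_inv_cancel h))
      have hlt : Nat.card ↥H < Nat.card G :=
        lt_of_le_of_ne (Subgroup.card_le_card_group H) fun e => hHt (Subgroup.eq_top_of_card_eq H e)
      obtain ⟨w₀, hw₀, hw₀1, hw₀h⟩ := hS h u hu.1 hh hinv
      have hTne : T.subgroupOf H ≠ ⊥ := by
        intro e
        rw [Subgroup.subgroupOf_eq_bot, disjoint_iff, inf_eq_left.mpr le_sup_right] at e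
        have := hTm w₀ hw₀ hw₀h
        rw [e, Subgroup.mem_bot] at this
        exact hw₀1 this
      have hres := hminG ↥H (T.subgroupOf H) hlt (hsub H T inf_le_left) hTne (by
        rintro ⟨m, hmH⟩ ⟨t, htH⟩ ht hmo hinv'
        rw [Subgroup.orderOf_mk] at hmo
        have htT : t ∈ T := ht
        have hm : m ∈ M := hodM m hmH hmo
        have hhm : h * m = m * h := (Subgroup.mem_centralizer_iff.mp hhC m hm).symm
        have hth : t * h * t⁻¹ = h := by
          rw [(Subgroup.mem_centralizer_iff.mp htT.2 h rfl).symm, mul_inv_cancel_right]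
        have htm : t * m * t⁻¹ = m⁻¹ := congrArg Subtype.val hinv'
        have hx : u * t * (h * m) * (u * t)⁻¹ = (h * m)⁻¹ := by
          calc u * t * (h * m) * (u * t)⁻¹ = u * ((t * h * t⁻¹) * (t * m * t⁻¹)) * u⁻¹ := by group
            _ = u * (h * m⁻¹) * u⁻¹ := by rw [hth, htm]
            _ = (u * h * u⁻¹) * (u * m⁻¹ * u⁻¹) := by group
            _ = h⁻¹ * m⁻¹ := by rw [hinv, huM _ (inv_mem hm), mul_inv_cancel_right]
            _ = (m * h)⁻¹ := by group
            _ = (h * m)⁻¹ := by rw [hhm]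
        obtain ⟨w, hw, hw1, hwx⟩ := hS (h * m) (u * t) (mul_mem hu.1 htT.1) (hodd h m hh hmo hhm) hx
        have hwV : ∀ z, w * z * w⁻¹ = z → w * z = z * w := fun z hz => mul_inv_eq_iff_eq_mul.mp hz
        set δ := h⁻¹ * (w * h * w⁻¹) with hδ
        have hδC : δ ∈ C := mul_mem (inv_mem hhC) (hCn.conj_mem h hhC w)
        have hδe : δ = m * (w * m * w⁻¹)⁻¹ := by
          rw [hδ]
          calc h⁻¹ * (w * h * w⁻¹) = h⁻¹ * (w * (h * m)) * w⁻¹ * (w * m * w⁻¹)⁻¹ := by group
            _ = h⁻¹ * (h * m * w) * w⁻¹ * (w * m * w⁻¹)⁻¹ := by rw [hwx]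
            _ = m * (w * m * w⁻¹)⁻¹ := by group
        have hδM : δ ∈ M := hδe ▸ mul_mem hm (inv_mem (hM.conj_mem m hm w))
        have hwh : w * h * w⁻¹ = h * δ := by rw [hδ]; group
        have huw := hcm u hu.1 w hw
        have h9 : h⁻¹ * δ = h⁻¹ * δ⁻¹ := by
          calc h⁻¹ * δ = (u * h * u⁻¹) * (u * δ * u⁻¹) := by rw [hinv, huM δ hδM, mul_inv_cancel_right]
            _ = u * (h * δ) * u⁻¹ := by group
            _ = u * (w * h * w⁻¹) * u⁻¹ := by rw [hwh]
            _ = (u * w) * h * (u * w)⁻¹ := by group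
            _ = (w * u) * h * (w * u)⁻¹ := by rw [huw]
            _ = w * (u * h * u⁻¹) * w⁻¹ := by group
            _ = (w * h * w⁻¹)⁻¹ := by rw [hinv]; group
            _ = (h * δ)⁻¹ := by rw [hwh]
            _ = (δ * h)⁻¹ := by rw [Subgroup.mem_centralizer_iff.mp hhC δ hδM]
            _ = h⁻¹ * δ⁻¹ := by group
        have hδ1 : δ = 1 := hMC δ hδM hδC (by
          have := mul_left_cancel h9
          nth_rewrite 2 [this]
          exact mul_inv_cancel δ)
        have hwh' : w * h = h * w := hwV h (by rw [hwh, hδ1, mul_one])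
        refine ⟨⟨w, (le_sup_right : T ≤ H) (hTm w hw hwh')⟩, hTm w hw hwh', fun e => hw1 (congrArg Subtype.val e), Subtype.ext ?_⟩
        show w * m = m * w
        refine hwV m ?_
        rw [hδ1, eq_comm, mul_inv_eq_one] at hδe
        exact hδe.symm)
      obtain ⟨⟨a, ha⟩, ha1⟩ := Subgroup.ne_bot_iff_exists_ne_one.mp hres
      refine ha1 (Subtype.ext (Subtype.ext (hTU a ha.1 ⟨ha.1.1, ?_⟩)))
      exact hcent M H hM le_sup_left a ha.2
  have hgen : ∀ M : Subgroup G, M.Normal → M ≠ ⊥ → V ⊔ M = ⊤ := by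
    intro M hM hM1
    by_contra hne
    obtain ⟨a, ha, haV, ha1⟩ := hinh _ hne le_sup_left
    have h : (a : G) ∈ V ⊓ Subgroup.centralizer (M : Set G) := ⟨haV, hcent M _ hM le_sup_right a ha⟩
    rw [hU M hM hM1, Subgroup.mem_bot] at h
    exact ha1 h
  -- (3) no abelian normal subgroups
  have hab : ∀ N : Subgroup G, N.Normal → (∀ a ∈ N, ∀ b ∈ N, a * b = b * a) → N = ⊥ := by
    intro N hN hNab
    by_contra hN1
    obtain ⟨A, hAN, ⟨hAn, hA1⟩, hAmin⟩ := (Set.toFinite {A : Subgroup G | A.Normal ∧ A ≠ ⊥}).exists_le_minimal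
      (a := N) ⟨hN, hN1⟩
    haveI := hAn
    have hAab : ∀ a ∈ A, ∀ b ∈ A, a * b = b * a := fun a ha b hb => hNab a (hAN ha) b (hAN hb)
    have hfix : ∀ w ∈ V, ∀ a ∈ A, a ≠ 1 → w * a = a * w → w = 1 := by
      intro w hw a ha ha1 hwa
      set B := A ⊓ Subgroup.centralizer ({w} : Set G) with hB
      have hBn : B.Normal := by
        rw [← Subgroup.normalizer_eq_top_iff, eq_top_iff, ← hgen A hAn hA1]
        refine sup_le (fun v hv => ?_) fun b hb => ?_
        · refine Subgroup.mem_normalizer_fintype fun c hc => ⟨hAn.conj_mem c hc.1 v, Subgroup.mem_centralizer_iff.mpr fun y hy => ?_⟩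
          rw [Set.mem_singleton_iff.mp hy]
          have e1 := Subgroup.mem_centralizer_iff.mp hc.2 w rfl
          calc w * (v * c * v⁻¹) = (w * v) * c * v⁻¹ := by group
            _ = (v * w) * c * v⁻¹ := by rw [hcm w hw v hv]
            _ = v * (w * c) * v⁻¹ := by group
            _ = v * (c * w) * v⁻¹ := by rw [e1]
            _ = v * c * (w * v⁻¹) := by group
            _ = v * c * (v⁻¹ * w) := by rw [hcm w hw v⁻¹ (inv_mem hv)]
            _ = v * c * v⁻¹ * w := by group
        · refine Subgroup.mem_normalizer_fintype fun c hc => ?_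
          rw [hAab b hb c hc.1, mul_inv_cancel_right]
          exact hc
      have haB : a ∈ B := ⟨ha, Subgroup.mem_centralizer_iff.mpr fun y hy => by rw [Set.mem_singleton_iff.mp hy]; exact hwa⟩
      have hB1 : B ≠ ⊥ := fun e => ha1 (by rw [e, Subgroup.mem_bot] at haB; exact haB)
      have hwc : w ∈ V ⊓ Subgroup.centralizer (A : Set G) := by
        refine ⟨hw, Subgroup.mem_centralizer_iff.mpr fun b hb => ?_⟩
        exact (Subgroup.mem_centralizer_iff.mp (hAmin (y := B) ⟨hBn, hB1⟩ inf_le_left hb).2 w rfl).symm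
      rwa [hU A hAn hA1, Subgroup.mem_bot] at hwc
    obtain ⟨v, hv, hv1⟩ : ∃ v ∈ V, v ≠ 1 := by
      obtain ⟨⟨v, hv⟩, hv1⟩ := Subgroup.ne_bot_iff_exists_ne_one.mp hV1
      exact ⟨v, hv, fun e => hv1 (Subtype.ext e)⟩
    obtain ⟨⟨a, ha⟩, ha1'⟩ := Subgroup.ne_bot_iff_exists_ne_one.mp hA1
    have ha1 : a ≠ 1 := fun e => ha1' (Subtype.ext e)
    have hao : Odd (orderOf a) := by
      rcases Nat.even_or_odd (orderOf a) with ⟨j, hj⟩ | h
      · exfalso
        have hz : (a ^ j) * (a ^ j) = 1 := by rw [← pow_add, ← hj, pow_orderOf_eq_one]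
        have hj0 : a ^ j ≠ 1 := pow_ne_one_of_lt_orderOf (by have := orderOf_pos a; omega) (by have := orderOf_pos a; omega)
        let Ω : Subgroup G :=
          { carrier := {z | z ∈ A ∧ z * z = 1}
            one_mem' := ⟨one_mem _, one_mul 1⟩
            mul_mem' := fun {b c} hb hc => ⟨mul_mem hb.1 hc.1, by
              calc b * c * (b * c) = b * (c * b) * c := by group
                _ = b * (b * c) * c := by rw [hAab c hc.1 b hb.1]
                _ = (b * b) * (c * c) := by group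
                _ = 1 := by rw [hb.2, hc.2, one_mul]⟩
            inv_mem' := fun {b} hb => ⟨inv_mem hb.1, by rw [← mul_inv_rev, hb.2, inv_one]⟩ }
        have hΩn : Ω.Normal := ⟨fun b hb g => ⟨hAn.conj_mem b hb.1 g, by
          rw [show g * b * g⁻¹ * (g * b * g⁻¹) = g * (b * b) * g⁻¹ by group, hb.2, mul_one, mul_inv_cancel]⟩⟩
        have hΩp : IsPGroup 2 ↥Ω := fun b => ⟨1, Subtype.ext (by rw [pow_one, Subgroup.coe_pow, pow_two]; exact b.2.2)⟩
        have h := Cfsg.Agent.Core.le_pCore hΩn hΩp (show a ^ j ∈ Ω from ⟨pow_mem ha j, hz⟩)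
        rw [hO, Subgroup.mem_bot] at h
        exact hj0 h
      · exact h
    have hinva : v * a * v⁻¹ = a⁻¹ := by
      by_contra hne
      have hb : a * (v * a * v⁻¹) ≠ 1 := fun e => hne (eq_inv_of_mul_eq_one_right e)
      refine hv1 (hfix v hv _ (mul_mem ha (hAn.conj_mem a ha v)) hb ?_)
      have h2 : v⁻¹ = v := hsq v hv
      calc v * (a * (v * a * v⁻¹)) = (v * a * v⁻¹) * (v * v * a * v⁻¹ * v⁻¹) * v := by group
        _ = (v * a * v⁻¹) * a * v := by
          have hv2 : v * v = 1 := by nth_rewrite 2 [← h2]; exact mul_inv_cancel v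
          rw [hv2, one_mul, mul_assoc a v⁻¹, ← mul_inv_rev, hv2, inv_one, mul_one]
        _ = a * (v * a * v⁻¹) * v := by rw [hAab _ (hAn.conj_mem a ha v) a ha]
    obtain ⟨w, hw, hw1, hwa⟩ := hS a v hv hao hinva
    exact hw1 (hfix w hw a ha ha1 hwa)
  -- (4) the minimal normal subgroup
  obtain ⟨M, -, ⟨hMn, hM1⟩, hMmin⟩ := (Set.toFinite {M : Subgroup G | M.Normal ∧ M ≠ ⊥}).exists_le_minimal
    (a := (⊤ : Subgroup G)) ⟨inferInstance, fun e => hV1 (eq_bot_iff.mpr (e ▸ le_top))⟩
  haveI := hMn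
  obtain ⟨D, -, ⟨hDM, hD1, hMD⟩, hDmin⟩ :=
    (Set.toFinite {D : Subgroup G | D ≤ M ∧ D ≠ ⊥ ∧ M ≤ Subgroup.normalizer (D : Set G)}).exists_le_minimal
      (a := M) ⟨le_rfl, hM1, Subgroup.le_normalizer⟩
  let cj : G → Subgroup G := fun g => D.map (MulAut.conj g).toMonoidHom
  have hcjM : ∀ g, cj g ≤ M := by
    rintro g _ ⟨d, hd, rfl⟩
    exact hMn.conj_mem d (hDM hd) g
  have hcjN : ∀ g, M ≤ Subgroup.normalizer (cj g : Set G) := by
    intro g m hm
    refine Subgroup.mem_normalizer_fintype ?_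
    rintro _ ⟨d, hd, rfl⟩
    refine ⟨(g⁻¹ * m * g⁻¹⁻¹) * d * (g⁻¹ * m * g⁻¹⁻¹)⁻¹, (Subgroup.mem_normalizer_iff.mp (hMD (hMn.conj_mem m hm g⁻¹)) d).mp hd, ?_⟩
    show g * ((g⁻¹ * m * g⁻¹⁻¹) * d * (g⁻¹ * m * g⁻¹⁻¹)⁻¹) * g⁻¹ = m * (g * d * g⁻¹) * m⁻¹
    group
  have hsmall : ∀ g (S : Subgroup G), S ≤ cj g → M ≤ Subgroup.normalizer (S : Set G) → S = ⊥ ∨ S = cj g := by
    intro g S hS1 hS2
    by_cases hSb : S = ⊥
    · exact Or.inl hSb
    right
    refine le_antisymm hS1 ?_
    set S' := S.map (MulAut.conj g⁻¹).toMonoidHom with hS'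
    have h1 : S' ≤ D := by
      rintro _ ⟨s, hs, rfl⟩
      obtain ⟨d, hd, rfl⟩ := hS1 hs
      show g⁻¹ * (g * d * g⁻¹) * g⁻¹⁻¹ ∈ D
      rwa [show g⁻¹ * (g * d * g⁻¹) * g⁻¹⁻¹ = d by group]
    have h2 : M ≤ Subgroup.normalizer (S' : Set G) := by
      intro m hm
      refine Subgroup.mem_normalizer_fintype ?_
      rintro _ ⟨s, hs, rfl⟩
      refine ⟨(g * m * g⁻¹) * s * (g * m * g⁻¹)⁻¹, (Subgroup.mem_normalizer_iff.mp (hS2 (hMn.conj_mem m hm g)) s).mp hs, ?_⟩
      show g⁻¹ * ((g * m * g⁻¹) * s * (g * m * g⁻¹)⁻¹) * g⁻¹⁻¹ = m * (g⁻¹ * s * g⁻¹⁻¹) * m⁻¹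
      group
    have h3 : S' ≠ ⊥ := fun e => hSb ((Subgroup.map_eq_bot_iff_of_injective _ (MulAut.conj g⁻¹).injective).mp e)
    rintro _ ⟨d, hd, rfl⟩
    obtain ⟨s, hs, hsd⟩ := hDmin (y := S') ⟨h1.trans hDM, h3, h2⟩ h1 hd
    show g * d * g⁻¹ ∈ S
    rw [← hsd]
    show g * (g⁻¹ * s * g⁻¹⁻¹) * g⁻¹ ∈ S
    rwa [show g * (g⁻¹ * s * g⁻¹⁻¹) * g⁻¹ = s by group]
  have hdisj : ∀ g k, cj g ≠ cj k → cj g ⊓ cj k = ⊥ := by
    intro g k hne
    rcases hsmall g (cj g ⊓ cj k) inf_le_left ((le_inf (hcjN g) (hcjN k)).trans Subgroup.inf_normalizer_le_normalizer_inf) with h | h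
    · exact h
    rcases hsmall k (cj g ⊓ cj k) inf_le_right ((le_inf (hcjN g) (hcjN k)).trans Subgroup.inf_normalizer_le_normalizer_inf) with h' | h'
    · exact h'
    exact absurd (h.symm.trans h') hne
  have hcomm : ∀ g k, cj g ≠ cj k → ∀ a ∈ cj g, ∀ b ∈ cj k, a * b = b * a := by
    intro g k hne a ha b hb
    have h : a * b * a⁻¹ * b⁻¹ ∈ cj g ⊓ cj k := by
      refine ⟨?_, mul_mem ((Subgroup.mem_normalizer_iff.mp (hcjN k (hcjM g ha)) b).mp hb) (Subgroup.inv_mem (cj k) hb)⟩
      rw [show a * b * a⁻¹ * b⁻¹ = a * (b * a⁻¹ * b⁻¹) by group]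
      exact mul_mem ha ((Subgroup.mem_normalizer_iff.mp (hcjN g (hcjM k hb)) a⁻¹).mp (inv_mem ha))
    rw [hdisj g k hne, Subgroup.mem_bot, mul_inv_eq_one, mul_inv_eq_iff_eq_mul] at h
    exact h
  have hcj1 : cj 1 = D := by
    ext x
    simp [cj]
  -- M is generated by the conjugates
  have hMgen : ∀ C : Subgroup G, (∀ v ∈ V, cj v ≤ C) → M ≤ C := by
    intro C hC
    have hle : Subgroup.normalClosure (D : Set G) ≤ C := by
      rw [Subgroup.normalClosure, Subgroup.closure_le]
      intro x hx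
      obtain ⟨d, hd, hdx⟩ := Group.mem_conjugatesOfSet_iff.mp hx
      obtain ⟨g, rfl⟩ := isConj_iff.mp hdx
      have hg : g ∈ ((V ⊔ M : Subgroup G) : Set G) := by rw [hgen M hMn hM1]; exact Subgroup.mem_top g
      rw [Subgroup.mul_normal] at hg
      obtain ⟨v, hv, m, hm, rfl⟩ := hg
      refine hC v hv ⟨m * d * m⁻¹, (Subgroup.mem_normalizer_iff.mp (hMD hm) d).mp hd, ?_⟩
      show v * (m * d * m⁻¹) * v⁻¹ = _
      group
    refine le_trans (hMmin (y := Subgroup.normalClosure (D : Set G)) ⟨inferInstance, fun e => hD1 (eq_bot_iff.mpr (e ▸ Subgroup.le_normalClosure))⟩ (Subgroup.normalClosure_le_normal hDM)) hle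
  have hZ : ∀ d ∈ D, (∀ e ∈ D, d * e = e * d) → d = 1 := by
    intro d hd hde
    have h : d ∈ M ⊓ Subgroup.centralizer (M : Set G) := by
      refine ⟨hDM hd, Subgroup.mem_centralizer_iff.mpr fun y hy => ?_⟩
      have hy' : y ∈ Subgroup.centralizer ({d} : Set G) := by
        refine hMgen _ (fun v _ x hx => Subgroup.mem_centralizer_iff.mpr fun y hy => ?_) hy
        rw [Set.mem_singleton_iff.mp hy]
        by_cases e : cj 1 = cj v
        · rw [← e, hcj1] at hx
          exact hde x hx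
        · exact hcomm 1 v e d (hcj1.symm ▸ hd) x hx
      exact (Subgroup.mem_centralizer_iff.mp hy' d rfl).symm
    rw [hab (M ⊓ Subgroup.centralizer (M : Set G)) inferInstance
      (fun a ha b hb => Subgroup.mem_centralizer_iff.mp hb.2 a ha.1), Subgroup.mem_bot] at h
    exact h
  have hD2 : ∀ S : Subgroup G, S ≤ M → M ≤ Subgroup.normalizer (S : Set G) → IsPGroup 2 ↥S → S = ⊥ := by
    intro S hSM hMS hS2
    haveI : (S.subgroupOf M).Normal := Subgroup.normal_subgroupOf_of_le_normalizer hMS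
    have h := Cfsg.Agent.Core.le_pCore (p := 2) (N := S.subgroupOf M) inferInstance (hS2.of_equiv (Subgroup.subgroupOfEquivOfLe hSM).symm)
    rw [Cfsg.Agent.Core.pCore_eq_bot_of_normal M hO, le_bot_iff, Subgroup.subgroupOf_eq_bot, disjoint_iff, inf_eq_left.mpr hSM] at h
    exact h
  obtain ⟨d, hdD, hd1, hdo⟩ : ∃ d ∈ D, d ≠ 1 ∧ Odd (orderOf d) := by
    by_contra! hall
    refine hD1 (hD2 D hDM hMD fun x => ?_)
    obtain ⟨a, m, hm, ham⟩ := Nat.exists_eq_two_pow_mul_odd (orderOf_pos (x : G)).ne'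
    refine ⟨a, Subtype.ext ?_⟩
    show (x : G) ^ 2 ^ a = 1
    by_contra hne
    refine hall _ (pow_mem x.2 _) hne ?_
    rw [orderOf_pow' (x : G) (pow_ne_zero _ (by norm_num)), ham, Nat.gcd_eq_right (dvd_mul_right _ _),
      Nat.mul_div_cancel_left _ (by positivity : 0 < 2 ^ a)]
    exact hm
  -- (5) V normalizes D
  have hVN : ∀ v ∈ V, cj v = D := by
    by_contra! hbad
    obtain ⟨v, hv, hvD⟩ := hbad
    have hcjmul : ∀ a b, cj (a * b) = (cj b).map (MulAut.conj a).toMonoidHom := by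
      intro a b
      simp only [cj, Subgroup.map_map]
      congr 1
      ext x
      simp [mul_assoc]
    set N := Subgroup.normalizer (D : Set G) with hN
    have hmemN : ∀ g, g ∈ N ↔ cj g = D := fun g => Subgroup.mem_normalizer_iff_map_conj_eq
    have hV1b : V ⊓ N = ⊥ := by
      by_contra hne
      set H := D ⊔ (V ⊓ N) with hH
      have hHN : H ≤ N := sup_le Subgroup.le_normalizer inf_le_right
      have hHt : H ≠ ⊤ := fun e => hvD ((hmemN v).mp (hHN (e ▸ Subgroup.mem_top v)))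
      have hlt : Nat.card ↥H < Nat.card G :=
        lt_of_le_of_ne (Subgroup.card_le_card_group H) fun e => hHt (Subgroup.eq_top_of_card_eq H e)
      haveI : (D.subgroupOf H).Normal := Subgroup.normal_subgroupOf_of_le_normalizer hHN
      have hne' : (V ⊓ N).subgroupOf H ≠ ⊥ := by
        intro e
        rw [Subgroup.subgroupOf_eq_bot, disjoint_iff, inf_eq_left.mpr le_sup_right] at e
        exact hne e
      have hres := hminG ↥H ((V ⊓ N).subgroupOf H) hlt (hsub H _ inf_le_left) hne' (by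
        rintro ⟨m, hmH⟩ ⟨t, htH⟩ ht hmo hinv'
        rw [Subgroup.orderOf_mk] at hmo
        have hm : m ∈ D := by
          have h0 : (⟨m, hmH⟩ : ↥H) ∈ ((D.subgroupOf H ⊔ (V ⊓ N).subgroupOf H : Subgroup ↥H) : Set ↥H) := by
            rw [← Subgroup.subgroupOf_sup le_sup_left le_sup_right, Subgroup.subgroupOf_self]
            exact Subgroup.mem_top _
          rw [Subgroup.normal_mul] at h0
          obtain ⟨a, ha, b, hb, hab'⟩ := h0
          show (⟨m, hmH⟩ : ↥H) ∈ D.subgroupOf H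
          rw [← QuotientGroup.eq_one_iff]
          refine orderOf_eq_one_iff.mp (Nat.eq_one_of_dvd_coprimes (Nat.coprime_two_left.mpr hmo)
            (orderOf_dvd_of_pow_eq_one ?_) ((orderOf_map_dvd (QuotientGroup.mk' (D.subgroupOf H)) _).trans (by rw [Subgroup.orderOf_mk])))
          rw [← hab']
          show QuotientGroup.mk' (D.subgroupOf H) (a * b) ^ 2 = 1
          rw [map_mul, show QuotientGroup.mk' (D.subgroupOf H) a = 1 from (QuotientGroup.eq_one_iff a).mpr ha, one_mul,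
            ← map_pow, show b ^ 2 = 1 from Subtype.ext (hV.2 _ hb.1), map_one]
        by_cases hm1 : m = 1
        · subst hm1
          obtain ⟨⟨a, ha⟩, ha1⟩ := Subgroup.ne_bot_iff_exists_ne_one.mp hne'
          exact ⟨a, ha, fun e => ha1 (Subtype.ext e), Subtype.ext (by simp)⟩
        obtain ⟨w, hw, hw1, hwm⟩ := hS m t (ht : t ∈ V ⊓ N).1 hmo (congrArg Subtype.val hinv')
        have hwN : w ∈ N := by
          rw [hmemN]
          by_contra e
          have h : m ∈ cj w ⊓ cj 1 := ⟨⟨m, hm, by show w * m * w⁻¹ = m; rw [hwm, mul_inv_cancel_right]⟩, hcj1.symm ▸ hm⟩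
          rw [hdisj w 1 (hcj1.symm ▸ e), Subgroup.mem_bot] at h
          exact hm1 h
        exact ⟨⟨w, (le_sup_right : V ⊓ N ≤ H) ⟨hw, hwN⟩⟩, ⟨hw, hwN⟩, fun e => hw1 (congrArg Subtype.val e), Subtype.ext hwm⟩)
      obtain ⟨⟨a, ha⟩, ha1⟩ := Subgroup.ne_bot_iff_exists_ne_one.mp hres
      have haD : ∀ x ∈ D, (a : G) * x = x * (a : G) := by
        intro x hx
        have hxH : x ∈ H := (le_sup_left : D ≤ H) hx
        set O₂ := Cfsg.pCore 2 ↥H with hO₂
        have hK : O₂.map H.subtype ⊓ D = ⊥ := by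
          have hnm : M ≤ Subgroup.normalizer ((O₂.map H.subtype ⊓ D : Subgroup G) : Set G) := by
            intro m hm
            -- every conjugate of D normalizes the intersection
            refine hMgen _ (fun k _ => ?_) hm
            intro y hy
            refine Subgroup.mem_normalizer_fintype fun z hz => ?_
            by_cases e : cj k = cj 1
            · rw [e, hcj1] at hy
              refine ⟨?_, mul_mem (mul_mem hy hz.2) (Subgroup.inv_mem D hy)⟩
              obtain ⟨⟨o, ho, hoz⟩, -⟩ := hz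
              refine ⟨⟨y, (le_sup_left : D ≤ H) hy⟩ * o * ⟨y, (le_sup_left : D ≤ H) hy⟩⁻¹, Subgroup.Normal.conj_mem inferInstance o ho _, ?_⟩
              show y * (o : G) * y⁻¹ = _
              rw [show (o : G) = z from hoz]
            · rw [hcomm k 1 e y hy z (hcj1.symm ▸ hz.2), mul_inv_cancel_right]
              exact hz
          rcases hsmall 1 (O₂.map H.subtype ⊓ D) (hcj1.symm ▸ inf_le_right) hnm with h | h
          · exact h
          · exfalso
            rw [hcj1] at h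
            exact hD1 (hD2 D hDM hMD (h ▸ ((Cfsg.Agent.Core.isPGroup_pCore 2 ↥H).map _).to_le inf_le_left))
        have h : (a : G) * x * (a : G)⁻¹ * x⁻¹ ∈ O₂.map H.subtype ⊓ D := by
          refine ⟨⟨a * (⟨x, hxH⟩ * a⁻¹ * ⟨x, hxH⟩⁻¹), mul_mem ha.2 (Subgroup.Normal.conj_mem inferInstance _ (inv_mem ha.2) _), ?_⟩,
            mul_mem ((Subgroup.mem_normalizer_iff.mp (hHN a.2) x).mp hx) (Subgroup.inv_mem D hx)⟩
          show (a : G) * (x * (a : G)⁻¹ * x⁻¹) = _
          group
        rw [hK, Subgroup.mem_bot, mul_inv_eq_one, mul_inv_eq_iff_eq_mul] at h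
        exact h
      have haV : (a : G) ∈ V := (ha.1 : (a : G) ∈ V ⊓ N).1
      have hac : (a : G) ∈ V ⊓ Subgroup.centralizer (M : Set G) := by
        refine ⟨haV, Subgroup.mem_centralizer_iff.mpr fun y hy => ?_⟩
        have hy' : y ∈ Subgroup.centralizer ({(a : G)} : Set G) := by
          refine hMgen _ ?_ hy
          rintro k hk _ ⟨x, hx, rfl⟩
          refine Subgroup.mem_centralizer_iff.mpr fun z hz => ?_
          rw [Set.mem_singleton_iff.mp hz]
          show (a : G) * (k * x * k⁻¹) = k * x * k⁻¹ * (a : G)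
          calc (a : G) * (k * x * k⁻¹) = ((a : G) * k) * x * k⁻¹ := by group
            _ = k * ((a : G) * x) * k⁻¹ := by rw [hcm _ haV k hk]; group
            _ = k * (x * (a : G)) * k⁻¹ := by rw [haD x hx]
            _ = k * x * ((a : G) * k⁻¹) := by group
            _ = k * x * k⁻¹ * (a : G) := by rw [hcm _ haV k⁻¹ (inv_mem hk)]; group
        exact (Subgroup.mem_centralizer_iff.mp hy' (a : G) rfl).symm
      rw [hU M hMn hM1, Subgroup.mem_bot] at hac
      exact ha1 (Subtype.ext (Subtype.ext hac))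
    -- the twisted element
    have hne : cj 1 ≠ cj v := by rw [hcj1]; exact Ne.symm hvD
    set e := v * d⁻¹ * v⁻¹ with he
    have heD : e ∈ cj v := ⟨d⁻¹, inv_mem hdD, rfl⟩
    have hde : d * e = e * d := hcomm 1 v hne d (hcj1.symm ▸ hdD) e heD
    have heo : Odd (orderOf e) := by
      rw [he, show v * d⁻¹ * v⁻¹ = MulAut.conj v d⁻¹ from rfl, MulEquiv.orderOf_eq, orderOf_inv]
      exact hdo
    have hvv : v * v = 1 := by
      have := hV.2 v hv
      rwa [pow_two] at this
    have hx : v * (d * e) * v⁻¹ = (d * e)⁻¹ := by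
      calc v * (d * e) * v⁻¹ = (v * d * v⁻¹) * (v * v) * d⁻¹ * (v * v)⁻¹ := by rw [he]; group
        _ = (v * d * v⁻¹) * d⁻¹ := by rw [hvv]; group
        _ = e⁻¹ * d⁻¹ := by rw [he]; group
        _ = (d * e)⁻¹ := by group
    obtain ⟨w, hw, hw1, hwx⟩ := hS (d * e) v hv (hodd d e hdo heo hde) hx
    have hwnN : w ∉ N := fun h => hw1 (by
      have : w ∈ V ⊓ N := ⟨hw, h⟩
      rwa [hV1b, Subgroup.mem_bot] at this)
    by_cases hwv : w = v
    · rw [hwv] at hwx
      have h1 : d * e = 1 := hodd1 _ (hodd d e hdo heo hde) (by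
        nth_rewrite 2 [show d * e = v * (d * e) * v⁻¹ by rw [hwx, mul_inv_cancel_right]]
        rw [hx, mul_inv_cancel])
      have hd' : d ∈ cj 1 ⊓ cj v := ⟨hcj1.symm ▸ hdD, by rw [eq_inv_of_mul_eq_one_left h1]; exact Subgroup.inv_mem _ heD⟩
      rw [hdisj 1 v hne, Subgroup.mem_bot] at hd'
      exact hd1 hd'
    have hw_1 : cj w ≠ cj 1 := fun h => hwnN ((hmemN w).mpr (h.trans hcj1))
    have hw_v : cj w ≠ cj v := by
      intro h
      have h2 : v⁻¹ * w ∈ V ⊓ N := by
        refine ⟨mul_mem (Subgroup.inv_mem V hv) hw, (hmemN _).mpr ?_⟩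
        rw [hcjmul, h, ← hcjmul, inv_mul_cancel, hcj1]
      rw [hV1b, Subgroup.mem_bot, inv_mul_eq_one] at h2
      exact hwv h2.symm
    have hw_wv : cj w ≠ cj (w * v) := by
      intro h
      refine hne ?_
      have h2 := congrArg (Subgroup.map (MulAut.conj w⁻¹).toMonoidHom) h
      rwa [← hcjmul, ← hcjmul, inv_mul_cancel, inv_mul_cancel_left] at h2
    refine hd1 (hZ d hdD fun f hf => ?_)
    set d' := w * d * w⁻¹ with hd'
    set f' := w * f * w⁻¹ with hf'
    have hfC : f' * (d * e) = (d * e) * f' := by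
      have a1 := hcomm w 1 hw_1 f' ⟨f, hf, rfl⟩ d (hcj1.symm ▸ hdD)
      have a2 := hcomm w v hw_v f' ⟨f, hf, rfl⟩ e heD
      calc f' * (d * e) = (f' * d) * e := by group
        _ = d * (f' * e) := by rw [a1]; group
        _ = d * e * f' := by rw [a2]; group
    have a3 := hcomm w (w * v) hw_wv f' ⟨f, hf, rfl⟩ (w * e * w⁻¹) ⟨d⁻¹, inv_mem hdD, by
      show w * v * d⁻¹ * (w * v)⁻¹ = w * e * w⁻¹
      rw [he]; group⟩
    have a4 : d' * (w * e * w⁻¹) = d * e := by
      calc d' * (w * e * w⁻¹) = w * (d * e) * w⁻¹ := by rw [hd']; group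
        _ = d * e := by rw [hwx, mul_inv_cancel_right]
    have a5 : f' * d' = d' * f' := by
      rw [← a4] at hfC
      refine mul_right_cancel (b := w * e * w⁻¹) ?_
      calc f' * d' * (w * e * w⁻¹) = d' * (w * e * w⁻¹) * f' := by rw [← hfC]; group
        _ = d' * f' * (w * e * w⁻¹) := by rw [mul_assoc, ← a3]; group
    have a6 : w⁻¹ * (f' * d') * w = w⁻¹ * (d' * f') * w := by rw [a5]
    rw [hf', hd'] at a6
    simpa [mul_assoc] using a6.symm
  have hDeq : D = M := le_antisymm hDM (hMgen D fun v hv => (hVN v hv).le)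
  haveI : Nontrivial ↥M := (Subgroup.nontrivial_iff_ne_bot M).mpr hM1
  have hsimple : IsSimpleGroup ↥M := by
    refine ⟨fun K hK => ?_⟩
    have hnm : M ≤ Subgroup.normalizer ((K.map M.subtype : Subgroup G) : Set G) := by
      intro m hm
      refine Subgroup.mem_normalizer_fintype ?_
      rintro _ ⟨k, hk, rfl⟩
      exact ⟨⟨m, hm⟩ * k * ⟨m, hm⟩⁻¹, hK.conj_mem k hk _, rfl⟩
    rcases hsmall 1 (K.map M.subtype) (by rw [hcj1, hDeq]; exact Subgroup.map_subtype_le _) hnm with h | h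
    · exact Or.inl ((Subgroup.map_eq_bot_iff_of_injective _ M.subtype_injective).mp h)
    · right
      refine Subgroup.map_injective M.subtype_injective ?_
      rw [h, hcj1, hDeq, ← MonoidHom.range_eq_map, Subgroup.range_subtype]
  -- (6) the generalized Fitting subgroup
  have hle : Cfsg.generalizedFittingSubgroup G ≤ M := by
    refine sup_le (sSup_le ?_) (sSup_le ?_)
    · intro K hK
      have h1 : commutator G ≤ M := by
        rw [commutator_def, Subgroup.commutator_le]
        intro a _ b _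
        have ha : a ∈ ((V ⊔ M : Subgroup G) : Set G) := by rw [hgen M hMn hM1]; exact Subgroup.mem_top a
        have hb : b ∈ ((V ⊔ M : Subgroup G) : Set G) := by rw [hgen M hMn hM1]; exact Subgroup.mem_top b
        rw [Subgroup.mul_normal] at ha hb
        obtain ⟨v, hv, m, hm, rfl⟩ := ha
        obtain ⟨w, hw, n, hn, rfl⟩ := hb
        rw [← QuotientGroup.eq_one_iff, ← QuotientGroup.mk'_apply, map_commutatorElement, map_mul, map_mul,
          show QuotientGroup.mk' M m = 1 from (QuotientGroup.eq_one_iff m).mpr hm,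
          show QuotientGroup.mk' M n = 1 from (QuotientGroup.eq_one_iff n).mpr hn, mul_one, mul_one,
          commutatorElement_eq_one_iff_mul_comm, ← map_mul, ← map_mul, hcm v hv w hw]
      haveI := hK.2.1
      intro x hx
      have h2 : (⟨x, hx⟩ : ↥K) ∈ commutator ↥K := by rw [Group.IsPerfect.commutator_eq_top]; trivial
      have h3 : (commutator ↥K).map K.subtype ≤ M := by
        rw [commutator_def, Subgroup.map_commutator]
        exact le_trans (Subgroup.commutator_mono le_top le_top) (commutator_def G ▸ h1)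
      exact h3 ⟨_, h2, rfl⟩
    · rintro N ⟨hNn, hNnil⟩
      haveI := hNn
      haveI := hNnil
      have h := hab ((Subgroup.center ↥N).map N.subtype) (ConjAct.normal_of_characteristic_of_normal) ?_
      · rw [Subgroup.map_eq_bot_iff_of_injective _ N.subtype_injective] at h
        have hN : N = ⊥ := by
          by_contra hne
          haveI : Nontrivial ↥N := (Subgroup.nontrivial_iff_ne_bot N).mpr hne
          exact (Group.IsNilpotent.center_ne_bot (G := ↥N)) h
        rw [hN]; exact bot_le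
      · rintro _ ⟨a, ha, rfl⟩ _ ⟨b, hb, rfl⟩
        exact congrArg Subtype.val (Subgroup.mem_center_iff.mp hb a)
  have hne : Cfsg.generalizedFittingSubgroup G ≠ ⊥ := by
    intro e
    obtain ⟨⟨v, hv⟩, hv1⟩ := Subgroup.ne_bot_iff_exists_ne_one.mp hV1
    have h := Cfsg.Agent.Components.centralizer_generalizedFitting_le (G := G)
    rw [e] at h
    exact hv1 (Subtype.ext (Subgroup.mem_bot.mp (h (Subgroup.mem_centralizer_iff.mpr fun y hy => by
      rw [Subgroup.mem_bot.mp hy]; simp))))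
  have heq : Cfsg.generalizedFittingSubgroup G = M :=
    le_antisymm hle (hMmin (y := Cfsg.generalizedFittingSubgroup G) ⟨inferInstance, hne⟩ hle)
  rw [heq]
  refine ⟨hsimple, fun hc => ?_, hgen M hMn hM1⟩
  exact hM1 (hab M hMn fun a ha b hb => congrArg Subtype.val (hc.1.comm ⟨a, ha⟩ ⟨b, hb⟩))


end Cfsg.Agent.S3048
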