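import Cfsg.Statements.S3050
import Cfsg.Agent.Linear.SL2FixedPointFreeGroup

set_option autoImplicit false
open Cfsg

namespace Cfsg.Agent.S3050

/-- Let G be a finite group with a normal 2-subgroup Q such that G/Q is isomorphic to SL(2, 2ⁿ) with n ≥ 2, and suppose some element of G of order 3 fixes no nonidentity element of Q under conjugation. Then Q is elementary abelian and is the direct product of normal subgroups of G on each of which G acts as SL(2, 2ⁿ) acts on its natural two-dimensional module (a Galois twist of the natural action allowed). -/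
theorem result {G : Type*} [Group G] [Finite G]
    (Q : Subgroup G) [Q.Normal] (hQ : IsPGroup 2 ↥Q) (n : ℕ) (hn : 2 ≤ n)
    (K : Type*) [Field K] [Fintype K] (hK : Fintype.card K = 2 ^ n)
    (e : G ⧸ Q ≃* Matrix.SpecialLinearGroup (Fin 2) K)
    (x : G) (hx : orderOf x = 3) (hfpf : ∀ q ∈ Q, x * q * x⁻¹ = q → q = 1) :
    Cfsg.IsElementaryAbelian 2 Q ∧
      ∃ (k : ℕ) (V : Fin k → Subgroup G), (∀ i, V i ≤ Q ∧ (V i).Normal ∧
        Cfsg.ActsAsSL2OnSection K ⊤ ⊤ (V i) ⊥) ∧ iSupIndep V ∧ ⨆ i, V i = Q := by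
  classical
  haveI : CharP K 2 := by
    obtain ⟨p, hp⟩ := CharP.exists K
    obtain ⟨m, hpp, hm⟩ := FiniteField.card K p
    have h1 : p ∣ 2 ^ n := by rw [← hK, hm]; exact dvd_pow_self p m.ne_zero
    have h2 := (Nat.prime_dvd_prime_iff_eq hpp Nat.prime_two).1 (hpp.dvd_of_dvd_pow h1)
    exact h2 ▸ hp
  have hq : ∃ c : K, c ≠ 0 ∧ c ≠ 1 := by
    have h : 2 < Fintype.card K := by
      rw [hK]
      calc 2 = 2 ^ 1 := (pow_one 2).symm
        _ < 2 ^ n := Nat.pow_lt_pow_right one_lt_two (by omega)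
    obtain ⟨c, hc⟩ : ∃ c, c ∉ ({0, 1} : Finset K) := by
      by_contra hne
      push Not at hne
      have : Fintype.card K ≤ ({0, 1} : Finset K).card := by
        rw [← Finset.card_univ]
        exact Finset.card_le_card fun a _ => hne a
      have h2 : ({0, 1} : Finset K).card ≤ 2 := Finset.card_le_two
      omega
    simp only [Finset.mem_insert, Finset.mem_singleton, not_or] at hc
    exact ⟨c, hc⟩
  refine Cfsg.Agent.Linear.SL2Fpf.higman_decomposition hq Q hQ
    (e.toMonoidHom.comp (QuotientGroup.mk' Q)) (e.surjective.comp (QuotientGroup.mk'_surjective Q))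
    ?_ x hx hfpf
  ext g
  rw [MonoidHom.mem_ker]
  show e (QuotientGroup.mk' Q g) = 1 ↔ _
  rw [MulEquiv.map_eq_one_iff, ← MonoidHom.mem_ker, QuotientGroup.ker_mk']

end Cfsg.Agent.S3050
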