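import Cfsg.Statements.S3054
import Cfsg.Agent.Core.ExtraspecialPlane

set_option autoImplicit false
open Cfsg

namespace Cfsg.Agent.S3054

open Cfsg.Agent.Core.ExtraspecialPlane Subgroup

/-- Let p be an odd prime and G a finite group with a Sylow p-subgroup P that is extraspecial of order p³ and exponent p. Suppose P contains three distinct subgroups A of order p² (each is elementary abelian of rank 2) such that every automorphism of A of order p is induced by conjugation by an element of G; equivalently the automorphism group induced on A by its normalizer contains the special linear group of A. Then p ≤ 13. -/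
theorem result {G : Type*} [Group G] [Finite G]
    {p : ℕ} [Fact p.Prime] (hp : p ≠ 2) (P : Sylow p G) (hE : Cfsg.IsExtraspecial p ↥P)
    (hcard : Nat.card P = p ^ 3) (hexp : Monoid.exponent ↥P = p)
    (A : Fin 3 → Subgroup G) (hA : Function.Injective A) (hAP : ∀ i, A i ≤ (P : Subgroup G))
    (hAcard : ∀ i, Nat.card ↥(A i) = p ^ 2)
    (hSL : ∀ i, ∀ φ : MulAut ↥(A i), orderOf φ = p → ∃ g : G, ∀ a : ↥(A i), (φ a : G) = g * (a : G) * g⁻¹) :
    p ≤ 13 := by
  classical
  obtain ⟨z, φ, hz1, hzz, hφ, hker⟩ := setup P hE hcard hexp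
  have hp' : p.Prime := Fact.out
  have hpow : ∀ u : ↥P, u ^ p = 1 := fun u => by
    have h := Monoid.pow_exponent_eq_one u; rwa [hexp] at h
  have hzc : z ∈ center ↥P := hzz ▸ mem_zpowers z
  have hzA : ∀ i, (z : G) ∈ A i := by
    intro i
    by_contra hz
    let B : Subgroup ↥P := (A i).subgroupOf P
    have hBc : Nat.card B = p ^ 2 := by
      exact (Nat.card_congr (subgroupOfEquivOfLe (hAP i)).toEquiv).trans (hAcard i)
    have hB : B ≤ center ↥P := by
      intro a ha
      have hcomm := IsPGroup.commutative_of_card_eq_prime_sq hBc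
      have hle : B ⊔ zpowers z ≤ centralizer ({a} : Set ↥P) := by
        refine sup_le (fun u hu => mem_centralizer_singleton_iff.2 ?_) (zpowers_le.2 ?_)
        · exact congrArg Subtype.val (hcomm (⟨u, hu⟩ : B) ⟨a, ha⟩)
        · exact mem_centralizer_singleton_iff.2 (mem_center_iff.1 hzc a).symm
      have hlt : B < B ⊔ zpowers z :=
        lt_of_le_of_ne le_sup_left fun h => hz ((h ▸ (le_sup_right : zpowers z ≤ B ⊔ zpowers z) (mem_zpowers z) : z ∈ B))
      have htop : B ⊔ zpowers z = ⊤ := by
        refine eq_top_of_card_eq _ ?_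
        have h1 := (B ⊔ zpowers z).card_subgroup_dvd_card
        rw [show Nat.card ↥P = p ^ 3 from hcard] at h1 ⊢
        obtain ⟨k, hk, hk'⟩ := (Nat.dvd_prime_pow hp').1 h1
        have h2 : Nat.card B < Nat.card ↥(B ⊔ zpowers z) := by
          refine lt_of_le_of_ne (Nat.card_le_card_of_injective _ (inclusion_injective le_sup_left)) fun h => ?_
          exact hlt.ne (Subgroup.eq_of_le_of_card_ge le_sup_left h.ge)
        rw [hBc, hk'] at h2
        rw [hk', show k = 3 from le_antisymm hk ((Nat.pow_lt_pow_iff_right hp'.one_lt).1 h2)]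
      refine mem_center_iff.2 fun u => mem_centralizer_singleton_iff.1 (hle (htop ▸ mem_top u))
    have h : p ^ 2 ≤ p := hBc ▸ (Subgroup.card_le_of_le hB).trans_eq hE.2
    nlinarith [hp'.two_le]
  have hxex : ∀ i, ∃ a : ↥P, (a : G) ∈ A i ∧ φ a ≠ 1 := by
    intro i
    by_contra hcon
    push Not at hcon
    have hsub : (A i).subgroupOf P ≤ center ↥P := fun a ha => hker ▸ MonoidHom.mem_ker.2 (hcon a ha)
    have h : p ^ 2 ≤ p := ((Nat.card_congr (subgroupOfEquivOfLe (hAP i)).toEquiv).trans (hAcard i)) ▸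
      (Subgroup.card_le_of_le hsub).trans_eq hE.2
    nlinarith [hp'.two_le]
  choose x hxA hx1 using hxex
  haveI : Fact (1 < p) := ⟨hp'.one_lt⟩
  have hF : ∀ i, Frame p (z : G) (x i : G) := fun i => ⟨by rw [← SubmonoidClass.coe_pow, hpow]; rfl,
    by rw [← SubmonoidClass.coe_pow, hpow]; rfl, (congrArg Subtype.val (mem_center_iff.1 hzc (x i))).symm⟩
  let E : ∀ i, Multiplicative (ZMod p × ZMod p) →* ↥(A i) := fun i =>
    { toFun := fun w => ⟨ev (z : G) (x i) w.toAdd.1 w.toAdd.2,
        mul_mem (pow_mem (hzA i) _) (pow_mem (hxA i) _)⟩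
      map_one' := Subtype.ext (by simp [ev])
      map_mul' := fun w w' => Subtype.ext (by simp [ev_add (hF i)]) }
  have hEinj : ∀ i, Function.Injective (E i) := by
    intro i
    refine (injective_iff_map_eq_one (E i)).2 fun w hw => ?_
    have h : z ^ w.toAdd.1.val * x i ^ w.toAdd.2.val = 1 := Subtype.ext (congrArg Subtype.val hw :)
    have h2 : w.toAdd.2 = 0 := by
      have := congrArg (fun u => (φ u).toAdd) h
      have hφz : φ (z ^ w.toAdd.1.val) = 1 := MonoidHom.mem_ker.1 (hker ▸ pow_mem hzc _)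
      simp only [map_mul, hφz, one_mul, map_pow_val, map_one, toAdd_one, smul_eq_zero] at this
      exact this.resolve_right fun h => hx1 i (Multiplicative.toAdd.injective h)
    rw [h2, ZMod.val_zero, pow_zero, mul_one, ← orderOf_dvd_iff_pow_eq_one, orderOf_eq_prime (hpow z) hz1] at h
    have h1 : w.toAdd.1 = 0 := by
      rw [← ZMod.val_eq_zero]
      exact Nat.eq_zero_of_dvd_of_lt h (ZMod.val_lt _)
    exact Multiplicative.toAdd.injective (Prod.ext h1 h2)
  have hEsurj : ∀ i, Function.Bijective (E i) := fun i =>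
    (Nat.bijective_iff_injective_and_card _).2 ⟨hEinj i, by simp [hAcard, Nat.card_prod, sq]⟩
  have hind : ∀ i j (c : ZMod p), φ (x j) = φ (x i ^ c.val) → i = j := by
    intro i j c h
    have hm : x j * (x i ^ c.val)⁻¹ ∈ zpowers z := by
      rw [hzz, ← hker, MonoidHom.mem_ker, map_mul, map_inv, h, mul_inv_cancel]
    obtain ⟨a, ha⟩ := exists_pow_val (hpow z) hm
    have hxj : (x j : G) ∈ A i := by
      have e : (x j : G) = (z : G) ^ a.val * (x i : G) ^ c.val :=
        congrArg Subtype.val (show x j = z ^ a.val * x i ^ c.val by rw [ha, inv_mul_cancel_right])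
      rw [e]
      exact mul_mem (pow_mem (hzA i) _) (pow_mem (hxA i) _)
    refine (hA (Subgroup.eq_of_le_of_card_ge (fun u hu => ?_) (le_of_eq (by rw [hAcard, hAcard])))).symm
    obtain ⟨w, hw⟩ := (hEsurj j).2 ⟨u, hu⟩
    have : u = ev (z : G) (x j) w.toAdd.1 w.toAdd.2 := (congrArg Subtype.val hw).symm
    rw [this]
    exact mul_mem (pow_mem (hzA i) _) (pow_mem hxj _)
  have hg : ∀ i, ∃ (g : G) (j : ZMod p), j ≠ 0 ∧ g * (x i : G) * g⁻¹ = x i ∧
      g * (z : G) * g⁻¹ = z * (x i : G) ^ j.val := by
    intro i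
    let e : Multiplicative (ZMod p × ZMod p) ≃* ↥(A i) := MulEquiv.ofBijective (E i) (hEsurj i)
    let σ : (ZMod p × ZMod p) ≃+ (ZMod p × ZMod p) :=
      { toFun := fun w => (w.1, w.2 + w.1)
        invFun := fun w => (w.1, w.2 - w.1)
        left_inv := fun w => by simp
        right_inv := fun w => by simp
        map_add' := fun w w' => Prod.ext rfl (by simp; ring) }
    let α : MulAut ↥(A i) := (e.symm.trans (AddEquiv.toMultiplicative σ)).trans e
    have hα : ∀ w, α (e (Multiplicative.ofAdd w)) = e (Multiplicative.ofAdd (σ w)) := fun w => by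
      show e (AddEquiv.toMultiplicative σ (e.symm (e _))) = _
      rw [e.symm_apply_apply]; rfl
    have hαn : ∀ (n : ℕ) (w : ZMod p × ZMod p),
        (α ^ n) (e (Multiplicative.ofAdd w)) = e (Multiplicative.ofAdd (w.1, w.2 + n * w.1)) := by
      intro n
      induction n with
      | zero => intro w; simp
      | succ n ih =>
        intro w
        rw [pow_succ', MulAut.mul_apply, ih, hα]
        congr 2
        refine Prod.ext rfl ?_
        show w.2 + n * w.1 + w.1 = w.2 + (n + 1 : ℕ) * w.1
        push_cast; ring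
    have hord : orderOf α = p := by
      refine orderOf_eq_prime (MulEquiv.ext fun u => ?_) fun h => ?_
      · obtain ⟨w, rfl⟩ := e.surjective u
        rw [← ofAdd_toAdd w, hαn]
        simp
      · have := hαn 1 (1, 0)
        rw [pow_one, h, MulAut.one_apply] at this
        simpa using congrArg (fun w => w.toAdd.2) (e.injective this)
    obtain ⟨g, hg⟩ := hSL i α hord
    refine ⟨g, 1, one_ne_zero, ?_, ?_⟩
    · have h := hg (e (Multiplicative.ofAdd (0, 1)))
      rw [hα] at h
      simpa [e, E, σ, ev, ZMod.val_one] using h.symm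
    · have h := hg (e (Multiplicative.ofAdd (1, 0)))
      rw [hα] at h
      simpa [e, E, σ, ev, ZMod.val_one] using h.symm
  by_contra hlt
  have hgcd : Nat.gcd (p - 1) 3 ≤ 3 := Nat.gcd_le_right _ (by norm_num)
  have hgcd0 : 0 < Nat.gcd (p - 1) 3 := Nat.gcd_pos_of_pos_right _ (by norm_num)
  have h6 : 6 ≤ (p - 1) / Nat.gcd (p - 1) 3 := by
    by_cases h19 : 19 ≤ p
    · exact (Nat.le_div_iff_mul_le hgcd0).2 (by nlinarith [Nat.sub_add_cancel (show 1 ≤ p by omega)])
    · have : p = 14 ∨ p = 15 ∨ p = 16 ∨ p = 17 ∨ p = 18 := by omega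
      rcases this with rfl | rfl | rfl | rfl | rfl <;> first | decide | (norm_num at hp')
  have := (bound φ hexp z hz1 hzz hφ hker x hx1 hind hg (by omega)).2 h6
  rw [Nat.card_fin] at this
  omega

end Cfsg.Agent.S3054
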