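import Cfsg.Statements.S3055
import Cfsg.Agent.Core.ExtraspecialPlane

set_option autoImplicit false
open Cfsg

namespace Cfsg.Agent.S3055

open Cfsg.Agent.Core.ExtraspecialPlane Subgroup

/-- Let p be an odd prime and G a finite group with a Sylow p-subgroup P that is extraspecial of order p³ and exponent p. If all nonidentity elements of P are conjugate in G, then p ≤ 7. -/
theorem result {G : Type*} [Group G] [Finite G]
    {p : ℕ} [Fact p.Prime] (hp : p ≠ 2) (P : Sylow p G) (hE : Cfsg.IsExtraspecial p ↥P)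
    (hcard : Nat.card P = p ^ 3) (hexp : Monoid.exponent ↥P = p)
    (hconj : ∀ x y : ↥P, x ≠ 1 → y ≠ 1 → ∃ g : G, g * (x : G) * g⁻¹ = (y : G)) :
    p ≤ 7 := by
  classical
  obtain ⟨z, φ, hz1, hzz, hφ, hker⟩ := setup P hE hcard hexp
  have hp' : p.Prime := Fact.out
  have hpow : ∀ u : ↥P, u ^ p = 1 := fun u => by
    have h := Monoid.pow_exponent_eq_one u; rwa [hexp] at h
  have hzc : z ∈ center ↥P := hzz ▸ mem_zpowers z
  let v : Option (ZMod p) → Fin 2 → ZMod p := fun o => o.elim ![1, 0] fun c => ![c, 1]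
  choose x hx using fun o => hφ (Multiplicative.ofAdd (v o))
  have hx1 : ∀ o, φ (x o) ≠ 1 := fun o h => by
    rw [hx, ofAdd_eq_one] at h
    cases o
    · exact one_ne_zero (congrFun h 0)
    · exact one_ne_zero (congrFun h 1)
  have hind : ∀ i j (c : ZMod p), φ (x j) = φ (x i ^ c.val) → i = j := by
    intro i j c h
    have h' := congrArg Multiplicative.toAdd h
    rw [map_pow_val, hx, hx, toAdd_ofAdd, toAdd_ofAdd] at h'
    have h0 := congrFun h' 0
    have h1 := congrFun h' 1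
    rcases i with _ | i <;> rcases j with _ | j <;> simp [v] at h0 h1 ⊢
    · rw [← h1, zero_mul] at h0
      exact one_ne_zero h0
    · rw [← h1, one_mul] at h0
      exact h0.symm
  have hg : ∀ i, ∃ (g : G) (j : ZMod p), j ≠ 0 ∧ g * (x i : G) * g⁻¹ = x i ∧
      g * (z : G) * g⁻¹ = z * (x i : G) ^ j.val := by
    intro i
    have hxi : x i ≠ 1 := fun h => hx1 i (by rw [h, map_one])
    obtain ⟨g₀, hg₀⟩ := hconj (x i) z hxi hz1
    set C : Subgroup G := centralizer ({(z : G)} : Set G)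
    have hPC : (P : Subgroup G) ≤ C := fun u hu => mem_centralizer_singleton_iff.2
      (congrArg Subtype.val (mem_center_iff.1 hzc ⟨u, hu⟩) : u * (z : G) = z * u)
    have hwC : g₀ * (z : G) * g₀⁻¹ ∈ C := by
      rw [mem_centralizer_singleton_iff]
      have h := congrArg Subtype.val (mem_center_iff.1 hzc (x i))
      have h' : (x i : G) * z = z * x i := h
      calc g₀ * (z : G) * g₀⁻¹ * z = g₀ * (z : G) * g₀⁻¹ * (g₀ * x i * g₀⁻¹) := by rw [hg₀]
        _ = g₀ * ((z : G) * x i) * g₀⁻¹ := by group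
        _ = g₀ * ((x i : G) * z) * g₀⁻¹ := by rw [h']
        _ = (g₀ * x i * g₀⁻¹) * (g₀ * z * g₀⁻¹) := by group
        _ = z * (g₀ * z * g₀⁻¹) := by rw [hg₀]
    have hwp : IsPGroup p (zpowers (⟨_, hwC⟩ : C)) := by
      refine (IsPGroup.iff_card).2 ?_
      rw [Nat.card_zpowers]
      have h : orderOf (⟨_, hwC⟩ : C) ∣ p := orderOf_dvd_of_pow_eq_one (Subtype.ext (by
        rw [SubmonoidClass.coe_pow, conj_pow]
        show g₀ * (z : G) ^ p * g₀⁻¹ = 1
        rw [← SubmonoidClass.coe_pow, hpow, OneMemClass.coe_one, mul_one, mul_inv_cancel]))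
      rcases hp'.eq_one_or_self_of_dvd _ h with h | h
      · exact ⟨0, by rw [h, pow_zero]⟩
      · exact ⟨1, by rw [h, pow_one]⟩
    obtain ⟨Q, hQ⟩ := hwp.exists_le_sylow
    obtain ⟨b, hb⟩ := MulAction.exists_smul_eq C Q (P.subtype hPC)
    have hw : (b : G) * (g₀ * (z : G) * g₀⁻¹) * (b : G)⁻¹ ∈ P := by
      have h : b * ⟨_, hwC⟩ * b⁻¹ ∈ (b • Q : Sylow p C) := by
        rw [Sylow.smul_def]
        exact Subgroup.mem_map.2 ⟨_, hQ (mem_zpowers _), rfl⟩
      rw [hb] at h
      exact h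
    set g := (b : G) * g₀ with hgdef
    have hgx : g * (x i : G) * g⁻¹ = z := by
      have hbz : (b : G) * z = z * b := mem_centralizer_singleton_iff.1 b.2
      calc g * (x i : G) * g⁻¹ = (b : G) * (g₀ * x i * g₀⁻¹) * (b : G)⁻¹ := by rw [hgdef]; group
        _ = z := by rw [hg₀, hbz, mul_inv_cancel_right]
    have hw' : g * (z : G) * g⁻¹ ∈ P := by
      convert hw using 1
      rw [hgdef]; group
    set w : ↥P := ⟨g * (z : G) * g⁻¹, hw'⟩ with hwdef
    have hwc : w ∉ center ↥P := by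
      intro h
      rw [← hzz] at h
      obtain ⟨n, hn⟩ := mem_powers_iff_mem_zpowers.2 h
      have h2 : (z : G) = (x i : G) ^ n := by
        have h3 : (z : G) ^ n = g * (z : G) * g⁻¹ := congrArg Subtype.val hn
        have e : g⁻¹ * (z : G) * g = x i := by
          conv_lhs => rw [← hgx]
          group
        calc (z : G) = g⁻¹ * (g * (z : G) * g⁻¹) * g := by group
          _ = g⁻¹ * (z : G) ^ n * g := by rw [h3]
          _ = (x i : G) ^ n := by rw [← e]; simpa using (conj_pow (a := g⁻¹) (b := (z : G)) (i := n)).symm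
      have h4 : z ∈ zpowers (x i) := ⟨n, by
        show x i ^ (n : ℤ) = z
        rw [zpow_natCast]; exact Subtype.ext h2.symm⟩
      have h5 := Subgroup.eq_of_le_of_card_ge (zpowers_le.2 h4)
        (by rw [Nat.card_zpowers, Nat.card_zpowers, orderOf_eq_prime (hpow _) hxi, orderOf_eq_prime (hpow _) hz1])
      rw [hzz] at h5
      exact hx1 i (MonoidHom.mem_ker.1 (hker ▸ h5 ▸ mem_zpowers (x i)))
    obtain ⟨π', hπ⟩ : ∃ u : ↥P, u * w ≠ w * u := by
      by_contra hcon
      push Not at hcon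
      exact hwc (mem_center_iff.2 hcon)
    have hc : π' * w * π'⁻¹ * w⁻¹ ∈ zpowers z := by
      rw [hzz, ← hker, MonoidHom.mem_ker]
      simp [mul_comm (φ π')]
    obtain ⟨j, hj⟩ := exists_pow_val (hpow z) hc
    have e0 : π' * w * π'⁻¹ = z ^ j.val * w := by rw [hj, inv_mul_cancel_right]
    refine ⟨g⁻¹ * π' * g, j, ?_, ?_, ?_⟩
    · rintro rfl
      rw [ZMod.val_zero, pow_zero, one_mul, mul_inv_eq_iff_eq_mul] at e0
      exact hπ e0
    · have e : (π' : G) * z * (π' : G)⁻¹ = z := congrArg Subtype.val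
        (show π' * z * π'⁻¹ = z by rw [mem_center_iff.1 hzc, mul_inv_cancel_right])
      calc g⁻¹ * π' * g * (x i : G) * (g⁻¹ * π' * g)⁻¹
          = g⁻¹ * ((π' : G) * (g * x i * g⁻¹) * (π' : G)⁻¹) * g := by group
        _ = g⁻¹ * (g * x i * g⁻¹) * g := by rw [hgx, e]
        _ = x i := by group
    · have e : (π' : G) * (g * z * g⁻¹) * (π' : G)⁻¹ = (z : G) ^ j.val * (g * z * g⁻¹) := congrArg Subtype.val e0
      have hcm : Commute (z : G) (x i : G) := (congrArg Subtype.val (mem_center_iff.1 hzc (x i))).symm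
      calc g⁻¹ * π' * g * (z : G) * (g⁻¹ * π' * g)⁻¹
          = g⁻¹ * ((π' : G) * (g * z * g⁻¹) * (π' : G)⁻¹) * g := by group
        _ = (g⁻¹ * (g * x i * g⁻¹) ^ j.val * g) * z := by rw [e, hgx]; group
        _ = z * (x i : G) ^ j.val := by
          rw [conj_pow, (hcm.pow_right j.val).eq]; group
  by_contra hlt
  have h1 : 11 ≤ p := by
    by_contra h
    have : p = 8 ∨ p = 9 ∨ p = 10 := by omega
    rcases this with rfl | rfl | rfl <;> norm_num at hp'
  have hcardι : Nat.card (Option (ZMod p)) = p + 1 := by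
    rw [Finite.card_option, Nat.card_zmod]
  have hgcd : Nat.gcd (p - 1) 3 ≤ 3 := Nat.gcd_le_right _ (by norm_num)
  have hgcd0 : 0 < Nat.gcd (p - 1) 3 := Nat.gcd_pos_of_pos_right _ (by norm_num)
  by_cases h13 : p = 13
  · subst h13
    have := (bound φ hexp z hz1 hzz hφ hker x hx1 hind hg (by decide)).1
    omega
  have h6 : 6 ≤ (p - 1) / Nat.gcd (p - 1) 3 := by
    by_cases h19 : 19 ≤ p
    · exact (Nat.le_div_iff_mul_le hgcd0).2 (by nlinarith [Nat.sub_add_cancel (show 1 ≤ p by omega)])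
    · have : p = 11 ∨ p = 12 ∨ p = 14 ∨ p = 15 ∨ p = 16 ∨ p = 17 ∨ p = 18 := by omega
      rcases this with rfl | rfl | rfl | rfl | rfl | rfl | rfl <;> first | decide | (norm_num at hp')
  have := (bound φ hexp z hz1 hzz hφ hker x hx1 hind hg (by omega)).2 h6
  omega

end Cfsg.Agent.S3055
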