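import Cfsg.Statements.S3059
import Cfsg.Agent.LocalEven.Conj
import Cfsg.Agent.LocalEven.PMinimalBasic
import Cfsg.Agent.Core.Cores

set_option autoImplicit false
open Cfsg

namespace Cfsg.Agent.S3059

/-- Let p be a prime and H a strongly p-embedded subgroup of the finite group G in the classical sense: H is proper, p divides the order of H, and H ∩ gHg⁻¹ has order prime to p for every g outside H. Then for every normal subgroup N of G of order divisible by p, G = H · O^p(N), where O^p(N) is the subgroup generated by the elements of N of order prime to p. -/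
theorem result {G : Type*} [Group G] [Finite G]
    (p : ℕ) [Fact p.Prime] (H : Subgroup G) (hH : H ≠ ⊤) (hpH : p ∣ Nat.card H)
    (hse : ∀ g : G, g ∉ H → ¬ p ∣ Nat.card ↥(H ⊓ H.map (MulAut.conj g).toMonoidHom))
    (N : Subgroup G) [N.Normal] (hN : p ∣ Nat.card N) :
    H ⊔ Subgroup.closure {g : G | g ∈ N ∧ (orderOf g).Coprime p} = ⊤ := by
  classical
  set R := Subgroup.closure {g : G | g ∈ N ∧ (orderOf g).Coprime p} with hR
  have key : ∀ T : Subgroup G, IsPGroup p ↥T → T ≠ ⊥ → T ≤ H → Subgroup.normalizer (T : Set G) ≤ H := by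
    intro T hT hT1 hTH g hg
    by_contra hgH
    refine hse g hgH ?_
    have hle : T ≤ H ⊓ H.map (MulAut.conj g).toMonoidHom := by
      refine le_inf hTH fun t ht => ⟨g⁻¹ * t * g, hTH ?_, by
        show g * (g⁻¹ * t * g) * g⁻¹ = t; group⟩
      have := (Subgroup.mem_normalizer_iff.mp ((Subgroup.normalizer (T : Set G)).inv_mem hg) t).mp ht
      rwa [inv_inv] at this
    obtain ⟨k, hk⟩ := IsPGroup.iff_card.mp hT
    refine dvd_trans ?_ (Subgroup.card_dvd_of_le hle)
    rw [hk]
    refine dvd_pow_self p fun h0 => hT1 (Subgroup.eq_bot_of_card_eq T ?_)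
    rw [hk, h0, pow_zero]
  obtain ⟨Q⟩ : Nonempty (Sylow p ↥H) := inferInstance
  set Q' := (Q : Subgroup ↥H).map H.subtype with hQ'
  have hQp : IsPGroup p ↥Q' := Q.isPGroup'.map _
  have hQ1 : Q' ≠ ⊥ := fun h => by
    have h1 := Q.card_eq_multiplicity
    rw [← Cfsg.Agent.Core.card_map_subtype, ← hQ', h, Subgroup.card_bot] at h1
    exact (Nat.Prime.factorization_pos_of_dvd Fact.out Nat.card_pos.ne' hpH).ne'
      (Nat.pow_right_injective (Fact.out : p.Prime).two_le (by simpa using h1.symm))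
  obtain ⟨S, hS⟩ := hQp.exists_le_sylow
  have hSQ : Q' = (S : Subgroup G) := by
    refine Cfsg.Agent.LocalEven.eq_of_normalizer_le (p := p) S.isPGroup' hS ?_
    intro n hn
    obtain ⟨hnS, hnN⟩ := Subgroup.mem_inf.mp hn
    have hnH := key Q' hQp hQ1 (Subgroup.map_subtype_le _) hnN
    have hle : (Q : Subgroup ↥H) ≤ (S : Subgroup G).subgroupOf H := fun q hq => hS ⟨q, hq, rfl⟩
    exact ⟨⟨n, hnH⟩, (Q.3 S.isPGroup'.comap_subtype hle).le hnS, rfl⟩
  have hSH : (S : Subgroup G) ≤ H := hSQ ▸ Subgroup.map_subtype_le _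
  obtain ⟨T₀, hT₀⟩ := ((S.isPGroup'.to_le (inf_le_left : (S : Subgroup G) ⊓ N ≤ S)).comap_subtype (K := N)).exists_le_sylow
  -- a Sylow subgroup of the normal subgroup inside the embedded subgroup
  obtain ⟨S', hS'⟩ := (T₀.isPGroup'.map N.subtype).exists_le_sylow
  obtain ⟨x, hx⟩ := MulAction.exists_smul_eq G S' S
  have hmap : ∀ t ∈ (T₀ : Subgroup ↥N), x * (t : G) * x⁻¹ ∈ (S : Subgroup G) ⊓ N := fun t ht => by
    refine ⟨?_, (inferInstance : N.Normal).conj_mem _ t.2 x⟩
    rw [← hx, Sylow.coe_subgroup_smul]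
    exact ⟨(t : G), hS' ⟨t, ht, rfl⟩, rfl⟩
  let T₁ : Sylow p ↥N := ((MulAut.conjNormal x : MulAut ↥N) • T₀)
  set T := (T₁ : Subgroup ↥N).map N.subtype with hT
  have hTS : T ≤ (S : Subgroup G) ⊓ N := by
    rintro _ ⟨_, ⟨t, ht, rfl⟩, rfl⟩
    exact hmap t ht
  have hT1 : T ≠ ⊥ := fun h => by
    have h1 := T₁.card_eq_multiplicity
    rw [← Cfsg.Agent.Core.card_map_subtype, ← hT, h, Subgroup.card_bot] at h1
    exact (Nat.Prime.factorization_pos_of_dvd Fact.out Nat.card_pos.ne' hN).ne'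
      (Nat.pow_right_injective (Fact.out : p.Prime).two_le (by simpa using h1.symm))
  have hTH : T ≤ H := hTS.trans (inf_le_left.trans hSH)
  have hfr : Subgroup.normalizer (T : Set G) ⊔ N = ⊤ := Sylow.normalizer_sup_eq_top T₁
  have hNR : N ≤ H ⊔ R := by
    intro n hn
    -- split the element into its parts
    obtain ⟨e, m, hm, hne⟩ := Nat.exists_eq_pow_mul_and_not_dvd (orderOf_pos n).ne' p (Fact.out : p.Prime).ne_one
    have hcop : (p ^ e).Coprime m := ((Nat.Prime.coprime_iff_not_dvd Fact.out).mpr hm).pow_left e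
    have hu : n ^ p ^ e ∈ R := Subgroup.subset_closure ⟨N.pow_mem hn _, by
      have hdvd : orderOf (n ^ p ^ e) ∣ m := orderOf_dvd_of_pow_eq_one (by
        rw [← pow_mul, ← hne, pow_orderOf_eq_one])
      exact Nat.Coprime.coprime_dvd_left hdvd ((Nat.Prime.coprime_iff_not_dvd Fact.out).mpr hm).symm⟩
    have hv : n ^ m ∈ H ⊔ R := by
      have hvN : n ^ m ∈ N := N.pow_mem hn _
      have hvp : IsPGroup p ↥(Subgroup.zpowers (⟨n ^ m, hvN⟩ : ↥N)) := by
        refine IsPGroup.of_card (n := (orderOf (⟨n ^ m, hvN⟩ : ↥N)).factorization p) ?_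
        rw [Nat.card_zpowers]
        obtain ⟨i, -, hi⟩ := (Nat.dvd_prime_pow Fact.out).mp (orderOf_dvd_of_pow_eq_one (x := (⟨n ^ m, hvN⟩ : ↥N))
          (n := p ^ e) (Subtype.ext (by
            show (n ^ m) ^ p ^ e = 1
            rw [← pow_mul, mul_comm, ← hne, pow_orderOf_eq_one])))
        rw [hi, Nat.Prime.factorization_pow Fact.out, Finsupp.single_eq_same]
      obtain ⟨U, hU⟩ := hvp.exists_le_sylow
      obtain ⟨c, hc⟩ := MulAction.exists_smul_eq ↥N U T₁
      have hcv : (c : G) * n ^ m * (c : G)⁻¹ ∈ H := hTH ⟨c * ⟨n ^ m, hvN⟩ * c⁻¹, by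
        rw [← hc, Sylow.coe_subgroup_smul]
        exact ⟨_, hU (Subgroup.mem_zpowers _), rfl⟩, rfl⟩
      have hcR : ∀ d ∈ N, ∃ r ∈ R, ∃ h ∈ T, d = r * h := by
        intro d hd
        have hRN : R ≤ N := (Subgroup.closure_le _).mpr fun y hy => hy.1
        haveI hRn : (R.subgroupOf N).Normal := by
          refine ⟨fun y hy k => ?_⟩
          have hle : R ≤ R.comap (MulAut.conj (k : G)).toMonoidHom := by
            refine (Subgroup.closure_le _).mpr fun z hz => Subgroup.subset_closure ⟨?_, ?_⟩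
            · exact N.mul_mem (N.mul_mem k.2 hz.1) (N.inv_mem k.2)
            · show (orderOf ((MulAut.conj (k : G)) z)).Coprime p
              rw [MulEquiv.orderOf_eq]; exact hz.2
          exact hle hy
        have hq : IsPGroup p (↥N ⧸ R.subgroupOf N) := by
          intro y
          induction y using QuotientGroup.induction_on with
          | H y =>
            refine ⟨(orderOf y).factorization p, ?_⟩
            rw [← QuotientGroup.mk_pow, QuotientGroup.eq_one_iff]
            refine Subgroup.subset_closure ⟨(y ^ p ^ (orderOf y).factorization p).2, ?_⟩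
            show (orderOf ((y ^ p ^ (orderOf y).factorization p : ↥N) : G)).Coprime p
            rw [Subgroup.orderOf_coe, orderOf_pow_of_dvd (pow_ne_zero _ (Fact.out : p.Prime).ne_zero) (Nat.ordProj_dvd _ _)]
            exact Nat.coprime_comm.mp (Nat.coprime_ordCompl Fact.out (orderOf_pos y).ne')
        have htop := Cfsg.Agent.Transfer.sup_eq_top_of_isPGroup_quotient T₁ hq
        have h1 : (⟨d, hd⟩ : ↥N) ∈ ((R.subgroupOf N ⊔ (T₁ : Subgroup ↥N) : Subgroup ↥N) : Set ↥N) := by
          rw [sup_comm, htop]; trivial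
        rw [Subgroup.normal_mul] at h1
        obtain ⟨r, hr, t, ht, hrt⟩ := h1
        exact ⟨r, hr, t, ⟨t, ht, rfl⟩, (congrArg Subtype.val hrt).symm⟩
      obtain ⟨r, hr, t, ht, hct⟩ := hcR c c.2
      have hcm : (c : G) ∈ H ⊔ R := hct ▸ Subgroup.mul_mem _ (Subgroup.mem_sup_right hr) (Subgroup.mem_sup_left (hTH ht))
      have := Subgroup.mul_mem _ (Subgroup.mul_mem _ (Subgroup.inv_mem _ hcm) (Subgroup.mem_sup_left hcv)) hcm
      simpa [mul_assoc] using this
    have hgcd : Int.gcd (p ^ e : ℕ) m = 1 := by rw [Int.gcd_natCast_natCast]; exact hcop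
    obtain ⟨a, b, hab⟩ := Int.isCoprime_iff_gcd_eq_one.mpr hgcd
    have : n = (n ^ p ^ e) ^ a * (n ^ m) ^ b := by
      rw [← zpow_natCast, ← zpow_mul, ← zpow_natCast n m, ← zpow_mul, ← zpow_add, mul_comm _ a, mul_comm _ b, hab, zpow_one]
    rw [this]
    exact Subgroup.mul_mem _ (Subgroup.zpow_mem _ (Subgroup.mem_sup_right hu) a) (Subgroup.zpow_mem _ hv b)
  rw [eq_top_iff, ← hfr]
  exact sup_le ((key T (T₁.isPGroup'.map _) hT1 hTH).trans le_sup_left) hNR


end Cfsg.Agent.S3059
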