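import Cfsg.Statements.S3062
import Cfsg.Agent.LocalEven.Replacement
import Cfsg.Agent.S0015

set_option autoImplicit false
open Cfsg

open scoped commutatorElement

namespace Cfsg.Agent.S3062

/-- Let S be a finite p-group, J(S) the subgroup generated by the abelian subgroups of S of largest order and Z(J(S)) its centre. Then Z(S) ≤ D*(S) ≤ Z(J(S)), and every maximal normal abelian subgroup of S contains D*(S). -/
theorem result {S : Type*} [Group S] [Finite S] {p : ℕ} [Fact p.Prime]
    (hS : IsPGroup p S) :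
    Subgroup.center S ≤ Cfsg.dStar S ∧
    Cfsg.dStar S ≤ Cfsg.thompsonSubgroupA S ⊓ Subgroup.centralizer (Cfsg.thompsonSubgroupA S : Set S) ∧
    ∀ A : Subgroup S, A.Normal → IsMulCommutative A →
      (∀ B : Subgroup S, B.Normal → IsMulCommutative B → A ≤ B → B = A) → Cfsg.dStar S ≤ A := by
  classical
  haveI := hS.isNilpotent
  have hpA : ∀ A : Subgroup S, IsPGroup p A := fun A => hS.to_subgroup A
  -- an abelian subgroup normalized by a member is centralized by it
  have key : ∀ A ∈ Cfsg.dStarFamily S, ∀ B : Subgroup S, IsMulCommutative B →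
      A ≤ Subgroup.normalizer (B : Set S) → ⁅B, A⁆ = ⊥ := by
    rintro A ⟨hAc, hA⟩ B hBc hAB
    obtain ⟨n, hn⟩ := LocalEven.exists_iterCommutator_eq_bot (hpA B) (hpA A) hAB
    by_contra hne
    obtain ⟨k, hk1, hk2⟩ : ∃ k, ⁅Cfsg.iterCommutator B A k, A⁆ ≠ ⊥ ∧ ⁅⁅Cfsg.iterCommutator B A k, A⁆, A⁆ = ⊥ := by
      by_contra hc
      push Not at hc
      have : ∀ k, ⁅Cfsg.iterCommutator B A k, A⁆ ≠ ⊥ := by
        intro k
        induction k with
        | zero => exact hne
        | succ k ih => exact hc k ih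
      exact this n (by rw [hn, Subgroup.commutator_bot_left])
    have hkB : ∀ k, Cfsg.iterCommutator B A k ≤ B := by
      intro k
      induction k with
      | zero => exact le_rfl
      | succ k ih =>
        exact (Subgroup.commutator_mono ih le_rfl).trans (Subgroup.le_normalizer_iff_commutator_le_left.mp hAB)
    refine hk1 ((Subgroup.commutator_eq_bot_iff_le_centralizer).mpr fun x hx => ?_)
    rw [Subgroup.mem_centralizer_iff]
    refine fun a ha => hA x ?_ a ha
    set T := A ⊔ Subgroup.zpowers x with hT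
    set K := Subgroup.centralizer (T : Set S) with hK
    have hTK : T ≤ Subgroup.normalizer (K : Set S) :=
      Subgroup.le_normalizer.trans (by
        intro g hg
        rw [← LocalEven.cj_eq_self_iff] at hg ⊢
        rw [hK, LocalEven.cj_centralizer]
        congr 1
        conv_rhs => rw [← hg]
        rfl)
    have hxA : ⁅Subgroup.zpowers x, A⁆ ≤ K := by
      refine Subgroup.commutator_le.mpr fun y hy b hb => ?_
      have hyI : y ∈ Cfsg.iterCommutator B A k := Subgroup.zpowers_le.mpr hx hy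
      have hz : ⁅y, b⁆ ∈ ⁅Cfsg.iterCommutator B A k, A⁆ := Subgroup.commutator_mem_commutator hyI hb
      have hzB : ⁅y, b⁆ ∈ B := hkB (k + 1) hz
      have hzA : A ≤ Subgroup.centralizer {⁅y, b⁆} := by
        intro c hc
        rw [Subgroup.mem_centralizer_singleton_iff]
        exact ((Subgroup.mem_centralizer_iff.mp (Subgroup.commutator_eq_bot_iff_le_centralizer.mp hk2 hz)) c hc)
      have hzx : Subgroup.zpowers x ≤ Subgroup.centralizer {⁅y, b⁆} := by
        rw [Subgroup.zpowers_le, Subgroup.mem_centralizer_singleton_iff]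
        exact congrArg Subtype.val (mul_comm' (⟨x, hkB k hx⟩ : B) ⟨_, hzB⟩)
      have h1 : T ≤ Subgroup.centralizer {⁅y, b⁆} := sup_le hzA hzx
      rw [hK, Subgroup.mem_centralizer_iff]
      intro t ht
      exact Subgroup.mem_centralizer_singleton_iff.mp (h1 ht)
    rw [Subgroup.commutator_eq_bot_iff_le_centralizer]
    have hAA : ⁅A, A⁆ ≤ K := by
      rw [Subgroup.commutator_eq_bot_iff_le_centralizer.mpr (Subgroup.le_centralizer_iff_isMulCommutative.mpr hAc)]
      exact bot_le
    have hxx : ⁅Subgroup.zpowers x, Subgroup.zpowers x⁆ ≤ K := by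
      rw [Subgroup.commutator_eq_bot_iff_le_centralizer.mpr (Subgroup.le_centralizer_iff_isMulCommutative.mpr inferInstance)]
      exact bot_le
    have hAN : A ≤ Subgroup.normalizer (K : Set S) := le_sup_left.trans hTK
    have hxN : Subgroup.zpowers x ≤ Subgroup.normalizer (K : Set S) := le_sup_right.trans hTK
    refine LocalEven.comm_sup_le hAN hxN ?_ ?_
    · rw [Subgroup.commutator_comm]
      exact LocalEven.comm_sup_le hAN hxN hAA hxA
    · rw [Subgroup.commutator_comm]
      refine LocalEven.comm_sup_le hAN hxN ?_ hxx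
      rw [Subgroup.commutator_comm]; exact hxA
  have self : ∀ B : Subgroup S, B.Normal → IsMulCommutative B →
      (∀ C : Subgroup S, C.Normal → IsMulCommutative C → B ≤ C → C = B) → ∀ A ∈ Cfsg.dStarFamily S, A ≤ B := by
    intro B hBn hBc hmax A hA
    haveI := hBn
    rw [← S0015.result B hmax]
    have := key A hA B hBc (by rw [Subgroup.normalizer_eq_top B]; exact le_top)
    rw [Subgroup.commutator_comm] at this
    exact Subgroup.commutator_eq_bot_iff_le_centralizer.mp this
  obtain ⟨V, ⟨hVn, hVc⟩, hVmax⟩ := (Set.toFinite {B : Subgroup S | B.Normal ∧ IsMulCommutative B}).exists_maximalFor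
    id _ ⟨⊥, inferInstance, inferInstance⟩
  have hAV : ∀ A ∈ Cfsg.dStarFamily S, A ≤ V := self V hVn hVc fun C h1 h2 h3 =>
    le_antisymm (hVmax (j := C) ⟨h1, h2⟩ h3) h3
  have hmaxA : ∀ A ∈ Cfsg.dStarFamily S, ∀ B ∈ Cfsg.maxAbelianSubgroups S, A ≤ B ∧ A ≤ Subgroup.centralizer (B : Set S) := by
    intro A hA
    have concl : ∀ B ∈ Cfsg.maxAbelianSubgroups S, A ≤ Subgroup.normalizer (B : Set S) →
        A ≤ B ∧ A ≤ Subgroup.centralizer (B : Set S) := by
      intro B hB hN
      have h1 := key A hA B hB.1 hN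
      rw [Subgroup.commutator_comm] at h1
      have h2 := Subgroup.commutator_eq_bot_iff_le_centralizer.mp h1
      refine ⟨?_, h2⟩
      have hc : IsMulCommutative ↥(B ⊔ A) := by
        rw [← Subgroup.le_centralizer_iff_isMulCommutative]
        exact sup_le (Subgroup.le_centralizer_iff.mp (sup_le (Subgroup.le_centralizer_iff_isMulCommutative.mpr hB.1) h2))
          (Subgroup.le_centralizer_iff.mp (sup_le (Subgroup.le_centralizer_iff.mp h2)
            (Subgroup.le_centralizer_iff_isMulCommutative.mpr hA.1)))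
      calc A ≤ B ⊔ A := le_sup_right
        _ = B := (Subgroup.eq_of_le_of_card_ge le_sup_left (hB.2 _ hc)).symm
    by_contra hcon
    push Not at hcon
    obtain ⟨B0, hB0, hB0'⟩ := hcon
    obtain ⟨B, ⟨hB, hBbad⟩, hBmax⟩ := (Set.toFinite {B : Subgroup S | B ∈ Cfsg.maxAbelianSubgroups S ∧
      ¬ (A ≤ B ∧ A ≤ Subgroup.centralizer (B : Set S))}).exists_maximalFor (fun B => B ⊓ V) _ ⟨B0, hB0, fun h => hB0' h.1 h.2⟩
    have hVB : ¬ V ≤ Subgroup.normalizer (B : Set S) := fun h => hBbad (concl B hB ((hAV A hA).trans h))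
    haveI := hB.1
    haveI := hVc
    obtain ⟨M, C, -, -, hc, hcard, hle, hlt⟩ := LocalEven.thompson_replacement (hpA B) (hpA V)
      (by rw [Subgroup.normalizer_eq_top V]; exact le_top) hVB
    have hnew : M ⊔ C ∈ Cfsg.maxAbelianSubgroups S := ⟨hc, fun D hD => (hB.2 D hD).trans hcard⟩
    by_cases hbad : A ≤ M ⊔ C ∧ A ≤ Subgroup.centralizer ((M ⊔ C : Subgroup S) : Set S)
    · exact hBbad (concl B hB (hbad.1.trans hle))
    · exact hlt.not_ge (hBmax (j := M ⊔ C) ⟨hnew, hbad⟩ hlt.le)
  refine ⟨le_sSup ⟨inferInstance, fun x _ a ha => (Subgroup.mem_center_iff.mp ha x).symm⟩,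
    sSup_le fun A hA => le_inf ?_ ?_, fun A h1 h2 h3 => sSup_le (self A h1 h2 h3)⟩
  · obtain ⟨B, hB1, hB2⟩ := (Set.toFinite {B : Subgroup S | IsMulCommutative B}).exists_maximalFor
      (fun B : Subgroup S => Nat.card B) _ ⟨(⊥ : Subgroup S), (inferInstance : IsMulCommutative ↥(⊥ : Subgroup S))⟩
    have hB : B ∈ Cfsg.maxAbelianSubgroups S := ⟨hB1, fun D hD => by
      rcases le_total (Nat.card B) (Nat.card D) with h | h
      · exact hB2 (j := D) hD h
      · exact h⟩
    exact (hmaxA A hA B hB).1.trans (le_sSup hB)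
  · rw [Subgroup.le_centralizer_iff]
    exact sSup_le fun B hB => Subgroup.le_centralizer_iff.mp (hmaxA A hA B hB).2


end Cfsg.Agent.S3062
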