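import Cfsg.Statements.S3075
import Mathlib.FieldTheory.Finite.Basic
import Mathlib.Tactic.LinearCombination
import Cfsg.Agent.Core.PiNumber
import Cfsg.Agent.LocalEven.Conj

set_option autoImplicit false
open Cfsg

open scoped commutatorElement

namespace Cfsg.Agent.S3075

/-- Let p be an odd prime and N a finite group with a normal elementary abelian subgroup A of order p² that is its own centralizer in N, such that N/A is isomorphic to SL₂(p) (over any field F with p elements). Then N splits over A: some subgroup U of N satisfies A ∩ U = 1 and AU = N. -/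
theorem result {N : Type*} [Group N] [Finite N] {p : ℕ} [Fact p.Prime] (hp : p ≠ 2)
    (A : Subgroup N) [A.Normal] (hAcomm : IsMulCommutative A) (hAcard : Nat.card A = p ^ 2) (hAexp : Monoid.exponent ↥A = p)
    (hAself : Subgroup.centralizer (A : Set N) = A)
    {F : Type*} [Field F] [Fintype F] (hF : Fintype.card F = p) (e : N ⧸ A ≃* Matrix.SpecialLinearGroup (Fin 2) F) :
    ∃ U : Subgroup N, A ⊓ U = ⊥ ∧ A ⊔ U = ⊤ := by
  classical
  have hpp := (Fact.out : p.Prime)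
  obtain ⟨r, hr⟩ : ∃ r, p + 1 = 2 * r := by
    obtain ⟨k, hk⟩ := hpp.odd_of_ne_two hp
    exact ⟨k + 1, by omega⟩
  have hap : ∀ a ∈ A, a ^ p = 1 := fun a ha => by
    have h := Monoid.pow_exponent_eq_one (⟨a, ha⟩ : A)
    rw [hAexp] at h
    exact congrArg Subtype.val h
  have hc : ∀ a b : N, a ∈ A → b ∈ A → a * b = b * a := fun a b ha hb =>
    congrArg Subtype.val (hAcomm.is_comm.comm (⟨a, ha⟩ : A) ⟨b, hb⟩)
  have hroot : ∀ a ∈ A, (a ^ r) ^ 2 = a := fun a ha => by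
    rw [← pow_mul, mul_comm, ← hr, pow_succ, hap a ha, one_mul]
  have hnorm : ∀ (n : N), ∀ a ∈ A, n * a * n⁻¹ ∈ A := fun n a ha => (inferInstance : A.Normal).conj_mem a ha n
  -- the involution
  have hneg : (-1 : F) ≠ 1 := by
    intro h
    haveI : CharP F p := by
      obtain ⟨q, hq⟩ := CharP.exists F
      obtain ⟨k, hqp, hk⟩ := FiniteField.card F q
      rw [hF] at hk
      have := (Nat.prime_dvd_prime_iff_eq hqp hpp).mp (hk ▸ dvd_pow_self q k.pos.ne')
      exact this ▸ hq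
    have h2 : ((2 : ℕ) : F) = 0 := by
      push_cast
      linear_combination -h
    rw [CharP.cast_eq_zero_iff F p] at h2
    exact hp ((Nat.prime_dvd_prime_iff_eq hpp Nat.prime_two).mp h2)
  set s : Matrix.SpecialLinearGroup (Fin 2) F := -1 with hs
  have hs1 : s ≠ 1 := by
    intro h
    have h00 := congrArg (fun M : Matrix.SpecialLinearGroup (Fin 2) F => (M : Matrix (Fin 2) (Fin 2) F) 0 0) h
    simp [hs] at h00
    exact hneg h00
  have hs2 : s * s = 1 := by simp [hs]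
  obtain ⟨y, hy⟩ := QuotientGroup.mk'_surjective A (e.symm s)
  have hyodd : ∀ j, ¬ 2 ∣ j → e (QuotientGroup.mk' A (y ^ j)) = s := by
    intro j hj
    obtain ⟨i, rfl⟩ : Odd j := Nat.not_even_iff_odd.mp fun h => hj (even_iff_two_dvd.mp h)
    rw [map_pow, map_pow, hy, MulEquiv.apply_symm_apply, pow_succ, pow_mul, sq, hs2, one_pow, one_mul]
  obtain ⟨k, j, hj, hkj⟩ := Nat.exists_eq_pow_mul_and_not_dvd (orderOf_pos y).ne' 2 (by norm_num)
  set z := y ^ j with hz
  have hzs : e (QuotientGroup.mk' A z) = s := hyodd j hj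
  have hzk : z ^ (2 ^ k) = 1 := by rw [hz, ← pow_mul, mul_comm, ← hkj, pow_orderOf_eq_one]
  have hzA : z * z ∈ A := by
    rw [← QuotientGroup.eq_one_iff]
    apply e.injective
    change e (QuotientGroup.mk' A (z * z)) = e 1
    rw [map_mul, map_mul, hzs, hs2, map_one]
  have hzz : z * z = 1 := by
    rw [← orderOf_eq_one_iff]
    refine Nat.eq_one_of_dvd_coprimes ?_ (orderOf_dvd_of_pow_eq_one (hap _ hzA)) (orderOf_dvd_of_pow_eq_one
      (n := 2 ^ k) (by rw [← sq, ← pow_mul, mul_comm, pow_mul, hzk, one_pow]))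
    exact ((Nat.coprime_primes hpp Nat.prime_two).mpr hp).pow_right k
  have hzi : z⁻¹ = z := inv_eq_of_mul_eq_one_right hzz
  have hcz : ∀ n : N, z⁻¹ * (n * z * n⁻¹) ∈ A := by
    intro n
    rw [← QuotientGroup.eq_one_iff]
    apply e.injective
    change e (QuotientGroup.mk' A (z⁻¹ * (n * z * n⁻¹))) = e 1
    simp only [map_mul, map_inv, hzs, map_one]
    have hcomm : ∀ M : Matrix.SpecialLinearGroup (Fin 2) F, M * s = s * M := fun M => by simp [hs]
    rw [hcomm]; group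
  have hact : ∀ (n : N), ∀ a ∈ A, z * (n * a * n⁻¹) * z⁻¹ = n * (z * a * z⁻¹) * n⁻¹ := by
    intro n a ha
    set a0 := z⁻¹ * (n * z * n⁻¹) with ha0
    calc z * (n * a * n⁻¹) * z⁻¹ = z * (a0 * (n * a * n⁻¹) * a0⁻¹) * z⁻¹ := by
          rw [hc a0 _ (hcz n) (hnorm n a ha)]; group
      _ = n * (z * a * z⁻¹) * n⁻¹ := by rw [ha0]; group
  -- fixed and inverted parts
  let B : Subgroup N :=
    { carrier := {a | a ∈ A ∧ z * a * z⁻¹ = a}
      one_mem' := ⟨A.one_mem, by group⟩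
      mul_mem' := fun {a b} ha hb => ⟨A.mul_mem ha.1 hb.1, by
        calc z * (a * b) * z⁻¹ = (z * a * z⁻¹) * (z * b * z⁻¹) := by group
          _ = a * b := by rw [ha.2, hb.2]⟩
      inv_mem' := fun {a} ha => ⟨A.inv_mem ha.1, by
        calc z * a⁻¹ * z⁻¹ = (z * a * z⁻¹)⁻¹ := by group
          _ = a⁻¹ := by rw [ha.2]⟩ }
  let D : Subgroup N :=
    { carrier := {a | a ∈ A ∧ z * a * z⁻¹ = a⁻¹}
      one_mem' := ⟨A.one_mem, by group⟩
      mul_mem' := fun {a b} ha hb => ⟨A.mul_mem ha.1 hb.1, by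
        calc z * (a * b) * z⁻¹ = (z * a * z⁻¹) * (z * b * z⁻¹) := by group
          _ = a⁻¹ * b⁻¹ := by rw [ha.2, hb.2]
          _ = (a * b)⁻¹ := by rw [mul_inv_rev, hc _ _ (A.inv_mem ha.1) (A.inv_mem hb.1)]⟩
      inv_mem' := fun {a} ha => ⟨A.inv_mem ha.1, by
        calc z * a⁻¹ * z⁻¹ = (z * a * z⁻¹)⁻¹ := by group
          _ = (a⁻¹)⁻¹ := by rw [ha.2]⟩ }
  have hBA : B ≤ A := fun a ha => ha.1
  have hDA : D ≤ A := fun a ha => ha.1
  have hBn : ∀ (n : N), ∀ b ∈ B, n * b * n⁻¹ ∈ B := fun n b hb => ⟨hnorm n b hb.1, by rw [hact n b hb.1, hb.2]⟩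
  have hDn : ∀ (n : N), ∀ b ∈ D, n * b * n⁻¹ ∈ D := fun n b hb => ⟨hnorm n b hb.1, by rw [hact n b hb.1, hb.2]; group⟩
  have hsplit : ∀ a ∈ A, a * (z * a * z⁻¹) ∈ B ∧ a * (z * a * z⁻¹)⁻¹ ∈ D := by
    intro a ha
    have h1 := hnorm z a ha
    have h2 : z * (z * a * z⁻¹) * z⁻¹ = a := by
      calc z * (z * a * z⁻¹) * z⁻¹ = (z * z) * a * (z * z)⁻¹ := by group
        _ = a := by rw [hzz]; group
    refine ⟨⟨A.mul_mem ha h1, ?_⟩, A.mul_mem ha (A.inv_mem h1), ?_⟩
    · calc z * (a * (z * a * z⁻¹)) * z⁻¹ = (z * a * z⁻¹) * (z * (z * a * z⁻¹) * z⁻¹) := by group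
        _ = a * (z * a * z⁻¹) := by rw [h2, hc _ _ h1 ha]
    · calc z * (a * (z * a * z⁻¹)⁻¹) * z⁻¹ = (z * a * z⁻¹) * (z * (z * a * z⁻¹) * z⁻¹)⁻¹ := by group
        _ = (a * (z * a * z⁻¹)⁻¹)⁻¹ := by rw [h2]; group
  have hsq : ∀ a ∈ A, a * a = 1 → a = 1 := fun a ha h => by
    have := hroot a ha
    rw [← pow_mul, mul_comm, pow_mul, sq, h, one_pow] at this
    exact this.symm
  by_cases hB : B = ⊥
  · have hinv : ∀ a ∈ A, z * a * z⁻¹ = a⁻¹ := fun a ha => by
      have := (Subgroup.mem_bot.mp (hB ▸ (hsplit a ha).1))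
      exact eq_inv_of_mul_eq_one_right this
    refine ⟨Subgroup.centralizer {z}, ?_, ?_⟩
    · rw [eq_bot_iff]
      intro a ha
      obtain ⟨ha1, ha2⟩ := Subgroup.mem_inf.mp ha
      rw [Subgroup.mem_centralizer_singleton_iff] at ha2
      refine Subgroup.mem_bot.mpr (hsq a ha1 ?_)
      have := hinv a ha1
      rw [← ha2, mul_inv_cancel_right] at this
      exact mul_eq_one_iff_eq_inv.mpr this
    · rw [eq_top_iff]
      intro n _
      set a0 := z⁻¹ * (n * z * n⁻¹) with ha0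
      set a := (a0 ^ r)⁻¹ with hadef
      have haA : a ∈ A := A.inv_mem (A.pow_mem (hcz n) r)
      have h1 : a * z * a⁻¹ = n * z * n⁻¹ := by
        have h3 : z * a * z⁻¹ = a⁻¹ := hinv a haA
        have h4 : a⁻¹ * a⁻¹ = a0 := by rw [hadef, inv_inv, ← sq]; exact hroot _ (hcz n)
        calc a * z * a⁻¹ = z * ((z⁻¹ * a * z) * a⁻¹) := by group
          _ = z * (a⁻¹ * a⁻¹) := by
            have h5 : z⁻¹ * a * z = a⁻¹ := by
              calc z⁻¹ * a * z = z * a * z⁻¹ := by simp only [hzi]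
                _ = a⁻¹ := h3
            rw [h5]
          _ = n * z * n⁻¹ := by rw [h4, ha0]; group
      have h2 : a⁻¹ * n ∈ Subgroup.centralizer {z} := by
        rw [Subgroup.mem_centralizer_singleton_iff]
        calc a⁻¹ * n * z = a⁻¹ * (n * z * n⁻¹) * n := by group
          _ = z * (a⁻¹ * n) := by rw [← h1]; group
      simpa using Subgroup.mul_mem_sup haA h2
  exfalso
  have hD : D ≠ ⊥ := by
    intro hD
    have hzc : z ∈ Subgroup.centralizer (A : Set N) := by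
      rw [Subgroup.mem_centralizer_iff]
      intro a ha
      have h5 := Subgroup.mem_bot.mp (hD ▸ (hsplit a ha).2)
      have h6 : z * a * z⁻¹ = a := (mul_inv_eq_one.mp h5).symm
      calc a * z = (z * a * z⁻¹) * z := by rw [h6]
        _ = z * a := by group
    rw [hAself] at hzc
    apply hs1
    rw [← hzs, show QuotientGroup.mk' A z = 1 from (QuotientGroup.eq_one_iff z).mpr hzc, map_one]
  have hBD : B ⊓ D = ⊥ := by
    rw [eq_bot_iff]
    intro a ha
    obtain ⟨h1, h2⟩ := Subgroup.mem_inf.mp ha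
    exact Subgroup.mem_bot.mpr (hsq a h1.1 (mul_eq_one_iff_eq_inv.mpr (h1.2.symm.trans h2.2)))
  have hcard : ∀ X Y : Subgroup N, X ≤ A → Y ≤ A → X ⊓ Y = ⊥ → Y ≠ ⊥ → X ≠ ⊥ → Nat.card X = p := by
    intro X Y hX hY hXY hY1 hX1
    obtain ⟨i, hi, hXi⟩ := (Nat.dvd_prime_pow hpp).mp (hAcard ▸ Subgroup.card_dvd_of_le hX : Nat.card X ∣ p ^ 2)
    interval_cases i
    · exact absurd (Subgroup.card_eq_one.mp (by simpa using hXi)) hX1
    · simpa using hXi
    · have : X = A := Subgroup.eq_of_le_of_card_ge hX (by rw [hXi, hAcard])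
      rw [this, inf_eq_right.mpr hY] at hXY
      exact absurd hXY hY1
  have hBc := hcard B D hBA hDA hBD hD hB
  have hDc := hcard D B hDA hBA (inf_comm B D ▸ hBD) hB hD
  have habel : ∀ X : Subgroup N, Nat.card X = p → (∀ (n : N), ∀ b ∈ X, n * b * n⁻¹ ∈ X) →
      ∀ x y : N, ∀ b ∈ X, x * (y * b * y⁻¹) * x⁻¹ = y * (x * b * x⁻¹) * y⁻¹ := by
    intro X hX hXn x y b hb
    by_cases hb1 : (⟨b, hb⟩ : X) = 1
    · rw [show b = 1 from congrArg Subtype.val hb1]; group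
    have htop := zpowers_eq_top_of_prime_card hX hb1
    have hpow : ∀ n : N, ∃ i : ℤ, b ^ i = n * b * n⁻¹ := fun n => by
      obtain ⟨i, hi⟩ := (htop ▸ Subgroup.mem_top (⟨_, hXn n b hb⟩ : X) : (⟨_, hXn n b hb⟩ : X) ∈ Subgroup.zpowers (⟨b, hb⟩ : X))
      exact ⟨i, by simpa using congrArg Subtype.val hi⟩
    obtain ⟨i, hi⟩ := hpow x
    obtain ⟨j, hj⟩ := hpow y
    rw [← hi, ← hj, ← conj_zpow, ← conj_zpow, ← hi, ← hj, ← zpow_mul, ← zpow_mul, mul_comm]
  have hBDA : B ⊔ D = A := by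
    refine Subgroup.eq_of_le_of_card_ge (sup_le hBA hDA) ?_
    intros
    rw [hAcard]
    haveI : D.Normal := ⟨fun b hb n => hDn n b hb⟩
    rw [Core.card_sup_of_disjoint hBD, hBc, hDc, sq]
  have hNA : ∀ x y : N, ⁅x, y⁆ ∈ A := by
    intro x y
    rw [← hAself, ← hBDA]
    have key : ∀ X : Subgroup N, Nat.card X = p → (∀ (n : N), ∀ b ∈ X, n * b * n⁻¹ ∈ X) →
        X ≤ Subgroup.centralizer {⁅x, y⁆} := by
      intro X hX hXn b hb
      rw [Subgroup.mem_centralizer_singleton_iff]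
      have h := habel X hX hXn x y _ (hXn x⁻¹ _ (hXn y⁻¹ b hb))
      simp only [inv_inv] at h
      have h' : ⁅x, y⁆ * b * ⁅x, y⁆⁻¹ = b := by
        calc ⁅x, y⁆ * b * ⁅x, y⁆⁻¹ = x * (y * (x⁻¹ * (y⁻¹ * b * y) * x) * y⁻¹) * x⁻¹ := by
              simp only [commutatorElement_def]; group
          _ = y * (x * (x⁻¹ * (y⁻¹ * b * y) * x) * x⁻¹) * y⁻¹ := h
          _ = b := by group
      calc b * ⁅x, y⁆ = (⁅x, y⁆ * b * ⁅x, y⁆⁻¹) * ⁅x, y⁆ := by rw [h']
        _ = ⁅x, y⁆ * b := by group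
    have : B ⊔ D ≤ Subgroup.centralizer {⁅x, y⁆} := sup_le (key B hBc hBn) (key D hDc hDn)
    rw [Subgroup.mem_centralizer_iff]
    exact fun b hb => Subgroup.mem_centralizer_singleton_iff.mp (this hb)
  set M1 : Matrix.SpecialLinearGroup (Fin 2) F := ⟨!![1, 1; 0, 1], by simp [Matrix.det_fin_two]⟩ with hM1
  set M2 : Matrix.SpecialLinearGroup (Fin 2) F := ⟨!![1, 0; 1, 1], by simp [Matrix.det_fin_two]⟩ with hM2
  obtain ⟨x, hx⟩ := QuotientGroup.mk'_surjective A (e.symm M1)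
  obtain ⟨y, hy⟩ := QuotientGroup.mk'_surjective A (e.symm M2)
  have hq : ⁅M1, M2⁆ = 1 := by
    rw [← e.apply_symm_apply M1, ← e.apply_symm_apply M2, ← map_commutatorElement, ← hx, ← hy, ← map_commutatorElement,
      show QuotientGroup.mk' A ⁅x, y⁆ = 1 from (QuotientGroup.eq_one_iff _).mpr (hNA x y), map_one]
  have h := congrArg (fun M : Matrix.SpecialLinearGroup (Fin 2) F => (M : Matrix (Fin 2) (Fin 2) F) 0 0)
    (commutatorElement_eq_one_iff_mul_comm.mp hq)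
  have h' : ((!![1, 1; 0, 1] * !![1, 0; 1, 1] : Matrix (Fin 2) (Fin 2) F)) 0 0 =
      ((!![1, 0; 1, 1] * !![1, 1; 0, 1] : Matrix (Fin 2) (Fin 2) F)) 0 0 := h
  simp [Matrix.mul_apply, Fin.sum_univ_two] at h'

end Cfsg.Agent.S3075
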