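import Cfsg.Statements.S3076
import Cfsg.Agent.Transfer.Burnside
import Cfsg.Agent.Core.PPrimeP
import Cfsg.Agent.Core.Cores

set_option autoImplicit false
open Cfsg

namespace Cfsg.Agent.S3076

theorem key {K : Type*} [Group K] [Finite K] {p : ℕ} [hp : Fact p.Prime] (P : Sylow p K) (H C : Subgroup K)
    [H.Normal] [C.Normal] (hHP : H ≤ (P : Subgroup K)) (hC : C = Subgroup.centralizer (H : Set K)) :
    (H ≤ (Cfsg.pCore p (K ⧸ C)).comap (QuotientGroup.mk' C) ∧
      ¬ p ∣ H.relIndex ((Cfsg.pCore p (K ⧸ C)).comap (QuotientGroup.mk' C))) ↔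
    ((P : Subgroup K) ⊓ C ≤ H ∧ Cfsg.pPrimePCore p K = H ⊔ C) := by
  set π := QuotientGroup.mk' C with hπ
  set N0 := (Cfsg.pCore p (K ⧸ C)).comap π with hN0
  have hHp : IsPGroup p H := P.2.to_le hHP
  have hHN : H ≤ N0 := Subgroup.map_le_iff_le_comap.1 (Core.le_pCore
    ((inferInstance : H.Normal).map π (QuotientGroup.mk'_surjective C)) (hHp.map π))
  have hCN : C ≤ N0 := fun c hc => by
    rw [hN0, Subgroup.mem_comap, show π c = 1 from (QuotientGroup.eq_one_iff c).2 hc]
    exact one_mem _
  set O := Cfsg.pPrimeCore p K with hO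
  have hOC : O ≤ C := by
    rw [hC]
    exact Subgroup.le_centralizer_iff.1
      ((Core.le_pCore (inferInstance : H.Normal) hHp).trans (Core.pCore_le_centralizer_pPrimeCore p K))
  have hA : (P : Subgroup K) ⊓ C ≤ H → C ≤ H ⊔ O ∧ Cfsg.pPrimePCore p K = N0 := by
    intro hPC
    have hCH : C ≤ H ⊔ O := by
      set PC := Transfer.sylowOfNormal P C with hPCdef
      have hmem : ∀ v : C, v ∈ (PC : Subgroup C) → (v : K) ∈ H := by
        intro v hv
        rw [hPCdef, Transfer.coe_sylowOfNormal, Subgroup.mem_subgroupOf] at hv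
        exact hPC (Subgroup.mem_inf.2 ⟨hv, v.2⟩)
      have hnpc : Cfsg.HasNormalPComplement p C :=
        Transfer.hasNormalPComplement_of_normalizer_le_centralizer PC fun y _ v hv => Subtype.ext
          (Subgroup.mem_centralizer_iff.1 (hC ▸ y.2 : (y : K) ∈ Subgroup.centralizer (H : Set K)) v (hmem v hv))
      have hR : (Cfsg.pResidual p C).map C.subtype ≤ O := by
        refine Core.le_pPrimeCore (Core.normal_map_subtype_of_characteristic _) ?_
        rw [Subgroup.card_map_of_injective C.subtype_injective]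
        exact Transfer.hasNormalPComplement_iff_coprime_pResidual.mp hnpc
      intro c hc
      have h1 : (⟨c, hc⟩ : C) ∈ (PC : Subgroup C) ⊔ Cfsg.pResidual p C := by
        rw [Transfer.sylow_sup_pResidual]; trivial
      obtain ⟨a, ha, b, hb, e⟩ := Subgroup.mem_sup_of_normal_right.1 h1
      rw [show c = (a : K) * (b : K) from congrArg Subtype.val e.symm]
      exact mul_mem (Subgroup.mem_sup_left (hmem a ha)) (Subgroup.mem_sup_right (hR ⟨b, hb, rfl⟩))
    refine ⟨hCH, ?_⟩
    set φ := QuotientGroup.map O C (MonoidHom.id K) hOC with hφ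
    have hφs : Function.Surjective φ := fun q => by
      obtain ⟨x, rfl⟩ := QuotientGroup.mk'_surjective C q
      exact ⟨(x : K ⧸ O), rfl⟩
    apply le_antisymm
    · intro x hx
      exact Core.map_pCore_le hφs ⟨_, Subgroup.mem_comap.1 hx, rfl⟩
    · intro x hx
      refine Subgroup.mem_comap.2 (Core.le_pCore (N := (Cfsg.pCore p (K ⧸ C)).comap φ) inferInstance ?_ ?_)
      · refine IsPGroup.comap_of_ker_isPGroup (Core.isPGroup_pCore p _) φ
          ((hHp.map (QuotientGroup.mk' O)).to_le ?_)
        intro q hq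
        obtain ⟨y, rfl⟩ := QuotientGroup.mk'_surjective O q
        have hy : y ∈ H ⊔ O := hCH ((QuotientGroup.eq_one_iff y).1 hq)
        obtain ⟨a, ha, b, hb, rfl⟩ := Subgroup.mem_sup_of_normal_right.1 hy
        refine ⟨a, ha, ?_⟩
        rw [map_mul, show QuotientGroup.mk' O b = 1 from (QuotientGroup.eq_one_iff b).2 hb, mul_one]
      · exact Subgroup.mem_comap.2 hx
  constructor
  · rintro ⟨-, hidx⟩
    have hPC : (P : Subgroup K) ⊓ C ≤ H := by
      set D := H ⊔ (P : Subgroup K) ⊓ C with hD
      have hDp : IsPGroup p D := P.2.to_le (sup_le hHP inf_le_left)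
      obtain ⟨k, hk⟩ := hDp.index (H.subgroupOf D)
      have h1 : H.relIndex D ∣ H.relIndex N0 :=
        Dvd.intro _ (Subgroup.relIndex_mul_relIndex H D N0 le_sup_left (sup_le hHN (inf_le_right.trans hCN)))
      rw [show H.relIndex D = p ^ k from hk] at h1
      have hk0 : k = 0 := by
        by_contra h
        exact hidx ((dvd_pow_self p h).trans h1)
      rw [hk0, pow_zero] at hk
      exact le_sup_right.trans (Subgroup.relIndex_eq_one.1 hk)
    refine ⟨hPC, (hA hPC).2.trans (le_antisymm ?_ (sup_le hHN hCN))⟩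
    have hcm : (H.map π).comap π = H ⊔ C := by rw [Subgroup.comap_map_eq, QuotientGroup.ker_mk']
    obtain ⟨k, hk⟩ := (Core.isPGroup_pCore p (K ⧸ C)).index ((H.map π).subgroupOf (Cfsg.pCore p (K ⧸ C)))
    have hk2 : (H ⊔ C).relIndex N0 = p ^ k := by
      rw [← hcm, Subgroup.relIndex_comap, hN0,
        Subgroup.map_comap_eq_self_of_surjective (QuotientGroup.mk'_surjective C)]
      exact hk
    have h1 : (H ⊔ C).relIndex N0 ∣ H.relIndex N0 :=
      Dvd.intro_left _ (Subgroup.relIndex_mul_relIndex H (H ⊔ C) N0 le_sup_left (sup_le hHN hCN))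
    have hk0 : k = 0 := by
      by_contra h
      exact hidx ((dvd_pow_self p h).trans (hk2 ▸ h1))
    rw [hk0, pow_zero] at hk2
    exact Subgroup.relIndex_eq_one.1 hk2
  · rintro ⟨hPC, hE⟩
    obtain ⟨hCH, hN⟩ := hA hPC
    refine ⟨hHN, fun hd => ?_⟩
    have h1 : H ⊔ C = O ⊔ H :=
      le_antisymm (sup_le le_sup_right (hCH.trans (sup_comm H O).le)) (sup_le (hOC.trans le_sup_right) le_sup_left)
    rw [← hN, hE, h1, Subgroup.relIndex_sup_right] at hd
    exact hp.out.coprime_iff_not_dvd.1 (Core.card_pPrimeCore_coprime p K).symm (hd.trans (Subgroup.relIndex_dvd_card H O))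


/-- Let P be a Sylow p-subgroup of the finite group G and H ≤ P a subgroup with N_P(H) a Sylow p-subgroup of N_G(H). Let N be the preimage in N_G(H) of O_p(N_G(H)/C_G(H)). Then H is a Sylow p-subgroup of N if and only if C_P(H) ≤ H and O_{p',p}(N_G(H)) = H·C_G(H). -/
theorem result {G : Type*} [Group G] [Finite G] {p : ℕ} [Fact p.Prime]
    (P : Sylow p G) (H : Subgroup G) (hHP : H ≤ (P : Subgroup G))
    (hSyl : ¬ p ∣ ((P : Subgroup G) ⊓ Subgroup.normalizer (H : Set G)).relIndex (Subgroup.normalizer (H : Set G)))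
    [hC : ((Subgroup.centralizer (H : Set G)).subgroupOf (Subgroup.normalizer (H : Set G))).Normal] :
    (H ≤ ((Cfsg.pCore p (↥(Subgroup.normalizer (H : Set G)) ⧸
              (Subgroup.centralizer (H : Set G)).subgroupOf (Subgroup.normalizer (H : Set G)))).comap
            (QuotientGroup.mk' _)).map (Subgroup.normalizer (H : Set G)).subtype ∧
      ¬ p ∣ H.relIndex (((Cfsg.pCore p (↥(Subgroup.normalizer (H : Set G)) ⧸
              (Subgroup.centralizer (H : Set G)).subgroupOf (Subgroup.normalizer (H : Set G)))).comap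
            (QuotientGroup.mk' _)).map (Subgroup.normalizer (H : Set G)).subtype)) ↔
    ((P : Subgroup G) ⊓ Subgroup.centralizer (H : Set G) ≤ H ∧
      (Cfsg.pPrimePCore p ↥(Subgroup.normalizer (H : Set G))).map (Subgroup.normalizer (H : Set G)).subtype =
        H ⊔ Subgroup.centralizer (H : Set G)) := by
    set K := Subgroup.normalizer (H : Set G) with hK
    have hHK : H ≤ K := Subgroup.le_normalizer
    have hCK : Subgroup.centralizer (H : Set G) ≤ K := fun c hc => Subgroup.mem_normalizer_iff.2 fun x => by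
      constructor
      · intro hx
        have := Subgroup.mem_centralizer_iff.1 hc x hx
        rwa [show c * x * c⁻¹ = x by rw [← this, mul_inv_cancel_right]]
      · intro hx
        have := Subgroup.mem_centralizer_iff.1 hc _ hx
        have h1 : c * x * c⁻¹ = x := by
          have h2 : c * x = c * (c * x * c⁻¹) := by rw [← this]; group
          exact (mul_left_cancel h2).symm
        rwa [h1] at hx
    let P' : Sylow p K := IsPGroup.toSylow (P := ((P : Subgroup G) ⊓ K).subgroupOf K)
      ((P.2.to_le inf_le_left).comap_subtype) hSyl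
    haveI : (H.subgroupOf K).Normal := Subgroup.normal_in_normalizer
    have hC' : (Subgroup.centralizer (H : Set G)).subgroupOf K =
        Subgroup.centralizer ((H.subgroupOf K : Subgroup K) : Set K) := by
      ext x
      simp only [Subgroup.mem_subgroupOf, Subgroup.mem_centralizer_iff]
      constructor
      · exact fun h y hy => Subtype.ext (h y hy)
      · exact fun h y hy => congrArg Subtype.val (h ⟨y, hHK hy⟩ hy)
    have hP' : H.subgroupOf K ≤ (P' : Subgroup K) := fun x hx =>
      Subgroup.mem_subgroupOf.2 (Subgroup.mem_inf.2 ⟨hHP hx, x.2⟩)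
    refine Iff.trans ?_ ((key P' (H.subgroupOf K) _ hP' hC').trans ?_)
    · refine and_congr ⟨fun h x hx => ?_, fun h x hx => ⟨⟨x, hHK hx⟩, h hx, rfl⟩⟩ (not_congr (iff_of_eq ?_))
      · obtain ⟨y, hy, e⟩ := h (Subgroup.mem_subgroupOf.1 hx)
        rwa [show y = x from Subtype.ext e] at hy
      · congr 1
        rw [← Subgroup.relIndex_map_map_of_injective (H.subgroupOf K) _ K.subtype_injective,
          Subgroup.map_subgroupOf_eq_of_le hHK]
    · refine and_congr ⟨fun h x hx => ?_, fun h x hx => ?_⟩ ?_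
      · have := h (x := ⟨x, hCK (Subgroup.mem_inf.1 hx).2⟩) (Subgroup.mem_inf.2
          ⟨Subgroup.mem_subgroupOf.2 (Subgroup.mem_inf.2 ⟨(Subgroup.mem_inf.1 hx).1, hCK (Subgroup.mem_inf.1 hx).2⟩),
            Subgroup.mem_subgroupOf.2 (Subgroup.mem_inf.1 hx).2⟩)
        exact this
      · obtain ⟨h1, h2⟩ := Subgroup.mem_inf.1 hx
        exact Subgroup.mem_subgroupOf.2 (h (Subgroup.mem_inf.2
          ⟨(Subgroup.mem_inf.1 (Subgroup.mem_subgroupOf.1 h1)).1, Subgroup.mem_subgroupOf.1 h2⟩))
      · rw [← (Subgroup.map_injective K.subtype_injective).eq_iff, Subgroup.map_sup,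
          Subgroup.map_subgroupOf_eq_of_le hHK, Subgroup.map_subgroupOf_eq_of_le hCK]

end Cfsg.Agent.S3076
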