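import Cfsg.Statements.S3078
import Cfsg.Agent.PLocal.Replacement
import Cfsg.Agent.Core.Cores

set_option autoImplicit false
open Cfsg

namespace Cfsg.Agent.S3078

theorem omega_card {G : Type*} [Group G] [Finite G] {p : ℕ} [Fact p.Prime] (hp : p ≠ 2) (A : Subgroup G)
    (hA : ∀ u ∈ A, ∀ v ∈ A, u * v = v * u) (b : G)
    (hbN : b ∈ Subgroup.normalizer ((Subgroup.normalizer (A : Set G)) : Set G)) (Astar : Subgroup G)
    (hM : ∀ u ∈ Astar, ∀ v ∈ Astar, u * v = v * u) (hdef : Astar = Cfsg.Agent.PLocal.replacement A b) :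
    Nat.card {a : G // a ∈ A ∧ a ^ p = 1} ≤ Nat.card {a : G // a ∈ Astar ∧ a ^ p = 1} := by
  classical
  set φ : MulAut G := MulAut.conj b⁻¹ with hφ
  have φdef : ∀ g : G, φ g = b⁻¹ * g * b := fun g => by simp [hφ]
  let K : Subgroup G :=
    { carrier := {a | a ∈ A ∧ a ^ p = 1 ∧ φ a ∈ A}
      one_mem' := ⟨one_mem A, one_pow p, by rw [map_one]; exact one_mem A⟩
      mul_mem' := fun {u v} hu hv => ⟨A.mul_mem hu.1 hv.1, by
        rw [(show Commute u v from hA u hu.1 v hv.1).mul_pow, hu.2.1, hv.2.1, one_mul], by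
        rw [map_mul]; exact A.mul_mem hu.2.2 hv.2.2⟩
      inv_mem' := fun {u} hu => ⟨A.inv_mem hu.1, by rw [inv_pow, hu.2.1, inv_one], by
        rw [map_inv]; exact A.inv_mem hu.2.2⟩ }
  let t : G → G := fun a => (QuotientGroup.mk a : G ⧸ K).out
  have ht : ∀ a, (t a)⁻¹ * a ∈ K := fun a => QuotientGroup.eq.mp (QuotientGroup.out_eq' _)
  have htT : ∀ a, a ∈ A → a ^ p = 1 → t a ∈ A ∧ t a ^ p = 1 := by
    intro a ha hap
    obtain ⟨h1, h2, -⟩ := ht a
    have h3 : t a ∈ A := by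
      have := A.mul_mem ha (A.inv_mem h1)
      rwa [mul_inv_rev, inv_inv, mul_inv_cancel_left] at this
    refine ⟨h3, ?_⟩
    have : Commute (t a) ((t a)⁻¹ * a) := hA _ h3 _ h1
    have h4 := this.mul_pow p
    rw [mul_inv_cancel_left, hap, h2, mul_one] at h4
    exact h4.symm
  have hA₁N : ∀ a ∈ A, φ a ∈ Subgroup.normalizer (A : Set G) := fun a ha => by
    rw [φdef]
    exact (Subgroup.mem_normalizer_iff''.mp hbN a).mp (Subgroup.le_normalizer ha)
  have hAN₁ : ∀ a ∈ A, ∀ c ∈ A, a * φ c * a⁻¹ ∈ A.map φ.toMonoidHom := by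
    intro a ha c hc
    have hn : b * a * b⁻¹ ∈ Subgroup.normalizer (A : Set G) :=
      (Subgroup.mem_normalizer_iff.mp hbN a).mp (Subgroup.le_normalizer ha)
    refine ⟨(b * a * b⁻¹) * c * (b * a * b⁻¹)⁻¹, (Subgroup.mem_normalizer_iff.mp hn c).mp hc, ?_⟩
    show φ _ = _
    rw [φdef, φdef]; group
  have hA₁ : ∀ u ∈ A.map φ.toMonoidHom, ∀ v ∈ A.map φ.toMonoidHom, u * v = v * u := by
    rintro _ ⟨u, hu, rfl⟩ _ ⟨v, hv, rfl⟩
    show φ u * φ v = φ v * φ u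
    rw [← map_mul, ← map_mul, hA u hu v hv]
  have hxp : ∀ a ∈ A, a ^ p = 1 → (a * (φ a)⁻¹) ^ p = 1 := by
    intro a ha hap
    set v := (φ a)⁻¹ with hv
    have hvA : v ∈ A.map φ.toMonoidHom := Subgroup.inv_mem _ ⟨a, ha, rfl⟩
    set z := v⁻¹ * a⁻¹ * v * a with hz
    have hzA : z ∈ A := by
      have h := A.mul_mem ((Subgroup.mem_normalizer_iff.mp (Subgroup.inv_mem _ (Subgroup.inv_mem _ (hA₁N a ha))) a⁻¹).mp (A.inv_mem ha)) ha
      rw [inv_inv] at h
      rw [hz, hv, inv_inv]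
      exact h
    have hzA₁ : z ∈ A.map φ.toMonoidHom := by
      obtain ⟨w, hw, hw'⟩ := hAN₁ a⁻¹ (A.inv_mem ha) a⁻¹ (A.inv_mem ha)
      have : z = v⁻¹ * (a⁻¹ * φ a⁻¹ * a⁻¹⁻¹) := by rw [hz, map_inv, hv]; group
      rw [this]
      exact Subgroup.mul_mem _ (Subgroup.inv_mem _ hvA) ⟨w, hw, hw'⟩
    have hvp : v ^ p = 1 := by rw [hv, inv_pow, ← map_pow, hap, map_one, inv_one]
    have hvu : v * a = a * v * z := by rw [hz]; group
    obtain ⟨h1, h2⟩ := Cfsg.Agent.PLocal.class_two_pow a v z hvu (hA z hzA a ha) (hA₁ z hzA₁ v hvA) p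
    rw [hvp, one_mul, mul_one] at h1
    have hzp : z ^ p = 1 := mul_eq_left.mp h1.symm
    rw [hap, hvp, one_mul, one_mul] at h2
    obtain ⟨c, hc⟩ := (Fact.out : p.Prime).dvd_choose_self two_ne_zero (lt_of_le_of_ne (Fact.out : p.Prime).two_le (Ne.symm hp))
    rw [h2, hc, pow_mul, hzp, one_pow]
  have hxM : ∀ a ∈ A, a * (φ a)⁻¹ ∈ Astar := fun a ha => by
    rw [hdef]
    exact Subgroup.mem_sup_right (Subgroup.subset_closure ⟨a, ha, by rw [φdef]; group⟩)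
  have hkM : ∀ k ∈ K, φ k ∈ Astar ∧ φ k ^ p = 1 := fun k hk => by
    refine ⟨?_, by rw [← map_pow, hk.2.1, map_one]⟩
    rw [hdef]
    exact Subgroup.mem_sup_left ⟨hk.2.2, k, hk.1, rfl⟩
  let F : {a : G // a ∈ A ∧ a ^ p = 1} → {a : G // a ∈ Astar ∧ a ^ p = 1} := fun a =>
    ⟨t a * (φ (t a))⁻¹ * φ ((t a)⁻¹ * a), Astar.mul_mem (hxM _ (htT _ a.2.1 a.2.2).1) (hkM _ (ht a)).1, by
      rw [(show Commute _ _ from hM _ (hxM _ (htT _ a.2.1 a.2.2).1) _ (hkM _ (ht a)).1).mul_pow,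
        hxp _ (htT _ a.2.1 a.2.2).1 (htT _ a.2.1 a.2.2).2, (hkM _ (ht a)).2, one_mul]⟩
  refine Nat.card_le_card_of_injective F fun a a' h => ?_
  have h0 : t a * (φ (t a))⁻¹ * φ ((t a)⁻¹ * a) = t a' * (φ (t a'))⁻¹ * φ ((t a')⁻¹ * a') := congrArg Subtype.val h
  obtain ⟨hk1, hk2, hk3⟩ := ht a
  obtain ⟨hk1', hk2', hk3'⟩ := ht a'
  obtain ⟨hsA, hsp⟩ := htT _ a.2.1 a.2.2
  obtain ⟨hsA', hsp'⟩ := htT _ a'.2.1 a'.2.2
  set s := t a with hs
  set s' := t a' with hs'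
  set k := s⁻¹ * (a : G) with hk
  set k' := s'⁻¹ * (a' : G) with hk'
  have hmem : ∀ c ∈ A, φ c ∈ A.map φ.toMonoidHom := fun c hc => ⟨c, hc, rfl⟩
  have h5 : s'⁻¹ * s ∈ A.map φ.toMonoidHom := by
    have e : s'⁻¹ * s = (φ s')⁻¹ * φ k' * ((φ s)⁻¹ * φ k)⁻¹ := by
      calc s'⁻¹ * s = s'⁻¹ * (s * (φ s)⁻¹ * φ k) * ((φ s)⁻¹ * φ k)⁻¹ := by group
        _ = _ := by rw [h0]; group
    rw [e]
    exact Subgroup.mul_mem _ (Subgroup.mul_mem _ (Subgroup.inv_mem _ (hmem _ hsA')) (hmem _ hk1'))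
      (Subgroup.inv_mem _ (Subgroup.mul_mem _ (Subgroup.inv_mem _ (hmem _ hsA)) (hmem _ hk1)))
  have h6 : φ (s'⁻¹ * s) = (s'⁻¹ * s) * φ k * (φ k')⁻¹ := by
    rw [map_mul, map_inv]
    have e : (φ s')⁻¹ = (s'⁻¹ * s) * (φ s)⁻¹ * φ k * (φ k')⁻¹ := by
      calc (φ s')⁻¹ = s'⁻¹ * (s' * (φ s')⁻¹ * φ k') * (φ k')⁻¹ := by group
        _ = _ := by rw [← h0]; group
    rw [e]
    have c1 : (φ k * (φ k')⁻¹) * φ s = φ s * (φ k * (φ k')⁻¹) :=
      hA₁ _ (Subgroup.mul_mem _ (hmem _ hk1) (Subgroup.inv_mem _ (hmem _ hk1'))) _ (hmem _ hsA)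
    calc (s'⁻¹ * s) * (φ s)⁻¹ * φ k * (φ k')⁻¹ * φ s = (s'⁻¹ * s) * (φ s)⁻¹ * ((φ k * (φ k')⁻¹) * φ s) := by group
      _ = _ := by rw [c1]; group
  have hK : s'⁻¹ * s ∈ K := by
    refine ⟨A.mul_mem (A.inv_mem hsA') hsA, ?_, ?_⟩
    · rw [(show Commute s'⁻¹ s from hA _ (A.inv_mem hsA') _ hsA).mul_pow, inv_pow, hsp, hsp', inv_one, one_mul]
    · rw [h6]; exact A.mul_mem (A.mul_mem (A.mul_mem (A.inv_mem hsA') hsA) hk3) (A.inv_mem hk3')
  have hsame : s = s' := by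
    have hq : (QuotientGroup.mk (a : G) : G ⧸ K) = QuotientGroup.mk (a' : G) := by
      rw [← QuotientGroup.out_eq' (QuotientGroup.mk (a : G) : G ⧸ K), ← QuotientGroup.out_eq' (QuotientGroup.mk (a' : G) : G ⧸ K)]
      exact (QuotientGroup.eq.mpr hK).symm
    rw [hs, hs']
    show (QuotientGroup.mk (a : G) : G ⧸ K).out = (QuotientGroup.mk (a' : G) : G ⧸ K).out
    rw [hq]
  rw [hk, hk', ← hsame, mul_right_inj] at h0
  exact Subtype.ext (mul_left_cancel (φ.injective h0))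


/-- A replacement Theorem for abelian subgroups of p-groups, p odd. Let G be a finite p-group with p odd, A an abelian subgroup of G, and B a subgroup of nilpotency class at most 2 with [B, B] ≤ A, such that A normalizes B but B does not normalize A. Then there is an abelian subgroup A* of G of the same order as A with A ∩ B strictly contained in A* ∩ B, A* contained in N_G(A) and in the normal closure of A, the exponent of A* dividing the exponent of A, and with the subgroup generated by the elements of order dividing p in A of order at most that of the corresponding subgroup of A* (the rank of A is at most the rank of A*). -/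
theorem result {G : Type*} [Group G] [Finite G] {p : ℕ} [Fact p.Prime] (hp : p ≠ 2) (hG : IsPGroup p G) (A B : Subgroup G) (hA : IsMulCommutative A) (hB2 : ⁅⁅B, B⁆, B⁆ = ⊥) (hBA : ⁅B, B⁆ ≤ A) (hAB : A ≤ Subgroup.normalizer (B : Set G)) (hBnA : ¬ B ≤ Subgroup.normalizer (A : Set G)) : ∃ Astar : Subgroup G, IsMulCommutative Astar ∧ Nat.card Astar = Nat.card A ∧ A ⊓ B < Astar ⊓ B ∧ Astar ≤ Subgroup.normalizer (A : Set G) ∧ Astar ≤ Subgroup.normalClosure (A : Set G) ∧ Monoid.exponent Astar ∣ Monoid.exponent A ∧ Nat.card (Cfsg.omegaOne p A) ≤ Nat.card (Cfsg.omegaOne p Astar) := by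
  classical
  set H := A ⊔ B with hH
  have hAH : A ≤ H := le_sup_left
  have hBH : B ≤ H := le_sup_right
  have hHB : H ≤ Subgroup.normalizer (B : Set G) := sup_le hAB Subgroup.le_normalizer
  haveI : (B.subgroupOf H).Normal := Subgroup.normal_subgroupOf_of_le_normalizer hHB
  set A' := A.subgroupOf H with hA'
  set B' := B.subgroupOf H with hB'
  have hcA : ∀ u ∈ A, ∀ v ∈ A, u * v = v * u := fun u hu v hv =>
    congrArg Subtype.val (mul_comm' (⟨u, hu⟩ : ↥A) ⟨v, hv⟩)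
  have hcA' : IsMulCommutative ↥A' := ⟨⟨fun u v => Subtype.ext (Subtype.ext (hcA _ u.2 _ v.2))⟩⟩
  have hBA' : ⁅B', B'⁆ ≤ A' := by
    rw [Subgroup.commutator_le]
    intro u hu v hv
    exact hBA (Subgroup.commutator_mem_commutator hu hv)
  have hnot : ¬ B' ≤ Subgroup.normalizer (A' : Set ↥H) := by
    intro h
    refine hBnA fun y hy => Subgroup.mem_normalizer_fintype fun a ha => ?_
    exact (Subgroup.mem_normalizer_iff.mp (h (show (⟨y, hBH hy⟩ : ↥H) ∈ B' from hy)) ⟨a, hAH ha⟩).mp ha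
  obtain ⟨b, hb, hbN, hbA⟩ := Cfsg.Agent.PLocal.exists_replacement_element (hG.to_subgroup H) B' A' hnot
  obtain ⟨hc, hcomm, -, hlt, -, -, hMN, -, -, hexp⟩ :=
    Cfsg.Agent.PLocal.replacement_spec (hG.to_subgroup H) B' (fun h => absurd h hp) A' hcA' hBA' b hb hbN hbA
  set M := Cfsg.Agent.PLocal.replacement A' b with hM
  have hAA : A'.map H.subtype = A := by rw [hA', Subgroup.map_subgroupOf_eq_of_le hAH]
  have hBB : B'.map H.subtype = B := by rw [hB', Subgroup.map_subgroupOf_eq_of_le hBH]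
  have hMc : ∀ u ∈ M, ∀ v ∈ M, u * v = v * u := fun u hu v hv =>
    congrArg Subtype.val (hcomm.is_comm.comm ⟨u, hu⟩ ⟨v, hv⟩)
  refine ⟨M.map H.subtype, ?_, ?_, ?_, ?_, ?_, ?_, ?_⟩
  · refine ⟨⟨fun u v => Subtype.ext ?_⟩⟩
    obtain ⟨u', hu', hu''⟩ := u.2
    obtain ⟨v', hv', hv''⟩ := v.2
    show (u : G) * v = v * u
    rw [← hu'', ← hv'', ← map_mul, ← map_mul, hMc u' hu' v' hv']
  · rw [Subgroup.card_map_of_injective H.subtype_injective, hc, Cfsg.Agent.Core.card_subgroupOf hAH]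
  · have := Subgroup.map_lt_map_iff_of_injective H.subtype_injective |>.mpr hlt
    rwa [Subgroup.map_inf _ _ _ H.subtype_injective, Subgroup.map_inf _ _ _ H.subtype_injective, hAA, hBB] at this
  · rintro _ ⟨m, hm, rfl⟩
    refine Subgroup.mem_normalizer_fintype fun a ha => ?_
    exact (Subgroup.mem_normalizer_iff.mp (hMN hm) ⟨a, hAH ha⟩).mp ha
  · rw [Subgroup.map_le_iff_le_comap, hM]
    haveI : ((Subgroup.normalClosure (A : Set G)).comap H.subtype).Normal := by infer_instance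
    exact Cfsg.Agent.PLocal.replacement_le (D := (Subgroup.normalClosure (A : Set G)).comap H.subtype) (A := A') (fun a ha => Subgroup.subset_normalClosure (show (a : G) ∈ (A : Set G) from ha)) b
  · rw [← Monoid.exponent_eq_of_mulEquiv (M.equivMapOfInjective H.subtype H.subtype_injective),
      ← Monoid.exponent_eq_of_mulEquiv (Subgroup.subgroupOfEquivOfLe hAH)]
    exact hexp hp
  · have homega : ∀ X : Subgroup G, (∀ u ∈ X, ∀ v ∈ X, u * v = v * u) →
        Nat.card ↥(Cfsg.omegaOne p X) = Nat.card {a : G // a ∈ X ∧ a ^ p = 1} := by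
      intro X hX
      refine Nat.card_congr (Equiv.subtypeEquivRight fun a => ⟨fun ha => ?_, fun ha => Subgroup.subset_closure ha⟩)
      refine Subgroup.closure_induction (p := fun y _ => y ∈ X ∧ y ^ p = 1) (fun y hy => hy) ⟨one_mem X, one_pow p⟩ ?_ ?_ ha
      · intro u v _ _ hu hv
        exact ⟨X.mul_mem hu.1 hv.1, by rw [(show Commute u v from hX u hu.1 v hv.1).mul_pow, hu.2, hv.2, one_mul]⟩
      · intro u _ hu
        exact ⟨X.inv_mem hu.1, by rw [inv_pow, hu.2, inv_one]⟩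
    have hX : ∀ X : Subgroup ↥H, Nat.card {a : G // a ∈ X.map H.subtype ∧ a ^ p = 1} = Nat.card {a : ↥H // a ∈ X ∧ a ^ p = 1} := by
      intro X
      refine (Nat.card_congr (Equiv.ofBijective (fun a : {a : ↥H // a ∈ X ∧ a ^ p = 1} =>
        (⟨(a.1 : G), ⟨a.1, a.2.1, rfl⟩, by rw [← Subgroup.coe_pow, a.2.2, Subgroup.coe_one]⟩ : {a : G // a ∈ X.map H.subtype ∧ a ^ p = 1})) ⟨?_, ?_⟩)).symm
      · intro u v h
        exact Subtype.ext (Subtype.ext (congrArg (fun t => ((t : {a : G // a ∈ X.map H.subtype ∧ a ^ p = 1}) : G)) h :))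
      · rintro ⟨_, ⟨u, hu, rfl⟩, hp'⟩
        exact ⟨⟨u, hu, Subtype.ext hp'⟩, rfl⟩
    rw [homega A hcA, homega (M.map H.subtype) (by
      rintro _ ⟨u, hu, rfl⟩ _ ⟨v, hv, rfl⟩
      rw [← map_mul, ← map_mul, hMc u hu v hv]), hX M, ← hAA, hX A']
    exact omega_card hp A' (fun u hu v hv => congrArg Subtype.val (hcA'.is_comm.comm ⟨u, hu⟩ ⟨v, hv⟩)) b hbN M hMc hM


end Cfsg.Agent.S3078
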