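import Cfsg.Statements.S3086
import Cfsg.Agent.LocalEven.OffenderMain

set_option autoImplicit false
open Cfsg

namespace Cfsg.Agent.S3086

/-- The P(G,V)-theorem. Let p be a prime, G a finite group acting faithfully and linearly on a finite vector space V over the field with p elements, and A a nontrivial elementary abelian p-subgroup of G such that |A|·|C_V(A)| ≥ |B|·|C_V(B)| for every subgroup B of A. Then A normalizes every component (subnormal quasisimple subgroup) of G. -/
theorem result {G V : Type*} [Group G] [Finite G] [AddCommGroup V] [Finite V] (p : ℕ) [Fact p.Prime] [Module (ZMod p) V]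
    (ρ : Representation (ZMod p) G V) (hρ : Function.Injective ρ)
    (A : Subgroup G) (hA : A ≠ ⊥) (hAel : Cfsg.IsElementaryAbelian p A)
    (hP : ∀ B : Subgroup G, B ≤ A →
      Nat.card ↥B * Nat.card {v : V // ∀ b ∈ B, ρ b v = v} ≤ Nat.card ↥A * Nat.card {v : V // ∀ a ∈ A, ρ a v = v}) :
    ∀ K : Subgroup G, Cfsg.IsComponent K → A ≤ Subgroup.normalizer (K : Set G) := by
  intro K hK a ha
  by_contra haN
  set H := A ⊔ K with hH
  have hAH : A ≤ H := le_sup_left
  have hKH : K ≤ H := le_sup_right
  let A' := A.subgroupOf H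
  let K' := K.subgroupOf H
  let ρ' : Representation (ZMod p) ↥H V := (ρ : G →* _).comp H.subtype
  obtain ⟨hAc, hAe⟩ := hAel
  have hq : Cfsg.IsQuasisimple ↥K' := (Components.isComponent_subgroupOf hK hKH).2
  have hnorm : ∀ x : ↥H, x ∈ A' → x ∉ Subgroup.normalizer (K' : Set ↥H) → (x : G) ∉ Subgroup.normalizer (K : Set G) := by
    intro x _ hx hxG
    refine hx (Subgroup.mem_normalizer_iff.mpr fun y => ?_)
    exact Subgroup.mem_normalizer_iff.mp hxG (y : G)
  have hS : LocalEven.Offender.Setup ρ' A' K' := by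
    refine ⟨fun x hx y hy => Subtype.ext (congrArg Subtype.val (hAc.is_comm.comm ⟨(x : G), hx⟩ ⟨(y : G), hy⟩) :),
      fun x hx => Subtype.ext (hAe (x : G) hx), hq, fun x hxA hxN g hg l hl => Subtype.ext ?_, ?_, ?_⟩
    · show (g : G) * ((x : G) * l * (x : G)⁻¹) = (x : G) * l * (x : G)⁻¹ * g
      have hne : K.map (MulAut.conj (x : G)).toMonoidHom ≠ K := fun h => hnorm x hxA hxN (by
        refine Subgroup.mem_normalizer_fintype fun n hn => ?_
        exact h ▸ Subgroup.mem_map.mpr ⟨n, hn, rfl⟩)
      have h1 := Components.components_commute_le (Components.isComponent_conj hK (x : G)) hK hne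
      exact Subgroup.mem_centralizer_iff.mp (h1 (Subgroup.mem_map.mpr ⟨(l : G), hl, rfl⟩)) (g : G) hg
    · rw [← Subgroup.subgroupOf_sup hAH hKH, Subgroup.subgroupOf_self]
    · by_contra hnm
      obtain ⟨g, hg, l, hl, hgl⟩ := LocalEven.Offender.exists_noncentral hq
      refine hgl ?_
      have h1 : ∀ k ∈ K', k = 1 := fun k hk => Subtype.ext (hρ (by
        by_contra hne
        exact hnm ⟨k, hk, fun h => hne (h.trans (map_one ρ).symm)⟩))
      rw [h1 g hg, h1 l hl]
  have hmax : LocalEven.Offender.IsMax ρ' A' := by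
    intro B hB
    have hfx : ∀ B : Subgroup ↥H, Nat.card (LocalEven.Offender.fx ρ' B) =
        Nat.card {v : V // ∀ b ∈ B.map H.subtype, ρ b v = v} := fun B => Nat.card_congr
      { toFun := fun v => ⟨(v : V), fun b hb => by obtain ⟨c, hc, rfl⟩ := Subgroup.mem_map.mp hb; exact v.2 c hc⟩
        invFun := fun v => ⟨(v : V), fun c hc => v.2 c (Subgroup.mem_map.mpr ⟨c, hc, rfl⟩)⟩
        left_inv := fun _ => rfl
        right_inv := fun _ => rfl }
    have hA' : A'.map H.subtype = A := Subgroup.map_subgroupOf_eq_of_le hAH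
    rw [hfx, hfx, hA', Nat.card_congr (B.equivMapOfInjective _ H.subtype_injective).toEquiv,
      Nat.card_congr (Subgroup.subgroupOfEquivOfLe hAH).toEquiv]
    exact hP _ (hA' ▸ Subgroup.map_mono hB)
  have hres := LocalEven.Offender.main (Nat.card V) ρ' rfl hS hmax (show (⟨a, hAH ha⟩ : ↥H) ∈ A' from ha)
  refine haN (Subgroup.mem_normalizer_fintype fun n hn => ?_)
  exact (Subgroup.mem_normalizer_iff.mp hres ⟨n, hKH hn⟩).mp hn


end Cfsg.Agent.S3086
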