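import Cfsg.Statements.S3087
import Cfsg.Agent.Core.Cores

set_option autoImplicit false
open Cfsg

namespace Cfsg.Agent.S3087

/-- Let p be a prime, G a finite group acting linearly on a finite vector space V over the field with p elements, W a G-invariant subspace, and A a subgroup of G with |A|·|C_V(A)| ≥ |B|·|C_V(B)| for every subgroup B of A. Then |A|·|C_W(A)| ≥ |B|·|C_W(B)| for every subgroup B of A that contains C_A(W); that is, the image of A in the group induced on W satisfies the same maximality condition. -/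
theorem result {G V : Type*} [Group G] [Finite G] [AddCommGroup V] [Finite V] (p : ℕ) [Fact p.Prime] [Module (ZMod p) V]
    (ρ : Representation (ZMod p) G V) (W : Submodule (ZMod p) V) (hW : ∀ g : G, ∀ w ∈ W, ρ g w ∈ W)
    (A : Subgroup G)
    (hP : ∀ B : Subgroup G, B ≤ A →
      Nat.card ↥B * Nat.card {v : V // ∀ b ∈ B, ρ b v = v} ≤ Nat.card ↥A * Nat.card {v : V // ∀ a ∈ A, ρ a v = v})
    (B : Subgroup G) (hBA : B ≤ A) (hCB : ∀ a ∈ A, (∀ w ∈ W, ρ a w = w) → a ∈ B) :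
    Nat.card ↥B * Nat.card {w : W // ∀ b ∈ B, ρ b w = w} ≤ Nat.card ↥A * Nat.card {w : W // ∀ a ∈ A, ρ a w = w} := by
  classical
  let fx : Subgroup G → Subgroup (Multiplicative V) := fun C =>
    { carrier := {v | ∀ c ∈ C, ρ c v.toAdd = v.toAdd}
      one_mem' := fun c _ => by simp
      mul_mem' := fun {u v} hu hv c hc => by
        show ρ c (u.toAdd + v.toAdd) = u.toAdd + v.toAdd
        rw [map_add, hu c hc, hv c hc]
      inv_mem' := fun {u} hu c hc => by
        show ρ c (-u.toAdd) = -u.toAdd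
        rw [map_neg, hu c hc] }
  let W' : Subgroup (Multiplicative V) := AddSubgroup.toSubgroup W.toAddSubgroup
  have e1 : ∀ C, Nat.card {v : V // ∀ c ∈ C, ρ c v = v} = Nat.card ↥(fx C) := fun C =>
    Nat.card_congr ⟨fun v => ⟨Multiplicative.ofAdd v.1, v.2⟩, fun v => ⟨v.1.toAdd, v.2⟩,
      fun _ => rfl, fun _ => rfl⟩
  have e2 : ∀ C, Nat.card {w : W // ∀ c ∈ C, ρ c w = w} = Nat.card ↥(W' ⊓ fx C) := fun C =>
    Nat.card_congr ⟨fun v => ⟨Multiplicative.ofAdd (v.1 : V), v.1.2, v.2⟩,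
      fun v => ⟨⟨v.1.toAdd, v.2.1⟩, v.2.2⟩, fun _ => rfl, fun _ => rfl⟩
  have h := hP B hBA
  rw [e1, e1] at h
  rw [e2, e2]
  set X := fx A
  set Y := fx B
  have hXY : X ≤ Y := fun v hv c hc => hv c (hBA hc)
  -- the fixed points of `A` and those of `B` in `W` generate part of the fixed points of `B`
  have hk : Nat.card ↥(W' ⊓ Y) * Nat.card ↥X ≤ Nat.card ↥(W' ⊓ X) * Nat.card ↥Y := by
    have hi : (W' ⊓ Y) ⊓ X = W' ⊓ X := by rw [inf_assoc, inf_eq_right.mpr hXY]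
    have hn : X ≤ Subgroup.normalizer ((W' ⊓ Y : Subgroup (Multiplicative V)) : Set _) := by
      rw [Subgroup.normalizer_eq_top]; exact le_top
    have h1 := Cfsg.Agent.Core.card_mul_relIndex (inf_le_left : (W' ⊓ Y) ⊓ X ≤ W' ⊓ Y)
    rw [hi] at h1
    have h2 : (W' ⊓ X).relIndex (W' ⊓ Y) * Nat.card ↥X ≤ Nat.card ↥Y := by
      rw [← hi, Subgroup.inf_relIndex_left, ← Subgroup.relIndex_sup_right,
        mul_comm]
      refine (Cfsg.Agent.Core.card_mul_relIndex le_sup_right).le.trans ?_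
      exact Subgroup.card_le_of_le (sup_le inf_le_right hXY)
    calc Nat.card ↥(W' ⊓ Y) * Nat.card ↥X
        = Nat.card ↥(W' ⊓ X) * ((W' ⊓ X).relIndex (W' ⊓ Y) * Nat.card ↥X) := by rw [← h1]; ring
      _ ≤ _ := Nat.mul_le_mul_left _ h2
  have hpos : 0 < Nat.card ↥X := Nat.card_pos
  have : Nat.card ↥B * Nat.card ↥(W' ⊓ Y) * Nat.card ↥X ≤ Nat.card ↥A * Nat.card ↥(W' ⊓ X) * Nat.card ↥X := by
    calc Nat.card ↥B * Nat.card ↥(W' ⊓ Y) * Nat.card ↥X
        = Nat.card ↥B * (Nat.card ↥(W' ⊓ Y) * Nat.card ↥X) := mul_assoc _ _ _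
      _ ≤ Nat.card ↥B * (Nat.card ↥(W' ⊓ X) * Nat.card ↥Y) := Nat.mul_le_mul_left _ hk
      _ = Nat.card ↥(W' ⊓ X) * (Nat.card ↥B * Nat.card ↥Y) := by ring
      _ ≤ Nat.card ↥(W' ⊓ X) * (Nat.card ↥A * Nat.card ↥X) := Nat.mul_le_mul_left _ h
      _ = _ := by ring
  exact Nat.le_of_mul_le_mul_right this hpos


end Cfsg.Agent.S3087
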