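import Cfsg.Statements.S3153
import Cfsg.Agent.Components.PComponent
import Cfsg.Agent.Components.Standard
import Cfsg.Agent.Components.Signalizer
import Cfsg.Agent.Components.BenderLemma
import Cfsg.Agent.PLocal.ElemAb

set_option autoImplicit false
open Cfsg

namespace Cfsg.Agent.S3153

/-- Let X be a finite group and P a standard subgroup of X whose centralizer has 2-rank at most 1 and whose centre has odd order. Let S be a Sylow 2-subgroup of N_X(P) and t an involution of S centralizing P. Suppose some element g of X normalizes S, does not lie in S, has its square in S, and conjugates t into P·C_X(P). Then P commutes elementwise with the largest normal odd-order subgroup O(X) of X; consequently every t-invariant 2-component of X containing P is quasisimple. -/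
theorem result {X : Type*} [Group X] [Finite X] (P : Subgroup X) (hP : Cfsg.IsStandardSubgroup P)
    (hr : Cfsg.PRankLE 2 1 ↥(Subgroup.centralizer (P : Set X))) (hZ : Odd (Nat.card ↥(Subgroup.center ↥P)))
    (S : Sylow 2 ↥(Subgroup.normalizer (P : Set X))) (t : X) (ht : orderOf t = 2) (htS : t ∈ (S : Subgroup ↥(Subgroup.normalizer (P : Set X))).map (Subgroup.normalizer (P : Set X)).subtype)
    (htP : t ∈ Subgroup.centralizer (P : Set X))
    (g : X) (hgN : ∀ s ∈ (S : Subgroup ↥(Subgroup.normalizer (P : Set X))).map (Subgroup.normalizer (P : Set X)).subtype, g * s * g⁻¹ ∈ (S : Subgroup ↥(Subgroup.normalizer (P : Set X))).map (Subgroup.normalizer (P : Set X)).subtype)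
    (hgS : g ∉ (S : Subgroup ↥(Subgroup.normalizer (P : Set X))).map (Subgroup.normalizer (P : Set X)).subtype) (hg2 : g ^ 2 ∈ (S : Subgroup ↥(Subgroup.normalizer (P : Set X))).map (Subgroup.normalizer (P : Set X)).subtype)
    (hgt : g * t * g⁻¹ ∈ P ⊔ Subgroup.centralizer (P : Set X)) :
    ⁅P, Cfsg.oddCore X⁆ = ⊥ ∧
      ∀ L : Subgroup X, Cfsg.IsPComponent 2 L → P ≤ L → (∀ l ∈ L, t * l * t⁻¹ ∈ L) → Cfsg.IsQuasisimple ↥L :=by
  haveI : Fact (Nat.Prime 2) := ⟨Nat.prime_two⟩
  classical
  open Components in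
  set CP := Subgroup.centralizer (P : Set X) with hCP
  set S' := (S : Subgroup ↥(Subgroup.normalizer (P : Set X))).map (Subgroup.normalizer (P : Set X)).subtype with hS'
  set O := Cfsg.oddCore X with hO
  haveI : O.Normal := inferInstanceAs (Cfsg.pPrimeCore 2 X).Normal
  have hOc : (Nat.card ↥O).Coprime 2 := Core.card_pPrimeCore_coprime 2 X
  obtain ⟨hq, htight, -, hnorm⟩ := hP
  have hperf : ⁅P, P⁆ = P := by
    have := congrArg (Subgroup.map P.subtype) hq.1.commutator_eq_top
    rwa [Subgroup.map_subtype_commutator, ← MonoidHom.range_eq_map, Subgroup.range_subtype] at this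
  have hS'N : S' ≤ (Subgroup.normalizer (P : Set X)) := Subgroup.map_subtype_le _
  have htN : t ∈ (Subgroup.normalizer (P : Set X)) := hS'N htS
  have ht2 : t * t = 1 := by rw [← pow_two, ← ht, pow_orderOf_eq_one]
  have htc : ∀ v ∈ P, v * t = t * v := Subgroup.mem_centralizer_iff.mp htP
  -- centralizers of involutions of `C(P)` normalize `P`
  have hinv : ∀ u : X, orderOf u = 2 → u ∈ CP → Subgroup.centralizer ({u} : Set X) ≤ (Subgroup.normalizer (P : Set X)) := by
    intro u hu huC h hh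
    rw [hnorm]
    by_contra hh'
    have h1 := htight.2 h hh'
    have h2 : u ∈ CP ⊓ CP.map (MulAut.conj h).toMonoidHom :=
      ⟨huC, u, huC, show h * u * h⁻¹ = u by
        rw [Subgroup.mem_centralizer_singleton_iff.mp hh, mul_inv_cancel_right]⟩
    exact Nat.not_even_iff_odd.mpr h1 (even_iff_two_dvd.mpr (hu ▸ Subgroup.orderOf_dvd_natCard _ h2))
  -- the only involution of `C(P)` commuting with `t` is `t`
  have hone : ∀ c ∈ CP, c * c = 1 → c * t = t * c → c = 1 ∨ c = t := by
    intro c hc hc2 hct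
    have hE : Cfsg.IsElementaryAbelian 2 (Subgroup.zpowers c ⊔ Subgroup.zpowers t : Subgroup X) := by
      refine PLocal.isEA_sup (PLocal.isEA_zpowers (by rw [pow_two, hc2]))
        (PLocal.isEA_zpowers (by rw [pow_two, ht2])) ?_
      rintro _ ⟨i, rfl⟩ _ ⟨j, rfl⟩
      exact ((show Commute c t from hct).zpow_zpow i j).symm
    have hle : (Subgroup.zpowers c ⊔ Subgroup.zpowers t : Subgroup X) ≤ CP :=
      sup_le (Subgroup.zpowers_le.mpr hc) (Subgroup.zpowers_le.mpr htP)
    have hEA := PLocal.isEA_comap hE CP.subtype CP.subtype_injective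
    have h1 := hr _ hEA.1 hEA.2
    rw [show (Subgroup.zpowers c ⊔ Subgroup.zpowers t).comap CP.subtype =
      (Subgroup.zpowers c ⊔ Subgroup.zpowers t).subgroupOf CP from rfl,
      Nat.card_congr (Subgroup.subgroupOfEquivOfLe hle).toEquiv, pow_one] at h1
    have e : Subgroup.zpowers t = Subgroup.zpowers c ⊔ Subgroup.zpowers t :=
      Subgroup.eq_of_le_of_card_ge le_sup_right (by rw [Nat.card_zpowers, ht]; exact h1)
    obtain ⟨i, rfl⟩ : c ∈ Subgroup.zpowers t := e ▸ Subgroup.mem_sup_left (Subgroup.mem_zpowers c)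
    rcases Int.emod_two_eq_zero_or_one i with hi | hi
    · left
      show t ^ i = 1
      rw [← zpow_mod_orderOf, ht, show i % ((2 : ℕ) : ℤ) = 0 from hi, zpow_zero]
    · right
      show t ^ i = t
      rw [← zpow_mod_orderOf, ht, show i % ((2 : ℕ) : ℤ) = 1 from hi, zpow_one]
  -- `t` is central in `S'`
  have hSP : IsPGroup 2 ↥S' := S.isPGroup'.map _
  have htcen : ∀ s ∈ S', s * t = t * s := by
    intro s hs
    set Q := S' ⊓ CP with hQ
    have hQp : IsPGroup 2 ↥Q := hSP.to_le inf_le_left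
    haveI : Nontrivial ↥Q := Q.nontrivial_iff_ne_bot.mpr fun h => by
      have : t = 1 := Subgroup.mem_bot.mp (h ▸ (show t ∈ Q from ⟨htS, htP⟩))
      rw [this, orderOf_one] at ht
      omega
    haveI := hQp.center_nontrivial
    obtain ⟨m, hm⟩ := (hQp.to_subgroup (Subgroup.center ↥Q)).exists_card_eq
    have hdvd : 2 ∣ Nat.card ↥(Subgroup.center ↥Q) := by
      rw [hm]
      refine dvd_pow_self 2 fun h => ?_
      rw [h, pow_zero] at hm
      exact absurd hm (Finite.one_lt_card.ne')
    obtain ⟨z, hz⟩ := exists_prime_orderOf_dvd_card' 2 hdvd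
    have hz' : orderOf (((z : ↥Q) : X)) = 2 := by rw [Subgroup.orderOf_coe, Subgroup.orderOf_coe, hz]
    have hcz : ∀ v ∈ Q, ((z : ↥Q) : X) * v = v * ((z : ↥Q) : X) := fun v hv =>
      (congrArg Subtype.val (Subgroup.mem_center_iff.mp z.2 ⟨v, hv⟩)).symm
    have hzt : ((z : ↥Q) : X) = t := (hone _ (z : ↥Q).2.2
      (by rw [← pow_two, ← hz', pow_orderOf_eq_one]) (hcz t ⟨htS, htP⟩)).resolve_left fun h => by
        rw [h, orderOf_one] at hz'; omega
    have hst : s * t * s⁻¹ ∈ Q := ⟨Subgroup.mul_mem _ (Subgroup.mul_mem _ hs htS) (Subgroup.inv_mem _ hs),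
      (Subgroup.mem_normalizer_iff.mp (mem_normalizer_centralizer (hS'N hs)) t).mp htP⟩
    have h2 := hcz _ hst
    rw [hzt] at h2
    rcases hone _ hst.2 (by rw [show s * t * s⁻¹ * (s * t * s⁻¹) = s * (t * t) * s⁻¹ by group, ht2]; group)
        h2.symm with h | h
    · exfalso
      have : t = 1 := by
        calc t = s⁻¹ * (s * t * s⁻¹) * s := by group
          _ = 1 := by rw [h]; group
      rw [this, orderOf_one] at ht
      omega
    · rwa [mul_inv_eq_iff_eq_mul] at h
  set t' := g * t * g⁻¹ with ht'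
  have ht'S : t' ∈ S' := hgN t htS
  have ht'2 : t' * t' = 1 := by rw [ht', show g * t * g⁻¹ * (g * t * g⁻¹) = g * (t * t) * g⁻¹ by group, ht2]; group
  have htt' : Commute t t' := (htcen t' ht'S).symm
  have hgg : g * t' * g⁻¹ = t := by
    rw [ht', show g * (g * t * g⁻¹) * g⁻¹ = g ^ 2 * t * (g ^ 2)⁻¹ by rw [pow_two]; group, htcen _ hg2,
      mul_inv_cancel_right]
  -- `t' ≠ t`
  have hne : t' ≠ t := by
    intro h
    have hgC : g ∈ Subgroup.centralizer ({t} : Set X) := by
      rw [Subgroup.mem_centralizer_singleton_iff]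
      rw [ht', mul_inv_eq_iff_eq_mul] at h
      exact h
    set g' : ↥(Subgroup.normalizer (P : Set X)) := ⟨g, hinv t ht htP hgC⟩
    have hg'N : Subgroup.zpowers g' ≤ Subgroup.normalizer ((S : Subgroup ↥(Subgroup.normalizer (P : Set X))) : Set ↥(Subgroup.normalizer (P : Set X))) := by
      refine Subgroup.zpowers_le.mpr (Coprime.mem_normalizer_of_conj_mem fun s hs => ?_)
      obtain ⟨w, hw, e⟩ := hgN s ⟨s, hs, rfl⟩
      rwa [show g' * s * g'⁻¹ = w from Subtype.ext e.symm]
    have hgp : IsPGroup 2 ↥(Subgroup.zpowers g') := by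
      obtain ⟨k, hk⟩ := hSP ⟨g ^ 2, hg2⟩
      have hk' : g' ^ 2 ^ (k + 1) = 1 := Subtype.ext (show g ^ 2 ^ (k + 1) = 1 by
        rw [pow_succ', pow_mul]; exact congrArg Subtype.val hk)
      obtain ⟨j, -, hj⟩ := (Nat.dvd_prime_pow Nat.prime_two).mp (orderOf_dvd_of_pow_eq_one hk')
      exact IsPGroup.of_card (n := j) (by rw [Nat.card_zpowers, hj])
    have := S.3 (S.isPGroup'.to_sup_of_normal_left' hgp hg'N) le_sup_left
    exact hgS ⟨g', this.le (Subgroup.mem_sup_right (Subgroup.mem_zpowers g')), rfl⟩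
  have ht'1 : t' ≠ 1 := fun h => by
    have : t = 1 := by
      calc t = g⁻¹ * t' * g := by rw [ht']; group
        _ = 1 := by rw [h]; group
    rw [this, orderOf_one] at ht
    omega
  -- an involution of `P`
  obtain ⟨u, huP, hu⟩ : ∃ u ∈ P, u = t' ∨ u = t * t' := by
    have hPn : P ≤ Subgroup.normalizer (CP : Set X) := fun v hv =>
      mem_normalizer_centralizer (Subgroup.le_normalizer hv)
    have h1 : t' ∈ ((P ⊔ CP : Subgroup X) : Set X) := hgt
    rw [Subgroup.coe_mul_of_left_le_normalizer_right P CP hPn] at h1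
    obtain ⟨p, hp, c, hc, hpc'⟩ := h1
    have hpc : p * c = t' := hpc'
    have hcomm : Commute p c := Subgroup.mem_centralizer_iff.mp hc p hp
    have hsq : p ^ 2 * c ^ 2 = 1 := by rw [← hcomm.mul_pow, hpc, pow_two, ht'2]
    have hp2 : (⟨p, hp⟩ : ↥P) ^ 2 ∈ Subgroup.center ↥P := Subgroup.mem_center_iff.mpr fun v => Subtype.ext (by
      show (v : X) * p ^ 2 = p ^ 2 * v
      rw [eq_inv_of_mul_eq_one_left hsq]
      exact Subgroup.mem_centralizer_iff.mp (inv_mem (pow_mem hc 2)) v v.2)
    obtain ⟨j, hj⟩ := hZ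
    have hpm : (p ^ (2 * j + 1)) ^ 2 = 1 := by
      have h0 : orderOf ((⟨p, hp⟩ : ↥P) ^ 2) ∣ 2 * j + 1 := hj ▸ Subgroup.orderOf_dvd_natCard _ hp2
      have h3 := congrArg Subtype.val (orderOf_dvd_iff_pow_eq_one.mp h0)
      rw [← pow_mul, mul_comm, pow_mul]
      exact h3
    set p₁ := p ^ (2 * j + 1)
    set c₁ := c ^ (2 * j + 1)
    have e : p₁ * c₁ = t' := by
      rw [← hcomm.mul_pow, hpc, pow_succ, pow_mul, pow_two, ht'2, one_pow, one_mul]
    have hc1 : c₁ * c₁ = 1 := by
      have h2 : (p₁ * c₁) ^ 2 = 1 := by rw [e, pow_two, ht'2]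
      rw [((hcomm.pow_pow _ _) : Commute p₁ c₁).mul_pow, hpm, one_mul] at h2
      rw [← pow_two]; exact h2
    have hct : c₁ * t = t * c₁ := by
      have : c₁ = p₁⁻¹ * t' := by rw [← e, inv_mul_cancel_left]
      rw [this]
      exact ((show Commute p₁ t from htc _ (pow_mem hp _)).inv_left.mul_left htt'.symm).eq
    rcases hone c₁ (pow_mem hc _) hc1 hct with h | h
    · exact ⟨p₁, pow_mem hp _, Or.inl (by rw [← e, h, mul_one])⟩
    · refine ⟨p₁, pow_mem hp _, Or.inr ?_⟩
      rw [← e, h, ← mul_assoc, ← htc p₁ (pow_mem hp _), mul_assoc, ht2, mul_one]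
  have hu1 : u ≠ 1 := by
    rcases hu with rfl | rfl
    · exact ht'1
    · intro h
      exact hne (by rw [eq_inv_of_mul_eq_one_right h, inv_eq_of_mul_eq_one_right ht2])
  have hu2 : u * u = 1 := by
    rcases hu with rfl | rfl
    · exact ht'2
    · rw [show t * t' * (t * t') = t * (t' * t) * t' by group, ← htt'.eq, ← mul_assoc t t, ht2, one_mul, ht'2]
  have hPeven : 2 ∣ Nat.card ↥P := by
    have h1 : orderOf u = 2 := orderOf_eq_prime (by rw [pow_two, hu2]) hu1
    exact h1 ▸ Subgroup.orderOf_dvd_natCard _ huP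
  -- `C_O(t)` centralizes `P`
  have hOP : ∀ o ∈ O, o ∈ (Subgroup.normalizer (P : Set X)) → o ∈ CP := by
    intro o ho hoN
    have hsub : ∀ h ∈ P, h * o * h⁻¹ * o⁻¹ ∈ P ⊓ O := fun h hh => by
      refine ⟨?_, Subgroup.mul_mem _ ((inferInstance : O.Normal).conj_mem o ho h) (Subgroup.inv_mem _ ho)⟩
      rw [show h * o * h⁻¹ * o⁻¹ = h * (o * h⁻¹ * o⁻¹) by group]
      exact mul_mem hh ((Subgroup.mem_normalizer_iff.mp hoN _).mp (inv_mem hh))
    refine BenderCore.commute_of_mod_center hperf fun h hh => ⟨(hsub h hh).1, ?_⟩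
    haveI : ((P ⊓ O).subgroupOf P).Normal := ⟨fun v hv w => ⟨(w * v * w⁻¹ : ↥P).2,
      (inferInstance : O.Normal).conj_mem _ hv.2 _⟩⟩
    rcases quasisimple_normal_eq_top_or_le_center hq ((P ⊓ O).subgroupOf P) with htop | hc
    · exfalso
      have hle : P ≤ O := fun v hv => ((Subgroup.subgroupOf_eq_top.mp htop) hv).2
      exact Nat.prime_two.one_lt.ne' (Nat.eq_one_of_dvd_coprimes hOc
        (hPeven.trans (Subgroup.card_dvd_of_le hle)) dvd_rfl)
    · refine Subgroup.mem_centralizer_iff.mpr fun v hv => ?_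
      exact congrArg Subtype.val (Subgroup.mem_center_iff.mp
        (hc (show (⟨_, (hsub h hh).1⟩ : ↥P) ∈ (P ⊓ O).subgroupOf P from hsub h hh)) ⟨v, hv⟩)
  have hCt : ∀ o ∈ O, o * t = t * o → o * u = u * o := fun o ho hot =>
    (Subgroup.mem_centralizer_iff.mp (hOP o ho (hinv t ht htP (Subgroup.mem_centralizer_singleton_iff.mpr hot))) u huP).symm
  -- conjugating by `g`: `g u g⁻¹` and `C_O(t')`
  have hgu : (u = t' → g * u * g⁻¹ = t) ∧ (u = t * t' → g * u * g⁻¹ = u) := by
    refine ⟨fun h => by rw [h, hgg], fun h => ?_⟩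
    rw [h, show g * (t * t') * g⁻¹ = (g * t * g⁻¹) * (g * t' * g⁻¹) by group, ← ht', hgg, htt'.eq]
  have hCt' : ∀ o ∈ O, o * t' = t' * o → o * (g * u * g⁻¹) = (g * u * g⁻¹) * o := fun o ho hot => by
    have h1 : (g⁻¹ * o * g) * t = t * (g⁻¹ * o * g) := by
      calc g⁻¹ * o * g * t = g⁻¹ * (o * t') * g := by rw [ht']; group
        _ = g⁻¹ * (t' * o) * g := by rw [hot]
        _ = t * (g⁻¹ * o * g) := by rw [ht']; group
    have h2 := hCt (g⁻¹ * o * g) (by
      have := (inferInstance : O.Normal).conj_mem o ho g⁻¹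
      rwa [inv_inv] at this) h1
    calc o * (g * u * g⁻¹) = g * (g⁻¹ * o * g * u) * g⁻¹ := by group
      _ = g * (u * (g⁻¹ * o * g)) * g⁻¹ := by rw [h2]
      _ = g * u * g⁻¹ * o := by group
  -- `v := t u` or `u` centralizes `O`, and so does `P`
  set v := (if u = t' then t * t' else u) with hv
  have hvt : ∀ o ∈ O, o * t = t * o → o * v = v * o := fun o ho hot => by
    rw [hv]
    split_ifs with h
    · exact ((show Commute o t from hot).mul_right (h ▸ (show Commute o u from hCt o ho hot))).eq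
    · exact hCt o ho hot
  have hvt' : ∀ o ∈ O, o * t' = t' * o → o * v = v * o := fun o ho hot => by
    rw [hv]
    split_ifs with h
    · have h2 := hCt' o ho hot
      rw [hgu.1 h] at h2
      exact ((show Commute o t from h2).mul_right (show Commute o t' from hot)).eq
    · have h2 := hCt' o ho hot
      rwa [hgu.2 (hu.resolve_left h)] at h2
  have hvu : ∀ o ∈ O, o * (t * t') = (t * t') * o → o * v = v * o := fun o ho hot => by
    rw [hv]
    split_ifs with h
    · exact hot
    · rw [hu.resolve_left h]; exact hot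
  have hvO : ∀ o ∈ O, o * v = v * o := by
    set E := (Subgroup.zpowers t ⊔ Subgroup.zpowers t' : Subgroup X) with hE
    have hEA : Cfsg.IsElementaryAbelian 2 E := by
      refine PLocal.isEA_sup (PLocal.isEA_zpowers (by rw [pow_two, ht2]))
        (PLocal.isEA_zpowers (by rw [pow_two, ht'2])) ?_
      rintro _ ⟨i, rfl⟩ _ ⟨j, rfl⟩
      exact (htt'.zpow_zpow i j).symm
    have hEn : E ≤ Subgroup.normalizer (O : Set X) := fun w _ => by
      rw [Subgroup.normalizer_eq_top]; exact Subgroup.mem_top w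
    have hnd : ¬ 2 ∣ Nat.card ↥O := fun h => Nat.prime_two.one_lt.ne' (Nat.eq_one_of_dvd_coprimes hOc h dvd_rfl)
    intro o ho
    rw [le_iSup_hyperplanes hEA hnd hEn] at ho
    refine Subgroup.mem_centralizer_singleton_iff.mp
      ((iSup_le fun B => ?_ : _ ≤ Subgroup.centralizer ({v} : Set X)) ho)
    obtain ⟨B, hBE, hBi⟩ := B
    rintro w ⟨hw, hwB⟩
    rw [Subgroup.mem_centralizer_singleton_iff]
    -- a non-identity element of `B`
    obtain ⟨b, hb, hb1⟩ : ∃ b ∈ B, b ≠ 1 := by
      by_contra h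
      push Not at h
      rw [(Subgroup.eq_bot_iff_forall B).mpr h, Subgroup.relIndex_bot_left] at hBi
      have h4 : Subgroup.zpowers t = E :=
        Subgroup.eq_of_le_of_card_ge le_sup_left (by rw [Nat.card_zpowers, ht]; exact hBi)
      obtain ⟨i, hi⟩ : t' ∈ Subgroup.zpowers t := h4 ▸ Subgroup.mem_sup_right (Subgroup.mem_zpowers t')
      have hi' : t ^ i = t' := hi
      rcases Int.emod_two_eq_zero_or_one i with h5 | h5
      · exact ht'1 (by rw [← hi', ← zpow_mod_orderOf, ht, show i % ((2 : ℕ) : ℤ) = 0 from h5, zpow_zero])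
      · exact hne (by rw [← hi', ← zpow_mod_orderOf, ht, show i % ((2 : ℕ) : ℤ) = 1 from h5, zpow_one])
    have hwb : w * b = b * w := (Subgroup.mem_centralizer_iff.mp hwB b hb).symm
    have hbE := hBE hb
    rw [hE, ← SetLike.mem_coe, Subgroup.coe_mul_of_left_le_normalizer_right (Subgroup.zpowers t) (Subgroup.zpowers t')
      (Subgroup.zpowers_le.mpr (Subgroup.centralizer_le_normalizer _ (by
        rw [Subgroup.mem_centralizer_iff]
        rintro _ ⟨i, rfl⟩
        exact (htt'.zpow_right i).symm.eq)))] at hbE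
    obtain ⟨_, ⟨i, rfl⟩, _, ⟨j, rfl⟩, hbe⟩ := hbE
    have hbe' : t ^ i * t' ^ j = b := hbe
    have hm : ∀ (z : X), z * z = 1 → ∀ n : ℤ, z ^ n = 1 ∨ z ^ n = z := fun z hz n => by
      rcases Int.even_or_odd n with ⟨k, rfl⟩ | ⟨k, rfl⟩
      · left; rw [zpow_add, ← (Commute.refl z).mul_zpow, hz, one_zpow]
      · right; rw [zpow_add_one, two_mul, zpow_add, ← (Commute.refl z).mul_zpow, hz, one_zpow, one_mul]
    rcases hm t ht2 i with h1 | h1 <;> rcases hm t' ht'2 j with h2 | h2 <;> rw [h1, h2] at hbe'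
    · exact absurd (hbe'.symm.trans (one_mul 1)) hb1
    · rw [one_mul] at hbe'; exact hvt' w hw (hbe' ▸ hwb)
    · rw [mul_one] at hbe'; exact hvt w hw (hbe' ▸ hwb)
    · exact hvu w hw (hbe' ▸ hwb)
  -- `P` centralizes `O`
  have hmain : P ≤ Subgroup.centralizer (O : Set X) := by
    set K := (Subgroup.centralizer (O : Set X)).subgroupOf P with hK
    haveI hKn : K.Normal := ⟨fun k hk w => (Subgroup.mem_normalizer_iff.mp (mem_normalizer_centralizer
      (show (w : X) ∈ Subgroup.normalizer (O : Set X) by rw [Subgroup.normalizer_eq_top]; exact Subgroup.mem_top _)) _).mp hk⟩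
    rcases quasisimple_normal_eq_top_or_le_center hq K with h | h
    · exact Subgroup.subgroupOf_eq_top.mp h
    exfalso
    -- `[w, u]` centralizes `O` for every `w ∈ P`, so `u` is central modulo the centre
    have hcen : u ∈ Subgroup.centralizer (P : Set X) := by
      refine BenderCore.commute_of_mod_center hperf fun w hw => ?_
      have h1 : w * u * w⁻¹ * u⁻¹ ∈ P := mul_mem (mul_mem (mul_mem hw huP) (inv_mem hw)) (inv_mem huP)
      refine ⟨h1, Subgroup.mem_centralizer_iff.mpr fun y hy => congrArg Subtype.val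
        (Subgroup.mem_center_iff.mp (h (show (⟨_, h1⟩ : ↥P) ∈ K from ?_)) ⟨y, hy⟩)⟩
      have hvC : v ∈ Subgroup.centralizer (O : Set X) := Subgroup.mem_centralizer_iff.mpr hvO
      have hconj : w * v * w⁻¹ * v⁻¹ ∈ Subgroup.centralizer (O : Set X) :=
        mul_mem ((Subgroup.mem_normalizer_iff.mp (mem_normalizer_centralizer
          (show w ∈ Subgroup.normalizer (O : Set X) by rw [Subgroup.normalizer_eq_top]; exact Subgroup.mem_top _)) v).mp hvC) (inv_mem hvC)
      show w * u * w⁻¹ * u⁻¹ ∈ Subgroup.centralizer (O : Set X)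
      rw [hv] at hconj
      split_ifs at hconj with h'
      · rw [show w * (t * t') * w⁻¹ * (t * t')⁻¹ = (w * t) * t' * w⁻¹ * t'⁻¹ * t⁻¹ by group, htc w hw,
          show t * w * t' * w⁻¹ * t'⁻¹ * t⁻¹ = t * (w * t' * w⁻¹ * t'⁻¹) * t⁻¹ by group, ← h',
          ← htc _ h1, mul_inv_cancel_right] at hconj
        exact hconj
      · exact hconj
    have hZu : (⟨u, huP⟩ : ↥P) ∈ Subgroup.center ↥P := Subgroup.mem_center_iff.mpr fun y =>
      Subtype.ext (Subgroup.mem_centralizer_iff.mp hcen y y.2)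
    have h2 := Subgroup.orderOf_dvd_natCard _ hZu
    rw [← Subgroup.orderOf_coe, show orderOf ((⟨u, huP⟩ : ↥P) : X) = 2 from
      orderOf_eq_prime (by rw [pow_two]; exact hu2) hu1] at h2
    exact Nat.not_even_iff_odd.mpr hZ (even_iff_two_dvd.mpr h2)
  have hfirst : ⁅P, O⁆ = ⊥ := Subgroup.commutator_eq_bot_iff_le_centralizer.mpr hmain
  refine ⟨hfirst, fun L hL hPL _ => ?_⟩
  rw [pComponent_quasisimple_iff hL, Subgroup.commutator_eq_bot_iff_le_centralizer, pPrimeCore_map_subtype hL.1]
  set CL := (Subgroup.centralizer (O : Set X)).subgroupOf L with hCL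
  haveI hCLn : CL.Normal := ⟨fun k hk w => (Subgroup.mem_normalizer_iff.mp (mem_normalizer_centralizer
    (show (w : X) ∈ Subgroup.normalizer (O : Set X) by rw [Subgroup.normalizer_eq_top]; exact Subgroup.mem_top _)) _).mp hk⟩
  suffices htop : CL = ⊤ by
    exact (Subgroup.subgroupOf_eq_top.mp htop).trans (Subgroup.centralizer_le inf_le_right)
  set π := QuotientGroup.mk' (Cfsg.pPrimeCore 2 ↥L)
  rcases quasisimple_normal_eq_top_or_le_center (pComponent_quotient_quasisimple hL) (CL.map π) with h | h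
  · refine pComponent_eq_top_of_index_coprime hL CL ?_
    have hsup : CL ⊔ Cfsg.pPrimeCore 2 ↥L = ⊤ := by
      rw [sup_comm, ← QuotientGroup.comap_map_mk' _ CL, h, Subgroup.comap_top]
    refine Nat.Coprime.coprime_dvd_left ?_ (Core.card_pPrimeCore_coprime 2 ↥L)
    rw [← Subgroup.relIndex_top_right CL, ← hsup]
    exact relIndex_sup_dvd_card _ _
  · exfalso
    set P₁ := P.subgroupOf L
    have hP₁ : ⁅P₁, P₁⁆ = P₁ := by
      apply Subgroup.map_injective L.subtype_injective
      rw [Subgroup.map_commutator, Subgroup.map_subgroupOf_eq_of_le hPL, hperf]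
    have h0 : P₁.map π = ⊥ := by
      rw [← hP₁, Subgroup.map_commutator, Subgroup.commutator_eq_bot_iff_le_centralizer]
      intro a _
      rw [Subgroup.mem_centralizer_iff]
      intro b hb
      obtain ⟨b', hb', rfl⟩ := hb
      exact (Subgroup.mem_center_iff.mp (h (Subgroup.mem_map_of_mem π (show b' ∈ CL from hmain hb'))) a).symm
    have h5 : P₁ ≤ Cfsg.pPrimeCore 2 ↥L := fun a ha =>
      (QuotientGroup.eq_one_iff a).mp (Subgroup.mem_bot.mp (h0 ▸ Subgroup.mem_map_of_mem π ha))
    have h6 := Subgroup.card_dvd_of_le h5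
    rw [Nat.card_congr (Subgroup.subgroupOfEquivOfLe hPL).toEquiv] at h6
    exact Nat.prime_two.one_lt.ne' (Nat.eq_one_of_dvd_coprimes (Core.card_pPrimeCore_coprime 2 ↥L)
      (hPeven.trans h6) dvd_rfl)

end Cfsg.Agent.S3153
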