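import Cfsg.Statements.S3155
import Mathlib
-- import your own Cfsg.Agent.* helpers here

set_option autoImplicit false
open Cfsg

namespace Cfsg.Agent.S3155

/-- Let B be the direct product of three cyclic groups of order 4. Then the automorphism of B inverting every element is not the square of any automorphism of B. -/
theorem result {B : Type*} [CommGroup B] [Finite B] (hB : Nonempty (B ≃* Multiplicative (ZMod 4 × ZMod 4 × ZMod 4)))
    (τ : B ≃* B) : τ.trans τ ≠ MulEquiv.inv B := by
  haveI : Fact (1 < 4) := ⟨by decide⟩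
  intro hτ
  obtain ⟨e⟩ := hB
  let g : ZMod 4 × ZMod 4 × ZMod 4 →+ ZMod 4 × ZMod 4 × ZMod 4 :=
    MonoidHom.toAdditive ((e.toMonoidHom.comp τ.toMonoidHom).comp e.symm.toMonoidHom)
  have hg : ∀ v, g (g v) = -v := by
    intro v
    show Multiplicative.toAdd (e (τ (e.symm (Multiplicative.ofAdd (Multiplicative.toAdd
      (e (τ (e.symm (Multiplicative.ofAdd v))))))))) = -v
    rw [ofAdd_toAdd, MulEquiv.symm_apply_apply]
    have h1 : τ (τ (e.symm (Multiplicative.ofAdd v))) = (e.symm (Multiplicative.ofAdd v))⁻¹ :=
      DFunLike.congr_fun hτ _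
    rw [h1, map_inv, MulEquiv.apply_symm_apply]
    rfl
  let L := g.toZModLinearMap 4
  have hL : L.comp L = (-1 : ZMod 4) • LinearMap.id := by
    refine LinearMap.ext fun v => ?_
    show g (g v) = (-1 : ZMod 4) • v
    rw [hg, neg_one_smul]
  have hdet := congrArg LinearMap.det hL
  rw [LinearMap.det_comp, LinearMap.det_smul, LinearMap.det_id] at hdet
  have hrank : Module.finrank (ZMod 4) (ZMod 4 × ZMod 4 × ZMod 4) = 3 := by
    rw [Module.finrank_prod, Module.finrank_prod, Module.finrank_self]
  rw [hrank] at hdet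
  revert hdet
  generalize LinearMap.det L = c
  revert c
  decide

end Cfsg.Agent.S3155
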