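import Cfsg.Statements.S3156
import Cfsg.Agent.Chars.SU3SylowAut

set_option autoImplicit false
open Cfsg

namespace Cfsg.Agent.S3156

/-- If a finite group T is isomorphic to a Sylow 2-subgroup of the projective special unitary group of dimension 3 with parameter 4 (realised over the field with 16 elements), then no subgroup of the automorphism group of T is isomorphic to the symmetric group of degree 3. -/
theorem result {T : Type*} [Group T] [Finite T] (hT : (∃ (F : Type) (_ : Field F) (_ : Fintype F), Fintype.card F = 16 ∧ ∃ S : Sylow 2 (Cfsg.PSU 3 F 4), Nonempty (T ≃* ↥(S : Subgroup (Cfsg.PSU 3 F 4))))) (H : Subgroup (MulAut T)) : ¬ Nonempty (↥H ≃* Equiv.Perm (Fin 3)) := by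
  obtain ⟨F, _, _, hF16, S, ⟨e⟩⟩ := hT
  rintro ⟨ι⟩
  classical
  have hq : (4 : ℕ) = 2 ^ 2 := rfl
  have hF : Fintype.card F = 4 ^ 2 := hF16
  haveI : CharP F 2 := by
    have h : ((Fintype.card F : ℕ) : F) = 0 := Nat.cast_card_eq_zero F
    rw [hF16, show (16 : ℕ) = 2 ^ 4 from rfl, Nat.cast_pow] at h
    exact CharTwo.of_one_ne_zero_of_two_eq_zero one_ne_zero (pow_eq_zero_iff (by omega) |>.1 h)
  obtain ⟨C₀⟩ := (Cfsg.Agent.Chars.exists_coords le_rfl hq hF).2 S
  set C := C₀.congr e
  have hn1 : 1 ≤ 2 := by norm_num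
  obtain ⟨hone, hone'⟩ := C.at_one (by norm_num)
  have hsur := C.exists_alpha hn1 hq hF
  obtain ⟨hfq, hqq, -⟩ := Cfsg.Agent.Chars.fix_facts (F := F) hn1 hq hF
  set b : MulAut T := ((ι.symm (finRotate 3) : ↥H) : MulAut T) with hb
  set a : MulAut T := ((ι.symm (Equiv.swap 0 1) : ↥H) : MulAut T) with ha
  have hp : ∀ (g : Equiv.Perm (Fin 3)) (k : ℕ), g ^ k = 1 → ((ι.symm g : ↥H) : MulAut T) ^ k = 1 :=
    fun g k h => by rw [← SubmonoidClass.coe_pow, ← map_pow, h, map_one]; rfl
  have hb3 : b ^ 3 = 1 := hp _ 3 (by decide)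
  have ha2 : a ^ 2 = 1 := hp _ 2 (by decide)
  have hab : a * b * a = b ^ 2 := by
    rw [ha, hb, ← Subgroup.coe_mul, ← Subgroup.coe_mul, ← map_mul, ← map_mul,
      show Equiv.swap (0 : Fin 3) 1 * finRotate 3 * Equiv.swap 0 1 = finRotate 3 ^ 2 by decide, map_pow,
      SubmonoidClass.coe_pow]
  have hb1 : b ≠ 1 := fun h => by
    have : (ι.symm (finRotate 3) : ↥H) = 1 := Subtype.ext h
    rw [MulEquiv.map_eq_one_iff] at this
    exact absurd this (by decide)
  apply hb1
  -- `b` fixes the centre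
  have haz : ∀ x, C.α x = 0 → a x = x := by
    have haa : ∀ x, a (a x) = x := fun x => by
      rw [← MulAut.mul_apply, ← sq, ha2, MulAut.one_apply]
    exact fun x hx => C.involution_center hn1 hq hF a (fun y => by rw [haa]) (fun y _ => haa y) x hx
  obtain ⟨fv, fg, hv, hg, hgq, hN⟩ := C.exists_induced hn1 hq hF b
  have hz0 : ∀ x, C.α x = 0 → C.α (b x) = 0 := fun x hx => by rw [← hv, hx, map_zero]
  have hbb3 : ∀ x, b (b (b x)) = x := fun x => by
    rw [← MulAut.mul_apply, ← MulAut.mul_apply, ← pow_three', hb3, MulAut.one_apply]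
  have hbz : ∀ x, C.α x = 0 → b x = x := by
    intro x hx
    have h : a (b (a x)) = b (b x) := by
      rw [← MulAut.mul_apply, ← MulAut.mul_apply, hab, pow_two, MulAut.mul_apply]
    rw [haz x hx, haz _ (hz0 x hx)] at h
    have := hbb3 x
    rw [← h, ← h] at this
    exact this
  -- two fixed points among the fifth roots of unity
  have hfgid : ∀ z : F, z ^ 4 = z → fg z = z := fun z hz => by
    obtain ⟨y, hy, rfl⟩ := C.sur 0 z (by
      rw [zero_pow (by omega), hz, CharTwo.add_self_eq_zero])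
    rw [hg y hy, hbz y hy]
  have hfv3 : ∀ u, fv (fv (fv u)) = u := fun u => by
    obtain ⟨y, rfl⟩ := hsur u
    rw [hv, hv, hv, hbb3]
  have hNv : ∀ u : F, fv u ^ (4 + 1) = u ^ (4 + 1) := fun u => by
    rw [← hN, hfgid _ (by rw [pow_succ _ 4, mul_pow, hqq, mul_comm])]
  let R5 : Finset F := Finset.univ.filter fun u => u ^ 5 = 1
  have hR5 : R5.card = 5 := by
    obtain ⟨g, hg'⟩ := IsCyclic.exists_generator (α := Fˣ)
    have hord : orderOf g = 15 := by
      rw [orderOf_eq_card_of_forall_mem_zpowers hg', Nat.card_units, Nat.card_eq_fintype_card, hF16]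
    have hprim : IsPrimitiveRoot (((g ^ 3 : Fˣ)) : F) 5 := by
      rw [IsPrimitiveRoot.coe_units_iff]
      have h := IsPrimitiveRoot.orderOf (g ^ 3)
      rwa [orderOf_pow, hord] at h
    have : R5 = Polynomial.nthRootsFinset 5 (1 : F) := by
      ext u; simp [R5, Polynomial.mem_nthRootsFinset (by norm_num : 0 < 5)]
    rw [this, hprim.card_nthRootsFinset]
  let σ : Equiv.Perm {u // u ∈ R5} :=
    { toFun := fun u => ⟨fv u, by
        have := u.2
        simp only [R5, Finset.mem_filter, Finset.mem_univ, true_and] at this ⊢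
        rw [hNv]; exact this⟩
      invFun := fun u => ⟨fv (fv u), by
        have := u.2
        simp only [R5, Finset.mem_filter, Finset.mem_univ, true_and] at this ⊢
        rw [hNv, hNv]; exact this⟩
      left_inv := fun u => Subtype.ext (hfv3 u)
      right_inv := fun u => Subtype.ext (hfv3 u) }
  haveI : Fact (Nat.Prime 3) := ⟨by norm_num⟩
  have hfix := Equiv.Perm.card_compl_support_modEq (p := 3) (n := 1) (σ := σ) (by
    ext u
    simp only [pow_one, pow_three, Equiv.Perm.mul_apply, Equiv.Perm.one_apply]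
    exact hfv3 u)
  rw [Fintype.card_coe, hR5] at hfix
  have h2 : 1 < (σ.supportᶜ).card := by
    by_contra hlt
    have : (σ.supportᶜ).card = 0 ∨ (σ.supportᶜ).card = 1 := by omega
    rcases this with h | h <;> rw [h] at hfix <;> exact absurd hfix (by decide)
  obtain ⟨u, hu, u', hu', huu⟩ := Finset.one_lt_card.1 h2
  simp only [Finset.mem_compl, Equiv.Perm.mem_support, not_not] at hu hu'
  have hu5 : (u : F) ^ 5 = 1 := (Finset.mem_filter.1 u.2).2
  have hu5' : (u' : F) ^ 5 = 1 := (Finset.mem_filter.1 u'.2).2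
  have hfu : fv u = u := congrArg Subtype.val hu
  have hfu' : fv u' = u' := congrArg Subtype.val hu'
  -- the induced map on the quotient is trivial
  have hfv : ∀ v, fv v = v := by
    intro v
    have key : ∀ w : F, fv w = w → w ^ 4 * (fv v + v) + (fv v + v) ^ 4 * w = 0 := by
      intro w hw
      have h1 := hNv (w + v)
      rw [map_add, hw, pow_succ _ 4, pow_succ _ 4, hfq, hfq,
        show (w ^ 4 + fv v ^ 4) * (w + fv v) = w ^ (4 + 1) + fv v ^ (4 + 1) +
          (w ^ 4 * fv v + fv v ^ 4 * w) by ring, hNv] at h1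
      rw [hfq]
      linear_combination h1 + CharTwo.add_self_eq_zero (w ^ 4 * v + v ^ 4 * w)
    by_contra hne
    have hd : fv v + v ≠ 0 := fun h => hne (CharTwo.add_eq_zero.1 h)
    have k1 := key u hfu
    have k2 := key u' hfu'
    have h4 : (u' : F) * (u : F) ^ 4 = u * (u' : F) ^ 4 := by
      refine mul_left_cancel₀ hd ?_
      linear_combination (u' : F) * k1 - (u : F) * k2
    have hsq : (u' : F) ^ 2 = (u : F) ^ 2 := by
      linear_combination (u * u' : F) * h4 - (u' : F) ^ 2 * hu5 + (u : F) ^ 2 * hu5'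
    exact huu (Subtype.ext (CharTwo.sq_injective (show (u : F) ^ 2 = (u' : F) ^ 2 from hsq.symm)))
  -- so `b` has order two at most
  ext x
  rw [MulAut.one_apply]
  set w := x⁻¹ * b x with hw
  have hw0 : C.α w = 0 := by
    have h := C.add x w
    rw [hw, mul_inv_cancel_left, ← hv, hfv, ← hw] at h
    exact add_eq_left.1 h.symm
  have hbx : b x = x * w := by rw [hw, mul_inv_cancel_left]
  have hww : w * w = 1 := C.inj _ _ (by rw [C.add, hw0, hone, add_zero])
    (by rw [C.mul, hw0, hone', mul_zero, add_zero, CharTwo.add_self_eq_zero])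
  have h := hbb3 x
  rw [hbx, map_mul, hbz w hw0, hbx, map_mul, map_mul, hbz w hw0, hbx, mul_assoc x w w, hww,
    mul_one] at h
  rw [hbx]; exact h

end Cfsg.Agent.S3156
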