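import Cfsg.Statements.S3161
import Cfsg.Agent.LocalEven.FixedSingerModels
-- import your own Cfsg.Agent.* helpers here

set_option autoImplicit false
open Cfsg

namespace Cfsg.Agent.S3161

/-- Let Q be a non-abelian finite 2-group admitting commuting automorphisms α of order 2 and ρ of order 2^n − 1, where n ≥ 2, such that the fixed points of α form an elementary abelian subgroup of order 2^n on whose nonidentity elements the group generated by ρ acts transitively. Then Q is isomorphic to a Sylow 2-subgroup of the projective special unitary group of dimension 3 with parameter 2^n (realised over the field with 4^n elements) or of the projective special linear group of dimension 3 over the field with 2^n elements. -/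
theorem result {Q : Type*} [Group Q] [Finite Q] (hQ : IsPGroup 2 Q) (hna : ¬ IsMulCommutative Q) (n : ℕ) (hn : 2 ≤ n)
    (α ρ : MulAut Q) (hα : orderOf α = 2) (hρ : orderOf ρ = 2 ^ n - 1) (hc : Commute α ρ)
    (C : Subgroup Q) (hC : ∀ x : Q, x ∈ C ↔ α x = x) (hCE : Cfsg.IsElementaryAbelian 2 C ∧ Nat.card ↥C = 2 ^ n)
    (htr : ∀ x y : Q, x ∈ C → y ∈ C → x ≠ 1 → y ≠ 1 → ∃ k : ℕ, (ρ ^ k) x = y) :
    (∃ (F : Type) (_ : Field F) (_ : Fintype F), Fintype.card F = 4 ^ n ∧
        ∃ S : Sylow 2 (Cfsg.PSU 3 F (2 ^ n)), Nonempty (Q ≃* ↥(S : Subgroup (Cfsg.PSU 3 F (2 ^ n))))) ∨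
      (∃ (F : Type) (_ : Field F) (_ : Fintype F), Fintype.card F = 2 ^ n ∧
        ∃ S : Sylow 2 (Matrix.ProjectiveSpecialLinearGroup (Fin 3) F), Nonempty (Q ≃* ↥(S : Subgroup (Matrix.ProjectiveSpecialLinearGroup (Fin 3) F)))) := by
  classical
  haveI : Fact (Nat.Prime 2) := ⟨Nat.prime_two⟩
  obtain ⟨⟨hCab, hCexp⟩, hCcard⟩ := hCE
  have hα2 : ∀ x, α (α x) = x := fun x => by
    have h0 : α ^ 2 = 1 := by rw [← hα]; exact pow_orderOf_eq_one α
    rw [pow_two] at h0
    have := congrArg (fun g : MulAut Q => g x) h0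
    simpa using this
  have hq4 : 4 ≤ 2 ^ n := le_trans (by norm_num) (Nat.pow_le_pow_right (by norm_num) hn : 2 ^ 2 ≤ 2 ^ n)
  have hcm : ∀ (k : ℕ) (x : Q), α ((ρ ^ k) x) = (ρ ^ k) (α x) := fun k x =>
    congrArg (fun g : MulAut Q => g x) (hc.pow_right k).eq
  -- the fixed points are central
  have hQnt : Nontrivial Q := by
    by_contra h
    rw [not_nontrivial_iff_subsingleton] at h
    exact hna ⟨⟨fun a b => Subsingleton.elim _ _⟩⟩
  haveI := hQ.center_nontrivial
  obtain ⟨⟨z₀, hz₀⟩, hz₀1⟩ := exists_ne (1 : Subgroup.center Q)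
  have hz₀1' : z₀ ≠ 1 := fun e => hz₀1 (Subtype.ext e)
  have hmapc : ∀ (g : MulAut Q) {z : Q}, z ∈ Subgroup.center Q → g z ∈ Subgroup.center Q := fun g z hz =>
    Subgroup.mem_center_iff.mpr fun y => by
      rw [← g.apply_symm_apply y, ← map_mul, ← map_mul, Subgroup.mem_center_iff.mp hz]
  obtain ⟨z, hz, hz1, hzC⟩ : ∃ z ∈ Subgroup.center Q, z ≠ 1 ∧ z ∈ C := by
    by_cases h0 : α z₀ = z₀
    · exact ⟨z₀, hz₀, hz₀1', (hC z₀).mpr h0⟩
    set d := z₀⁻¹ * α z₀
    have hd1 : d ≠ 1 := fun e => h0 (inv_mul_eq_one.mp e).symm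
    obtain ⟨j, hj1, hj2⟩ : ∃ j : ℕ, d ^ 2 ^ j ≠ 1 ∧ d ^ 2 ^ j * d ^ 2 ^ j = 1 := by
      have hex : ∃ k, d ^ 2 ^ k = 1 := hQ d
      obtain ⟨j, hj⟩ := Nat.exists_eq_succ_of_ne_zero (fun e : Nat.find hex = 0 => hd1 (by
        have h := Nat.find_spec hex
        rwa [e, pow_zero, pow_one] at h))
      refine ⟨j, Nat.find_min hex (by omega), ?_⟩
      rw [← pow_two, ← pow_mul, ← pow_succ]
      have h := Nat.find_spec hex
      rwa [hj] at h
    refine ⟨d ^ 2 ^ j, pow_mem (mul_mem (inv_mem hz₀) (hmapc α hz₀)) _, hj1, (hC _).mpr ?_⟩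
    rw [map_pow, map_mul, map_inv, hα2, show (α z₀)⁻¹ * z₀ = d⁻¹ by simp [d], inv_pow,
      inv_eq_of_mul_eq_one_right hj2]
  have hcen : ∀ c ∈ C, c ∈ Subgroup.center Q := by
    intro c hc'
    by_cases hc1 : c = 1
    · rw [hc1]; exact one_mem _
    obtain ⟨k, rfl⟩ := htr z c hzC hc' hz1 hc1
    exact hmapc _ hz
  have hsq : ∀ c ∈ C, c * c = 1 := fun c hc' => by rw [← pow_two]; exact hCexp c hc'
  letI : CommGroup ↥C :=
    { (inferInstance : Group ↥C) with
      mul_comm := fun a b => Subtype.ext (Subgroup.mem_center_iff.mp (hcen _ b.2) a) }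
  letI : CommGroup ↥(Subgroup.zpowers ρ) := IsCyclic.commGroup
  have hKC : ∀ k ∈ Subgroup.zpowers ρ, ∀ c ∈ C, (k : MulAut Q) c ∈ C := by
    intro k hk c hc'
    obtain ⟨i, rfl⟩ := hk
    refine (hC _).mpr ?_
    have := congrArg (fun g : MulAut Q => g c) (hc.zpow_right i).eq
    simp only [MulAut.mul_apply] at this
    rw [this, (hC c).mp hc']
  let act : ↥(Subgroup.zpowers ρ) → Additive ↥C → Additive ↥C := fun k a =>
    Additive.ofMul ⟨(k : MulAut Q) a.toMul.1, hKC _ k.2 _ a.toMul.2⟩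
  obtain ⟨F, fF, fintF, ψ, κ, -, hψ⟩ := Cfsg.Agent.Suzuki.TwoGroup.exists_field_of_regular act
    (fun k a b => Subtype.ext (map_mul (k : MulAut Q) a.toMul.1 b.toMul.1)) (fun k l a => rfl) (fun a => rfl)
    (Additive.ofMul ⟨z, hzC⟩) (fun e => hz1 (congrArg (fun t => t.toMul.1) e)) (by
      have hmem : ∀ k : ↥(Subgroup.zpowers ρ), (⟨(k : MulAut Q) z, hKC _ k.2 _ hzC⟩ : ↥C) ≠ 1 := fun k e =>
        hz1 ((k : MulAut Q).injective (by rw [map_one]; exact congrArg Subtype.val e))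
      let f : ↥(Subgroup.zpowers ρ) → {c : ↥C // c ≠ 1} := fun k => ⟨_, hmem k⟩
      have hsurj : Function.Surjective f := by
        rintro ⟨⟨c, hc'⟩, hc1⟩
        obtain ⟨k, hk⟩ := htr z c hzC hc' hz1 (fun e => hc1 (Subtype.ext e))
        exact ⟨⟨ρ ^ k, Subgroup.npow_mem_zpowers ρ k⟩, Subtype.ext (Subtype.ext hk)⟩
      have hbij : Function.Bijective f := by
        haveI := Fintype.ofFinite ↥C
        refine hsurj.bijective_of_nat_card_le ?_
        rw [Nat.card_zpowers, hρ, ← hCcard, Nat.card_eq_fintype_card, Nat.card_eq_fintype_card,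
          Fintype.card_subtype_compl, Fintype.card_subtype_eq]
      intro a ha
      have ha' : a.toMul ≠ 1 := fun e => ha (congrArg Additive.ofMul e)
      obtain ⟨k, hk⟩ := hsurj ⟨a.toMul, ha'⟩
      refine ⟨k, congrArg (fun c => Additive.ofMul c.val) hk, fun l hl => hbij.1 ?_⟩
      rw [hk]
      exact Subtype.ext (congrArg (fun t => t.toMul) hl))
  have h2 : (1 : F) + 1 = 0 := ψ.injective (by
    rw [map_add, map_zero]
    exact Subtype.ext (hsq _ (ψ 1).toMul.2))
  haveI : CharP F 2 := CharTwo.of_one_ne_zero_of_two_eq_zero one_ne_zero (one_add_one_eq_two.symm.trans h2)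
  have hFc : Fintype.card F = 2 ^ n := by
    rw [← Nat.card_eq_fintype_card, ← hCcard]
    exact Nat.card_congr (ψ.toEquiv.trans Additive.toMul)
  have hyp : Agent.LocalEven.FixedSinger.Hyp Q F α ((Subgroup.zpowers ρ).subtype.comp κ.toMonoidHom)
      (fun a => (ψ a).toMul.1) := by
    refine ⟨hQ, fun a b => ?_, fun a b e => ψ.injective (Subtype.ext e), fun a x => ?_, fun x => ⟨fun hx => ?_, ?_⟩,
      hα2, fun k x => ?_, fun k a => ?_⟩
    · show (ψ (a + b)).toMul.1 = _
      rw [map_add]; rfl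
    · exact Subgroup.mem_center_iff.mp (hcen _ (ψ a).toMul.2) x
    · exact ⟨ψ.symm (Additive.ofMul ⟨x, (hC x).mpr hx⟩), by simp⟩
    · rintro ⟨a, rfl⟩
      exact (hC _).mp (ψ a).toMul.2
    · obtain ⟨i, hi⟩ := (κ k).2
      show α ((κ k : MulAut Q) x) = (κ k : MulAut Q) (α x)
      rw [← hi]
      exact congrArg (fun g : MulAut Q => g x) (hc.zpow_right i).eq
    · show _ = (ψ (_ * a)).toMul.1
      rw [hψ]; rfl
  have hna' : ∃ x y : Q, x * y ≠ y * x := by
    by_contra h
    push Not at h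
    exact hna ⟨⟨h⟩⟩
  have hk : ∃ c : F, c ≠ 0 ∧ c ≠ 1 := by
    by_contra h
    push Not at h
    have hsub : (Finset.univ : Finset F) ⊆ {0, 1} := fun a _ => by
      by_cases ha : a = 0
      · simp [ha]
      · simp [h a ha]
    have := (Finset.card_le_card hsub).trans Finset.card_le_two
    rw [Finset.card_univ, hFc] at this
    omega
  obtain ⟨π, A, B, C', hB, hfr⟩ := Agent.LocalEven.FixedSinger.exists_form hyp hna' hk
  exact Agent.LocalEven.FixedSinger.of_form hn hFc hB hfr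

end Cfsg.Agent.S3161
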