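import Cfsg.Statements.S3174
import Cfsg.Agent.FGS3.RudvalisType.Centre

set_option autoImplicit false
open Cfsg

namespace Cfsg.Agent.S3174

/-- Let T be a finite 2-group of order at least 2^14 in which the fourth term of the upper central series has order 16. Let W be the centralizer in T of the third term Z₃(T), and suppose the Frattini subgroup of W has order at most 8 and lies in every subgroup of W of index at most 16. Then T has order exactly 2^14; the derived subgroup of W and the Frattini subgroup of W both equal Z₃(T), which is elementary abelian of order 8; the centre of W has order 8; W is normal in T with quotient dihedral of order 8; and W modulo its derived subgroup is elementary abelian of order 2^8. -/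
theorem result {T : Type*} [Group T] [Finite T]
    (hT : IsPGroup 2 T) (ha : 2 ^ 14 ≤ Nat.card T) (hb : Nat.card ↥(Subgroup.upperCentralSeries T 4) = 16)
    (W : Subgroup T) (hW : W = Subgroup.centralizer ((Subgroup.upperCentralSeries T 3 : Subgroup T) : Set T))
    (hc : Nat.card ↥(frattini ↥W) ≤ 8) (hd : ∀ U : Subgroup ↥W, U.index ≤ 16 → frattini ↥W ≤ U) :
    Nat.card T = 2 ^ 14 ∧
      (commutator ↥W).map W.subtype = Subgroup.upperCentralSeries T 3 ∧
      (frattini ↥W).map W.subtype = Subgroup.upperCentralSeries T 3 ∧
      Nat.card ↥(Subgroup.center ↥W) = 8 ∧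
      Nat.card ↥(Subgroup.upperCentralSeries T 3) = 8 ∧ (∀ z ∈ Subgroup.upperCentralSeries T 3, z ^ 2 = 1) ∧
      (∃ (_ : W.Normal), Nonempty (T ⧸ W ≃* DihedralGroup 4)) ∧
      Nat.card (↥W ⧸ commutator ↥W) = 2 ^ 8 ∧ (∀ x : ↥W ⧸ commutator ↥W, x ^ 2 = 1) := by
  open FGS3.RudvalisType in
  have h := cond_of hT ha hb hW hc hd
  open FGS3.RudvalisType in
  obtain ⟨h14, -, h11, hΦ, -⟩ := main h
  open FGS3.RudvalisType in
  have hc3 := (card_upper h).2.2
  have hcomm : (commutator ↥W).map W.subtype = Subgroup.upperCentralSeries T 3 := by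
    rw [Subgroup.map_subtype_commutator, FGS3.RudvalisType.commutator_eq h]
  have hcard : Nat.card (commutator ↥W) = 8 := by
    rw [← Subgroup.card_map_of_injective W.subtype_injective, hcomm, hc3]
  refine ⟨h14, hcomm, hΦ, FGS3.RudvalisType.card_center h, hc3,
    fun z hz => by rw [pow_two]; exact FGS3.RudvalisType.elementary h hz,
    FGS3.RudvalisType.quotient_dihedral h, ?_, fun x => ?_⟩
  · have := Subgroup.card_eq_card_quotient_mul_card_subgroup (commutator ↥W)
    rw [h11, hcard] at this
    omega
  · obtain ⟨x, rfl⟩ := QuotientGroup.mk_surjective x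
    rw [← QuotientGroup.mk_pow, QuotientGroup.eq_one_iff, pow_two,
      ← Subgroup.mem_map_iff_mem W.subtype_injective, hcomm]
    exact FGS3.RudvalisType.sq_mem' h x.2

end Cfsg.Agent.S3174
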