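import Cfsg.Statements.S3175
import Cfsg.Agent.FGS3.RudvalisType.Fusion

set_option autoImplicit false
open Cfsg

namespace Cfsg.Agent.S3175

/-- Let G be a finite group whose Sylow 2-subgroup T has order at least 2^14 and whose upper central series has fourth term of order 16; let W be the centralizer in T of the third term, and suppose the Frattini subgroup of W has order at most 8 and lies in every subgroup of W of index at most 16. Then the normalizer of T in G has a normal 2-complement, and W is weakly closed in T with respect to G. -/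
theorem result {G : Type*} [Group G] [Finite G]
    (T : Sylow 2 G) (ha : 2 ^ 14 ≤ Nat.card ↥(T : Subgroup G))
    (hb : Nat.card ↥(Subgroup.upperCentralSeries ↥(T : Subgroup G) 4) = 16)
    (W : Subgroup ↥(T : Subgroup G))
    (hW : W = Subgroup.centralizer ((Subgroup.upperCentralSeries ↥(T : Subgroup G) 3 : Subgroup ↥(T : Subgroup G)) : Set ↥(T : Subgroup G)))
    (hc : Nat.card ↥(frattini ↥W) ≤ 8)
    (hd : ∀ U : Subgroup ↥W, U.index ≤ 16 → frattini ↥W ≤ U) :
    Cfsg.HasNormalPComplement 2 ↥(Subgroup.normalizer ((T : Subgroup G) : Set G)) ∧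
      Cfsg.IsWeaklyClosed (W.map (T : Subgroup G).subtype) (T : Subgroup G) := by
  classical
  haveI : Fact (Nat.Prime 2) := ⟨Nat.prime_two⟩
  have h := FGS3.RudvalisType.cond_of T.2 ha hb hW hc hd
  set N := Subgroup.normalizer ((T : Subgroup G) : Set G) with hN
  refine ⟨?_, Subgroup.map_subtype_le W, fun g hg => ?_⟩
  · let P : Sylow 2 N := T.subtype Subgroup.le_normalizer
    haveI : (P : Subgroup N).Normal := by
      show (((T : Subgroup G)).subgroupOf N).Normal
      exact Subgroup.normal_in_normalizer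
    obtain ⟨K, hK⟩ := Subgroup.exists_right_complement'_of_coprime P.card_coprime_index
    have hKodd : Odd (Nat.card K) := by
      rw [← (Subgroup.IsComplement'.symm hK).index_eq_card, ← Nat.coprime_two_left]
      exact Nat.prime_two.coprime_iff_not_dvd.2 P.not_dvd_index
    have hcent : ∀ k ∈ K, ∀ x ∈ (P : Subgroup N), k * x = x * k := by
      intro k hk x hx
      let kN : Subgroup.normalizer ((T : Subgroup G) : Set G) := k
      let α : MulAut (T : Subgroup G) := (T : Subgroup G).normalizerMonoidHom kN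
      have hodd : Odd (orderOf k) := by
        obtain ⟨c, hc⟩ := Subgroup.orderOf_dvd_natCard K hk
        exact (Nat.odd_mul.1 (hc ▸ hKodd)).1
      have hα : α ^ orderOf k = 1 := by
        show (Subgroup.normalizerMonoidHom (T : Subgroup G) kN) ^ orderOf k = 1
        rw [← map_pow, pow_orderOf_eq_one, map_one]
      have h1 := FGS3.RudvalisType.auto_trivial h α hodd hα ⟨(x : G), hx⟩
      have h2 : (k : G) * x * (k : G)⁻¹ = x := congrArg Subtype.val h1
      exact Subtype.ext (mul_inv_eq_iff_eq_mul.1 h2)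
    refine ⟨P, K, ?_, Subgroup.IsComplement'.symm hK⟩
    constructor
    intro k hk n
    obtain ⟨⟨⟨p, hp⟩, ⟨k', hk'⟩⟩, rfl⟩ := hK.2 n
    have e : k' * k * k'⁻¹ ∈ K := K.mul_mem (K.mul_mem hk' hk) (K.inv_mem hk')
    show p * k' * k * (p * k')⁻¹ ∈ K
    rw [show p * k' * k * (p * k')⁻¹ = p * (k' * k * k'⁻¹) * p⁻¹ by group, ← hcent _ e p hp,
      mul_inv_cancel_right]
    exact e
  · have hmem : ∀ x : W, g * (((x : (T : Subgroup G))) : G) * g⁻¹ ∈ (T : Subgroup G) := fun x =>
      hg ⟨_, ⟨_, x.2, rfl⟩, rfl⟩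
    let φ : W →* (T : Subgroup G) :=
      ((MulAut.conj g).toMonoidHom.comp ((T : Subgroup G).subtype.comp W.subtype)).codRestrict
        (T : Subgroup G) hmem
    have hφ : Function.Injective φ := fun x y e => Subtype.ext (Subtype.ext
      ((MulAut.conj g).injective (congrArg Subtype.val e)))
    have hr := FGS3.RudvalisType.range_eq h φ hφ hd
    conv_rhs => rw [← hr]
    ext z
    constructor
    · rintro ⟨_, ⟨y, hy, rfl⟩, rfl⟩
      exact ⟨φ ⟨y, hy⟩, ⟨_, rfl⟩, rfl⟩
    · rintro ⟨_, ⟨y, rfl⟩, rfl⟩
      exact ⟨_, ⟨_, y.2, rfl⟩, rfl⟩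

end Cfsg.Agent.S3175
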