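import Cfsg.Statements.S3180
import Mathlib.Tactic.Group
-- import your own Cfsg.Agent.* helpers here

set_option autoImplicit false
open Cfsg

namespace Cfsg.Agent.S3180

/-- Let P be a Sylow p-subgroup of a finite group J and P₁ a subgroup of P that is weakly closed in P with respect to J. If J acts on a set and two points, each fixed by every element of P₁, lie in one J-orbit, then they lie in one orbit of the normalizer of P₁ in J. -/
theorem result {J : Type*} [Group J] [Finite J]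
    {p : ℕ} [Fact p.Prime] (P : Sylow p J) (P₁ : Subgroup J) (hW : Cfsg.IsWeaklyClosed P₁ (P : Subgroup J))
    {Ω : Type*} [MulAction J Ω] (x y : Ω) (hx : ∀ g ∈ P₁, g • x = x) (hy : ∀ g ∈ P₁, g • y = y)
    (hc : ∃ g : J, g • x = y) :
    ∃ g ∈ Subgroup.normalizer (P₁ : Set J), g • x = y := by
  obtain ⟨g, hg⟩ := hc
  set Q := MulAction.stabilizer J y with hQ
  set P₂ := P₁.map (MulAut.conj g).toMonoidHom with hP₂
  have h1 : P₁ ≤ Q := fun a ha => hy a ha
  have h2 : P₂ ≤ Q := by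
    rintro _ ⟨a, ha, rfl⟩
    show (g * a * g⁻¹) • y = y
    rw [mul_smul, mul_smul, inv_smul_eq_iff.2 hg.symm, hx a ha, hg]
  have hp1 : IsPGroup p P₁ := IsPGroup.to_le P.2 hW.1
  have hp2 : IsPGroup p P₂ := hp1.map _
  obtain ⟨Q1, hQ1⟩ := (hp1.of_equiv (Subgroup.subgroupOfEquivOfLe h1).symm).exists_le_sylow
  obtain ⟨Q2, hQ2⟩ := (hp2.of_equiv (Subgroup.subgroupOfEquivOfLe h2).symm).exists_le_sylow
  obtain ⟨h, hh⟩ := MulAction.exists_smul_eq Q Q2 Q1
  obtain ⟨T, hT⟩ := (Q1.2.map Q.subtype).exists_le_sylow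
  obtain ⟨k, hk⟩ := MulAction.exists_smul_eq J T P
  have hmem : ∀ a : Q, a ∈ Q1 → k * (a : J) * k⁻¹ ∈ (P : Subgroup J) := by
    intro a ha
    rw [← hk]
    exact Subgroup.mem_map.2 ⟨a, hT (Subgroup.mem_map.2 ⟨a, ha, rfl⟩), rfl⟩
  have hk1 : P₁.map (MulAut.conj k).toMonoidHom = P₁ := by
    refine hW.2 k ?_
    rintro _ ⟨a, ha, rfl⟩
    exact hmem ⟨a, h1 ha⟩ (hQ1 (Subgroup.mem_subgroupOf.2 ha))
  have hk2 : P₁.map (MulAut.conj (k * ((h : J) * g))).toMonoidHom = P₁ := by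
    refine hW.2 _ ?_
    rintro _ ⟨a, ha, rfl⟩
    have hga : g * a * g⁻¹ ∈ P₂ := Subgroup.mem_map.2 ⟨a, ha, rfl⟩
    have hQ' : h * ⟨g * a * g⁻¹, h2 hga⟩ * h⁻¹ ∈ Q1 := by
      rw [← hh]
      exact Subgroup.mem_map.2 ⟨⟨_, h2 hga⟩, hQ2 (Subgroup.mem_subgroupOf.2 hga), rfl⟩
    have := hmem _ hQ'
    show k * ((h : J) * g) * a * (k * ((h : J) * g))⁻¹ ∈ (P : Subgroup J)
    convert this using 1
    push_cast
    group
  have hN : ∀ c : J, P₁.map (MulAut.conj c).toMonoidHom = P₁ → c ∈ Subgroup.normalizer (P₁ : Set J) := by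
    intro c hc
    rw [Subgroup.mem_normalizer_iff]
    intro a
    constructor
    · intro ha
      rw [← hc]
      exact Subgroup.mem_map.2 ⟨a, ha, rfl⟩
    · intro ha
      rw [← hc] at ha
      obtain ⟨b, hb, hbe⟩ := Subgroup.mem_map.1 ha
      have hba : c * b * c⁻¹ = c * a * c⁻¹ := hbe
      rwa [← mul_left_cancel (mul_right_cancel hba)]
  refine ⟨(h : J) * g, ?_, by rw [mul_smul, hg]; exact h.2⟩
  have := (Subgroup.normalizer (P₁ : Set J)).mul_mem (Subgroup.inv_mem _ (hN k hk1)) (hN _ hk2)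
  rwa [inv_mul_cancel_left] at this

end Cfsg.Agent.S3180
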