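import Cfsg.Statements.S3183
import Cfsg.Agent.Screen.SylowAux
import Mathlib.GroupTheory.Nilpotent
import Mathlib.Tactic.Group
-- import your own Cfsg.Agent.* helpers here

set_option autoImplicit false
open Cfsg

namespace Cfsg.Agent.S3183

/-- Let G be a finite group in which the intersection of any two distinct Sylow 2-subgroups is contained in the centre of some Sylow 2-subgroup, and let S be a Sylow 2-subgroup. Then for every x in S the centralizer of x in S is a Sylow 2-subgroup of the centralizer of x in G (no 2-subgroup centralizing x is larger), and for every other Sylow 2-subgroup T the intersection S ∩ T lies in both the centre of S and the centre of T. -/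
theorem result {G : Type*} [Group G] [Finite G]
    (hCI : ∀ S T : Sylow 2 G, S ≠ T → ∃ U : Sylow 2 G,
      (S : Subgroup G) ⊓ (T : Subgroup G) ≤ (Subgroup.center ↥(U : Subgroup G)).map (U : Subgroup G).subtype)
    (S : Sylow 2 G) :
    (∀ x ∈ (S : Subgroup G), ∀ P : Subgroup G, IsPGroup 2 ↥P → P ≤ Subgroup.centralizer ({x} : Set G) →
        Nat.card ↥P ≤ Nat.card ↥((S : Subgroup G) ⊓ Subgroup.centralizer ({x} : Set G))) ∧
    (∀ T : Sylow 2 G, T ≠ S →
        (S : Subgroup G) ⊓ (T : Subgroup G) ≤
          (Subgroup.center ↥(S : Subgroup G)).map (S : Subgroup G).subtype ⊓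
            (Subgroup.center ↥(T : Subgroup G)).map (T : Subgroup G).subtype) := by
  haveI : Fact (Nat.Prime 2) := ⟨Nat.prime_two⟩
  have hmain : ∀ (n : ℕ) (R T : Sylow 2 G), R ≠ T →
      Nat.card G - Nat.card ↥((R : Subgroup G) ⊓ (T : Subgroup G)) = n →
      ∀ d ∈ (R : Subgroup G) ⊓ (T : Subgroup G), ∀ r ∈ (R : Subgroup G), r * d = d * r := by
    intro n
    induction n using Nat.strong_induction_on with
    | _ n ih =>
      intro R T hRT hn
      set D := (R : Subgroup G) ⊓ (T : Subgroup G) with hD
      obtain ⟨U, hU⟩ := hCI R T hRT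
      have hDU : ∀ d ∈ D, ∀ u ∈ (U : Subgroup G), u * d = d * u := by
        intro d hd u hu
        obtain ⟨d', hd', rfl⟩ := Subgroup.mem_map.1 (hU hd)
        exact congrArg Subtype.val (Subgroup.mem_center_iff.1 hd' ⟨u, hu⟩)
      set C := Subgroup.centralizer (D : Set G)
      have hDab : D ≤ C := fun d hd => Subgroup.mem_centralizer_iff.2 fun e he => by
        obtain ⟨d', hd', hde⟩ := Subgroup.mem_map.1 (hU hd)
        exact hDU d hd e (by
          obtain ⟨e', -, rfl⟩ := Subgroup.mem_map.1 (hU he)
          exact e'.2)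
      have hUC : (U : Subgroup G) ≤ C := fun u hu =>
        Subgroup.mem_centralizer_iff.2 fun d hd => (hDU d hd u hu).symm
      set S₁ := (R : Subgroup G) ⊓ C with hS₁
      obtain ⟨m, hm, hmS⟩ := Screen.exists_conj_mem_sylow C U hUC (R.2.to_le inf_le_left : IsPGroup 2 ↥S₁)
        inf_le_right
      set V := (m⁻¹ • U : Sylow 2 G) with hV
      have hS₁V : S₁ ≤ (V : Subgroup G) := fun s hs => Subgroup.mem_map.2 ⟨m * s * m⁻¹, hmS s hs, by
        simp [mul_assoc]⟩
      have hVC : (V : Subgroup G) ≤ C := by
        rintro _ ⟨u, hu, rfl⟩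
        show m⁻¹ * u * m⁻¹⁻¹ ∈ C
        exact C.mul_mem (C.mul_mem (C.inv_mem hm) (hUC hu)) (C.inv_mem (C.inv_mem hm))
      intro d hd
      by_cases hRC : (R : Subgroup G) ≤ C
      · exact fun r hr => ((Subgroup.mem_centralizer_iff.1 (hRC hr)) d hd).symm
      have hne : R ≠ V := fun e => hRC (e ▸ hVC)
      have heq : (R : Subgroup G) ⊓ (V : Subgroup G) = S₁ :=
        le_antisymm (le_inf inf_le_left (inf_le_right.trans hVC)) (le_inf inf_le_left hS₁V)
      have hDS : D ≤ S₁ := le_inf inf_le_left hDab
      by_cases hDeq : D = S₁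
      · exfalso
        -- `D` is self-centralizing in `R`
        set D' := D.subgroupOf (R : Subgroup G)
        have hlt : D' < ⊤ := lt_of_le_of_ne le_top fun e =>
          hRC ((Subgroup.subgroupOf_eq_top.1 e).trans hDab)
        have : Group.IsNilpotent (R : Subgroup G) := R.2.isNilpotent
        obtain ⟨r, hrN, hrD⟩ := SetLike.exists_of_lt (Group.normalizerCondition_of_isNilpotent D' hlt)
        have hrnorm : (r : G) ∈ Subgroup.normalizer (D : Set G) := by
          refine Subgroup.mem_normalizer_iff.2 fun e => ⟨fun he => ?_, fun he => ?_⟩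
          · exact Subgroup.mem_subgroupOf.1 (((Subgroup.mem_normalizer_iff).1 hrN ⟨e, he.1⟩).1
              (Subgroup.mem_subgroupOf.2 he))
          · have := Subgroup.mem_subgroupOf.1 (((Subgroup.mem_normalizer_iff).1 (inv_mem hrN) ⟨_, he.1⟩).1
              (Subgroup.mem_subgroupOf.2 he))
            simpa [mul_assoc] using this
        set N := Subgroup.normalizer (D : Set G) with hN
        have hCN : C ≤ N := by
          intro c hc
          refine Subgroup.mem_normalizer_iff.2 fun e => ⟨fun he => ?_, fun he => ?_⟩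
          · rwa [← (Subgroup.mem_centralizer_iff.1 hc) e he, mul_inv_cancel_right]
          · have h := (Subgroup.mem_centralizer_iff.1 hc) _ he
            rw [inv_mul_cancel_right] at h
            have : c * e * c⁻¹ = e := mul_left_cancel (a := c) (h.symm) |>.symm |>.symm
            rwa [this] at he
        have hCn : (C.subgroupOf N).Normal := by
          rw [Subgroup.normal_subgroupOf_iff_le_normalizer hCN]
          intro g hg
          refine Subgroup.mem_normalizer_iff.2 fun c => ⟨fun hc => Subgroup.mem_centralizer_iff.2 fun e he => ?_,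
            fun hc => Subgroup.mem_centralizer_iff.2 fun e he => ?_⟩
          · have h1 : g⁻¹ * e * g ∈ D := by
              have := ((Subgroup.mem_normalizer_iff).1 (inv_mem hg) e).1 he
              simpa using this
            have h2 := (Subgroup.mem_centralizer_iff.1 hc) _ h1
            calc e * (g * c * g⁻¹) = g * ((g⁻¹ * e * g) * c) * g⁻¹ := by group
              _ = _ := by rw [h2]; group
          · have h1 : g * e * g⁻¹ ∈ D := ((Subgroup.mem_normalizer_iff).1 hg e).1 he
            have h2 := (Subgroup.mem_centralizer_iff.1 hc) _ h1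
            calc e * c = g⁻¹ * ((g * e * g⁻¹) * (g * c * g⁻¹)) * g := by group
              _ = _ := by rw [h2]; group
        have hodd : ¬ 2 ∣ (C.subgroupOf N).index := fun h2 => U.not_dvd_index
          ((h2.trans (Subgroup.relIndex_dvd_of_le_left N hUC)).trans
            (Dvd.intro _ (Subgroup.relIndex_mul_index (hUC.trans hCN))))
        obtain ⟨k, hk⟩ := IsPGroup.iff_orderOf.1 R.2 r
        have h1 : orderOf (QuotientGroup.mk (⟨(r : G), hrnorm⟩ : N) : N ⧸ C.subgroupOf N) ∣ 2 ^ k := by
          refine (orderOf_map_dvd (QuotientGroup.mk' _) _).trans ?_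
          rw [← Subgroup.orderOf_coe, ← hk, ← Subgroup.orderOf_coe r]
        have h2 : orderOf (QuotientGroup.mk (⟨(r : G), hrnorm⟩ : N) : N ⧸ C.subgroupOf N) ∣
            (C.subgroupOf N).index := orderOf_dvd_natCard _
        have h3 : orderOf (QuotientGroup.mk (⟨(r : G), hrnorm⟩ : N) : N ⧸ C.subgroupOf N) = 1 :=
          Nat.eq_one_of_dvd_coprimes
            ((Nat.Prime.coprime_iff_not_dvd Nat.prime_two).2 hodd |>.pow_left k) h1 h2
        rw [orderOf_eq_one_iff, QuotientGroup.eq_one_iff] at h3
        refine hrD (Subgroup.mem_subgroupOf.2 ?_)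
        rw [hDeq]
        exact ⟨r.2, Subgroup.mem_subgroupOf.1 h3⟩
      · have hlt : Nat.card D < Nat.card S₁ := by
          by_contra hc
          exact hDeq (Subgroup.eq_of_le_of_card_ge hDS (not_lt.1 hc))
        refine ih _ ?_ R V hne rfl d (heq ▸ hDS hd)
        rw [heq, ← hn]
        have := Subgroup.card_le_card_group S₁
        omega
  have hcen : ∀ (R T : Sylow 2 G), R ≠ T → ∀ d ∈ (R : Subgroup G) ⊓ (T : Subgroup G),
      d ∈ (Subgroup.center ↥(R : Subgroup G)).map (R : Subgroup G).subtype := fun R T h d hd =>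
    Subgroup.mem_map.2 ⟨⟨d, hd.1⟩, Subgroup.mem_center_iff.2 fun r =>
      Subtype.ext (hmain _ R T h rfl d hd r r.2), rfl⟩
  refine ⟨?_, fun T hT d hd => ⟨hcen S T hT.symm d hd, hcen T S hT d ⟨hd.2, hd.1⟩⟩⟩
  intro x hx P hP hPC
  by_cases hxc : (S : Subgroup G) ≤ Subgroup.centralizer ({x} : Set G)
  · obtain ⟨T, hT⟩ := hP.exists_le_sylow
    rw [inf_eq_left.2 hxc]
    calc Nat.card P ≤ Nat.card (T : Subgroup G) := Subgroup.card_le_of_le hT
      _ = Nat.card (S : Subgroup G) := Nat.card_congr (Sylow.equiv T S).toEquiv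
  · have hxp : IsPGroup 2 ↥(Subgroup.zpowers x) := S.2.to_le (Subgroup.zpowers_le.2 hx)
    have hnorm : P ≤ Subgroup.normalizer ((Subgroup.zpowers x : Subgroup G) : Set G) := fun q hq => by
      refine Subgroup.mem_normalizer_iff.2 fun e => ?_
      have h1 : ∀ i : ℤ, Commute q (x ^ i) := fun i =>
        Commute.zpow_right (Subgroup.mem_centralizer_singleton_iff.1 (hPC hq)) i
      constructor
      · intro he
        obtain ⟨i, rfl⟩ := Subgroup.mem_zpowers_iff.1 he
        rw [(h1 i).eq, mul_inv_cancel_right]
        exact he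
      · intro he
        obtain ⟨i, hi⟩ := Subgroup.mem_zpowers_iff.1 he
        have : e = x ^ i := by
          rw [show e = q⁻¹ * (q * e * q⁻¹) * q by group, ← hi]
          rw [mul_assoc, ← (h1 i).eq, inv_mul_cancel_left]
        exact this ▸ Subgroup.zpow_mem_zpowers x i
    obtain ⟨T, hT⟩ := (IsPGroup.to_sup_of_normal_right' hP hxp hnorm).exists_le_sylow
    have hTS : T = S := by
      by_contra hne
      obtain ⟨x', hx', hxe⟩ := Subgroup.mem_map.1
        (hcen S T (Ne.symm hne) x ⟨hx, hT (Subgroup.mem_sup_right (Subgroup.mem_zpowers x))⟩)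
      refine hxc fun s hs => Subgroup.mem_centralizer_singleton_iff.2 ?_
      rw [← hxe]
      exact congrArg Subtype.val (Subgroup.mem_center_iff.1 hx' ⟨s, hs⟩)
    subst hTS
    exact Subgroup.card_le_of_le (le_inf (le_sup_left.trans hT) hPC)

end Cfsg.Agent.S3183
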