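import Cfsg.Statements.S3184
import Cfsg.Agent.Blocks.ZStarFinal
import Cfsg.Agent.Screen.SylowAux
-- import your own Cfsg.Agent.* helpers here

set_option autoImplicit false
open Cfsg

namespace Cfsg.Agent.S3184

open Cfsg.Agent.Screen

theorem isolated_of_CI {G : Type*} [Group G] [Finite G] [Fact (Nat.Prime 2)]
    (hCI : ∀ S T : Sylow 2 G, S ≠ T → ∃ U : Sylow 2 G,
      (S : Subgroup G) ⊓ (T : Subgroup G) ≤ (Subgroup.center ↥(U : Subgroup G)).map (U : Subgroup G).subtype)
    (S : Sylow 2 G) (C : Subgroup ↥(S : Subgroup G)) (hCc : IsCyclic ↥C) (hCh : C.Characteristic)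
    (c : ↥(S : Subgroup G)) (hc : c ∈ C) (hc2 : orderOf c = 2) :
    Cfsg.IsIsolatedInvolution (c : G) := by
  have hc2' : orderOf (c : G) = 2 := by rw [Subgroup.orderOf_coe]; exact hc2
  -- the involution of a characteristic cyclic subgroup is fixed by the normalizer
  have hfix : ∀ n ∈ Subgroup.normalizer ((S : Subgroup G) : Set G), n * (c : G) * n⁻¹ = c := by
    intro n hn
    let φ : (S : Subgroup G) ≃* (S : Subgroup G) := Subgroup.normalizerMonoidHom _ ⟨n, hn⟩
    have himg := Subgroup.characteristic_iff_map_eq.1 hCh φ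
    have h1 : φ c ∈ C := by rw [← himg]; exact Subgroup.mem_map.2 ⟨c, hc, rfl⟩
    have h2 : orderOf (φ c) = 2 := by
      exact (orderOf_injective φ.toMonoidHom φ.injective c).trans hc2
    exact congrArg (fun t : (S : Subgroup G) => (t : G)) (eq_of_orderOf_eq_two_of_isCyclic hCc h1 hc h2 hc2)
  have hcS : ∀ s ∈ (S : Subgroup G), s * (c : G) = c * s := fun s hs =>
    mul_inv_eq_iff_eq_mul.1 (hfix s (Subgroup.le_normalizer hs))
  have hcentral : ∀ d g : G, g * (c : G) * g⁻¹ = d → (∀ s ∈ (S : Subgroup G), s * d = d * s) → d = c := by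
    intro d g hg hd
    obtain ⟨n, hn, hnd⟩ := burnside_central S hcS hd hg
    rw [← hnd, hfix n hn]
  refine ⟨hc2', fun g hcd => ?_⟩
  set d := g * (c : G) * g⁻¹ with hdef
  have hd2 : IsPGroup 2 (Subgroup.zpowers d) := by
    have : orderOf d = 2 := by
      rw [hdef, show g * (c : G) * g⁻¹ = MulAut.conj g (c : G) from rfl]
      exact (orderOf_injective (MulAut.conj g).toMonoidHom (MulAut.conj g).injective _).trans hc2'
    exact IsPGroup.of_card (n := 1) (by rw [Nat.card_zpowers, this, pow_one])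
  obtain ⟨k, hk, hkd⟩ := exists_conj_mem_sylow (Subgroup.centralizer ({(c : G)} : Set G)) S
    (le_centralizer_of_central hcS) hd2 (by
      rw [Subgroup.zpowers_le, Subgroup.mem_centralizer_singleton_iff]; exact hcd.eq.symm)
  have hkc : k * (c : G) * k⁻¹ = c := by
    rw [Subgroup.mem_centralizer_singleton_iff.1 hk, mul_inv_cancel_right]
  -- it suffices to treat a conjugate lying in `S`
  suffices main : ∀ d' g' : G, g' * (c : G) * g'⁻¹ = d' → d' ∈ (S : Subgroup G) → d' = c by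
    have h1 := main (k * d * k⁻¹) (k * g) (by rw [hdef]; group) (hkd d (Subgroup.mem_zpowers d))
    rw [← hkc] at h1
    exact mul_left_cancel (mul_right_cancel h1)
  clear! g k
  intro d g hg hdS
  by_cases hd : ∀ s ∈ (S : Subgroup G), s * d = d * s
  · exact hcentral d g hg hd
  set R := (S : Subgroup G) ⊓ Subgroup.centralizer ({d} : Set G) with hR
  have hT : ((g • S : Sylow 2 G) : Subgroup G) ≤ Subgroup.centralizer ({d} : Set G) := by
    rintro _ ⟨s, hs, rfl⟩
    refine Subgroup.mem_centralizer_singleton_iff.2 ?_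
    show g * s * g⁻¹ * d = d * (g * s * g⁻¹)
    rw [← hg]
    calc g * s * g⁻¹ * (g * (c : G) * g⁻¹) = g * (s * c) * g⁻¹ := by group
      _ = g * (c : G) * g⁻¹ * (g * s * g⁻¹) := by rw [hcS s hs]; group
  obtain ⟨m, hm, hmR⟩ := exists_conj_mem_sylow _ (g • S) hT (IsPGroup.to_le S.2 inf_le_left : IsPGroup 2 R)
    inf_le_right
  set V : Sylow 2 G := (m⁻¹ * g) • S with hV
  have hRV : R ≤ (V : Subgroup G) := by
    intro r hr
    obtain ⟨s, hs, hse⟩ := Subgroup.mem_map.1 (hmR r hr)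
    refine Subgroup.mem_map.2 ⟨s, hs, ?_⟩
    have hse' : g * s * g⁻¹ = m * r * m⁻¹ := hse
    show m⁻¹ * g * s * (m⁻¹ * g)⁻¹ = r
    calc m⁻¹ * g * s * (m⁻¹ * g)⁻¹ = m⁻¹ * (g * s * g⁻¹) * m := by group
      _ = r := by rw [hse']; group
  have hmd : m⁻¹ * d * m = d := by
    rw [mul_assoc, ← Subgroup.mem_centralizer_singleton_iff.1 hm, inv_mul_cancel_left]
  have hVd : ∀ v ∈ (V : Subgroup G), v * d = d * v := by
    rintro _ ⟨s, hs, rfl⟩
    show m⁻¹ * g * s * (m⁻¹ * g)⁻¹ * d = d * (m⁻¹ * g * s * (m⁻¹ * g)⁻¹)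
    have hd' : m⁻¹ * g * (c : G) * (m⁻¹ * g)⁻¹ = d := by
      calc _ = m⁻¹ * (g * (c : G) * g⁻¹) * m := by group
        _ = d := by rw [hg, hmd]
    conv_lhs => rw [← hd']
    conv_rhs => rw [← hd']
    calc _ = m⁻¹ * g * (s * c) * (m⁻¹ * g)⁻¹ := by group
      _ = _ := by rw [hcS s hs]; group
  have hne : S ≠ V := by
    intro he
    exact hd (fun s hs => hVd s (he ▸ hs))
  obtain ⟨W, hW⟩ := hCI S V hne
  have hcR : (c : G) ∈ R := Subgroup.mem_inf.2 ⟨c.2, Subgroup.mem_centralizer_singleton_iff.2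
    (hcS d hdS).symm⟩
  have hdR : d ∈ R := Subgroup.mem_inf.2 ⟨hdS, Subgroup.mem_centralizer_singleton_iff.2 rfl⟩
  have hcW : ∀ x ∈ (S : Subgroup G) ⊓ (V : Subgroup G), ∀ w ∈ (W : Subgroup G), w * x = x * w := by
    intro x hx w hw
    obtain ⟨y, hy, rfl⟩ := Subgroup.mem_map.1 (hW hx)
    exact congrArg (fun t : (W : Subgroup G) => (t : G)) (Subgroup.mem_center_iff.1 hy ⟨w, hw⟩)
  have hcW' := hcW _ (Subgroup.mem_inf.2 ⟨c.2, hRV hcR⟩)
  have hdW := hcW _ (Subgroup.mem_inf.2 ⟨hdS, hRV hdR⟩)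
  obtain ⟨j, hj⟩ := MulAction.exists_smul_eq (Subgroup.centralizer ({(c : G)} : Set G))
    (W.subtype (le_centralizer_of_central hcW')) (S.subtype (le_centralizer_of_central hcS))
  rw [Sylow.smul_subtype] at hj
  have hjS : (j : G) • W = S := Sylow.subtype_injective hj
  have hjd : (j : G) * d * (j : G)⁻¹ = c := by
    refine hcentral _ ((j : G) * g) (by rw [← hg]; group) ?_
    intro s hs
    rw [← hjS] at hs
    obtain ⟨w, hw, rfl⟩ := Subgroup.mem_map.1 hs
    show (j : G) * w * (j : G)⁻¹ * ((j : G) * d * (j : G)⁻¹) = (j : G) * d * (j : G)⁻¹ * ((j : G) * w * (j : G)⁻¹)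
    calc _ = (j : G) * (w * d) * (j : G)⁻¹ := by group
      _ = _ := by rw [hdW w hw]; group
  have hjc : (j : G) * c * (j : G)⁻¹ = c := by
    rw [Subgroup.mem_centralizer_singleton_iff.1 j.2, mul_inv_cancel_right]
  conv_rhs at hjd => rw [← hjc]
  exact mul_left_cancel (mul_right_cancel hjd)

/-- Let G be a finite group in which the intersection of any two distinct Sylow 2-subgroups is contained in the centre of some Sylow 2-subgroup, and let S be a Sylow 2-subgroup. If C is a nontrivial cyclic characteristic subgroup of S, then the involution of C is central modulo the largest normal subgroup of odd order of G: each of its conjugates has the same image in G/O(G). -/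
theorem result {G : Type*} [Group G] [Finite G]
    (hCI : ∀ S T : Sylow 2 G, S ≠ T → ∃ U : Sylow 2 G,
      (S : Subgroup G) ⊓ (T : Subgroup G) ≤ (Subgroup.center ↥(U : Subgroup G)).map (U : Subgroup G).subtype)
    (S : Sylow 2 G) (C : Subgroup ↥(S : Subgroup G)) (hC : C ≠ ⊥) (hCc : IsCyclic ↥C) (hCh : C.Characteristic)
    (c : ↥(S : Subgroup G)) (hc : c ∈ C) (hc2 : orderOf c = 2) :
    ∀ g : G, (QuotientGroup.mk (s := Cfsg.oddCore G) (g * (c : G) * g⁻¹)) =
      QuotientGroup.mk (s := Cfsg.oddCore G) (c : G) := by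
  haveI : Fact (Nat.Prime 2) := ⟨Nat.prime_two⟩
  have hz : Cfsg.IsIsolatedInvolution (c : G) := isolated_of_CI hCI S C hCc hCh c hc hc2
  intro g
  rw [QuotientGroup.eq]
  have h1 := Cfsg.Agent.Blocks.glauberman_zstar hz g
  have h2 : (c : G) * g * (c : G)⁻¹ * g⁻¹ = (c : G) * (g * (c : G) * g⁻¹)⁻¹ := by group
  have h3 := (inferInstance : (Cfsg.oddCore G).Normal).mem_comm (h2 ▸ h1)
  exact h3

end Cfsg.Agent.S3184
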