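import Cfsg.Statements.S3189
import Cfsg.Agent.PermGroups.EightBlock

set_option autoImplicit false
open Cfsg

namespace Cfsg.Agent.S3189

/-- Let G be a non-abelian finite simple group whose Sylow 2-subgroup S is elementary abelian of order 8, and suppose the centralizer of every involution of G is solvable. Then the normalizer of S modulo the centralizer of S has order 7. -/
theorem result {G : Type*} [Group G] [Finite G]
    [IsSimpleGroup G] (hG : ¬ IsMulCommutative G) (S : Sylow 2 G)
    (hS : Cfsg.IsElementaryAbelian 2 (S : Subgroup G)) (hS8 : Nat.card ↥(S : Subgroup G) = 8)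
    (hC : ∀ t : G, orderOf t = 2 → Group.IsSolvable ↥(Subgroup.centralizer ({t} : Set G))) :
    (Subgroup.centralizer ((S : Subgroup G) : Set G)).relIndex (Subgroup.normalizer ((S : Subgroup G) : Set G)) = 7 := by
  classical
  haveI : Fact (Nat.Prime 2) := ⟨Nat.prime_two⟩
  rcases PermGroups.Eight.automizer_cases hG S hS hS8 with h | ⟨hone, hx⟩
  · exact h
  · have hne : (S : Subgroup G) ≠ ⊥ := fun h => by
      rw [h, Subgroup.card_bot] at hS8; omega
    obtain ⟨⟨t, htS⟩, ht⟩ := Subgroup.ne_bot_iff_exists_ne_one.1 hne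
    have ht1 : t ≠ 1 := fun h => ht (Subtype.ext h)
    obtain ⟨x, hxN, hxt, hxs⟩ := hx t htS ht1
    letI : Fintype G := Fintype.ofFinite G
    exact (PermGroups.Eight.no_simple hG S hS hS8 hone htS ht1 hxN hxt hxs
      (hC t (orderOf_eq_prime (hS.2 t htS) ht1))).elim

end Cfsg.Agent.S3189
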