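import Cfsg.Statements.S3190
-- import your own Cfsg.Agent.* helpers here

set_option autoImplicit false
open Cfsg

namespace Cfsg.Agent.S3190

/-- A nontrivial normal subgroup of a finite `p`-group meets the centre. -/
theorem exists_center_mem {G : Type*} [Group G] [Finite G] {p : ℕ} [Fact p.Prime] (hG : IsPGroup p G)
    (N : Subgroup G) [N.Normal] (hN : N ≠ ⊥) : ∃ v ∈ N, v ≠ 1 ∧ v ∈ Subgroup.center G := by
  have : Nontrivial N := (Subgroup.nontrivial_iff_ne_bot N).2 hN
  have hdvd : p ∣ Nat.card N := by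
    obtain ⟨k, hk, hc⟩ := (hG.to_subgroup N).nontrivial_iff_card.1 this
    rw [hc]; exact dvd_pow_self p hk.ne'
  have h1 : (1 : N) ∈ MulAction.fixedPoints (ConjAct G) N := fun g => smul_one g
  obtain ⟨b, hb, hb1⟩ := (hG.of_equiv ConjAct.toConjAct).exists_fixed_point_of_prime_dvd_card_of_fixed_point
    N hdvd h1
  refine ⟨b, b.2, fun h => hb1 (Subtype.ext h.symm), Subgroup.mem_center_iff.2 fun g => ?_⟩
  have h : ConjAct.toConjAct g • (b : G) = b := congrArg Subtype.val (hb (ConjAct.toConjAct g))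
  rw [ConjAct.toConjAct_smul, mul_inv_eq_iff_eq_mul] at h
  exact h

/-- Let p be an odd prime and, inside a finite group, let P be a p-subgroup normalized by a Klein four-group T. Let R be a subgroup of P, normal in P and normalized by T, such that P is the product of R with the centralizer of T in P. If T centralizes the centre of P, then T centralizes the centre of R. -/
theorem result {X : Type*} [Group X] [Finite X]
    {p : ℕ} (hp : p.Prime) (hodd : Odd p) (P T R : Subgroup X) (hP : IsPGroup p ↥P) (hT : IsKleinFour ↥T)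
    (hTP : T ≤ Subgroup.normalizer (P : Set X)) (hRP : R ≤ P) (hRn : (R.subgroupOf P).Normal)
    (hTR : T ≤ Subgroup.normalizer (R : Set X)) (hfac : R ⊔ (P ⊓ Subgroup.centralizer (T : Set X)) = P)
    (hZ : T ≤ Subgroup.centralizer (((Subgroup.center ↥P).map P.subtype : Subgroup X) : Set X)) :
    T ≤ Subgroup.centralizer (((Subgroup.center ↥R).map R.subtype : Subgroup X) : Set X) := by
  intro t ht
  rw [Subgroup.mem_centralizer_iff]
  rintro _ ⟨z, hz, rfl⟩
  have ht2 : t * t = 1 := by
    have := congrArg Subtype.val (IsKleinFour.mul_self (G := ↥T) ⟨t, ht⟩)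
    simpa using this
  have htinv : t⁻¹ = t := inv_eq_of_mul_eq_one_right ht2
  set C := P ⊓ Subgroup.centralizer (T : Set X) with hC
  have hRn' : P ≤ Subgroup.normalizer (R : Set X) := (Subgroup.normal_subgroupOf_iff_le_normalizer hRP).1 hRn
  -- the inverted part of the centre of `R`
  let W : Subgroup X :=
    { carrier := {w | w ∈ R ∧ (∀ r ∈ R, Commute w r) ∧ t * w * t⁻¹ = w⁻¹}
      one_mem' := ⟨one_mem _, fun r _ => Commute.one_left r, by simp⟩
      mul_mem' := fun {a b} ha hb => ⟨mul_mem ha.1 hb.1, fun r hr => (ha.2.1 r hr).mul_left (hb.2.1 r hr), by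
        rw [← conj_mul, ha.2.2, hb.2.2, ← mul_inv_rev, (ha.2.1 b hb.1).eq]⟩
      inv_mem' := fun {a} ha => ⟨inv_mem ha.1, fun r hr => (ha.2.1 r hr).inv_left, by
        rw [← conj_inv, ha.2.2]⟩ }
  have hWP : W ≤ P := fun w hw => hRP hw.1
  have hPW : P ≤ Subgroup.normalizer (W : Set X) := by
    rw [← hfac]
    refine sup_le ?_ ?_
    · intro r hr
      rw [Subgroup.mem_normalizer_iff]
      intro w
      have hfix : ∀ v ∈ W, r * v * r⁻¹ = v := fun v hv => by
        rw [← (hv.2.1 r hr).eq, mul_inv_cancel_right]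
      constructor
      · intro hw
        rwa [hfix w hw]
      · intro hw
        have h := hfix _ hw
        have : r * w * r⁻¹ = w := mul_left_cancel (mul_right_cancel h)
        rwa [this] at hw
    · have hmap : ∀ c ∈ C, ∀ w ∈ W, c * w * c⁻¹ ∈ W := by
        intro c hc w hw
        have hcR := hRn' hc.1
        have hct : t * c = c * t := hc.2 t ht
        refine ⟨((Subgroup.mem_normalizer_iff).1 hcR w).1 hw.1, fun r hr => ?_, ?_⟩
        · have hr' : c⁻¹ * r * c ∈ R := by
            have := ((Subgroup.mem_normalizer_iff).1 (inv_mem hcR) r).1 hr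
            simpa using this
          have h := (hw.2.1 _ hr').map (MulAut.conj c).toMonoidHom
          simp only [MulEquiv.coe_toMonoidHom, MulAut.conj_apply] at h
          rwa [show c * (c⁻¹ * r * c) * c⁻¹ = r by group] at h
        · calc t * (c * w * c⁻¹) * t⁻¹ = (t * c) * w * (t * c)⁻¹ := by group
            _ = (c * t) * w * (c * t)⁻¹ := by rw [hct]
            _ = c * (t * w * t⁻¹) * c⁻¹ := by group
            _ = (c * w * c⁻¹)⁻¹ := by rw [hw.2.2]; group
      intro c hc
      rw [Subgroup.mem_normalizer_iff]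
      refine fun w => ⟨hmap c hc w, fun h => ?_⟩
      have := hmap c⁻¹ (inv_mem hc) _ h
      simpa [mul_assoc] using this
  have hW : W = ⊥ := by
    by_contra hne
    have hWn : (W.subgroupOf P).Normal := (Subgroup.normal_subgroupOf_iff_le_normalizer hWP).2 hPW
    have hne' : W.subgroupOf P ≠ ⊥ := fun h => hne (by
      rwa [Subgroup.subgroupOf_eq_bot, disjoint_iff, inf_eq_left.2 hWP] at h)
    haveI : Fact p.Prime := ⟨hp⟩
    obtain ⟨v, hv, hv1, hvc⟩ := exists_center_mem hP (W.subgroupOf P) hne'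
    have hvW : (v : X) ∈ W := hv
    have hfix : t * (v : X) = (v : X) * t :=
      ((hZ ht) (v : X) ⟨v, hvc, rfl⟩).symm
    have hsq : (v : X) * (v : X) = 1 := by
      have h := hvW.2.2
      rw [hfix, mul_inv_cancel_right] at h
      nth_rw 2 [h]
      exact mul_inv_cancel _
    obtain ⟨k, hk⟩ := hP v
    apply hv1
    have h1 : orderOf v ∣ 2 := orderOf_dvd_of_pow_eq_one (by
      apply Subtype.ext; simp [pow_two, hsq])
    have h2 : orderOf v ∣ p ^ k := orderOf_dvd_of_pow_eq_one hk
    have h3 : orderOf v ∣ Nat.gcd 2 (p ^ k) := Nat.dvd_gcd h1 h2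
    have hcop : Nat.Coprime 2 (p ^ k) := Nat.Coprime.pow_right _ (Nat.coprime_two_left.2 hodd)
    rw [hcop.gcd_eq_one, Nat.dvd_one] at h3
    exact orderOf_eq_one_iff.1 h3
  have hzR : (z : X) ∈ R := z.2
  have hzc : ∀ r ∈ R, Commute (z : X) r := fun r hr =>
    congrArg Subtype.val ((Subgroup.mem_center_iff.1 hz ⟨r, hr⟩).symm)
  have hz'R : t * (z : X) * t⁻¹ ∈ R := ((Subgroup.mem_normalizer_iff).1 (hTR ht) _).1 hzR
  have hz'c : ∀ r ∈ R, Commute (t * (z : X) * t⁻¹) r := fun r hr => by
    have hr' : t⁻¹ * r * t ∈ R := by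
      have := ((Subgroup.mem_normalizer_iff).1 (inv_mem (hTR ht)) r).1 hr
      simpa using this
    have h := (hzc _ hr').map (MulAut.conj t).toMonoidHom
    simp only [MulEquiv.coe_toMonoidHom, MulAut.conj_apply] at h
    rwa [show t * (t⁻¹ * r * t) * t⁻¹ = r by group] at h
  have hd : t * (z : X) * t⁻¹ * (z : X)⁻¹ ∈ W := by
    refine ⟨mul_mem hz'R (inv_mem hzR), fun r hr => (hz'c r hr).mul_left (hzc r hr).inv_left, ?_⟩
    have e : t * t * (z : X) * (t * t)⁻¹ = z := by rw [ht2]; simp
    calc t * (t * (z : X) * t⁻¹ * (z : X)⁻¹) * t⁻¹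
        = (t * t * (z : X) * (t * t)⁻¹) * (t * (z : X) * t⁻¹)⁻¹ := by group
      _ = _ := by rw [e]; group
  rw [hW, Subgroup.mem_bot, mul_inv_eq_one] at hd
  show (z : X) * t = t * (z : X)
  exact (mul_inv_eq_iff_eq_mul.1 hd).symm

end Cfsg.Agent.S3190
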