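import Cfsg.Statements.S3195
import Cfsg.Agent.S0200
import Cfsg.Agent.Core.Cores

set_option autoImplicit false
open Cfsg

namespace Cfsg.Agent.S3195

section
variable {G : Type*} [Group G]

/-- An element of odd order is a square of one of its powers. -/
theorem exists_sq_root {x : G} (hx : Odd (orderOf x)) : ∃ n : ℕ, (x ^ n) ^ 2 = x := by
  obtain ⟨m, hm⟩ := hx
  exact ⟨m + 1, by
    rw [← pow_mul, show (m + 1) * 2 = orderOf x + 1 by omega, pow_succ, pow_orderOf_eq_one,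
      one_mul]⟩

/-- An element inverted by an element of odd order, and itself of odd order, is trivial. -/
theorem eq_one_of_inverted {x y : G} (hx : Odd (orderOf x)) (hy : Odd (orderOf y))
    (h : y * x * y⁻¹ = x⁻¹) : x = 1 := by
  have h2 : Commute (y ^ 2) x := by
    have : y ^ 2 * x * (y ^ 2)⁻¹ = x := by
      calc y ^ 2 * x * (y ^ 2)⁻¹ = y * (y * x * y⁻¹) * y⁻¹ := by
            simp [sq, mul_assoc]
        _ = (y * x * y⁻¹)⁻¹ := by rw [h, ← conj_inv, h]
        _ = x := by rw [h, inv_inv]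
    exact mul_inv_eq_iff_eq_mul.mp this
  obtain ⟨n, hn⟩ := exists_sq_root hy
  have hc : Commute y x := by
    rw [← hn, ← pow_mul, mul_comm, pow_mul]
    exact h2.pow_left n
  rw [hc.eq, mul_inv_cancel_right] at h
  obtain ⟨k, hk⟩ := exists_sq_root hx
  have h1 : x ^ 2 = 1 := by rw [sq]; exact mul_eq_one_iff_eq_inv.mpr h
  rw [← hk, ← pow_mul, mul_comm, pow_mul, h1, one_pow]

theorem invol_cancel {w : G} (hw : w * w = 1) (z : G) : w * (w * z) = z := by
  rw [← mul_assoc, hw, one_mul]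

/-- If `w` inverts `y`, conjugating `w` by `y ^ k` gives `y ^ (2 k) * w`. -/
theorem conj_pow_eq {w y : G} (hw : w * w = 1) (h : w * y * w = y⁻¹) (k : ℕ) :
    y ^ k * w * (y ^ k)⁻¹ = (y ^ k) ^ 2 * w := by
  have hwi : w⁻¹ = w := inv_eq_of_mul_eq_one_right hw
  have h' : w * y * w⁻¹ = y⁻¹ := by rw [hwi]; exact h
  have hk : w * y ^ k * w⁻¹ = (y ^ k)⁻¹ := by rw [← conj_pow, h', inv_pow]
  rw [← hk, hwi, sq]
  simp [mul_assoc, invol_cancel hw]

/-- The configuration to be excluded: `u` inverts `x` and centralises `y`, `v` centralises `x`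
and inverts `y`, `w = u * v` inverts both. -/
theorem no_crossing {u v w x y : G} (hu : u * u = 1) (hv : v * v = 1) (hw : w * w = 1)
    (hwuv : w = u * v) (huv : Commute u v)
    (hxu : u * x * u = x⁻¹) (hxv : Commute v x) (hyv : v * y * v = y⁻¹) (hyu : Commute u y)
    (hx : x ≠ 1) (hy : y ≠ 1) (hxo : Odd (orderOf x)) (hyo : Odd (orderOf y))
    (h : ∀ g : G, Commute u (g * w * g⁻¹) ∨ Commute v (g * w * g⁻¹) ∨ Commute w (g * w * g⁻¹)) :
    False := by
  have hui : u⁻¹ = u := inv_eq_of_mul_eq_one_right hu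
  have hvi : v⁻¹ = v := inv_eq_of_mul_eq_one_right hv
  have hwy : w * y * w = y⁻¹ := by
    calc w * y * w = u * (v * y * v) * u := by
          rw [hwuv]
          conv_lhs => arg 2; rw [huv.eq]
          simp [mul_assoc]
      _ = y⁻¹ := by rw [hyv, hyu.inv_right.eq, mul_assoc, hu, mul_one]
  have hwx : w * x * w = x⁻¹ := by
    calc w * x * w = u * (v * x * v) * u := by
          rw [hwuv]
          conv_lhs => arg 2; rw [huv.eq]
          simp [mul_assoc]
      _ = x⁻¹ := by rw [hxv.eq, mul_assoc x, hv, mul_one, hxu]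
  -- `d = y * w` is a conjugate of `w`; compare it with the conjugate `{x * u, v, x * w}` of `A`
  obtain ⟨k, hk⟩ := exists_sq_root hyo
  obtain ⟨l, hl⟩ := exists_sq_root hxo
  have hd : y ^ k * w * (y ^ k)⁻¹ = y * w := by rw [conj_pow_eq hw hwy, hk]
  have hxu' : x ^ l * u * (x ^ l)⁻¹ = x * u := by rw [conj_pow_eq hu hxu, hl]
  have hxw' : x ^ l * w * (x ^ l)⁻¹ = x * w := by rw [conj_pow_eq hw hwx, hl]
  have hxv' : x ^ l * v * (x ^ l)⁻¹ = v := by
    rw [← (hxv.pow_right l).eq, mul_inv_cancel_right]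
  have key : Commute (x * u) (y * w) ∨ Commute v (y * w) ∨ Commute (x * w) (y * w) := by
    have e : (x ^ l) * (((x ^ l)⁻¹ * y ^ k) * w * ((x ^ l)⁻¹ * y ^ k)⁻¹) * (x ^ l)⁻¹ = y * w := by
      rw [← hd]; simp [mul_assoc]
    rcases h ((x ^ l)⁻¹ * y ^ k) with hh | hh | hh
    · exact .inl (hxu' ▸ e ▸ hh.map (MulAut.conj (x ^ l)).toMonoidHom)
    · exact .inr (.inl (hxv' ▸ e ▸ hh.map (MulAut.conj (x ^ l)).toMonoidHom))
    · exact .inr (.inr (hxw' ▸ e ▸ hh.map (MulAut.conj (x ^ l)).toMonoidHom))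
  have hwi : w⁻¹ = w := inv_eq_of_mul_eq_one_right hw
  rcases key with hh | hh | hh
  · -- `y` would invert `x`
    have e1 : x * u * (y * w) = x * y * v := by
      rw [hwuv, mul_assoc x u, ← mul_assoc u y, hyu.eq, mul_assoc y u, ← mul_assoc u u, hu,
        one_mul, mul_assoc]
    have e2 : y * w * (x * u) = y * x⁻¹ * v := by
      calc y * w * (x * u) = y * (w * x * w) * (w * u) := by
            simp [mul_assoc, invol_cancel hw]
        _ = y * x⁻¹ * v := by rw [hwx, hwuv, huv.eq, mul_assoc v u u, hu, mul_one]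
    have e3 : x * y = y * x⁻¹ := mul_right_cancel (e1.symm.trans (hh.eq.trans e2))
    refine hx (inv_eq_one.mp (eq_one_of_inverted (by rwa [orderOf_inv]) hyo ?_))
    rw [inv_inv, ← e3, mul_inv_cancel_right]
  · -- `v` would centralise `y`
    have hvw : Commute v w := by rw [hwuv]; exact huv.symm.mul_right (Commute.refl v)
    have e : Commute v y := by
      have := hh.mul_right hvw.inv_right
      rwa [mul_inv_cancel_right] at this
    rw [e.eq, mul_assoc, hv, mul_one] at hyv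
    exact hy (eq_one_of_inverted hyo hyo (by simpa using hyv))
  · -- `x * y⁻¹ = y * x⁻¹`; conjugating by `u` gives that `y` inverts `x ^ 2`
    have e1 : ∀ a b : G, w * b * w = b⁻¹ → a * w * (b * w) = a * b⁻¹ := fun a b hb => by
      rw [← hb]; simp [mul_assoc]
    have e3 : x * y⁻¹ = y * x⁻¹ := (e1 x y hwy).symm.trans (hh.eq.trans (e1 y x hwx))
    have e4 : x⁻¹ * y⁻¹ = y * x := by
      have e := congrArg (MulAut.conj u) e3
      simp only [map_mul, map_inv, MulAut.conj_apply, hui, hxu, inv_inv] at e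
      rwa [hyu.eq, mul_assoc y, hu, mul_one] at e
    have e5 : y * (x ^ 2) * y⁻¹ = (x ^ 2)⁻¹ := by
      calc y * x ^ 2 * y⁻¹ = (y * x) * (x * y⁻¹) := by simp [sq, mul_assoc]
        _ = (x⁻¹ * y⁻¹) * (y * x⁻¹) := by rw [e3, e4]
        _ = (x ^ 2)⁻¹ := by simp [sq, mul_assoc]
    have hx2 : x ^ 2 = 1 :=
      eq_one_of_inverted (hxo.of_dvd_nat (orderOf_pow_dvd 2)) hyo e5
    exact hx (by rw [← hl, ← pow_mul, mul_comm, pow_mul, hx2, one_pow])

end

/-- Let A be a Klein four-subgroup of a finite group G. If every G-conjugate of every involution of A commutes with some involution of A (its centralizer meets A nontrivially), then A meets the largest normal 2-subgroup O₂(G) nontrivially. -/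
theorem result {G : Type*} [Group G] [Finite G]
    (A : Subgroup G) (hA : IsKleinFour ↥A)
    (h : ∀ a ∈ A, a ≠ 1 → ∀ g : G, A ⊓ Subgroup.centralizer ({g * a * g⁻¹} : Set G) ≠ ⊥) :
    A ⊓ Cfsg.pCore 2 G ≠ ⊥ := by
  intro hbot
  -- every involution of `A` inverts an element of odd order, centralised by a second involution
  have ho : ∀ a ∈ A, a * a = 1 := fun a ha => congrArg Subtype.val (IsKleinFour.mul_self (⟨a, ha⟩ : A))
  have hfour : ∀ a ∈ A, ∀ b ∈ A, a ≠ 1 → b ≠ 1 → a ≠ b → ∀ z ∈ A, z ≠ 1 →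
      z = a ∨ z = b ∨ z = a * b := by
    intro a ha b hb ha1 hb1 hab z hz hz1
    by_cases h1 : z = a
    · exact .inl h1
    by_cases h2 : z = b
    · exact .inr (.inl h2)
    exact .inr (.inr (congrArg Subtype.val (IsKleinFour.eq_mul_of_ne_all (x := (⟨a, ha⟩ : A))
      (y := ⟨b, hb⟩) (z := ⟨z, hz⟩) (by simpa using ha1) (by simpa using hb1) (by simpa using hab)
      (by simpa using hz1) (by simpa using h1) (by simpa using h2))))
  have hcomm : ∀ a ∈ A, ∀ b ∈ A, Commute a b := by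
    intro a ha b hb
    have := ho _ (mul_mem ha hb)
    calc a * b = a * (a * b * (a * b)) * b := by rw [this, mul_one]
      _ = (a * a) * (b * a) * (b * b) := by simp [mul_assoc]
      _ = b * a := by rw [ho a ha, ho b hb, one_mul, mul_one]
  have hwit : ∀ a ∈ A, a ≠ 1 → ∀ g : G, ∃ z ∈ A, z ≠ 1 ∧ Commute z (g * a * g⁻¹) := by
    intro a ha ha1 g
    obtain ⟨z, ⟨hzA, hzc⟩, hz1⟩ :=
      (Subgroup.nontrivial_iff_exists_ne_one _).mp ((Subgroup.nontrivial_iff_ne_bot _).mpr (h a ha ha1 g))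
    exact ⟨z, hzA, hz1, (Subgroup.mem_centralizer_singleton_iff.mp hzc)⟩
  have step : ∀ a ∈ A, a ≠ 1 → ∃ x : G, x ≠ 1 ∧ Odd (orderOf x) ∧ a * x * a = x⁻¹ ∧
      ∃ b ∈ A, b ≠ 1 ∧ b ≠ a ∧ Commute b x := by
    intro a ha ha1
    have hai : a⁻¹ = a := inv_eq_of_mul_eq_one_right (ho a ha)
    obtain ⟨x, hx1, hxo, hxa⟩ := S0200.result a
      (orderOf_eq_prime (by rw [sq]; exact ho a ha) ha1) (fun N hN hN2 haN => ha1 <| by
        simpa [hbot] using (show a ∈ A ⊓ Cfsg.pCore 2 G from ⟨ha, Core.le_pCore hN hN2 haN⟩))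
    rw [hai] at hxa
    obtain ⟨k, hk⟩ := exists_sq_root hxo
    obtain ⟨b, hbA, hb1, hbc⟩ := hwit a ha ha1 (x ^ k)
    rw [conj_pow_eq (ho a ha) hxa, hk] at hbc
    have hbx : Commute b x := by
      have := hbc.mul_right (hcomm b hbA a ha).inv_right
      rwa [mul_inv_cancel_right] at this
    refine ⟨x, hx1, hxo, hxa, b, hbA, hb1, ?_, hbx⟩
    rintro rfl
    rw [hbx.eq, mul_assoc, ho b hbA, mul_one] at hxa
    exact hx1 (eq_one_of_inverted hxo hxo (by simpa using hxa))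
  have hcases : ∀ u ∈ A, ∀ v ∈ A, u ≠ 1 → v ≠ 1 → u ≠ v → ∀ x y : G,
      u * x * u = x⁻¹ → Commute v x → v * y * v = y⁻¹ → Commute u y →
      x ≠ 1 → y ≠ 1 → Odd (orderOf x) → Odd (orderOf y) → False := by
    intro u hu v hv hu1 hv1 huv x y h1 h2 h3 h4 hx hy hxo hyo
    refine no_crossing (ho u hu) (ho v hv) (ho _ (mul_mem hu hv)) rfl (hcomm u hu v hv) h1 h2 h3 h4
      hx hy hxo hyo (fun g => ?_)
    have huv1 : u * v ≠ 1 := fun e => huv <| by
      rw [mul_eq_one_iff_eq_inv.mp e, inv_eq_of_mul_eq_one_right (ho v hv)]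
    obtain ⟨z, hzA, hz1, hzc⟩ := hwit _ (mul_mem hu hv) huv1 g
    rcases hfour u hu v hv hu1 hv1 huv z hzA hz1 with rfl | rfl | rfl
    · exact .inl hzc
    · exact .inr (.inl hzc)
    · exact .inr (.inr hzc)
  obtain ⟨a, ha, ha1⟩ : ∃ a ∈ A, a ≠ 1 := by
    have : Nontrivial A := Finite.one_lt_card_iff_nontrivial.mp (by rw [hA.card_four]; norm_num)
    obtain ⟨⟨a, ha⟩, ha1⟩ := exists_ne (1 : A)
    exact ⟨a, ha, fun e => ha1 (Subtype.ext e)⟩
  obtain ⟨x, hx1, hxo, hxa, b, hb, hb1, hba, hbx⟩ := step a ha ha1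
  obtain ⟨y, hy1, hyo, hyb, f, hf, hf1, hfb, hfy⟩ := step b hb hb1
  rcases hfour a ha b hb ha1 hb1 hba.symm f hf hf1 with rfl | rfl | rfl
  · exact hcases f ha b hb ha1 hb1 hba.symm x y hxa hbx hyb hfy hx1 hy1 hxo hyo
  · exact hfb rfl
  · -- here `a * b` inverts `x` and centralises `y`
    refine hcases (a * b) (mul_mem ha hb) b hb hf1 hb1 hfb x y ?_ hbx hyb hfy hx1 hy1 hxo hyo
    calc a * b * x * (a * b) = a * (b * x * b) * a := by
          rw [(hcomm a ha b hb).eq]; conv_lhs => arg 1; arg 1; rw [← (hcomm a ha b hb).eq]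
          simp [mul_assoc]
      _ = x⁻¹ := by rw [hbx.eq, mul_assoc x, ho b hb, mul_one, hxa]

end Cfsg.Agent.S3195
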