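import Cfsg.Statements.S3196
import Cfsg.Agent.Components.BaerSuzuki
import Cfsg.Agent.Core.Cores

set_option autoImplicit false
open Cfsg
open scoped commutatorElement

namespace Cfsg.Agent.S3196

section
variable {G : Type*} [Group G]

/-- The elements of a subgroup generated by two commuting elements. -/
theorem pair_form {a b g : G} (hab : Commute a b)
    (hg : g ∈ Subgroup.zpowers a ⊔ Subgroup.zpowers b) : ∃ i j : ℤ, g = a ^ i * b ^ j := by
  let S : Subgroup G :=
    { carrier := {g | ∃ i j : ℤ, g = a ^ i * b ^ j}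
      one_mem' := ⟨0, 0, by simp⟩
      mul_mem' := by
        rintro _ _ ⟨i, j, rfl⟩ ⟨i', j', rfl⟩
        refine ⟨i + i', j + j', ?_⟩
        rw [zpow_add, zpow_add, mul_assoc, ← mul_assoc (b ^ j), ← (hab.zpow_zpow i' j).eq]
        simp [mul_assoc]
      inv_mem' := by
        rintro _ ⟨i, j, rfl⟩
        exact ⟨-i, -j, by rw [mul_inv_rev, ← zpow_neg, ← zpow_neg, (hab.zpow_zpow (-i) (-j)).eq]⟩ }
  exact (sup_le (Subgroup.zpowers_le.mpr (show a ∈ S from ⟨1, 0, by simp⟩))
    (Subgroup.zpowers_le.mpr (show b ∈ S from ⟨0, 1, by simp⟩)) hg : g ∈ S)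

/-- An element generating a member of a family of subgroups of order `p`. -/
def Gen (K : Set (Subgroup G)) (g : G) : Prop := Subgroup.zpowers g ∈ K

/-- The axioms on the family, in terms of generators. -/
structure Fam (p : ℕ) (K : Set (Subgroup G)) : Prop where
  order : ∀ {a : G}, Gen K a → orderOf a = p
  conj : ∀ {a : G} (g : G), Gen K a → Gen K (g * a * g⁻¹)
  line : ∀ {a b c : G}, Gen K a → Gen K b → Commute a b → b ∉ Subgroup.zpowers a →
    c ∈ Subgroup.zpowers a ⊔ Subgroup.zpowers b → c ≠ 1 → Gen K c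
  meet : ∀ {a b w : G}, Gen K a → Gen K b → Commute a b → b ∉ Subgroup.zpowers a → Gen K w →
    ∃ c, c ∈ Subgroup.zpowers a ⊔ Subgroup.zpowers b ∧ c ≠ 1 ∧ Commute c w
  pair : ∃ a b, Gen K a ∧ Gen K b ∧ Commute a b ∧ b ∉ Subgroup.zpowers a

variable {p : ℕ} [hp : Fact p.Prime] {K : Set (Subgroup G)}

theorem mem_of_ne_one {a c : G} (ha : orderOf a = p) (hc : c ∈ Subgroup.zpowers a) (hne : c ≠ 1) :
    a ∈ Subgroup.zpowers c := by
  have hfin : Finite (Subgroup.zpowers a) := Nat.finite_of_card_ne_zero (by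
    rw [Nat.card_zpowers, ha]; exact hp.out.ne_zero)
  have hle : Subgroup.zpowers c ≤ Subgroup.zpowers a := Subgroup.zpowers_le.mpr hc
  have hcp : orderOf c = p := by
    refine orderOf_eq_prime ?_ hne
    obtain ⟨k, rfl⟩ := hc
    show (a ^ k) ^ p = 1
    rw [← zpow_natCast, ← zpow_mul, mul_comm, zpow_mul, zpow_natCast, ← ha, pow_orderOf_eq_one,
      one_zpow]
  rw [Subgroup.eq_of_le_of_card_ge hle (by rw [Nat.card_zpowers, Nat.card_zpowers, ha, hcp])]
  exact Subgroup.mem_zpowers a

theorem commute_of_mem {a c y : G} (hc : c ∈ Subgroup.zpowers a) (h : Commute a y) :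
    Commute c y := by
  obtain ⟨k, rfl⟩ := hc
  exact h.zpow_left k

namespace Fam

variable (F : Fam p K)
include F

theorem ne_one {a : G} (ha : Gen K a) : a ≠ 1 := fun h => hp.out.ne_one <| by
  rw [← F.order ha, h, orderOf_one]

theorem commute_of_pow {a y : G} {i : ℤ} (ha : Gen K a) (hi : a ^ i ≠ 1) (h : Commute (a ^ i) y) :
    Commute a y :=
  commute_of_mem (mem_of_ne_one (F.order ha) (Subgroup.zpow_mem_zpowers a i) hi) h

/-- Members commuting with `w` lie on lines through `w` and a common neighbour of `w` and `x`. -/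
theorem rep {w x u : G} (hw : Gen K w) (hx : Gen K x) (hwx : ¬ Commute w x) (hu : Gen K u)
    (huw : Commute u w) : u ∈ Subgroup.zpowers w ∨
      ∃ r, Gen K r ∧ Commute r w ∧ Commute r x ∧ ∃ i j : ℤ, u = r ^ i * w ^ j := by
  by_cases hmem : u ∈ Subgroup.zpowers w
  · exact .inl hmem
  obtain ⟨c, hc, hc1, hcx⟩ := F.meet hw hu huw.symm hmem hx
  have hcK : Gen K c := F.line hw hu huw.symm hmem hc hc1
  obtain ⟨i, j, rfl⟩ := pair_form huw.symm hc
  have hj : u ^ j ≠ 1 := fun e => by
    rw [e, mul_one] at hcx hc1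
    exact hwx (F.commute_of_pow hw hc1 hcx)
  refine .inr ⟨_, hcK, ((Commute.refl w).zpow_left i).mul_left (huw.zpow_left j), hcx, ?_⟩
  obtain ⟨k, hk⟩ := mem_of_ne_one (F.order hu) (Subgroup.zpow_mem_zpowers u j) hj
  refine ⟨k, -(i * k), ?_⟩
  have hkk : (u ^ j) ^ k = u := hk
  rw [(huw.symm.zpow_zpow i j).mul_zpow, ← zpow_mul w, hkk,
    (huw.symm.zpow_left (i * k)).eq, zpow_neg, mul_inv_cancel_right]

/-- If `x * w * x⁻¹` does not commute with `w`, a member commuting with both commutes with `x`. -/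
theorem commute_x {w x u : G} (hw : Gen K w) (hx : Gen K x)
    (hbad : ¬ Commute w (x * w * x⁻¹)) (hu : Gen K u) (huw : Commute u w)
    (huw' : Commute u (x * w * x⁻¹)) : Commute u x := by
  have hwx : ¬ Commute w x := fun h => hbad (by rw [← h.eq, mul_inv_cancel_right])
  rcases F.rep hw hx hwx hu huw with hmem | ⟨r, -, hrw, hrx, i, j, rfl⟩
  · exact absurd (commute_of_mem (mem_of_ne_one (F.order hw) hmem (F.ne_one hu)) huw') hbad
  · have hrw' : Commute r (x * w * x⁻¹) := (hrx.mul_right hrw).mul_right hrx.inv_right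
    have hwj : Commute (w ^ j) (x * w * x⁻¹) := by
      have := (hrw'.zpow_left i).inv_left.mul_left huw'
      rwa [inv_mul_cancel_left] at this
    by_cases hj : w ^ j = 1
    · rw [hj, mul_one]; exact hrx.zpow_left i
    · exact absurd (F.commute_of_pow hw hj hwj) hbad

/-- If `x * w * x⁻¹` does not commute with `w`, the members commuting with `w` commute in pairs. -/
theorem clique {w x u₁ u₂ : G} (hw : Gen K w) (hx : Gen K x)
    (hbad : ¬ Commute w (x * w * x⁻¹)) (h₁ : Gen K u₁) (h₁w : Commute u₁ w) (h₂ : Gen K u₂)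
    (h₂w : Commute u₂ w) : Commute u₁ u₂ := by
  have hwx : ¬ Commute w x := fun h => hbad (by rw [← h.eq, mul_inv_cancel_right])
  have hM : ∀ r y, Gen K r → Commute r w → Commute r x → Gen K y → Commute y w → Commute y x →
      Commute r y := by
    intro r y hr hrw hrx hy hyw hyx
    have hmem : y ∉ Subgroup.zpowers x := fun h =>
      hwx (commute_of_mem (mem_of_ne_one (F.order hx) h (F.ne_one hy)) hyw).symm
    have hz1 : x * y ≠ 1 := fun e => hwx <| by
      rw [mul_eq_one_iff_eq_inv.mp e]; exact hyw.inv_left.symm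
    have hz : Gen K (x * y) := F.line hx hy hyx.symm hmem
      (mul_mem (Subgroup.mem_sup_left (Subgroup.mem_zpowers x))
        (Subgroup.mem_sup_right (Subgroup.mem_zpowers y))) hz1
    have hzw : x * y * w * (x * y)⁻¹ = x * w * x⁻¹ := by
      rw [mul_assoc x y w, hyw.eq]; simp [mul_assoc]
    have hrw' : Commute r (x * y * w * (x * y)⁻¹) := by
      rw [hzw]; exact (hrx.mul_right hrw).mul_right hrx.inv_right
    have hrz : Commute r (x * y) := F.commute_x hw hz (by rwa [hzw]) hr hrw hrw'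
    have := hrx.inv_right.mul_right hrz
    rwa [inv_mul_cancel_left] at this
  rcases F.rep hw hx hwx h₁ h₁w with hmem | ⟨r₁, hr₁, hr₁w, hr₁x, i₁, j₁, rfl⟩
  · exact commute_of_mem hmem h₂w.symm
  rcases F.rep hw hx hwx h₂ h₂w with hmem | ⟨r₂, hr₂, hr₂w, hr₂x, i₂, j₂, rfl⟩
  · exact (commute_of_mem hmem h₁w.symm).symm
  have h12 := hM r₁ r₂ hr₁ hr₁w hr₁x hr₂ hr₂w hr₂x
  exact ((h12.zpow_zpow i₁ i₂).mul_right (hr₁w.zpow_zpow i₁ j₂)).mul_left
    ((hr₂w.symm.zpow_zpow j₁ i₂).mul_right ((Commute.refl w).zpow_zpow j₁ j₂))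

/-- Each member lies on a line. -/
theorem neighbour {x : G} (hx : Gen K x) :
    ∃ y, Gen K y ∧ Commute x y ∧ y ∉ Subgroup.zpowers x := by
  obtain ⟨a, b, ha, hb, hab, hne⟩ := F.pair
  obtain ⟨c, hc, hc1, hcx⟩ := F.meet ha hb hab hne hx
  have hcK : Gen K c := F.line ha hb hab hne hc hc1
  by_cases hmem : c ∈ Subgroup.zpowers x
  · obtain ⟨i, j, rfl⟩ := pair_form hab hc
    have hxc := mem_of_ne_one (F.order hx) hmem hc1
    have hax : Commute x a := commute_of_mem hxc
      (((Commute.refl a).zpow_left i).mul_left (hab.symm.zpow_left j))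
    have hbx : Commute x b := commute_of_mem hxc
      ((hab.zpow_left i).mul_left ((Commute.refl b).zpow_left j))
    by_cases ha' : a ∈ Subgroup.zpowers x
    · refine ⟨b, hb, hbx, fun hb' => hne ?_⟩
      have hxa := mem_of_ne_one (F.order hx) ha' (F.ne_one ha)
      obtain ⟨l, rfl⟩ := hb'
      exact zpow_mem hxa l
    · exact ⟨a, ha, hax, ha'⟩
  · exact ⟨c, hcK, hcx.symm, hmem⟩

/-- Either some member commutes with all, or each member commutes with its conjugates by members. -/
theorem universal_or_abelian :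
    (∃ v, Gen K v ∧ ∀ s, Gen K s → Commute v s) ∨
      ∀ w x, Gen K w → Gen K x → Commute w (x * w * x⁻¹) := by
  by_contra hcon
  push Not at hcon
  obtain ⟨huniv, w, x, hw, hx, hbad⟩ := hcon
  have hwx : ¬ Commute w x := fun h => hbad (by rw [← h.eq, mul_inv_cancel_right])
  -- a common neighbour `r` of `w` and `x`
  obtain ⟨y, hy, hxy, hyne⟩ := F.neighbour hx
  obtain ⟨r, hr_mem, hr1, hrw⟩ := F.meet hx hy hxy hyne hw
  have hr : Gen K r := F.line hx hy hxy hyne hr_mem hr1
  have hrx : Commute r x := by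
    obtain ⟨i, j, rfl⟩ := pair_form hxy hr_mem
    exact ((Commute.refl x).zpow_left i).mul_left (hxy.symm.zpow_left j)
  obtain ⟨s, hs, hrs⟩ := huniv r hr
  have hsw : ¬ Commute s w := fun h => hrs (F.clique hw hx hbad hr hrw hs h)
  have hne : w ∉ Subgroup.zpowers r := fun h => hwx (commute_of_mem h hrx)
  obtain ⟨q, hq_mem, hq1, hqs⟩ := F.meet hr hw hrw hne hs
  have hq : Gen K q := F.line hr hw hrw hne hq_mem hq1
  obtain ⟨i, j, rfl⟩ := pair_form hrw hq_mem
  have hwj : w ^ j ≠ 1 := fun e => by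
    rw [e, mul_one] at hqs hq1
    exact hrs (F.commute_of_pow hr hq1 hqs)
  -- the conjugate of `r ^ i * w ^ j` by `x` does not commute with it
  have hrw' : Commute r (x * w * x⁻¹) := (hrx.mul_right hrw).mul_right hrx.inv_right
  have hq' : ¬ Commute (r ^ i * w ^ j) (x * (r ^ i * w ^ j) * x⁻¹) := by
    intro h
    rw [← conj_mul, ← conj_zpow, ← conj_zpow] at h
    rw [show x * r * x⁻¹ = r by rw [← hrx.eq, mul_inv_cancel_right]] at h
    have h1 : Commute (r ^ i * w ^ j) ((x * w * x⁻¹) ^ j) := by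
      have := (((Commute.refl r).zpow_zpow i i).mul_left (hrw.symm.zpow_zpow j i)).inv_right.mul_right h
      rwa [inv_mul_cancel_left] at this
    have h2 : Commute (w ^ j) ((x * w * x⁻¹) ^ j) := by
      have := (hrw'.zpow_zpow i j).inv_left.mul_left h1
      rwa [inv_mul_cancel_left] at this
    have h3 : Commute w ((x * w * x⁻¹) ^ j) := F.commute_of_pow hw hwj h2
    have hne' : (x * w * x⁻¹) ^ j ≠ 1 := by
      rw [conj_zpow]; exact fun e => hwj (conj_eq_one_iff.mp e)
    exact hbad (F.commute_of_pow (F.conj x hw) hne' h3.symm).symm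
  exact hrs (F.clique hq hx hq'
    hr (((Commute.refl r).zpow_right i).mul_right (hrw.zpow_right j)) hs hqs.symm)

variable [Finite G]

/-- The members commuting in pairs with their conjugates, any two generate a `p`-group. -/
theorem isPGroup_pair (hA : ∀ w x, Gen K w → Gen K x → Commute w (x * w * x⁻¹)) {w x : G}
    (hw : Gen K w) (hx : Gen K x) :
    IsPGroup p ↥(Subgroup.zpowers x ⊔ Subgroup.zpowers w) := by
  set T : Set G := Set.range fun k : ℤ => x ^ k * w * (x ^ k)⁻¹ with hT
  have hxk : ∀ k : ℤ, Commute w (x ^ k * w * (x ^ k)⁻¹) := by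
    intro k
    by_cases hk : x ^ k = 1
    · simp [hk]
    · refine hA w _ hw ?_
      show Subgroup.zpowers (x ^ k) ∈ K
      rw [show Subgroup.zpowers (x ^ k) = Subgroup.zpowers x from le_antisymm
        (Subgroup.zpowers_le.mpr (Subgroup.zpow_mem_zpowers x k))
        (Subgroup.zpowers_le.mpr
          (mem_of_ne_one (F.order hx) (Subgroup.zpow_mem_zpowers x k) hk))]
      exact hx
  have hcomm : ∀ a ∈ T, ∀ b ∈ T, Commute a b := by
    rintro _ ⟨k, rfl⟩ _ ⟨l, rfl⟩
    have e : x ^ k * (x ^ (l - k) * w * (x ^ (l - k))⁻¹) * (x ^ k)⁻¹ = x ^ l * w * (x ^ l)⁻¹ := by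
      rw [sub_eq_add_neg, add_comm, zpow_add, zpow_neg]
      conv_rhs => rw [← mul_inv_cancel_left (x ^ k) (x ^ l)]
      simp [mul_assoc, ((Commute.refl x).zpow_zpow l (-k)).eq]
    show Commute (x ^ k * w * (x ^ k)⁻¹) (x ^ l * w * (x ^ l)⁻¹)
    rw [← e]
    exact (hxk (l - k)).map (MulAut.conj (x ^ k)).toMonoidHom
  set N := Subgroup.closure T with hN
  have hNc : ∀ a ∈ N, ∀ b ∈ N, Commute a b := by
    have h1 : N ≤ Subgroup.centralizer T := (Subgroup.closure_le _).mpr fun a ha =>
      Subgroup.mem_centralizer_iff.mpr fun b hb => (hcomm b hb a ha).eq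
    have h2 : N ≤ Subgroup.centralizer (N : Set G) := (Subgroup.closure_le _).mpr fun a ha =>
      Subgroup.mem_centralizer_iff.mpr fun b hb =>
        ((Subgroup.mem_centralizer_iff.mp (h1 hb)) a ha).symm
    exact fun a ha b hb => ((Subgroup.mem_centralizer_iff.mp (h2 ha)) b hb).symm
  have hNp : IsPGroup p ↥N := by
    have : ∀ a ∈ N, a ^ p = 1 := fun a ha => by
      induction ha using Subgroup.closure_induction with
      | mem a ha =>
        obtain ⟨k, rfl⟩ := ha
        rw [conj_pow, show w ^ p = 1 by rw [← F.order hw, pow_orderOf_eq_one], mul_one,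
          mul_inv_cancel]
      | one => exact one_pow p
      | mul a b ha hb iha ihb => rw [(hNc a ha b hb).mul_pow, iha, ihb, one_mul]
      | inv a _ iha => rw [inv_pow, iha, inv_one]
    exact fun a => ⟨1, Subtype.ext (by simpa using this a a.2)⟩
  have hnorm : Subgroup.zpowers x ≤ Subgroup.normalizer (N : Set G) := by
    refine Subgroup.zpowers_le.mpr ?_
    have hmap : N.map (MulAut.conj x).toMonoidHom ≤ N := by
      rw [hN, MonoidHom.map_closure, Subgroup.closure_le]
      rintro _ ⟨_, ⟨k, rfl⟩, rfl⟩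
      refine Subgroup.subset_closure ⟨1 + k, ?_⟩
      simp [zpow_add, mul_assoc]
    have heq := Subgroup.eq_of_le_of_card_ge hmap
      (by rw [Subgroup.card_map_of_injective (MulAut.conj x).injective])
    refine Subgroup.mem_normalizer_iff.mpr fun a => ⟨fun ha => hmap ⟨a, ha, rfl⟩, fun ha => ?_⟩
    rw [← heq] at ha
    obtain ⟨b, hb, hbe⟩ := ha
    have : b = a := mul_left_cancel (mul_right_cancel (show x * b * x⁻¹ = x * a * x⁻¹ from hbe))
    exact this ▸ hb
  have hxp : IsPGroup p ↥(Subgroup.zpowers x) :=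
    IsPGroup.of_card (n := 1) (by rw [Nat.card_zpowers, F.order hx, pow_one])
  refine (IsPGroup.to_sup_of_normal_right' hxp hNp hnorm).to_le
    (sup_le_sup_left (Subgroup.zpowers_le.mpr (Subgroup.subset_closure (show w ∈ T from ⟨0, by simp⟩))) _)

/-- A member commuting with all exists. -/
theorem exists_universal : ∃ v, Gen K v ∧ ∀ s, Gen K s → Commute v s := by
  rcases F.universal_or_abelian with h | hA
  · exact h
  by_contra hcon
  push Not at hcon
  set D : Set (Subgroup G) := {X | ∃ a, Gen K a ∧ Subgroup.zpowers a = X} with hD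
  obtain ⟨P⟩ : Nonempty (Sylow p G) := inferInstance
  have hP : ∀ a, Gen K a → a ∈ (P : Subgroup G) := fun a ha =>
    Components.baer_suzuki_sylow D
      (by rintro _ ⟨b, hb, rfl⟩ g; exact ⟨_, F.conj g hb, (MonoidHom.map_zpowers (MulAut.conj g).toMonoidHom b).symm⟩)
      (by rintro _ ⟨b, hb, rfl⟩ _ ⟨c, hc, rfl⟩; exact F.isPGroup_pair hA hc hb)
      _ ⟨a, ha, rfl⟩ P (Subgroup.mem_zpowers a)
  haveI := P.2.isNilpotent
  have hstep : ∀ n, ∃ a, Gen K a ∧ a ∈ (P : Subgroup G).lowerCentralSeries n := by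
    intro n
    induction n with
    | zero =>
      obtain ⟨a, -, ha, -⟩ := F.pair
      exact ⟨a, ha, hP a ha⟩
    | succ n ih =>
      obtain ⟨w, hw, hwn⟩ := ih
      obtain ⟨x, hx, hwx⟩ := hcon w hw
      refine ⟨⁅w, x⁆, ?_, ?_⟩
      · -- the commutator generates a member
        have hc := hA w x hw hx
        have hne1 : ⁅w, x⁆ ≠ 1 := fun e => hwx (commutatorElement_eq_one_iff_mul_comm.mp e)
        have e : ⁅w, x⁆ = w * (x * w * x⁻¹)⁻¹ := by simp [commutatorElement_def, mul_assoc]
        have hc' : Gen K (x * w * x⁻¹) := F.conj x hw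
        rw [e] at hne1 ⊢
        by_cases hmem : x * w * x⁻¹ ∈ Subgroup.zpowers w
        · show Subgroup.zpowers (w * (x * w * x⁻¹)⁻¹) ∈ K
          have h0 : w * (x * w * x⁻¹)⁻¹ ∈ Subgroup.zpowers w :=
            mul_mem (Subgroup.mem_zpowers w) (inv_mem hmem)
          rw [show Subgroup.zpowers (w * (x * w * x⁻¹)⁻¹) = Subgroup.zpowers w from le_antisymm
            (Subgroup.zpowers_le.mpr h0)
            (Subgroup.zpowers_le.mpr (mem_of_ne_one (F.order hw) h0 hne1))]
          exact hw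
        · exact F.line hw hc' hc hmem
            (mul_mem (Subgroup.mem_sup_left (Subgroup.mem_zpowers w))
              (inv_mem (Subgroup.mem_sup_right (Subgroup.mem_zpowers _)))) hne1
      · rw [Subgroup.lowerCentralSeries_succ]
        exact Subgroup.commutator_mem_commutator hwn (hP x hx)
  obtain ⟨a, ha, han⟩ := hstep (Group.nilpotencyClass (P : Subgroup G))
  rw [Subgroup.lowerCentralSeries_eq_bot_of_nilpotencyClass_le le_rfl] at han
  exact F.ne_one ha (Subgroup.mem_bot.mp han)

end Fam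

end

/-- Let p be a prime and K a set of subgroups of order p of a finite group G, closed under conjugation, such that at least two distinct members of K commute elementwise, and whenever two distinct members X, Y of K commute: every subgroup of order p of the group XY they generate belongs to K, and every member W of K has centralizer meeting XY nontrivially. Then some member V of K commutes elementwise with every member of K and lies in O_p(G); in particular G is not simple. -/
theorem result {G : Type*} [Group G] [Finite G]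
    {p : ℕ} (hp : p.Prime) (K : Set (Subgroup G)) (hK : ∀ X ∈ K, Nat.card ↥X = p)
    (hKc : ∀ X ∈ K, ∀ g : G, X.map (MulAut.conj g).toMonoidHom ∈ K)
    (hex : ∃ X ∈ K, ∃ Y ∈ K, X ≠ Y ∧ ∀ x ∈ X, ∀ y ∈ Y, x * y = y * x)
    (ha : ∀ X ∈ K, ∀ Y ∈ K, X ≠ Y → (∀ x ∈ X, ∀ y ∈ Y, x * y = y * x) →
      ∀ Z : Subgroup G, Z ≤ X ⊔ Y → Nat.card ↥Z = p → Z ∈ K)
    (hb : ∀ X ∈ K, ∀ Y ∈ K, X ≠ Y → (∀ x ∈ X, ∀ y ∈ Y, x * y = y * x) →
      ∀ W ∈ K, (X ⊔ Y) ⊓ Subgroup.centralizer (W : Set G) ≠ ⊥) :
    (∃ V ∈ K, (∀ W ∈ K, ∀ v ∈ V, ∀ w ∈ W, v * w = w * v) ∧ V ≤ Cfsg.pCore p G) ∧ ¬ IsSimpleGroup G := by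
  haveI : Fact p.Prime := ⟨hp⟩
  have ha' := ha
  have hb' := hb
  have hfin : ∀ X ∈ K, ∀ a ∈ X, a ≠ 1 → Subgroup.zpowers a = X := by
    intro X hX a ha ha1
    refine Subgroup.eq_of_le_of_card_ge (Subgroup.zpowers_le.mpr ha) ?_
    rw [hK X hX, Nat.card_zpowers]
    have hdvd : orderOf a ∣ p := hK X hX ▸ Subgroup.orderOf_dvd_natCard X ha
    rcases hp.eq_one_or_self_of_dvd _ hdvd with h | h
    · exact absurd (orderOf_eq_one_iff.mp h) ha1
    · rw [h]
  have hgen : ∀ X ∈ K, ∃ a, Gen K a ∧ Subgroup.zpowers a = X := by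
    intro X hX
    have : Nontrivial X := Finite.one_lt_card_iff_nontrivial.mp (by rw [hK X hX]; exact hp.one_lt)
    obtain ⟨⟨a, ha⟩, ha1⟩ := exists_ne (1 : X)
    have h := hfin X hX a ha (fun e => ha1 (Subtype.ext e))
    exact ⟨a, by rw [Gen, h]; exact hX, h⟩
  have horder : ∀ a, Gen K a → orderOf a = p := fun a ha => (Nat.card_zpowers a).symm.trans (hK _ ha)
  have hcommz : ∀ a b : G, Commute a b →
      ∀ x ∈ Subgroup.zpowers a, ∀ y ∈ Subgroup.zpowers b, x * y = y * x := fun a b h x hx y hy =>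
    (commute_of_mem hx (commute_of_mem hy h.symm).symm).eq
  have hne : ∀ a b : G, b ∉ Subgroup.zpowers a → Subgroup.zpowers a ≠ Subgroup.zpowers b :=
    fun a b h e => h (e ▸ Subgroup.mem_zpowers b)
  have F : Fam p K :=
    { order := fun {a} ha => horder a ha
      conj := fun {a} g ha => by
        show Subgroup.zpowers (g * a * g⁻¹) ∈ K
        have h := hKc _ ha g
        rw [MonoidHom.map_zpowers] at h
        exact h
      line := fun {a b c} ha hb hab hmem hc hc1 => by
        refine ha' _ ha _ hb (hne a b hmem) (hcommz a b hab) _ (Subgroup.zpowers_le.mpr hc) ?_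
        rw [Nat.card_zpowers]
        refine orderOf_eq_prime ?_ hc1
        obtain ⟨i, j, rfl⟩ := pair_form hab hc
        rw [(hab.zpow_zpow i j).mul_pow, ← zpow_natCast (a ^ i), ← zpow_natCast (b ^ j),
          zpow_comm a, zpow_comm b, zpow_natCast, zpow_natCast, ← horder a ha]
        rw [pow_orderOf_eq_one, horder a ha, ← horder b hb, pow_orderOf_eq_one, one_zpow, one_zpow,
          one_mul]
      meet := fun {a b w} ha hb hab hmem hw => by
        obtain ⟨c, ⟨hc, hcw⟩, hc1⟩ := (Subgroup.nontrivial_iff_exists_ne_one _).mp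
          ((Subgroup.nontrivial_iff_ne_bot _).mpr
            (hb' _ ha _ hb (hne a b hmem) (hcommz a b hab) _ hw))
        exact ⟨c, hc, hc1,
          ((Subgroup.mem_centralizer_iff.mp hcw) w (Subgroup.mem_zpowers w)).symm⟩
      pair := by
        obtain ⟨X, hX, Y, hY, hXY, hcomm⟩ := hex
        obtain ⟨a, ha, rfl⟩ := hgen X hX
        obtain ⟨b, hb, rfl⟩ := hgen Y hY
        refine ⟨a, b, ha, hb, hcomm a (Subgroup.mem_zpowers a) b (Subgroup.mem_zpowers b),
          fun h => hXY ?_⟩
        exact (hfin _ hX b h (fun e => hp.ne_one (by rw [← horder b hb, e, orderOf_one]))).symm }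
  obtain ⟨v, hv, huniv⟩ := F.exists_universal
  -- the normal closure of a universal member is an abelian `p`-group
  set N := Subgroup.normalClosure ((Subgroup.zpowers v : Subgroup G) : Set G) with hN
  have hV : Subgroup.zpowers v ≤ N := Subgroup.le_normalClosure
  have hVc : ∀ W ∈ K, ∀ y ∈ Subgroup.zpowers v, ∀ w ∈ W, y * w = w * y := by
    intro W hW y hy w hw
    obtain ⟨a, ha, rfl⟩ := hgen W hW
    exact hcommz v a (huniv a ha) y hy w hw
  have hS : ∀ s ∈ Group.conjugatesOfSet ((Subgroup.zpowers v : Subgroup G) : Set G),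
      s ^ p = 1 ∧ ∀ t ∈ Group.conjugatesOfSet ((Subgroup.zpowers v : Subgroup G) : Set G),
        Commute s t := by
    intro s hs
    obtain ⟨y, hy, hys⟩ := Group.mem_conjugatesOfSet_iff.mp hs
    obtain ⟨g, rfl⟩ := isConj_iff.mp hys
    obtain ⟨k, rfl⟩ := hy
    refine ⟨?_, fun t ht => ?_⟩
    · show (g * v ^ k * g⁻¹) ^ p = 1
      rw [conj_pow, ← zpow_natCast, zpow_comm, zpow_natCast, ← horder v hv, pow_orderOf_eq_one,
        one_zpow, mul_one, mul_inv_cancel]
    obtain ⟨y', hy', hyt⟩ := Group.mem_conjugatesOfSet_iff.mp ht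
    obtain ⟨f, rfl⟩ := isConj_iff.mp hyt
    obtain ⟨l, rfl⟩ := hy'
    have h1 := (huniv _ (F.conj (g⁻¹ * f) hv)).zpow_zpow k l
    rw [conj_zpow] at h1
    have h := h1.map (MulAut.conj g).toMonoidHom
    simpa [mul_assoc] using h
  have hNc : ∀ a ∈ N, ∀ b ∈ N, Commute a b := by
    have h1 : N ≤ Subgroup.centralizer
        (Group.conjugatesOfSet ((Subgroup.zpowers v : Subgroup G) : Set G)) :=
      (Subgroup.closure_le _).mpr fun a ha =>
        Subgroup.mem_centralizer_iff.mpr fun b hb => ((hS b hb).2 a ha).eq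
    have h2 : N ≤ Subgroup.centralizer (N : Set G) := (Subgroup.closure_le _).mpr fun a ha =>
      Subgroup.mem_centralizer_iff.mpr fun b hb =>
        ((Subgroup.mem_centralizer_iff.mp (h1 hb)) a ha).symm
    exact fun a ha b hb => ((Subgroup.mem_centralizer_iff.mp (h2 ha)) b hb).symm
  have hNp : IsPGroup p ↥N := by
    have h : ∀ a ∈ N, a ^ p = 1 := fun a ha => by
      induction ha using Subgroup.closure_induction with
      | mem a ha => exact (hS a ha).1
      | one => exact one_pow p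
      | mul a b ha hb iha ihb => rw [(hNc a ha b hb).mul_pow, iha, ihb, one_mul]
      | inv a _ iha => rw [inv_pow, iha, inv_one]
    exact fun a => ⟨1, Subtype.ext (by simpa using h a a.2)⟩
  refine ⟨⟨_, hv, hVc, hV.trans (Core.le_pCore Subgroup.normalClosure_normal hNp)⟩, ?_⟩
  intro hs
  rcases hs.eq_bot_or_eq_top_of_normal N Subgroup.normalClosure_normal with h | h
  · exact F.ne_one hv (Subgroup.mem_bot.mp (h ▸ hV (Subgroup.mem_zpowers v)))
  · -- then `G` is abelian and simple, so of prime order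
    letI : CommGroup G := { ‹Group G› with
      mul_comm := fun a b => (hNc a (h ▸ Subgroup.mem_top a) b (h ▸ Subgroup.mem_top b)).eq }
    obtain ⟨X, hX, Y, hY, hXY, -⟩ := hex
    have htop : ∀ Z ∈ K, Z = ⊤ := fun Z hZ =>
      ((hs.eq_bot_or_eq_top_of_normal Z inferInstance).resolve_left (fun e => hp.ne_one <| by
        rw [← hK Z hZ, e, Subgroup.card_bot]))
    exact hXY ((htop X hX).trans (htop Y hY).symm)

end Cfsg.Agent.S3196
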