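import Cfsg.Statements.S3200
import Cfsg.Agent.Screen.KegelWielandt.Main
import Cfsg.Agent.FGS2.PRegularClasses

set_option autoImplicit false
open Cfsg
open scoped Pointwise

namespace Cfsg.Agent.S3200

/-- Let H be a finite group in which a Sylow 2-subgroup has an abelian complement (an abelian subgroup meeting it trivially whose product with it is all of H). Then H is solvable, and every subgroup and every quotient group of H again has a Sylow 2-subgroup with an abelian complement. -/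
theorem result {H : Type*} [Group H] [Finite H]
    (S : Sylow 2 H) (C : Subgroup H) (hC : IsMulCommutative ↥C) (hSC : Subgroup.IsComplement' (S : Subgroup H) C) :
    Group.IsSolvable H ∧
    (∀ L : Subgroup H, ∃ (P : Sylow 2 ↥L) (D : Subgroup ↥L), IsMulCommutative ↥D ∧ Subgroup.IsComplement' (P : Subgroup ↥L) D) ∧
    (∀ (N : Subgroup H) [N.Normal], ∃ (P : Sylow 2 (H ⧸ N)) (D : Subgroup (H ⧸ N)),
      IsMulCommutative ↥D ∧ Subgroup.IsComplement' (P : Subgroup (H ⧸ N)) D) := by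
  haveI := Fact.mk Nat.prime_two
  obtain ⟨hd, k, hk⟩ : ¬ 2 ∣ Nat.card C ∧ ∃ k, C.index = 2 ^ k := by
    have h1 : C.index = Nat.card (S : Subgroup H) := hSC.index_eq_card
    obtain ⟨j, hj⟩ := IsPGroup.iff_card.mp S.2
    refine ⟨fun hd => ?_, j, h1.trans hj⟩
    have h2 : (S : Subgroup H).index = Nat.card C := hSC.symm.index_eq_card
    exact S.not_dvd_index (h2 ▸ hd)
  have hs : Group.IsSolvable H := Agent.FGS2.isSolvable_of_abelianComplement
    (fun G _ _ _ p k hp g hg hi => Agent.FGS2.burnside_class G p k hp g hg hi) Nat.prime_two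
    ⟨C, hC, hd, k, hk⟩
  have hCh : IsPiHall ({2}ᶜ : Set ℕ) C :=
    (Agent.FGS2.isPiHall_compl_iff Nat.prime_two).mpr ⟨hd, k, hk⟩
  refine ⟨hs, fun L => ?_, fun N _ => ?_⟩
  · obtain ⟨D, hD⟩ := Agent.Core.exists_isPiHall_of_isSolvable (G := L) ({2}ᶜ : Set ℕ)
    obtain ⟨P⟩ : Nonempty (Sylow 2 L) := inferInstance
    refine ⟨P, D, ?_, Agent.Screen.KW.exists_complement_of_hall hD P⟩
    obtain ⟨K, hK, hle⟩ := Agent.Core.exists_isPiHall_ge_of_isSolvable (G := H)
      (π := ({2}ᶜ : Set ℕ)) (K := D.map L.subtype) (by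
        rw [Agent.Core.card_map_subtype]; exact hD.1)
    obtain ⟨g, hg⟩ := Agent.Core.exists_conj_eq_of_isPiHall_of_isSolvable hCh hK
    refine ⟨⟨fun a b => Subtype.ext (Subtype.ext ?_)⟩⟩
    have ha : ((a : L) : H) ∈ MulAut.conj g • C := hg.symm ▸ hle ⟨a, a.2, rfl⟩
    have hb : ((b : L) : H) ∈ MulAut.conj g • C := hg.symm ▸ hle ⟨b, b.2, rfl⟩
    rw [Agent.Core.mem_conj_smul_iff] at ha hb
    have h := congrArg Subtype.val (hC.is_comm.comm (⟨_, ha⟩ : C) ⟨_, hb⟩)
    have h' : Commute (g⁻¹ * ((a : L) : H) * g) (g⁻¹ * ((b : L) : H) * g) := h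
    simpa [mul_assoc] using (h'.map (MulAut.conj g).toMonoidHom).eq
  · obtain ⟨P⟩ : Nonempty (Sylow 2 (H ⧸ N)) := inferInstance
    have hD := Agent.Core.isPiHall_map (QuotientGroup.mk'_surjective N) hCh
    refine ⟨P, _, ?_, Agent.Screen.KW.exists_complement_of_hall hD P⟩
    refine ⟨⟨?_⟩⟩
    rintro ⟨_, a, ha, rfl⟩ ⟨_, b, hb, rfl⟩
    exact Subtype.ext (congrArg (fun z : C => ((z : H) : H ⧸ N)) (hC.is_comm.comm ⟨a, ha⟩ ⟨b, hb⟩))

end Cfsg.Agent.S3200
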