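import Cfsg.Statements.S3201
import Cfsg.Agent.Chars.QuatCentralQuot

set_option autoImplicit false
open Cfsg

namespace Cfsg.Agent.S3201

/-- Let S be a finite 2-group whose centre Z(S) has n ≥ 2 distinct maximal subgroups C₁, …, Cₙ with trivial intersection such that each quotient S/Cᵢ is a non-abelian group with exactly one involution (a generalized quaternion group). Then S is the internal direct product of an elementary abelian subgroup and a non-abelian subgroup with exactly one involution. -/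
theorem result {S : Type*} [Group S] [Finite S]
    (hS : IsPGroup 2 S) (n : ℕ) (hn : 2 ≤ n) (C : Fin n → Subgroup ↥(Subgroup.center S))
    (hCmax : ∀ i, IsCoatom (C i)) (hCinj : Function.Injective C) (hCint : ⨅ i, C i = ⊥)
    (hCq : ∀ i, ∃ (_ : ((C i).map (Subgroup.center S).subtype).Normal),
      ¬ IsMulCommutative (S ⧸ (C i).map (Subgroup.center S).subtype) ∧
      ∃! x : S ⧸ (C i).map (Subgroup.center S).subtype, orderOf x = 2) :
    ∃ E Q : Subgroup S, Cfsg.IsInternalDirectProduct E Q ⊤ ∧ Cfsg.IsElementaryAbelian 2 E ∧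
      ¬ IsMulCommutative ↥Q ∧ ∃! x : ↥Q, orderOf x = 2 := by
  let i0 : Fin n := ⟨0, by omega⟩
  obtain ⟨hN, hna, hu⟩ := hCq i0
  obtain ⟨m, r, b, hm, hrb, hrep, -, hbr, hbb, hr1, hr0, hri, hbi⟩ :=
    Cfsg.Agent.Chars.quat_central_quotient hS (C i0) (hCmax i0) hna hu
  have hcz : ∀ i (g : S), g * g ∈ (C i).map (Subgroup.center S).subtype → g ∈ Subgroup.center S := by
    intro i
    obtain ⟨hNi, hnai, hui⟩ := hCq i
    obtain ⟨_, _, _, _, _, _, h, _⟩ :=
      Cfsg.Agent.Chars.quat_central_quotient hS (C i) (hCmax i) hnai hui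
    exact h
  have hidx : ∀ i, (C i).index = 2 := fun i =>
    Cfsg.Agent.Chars.coatom_index_two (hS.to_subgroup _) (hCmax i)
  have hzero : ∀ x : ↥(Subgroup.center S), (∀ i, x ∈ C i) → x = 1 := fun x hx => by
    rw [← Subgroup.mem_bot, ← hCint, Subgroup.mem_iInf]; exact hx
  have hsq : ∀ x : ↥(Subgroup.center S), x * x = 1 := fun x => hzero _ fun i =>
    Subgroup.mul_self_mem_of_index_two (hidx i) x
  -- squares of non-central elements
  have hsame : ∀ g h : S, g ∉ Subgroup.center S → h ∉ Subgroup.center S →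
      g * g ∈ Subgroup.center S → h * h ∈ Subgroup.center S → g * g = h * h := by
    intro g h hg hh hg2 hh2
    have := hzero (⟨g * g, hg2⟩ * (⟨h * h, hh2⟩ : ↥(Subgroup.center S))⁻¹) fun i => by
      refine (Subgroup.mul_mem_iff_of_index_two (hidx i)).2 (iff_of_false ?_ ?_)
      · exact fun hc => hg (hcz i g ⟨_, hc, rfl⟩)
      · exact fun hc => hh (hcz i h ⟨_, by simpa using hc, rfl⟩)
    exact mul_inv_eq_one.1 (congrArg Subtype.val this)
  have hzc : ∀ x ∈ Subgroup.center S, ∀ g : S, g * x = x * g := fun x hx => Subgroup.mem_center_iff.1 hx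
  set z := r ^ (2 ^ m) with hzdef
  set u := r ^ (2 ^ (m - 1)) with hu'
  have huu : u * u = z := by rw [hu', hzdef, ← pow_add]; congr 1; rw [← two_mul, ← pow_succ']; congr 1; omega
  have hbnot : b ∉ Subgroup.center S := fun h => hrb (Subgroup.mem_center_iff.1 h r)
  have hbz : b * b = z := huu ▸ hsame b u hbnot hr0 hbb (huu ▸ hr1)
  have hbrnot : b * r ∉ Subgroup.center S := by simpa using hbi 1
  have hinv : b * r * b⁻¹ = r⁻¹ := by
    have h2 : b * r * (b * r) = b * r * b⁻¹ * r * z := by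
      have e1 : b * r * (b * r) = b * r * b⁻¹ * (b * b * r) := by group
      rw [e1, hbz, ← hzc z hr1 r]; group
    have h3 : b * r * (b * r) = z := by
      rw [← huu]
      exact hsame _ u hbrnot hr0 (h2 ▸ mul_mem hbr hr1) (huu ▸ hr1)
    have := h2.symm.trans h3
    rw [mul_eq_right] at this
    exact eq_inv_of_mul_eq_one_left this
  have hz1 : z * z = 1 := congrArg Subtype.val (hsq ⟨z, hr1⟩)
  have hzne : z ≠ 1 := fun h => hr0 (hcz i0 u (by rw [huu, h]; exact one_mem _))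
  have hzC : ∀ i, (⟨z, hr1⟩ : ↥(Subgroup.center S)) ∉ C i := fun i h =>
    hr0 (hcz i u (by rw [huu]; exact ⟨_, h, rfl⟩))
  have hconj : ∀ i : ℤ, b * r ^ i = r ^ (-i) * b := fun i => by
    rw [← mul_inv_eq_iff_eq_mul, ← conj_zpow, hinv, inv_zpow']
  have hzi : r ^ ((2 ^ m : ℕ) : ℤ) = z := zpow_natCast r _
  let Q : Subgroup S :=
    { carrier := {g | ∃ i : ℤ, g = r ^ i ∨ g = b * r ^ i}
      one_mem' := ⟨0, Or.inl (by simp)⟩
      mul_mem' := by
        rintro x y ⟨i, rfl | rfl⟩ ⟨j, rfl | rfl⟩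
        · exact ⟨i + j, Or.inl (zpow_add r i j).symm⟩
        · refine ⟨-i + j, Or.inr ?_⟩
          rw [zpow_add, ← mul_assoc, ← mul_assoc, hconj (-i), neg_neg]
        · exact ⟨i + j, Or.inr (by rw [mul_assoc, zpow_add])⟩
        · refine ⟨((2 ^ m : ℕ) : ℤ) + (-i + j), Or.inl ?_⟩
          rw [zpow_add, hzi, ← hbz, zpow_add, hconj i, ← mul_assoc, ← mul_assoc]
          rw [show b * b * r ^ (-i) = r ^ (-i) * b * b by
            rw [mul_assoc (r ^ (-i)), hbz, hzc z hr1]]
      inv_mem' := by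
        rintro x ⟨i, rfl | rfl⟩
        · exact ⟨-i, Or.inl (zpow_neg r i).symm⟩
        · refine ⟨((2 ^ m : ℕ) : ℤ) + i, Or.inr (inv_eq_of_mul_eq_one_right ?_)⟩
          rw [zpow_add, hzi, hconj i,
            show r ^ (-i) * b * (b * (z * r ^ i)) = r ^ (-i) * (b * b * z) * r ^ i by group,
            hbz, hz1]
          group }
  have hrQ : r ∈ Q := ⟨1, Or.inl (zpow_one r).symm⟩
  have hbQ : b ∈ Q := ⟨0, Or.inr (by simp)⟩
  have hQZ : ∀ q ∈ Q, q ∈ Subgroup.center S → q = 1 ∨ q = z := by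
    rintro q ⟨i, rfl | rfl⟩ hq
    · obtain ⟨k, rfl⟩ := hri i hq
      rw [zpow_mul, hzi]
      obtain ⟨t, rfl⟩ | ⟨t, rfl⟩ := Int.even_or_odd k
      · left; rw [← two_mul, zpow_mul, zpow_two, hz1, one_zpow]
      · right; rw [zpow_add, zpow_mul, zpow_two, hz1, one_zpow, one_mul, zpow_one]
    · exact absurd hq (hbi i)
  refine ⟨(C i0).map (Subgroup.center S).subtype, Q, ⟨le_top, le_top, ?_, ?_, ?_⟩, ⟨?_, ?_⟩, ?_, ?_⟩
  · rintro _ ⟨a, -, rfl⟩ q -
    exact (hzc _ a.2 q).symm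
  · rw [eq_bot_iff]
    rintro x ⟨⟨a, ha, rfl⟩, hq⟩
    rcases hQZ _ hq a.2 with h | h
    · exact h
    · exact absurd ha (Subtype.ext (a1 := a) (a2 := ⟨z, hr1⟩) h ▸ hzC i0)
  · rw [eq_top_iff]
    intro g _
    obtain ⟨i, y, hy, hg⟩ := hrep g
    have hyE : y ∈ (C i0).map (Subgroup.center S).subtype ⊔ Q := by
      by_cases hyC : (⟨y, hy⟩ : ↥(Subgroup.center S)) ∈ C i0
      · exact Subgroup.mem_sup_left ⟨_, hyC, rfl⟩
      · have h := (Subgroup.mul_mem_iff_of_index_two (hidx i0)).2 (iff_of_false hyC (hzC i0))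
        have h1 : y * z ∈ (C i0).map (Subgroup.center S).subtype := ⟨_, h, rfl⟩
        have h2 := mul_mem (Subgroup.mem_sup_left (T := Q) h1)
          (Subgroup.mem_sup_right (pow_mem hrQ (2 ^ m)))
        rwa [mul_assoc, ← hzdef, hz1, mul_one] at h2
    rcases hg with rfl | rfl
    · exact mul_mem (Subgroup.mem_sup_right (zpow_mem hrQ i)) hyE
    · exact mul_mem (Subgroup.mem_sup_right (mul_mem hbQ (zpow_mem hrQ i))) hyE
  · refine ⟨⟨?_⟩⟩
    rintro ⟨_, a, -, rfl⟩ ⟨_, c, -, rfl⟩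
    exact Subtype.ext (hzc _ c.2 _)
  · rintro _ ⟨a, -, rfl⟩
    exact (sq _).trans (congrArg Subtype.val (hsq a))
  · intro h
    exact hrb (congrArg Subtype.val (h.1.1 (⟨r, hrQ⟩ : Q) ⟨b, hbQ⟩))
  · refine ⟨⟨z, pow_mem hrQ (2 ^ m)⟩, ?_, ?_⟩
    · exact orderOf_eq_prime (Subtype.ext ((sq z).trans hz1)) fun h => hzne (congrArg Subtype.val h)
    · intro q hq
      have hq2 : (q : S) * q = 1 := by
        rw [← sq, ← SubmonoidClass.coe_pow, ← hq, pow_orderOf_eq_one]; rfl
      rcases hQZ q q.2 (hcz i0 q (by rw [hq2]; exact one_mem _)) with h | h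
      · exact absurd hq (by rw [show q = 1 from Subtype.ext h, orderOf_one]; norm_num)
      · exact Subtype.ext h

end Cfsg.Agent.S3201
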