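import Cfsg.Statements.S3202
import Cfsg.Agent.Chars.QuatCentralQuot

set_option autoImplicit false
open Cfsg

namespace Cfsg.Agent.S3202

/-- Let S be a finite 2-group of 2-rank exactly 2 and D a maximal subgroup of the centre of S such that S/D is a non-abelian group with exactly one involution (a generalized quaternion group). Then S has a nontrivial cyclic characteristic subgroup. -/
theorem result {S : Type*} [Group S]
    [Finite S] (hS : IsPGroup 2 S) (hr2 : Cfsg.PRankLE 2 2 S) (hr1 : ¬ Cfsg.PRankLE 2 1 S)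
    (D : Subgroup ↥(Subgroup.center S)) (hD : IsCoatom D)
    (hq : ∃ (_ : (D.map (Subgroup.center S).subtype).Normal),
      ¬ IsMulCommutative (S ⧸ D.map (Subgroup.center S).subtype) ∧
      ∃! x : S ⧸ D.map (Subgroup.center S).subtype, orderOf x = 2) :
    ∃ C : Subgroup S, C ≠ ⊥ ∧ IsCyclic ↥C ∧ C.Characteristic := by
  obtain ⟨hN, hna, hu⟩ := hq
  obtain ⟨n, r, b, -, hrb, hrep, -, hbr, hbb, -, -, -, -⟩ :=
    Cfsg.Agent.Chars.quat_central_quotient hS D hD hna hu
  set c := b * r * b⁻¹ * r⁻¹ with hc
  have hz : ∀ x ∈ Subgroup.center S, ∀ g : S, g * x = x * g := fun x hx => Subgroup.mem_center_iff.1 hx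
  have hbrb : b * r * b⁻¹ = (b * r * b⁻¹ * r) * r⁻¹ := by group
  have hcr : c * r = r * c := by
    rw [hc, hbrb]
    generalize b * r * b⁻¹ * r = z at hbr ⊢
    calc z * r⁻¹ * r⁻¹ * r = z * r⁻¹ := by group
      _ = (z * r) * r⁻¹ * r⁻¹ := by group
      _ = (r * z) * r⁻¹ * r⁻¹ := by rw [hz z hbr r]
      _ = r * (z * r⁻¹ * r⁻¹) := by group
  have hcb : b * c * b⁻¹ = c⁻¹ := by
    have h1 : b * c * b⁻¹ = b * (b * r * b⁻¹ * r) * b⁻¹ * ((b * r * b⁻¹)⁻¹ * (b * r * b⁻¹)⁻¹) := by
      rw [hc]; group
    rw [h1, hc, hbrb]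
    generalize b * r * b⁻¹ * r = z at hbr ⊢
    rw [show z * r⁻¹ * r = z by group, hz z hbr b, show z * b * b⁻¹ = z by group]
    calc z * ((z * r⁻¹)⁻¹ * (z * r⁻¹)⁻¹) = (z * r) * z⁻¹ * r * z⁻¹ := by group
      _ = (r * z) * z⁻¹ * r * z⁻¹ := by rw [hz z hbr r]
      _ = (z * r⁻¹ * r⁻¹)⁻¹ := by simp only [mul_inv_rev, inv_inv]; group
  set C := Subgroup.zpowers c with hC
  have hCn : C.Normal := by
    rw [← Subgroup.normalizer_eq_top_iff, eq_top_iff]
    have hN1 : ∀ g : S, (g * c * g⁻¹ ∈ C) → g ∈ Subgroup.normalizer (C : Set S) := fun g hg => by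
      have hle : C.map (MulAut.conj g).toMonoidHom = C := by
        refine Subgroup.eq_of_le_of_card_ge ?_ (le_of_eq ?_)
        · rw [hC, MonoidHom.map_zpowers, Subgroup.zpowers_le]; exact hg
        · exact (Nat.card_congr (Subgroup.equivMapOfInjective C _ (MulAut.conj g).injective).toEquiv)
      rw [Subgroup.mem_normalizer_iff]
      intro h
      refine ⟨fun hh => hle ▸ ⟨h, hh, rfl⟩, fun hh => ?_⟩
      obtain ⟨w, hw, hwe⟩ : g * h * g⁻¹ ∈ C.map (MulAut.conj g).toMonoidHom := hle.symm ▸ hh
      simp only [MulEquiv.coe_toMonoidHom, MulAut.conj_apply] at hwe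
      simp only [mul_left_inj, mul_right_inj] at hwe
      exact hwe ▸ hw
    have hr1 : r ∈ Subgroup.normalizer (C : Set S) := hN1 r (by
      rw [← hcr, mul_inv_cancel_right]; exact Subgroup.mem_zpowers c)
    have hb1 : b ∈ Subgroup.normalizer (C : Set S) := hN1 b (by
      rw [hcb]; exact inv_mem (Subgroup.mem_zpowers c))
    intro g _
    obtain ⟨i, z, hz', h | h⟩ := hrep g <;> subst h
    all_goals
      have hz1 : z ∈ Subgroup.normalizer (C : Set S) := hN1 z (by
        rw [← hz z hz' c, mul_inv_cancel_right]; exact Subgroup.mem_zpowers c)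
    · exact mul_mem (zpow_mem hr1 i) hz1
    · exact mul_mem (mul_mem hb1 (zpow_mem hr1 i)) hz1
  have hle : commutator S ≤ C := by
    rw [← QuotientGroup.ker_mk' C]
    set f := QuotientGroup.mk' C
    have hfc : Commute (f b) (f r) := by
      have : f (b * r * b⁻¹ * r⁻¹) = 1 := (QuotientGroup.eq_one_iff _).2 (Subgroup.mem_zpowers c)
      rw [map_mul, map_mul, map_mul, map_inv, map_inv, mul_inv_eq_one, mul_inv_eq_iff_eq_mul] at this
      exact this
    have hall : ∀ x y : S, f x * f y = f y * f x := by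
      have hcomm : ∀ x : S, Commute (f x) (f r) ∧ Commute (f x) (f b) := by
        intro x
        obtain ⟨i, z, hz', h | h⟩ := hrep x <;> subst h
        all_goals
          have hzr : Commute (f z) (f r) := by
            show f z * f r = f r * f z
            rw [← map_mul, ← map_mul, hz z hz' r]
          have hzb : Commute (f z) (f b) := by
            show f z * f b = f b * f z
            rw [← map_mul, ← map_mul, hz z hz' b]
        · simp only [map_mul, map_zpow]
          exact ⟨((Commute.refl _).zpow_left i).mul_left hzr, ((hfc.symm).zpow_left i).mul_left hzb⟩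
        · simp only [map_mul, map_zpow]
          exact ⟨(hfc.mul_left ((Commute.refl _).zpow_left i)).mul_left hzr,
            ((Commute.refl _).mul_left ((hfc.symm).zpow_left i)).mul_left hzb⟩
      intro x y
      obtain ⟨i, z, hz', h | h⟩ := hrep y <;> subst h
      all_goals
        have hxz : Commute (f x) (f z) := by
          show f x * f z = f z * f x
          rw [← map_mul, ← map_mul, hz z hz' x]
      · simp only [map_mul, map_zpow]
        exact (((hcomm x).1.zpow_right i).mul_right hxz).eq
      · simp only [map_mul, map_zpow]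
        exact (((hcomm x).2.mul_right ((hcomm x).1.zpow_right i)).mul_right hxz).eq
    refine (Subgroup.commutator_le.2 fun x _ y _ => ?_)
    rw [MonoidHom.mem_ker, map_commutatorElement]
    exact commutatorElement_eq_one_iff_commute.2 (hall x y)
  refine ⟨commutator S, ?_, ?_, inferInstance⟩
  · intro h
    apply hrb
    have := Subgroup.commutator_mem_commutator (Subgroup.mem_top r) (Subgroup.mem_top b)
    rw [show ⁅(⊤ : Subgroup S), (⊤ : Subgroup S)⁆ = commutator S from rfl, h, Subgroup.mem_bot] at this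
    exact commutatorElement_eq_one_iff_mul_comm.1 this
  · exact Subgroup.isCyclic_of_le hle

end Cfsg.Agent.S3202
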