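import Cfsg.Statements.S3206
import Cfsg.Agent.FGS3.JanRee.Covers
import Cfsg.Agent.FGS3.JanRee.Auto
-- import your own Cfsg.Agent.* helpers here

set_option autoImplicit false
open Cfsg

namespace Cfsg.Agent.S3206

/-- Let G be a non-abelian finite simple group with abelian Sylow 2-subgroups, and let t be an involution of G whose centralizer is a maximal subgroup of G and is the direct product of the subgroup generated by t with a subgroup E having a normal subgroup isomorphic to PSL(2, q), q odd and greater than 3, with trivial centralizer in E. Then every finite perfect group having a central 2-subgroup with quotient isomorphic to G has that central subgroup trivial (G has no nontrivial perfect central extension by a 2-group), and every automorphism of G of 2-power order that fixes every element of some Sylow 2-subgroup of G is inner. -/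
theorem result {G : Type*} [Group G] [Finite G] [IsSimpleGroup G]
    (hG : ¬ IsMulCommutative G) (hab : ∀ S : Sylow 2 G, IsMulCommutative ↥(S : Subgroup G))
    (t : G) (ht : orderOf t = 2) (hmax : IsCoatom (Subgroup.centralizer ({t} : Set G)))
    (E : Subgroup G) (hE : Cfsg.IsInternalDirectProduct (Subgroup.zpowers t) E (Subgroup.centralizer ({t} : Set G)))
    {F : Type*} [Field F] [Fintype F] (hFo : Odd (Fintype.card F)) (hF3 : 3 < Fintype.card F)
    (N : Subgroup ↥E) [N.Normal] (hN : Nonempty (↥N ≃* Matrix.ProjectiveSpecialLinearGroup (Fin 2) F))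
    (hNc : Subgroup.centralizer (N : Set ↥E) = ⊥) :
    (∀ (L : Type) (_ : Group L) (_ : Finite L) (Z : Subgroup L) (_ : Z.Normal), commutator L = ⊤ → Z ≤ Subgroup.center L →
        IsPGroup 2 ↥Z → Nonempty (L ⧸ Z ≃* G) → Z = ⊥) ∧
    (∀ (φ : G ≃* G) (k : ℕ), φ ^ (2 ^ k) = 1 → (∃ S : Sylow 2 G, ∀ s ∈ (S : Subgroup G), φ s = s) →
        ∃ g : G, ∀ x : G, φ x = g * x * g⁻¹) := by
  classical
  haveI : Fact (Nat.Prime 2) := ⟨Nat.prime_two⟩
  obtain ⟨e⟩ := hN
  let j : Matrix.ProjectiveSpecialLinearGroup (Fin 2) F →* G :=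
    (E.subtype.comp N.subtype).comp e.symm.toMonoidHom
  have hj : Function.Injective j :=
    (Subtype.coe_injective.comp Subtype.coe_injective).comp e.symm.injective
  have habL : ∀ P : Sylow 2 (Matrix.ProjectiveSpecialLinearGroup (Fin 2) F),
      IsMulCommutative ↥(P : Subgroup (Matrix.ProjectiveSpecialLinearGroup (Fin 2) F)) := by
    intro P
    obtain ⟨S, hS⟩ := (P.isPGroup'.map j).exists_le_sylow
    haveI := hab S
    exact ⟨⟨fun x y => Subtype.ext (hj (by
      have := congrArg Subtype.val (mul_comm' (⟨j x, hS ⟨_, x.2, rfl⟩⟩ : (S : Subgroup G)) ⟨j y, hS ⟨_, y.2, rfl⟩⟩)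
      simpa using this))⟩⟩
  obtain ⟨hL, a, b, h, aa, bb, hab', a1, b1, anb, hhb, hha, haut⟩ :=
    Cfsg.Agent.FGS3.JanRee.exists_data hFo hF3 habL
  let D : Cfsg.Agent.FGS3.JanRee.Setup G (Matrix.ProjectiveSpecialLinearGroup (Fin 2) F) :=
    { t := t, E := E, j := j, a := a, b := b, h := h
      j_inj := hj
      j_E := fun x => ((e.symm x : ↥N) : ↥E).2
      j_normal := fun g hg x => by
        refine ⟨e ⟨⟨g, hg⟩ * ((e.symm x : ↥N) : ↥E) * ⟨g, hg⟩⁻¹,
          Subgroup.Normal.conj_mem inferInstance _ (e.symm x).2 _⟩, ?_⟩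
        show _ = ((e.symm (e _) : ↥N) : ↥E).1
        rw [e.symm_apply_apply]
        rfl
      j_cent := fun g hg hc => by
        have hm : (⟨g, hg⟩ : ↥E) ∈ Subgroup.centralizer (N : Set ↥E) := fun n hn => Subtype.ext (by
          have := hc (e ⟨n, hn⟩)
          simp only [j, MonoidHom.comp_apply, MulEquiv.coe_toMonoidHom, MulEquiv.symm_apply_apply] at this
          exact this.symm)
        rw [hNc, Subgroup.mem_bot] at hm
        exact congrArg Subtype.val hm
      aa := aa, bb := bb, ab := hab', a1 := a1, b1 := b1, anb := anb, hb := hhb, ha := hha, aut := haut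
      tt := by rw [← pow_two, ← ht, pow_orderOf_eq_one]
      t1 := fun h1 => by rw [h1, orderOf_one] at ht; exact absurd ht (by norm_num)
      dp := hE }
  refine ⟨fun L _ _ Z hZ hL' hc h2 ⟨i⟩ => ?_, fun φ k hk ⟨S, hS⟩ => ?_⟩
  · let f : L →* G := i.toMonoidHom.comp (QuotientGroup.mk' Z)
    have hker : f.ker = Z := by
      ext z
      simp [f, MonoidHom.mem_ker]
    have := Cfsg.Agent.FGS3.JanRee.covers hG hab D hL' f (i.surjective.comp (QuotientGroup.mk'_surjective Z))
      (hker.symm ▸ hc) (hker.symm ▸ h2)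
    rwa [hker] at this
  · obtain ⟨g, hg⟩ := Cfsg.Agent.FGS3.JanRee.inner hG hab D hmax φ hk S hS
    exact ⟨g, fun x => by rw [hg]; rfl⟩

end Cfsg.Agent.S3206
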