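import Cfsg.Statements.S3208
import Mathlib.GroupTheory.Sylow
import Mathlib.GroupTheory.Nilpotent
import Mathlib.Data.Set.Finite.Basic
import Mathlib.Algebra.Ring.Int.Parity
-- import your own Cfsg.Agent.* helpers here

set_option autoImplicit false
open Cfsg

namespace Cfsg.Agent.S3208

/-- Let j be an involution of a finite group G, H a subgroup of G, and T a Sylow 2-subgroup of H ∩ C_G(j) containing j such that ⟨j⟩ is a characteristic subgroup of T. Then T is a Sylow 2-subgroup of H. -/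
theorem result {G : Type*} [Group G] [Finite G]
    (j : G) (hj : orderOf j = 2) (H T : Subgroup G) (hT : T ≤ H ⊓ Subgroup.centralizer ({j} : Set G)) (h2 : IsPGroup 2 ↥T)
    (hSyl : ¬ 2 ∣ T.relIndex (H ⊓ Subgroup.centralizer ({j} : Set G))) (hjT : j ∈ T)
    (hchar : ((Subgroup.zpowers j).subgroupOf T).Characteristic) :
    ¬ 2 ∣ T.relIndex H := by
  haveI : Fact (Nat.Prime 2) := ⟨Nat.prime_two⟩
  set K := H ⊓ Subgroup.centralizer ({j} : Set G) with hK
  have hTH : T ≤ H := hT.trans inf_le_left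
  obtain ⟨S, hS⟩ := (h2.of_equiv (Subgroup.subgroupOfEquivOfLe hTH).symm).exists_le_sylow
  by_cases hST : (S : Subgroup H) ≤ T.subgroupOf H
  · rw [Subgroup.relIndex, le_antisymm hS hST]
    exact S.not_dvd_index
  exfalso
  set T' := (T.subgroupOf H).subgroupOf (S : Subgroup H) with hT'
  have hlt : T' < ⊤ := lt_top_iff_ne_top.2 (fun h => hST (Subgroup.subgroupOf_eq_top.1 h))
  haveI : Group.IsNilpotent (S : Subgroup H) := S.2.isNilpotent
  have hlt' := Group.normalizerCondition_of_isNilpotent T' hlt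
  obtain ⟨x, hxN, hxT⟩ := SetLike.exists_of_lt hlt'
  set y : G := (((x : (S : Subgroup H)) : H) : G) with hy
  have hyH : y ∈ H := ((x : (S : Subgroup H)) : H).2
  have hxT' : y ∉ T := fun h => hxT (Subgroup.mem_subgroupOf.2 (Subgroup.mem_subgroupOf.2 h))
  have hnorm : ∀ a ∈ T, y * a * y⁻¹ ∈ T := by
    intro a ha
    have haS : (⟨a, hTH ha⟩ : H) ∈ (S : Subgroup H) := hS (Subgroup.mem_subgroupOf.2 ha)
    exact Subgroup.mem_subgroupOf.1 (Subgroup.mem_subgroupOf.1
      ((Subgroup.mem_normalizer_iff.1 hxN ⟨_, haS⟩).1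
        (Subgroup.mem_subgroupOf.2 (Subgroup.mem_subgroupOf.2 ha))))
  have hyN : y ∈ Subgroup.normalizer (T : Set G) := by
    rw [Subgroup.mem_normalizer_iff]
    intro a
    refine ⟨hnorm a, fun ha => ?_⟩
    have hsurj : Function.Surjective (fun b : T => (⟨y * (b : G) * y⁻¹, hnorm b b.2⟩ : T)) :=
      Finite.injective_iff_surjective.1 (fun b c hbc =>
        Subtype.ext (mul_left_cancel (mul_right_cancel (congrArg Subtype.val hbc))))
    obtain ⟨b, hbe⟩ := hsurj ⟨_, ha⟩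
    exact (mul_left_cancel (mul_right_cancel (congrArg Subtype.val hbe))) ▸ b.2
  have hyj : y * j * y⁻¹ = j := by
    haveI := hchar
    let φ : T ≃* T := Subgroup.normalizerMonoidHom T ⟨y, hyN⟩
    have hfix := Subgroup.characteristic_iff_map_eq.1 hchar φ
    have hjmem : (⟨j, hjT⟩ : T) ∈ (Subgroup.zpowers j).subgroupOf T :=
      Subgroup.mem_subgroupOf.2 (Subgroup.mem_zpowers j)
    have himg : φ ⟨j, hjT⟩ ∈ (Subgroup.zpowers j).subgroupOf T := by
      rw [← hfix]; exact Subgroup.mem_map.2 ⟨_, hjmem, rfl⟩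
    have hz : y * j * y⁻¹ ∈ Subgroup.zpowers j := Subgroup.mem_subgroupOf.1 himg
    obtain ⟨i, hi⟩ := Subgroup.mem_zpowers_iff.1 hz
    have hj2 : j ^ (2 : ℤ) = 1 := by
      rw [show (2 : ℤ) = ((2 : ℕ) : ℤ) from rfl, zpow_natCast, ← hj, pow_orderOf_eq_one]
    rcases Int.even_or_odd i with ⟨l, rfl⟩ | ⟨l, rfl⟩
    · exfalso
      rw [← two_mul, zpow_mul, hj2, one_zpow] at hi
      have hj1 : j = 1 := by
        have := congrArg (fun w => y⁻¹ * w * y) hi
        simpa [mul_assoc] using this.symm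
      rw [hj1, orderOf_one] at hj
      omega
    · rw [← hi, zpow_add, zpow_mul, hj2, one_zpow, one_mul, zpow_one]
  have hyC : y ∈ K := Subgroup.mem_inf.2 ⟨hyH, Subgroup.mem_centralizer_singleton_iff.2
    (mul_inv_eq_iff_eq_mul.1 hyj)⟩
  have hy2 : IsPGroup 2 (Subgroup.zpowers y) := by
    refine (S.2.map H.subtype).to_le ?_
    rw [Subgroup.zpowers_le]
    exact Subgroup.mem_map.2 ⟨_, (x : (S : Subgroup H)).2, rfl⟩
  have hsup : IsPGroup 2 (↥(Subgroup.zpowers y ⊔ T)) :=
    hy2.to_sup_of_normal_right' h2 ((Subgroup.zpowers_le).2 hyN)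
  set U := Subgroup.zpowers y ⊔ T with hU
  have hUK : U ≤ K := sup_le ((Subgroup.zpowers_le).2 hyC) hT
  obtain ⟨d, hd⟩ := hsup.exists_card_eq
  have hrel : T.relIndex U ∣ 2 ^ d := hd ▸ Subgroup.relIndex_dvd_card T U
  have hne : T.relIndex U ≠ 1 := by
    rw [Ne, Subgroup.relIndex_eq_one]
    exact fun h => hxT' (h (le_sup_left (a := Subgroup.zpowers y) (Subgroup.mem_zpowers y)))
  obtain ⟨e, -, he⟩ := (Nat.dvd_prime_pow Nat.prime_two).1 hrel
  have he0 : e ≠ 0 := by rintro rfl; exact hne (by rw [he, pow_zero])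
  refine hSyl ((he ▸ dvd_pow_self 2 he0 : 2 ∣ T.relIndex U).trans ?_)
  rw [← Subgroup.relIndex_mul_relIndex T U K le_sup_right hUK]
  exact dvd_mul_right _ _

end Cfsg.Agent.S3208
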