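import Cfsg.Statements.S3209
import Cfsg.Agent.Screen.SL2Pair
-- import your own Cfsg.Agent.* helpers here

set_option autoImplicit false
open Cfsg

namespace Cfsg.Agent.S3209

/-- Let L₁ ≅ SL₂(q₁) and L₂ ≅ SL₂(q₂), q₁ and q₂ odd, be elementwise-commuting subgroups of a finite group meeting in ⟨j⟩ for an involution j. Then L₁L₂ has exactly two conjugacy classes of involutions: the central involution j, and one further class (there is an involution x ≠ j in L₁L₂, and every involution of L₁L₂ other than j is conjugate to x by an element of L₁L₂). -/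
theorem result {G : Type*} [Group G] [Finite G]
    {F₁ : Type*} [Field F₁] [Fintype F₁] {F₂ : Type*} [Field F₂] [Fintype F₂]
    (hF₁ : Odd (Fintype.card F₁)) (hF₂ : Odd (Fintype.card F₂)) (L₁ L₂ : Subgroup G)
    (e₁ : ↥L₁ ≃* Matrix.SpecialLinearGroup (Fin 2) F₁) (e₂ : ↥L₂ ≃* Matrix.SpecialLinearGroup (Fin 2) F₂)
    (hc : ∀ x ∈ L₁, ∀ y ∈ L₂, x * y = y * x) (j : G) (hj : orderOf j = 2) (hm : L₁ ⊓ L₂ = Subgroup.zpowers j) :
    ∃ x ∈ L₁ ⊔ L₂, orderOf x = 2 ∧ x ≠ j ∧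
      ∀ y ∈ L₁ ⊔ L₂, orderOf y = 2 → y = j ∨ ∃ g ∈ L₁ ⊔ L₂, g * x * g⁻¹ = y := by
  have hjL : j ∈ L₁ ⊓ L₂ := hm ▸ Subgroup.mem_zpowers j
  have hj2 : j * j = 1 := by rw [← pow_two, ← hj]; exact pow_orderOf_eq_one j
  obtain ⟨a, ha, ha2⟩ := Screen.SL2Pair.exists_sq e₁ hF₁ hj hjL.1
  obtain ⟨b, hb, hb2⟩ := Screen.SL2Pair.exists_sq e₂ hF₂ hj hjL.2
  have hsplit : ∀ y ∈ L₁ ⊔ L₂, ∃ p ∈ L₁, ∃ q ∈ L₂, y = p * q := by
    intro y hy
    refine (Subgroup.closure_induction (p := fun y _ => ∃ p ∈ L₁, ∃ q ∈ L₂, y = p * q) ?_ ?_ ?_ ?_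
      (show y ∈ Subgroup.closure ((L₁ : Set G) ∪ L₂) by rwa [Subgroup.closure_union, Subgroup.closure_eq, Subgroup.closure_eq]))
    · rintro x (hx | hx)
      · exact ⟨x, hx, 1, one_mem _, (mul_one x).symm⟩
      · exact ⟨1, one_mem _, x, hx, (one_mul x).symm⟩
    · exact ⟨1, one_mem _, 1, one_mem _, (one_mul 1).symm⟩
    · rintro _ _ _ _ ⟨p, hp, q, hq, rfl⟩ ⟨p', hp', q', hq', rfl⟩
      refine ⟨p * p', L₁.mul_mem hp hp', q * q', L₂.mul_mem hq hq', ?_⟩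
      rw [mul_assoc, ← mul_assoc q, ← hc p' hp' q hq]
      group
    · rintro _ _ ⟨p, hp, q, hq, rfl⟩
      refine ⟨p⁻¹, L₁.inv_mem hp, q⁻¹, L₂.inv_mem hq, ?_⟩
      rw [mul_inv_rev]
      exact (hc _ (L₁.inv_mem hp) _ (L₂.inv_mem hq)).symm
  have hz : ∀ x ∈ L₁ ⊓ L₂, x = 1 ∨ x = j := by
    intro x hx
    rw [hm] at hx
    obtain ⟨k, rfl⟩ := Subgroup.mem_zpowers_iff.1 hx
    rcases Int.even_or_odd k with ⟨l, rfl⟩ | ⟨l, rfl⟩
    · left; rw [← two_mul, zpow_mul, zpow_two, hj2, one_zpow]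
    · right; rw [zpow_add, zpow_mul, zpow_two, hj2, one_zpow, one_mul, zpow_one]
  have hab : a * b ∈ L₁ ⊔ L₂ := Subgroup.mul_mem_sup ha hb
  have habj : a * b ≠ j := by
    intro h
    have ha' : a ∈ L₁ ⊓ L₂ := ⟨ha, by
      rw [show a = j * b⁻¹ by rw [← h, mul_inv_cancel_right]]
      exact L₂.mul_mem hjL.2 (L₂.inv_mem hb)⟩
    have hj1 : j ≠ 1 := fun h1 => by rw [h1, orderOf_one] at hj; omega
    rcases hz a ha' with h' | h' <;> rw [h'] at ha2
    · exact hj1 (by rw [← ha2, one_mul])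
    · exact hj1 (ha2.symm.trans hj2)
  haveI : Fact (Nat.Prime 2) := ⟨Nat.prime_two⟩
  refine ⟨a * b, hab, orderOf_eq_prime ?_ ?_, habj, fun y hy hy2 => ?_⟩
  · rw [(show Commute a b from hc a ha b hb).mul_pow, pow_two, pow_two, ha2, hb2, hj2]
  · intro h
    have ha' : a ∈ L₁ ⊓ L₂ := ⟨ha, by rw [eq_inv_of_mul_eq_one_left h]; exact L₂.inv_mem hb⟩
    have hj1 : j ≠ 1 := fun h1 => by rw [h1, orderOf_one] at hj; omega
    rcases hz a ha' with h' | h' <;> rw [h'] at ha2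
    · exact hj1 (by rw [← ha2, one_mul])
    · exact hj1 (ha2.symm.trans hj2)
  obtain ⟨p, hp, q, hq, rfl⟩ := hsplit y hy
  have h1 : p ^ 2 * q ^ 2 = 1 := by
    rw [← (show Commute p q from hc p hp q hq).mul_pow, ← hy2, pow_orderOf_eq_one]
  have hq2 : q ^ 2 = (p ^ 2)⁻¹ := eq_inv_of_mul_eq_one_right h1
  have hp2 : p ^ 2 ∈ L₁ ⊓ L₂ := ⟨L₁.pow_mem hp 2, by
    rw [eq_inv_of_mul_eq_one_left h1]; exact L₂.inv_mem (L₂.pow_mem hq 2)⟩
  rcases hz _ hp2 with h2 | h2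
  · left
    have hpz : p = 1 ∨ p = j := by
      by_cases hp1 : p = 1
      · exact Or.inl hp1
      right
      have h := (Linear.SL2_involution_eq_neg_one (Screen.SL2Pair.two_ne_zero_of_odd hF₁) (g := e₁ ⟨p, hp⟩)
        (fun h => hp1 (congrArg Subtype.val ((map_eq_one_iff e₁ e₁.injective).1 h)))
        (by rw [← map_mul, map_eq_one_iff e₁ e₁.injective]; exact Subtype.ext (by rw [← pow_two] ; exact h2))).trans
        (Screen.SL2Pair.image_involution e₁ hF₁ hj hjL.1).symm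
      exact congrArg Subtype.val (e₁.injective (Subtype.ext h))
    have hqz : q = 1 ∨ q = j := by
      by_cases hq1 : q = 1
      · exact Or.inl hq1
      right
      rw [h2, inv_one] at hq2
      have h := (Linear.SL2_involution_eq_neg_one (Screen.SL2Pair.two_ne_zero_of_odd hF₂) (g := e₂ ⟨q, hq⟩)
        (fun h => hq1 (congrArg Subtype.val ((map_eq_one_iff e₂ e₂.injective).1 h)))
        (by rw [← map_mul, map_eq_one_iff e₂ e₂.injective]; exact Subtype.ext (by rw [← pow_two]; exact hq2))).trans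
        (Screen.SL2Pair.image_involution e₂ hF₂ hj hjL.2).symm
      exact congrArg Subtype.val (e₂.injective (Subtype.ext h))
    rcases hpz with rfl | rfl <;> rcases hqz with rfl | rfl
    · rw [one_mul, orderOf_one] at hy2; omega
    · exact one_mul _
    · exact mul_one _
    · rw [hj2, orderOf_one] at hy2; omega
  · right
    rw [h2, inv_eq_of_mul_eq_one_right hj2] at hq2
    rw [pow_two] at h2 hq2
    obtain ⟨l, hl, hla⟩ := Screen.SL2Pair.sq_conj e₁ hF₁ hj hjL.1 ha hp ha2 h2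
    obtain ⟨m, hm', hmb⟩ := Screen.SL2Pair.sq_conj e₂ hF₂ hj hjL.2 hb hq hb2 hq2
    refine ⟨l * m, Subgroup.mul_mem_sup hl hm', ?_⟩
    have hma : m * a = a * m := (hc a ha m hm').symm
    have hlq : l⁻¹ * q = q * l⁻¹ := hc l⁻¹ (L₁.inv_mem hl) q hq
    calc l * m * (a * b) * (l * m)⁻¹ = l * (m * a) * b * m⁻¹ * l⁻¹ := by group
      _ = l * a * (m * b * m⁻¹) * l⁻¹ := by rw [hma]; group
      _ = l * a * (l⁻¹ * q) := by rw [hmb, hlq]; group
      _ = p * q := by rw [← hla]; group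

end Cfsg.Agent.S3209
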