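import Cfsg.Statements.S3210
import Cfsg.Agent.Screen.SL2Pair
-- import your own Cfsg.Agent.* helpers here

set_option autoImplicit false
open Cfsg
open scoped commutatorElement

namespace Cfsg.Agent.S3210


theorem sup_mem {G : Type*} [Group G] {A B : Subgroup G} (hc : ∀ x ∈ A, ∀ y ∈ B, x * y = y * x) {y : G}
    (hy : y ∈ A ⊔ B) : ∃ p ∈ A, ∃ q ∈ B, y = p * q := by
  refine (Subgroup.closure_induction (p := fun y _ => ∃ p ∈ A, ∃ q ∈ B, y = p * q) ?_ ?_ ?_ ?_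
    (show y ∈ Subgroup.closure ((A : Set G) ∪ B) by rwa [Subgroup.closure_union, Subgroup.closure_eq, Subgroup.closure_eq]))
  · rintro x (hx | hx)
    · exact ⟨x, hx, 1, one_mem _, (mul_one x).symm⟩
    · exact ⟨1, one_mem _, x, hx, (one_mul x).symm⟩
  · exact ⟨1, one_mem _, 1, one_mem _, (one_mul 1).symm⟩
  · rintro _ _ _ _ ⟨p, hp, q, hq, rfl⟩ ⟨p', hp', q', hq', rfl⟩
    refine ⟨p * p', A.mul_mem hp hp', q * q', B.mul_mem hq hq', ?_⟩
    rw [mul_assoc, ← mul_assoc q, ← hc p' hp' q hq]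
    group
  · rintro _ _ ⟨p, hp, q, hq, rfl⟩
    refine ⟨p⁻¹, A.inv_mem hp, q⁻¹, B.inv_mem hq, ?_⟩
    rw [mul_inv_rev]
    exact (hc _ (A.inv_mem hp) _ (B.inv_mem hq)).symm

/-- If `M` meets `A` noncentrally, a subgroup commuting with `M` lies in `B`. -/
theorem le_other {G : Type*} [Group G] {F : Type*} [Field F] [Fintype F] (hF : Odd (Fintype.card F))
    {A B M M' : Subgroup G} (e : A ≃* Matrix.SpecialLinearGroup (Fin 2) F)
    (hc : ∀ x ∈ A, ∀ y ∈ B, x * y = y * x) {j : G} (hj : orderOf j = 2) (hjA : j ∈ A) (hjB : j ∈ B)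
    (hM' : M' ≤ A ⊔ B) (hMM : ∀ x ∈ M, ∀ y ∈ M', x * y = y * x)
    (hn : ∀ l ∈ A, ∀ x ∈ M, l * x * l⁻¹ ∈ M) (hnc : ¬ M ⊓ A ≤ Subgroup.zpowers j) : M' ≤ B := by
  intro y hy
  obtain ⟨p, hp, q, hq, rfl⟩ := sup_mem hc (hM' hy)
  refine B.mul_mem ((Subgroup.zpowers_le.2 hjB) (Screen.SL2Pair.centralizer_normal e hF hj hjA inf_le_right
    (fun l hl x hx => ⟨hn l hl x hx.1, A.mul_mem (A.mul_mem hl hx.2) (A.inv_mem hl)⟩) hnc hp fun x hx => ?_)) hq
  have h1 := hMM x hx.1 _ hy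
  have h2 := hc x hx.2 q hq
  calc p * x = p * (x * q) * q⁻¹ := by group
    _ = p * q * x * q⁻¹ := by rw [h2]; group
    _ = x * p := by rw [← h1]; group

theorem not_le_zpowers {G : Type*} [Group G] [Finite G] {F : Type*} [Field F] [Fintype F]
    (hF : Odd (Fintype.card F)) {A : Subgroup G} (e : A ≃* Matrix.SpecialLinearGroup (Fin 2) F)
    {j : G} (hj : orderOf j = 2) : ¬ A ≤ Subgroup.zpowers j := by
  intro h
  have h1 := Subgroup.card_le_of_le h
  rw [Nat.card_zpowers, hj, Nat.card_congr e.toEquiv, Linear.card_SL_two] at h1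
  have hq : 3 ≤ Fintype.card F := by
    have h2 : 1 < Fintype.card F := Fintype.one_lt_card
    obtain ⟨k, hk⟩ := hF
    omega
  have h8 : 8 ≤ Fintype.card F ^ 2 - 1 := by
    have := Nat.pow_le_pow_left hq 2
    omega
  have := Nat.mul_le_mul hq h8
  omega

/-- Let G be a finite group with subgroups L₁ ≅ SL₂(q₁) and L₂ ≅ SL₂(q₂), q₁ and q₂ odd prime powers, which commute elementwise and meet in ⟨j⟩ for an involution j, and suppose L₁L₂ has index 2 in C_G(j). Then every element n of C_G(j) outside L₁L₂ either normalizes both L₁ and L₂, or conjugates L₁ onto L₂; in the second case q₁ = q₂ and there is an element n′ of C_G(j) outside L₁L₂ conjugating L₁ onto L₂ with n′² ∈ ⟨j⟩. -/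
theorem result {G : Type*} [Group G] [Finite G]
    {F₁ : Type*} [Field F₁] [Fintype F₁] {F₂ : Type*} [Field F₂] [Fintype F₂]
    (hF₁ : Odd (Fintype.card F₁)) (hF₂ : Odd (Fintype.card F₂)) (L₁ L₂ : Subgroup G)
    (e₁ : ↥L₁ ≃* Matrix.SpecialLinearGroup (Fin 2) F₁) (e₂ : ↥L₂ ≃* Matrix.SpecialLinearGroup (Fin 2) F₂)
    (hc : ∀ x ∈ L₁, ∀ y ∈ L₂, x * y = y * x) (j : G) (hj : orderOf j = 2) (hm : L₁ ⊓ L₂ = Subgroup.zpowers j)
    (hle : L₁ ⊔ L₂ ≤ Subgroup.centralizer ({j} : Set G)) (hi : (L₁ ⊔ L₂).relIndex (Subgroup.centralizer ({j} : Set G)) = 2) (n : G) (hn : n ∈ Subgroup.centralizer ({j} : Set G)) (hn' : n ∉ L₁ ⊔ L₂) :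
    (L₁.map (MulAut.conj n).toMonoidHom = L₁ ∧ L₂.map (MulAut.conj n).toMonoidHom = L₂) ∨
      (L₁.map (MulAut.conj n).toMonoidHom = L₂ ∧ Fintype.card F₁ = Fintype.card F₂ ∧
        ∃ n' ∈ Subgroup.centralizer ({j} : Set G), n' ∉ L₁ ⊔ L₂ ∧ L₁.map (MulAut.conj n').toMonoidHom = L₂ ∧ n' ^ 2 ∈ Subgroup.zpowers j) := by
  classical
  have hjm : j ∈ L₁ ⊓ L₂ := hm ▸ Subgroup.mem_zpowers j
  have hj2 : j * j = 1 := by rw [← pow_two, ← hj]; exact pow_orderOf_eq_one j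
  set X := L₁ ⊔ L₂ with hX
  set C := Subgroup.centralizer ({j} : Set G) with hCdef
  haveI hXn : (X.subgroupOf C).Normal := Subgroup.normal_of_index_eq_two hi
  have hnX : ∀ x ∈ X, n * x * n⁻¹ ∈ X := fun x hx => hXn.conj_mem ⟨x, hle hx⟩ hx ⟨n, hn⟩
  have hnX' : ∀ x ∈ X, n⁻¹ * x * n ∈ X := fun x hx => by
    simpa [Subgroup.mem_subgroupOf] using hXn.conj_mem ⟨x, hle hx⟩ hx ⟨n, hn⟩⁻¹
  have hn2 : n * n ∈ X := Subgroup.mem_subgroupOf.1 (Subgroup.mul_self_mem_of_index_two hi (⟨n, hn⟩ : C))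
  have hnj : n * j = j * n := Subgroup.mem_centralizer_singleton_iff.1 hn
  set M := L₁.map (MulAut.conj n).toMonoidHom with hMdef
  set M' := L₂.map (MulAut.conj n).toMonoidHom with hM'def
  have hMX : M ≤ X := by rintro _ ⟨x, hx, rfl⟩; exact hnX x (Subgroup.mem_sup_left hx)
  have hM'X : M' ≤ X := by rintro _ ⟨x, hx, rfl⟩; exact hnX x (Subgroup.mem_sup_right hx)
  have hMM : ∀ x ∈ M, ∀ y ∈ M', x * y = y * x := by
    rintro _ ⟨x, hx, rfl⟩ _ ⟨y, hy, rfl⟩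
    rw [← map_mul, hc x hx y hy, map_mul]
  have hjM : j ∈ M := ⟨j, hjm.1, by show n * j * n⁻¹ = j; rw [hnj, mul_inv_cancel_right]⟩
  have hjM' : j ∈ M' := ⟨j, hjm.2, by show n * j * n⁻¹ = j; rw [hnj, mul_inv_cancel_right]⟩
  let eM : M ≃* Matrix.SpecialLinearGroup (Fin 2) F₁ :=
    (L₁.equivMapOfInjective _ (MulAut.conj n).injective).symm.trans e₁
  let eM' : M' ≃* Matrix.SpecialLinearGroup (Fin 2) F₂ :=
    (L₂.equivMapOfInjective _ (MulAut.conj n).injective).symm.trans e₂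
  have hXMM : X ≤ M ⊔ M' := by
    intro x hx
    obtain ⟨p, hp, q, hq, hpq⟩ := sup_mem hc (hnX' x hx)
    rw [show x = (n * p * n⁻¹) * (n * q * n⁻¹) by
      rw [show (n * p * n⁻¹) * (n * q * n⁻¹) = n * (p * q) * n⁻¹ by group, ← hpq]; group]
    exact Subgroup.mul_mem_sup ⟨p, hp, rfl⟩ ⟨q, hq, rfl⟩
  have hMn : ∀ l ∈ X, ∀ x ∈ M, l * x * l⁻¹ ∈ M := by
    intro l hl x hx
    obtain ⟨p, hp, q, hq, rfl⟩ := sup_mem hMM (hXMM hl)
    have h := hMM x hx q hq
    rw [show p * q * x * (p * q)⁻¹ = p * (q * x * q⁻¹) * p⁻¹ by group, ← h, mul_inv_cancel_right]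
    exact M.mul_mem (M.mul_mem hp hx) (M.inv_mem hp)
  have hM'n : ∀ l ∈ X, ∀ x ∈ M', l * x * l⁻¹ ∈ M' := by
    intro l hl x hx
    obtain ⟨p, hp, q, hq, rfl⟩ := sup_mem hMM (hXMM hl)
    have hqx : q * x * q⁻¹ ∈ M' := M'.mul_mem (M'.mul_mem hq hx) (M'.inv_mem hq)
    rw [show p * q * x * (p * q)⁻¹ = p * (q * x * q⁻¹) * p⁻¹ by group, hMM p hp _ hqx, mul_inv_cancel_right]
    exact hqx
  have hc' : ∀ x ∈ L₂, ∀ y ∈ L₁, x * y = y * x := fun x hx y hy => (hc y hy x hx).symm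
  have hnc : ¬ M ⊓ L₁ ≤ Subgroup.zpowers j ∨ ¬ M ⊓ L₂ ≤ Subgroup.zpowers j := by
    by_contra hno
    push Not at hno
    refine not_le_zpowers hF₁ eM hj fun x hx => ?_
    obtain ⟨a, ha, b, hb, rfl⟩ := sup_mem hc (hMX hx)
    have haZ : a ∈ Subgroup.zpowers j := by
      refine Screen.SL2Pair.center_le e₁ hF₁ hj hjm.1 (l := ⟨a, ha⟩) ?_
      refine (MulEquivClass.apply_mem_center_iff e₁).1 (Linear.sl2_central_of_commutator_center _ fun g => ?_)
      obtain ⟨g, rfl⟩ := e₁.surjective g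
      rw [← map_commutatorElement, ← SetLike.mem_coe, Subgroup.coe_center, MulEquivClass.apply_mem_center_iff e₁, ← Subgroup.coe_center,
        SetLike.mem_coe, Subgroup.mem_center_iff]
      intro y
      have hmem : (⁅(⟨a, ha⟩ : L₁), g⁆ : L₁).1 ∈ M ⊓ L₁ := by
        refine ⟨?_, (⁅(⟨a, ha⟩ : L₁), g⁆ : L₁).2⟩
        have h1 := M.mul_mem hx (hMn g (Subgroup.mem_sup_left g.2) _ (M.inv_mem hx))
        have e1 : a * b * ((g : G) * (a * b)⁻¹ * (g : G)⁻¹) = a * g * a⁻¹ * (g : G)⁻¹ := by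
          calc a * b * ((g : G) * (a * b)⁻¹ * (g : G)⁻¹) = a * (b * g) * b⁻¹ * a⁻¹ * (g : G)⁻¹ := by group
            _ = a * g * a⁻¹ * (g : G)⁻¹ := by rw [← hc g g.2 b hb]; group
        rw [e1] at h1
        exact h1
      obtain ⟨k, hk⟩ := Subgroup.mem_zpowers_iff.1 (hno.1 hmem)
      apply Subtype.ext
      rw [Subgroup.coe_mul, Subgroup.coe_mul, ← hk]
      exact ((show Commute (y : G) j from hc y y.2 j hjm.2).zpow_right k).eq
    have hbZ : b ∈ Subgroup.zpowers j := by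
      refine Screen.SL2Pair.center_le e₂ hF₂ hj hjm.2 (l := ⟨b, hb⟩) ?_
      refine (MulEquivClass.apply_mem_center_iff e₂).1 (Linear.sl2_central_of_commutator_center _ fun g => ?_)
      obtain ⟨g, rfl⟩ := e₂.surjective g
      rw [← map_commutatorElement, ← SetLike.mem_coe, Subgroup.coe_center, MulEquivClass.apply_mem_center_iff e₂, ← Subgroup.coe_center,
        SetLike.mem_coe, Subgroup.mem_center_iff]
      intro y
      have hmem : (⁅(⟨b, hb⟩ : L₂), g⁆ : L₂).1 ∈ M ⊓ L₂ := by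
        refine ⟨?_, (⁅(⟨b, hb⟩ : L₂), g⁆ : L₂).2⟩
        have h1 := M.mul_mem hx (hMn g (Subgroup.mem_sup_right g.2) _ (M.inv_mem hx))
        have hga : (g : G) * b⁻¹ * (g : G)⁻¹ ∈ L₂ :=
          L₂.mul_mem (L₂.mul_mem g.2 (L₂.inv_mem hb)) (L₂.inv_mem g.2)
        have e1 : a * b * ((g : G) * (a * b)⁻¹ * (g : G)⁻¹) = b * g * b⁻¹ * (g : G)⁻¹ := by
          calc a * b * ((g : G) * (a * b)⁻¹ * (g : G)⁻¹)
              = a * (b * ((g : G) * b⁻¹ * (g : G)⁻¹)) * ((g : G) * a⁻¹) * (g : G)⁻¹ := by group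
            _ = (b * ((g : G) * b⁻¹ * (g : G)⁻¹)) * a * (a⁻¹ * g) * (g : G)⁻¹ := by
                rw [hc a ha _ (L₂.mul_mem hb hga), ← hc _ (L₁.inv_mem ha) g g.2]
            _ = b * g * b⁻¹ * (g : G)⁻¹ := by group
        rw [e1] at h1
        exact h1
      obtain ⟨k, hk⟩ := Subgroup.mem_zpowers_iff.1 (hno.2 hmem)
      apply Subtype.ext
      rw [Subgroup.coe_mul, Subgroup.coe_mul, ← hk]
      exact ((show Commute (y : G) j from (hc j hjm.1 y y.2).symm).zpow_right k).eq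
    exact mul_mem haZ hbZ
  rcases hnc with h | h
  · left
    have h2 : M' ≤ L₂ := le_other hF₁ e₁ hc hj hjm.1 hjm.2 hM'X hMM
      (fun l hl => hMn l (Subgroup.mem_sup_left hl)) h
    have hcM' : Nat.card M' = Nat.card L₂ := Subgroup.card_map_of_injective (MulAut.conj n).injective
    have hM'eq : M' = L₂ := Subgroup.eq_of_le_of_card_ge h2 hcM'.ge
    have h1 : M ≤ L₁ := le_other hF₂ e₂ hc' hj hjm.2 hjm.1 (by rw [sup_comm]; exact hMX)
      (fun x hx y hy => (hMM y hy x hx).symm) (fun l hl => hM'n l (Subgroup.mem_sup_right hl))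
      (by rw [hM'eq, inf_idem]; exact not_le_zpowers hF₂ e₂ hj)
    exact ⟨Subgroup.eq_of_le_of_card_ge h1 (Subgroup.card_map_of_injective (MulAut.conj n).injective).ge, hM'eq⟩
  · right
    have h2 : M' ≤ L₁ := le_other hF₂ e₂ hc' hj hjm.2 hjm.1 (by rw [sup_comm]; exact hM'X) hMM
      (fun l hl => hMn l (Subgroup.mem_sup_right hl)) h
    have h1 : M ≤ L₂ := le_other hF₁ e₁ hc hj hjm.1 hjm.2 hMX (fun x hx y hy => (hMM y hy x hx).symm)
      (fun l hl => hM'n l (Subgroup.mem_sup_left hl))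
      (by rw [inf_eq_left.2 h2]; exact not_le_zpowers hF₂ eM' hj)
    have hcM : Nat.card M = Nat.card L₁ := Subgroup.card_map_of_injective (MulAut.conj n).injective
    have hcM' : Nat.card M' = Nat.card L₂ := Subgroup.card_map_of_injective (MulAut.conj n).injective
    have hle1 := Subgroup.card_le_of_le h1
    have hle2 := Subgroup.card_le_of_le h2
    have heq : Nat.card L₁ = Nat.card L₂ := by omega
    have hMeq : M = L₂ := Subgroup.eq_of_le_of_card_ge h1 (by omega)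
    have hM'eq : M' = L₁ := Subgroup.eq_of_le_of_card_ge h2 (by omega)
    refine ⟨hMeq, ?_, ?_⟩
    · rw [Nat.card_congr e₁.toEquiv, Nat.card_congr e₂.toEquiv, Linear.card_SL_two, Linear.card_SL_two] at heq
      have h0 : 1 < Fintype.card F₁ := Fintype.one_lt_card
      have h0' : 1 < Fintype.card F₂ := Fintype.one_lt_card
      rcases Nat.lt_trichotomy (Fintype.card F₁) (Fintype.card F₂) with hlt | hlt | hlt
      · exact absurd heq (Nat.mul_lt_mul_of_lt_of_le hlt (Nat.sub_le_sub_right (Nat.pow_le_pow_left hlt.le 2) 1)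
          (by have := Nat.pow_le_pow_left (show 2 ≤ Fintype.card F₂ from h0') 2; omega)).ne
      · exact hlt
      · exact absurd heq (Nat.mul_lt_mul_of_lt_of_le hlt (Nat.sub_le_sub_right (Nat.pow_le_pow_left hlt.le 2) 1)
          (by have := Nat.pow_le_pow_left (show 2 ≤ Fintype.card F₁ from h0) 2; omega)).ne'
    -- n' = n a⁻¹ where n² = a b
    obtain ⟨a, ha, b, hb, hab⟩ := sup_mem hc hn2
    refine ⟨n * a⁻¹, C.mul_mem hn (hle (Subgroup.mem_sup_left (L₁.inv_mem ha))), fun h => hn' ?_, ?_, ?_⟩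
    · have := X.mul_mem h (Subgroup.mem_sup_left ha)
      rwa [inv_mul_cancel_right] at this
    · rw [← hMeq]
      apply le_antisymm
      · rintro _ ⟨x, hx, rfl⟩
        exact ⟨a⁻¹ * x * a, L₁.mul_mem (L₁.mul_mem (L₁.inv_mem ha) hx) ha, by simp [mul_assoc]⟩
      · rintro _ ⟨x, hx, rfl⟩
        exact ⟨a * x * a⁻¹, L₁.mul_mem (L₁.mul_mem ha hx) (L₁.inv_mem ha), by simp [mul_assoc]⟩
    · -- conjugation by n fixes n² = a b and swaps the factors
      have hna : n * a * n⁻¹ ∈ L₂ := hMeq ▸ ⟨a, ha, rfl⟩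
      have hnb : n * b * n⁻¹ ∈ L₁ := hM'eq ▸ ⟨b, hb, rfl⟩
      set c := n * a * n⁻¹ with hcdef
      set d := n * b * n⁻¹ with hddef
      have hdc : a * b = d * c := by
        rw [hc d hnb c hna, hcdef, hddef, show n * a * n⁻¹ * (n * b * n⁻¹) = n * (a * b) * n⁻¹ by group, ← hab]
        group
      have hsq : (n * a⁻¹) ^ 2 = c⁻¹ * b := by
        have hnn : n * n = a * b := hab
        have hca : c⁻¹ * a = a * c⁻¹ := (hc a ha _ (L₂.inv_mem hna)).symm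
        calc (n * a⁻¹) ^ 2 = (n * a * n⁻¹)⁻¹ * (n * n) * a⁻¹ := by rw [pow_two]; group
          _ = c⁻¹ * (a * b) * a⁻¹ := by rw [hnn]
          _ = c⁻¹ * b := by rw [hc a ha b hb]; group
      rw [hsq, ← hm]
      have h' : c * b⁻¹ = d⁻¹ * a := by
        calc c * b⁻¹ = d⁻¹ * (d * c) * b⁻¹ := by group
          _ = d⁻¹ * a := by rw [← hdc]; group
      have hmem : c * b⁻¹ ∈ L₁ ⊓ L₂ :=
        ⟨h'.symm ▸ L₁.mul_mem (L₁.inv_mem hnb) ha, L₂.mul_mem hna (L₂.inv_mem hb)⟩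
      have hcb : c⁻¹ * b = b⁻¹ * (c * b⁻¹)⁻¹ * b := by group
      rw [hcb]
      have hz := (L₁ ⊓ L₂).inv_mem hmem
      rw [← hc _ hz.1 _ (L₂.inv_mem hb), inv_mul_cancel_right]
      exact hz

end Cfsg.Agent.S3210
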