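import Cfsg.Statements.S3213
import Cfsg.Agent.Chars.SL25InSp43

set_option autoImplicit false
open Cfsg

namespace Cfsg.Agent.S3213

/-- Let F be the field with 3 elements and K the field with 5 elements. For every injective homomorphism φ from SL₂(K) into the symplectic group Sp₄(F) (4 × 4 matrices g with g J gᵀ = J for the standard alternating matrix J) and every element x of order 3 of SL₂(K), the vectors of F⁴ fixed by φ(x) form a 2-dimensional subspace that is totally isotropic for the alternating form defined by J. -/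
theorem result {F : Type*} [Field F] [Fintype F] (hF : Fintype.card F = 3)
    {K : Type*} [Field K] [Fintype K] (hK : Fintype.card K = 5)
    (φ : Matrix.SpecialLinearGroup (Fin 2) K →* ↥(Matrix.symplecticGroup (Fin 2) F)) (hφ : Function.Injective φ)
    (x : Matrix.SpecialLinearGroup (Fin 2) K) (hx : orderOf x = 3) :
    Module.finrank F ↥(LinearMap.ker (Matrix.toLin' ((φ x : Matrix (Fin 2 ⊕ Fin 2) (Fin 2 ⊕ Fin 2) F)) - LinearMap.id)) = 2 ∧
      ∀ v w : Fin 2 ⊕ Fin 2 → F, (φ x : Matrix (Fin 2 ⊕ Fin 2) (Fin 2 ⊕ Fin 2) F).mulVec v = v →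
        (φ x : Matrix (Fin 2 ⊕ Fin 2) (Fin 2 ⊕ Fin 2) F).mulVec w = w →
          dotProduct v ((Matrix.J (Fin 2) F).mulVec w) = 0 := by
  classical
  haveI : Fact (Nat.Prime 3) := ⟨by norm_num⟩
  haveI : Fact (Nat.Prime 5) := ⟨by norm_num⟩
  have hcF : CharP F 3 := charP_of_card_eq_prime (by rw [hF])
  have hcK : CharP K 5 := charP_of_card_eq_prime (by rw [hK])
  have h30 : (3 : F) = 0 := by exact_mod_cast CharP.cast_eq_zero F 3
  have h2 : (2 : F) ≠ 0 := by
    have := (CharP.cast_eq_zero_iff F 3 2).not.2 (by norm_num); simpa using this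
  let f : Matrix.SpecialLinearGroup (Fin 2) K →* ((Fin 2 ⊕ Fin 2 → F) →ₗ[F] (Fin 2 ⊕ Fin 2 → F)) :=
    { toFun := fun g => Matrix.toLin' ((φ g : Matrix (Fin 2 ⊕ Fin 2) (Fin 2 ⊕ Fin 2) F))
      map_one' := by simp; rfl
      map_mul' := fun a b => by simp [Matrix.toLin'_mul]; rfl }
  have hfapp : ∀ g v, f g v = (φ g : Matrix (Fin 2 ⊕ Fin 2) (Fin 2 ⊕ Fin 2) F).mulVec v :=
    fun g v => Matrix.toLin'_apply _ v
  have hfinj : Function.Injective f := fun a b h => hφ (Subtype.ext (Matrix.toLin'.injective h))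
  let B : (Fin 2 ⊕ Fin 2 → F) → (Fin 2 ⊕ Fin 2 → F) → F :=
    fun v w => dotProduct v ((Matrix.J (Fin 2) F).mulVec w)
  have hBinv : ∀ g v w, B (f g v) (f g w) = B v w := by
    intro g v w
    have h := (SymplecticGroup.mem_iff).1 (SymplecticGroup.transpose_mem (φ g).2)
    rw [Matrix.transpose_transpose] at h
    simp only [B, hfapp]
    rw [← Matrix.vecMul_transpose, ← Matrix.dotProduct_mulVec, Matrix.mulVec_mulVec,
      Matrix.mulVec_mulVec, h]
  have hBalt : ∀ v w, B w v = - B v w := by
    intro v w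
    simp only [B]
    rw [Matrix.dotProduct_mulVec, ← Matrix.mulVec_transpose, Matrix.J_transpose, Matrix.neg_mulVec,
      neg_dotProduct, dotProduct_comm]
  have hBnd : ∀ u, (∀ w, B u w = 0) → u = 0 := by
    intro u hu
    funext i
    have := hu ((Matrix.J (Fin 2) F).mulVec (Pi.single i (-1)))
    simp only [B, Matrix.mulVec_mulVec, Matrix.J_squared, Matrix.neg_mulVec, Matrix.one_mulVec,
      dotProduct_neg, dotProduct_single] at this
    simpa using this
  have hBl : ∀ u u' w, B (u + u') w = B u w + B u' w := fun u u' w => add_dotProduct _ _ _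
  have hBr : ∀ u w w', B u (w + w') = B u w + B u w' := fun u w w' => by
    simp only [B, Matrix.mulVec_add, dotProduct_add]
  have hx3 : x ^ 3 = 1 := hx ▸ pow_orderOf_eq_one x
  have hfv : ∀ (a b : Matrix.SpecialLinearGroup (Fin 2) K) v, f a (f b v) = f (a * b) v :=
    fun a b v => by rw [map_mul]; rfl
  set N := f x - LinearMap.id with hN
  have hNv : ∀ v, N v = f x v - v := fun v => rfl
  have hNN : ∀ v, N (N v) = f (x ^ 2) v + f x v + v := by
    intro v
    rw [hNv, hNv, map_sub, hfv, ← sq]
    funext i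
    simp only [Pi.sub_apply, Pi.add_apply]
    linear_combination (- f x v i) * h30
  have hN3 : ∀ v, N (N (N v)) = 0 := by
    intro v
    rw [hNN, hNv, map_sub, map_sub, hfv, hfv, ← pow_succ, hx3, map_one, ← sq, Module.End.one_apply]
    abel
  -- the square of `N` is self-adjoint for an alternating form, so vanishes in dimension four
  have hadj : ∀ v w, B (N (N v)) w = B v (N (N w)) := by
    intro v w
    rw [hNN, hNN, hBl, hBl, hBr, hBr]
    have e1 : B (f (x ^ 2) v) w = B v (f x w) := by
      rw [← hBinv x (f (x ^ 2) v) w, hfv, ← pow_succ', hx3, map_one, Module.End.one_apply]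
    have e2 : B (f x v) w = B v (f (x ^ 2) w) := by
      rw [← hBinv (x ^ 2) (f x v) w, hfv, ← pow_succ, hx3, map_one, Module.End.one_apply]
    rw [e1, e2]; ring
  have hself : ∀ v, B (N (N v)) v = 0 := fun v => by
    have h := hadj v v
    rw [hBalt (N (N v)) v] at h
    exact (mul_eq_zero.1 (show (2 : F) * B (N (N v)) v = 0 by linear_combination h)).resolve_left h2
  have hV : Module.finrank F (Fin 2 ⊕ Fin 2 → F) = 4 := by
    rw [Module.finrank_fintype_fun_eq_card]; rfl
  set K1 := LinearMap.ker N with hK1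
  set R1 := LinearMap.range N with hR1
  set R2 := LinearMap.range (N.comp N) with hR2
  have hrk := LinearMap.finrank_range_add_finrank_ker N
  rw [hV, ← hR1, ← hK1] at hrk
  have hR2le : Module.finrank F R2 ≤ 1 := by
    have h1 := LinearMap.finrank_range_add_finrank_ker (N.domRestrict R1)
    have h2' : LinearMap.range (N.domRestrict R1) = R2 := by
      rw [hR2, LinearMap.range_comp]; exact LinearMap.range_domRestrict _ _
    rw [h2'] at h1
    have h3 : R2 ≤ R1 ⊓ K1 := by
      rintro _ ⟨v, rfl⟩
      exact ⟨⟨N v, rfl⟩, LinearMap.mem_ker.2 (hN3 v)⟩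
    have h4 : Module.finrank F (LinearMap.ker (N.domRestrict R1)) = Module.finrank F ↥(R1 ⊓ K1) := by
      rw [LinearMap.ker_domRestrict]
      exact (Submodule.equivSubtypeMap R1 _).finrank_eq.trans (by
        congr 2; all_goals
          rw [Submodule.map_comap_subtype])
    have h5 := Submodule.finrank_mono h3
    have h6 := Submodule.finrank_mono (inf_le_right : R1 ⊓ K1 ≤ K1)
    omega
  have hNN0 : ∀ v, N (N v) = 0 := by
    by_contra hcon
    push Not at hcon
    obtain ⟨v0, hv0⟩ := hcon
    apply hv0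
    apply hBnd
    intro w
    have hu : (⟨N (N v0), v0, rfl⟩ : R2) ≠ 0 := fun h => hv0 (congrArg Subtype.val h)
    obtain ⟨c, hc⟩ := (finrank_eq_one_iff_of_nonzero' (⟨N (N v0), v0, rfl⟩ : R2) hu).1
      (le_antisymm hR2le (Module.finrank_pos_iff_exists_ne_zero.2 ⟨_, hu⟩)) ⟨N (N w), w, rfl⟩
    have hc' : c • N (N v0) = N (N w) := congrArg Subtype.val hc
    rw [hadj, hBalt (N (N w)) v0, ← hc']
    have : B (c • N (N v0)) v0 = c * B (N (N v0)) v0 := by simp [B, smul_dotProduct]
    rw [this, hself, mul_zero, neg_zero]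
  have hR1K : R1 ≤ K1 := by rintro _ ⟨v, rfl⟩; exact LinearMap.mem_ker.2 (hNN0 v)
  have hiso : ∀ v w, f x w = w → B (N v) w = 0 := by
    intro v w hw
    rw [hNv]
    have e : B (f x v - v) w = B (f x v) w - B v w := sub_dotProduct _ _ _
    rw [e, sub_eq_zero]
    conv_lhs => rw [← hw]
    rw [hBinv]
  -- the kernel cannot be a hyperplane
  have hK2 : Module.finrank F K1 ≤ 2 := by
    by_contra hgt
    obtain ⟨g, hg⟩ := Cfsg.Agent.Chars.sl25_conj_generate hK x hx
    have hinv : ∀ v, f g (f g⁻¹ v) = v := fun v => by rw [hfv, mul_inv_cancel, map_one]; rfl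
    have hinv' : ∀ v, f g⁻¹ (f g v) = v := fun v => by rw [hfv, inv_mul_cancel, map_one]; rfl
    let eg : (Fin 2 ⊕ Fin 2 → F) ≃ₗ[F] (Fin 2 ⊕ Fin 2 → F) :=
      { f g with invFun := f g⁻¹, left_inv := hinv', right_inv := hinv }
    set K2 := K1.map eg.toLinearMap with hK2'
    have hdim : Module.finrank F K2 = Module.finrank F K1 := LinearEquiv.finrank_map_eq eg K1
    have hsum := Submodule.finrank_sup_add_finrank_inf_eq K1 K2
    have hsup := Submodule.finrank_le (K1 ⊔ K2)
    rw [hV] at hsup
    have hpos : 0 < Module.finrank F ↥(K1 ⊓ K2) := by omega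
    set s := f (-1) with hs
    let U := LinearMap.ker (s - LinearMap.id)
    have hUne : U ≠ ⊥ := by
      intro hU
      have hle : K1 ⊓ K2 ≤ U := by
        rintro v ⟨hv1, ⟨w, hw, rfl⟩⟩
        have hfix : Subgroup.closure {x, g * x * g⁻¹} ≤
            { carrier := {a | f a (f g w) = f g w}
              one_mem' := by simp
              mul_mem' := fun {a b} ha hb => by
                show f (a * b) (f g w) = f g w
                rw [← hfv, hb, ha]
              inv_mem' := fun {a} ha => by
                show f a⁻¹ (f g w) = f g w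
                conv_lhs => rw [← show f a (f g w) = f g w from ha]
                rw [hfv, inv_mul_cancel, map_one]; rfl } := by
          rw [Subgroup.closure_le]
          rintro a (rfl | rfl)
          · show f a (f g w) = f g w
            exact sub_eq_zero.1 (LinearMap.mem_ker.1 hv1)
          · show f (g * x * g⁻¹) (f g w) = f g w
            rw [← hfv, hinv', ← hfv, sub_eq_zero.1 (LinearMap.mem_ker.1 hw)]; rfl
        exact LinearMap.mem_ker.2 (sub_eq_zero.2 (hfix hg))
      rw [hU] at hle
      have := Submodule.finrank_mono hle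
      rw [finrank_bot] at this
      omega
    -- an element of order five fixes only zero
    let E : Matrix.SpecialLinearGroup (Fin 2) K := ⟨!![1, 1; 0, 1], by simp [Matrix.det_fin_two]⟩
    have hE5 : E ^ 5 = 1 := by
      have h5 : (5 : K) = 0 := by exact_mod_cast CharP.cast_eq_zero K 5
      apply Subtype.ext
      rw [Matrix.SpecialLinearGroup.coe_pow]
      ext i j
      fin_cases i <;> fin_cases j <;>
        simp [E, pow_succ, Matrix.mul_apply, Fin.sum_univ_two] <;> linear_combination h5
    have hE1 : E ≠ 1 := fun h => by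
      have := congrArg (fun A : Matrix.SpecialLinearGroup (Fin 2) K =>
        (A : Matrix (Fin 2) (Fin 2) K) 0 1) h
      simp [E] at this
    let W := LinearMap.ker (f E - LinearMap.id)
    have hEf : ∀ v, f E (f E (f E (f E (f E v)))) = v := fun v => by
      simp only [hfv]; rw [show E * (E * (E * (E * E))) = E ^ 5 by simp only [pow_succ, pow_zero, one_mul, mul_assoc], hE5, map_one]; rfl
    have hmain : ∀ T : Submodule F (Fin 2 ⊕ Fin 2 → F), (∀ v ∈ T, f E v ∈ T) →
        Nat.card T ≡ Nat.card ↥(T ⊓ W) [MOD 5] := by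
      intro T hT
      let σ : Equiv.Perm T :=
        { toFun := fun v => ⟨f E v, hT v v.2⟩
          invFun := fun v => ⟨f E (f E (f E (f E v))), hT _ (hT _ (hT _ (hT _ v.2)))⟩
          left_inv := fun v => Subtype.ext (hEf v)
          right_inv := fun v => Subtype.ext (hEf v) }
      have hσ : σ ^ 5 = 1 := by
        ext v
        exact congrArg Subtype.val (Subtype.ext (hEf v) :
          (σ ^ 5) v = (⟨v.1, v.2⟩ : T)) ▸ rfl
      have hp : IsPGroup 5 (Subgroup.zpowers σ) := by
        intro a
        refine ⟨1, ?_⟩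
        obtain ⟨k, hk⟩ := Subgroup.mem_zpowers_iff.1 a.2
        apply Subtype.ext
        rw [pow_one, SubmonoidClass.coe_pow, ← hk, ← zpow_natCast, ← zpow_mul, mul_comm, zpow_mul,
          zpow_natCast, hσ, one_zpow]; rfl
      refine (hp.card_modEq_card_fixedPoints T).trans (congrArg (· % 5) ?_)
      refine Nat.card_congr
        ⟨fun v => ⟨v.1.1, v.1.2, LinearMap.mem_ker.2 (sub_eq_zero.2 ?_)⟩,
          fun v => ⟨⟨v.1, v.2.1⟩, ?_⟩, fun v => rfl, fun v => rfl⟩
      · exact congrArg Subtype.val (v.2 ⟨σ, Subgroup.mem_zpowers σ⟩)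
      · rintro ⟨τ, hτ⟩
        have hfix : σ ∈ MulAction.stabilizer (Equiv.Perm T) (⟨v.1, v.2.1⟩ : T) :=
          Subtype.ext (sub_eq_zero.1 (LinearMap.mem_ker.1 v.2.2))
        exact Subgroup.zpowers_le.2 hfix hτ
    have hmod : ∀ a : ℕ, a ≤ 4 → (81 : ℕ) ≡ 3 ^ a [MOD 5] → a = 0 ∨ a = 4 := by decide
    have hcard : ∀ T : Submodule F (Fin 2 ⊕ Fin 2 → F), Nat.card T = 3 ^ Module.finrank F T := by
      intro T
      rw [Module.natCard_eq_pow_finrank (K := F) (V := T), Nat.card_eq_fintype_card, hF]
    have hW0 : Module.finrank F W = 0 := by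
      have h := hmain ⊤ (fun _ _ => trivial)
      rw [hcard, hcard, top_inf_eq, finrank_top, hV] at h
      rcases hmod _ ((Submodule.finrank_le W).trans hV.le) h with h0 | h4
      · exact h0
      · exfalso
        apply hE1
        apply hfinj
        have hWtop : W = ⊤ := Submodule.eq_top_of_finrank_eq (by rw [h4, hV])
        rw [map_one]
        exact sub_eq_zero.1 (LinearMap.ker_eq_top.1 hWtop)
    have hU4 : Module.finrank F U = 4 := by
      have hcomm : E * (-1) = (-1 : Matrix.SpecialLinearGroup (Fin 2) K) * E := by simp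
      have h := hmain U (fun v hv => LinearMap.mem_ker.2 (by
        have hv' : f (-1) v = v := sub_eq_zero.1 (LinearMap.mem_ker.1 hv)
        show f (-1) (f E v) - f E v = 0
        rw [hfv, ← hcomm, ← hfv, hv', sub_self]))
      have h0 : Module.finrank F ↥(U ⊓ W) = 0 :=
        Nat.eq_zero_of_le_zero (hW0 ▸ Submodule.finrank_mono inf_le_right)
      rw [hcard, hcard, h0] at h
      have hm2 : ∀ a : ℕ, a ≤ 4 → 3 ^ a ≡ 3 ^ 0 [MOD 5] → a = 0 ∨ a = 4 := by decide
      rcases hm2 _ ((Submodule.finrank_le U).trans hV.le) h with h' | h'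
      · exact absurd (Submodule.finrank_eq_zero.1 h') hUne
      · exact h'
    have hUtop : U = ⊤ := Submodule.eq_top_of_finrank_eq (by rw [hU4, hV])
    have : f (-1) = f 1 := by rw [map_one]; exact sub_eq_zero.1 (LinearMap.ker_eq_top.1 hUtop)
    have := congrArg (fun A : Matrix.SpecialLinearGroup (Fin 2) K =>
      (A : Matrix (Fin 2) (Fin 2) K) 0 0) (hfinj this)
    simp at this
    have h2K := (CharP.cast_eq_zero_iff K 5 2).not.2 (by norm_num)
    exact h2K (by push_cast; linear_combination -this)
  have hR1le := Submodule.finrank_mono hR1K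
  refine ⟨by show Module.finrank F K1 = 2; omega, fun v w hv hw => ?_⟩
  have heq : R1 = K1 := Submodule.eq_of_le_of_finrank_le hR1K (by omega)
  have hvK : v ∈ K1 := LinearMap.mem_ker.2 (by rw [hNv, hfapp, hv, sub_self])
  obtain ⟨u, rfl⟩ := heq ▸ hvK
  exact hiso u w (by rw [hfapp, hw])

end Cfsg.Agent.S3213
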