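import Cfsg.Statements.S3215
import Cfsg.Agent.Core.CoprimeAction
import Cfsg.Agent.Core.SylowIntersection
import Cfsg.Agent.Coprime.Generation
import Cfsg.Agent.OddLocal.FPF
import Cfsg.Agent.Core.Fitting
import Cfsg.Agent.Core.MinimalNormal
import Cfsg.Agent.LocalEven.WeaklyClosed

set_option autoImplicit false
set_option linter.style.haveILetI false
open Cfsg
open scoped commutatorElement

namespace Cfsg.Agent.S3215

theorem eq_one_of_odd {H : Type*} [Group H] [Finite H] {x : H} {K : Subgroup H} (hK : Odd (Nat.card K)) (hx : x ∈ K)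
    {k : ℕ} (h : x ^ 2 ^ k = 1) : x = 1 :=
  orderOf_eq_one_iff.mp (Nat.eq_one_of_dvd_coprimes ((Nat.coprime_two_left.mpr hK).pow_left k)
    (orderOf_dvd_of_pow_eq_one h) (Subgroup.orderOf_dvd_natCard K hx))

/-- An element of odd order of a centralizer of an involution centralizes a normal `2`-subgroup. -/
theorem commute_of_complement {H : Type*} [Group H] [Finite H] {C Y : Subgroup H}
    (hC : Cfsg.HasNormalPComplement 2 ↥C) [Y.Normal] (hY : IsPGroup 2 Y) {x y : H} (hx : x ∈ C)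
    (hxo : Odd (orderOf x)) (hy : y ∈ Y) (hyC : y ∈ C) : x * y = y * x := by
  haveI := Fact.mk Nat.prime_two
  obtain ⟨P, N, hN, hc⟩ := hC
  haveI := hN
  have hidx : N.index = Nat.card (P : Subgroup C) :=
    Nat.eq_of_mul_eq_mul_left Nat.card_pos ((Subgroup.card_mul_index N).trans hc.card_mul_card.symm)
  obtain ⟨k, hk⟩ := IsPGroup.iff_card.mp P.isPGroup'
  have hxN : (⟨x, hx⟩ : C) ∈ N := by
    refine (QuotientGroup.eq_one_iff _).mp (orderOf_eq_one_iff.mp (Nat.eq_one_of_dvd_coprimes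
      (((Nat.coprime_two_left).mpr hxo).pow_left k).symm
      ((orderOf_map_dvd (QuotientGroup.mk' N) _).trans (by rw [Subgroup.orderOf_mk])) ?_))
    exact (orderOf_dvd_natCard _).trans (by rw [← Subgroup.index_eq_card, hidx, hk])
  have hd : N ⊓ Y.subgroupOf C = ⊥ := by
    refine Coprime.inf_eq_bot_of_coprime ?_
    have h1 := hc.card_mul_card
    obtain ⟨j, hj⟩ := IsPGroup.iff_card.mp (show IsPGroup 2 (Y.subgroupOf C) from hY.comap_subtype)
    rw [hj]
    exact ((Nat.prime_two.coprime_iff_not_dvd).mpr fun h2 => P.not_dvd_index (by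
      rw [hc.index_eq_card]; exact h2)).pow_left j
  have := Subgroup.commute_of_normal_of_disjoint N (Y.subgroupOf C) hN inferInstance (disjoint_iff.mpr hd)
    ⟨x, hx⟩ ⟨y, hyC⟩ hxN hy
  exact congrArg Subtype.val this.eq

/-- Let H be a finite solvable group with no nontrivial normal subgroup of odd order in which the centralizer of every involution has a normal 2-complement. Let X be a Hall 2'-subgroup of H (odd order, index a power of 2) and Y = O₂(H). Then no non-identity element of X commutes with a non-identity element of Y (so for X ≠ 1 the group XY is a Frobenius group with kernel Y), every Sylow subgroup of X is cyclic, XY is normal in H, and H/XY is a cyclic 2-group. -/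
theorem result {H : Type*} [Group H] [Finite H] (hsol : Group.IsSolvable H)
    (hO : Cfsg.oddCore H = ⊥)
    (hI : ∀ t : H, orderOf t = 2 → Cfsg.HasNormalPComplement 2 ↥(Subgroup.centralizer ({t} : Set H)))
    (X : Subgroup H) (hXodd : Odd (Nat.card X)) (hXidx : ∃ k : ℕ, X.index = 2 ^ k) :
    (∀ x ∈ X, x ≠ 1 → ∀ y ∈ Cfsg.pCore 2 H, y ≠ 1 → x * y ≠ y * x) ∧
      (∀ (p : ℕ) [Fact p.Prime] (P : Sylow p ↥X), IsCyclic ↥(P : Subgroup ↥X)) ∧
      (X ⊔ Cfsg.pCore 2 H).Normal ∧
      ∀ hN : (X ⊔ Cfsg.pCore 2 H).Normal, IsCyclic (H ⧸ (X ⊔ Cfsg.pCore 2 H)) ∧ IsPGroup 2 (H ⧸ (X ⊔ Cfsg.pCore 2 H)) := by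
  classical
  haveI := Fact.mk Nat.prime_two
  haveI := hsol
  set Y := Cfsg.pCore 2 H with hYdef
  have hYp : IsPGroup 2 Y := Core.isPGroup_pCore 2 H
  have hCY : Subgroup.centralizer (Y : Set H) ≤ Y :=
    Core.centralizer_pCore_le Core.isPSolvable_of_isSolvable hO
  have hodd : ∀ x ∈ X, Odd (orderOf x) := fun x hx => hXodd.of_dvd_nat (Subgroup.orderOf_dvd_natCard X hx)
  have hXY : ∀ x ∈ X, x ∈ Y → x = 1 := fun x hx hy => by
    obtain ⟨k, hk⟩ := hYp ⟨x, hy⟩
    exact eq_one_of_odd hXodd hx (congrArg Subtype.val hk)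
  have fpf : ∀ x ∈ X, x ≠ 1 → ∀ y ∈ Y, y ≠ 1 → x * y ≠ y * x := by
    intro x hx hx1 y hy hy1 hc
    obtain ⟨k, hk⟩ := IsPGroup.iff_orderOf.mp hYp ⟨y, hy⟩
    rw [Subgroup.orderOf_mk] at hk
    have hk0 : k ≠ 0 := fun e => hy1 (orderOf_eq_one_iff.mp (by rw [hk, e, pow_zero]))
    set t := y ^ 2 ^ (k - 1)
    have ht : orderOf t = 2 := by
      have := orderOf_pow_of_dvd (x := y) (n := 2 ^ (k - 1)) (by positivity) (hk ▸ pow_dvd_pow 2 (Nat.sub_le k 1))
      rw [this, hk, Nat.pow_div (Nat.sub_le k 1) (by norm_num), show k - (k - 1) = 1 by omega, pow_one]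
    have htY : t ∈ Y := Y.pow_mem hy _
    have hxt : x ∈ Subgroup.centralizer ({t} : Set H) :=
      Subgroup.mem_centralizer_singleton_iff.mpr ((show Commute x y from hc).pow_right _).eq
    have hP : IsPGroup 2 (Subgroup.zpowers t) := IsPGroup.of_card (n := 1) (by rw [Nat.card_zpowers, ht, pow_one])
    haveI : Group.IsSolvable (Subgroup.zpowers x) := inferInstance
    have hcop : (Nat.card (Subgroup.zpowers x)).Coprime 2 := by
      rw [Nat.card_zpowers]; exact Nat.coprime_two_right.mpr (hodd x hx)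
    have hnY : ∀ K : Subgroup H, K ≤ Subgroup.normalizer (Y : Set H) := fun K =>
      le_top.trans (Subgroup.normalizer_eq_top Y).ge
    have h := Coprime.commutator_eq_bot_of_PxQ (P := Subgroup.zpowers t) (Q := Subgroup.zpowers x) hP hcop
      (Subgroup.commutator_eq_bot_iff_le_centralizer.mpr (Subgroup.zpowers_le.mpr (by
        rw [Subgroup.zpowers_eq_closure, Subgroup.centralizer_closure, Subgroup.mem_centralizer_singleton_iff]
        exact (Subgroup.mem_centralizer_singleton_iff.mp hxt).symm)))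
      _ Y rfl hYp (hnY _) (hnY _) ?_
    · refine hx1 (hXY x hx (hCY ?_))
      exact Subgroup.commutator_eq_bot_iff_le_centralizer.mp ((Subgroup.commutator_comm _ _).trans h)
        (Subgroup.mem_zpowers x)
    · refine Subgroup.commutator_eq_bot_iff_le_centralizer.mpr fun z hz => ?_
      rw [Subgroup.zpowers_eq_closure x, Subgroup.centralizer_closure, Subgroup.mem_centralizer_singleton_iff]
      exact (commute_of_complement (hI t ht) hYp hxt (hodd x hx) hz.1
        (Subgroup.mem_centralizer_singleton_iff.mpr (Subgroup.mem_centralizer_iff.mp hz.2 t (Subgroup.mem_zpowers t)).symm)).symm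
  have hfpf : OddLocal.FPF Y X := fun x hx hx1 y hy hc => by_contra fun hy1 => fpf x hx hx1 y hy hy1 hc
  have hXne : X ≠ ⊥ → Y ≠ ⊥ := by
    refine fun hX hY => hX ((Subgroup.eq_bot_iff_forall X).mpr fun x hx => hXY x hx (hCY ?_))
    rw [hY]
    refine Subgroup.mem_centralizer_iff.mpr fun y hy => ?_
    rw [SetLike.mem_coe, Subgroup.mem_bot] at hy
    simp [hy]
  have hsyl : ∀ (p : ℕ) [Fact p.Prime] (P : Sylow p ↥X), IsCyclic ↥(P : Subgroup ↥X) := by
    intro p hp P
    rcases subsingleton_or_nontrivial (P : Subgroup X) with hP | hP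
    · exact ⟨⟨1, fun x => ⟨0, Subsingleton.elim _ _⟩⟩⟩
    obtain ⟨k, hk⟩ := IsPGroup.iff_card.mp P.isPGroup'
    have hk0 : k ≠ 0 := fun e => Finite.one_lt_card.ne' (by rw [hk, e, pow_zero])
    have hpX : p ∣ Nat.card X := (dvd_pow_self p hk0).trans (hk ▸ Subgroup.card_subgroup_dvd_card _)
    have hp2 : p ≠ 2 := fun e => absurd (hXodd.of_dvd_nat (e ▸ hpX)) (by decide)
    have hX : X ≠ ⊥ := fun e => hp.out.ne_one (Nat.dvd_one.mp (by rw [e, Subgroup.card_bot] at hpX; exact hpX))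
    haveI := hfpf.sylow_cyclic_of_odd (hXne hX) (le_top.trans (Subgroup.normalizer_eq_top Y).ge) hp2
      ((P : Subgroup X).map X.subtype) (Subgroup.map_subtype_le _) (P.isPGroup'.map _)
    exact isCyclic_of_surjective ((P : Subgroup X).equivMapOfInjective X.subtype X.subtype_injective).symm.toMonoidHom
      (MulEquiv.surjective _)
  haveI : IsZGroup X := ⟨fun p hp P => haveI := Fact.mk hp; hsyl p P⟩
  -- the quotient by `O_2`
  set π := QuotientGroup.mk' Y
  set Xb := X.map π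
  set F := Cfsg.fittingSubgroup (H ⧸ Y)
  haveI hFn : F.Normal := Core.fittingSubgroup_normal _
  obtain ⟨a, ha⟩ := hXidx
  have hinjX : Function.Injective (π.comp X.subtype) := by
    rw [← MonoidHom.ker_eq_bot_iff, Subgroup.eq_bot_iff_forall]
    exact fun x hx => Subtype.ext (hXY x x.2 ((QuotientGroup.eq_one_iff _).mp hx))
  have hFodd : Odd (Nat.card F) := by
    rw [← Nat.coprime_two_left, Nat.prime_two.coprime_iff_not_dvd]
    intro h2
    haveI := Core.isNilpotent_fittingSubgroup (H ⧸ Y)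
    obtain ⟨P⟩ := (inferInstance : Nonempty (Sylow 2 F))
    have h1 : (Cfsg.pCore 2 F).map F.subtype = ⊥ := by
      rw [Core.map_pCore_subtype, Core.pCore_quotient_pCore, bot_inf_eq]
    rw [Core.pCore_eq_sylow P, Subgroup.map_eq_bot_iff_of_injective _ F.subtype_injective] at h1
    exact P.ne_bot_of_dvd_card h2 h1
  have hFX : F ≤ Xb := by
    have hXc : Nat.card Xb ∣ Nat.card (H ⧸ Y) := Subgroup.card_subgroup_dvd_card _
    have hXbc : Nat.card Xb = Nat.card X := by
      rw [show Xb = (π.comp X.subtype).range by rw [MonoidHom.range_eq_map, ← Subgroup.map_map,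
        ← MonoidHom.range_eq_map, Subgroup.range_subtype]]
      exact (Nat.card_congr (MonoidHom.ofInjective hinjX).toEquiv).symm
    have hQ : Nat.card (H ⧸ Y) ∣ Nat.card X * 2 ^ a := by
      rw [← ha, Subgroup.card_mul_index]; exact Subgroup.card_quotient_dvd_card _
    have hs := (Subgroup.card_subgroup_dvd_card (F ⊔ Xb)).trans hQ
    have hodd' : Odd (Nat.card ↥(F ⊔ Xb)) :=
      (hFodd.mul (hXbc ▸ hXodd)).of_dvd_nat (Core.card_sup_dvd_mul' F Xb)
    refine le_sup_left.trans (Subgroup.eq_of_le_of_card_ge le_sup_right (Nat.le_of_dvd Nat.card_pos ?_)).ge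
    rw [hXbc]
    exact (Nat.Coprime.pow_right a (Nat.coprime_two_right.mpr hodd')).dvd_of_dvd_mul_right hs
  haveI hFZ : IsZGroup F := by
    let e := MonoidHom.ofInjective hinjX
    have hr : (π.comp X.subtype).range = Xb := by
      rw [MonoidHom.range_eq_map, ← Subgroup.map_map, ← MonoidHom.range_eq_map, Subgroup.range_subtype]
    exact IsZGroup.of_injective (f := e.symm.toMonoidHom.comp
      (Subgroup.inclusion (hFX.trans hr.ge))) (e.symm.injective.comp (Subgroup.inclusion_injective _))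
  haveI := Core.isNilpotent_fittingSubgroup (H ⧸ Y)
  haveI hFc : IsCyclic F := inferInstance
  have hCF : Subgroup.centralizer (F : Set (H ⧸ Y)) ≤ F := Core.centralizer_fittingSubgroup_le
  have hD : commutator (H ⧸ Y) ≤ F := by
    refine le_trans (Subgroup.commutator_le.mpr fun g _ h _ => ?_) hCF
    refine Subgroup.mem_centralizer_iff.mpr fun v hv => ?_
    have h1 : MulAut.conjNormal (H := F) ⁅g, h⁆ = 1 := by
      rw [map_commutatorElement, commutatorElement_eq_one_iff_mul_comm]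
      exact (IsCyclic.mulAutMulEquiv F).injective (by rw [map_mul, map_mul, mul_comm])
    have h2 := congrArg Subtype.val (DFunLike.congr_fun h1 (⟨v, hv⟩ : F))
    rw [MulAut.conjNormal_apply] at h2
    exact (mul_inv_eq_iff_eq_mul.mp h2).symm
  have hXbn : Xb.Normal := ⟨fun x hx g => by
    have h1 : ⁅g, x⁆ ∈ Xb := hFX (hD (Subgroup.commutator_mem_commutator (Subgroup.mem_top _) (Subgroup.mem_top _)))
    simpa [commutatorElement_def] using Xb.mul_mem h1 hx⟩
  have hXYn : (X ⊔ Y).Normal := by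
    have := hXbn.comap π
    rwa [Subgroup.comap_map_eq, QuotientGroup.ker_mk'] at this
  refine ⟨fpf, hsyl, hXYn, fun hN => ?_⟩
  haveI := hN
  have hp2 : IsPGroup 2 (H ⧸ (X ⊔ Y)) := by
    obtain ⟨b, -, hb⟩ := (Nat.dvd_prime_pow Nat.prime_two).mp (ha ▸ Subgroup.index_dvd_of_le (le_sup_left : X ≤ X ⊔ Y))
    exact IsPGroup.of_card (by rw [← Subgroup.index_eq_card]; exact hb)
  refine ⟨?_, hp2⟩
  by_cases hX : X = ⊥
  · have hsub : X ⊔ Y = ⊤ := by
      rw [hX, bot_sup_eq]
      refine Core.pCore_eq_top ?_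
      refine IsPGroup.of_card (n := a) ?_
      rw [← Subgroup.card_mul_index X, ha, hX, Subgroup.card_bot, one_mul]
    haveI : Subsingleton (H ⧸ (X ⊔ Y)) :=
      (Nat.card_eq_one_iff_unique.mp (by rw [← Subgroup.index_eq_card, hsub, Subgroup.index_top])).1
    exact isCyclic_of_subsingleton
  -- a complement of `F(H/Y)` and the Frattini argument
  set F₀ := X ⊓ F.comap π
  set K := F.comap π
  have hKn : K.Normal := hFn.comap π
  have hYK : Y ≤ K := (QuotientGroup.ker_mk' Y).ge.trans (MonoidHom.ker_le_comap _ _)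
  have hYF₀ : Y ⊓ F₀ = ⊥ := (Subgroup.eq_bot_iff_forall _).mpr fun y hy => hXY y hy.2.1 hy.1
  have hK : K = Y ⊔ F₀ := by
    refine le_antisymm (fun k hk => ?_) (sup_le hYK inf_le_right)
    obtain ⟨x, hx, hxk⟩ := hFX hk
    have h1 : x⁻¹ * k ∈ Y := QuotientGroup.eq.mp hxk
    have hxK : x ∈ K := by
      show π x ∈ F
      rw [hxk]; exact hk
    have h2 := Subgroup.mul_mem_sup (S := F₀) (T := Y) ⟨hx, hxK⟩ h1
    rwa [mul_inv_cancel_left, sup_comm] at h2
  have hF₀ne : F₀ ≠ ⊥ := by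
    intro e
    have h1 : F = ⊥ := by
      rw [← Subgroup.map_comap_eq_self_of_surjective (QuotientGroup.mk'_surjective Y) F, ← show K = F.comap π from rfl,
        hK, e, sup_bot_eq]
      exact (Subgroup.map_eq_bot_iff Y).mpr (QuotientGroup.ker_mk' Y).ge
    refine hX ((Subgroup.eq_bot_iff_forall X).mpr fun x hx => hXY x hx ((QuotientGroup.eq_one_iff x).mp ?_))
    have h2 := hCF
    rw [h1] at h2
    refine Subgroup.mem_bot.mp (h2 ?_)
    exact Subgroup.mem_centralizer_iff.mpr fun y hy => by rw [SetLike.mem_coe, Subgroup.mem_bot] at hy; simp [hy]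
  have hcop : (Nat.card F₀).Coprime (Nat.card Y) := by
    obtain ⟨k, hk⟩ := IsPGroup.iff_card.mp hYp
    rw [hk]
    exact (Nat.coprime_two_right.mpr (hXodd.of_dvd_nat (Subgroup.card_dvd_of_le inf_le_left))).pow_right k
  set N := Subgroup.normalizer (F₀ : Set H)
  have hfrat : ∀ g : H, ∃ n ∈ N, ∃ y ∈ Y, g = y * n := fun g => by
    obtain ⟨x, hx, hxe⟩ := Core.exists_conj_complement_general Y F₀ (F₀.map (MulAut.conj g).toMonoidHom)
      (Or.inr (Coprime.isSolvable_of_isPGroup hYp)) (le_top.trans (Subgroup.normalizer_eq_top Y).ge)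
      (hK ▸ Coprime.map_conj_le_iff.mpr fun k hk => hKn.conj_mem k hk.2 g)
      (Coprime.card_map_conj _ _) hcop
    refine ⟨x⁻¹ * g, Coprime.mem_normalizer_of_conj_mem fun y hy => ?_, x, hx, by group⟩
    have h1 : g * y * g⁻¹ ∈ F₀.map (MulAut.conj x).toMonoidHom := hxe.le ⟨y, hy, rfl⟩
    rw [Coprime.map_conj_mem] at h1
    simpa [mul_assoc] using h1
  obtain ⟨S₀⟩ := (inferInstance : Nonempty (Sylow 2 N))
  set S := (S₀ : Subgroup N).map N.subtype
  have hSN : S ≤ N := Subgroup.map_subtype_le _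
  have hSp : IsPGroup 2 S := S₀.isPGroup'.map _
  have hF₀c : ∀ c d, c ∈ F₀ → d ∈ F₀ → c * d = d * c := fun c d hc hd => by
    rw [← mul_inv_eq_iff_eq_mul, ← mul_inv_eq_one]
    have h1 : π (c * d * c⁻¹ * d⁻¹) = 1 := by
      have := congrArg Subtype.val ((IsCyclic.commGroup (α := F)).mul_comm ⟨π c, hc.2⟩ ⟨π d, hd.2⟩)
      change π c * π d = π d * π c at this
      simp only [map_mul, map_inv]
      rw [this]; group
    exact hXY _ (X.mul_mem (X.mul_mem (X.mul_mem hc.1 hd.1) (X.inv_mem hc.1)) (X.inv_mem hd.1))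
      ((QuotientGroup.eq_one_iff _).mp h1)
  have hSY : ∀ s ∈ S, s ∈ Y → s = 1 := by
    intro s hs hsY
    obtain ⟨f, hf, hf1⟩ := (Subgroup.bot_or_exists_ne_one F₀).resolve_left hF₀ne
    by_contra hs1
    refine fpf f hf.1 hf1 s hsY hs1 ?_
    have h1 : f * s * f⁻¹ * s⁻¹ ∈ Y ⊓ F₀ := ⟨Y.mul_mem ((inferInstance : Y.Normal).conj_mem s hsY f) (Y.inv_mem hsY),
      by
        rw [show f * s * f⁻¹ * s⁻¹ = f * (s * f⁻¹ * s⁻¹) by group]
        exact F₀.mul_mem hf ((Subgroup.mem_normalizer_iff.mp (hSN hs) _).mp (F₀.inv_mem hf))⟩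
    rw [hYF₀, Subgroup.mem_bot] at h1
    exact mul_inv_eq_iff_eq_mul.mp (mul_inv_eq_one.mp h1)
  have hScomm : IsMulCommutative S := ⟨⟨fun b c => Subtype.ext (by
    show (b : H) * c = c * b
    rw [← mul_inv_eq_iff_eq_mul, ← mul_inv_eq_one]
    have hm : (b : H) * c * (b : H)⁻¹ * (c : H)⁻¹ ∈ S :=
      S.mul_mem (S.mul_mem (S.mul_mem b.2 c.2) (S.inv_mem b.2)) (S.inv_mem c.2)
    refine hSY _ hm ((QuotientGroup.eq_one_iff _).mp ?_)
    obtain ⟨k, hk⟩ := hSp ⟨_, hm⟩
    refine eq_one_of_odd hFodd (hD ?_) (k := k) ?_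
    · show π ((b : H) * c * (b : H)⁻¹ * (c : H)⁻¹) ∈ commutator (H ⧸ Y)
      rw [map_mul, map_mul, map_mul, map_inv, map_inv, ← commutatorElement_def]
      exact Subgroup.commutator_mem_commutator (Subgroup.mem_top _) (Subgroup.mem_top _)
    · show (π ((b : H) * c * (b : H)⁻¹ * (c : H)⁻¹)) ^ 2 ^ k = 1
      rw [← map_pow]
      exact (congrArg π (congrArg Subtype.val hk)).trans (map_one π))⟩⟩
  -- every involution of `S` inverts `F₀`
  have hinv : ∀ u ∈ S, orderOf u = 2 → ∀ f ∈ F₀, u * f * u⁻¹ = f⁻¹ := by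
    intro u hu hu2 f hf
    have hg := (Subgroup.mem_normalizer_iff.mp (hSN hu) f).mp hf
    set w := f * (u * f * u⁻¹)
    have hwF : w ∈ F₀ := F₀.mul_mem hf hg
    have huu : u * u = 1 := by rw [← pow_two, ← hu2, pow_orderOf_eq_one]
    have hwu : u * w = w * u := by
      rw [show w = u * f * u⁻¹ * f from hF₀c _ _ hf hg]
      rw [show u * (u * f * u⁻¹ * f) = (u * u) * f * u⁻¹ * f by group, huu, one_mul,
        show f * u⁻¹ * f = f * (u * u) * u⁻¹ * f by rw [huu, mul_one]]
      rw [show u * f * u⁻¹ * f * u = (u * f * u⁻¹) * f * u by group, hF₀c _ _ hg hf]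
      rw [show f * (u * f * u⁻¹) * u = f * u * f by group, show f * (u * u) * u⁻¹ * f = f * u * f by group]
    by_contra hne
    have hw1 : w ≠ 1 := fun e => hne (eq_inv_of_mul_eq_one_right e)
    have hU : IsPGroup 2 (Subgroup.zpowers u) := hSp.to_le (Subgroup.zpowers_le.mpr hu)
    have hfix : Y ⊓ Subgroup.centralizer ({u} : Set H) ≠ ⊥ := by
      rw [← Subgroup.centralizer_closure, ← Subgroup.zpowers_eq_closure]
      exact LocalEven.exists_fixed_ne_bot hYp (hXne hX) hU (le_top.trans (Subgroup.normalizer_eq_top Y).ge)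
    obtain ⟨y, hy, hy1⟩ := (Subgroup.bot_or_exists_ne_one _).resolve_left hfix
    exact fpf w hwF.1 hw1 y hy.1 hy1 (commute_of_complement (hI u hu2) hYp
      (Subgroup.mem_centralizer_singleton_iff.mpr hwu.symm) (hodd w hwF.1) hy.1 hy.2)
  haveI := hScomm
  have hScyc : IsCyclic S := by
    by_contra hnc
    obtain ⟨r, hr, E, hES, hEc, hEe⟩ := Coprime.exists_prime_sq_subgroup hnc
    have hr2 : r = 2 := by
      obtain ⟨k, hk⟩ := IsPGroup.iff_card.mp hSp
      exact (Nat.prime_dvd_prime_iff_eq hr Nat.prime_two).mp (hr.dvd_of_dvd_pow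
        (hk ▸ ((dvd_pow_self r two_ne_zero).trans (hEc ▸ Subgroup.card_dvd_of_le hES))))
    subst hr2
    haveI : Nontrivial E := Finite.one_lt_card_iff_nontrivial.mp (by rw [hEc]; norm_num)
    obtain ⟨⟨u, huE⟩, hu1'⟩ := exists_ne (1 : E)
    have hu1 : u ≠ 1 := fun e => hu1' (Subtype.ext e)
    have hlt : ¬ E ≤ Subgroup.zpowers u := fun h => by
      have := Subgroup.card_dvd_of_le h
      rw [hEc, Nat.card_zpowers, orderOf_eq_prime (hEe u huE) hu1] at this
      exact absurd (Nat.le_of_dvd two_pos this) (by norm_num)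
    obtain ⟨v, hvE, hv⟩ := SetLike.not_le_iff_exists.mp hlt
    have hv1 : v ≠ 1 := fun e => hv (e ▸ one_mem _)
    have huv : u⁻¹ * v ∈ S := S.mul_mem (S.inv_mem (hES huE)) (hES hvE)
    refine hv ?_
    suffices h : u⁻¹ * v = 1 by rw [← inv_mul_eq_one.mp h]; exact Subgroup.mem_zpowers u
    refine hSY _ huv ((QuotientGroup.eq_one_iff _).mp ?_)
    obtain ⟨k, hk⟩ := hSp ⟨_, huv⟩
    refine eq_one_of_odd hFodd (hCF (Subgroup.mem_centralizer_iff.mpr fun z hz => ?_)) (k := k)
      (by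
        show (π (u⁻¹ * v)) ^ 2 ^ k = 1
        rw [← map_pow]; exact (congrArg π (congrArg Subtype.val hk)).trans (map_one π))
    obtain ⟨f, hf, rfl⟩ : ∃ f ∈ F₀, π f = z := by
      obtain ⟨x, hx, rfl⟩ := hFX hz
      exact ⟨x, ⟨hx, hz⟩, rfl⟩
    show π f * π (u⁻¹ * v) = π (u⁻¹ * v) * π f
    rw [← map_mul, ← map_mul]
    congr 1
    have h1 := hinv u (hES huE) (orderOf_eq_prime (hEe u huE) hu1) f hf
    have h2 := hinv v (hES hvE) (orderOf_eq_prime (hEe v hvE) hv1) f hf
    rw [← h2] at h1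
    calc f * (u⁻¹ * v) = u⁻¹ * (u * f * u⁻¹) * v := by group
      _ = u⁻¹ * (v * f * v⁻¹) * v := by rw [h1]
      _ = u⁻¹ * v * f := by group
  -- the quotient is the image of `S`
  set g := (QuotientGroup.mk' (X ⊔ Y)).comp N.subtype
  have hg : Function.Surjective g := fun q => by
    obtain ⟨h, rfl⟩ := QuotientGroup.mk'_surjective _ q
    obtain ⟨n, hn, y, hy, rfl⟩ := hfrat h
    refine ⟨⟨n, hn⟩, ?_⟩
    show QuotientGroup.mk' (X ⊔ Y) n = QuotientGroup.mk' (X ⊔ Y) (y * n)
    rw [map_mul, show QuotientGroup.mk' (X ⊔ Y) y = 1 from (QuotientGroup.eq_one_iff y).mpr (Subgroup.mem_sup_right hy),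
      one_mul]
  have htop : (S₀ : Subgroup N).map g = ⊤ := by
    refine Subgroup.index_eq_one.mp (Nat.eq_one_of_dvd_coprimes ?_ ((Subgroup.index_map_dvd _ hg)) (dvd_refl _))
    obtain ⟨b, hb⟩ := IsPGroup.iff_card.mp hp2
    obtain ⟨c, -, hc⟩ := (Nat.dvd_prime_pow Nat.prime_two).mp (hb ▸ Subgroup.index_dvd_card ((S₀ : Subgroup N).map g))
    rw [hc]
    exact (Nat.prime_two.coprime_iff_not_dvd.mpr S₀.not_dvd_index).symm.pow_right c
  haveI : IsCyclic (S₀ : Subgroup N) := isCyclic_of_surjective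
    ((S₀ : Subgroup N).equivMapOfInjective N.subtype N.subtype_injective).symm.toMonoidHom (MulEquiv.surjective _)
  exact isCyclic_of_surjective ((g.comp (S₀ : Subgroup N).subtype)) (fun q => by
    obtain ⟨s, hs, rfl⟩ := htop.ge (Subgroup.mem_top q)
    exact ⟨⟨s, hs⟩, rfl⟩)

end Cfsg.Agent.S3215
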