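import Cfsg.Statements.S3225
import Cfsg.Agent.Transfer.CentralTransfer
-- import your own Cfsg.Agent.* helpers here

set_option autoImplicit false
open Cfsg

namespace Cfsg.Agent.S3225

/-- Let G be a finite group of even order with no subgroup of index 2, S a Sylow 2-subgroup of G and M a subgroup of index 2 in S such that, for some n ≥ 1, every element of S outside M has order greater than 2^(n−1). Then every element of S of order 2ⁿ is conjugate in G to an element of M. -/
theorem result {G : Type*} [Group G] [Finite G] (hev : Even (Nat.card G))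
    (hG : ∀ H : Subgroup G, H.index ≠ 2) (S : Sylow 2 G) (M : Subgroup G) (hMS : M ≤ (S : Subgroup G)) (hM : M.relIndex (S : Subgroup G) = 2)
    (n : ℕ) (hn : 1 ≤ n) (hord : ∀ y ∈ (S : Subgroup G), y ∉ M → 2 ^ (n - 1) < orderOf y)
    (x : G) (hx : x ∈ (S : Subgroup G)) (hxn : orderOf x = 2 ^ n) :
    ∃ g : G, g * x * g⁻¹ ∈ M := by
  classical
  haveI : Fact (Nat.Prime 2) := ⟨Nat.prime_two⟩
  by_contra hcon
  push Not at hcon
  set P := (S : Subgroup G)
  set M' := M.subgroupOf P
  have hM' : M'.index = 2 := hM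
  let φ : P →* ℤˣ :=
    { toFun := fun s => if s ∈ M' then 1 else -1
      map_one' := by simp
      map_mul' := fun s t => by
        by_cases hs : s ∈ M' <;> by_cases ht : t ∈ M' <;>
          simp [hs, ht, Subgroup.mul_mem_iff_of_index_two hM'] }
  have hout : φ ⟨x, hx⟩ = -1 := by
    show (if (⟨x, hx⟩ : P) ∈ M' then (1 : ℤˣ) else -1) = -1
    rw [if_neg fun h => hcon 1 (by simpa using Subgroup.mem_subgroupOf.1 h)]
  have hkey : ∀ (k : ℕ) (g₀ : G) (h : g₀⁻¹ * x ^ k * g₀ ∈ P),
      φ ⟨_, h⟩ = φ ⟨x, hx⟩ ^ k := by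
    intro k g₀ h
    have hord_eq : orderOf (g₀⁻¹ * x ^ k * g₀) = orderOf (x ^ k) := by
      have := (MulAut.conj g₀⁻¹).orderOf_eq (x ^ k)
      simpa using this
    rw [hout]
    show (if (⟨_, h⟩ : P) ∈ M' then (1 : ℤˣ) else -1) = (-1) ^ k
    rcases Nat.even_or_odd k with he | ho
    · rw [he.neg_one_pow, if_pos]
      rw [Subgroup.mem_subgroupOf]
      by_contra hnM
      have h1 : orderOf (x ^ k) ≤ 2 ^ (n - 1) := by
        refine Nat.le_of_dvd (by positivity) (orderOf_dvd_of_pow_eq_one ?_)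
        obtain ⟨j, rfl⟩ := he
        rw [← pow_mul, ← two_mul, mul_comm 2 j, mul_assoc, ← pow_succ', Nat.sub_add_cancel hn, mul_comm,
          pow_mul, ← hxn, pow_orderOf_eq_one, one_pow]
      rw [← hord_eq] at h1
      exact absurd (hord _ h hnM) (Nat.not_lt.2 h1)
    · rw [ho.neg_one_pow, if_neg]
      intro hmem
      rw [Subgroup.mem_subgroupOf] at hmem
      have hxk : x ∈ Subgroup.zpowers (x ^ k) := by
        have hco : k.Coprime (orderOf x) := by
          rw [hxn]; exact Nat.Coprime.pow_right _ (Nat.coprime_two_right.2 ho)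
        obtain ⟨m, hm⟩ := exists_pow_eq_self_of_coprime hco
        exact ⟨m, by simpa using hm⟩
      obtain ⟨m, hm⟩ := Subgroup.mem_zpowers_iff.1 hxk
      refine hcon g₀⁻¹ ?_
      have := M.zpow_mem hmem m
      rw [inv_inv]
      have e : (g₀⁻¹ * x ^ k * g₀) ^ m = g₀⁻¹ * (x ^ k) ^ m * g₀ := by
        have := conj_zpow (a := g₀⁻¹) (b := x ^ k) (i := m)
        simpa using this
      rwa [e, hm] at this
  have hT := Transfer.transfer_apply_eq_pow φ (⟨x, hx⟩ : P) hkey
  rw [hout, (Nat.odd_iff.2 (Nat.two_dvd_ne_zero.1 S.not_dvd_index)).neg_one_pow] at hT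
  refine hG (MonoidHom.transfer φ).ker ?_
  rw [Subgroup.index_ker]
  have htop : (MonoidHom.transfer φ).range = ⊤ := by
    rw [eq_top_iff]
    intro u _
    rcases Int.units_eq_one_or u with rfl | rfl
    · exact one_mem _
    · exact ⟨x, hT⟩
  rw [htop, Subgroup.card_top, Nat.card_eq_fintype_card, Fintype.card_units_int]

end Cfsg.Agent.S3225
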