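import Cfsg.Statements.S3265
import Cfsg.Agent.Chars.OddProductSymMain
import Cfsg.Agent.Chars.GraphDiamTwo

set_option autoImplicit false
open Cfsg

namespace Cfsg.Agent.S3265

/-- Let n ≥ 5 and let X be a conjugacy class of involutions of the symmetric group of degree n. The graph on X joining two distinct involutions whose product has odd order is connected and has diameter exactly 2. -/
theorem result (n : ℕ) (hn : 5 ≤ n) (t : Equiv.Perm (Fin n)) (ht : orderOf t = 2) :
    (SimpleGraph.fromRel fun x y : {x : Equiv.Perm (Fin n) // IsConj t x} =>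
        Odd (orderOf (x.1 * y.1))).Connected ∧
      (SimpleGraph.fromRel fun x y : {x : Equiv.Perm (Fin n) // IsConj t x} =>
        Odd (orderOf (x.1 * y.1))).diam = 2 := by
  classical
  have htt : t * t = 1 := by have := pow_orderOf_eq_one t; rwa [ht, sq] at this
  have hsq : ∀ y : Equiv.Perm (Fin n), IsConj t y → y * y = 1 := fun y hy => by
    obtain ⟨c, rfl⟩ := isConj_iff.1 hy
    rw [conj_mul, htt, mul_one, mul_inv_cancel]
  refine Cfsg.Agent.Chars.connected_diam_two _ (fun a b hab => ?_) ?_
  · by_cases hadj : (SimpleGraph.fromRel fun x y : {x : Equiv.Perm (Fin n) // IsConj t x} =>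
        Odd (orderOf (x.1 * y.1))).Adj a b
    · exact Or.inl hadj
    right
    obtain ⟨z, hz, h1, h2⟩ := Cfsg.Agent.Chars.OddSym.exists_common_odd (by simpa using hn) a.1 b.1
      (hsq _ a.2) (hsq _ b.2) (a.2.symm.trans b.2)
    have hza : IsConj t z := a.2.trans (Cfsg.Agent.Chars.isConj_of_odd_product _ _ (hsq _ a.2) hz h1)
    refine ⟨⟨z, hza⟩, ⟨fun e => ?_, Or.inl h1⟩, ⟨fun e => ?_, Or.inr h2⟩⟩
    · exact hadj ⟨hab, Or.inr (by rw [e]; exact h2)⟩
    · exact hadj ⟨hab, Or.inl (by rw [← e]; exact h1)⟩
  · -- two commuting conjugates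
    suffices h : ∃ y : Equiv.Perm (Fin n), IsConj t y ∧ t ≠ y ∧ orderOf (t * y) = 2 by
      obtain ⟨y, hy, hne, ho⟩ := h
      refine ⟨⟨t, IsConj.refl t⟩, ⟨y, hy⟩, fun e => hne (congrArg Subtype.val e), ?_⟩
      rintro ⟨-, h | h⟩
      · rw [ho] at h; exact absurd h (by decide)
      · have e : orderOf (y * t) = 2 := by
          rw [← orderOf_inv, mul_inv_rev, inv_eq_of_mul_eq_one_right htt,
            inv_eq_of_mul_eq_one_right (hsq y hy)]
          exact ho
        simp only [e] at h; exact absurd h (by decide)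
    have key : ∀ a b c d : Fin n, a ≠ b → c ≠ d → a ≠ c → a ≠ d → b ≠ c → b ≠ d →
        orderOf (Equiv.swap a b * Equiv.swap c d) = 2 := by
      intro a b c d hab hcd hac had hbc hbd
      refine orderOf_eq_prime ?_ fun e => ?_
      · have hc : Commute (Equiv.swap a b) (Equiv.swap c d) := by
          refine Equiv.Perm.Disjoint.commute fun v => ?_
          by_cases hv : v = a ∨ v = b
          · right; rcases hv with h | h <;> subst h <;> exact Equiv.swap_apply_of_ne_of_ne ‹_› ‹_›
          · push Not at hv; exact Or.inl (Equiv.swap_apply_of_ne_of_ne hv.1 hv.2)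
        rw [hc.mul_pow, sq, sq, Equiv.swap_mul_self, Equiv.swap_mul_self, one_mul]
      · have := congrArg (fun f : Equiv.Perm (Fin n) => f a) e
        simp only [Equiv.Perm.mul_apply, Equiv.Perm.one_apply, Equiv.swap_apply_of_ne_of_ne hac had,
          Equiv.swap_apply_left] at this
        exact hab this.symm
    obtain ⟨p, hp⟩ : ∃ p, t p ≠ p := by
      by_contra hno
      push Not at hno
      have : t = 1 := Equiv.ext hno
      rw [this, orderOf_one] at ht; norm_num at ht
    have htp : ∀ v, t (t v) = v := fun v => by rw [← Equiv.Perm.mul_apply, htt, Equiv.Perm.one_apply]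
    have hti : t⁻¹ = t := inv_eq_of_mul_eq_one_right htt
    by_cases hq : ∃ q, t q ≠ q ∧ q ≠ p ∧ q ≠ t p
    · obtain ⟨q, hq, hqp, hqtp⟩ := hq
      refine ⟨Equiv.swap p q * t * (Equiv.swap p q)⁻¹, isConj_iff.2 ⟨_, rfl⟩, ?_, ?_⟩
      all_goals
        have e : t * (Equiv.swap p q * t * (Equiv.swap p q)⁻¹) = Equiv.swap (t p) (t q) * Equiv.swap p q := by
          rw [Equiv.swap_inv, Equiv.swap_apply_apply, hti]; simp only [mul_assoc]
        have ho := key (t p) (t q) p q (fun h => hqp (t.injective h).symm) hqp.symm hp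
          (fun h => hqtp h.symm) (fun h => hqtp (by rw [← h, htp])) hq
      · intro heq
        rw [← heq, htt] at e
        rw [← e, orderOf_one] at ho; norm_num at ho
      · rw [e]; exact ho
    · push Not at hq
      have hts : t = Equiv.swap p (t p) := by
        ext v
        by_cases h1 : v = p
        · rw [h1, Equiv.swap_apply_left]
        by_cases h2 : v = t p
        · rw [h2, Equiv.swap_apply_right, htp]
        rw [Equiv.swap_apply_of_ne_of_ne h1 h2]
        by_contra h3
        exact h2 (hq v (fun h => h3 (by rw [h])) h1)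
      have hcard : 2 ≤ (({p, t p} : Finset (Fin n))ᶜ).card := by
        rw [Finset.card_compl, Fintype.card_fin, Finset.card_pair hp.symm]; omega
      obtain ⟨r, hr, r', hr', hrr⟩ := Finset.one_lt_card.1 (show 1 < _ from hcard)
      simp only [Finset.mem_compl, Finset.mem_insert, Finset.mem_singleton, not_or] at hr hr'
      refine ⟨Equiv.swap r r', ?_, fun e => ?_, ?_⟩
      · rw [hts]; exact Equiv.Perm.isConj_swap hp.symm hrr
      · have := congrArg (fun f : Equiv.Perm (Fin n) => f p) e
        simp only [Equiv.swap_apply_of_ne_of_ne (Ne.symm hr.1) (Ne.symm hr'.1)] at this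
        exact hp this
      · rw [hts]
        exact key p (t p) r r' hp.symm hrr (Ne.symm hr.1) (Ne.symm hr'.1) (Ne.symm hr.2) (Ne.symm hr'.2)

end Cfsg.Agent.S3265
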