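import Cfsg.Statements.S3266
import Cfsg.Agent.Chars.OddPSLMatrix

set_option autoImplicit false
open Cfsg

namespace Cfsg.Agent.S3266

/-- Let F be a finite field with at least 4 elements and let X be a conjugacy class of involutions of PSL(2, F). The graph on X joining two distinct involutions whose product has odd order is connected and has diameter exactly 2. -/
theorem result {F : Type*} [Field F] [Fintype F] (hF : 4 ≤ Fintype.card F)
    (t : Matrix.ProjectiveSpecialLinearGroup (Fin 2) F) (ht : orderOf t = 2) :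
    (SimpleGraph.fromRel fun x y : {x : Matrix.ProjectiveSpecialLinearGroup (Fin 2) F // IsConj t x} =>
        Odd (orderOf (x.1 * y.1))).Connected ∧
      (SimpleGraph.fromRel fun x y : {x : Matrix.ProjectiveSpecialLinearGroup (Fin 2) F // IsConj t x} =>
        Odd (orderOf (x.1 * y.1))).diam = 2 := by
  classical
  have htt : t * t = 1 := by have := pow_orderOf_eq_one t; rwa [ht, sq] at this
  have ht1 : t ≠ 1 := fun h => by rw [h, orderOf_one] at ht; norm_num at ht
  have hinv : ∀ y : Matrix.ProjectiveSpecialLinearGroup (Fin 2) F, IsConj t y → y * y = 1 ∧ y ≠ 1 := by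
    intro y hy
    obtain ⟨c, rfl⟩ := isConj_iff.1 hy
    exact ⟨by rw [conj_mul, htt, mul_one, mul_inv_cancel], fun h => ht1 (conj_eq_one_iff.1 h)⟩
  have hone : ∀ x y : Matrix.ProjectiveSpecialLinearGroup (Fin 2) F, x * x = 1 → x ≠ 1 → y * y = 1 →
      y ≠ 1 → IsConj x y := by
    intro x y hx hx1 hy hy1
    by_cases h : Odd (orderOf (x * y))
    · exact Cfsg.Agent.Chars.isConj_of_odd_product x y hx hy h
    · obtain ⟨z, hz, h1, h2⟩ := Cfsg.Agent.Chars.OddPSL.common_neighbour hF x y hx hx1 hy hy1 h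
      exact (Cfsg.Agent.Chars.isConj_of_odd_product x z hx hz h1).trans
        (Cfsg.Agent.Chars.isConj_of_odd_product y z hy hz h2).symm
  refine Cfsg.Agent.Chars.connected_diam_two _ (fun a b hab => ?_) ?_
  · by_cases hadj : (SimpleGraph.fromRel fun x y : {x : Matrix.ProjectiveSpecialLinearGroup (Fin 2) F // IsConj t x} =>
        Odd (orderOf (x.1 * y.1))).Adj a b
    · exact Or.inl hadj
    right
    obtain ⟨z, hz, h1, h2⟩ := Cfsg.Agent.Chars.OddPSL.common_neighbour hF a.1 b.1 (hinv _ a.2).1 (hinv _ a.2).2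
      (hinv _ b.2).1 (hinv _ b.2).2 fun h => hadj ⟨hab, Or.inl h⟩
    have hza : IsConj t z := a.2.trans (Cfsg.Agent.Chars.isConj_of_odd_product _ _ (hinv _ a.2).1 hz h1)
    refine ⟨⟨z, hza⟩, ⟨fun e => ?_, Or.inl h1⟩, ⟨fun e => ?_, Or.inr h2⟩⟩
    · exact hadj ⟨hab, Or.inr (by rw [e]; exact h2)⟩
    · exact hadj ⟨hab, Or.inl (by rw [← e]; exact h1)⟩
  · obtain ⟨y, hy, hy1, hyt, ho⟩ := Cfsg.Agent.Chars.OddPSL.exists_commuting hF t htt ht1
    refine ⟨⟨t, IsConj.refl t⟩, ⟨y, hone t y htt ht1 hy hy1⟩,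
      fun e => hyt (congrArg Subtype.val e).symm, ?_⟩
    rintro ⟨-, h | h⟩
    · rw [ho] at h; exact absurd h (by decide)
    · have e : orderOf (y * t) = 2 := by
        rw [← orderOf_inv, mul_inv_rev, inv_eq_of_mul_eq_one_right htt, inv_eq_of_mul_eq_one_right hy]
        exact ho
      simp only [e] at h; exact absurd h (by decide)

end Cfsg.Agent.S3266
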