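import Cfsg.Statements.S3269
import Cfsg.Agent.Blocks.QuatFactor
import Cfsg.Agent.Blocks.ZStarFusion
-- import your own Cfsg.Agent.* helpers here

set_option autoImplicit false
open Cfsg

namespace Cfsg.Agent.S3269

/-- Let G be a finite group whose Sylow 2-subgroup S is an internal direct product Q × R with Q generalized quaternion (of order at least 8) and R a subgroup all of whose involutions are central in R. Then G is not simple. In particular no finite simple group has a Sylow 2-subgroup that is a direct product of one or more generalized quaternion groups. -/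
theorem result {G : Type*} [Group G] [Finite G]
    (S : Sylow 2 G) (Q R : Subgroup G) (hQR : Cfsg.IsInternalDirectProduct Q R (S : Subgroup G))
    (n : ℕ) (hn : 1 ≤ n) (eQ : ↥Q ≃* QuaternionGroup (2 ^ n))
    (hR : ∀ r ∈ R, orderOf r = 2 → ∀ s ∈ R, r * s = s * r) :
    ¬ IsSimpleGroup G := by
  intro hs
  obtain ⟨z, hQ⟩ := Blocks.quatLike_of_equiv hn eQ
  obtain ⟨w, hw⟩ := Blocks.exists_isolated_of_quaternion_factor hQR.1 hQR.2.1 hQR.2.2.1
    hQR.2.2.2.1 hQR.2.2.2.2 hQ hR
  have hO : Cfsg.oddCore G = ⊥ := (inferInstance : (Cfsg.oddCore G).Normal).eq_bot_or_eq_top.resolve_right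
    fun htop => Blocks.isolated_not_mem_odd hw (Blocks.odd_card_oddCore G) (htop ▸ Subgroup.mem_top w)
  have hwc : w ∈ Subgroup.center G := Subgroup.mem_center_iff.2 fun g => by
    have h1 := Blocks.glauberman_zstar hw g
    rw [hO, Subgroup.mem_bot] at h1
    exact (mul_inv_eq_iff_eq_mul.1 (mul_inv_eq_one.1 h1)).symm
  have hctop : Subgroup.center G = ⊤ :=
    (inferInstance : (Subgroup.center G).Normal).eq_bot_or_eq_top.resolve_left fun h => by
      rw [h, Subgroup.mem_bot] at hwc
      have := hw.1
      rw [hwc, orderOf_one] at this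
      omega
  obtain ⟨x, hx, y, hy, hxy⟩ := hQ.comm
  have hcomm : x * y = y * x := by
    have h : y ∈ Subgroup.center G := hctop ▸ Subgroup.mem_top y
    exact Subgroup.mem_center_iff.1 h x
  rw [← hcomm, right_eq_mul] at hxy
  exact hQ.ne hxy

end Cfsg.Agent.S3269
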