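import Cfsg.Statements.S3276
import Cfsg.Agent.TwoGroups.Involution
-- import your own Cfsg.Agent.* helpers here

set_option autoImplicit false
open Cfsg

namespace Cfsg.Agent.S3276

/-- Let x and y be commuting, non-conjugate involutions of a finite group G, and suppose that for every involution u commuting with x, each conjugate of y that commutes with u also commutes with y. Then the normal closure of y is a proper, normal, elementary abelian 2-subgroup of G; and if y is the only involution of that normal closure commuting with x, it has order at most 4. -/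
theorem result {G : Type*} [Group G] [Finite G] (x y : G) (hx : orderOf x = 2) (hy : orderOf y = 2)
    (hxy : Commute x y) (hnc : ¬ IsConj x y)
    (hstar : ∀ u : G, orderOf u = 2 → Commute u x → ∀ g : G, Commute (g * y * g⁻¹) u → Commute (g * y * g⁻¹) y) :
    Subgroup.normalClosure ({y} : Set G) ≠ ⊤ ∧ Cfsg.IsElementaryAbelian 2 (Subgroup.normalClosure ({y} : Set G)) ∧
      ((∀ u ∈ Subgroup.normalClosure ({y} : Set G), orderOf u = 2 → Commute u x → u = y) →
        Nat.card ↥(Subgroup.normalClosure ({y} : Set G)) ≤ 4) := by
  classical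
  set N := Subgroup.normalClosure ({y} : Set G) with hN
  have hxx : x * x = 1 := TwoGroups.sq_one_of_order_two hx
  have hyy : y * y = 1 := TwoGroups.sq_one_of_order_two hy
  have hcy : ∀ g : G, Commute (g * y * g⁻¹) y := by
    intro g
    have hy' : (g * y * g⁻¹) * (g * y * g⁻¹) = 1 := by
      rw [show g * y * g⁻¹ * (g * y * g⁻¹) = g * (y * y) * g⁻¹ by group, hyy]; group
    rcases Nat.even_or_odd (orderOf (x * (g * y * g⁻¹))) with he | ho
    · obtain ⟨c, -, hc1, hc2, hcx, hcy', -⟩ :=
        TwoGroups.exists_central_of_even hxx hy' (isOfFinOrder_of_finite _) he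
      have hco : orderOf c = 2 := orderOf_eq_prime (by rw [pow_two, hc2]) hc1
      exact hstar c hco hcx g hcy'.symm
    · obtain ⟨k, -, hk⟩ := TwoGroups.exists_conj_of_odd hxx hy' ho
      refine absurd ?_ hnc
      refine (isConj_iff.2 ⟨k * g, ?_⟩ : IsConj y x).symm
      rw [← hk]; group
  have hcc : ∀ g h : G, Commute (g * y * g⁻¹) (h * y * h⁻¹) := by
    intro g h
    have := (hcy (h⁻¹ * g)).map (MulAut.conj h).toMonoidHom
    simp only [MulEquiv.coe_toMonoidHom, MulAut.conj_apply] at this
    rwa [show h * (h⁻¹ * g * y * (h⁻¹ * g)⁻¹) * h⁻¹ = g * y * g⁻¹ by group] at this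
  have hS : ∀ u ∈ Group.conjugatesOfSet ({y} : Set G), ∃ g : G, g * y * g⁻¹ = u := by
    intro u hu
    obtain ⟨v, rfl, hv⟩ := Group.mem_conjugatesOfSet_iff.1 hu
    exact isConj_iff.1 hv
  have hcomm : ∀ a ∈ N, ∀ b ∈ N, Commute a b := by
    have h1 : N ≤ Subgroup.centralizer (Group.conjugatesOfSet ({y} : Set G)) := by
      refine (Subgroup.closure_le _).2 fun u hu => ?_
      rw [SetLike.mem_coe, Subgroup.mem_centralizer_iff]
      intro v hv
      obtain ⟨g, rfl⟩ := hS u hu
      obtain ⟨h, rfl⟩ := hS v hv
      exact hcc h g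
    have h2 : N ≤ Subgroup.centralizer (N : Set G) := by
      refine (Subgroup.closure_le _).2 fun u hu => ?_
      rw [SetLike.mem_coe, Subgroup.mem_centralizer_iff]
      intro v hv
      exact ((Subgroup.mem_centralizer_iff.1 (h1 hv)) u hu).symm
    exact fun a ha b hb => ((Subgroup.mem_centralizer_iff.1 (h2 ha)) b hb).symm
  have hexp : ∀ a ∈ N, a * a = 1 := by
    intro a ha
    induction ha using Subgroup.closure_induction with
    | mem u hu =>
      obtain ⟨g, rfl⟩ := hS u hu
      rw [show g * y * g⁻¹ * (g * y * g⁻¹) = g * (y * y) * g⁻¹ by group, hyy]; group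
    | one => simp
    | mul a b ha hb iha ihb =>
      rw [mul_assoc, ← mul_assoc b, (hcomm b hb a ha).eq, mul_assoc a, ihb, mul_one, iha]
    | inv a _ iha => rw [← mul_inv_rev, iha, inv_one]
  have hne : x ≠ y := fun h => hnc (h ▸ IsConj.refl x)
  refine ⟨fun htop => ?_, ⟨⟨⟨fun a b => Subtype.ext (hcomm a a.2 b b.2)⟩⟩,
    fun a ha => by rw [pow_two]; exact hexp a ha⟩, fun honly => ?_⟩
  · have hle : N ≤ Subgroup.zpowers y := by
      refine (Subgroup.closure_le _).2 fun u hu => ?_
      obtain ⟨g, rfl⟩ := hS u hu
      have : Commute g y := hcomm g (htop ▸ Subgroup.mem_top g) y (htop ▸ Subgroup.mem_top y)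
      rw [this.eq, mul_inv_cancel_right]
      exact Subgroup.mem_zpowers y
    have hxm : x ∈ Subgroup.zpowers y := hle (htop ▸ Subgroup.mem_top x)
    obtain ⟨k, hk⟩ := Subgroup.mem_zpowers_iff.1 hxm
    rcases Int.even_or_odd' k with ⟨i, rfl | rfl⟩
    · rw [zpow_mul, zpow_two, hyy, one_zpow] at hk
      subst hk; simp at hx
    · rw [zpow_add, zpow_mul, zpow_two, hyy, one_zpow, one_mul, zpow_one] at hk
      exact hne hk.symm
  · have : Fintype G := Fintype.ofFinite G
    let f : G → G := fun n => n * (x * n * x)
    have hxN : ∀ n ∈ N, x * n * x ∈ N := fun n hn => by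
      have := Subgroup.normalClosure_normal.conj_mem n hn x
      rwa [TwoGroups.inv_eq_of_sq_one hxx] at this
    have hfix : ∀ n ∈ N, Commute n x → n = 1 ∨ n = y := by
      intro n hn hnx
      by_cases h1 : n = 1
      · exact Or.inl h1
      · exact Or.inr (honly n hn (orderOf_eq_prime (by rw [pow_two, hexp n hn]) h1) hnx)
    let s : Finset G := Finset.univ.filter (· ∈ N)
    have hcard : Nat.card N = s.card := by
      rw [Nat.card_eq_fintype_card, Fintype.card_subtype]
    have him : s.image f ⊆ {1, y} := by
      intro u hu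
      obtain ⟨n, hn, rfl⟩ := Finset.mem_image.1 hu
      have hn' : n ∈ N := (Finset.mem_filter.1 hn).2
      have hcx : Commute (f n) x := by
        have e : x * f n * x = f n := by
          show x * (n * (x * n * x)) * x = n * (x * n * x)
          rw [show x * (n * (x * n * x)) * x = (x * n * x) * n * (x * x) by group, hxx, mul_one]
          exact (hcomm _ (hxN n hn') n hn').eq
        calc f n * x = x * f n * x * x := by rw [e]
          _ = x * f n := by rw [mul_assoc _ x x, hxx, mul_one]
      rcases hfix _ (mul_mem hn' (hxN n hn')) hcx with h | h <;> simp [f, h]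
    have hfib : ∀ u ∈ s.image f, (s.filter (fun n => f n = u)).card ≤ 2 := by
      intro u hu
      obtain ⟨n, hn, rfl⟩ := Finset.mem_image.1 hu
      have hn' : n ∈ N := (Finset.mem_filter.1 hn).2
      refine le_trans (Finset.card_le_card (t := {n, n * y}) ?_) Finset.card_le_two
      intro m hm
      obtain ⟨hm1, hm2⟩ := Finset.mem_filter.1 hm
      have hm' : m ∈ N := (Finset.mem_filter.1 hm1).2
      have hd : Commute (n * m) x := by
        have e : x * (n * m) * x = n * m := by
          have h1 : x * m * x = m * f n := by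
            rw [← hm2]
            show x * m * x = m * (m * (x * m * x))
            rw [← mul_assoc m m, hexp m hm', one_mul]
          rw [show x * (n * m) * x = x * n * (x * x) * m * x by rw [hxx]; group,
            show x * n * (x * x) * m * x = (x * n * x) * (x * m * x) by group, h1,
            ← mul_assoc, (hcomm _ (hxN n hn') m hm').eq, mul_assoc]
          show m * ((x * n * x) * (n * (x * n * x))) = n * m
          rw [(hcomm n hn' _ (hxN n hn')).eq, ← mul_assoc (x * n * x), hexp _ (hxN n hn'), one_mul]
          exact (hcomm m hm' n hn').eq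
        calc n * m * x = x * (n * m) * x * x := by rw [e]
          _ = x * (n * m) := by rw [mul_assoc _ x x, hxx, mul_one]
      have hmn : m = n * (n * m) := by rw [← mul_assoc, hexp n hn', one_mul]
      rcases hfix _ (mul_mem hn' hm') hd with h | h
      · rw [hmn, h, mul_one]; simp
      · rw [hmn, h]; simp
    calc Nat.card N = s.card := hcard
      _ ≤ 2 * (s.image f).card := Finset.card_le_mul_card_image s 2 hfib
      _ ≤ 2 * 2 := by
        gcongr
        exact (Finset.card_le_card him).trans Finset.card_le_two
      _ = 4 := by norm_num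

end Cfsg.Agent.S3276
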