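import Cfsg.Statements.S3277
import Cfsg.Agent.Screen.FourCentralizer
import Cfsg.Agent.S3276
import Mathlib.GroupTheory.Transfer
import Mathlib.GroupTheory.Nilpotent
-- import your own Cfsg.Agent.* helpers here

set_option autoImplicit false
open Cfsg

namespace Cfsg.Agent.S3277

/-- The elements of a four group. -/
theorem mem_four {G : Type*} [Group G] [Finite G] {V : Subgroup G} (h4 : Nat.card V = 4)
    (h2 : ∀ v ∈ V, v * v = 1) {v w : G} (hv : v ∈ V) (hw : w ∈ V) (hv1 : v ≠ 1) (hw1 : w ≠ 1)
    (hwv : w ≠ v) : ∀ c ∈ V, c = 1 ∨ c = v ∨ c = w ∨ c = v * w := by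
  classical
  have : Fintype G := Fintype.ofFinite G
  have hsub : ({1, v, w, v * w} : Finset G) ⊆ Finset.univ.filter (· ∈ V) := by
    intro c hc
    simp only [Finset.mem_insert, Finset.mem_singleton] at hc
    rcases hc with rfl | rfl | rfl | rfl <;> simp [hv, hw, mul_mem]
  have hvw : v * w ≠ 1 := fun e => hwv (by
    rw [eq_inv_of_mul_eq_one_right e, inv_eq_of_mul_eq_one_right (h2 v hv)])
  have hc : ({1, v, w, v * w} : Finset G).card = 4 := by
    simp [Finset.card_insert_of_notMem, hv1.symm, hw1.symm, hvw.symm, hwv.symm, hv1, hw1]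
  have heq := Finset.eq_of_subset_of_card_le hsub (by
    rw [hc, ← Fintype.card_subtype, ← Nat.card_eq_fintype_card, h4])
  intro c hc
  have : c ∈ ({1, v, w, v * w} : Finset G) := by rw [heq]; simp [hc]
  simpa using this

/-- Another element of a four group. -/
theorem exists_other {G : Type*} [Group G] [Finite G] {V : Subgroup G} (h4 : Nat.card V = 4) (v : G) :
    ∃ w ∈ V, w ≠ 1 ∧ w ≠ v := by
  classical
  have : Fintype G := Fintype.ofFinite G
  by_contra hc
  push Not at hc
  have hsub : Finset.univ.filter (· ∈ V) ⊆ {1, v} := fun w hw => by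
    by_cases hw1 : w = 1
    · simp [hw1]
    · simp [hc w (Finset.mem_filter.1 hw).2 hw1]
  have := (Finset.card_le_card hsub).trans Finset.card_le_two
  rw [← Fintype.card_subtype, ← Nat.card_eq_fintype_card, h4] at this
  omega

/-- Let G be a finite group containing an involution whose centralizer is elementary abelian of order 4. If G has no normal 2-complement and no normal elementary abelian 2-subgroup of order 2 or 4, then G is isomorphic to the alternating group of degree 5 (that is, to PSL(2, 5)). -/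
theorem result {G : Type*} [Group G] [Finite G] (x : G) (hx : orderOf x = 2)
    (hC4 : Nat.card ↥(Subgroup.centralizer ({x} : Set G)) = 4) (hCe : ∀ c ∈ Subgroup.centralizer ({x} : Set G), c ^ 2 = 1)
    (hnc : ¬ Cfsg.HasNormalPComplement 2 G)
    (hne : ∀ E : Subgroup G, E.Normal → Cfsg.IsElementaryAbelian 2 E → Nat.card ↥E ≠ 2 ∧ Nat.card ↥E ≠ 4) :
    Nonempty (G ≃* ↥(alternatingGroup (Fin 5))) := by
  classical
  haveI : Fact (Nat.Prime 2) := ⟨Nat.prime_two⟩
  set V := Subgroup.centralizer ({x} : Set G) with hV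
  have hxx : x * x = 1 := TwoGroups.sq_one_of_order_two hx
  have hxV : x ∈ V := Subgroup.mem_centralizer_singleton_iff.2 rfl
  have hV2 : ∀ v ∈ V, v * v = 1 := fun v hv => by rw [← pow_two]; exact hCe v hv
  have hVab : ∀ v ∈ V, ∀ w ∈ V, v * w = w * v := fun v hv w hw => by
    calc v * w = (v * w)⁻¹ := (TwoGroups.inv_eq_of_sq_one (hV2 _ (mul_mem hv hw))).symm
      _ = w * v := by
        rw [mul_inv_rev, TwoGroups.inv_eq_of_sq_one (hV2 w hw), TwoGroups.inv_eq_of_sq_one (hV2 v hv)]
  have hx1 : x ≠ 1 := fun e => by simp [e] at hx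
  obtain ⟨P, hVP⟩ := (IsPGroup.of_card (n := 2) (by rw [hC4]; norm_num) : IsPGroup 2 ↥V).exists_le_sylow
  by_cases hPV : (P : Subgroup G) = V
  · -- `V` is a Sylow subgroup
    have hfour : ∀ v ∈ V, v ≠ 1 → ∀ w ∈ V, w ≠ 1 → w ≠ v → ∀ c ∈ V,
        c = 1 ∨ c = v ∨ c = w ∨ c = v * w := fun v hv hv1 w hw hw1 hwv =>
      mem_four hC4 hV2 hv hw hv1 hw1 hwv
    obtain ⟨n, hn, hnV⟩ : ∃ n, n ∈ Subgroup.normalizer (V : Set G) ∧ n ∉ Subgroup.centralizer (V : Set G) := by
      by_contra hcon
      push Not at hcon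
      apply hnc
      have hP' : Subgroup.normalizer ((P : Subgroup G) : Set G) ≤ Subgroup.centralizer ((P : Subgroup G) : Set G) := by
        rw [hPV]; exact hcon
      exact ⟨P, _, MonoidHom.normal_ker _, MonoidHom.ker_transferSylow_isComplement' P hP'⟩
    obtain ⟨m, hmodd, hm⟩ : ∃ m, Odd m ∧ n ^ m ∈ V := by
      set N := Subgroup.normalizer (V : Set G)
      have hnV' : (V.subgroupOf N).Normal :=
        (Subgroup.normal_subgroupOf_iff_le_normalizer Subgroup.le_normalizer).2 le_rfl
      refine ⟨(V.subgroupOf N).index, ?_, ?_⟩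
      · rw [← Nat.not_even_iff_odd]
        intro he
        have h1 : (V.subgroupOf N).index ∣ V.index := Dvd.intro _ (Subgroup.relIndex_mul_index (Subgroup.le_normalizer : V ≤ N))
        exact P.not_dvd_index (hPV ▸ (even_iff_two_dvd.1 he).trans h1)
      · have := Subgroup.pow_index_mem (V.subgroupOf N) (⟨n, hn⟩ : N)
        simpa [Subgroup.mem_subgroupOf] using this
    have hconj : ∀ v ∈ V, n * v * n⁻¹ ∈ V := fun v hv => ((Subgroup.mem_normalizer_iff).1 hn v).1 hv
    have hC : ∀ w ∈ V, n * w * n⁻¹ = w → ∀ u ∈ V, n * u * n⁻¹ = u → u ≠ w → w ≠ 1 → u ≠ 1 → False := by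
      intro w hw hnw u hu hnu huw hw1 hu1
      apply hnV
      rw [Subgroup.mem_centralizer_iff]
      intro c hc
      have key : n * c * n⁻¹ = c := by
        rcases hfour w hw hw1 u hu hu1 huw c hc with rfl | rfl | rfl | rfl
        · group
        · exact hnw
        · exact hnu
        · rw [← conj_mul, hnw, hnu]
      exact (mul_inv_eq_iff_eq_mul.1 key).symm
    have hfix : ∀ v ∈ V, v ≠ 1 → n * v * n⁻¹ ≠ v := by
      intro v hv hv1 hnv
      obtain ⟨w, hw, hw1, hwv⟩ := exists_other hC4 v
      have hin : n * w * n⁻¹ ≠ 1 := by rw [Ne, conj_eq_one_iff]; exact hw1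
      have hnew : n * w * n⁻¹ ≠ v := fun e => hwv (by
        apply mul_left_cancel (a := n); apply mul_right_cancel (b := n⁻¹); rw [e, hnv])
      rcases hfour v hv hv1 w hw hw1 hwv _ (hconj w hw) with h | h | h | h
      · exact hin h
      · exact hnew h
      · exact hC v hv hnv w hw h hwv hv1 hw1
      · -- an involution swapping two elements is not possible
        have hsq : ∀ k : ℕ, n ^ (2 * k) * w * (n ^ (2 * k))⁻¹ = w := by
          intro k
          induction k with
          | zero => simp
          | succ k ih =>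
            have e : n * (v * w) * n⁻¹ = w := by
              rw [← conj_mul, hnv, h, ← mul_assoc, hV2 v hv, one_mul]
            rw [show 2 * (k + 1) = 2 * k + 1 + 1 by ring, pow_succ, pow_succ,
              show n ^ (2 * k) * n * n * w * (n ^ (2 * k) * n * n)⁻¹ =
                n ^ (2 * k) * (n * (n * w * n⁻¹) * n⁻¹) * (n ^ (2 * k))⁻¹ by group,
              h, e, ih]
        obtain ⟨k, rfl⟩ := hmodd
        have h1 : n ^ (2 * k + 1) * w * (n ^ (2 * k + 1))⁻¹ = w := by
          rw [hVab _ hm w hw, mul_inv_cancel_right]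
        have h2 : n ^ (2 * k + 1) * w * (n ^ (2 * k + 1))⁻¹ = n * w * n⁻¹ := by
          rw [pow_succ', show n * n ^ (2 * k) * w * (n * n ^ (2 * k))⁻¹ =
            n * (n ^ (2 * k) * w * (n ^ (2 * k))⁻¹) * n⁻¹ by group, hsq k]
        rw [h1, h] at h2
        exact hv1 (mul_eq_right.1 h2.symm)
    -- all involutions of `V` are conjugate
    have hall : ∀ v ∈ V, v ≠ 1 → IsConj x v := by
      intro v hv hv1
      set y := n * x * n⁻¹ with hy
      have hy1 : y ≠ 1 := by rw [hy, Ne, conj_eq_one_iff]; exact hx1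
      have hyx : y ≠ x := hfix x hxV hx1
      have hy' : n * y * n⁻¹ ≠ y := hfix y (hconj x hxV) hy1
      have hy'' : n * y * n⁻¹ = x * y := by
        rcases hfour x hxV hx1 y (hconj x hxV) hy1 hyx _ (hconj y (hconj x hxV)) with h | h | h | h
        · rw [conj_eq_one_iff] at h; exact absurd h hy1
        · exfalso
          refine hfix (x * y) (mul_mem hxV (hconj x hxV)) ?_ ?_
          · intro e
            exact hyx (by rw [eq_inv_of_mul_eq_one_right e, TwoGroups.inv_eq_of_sq_one hxx])
          · rw [← conj_mul, h, hy, hVab _ (hconj x hxV) x hxV]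
        · exact absurd h hy'
        · exact h
      rcases hfour x hxV hx1 y (hconj x hxV) hy1 hyx v hv with h | h | h | h
      · exact absurd h hv1
      · exact h ▸ IsConj.refl x
      · exact isConj_iff.2 ⟨n, h.symm⟩
      · refine isConj_iff.2 ⟨n * n, ?_⟩
        rw [h, ← hy'', hy]; group
    have hone : ∀ u : G, orderOf u = 2 → IsConj x u := by
      intro u hu
      obtain ⟨Q, hQ⟩ := (IsPGroup.of_card (n := 1) (by rw [Nat.card_zpowers, hu, pow_one]) :
        IsPGroup 2 ↥(Subgroup.zpowers u)).exists_le_sylow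
      obtain ⟨g, hg⟩ := MulAction.exists_smul_eq G Q P
      have hguP : g * u * g⁻¹ ∈ V := by
        rw [← hPV, ← hg]
        exact Subgroup.smul_mem_pointwise_smul u (MulAut.conj g) _ (hQ (Subgroup.mem_zpowers u))
      have hgu1 : g * u * g⁻¹ ≠ 1 := by
        rw [Ne, conj_eq_one_iff]; intro e; simp [e] at hu
      exact (hall _ hguP hgu1).trans (isConj_iff.2 ⟨g⁻¹, by group⟩)
    have h4 : Screen.FourCentralizer.AllFour G := by
      intro u hu
      obtain ⟨g, rfl⟩ := isConj_iff.1 (hone u hu)
      have hiff : ∀ c : G, c ∈ V ↔ g * c * g⁻¹ ∈ Subgroup.centralizer ({g * x * g⁻¹} : Set G) := by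
        intro c
        simp only [hV, Subgroup.mem_centralizer_singleton_iff]
        constructor
        · intro h
          calc g * c * g⁻¹ * (g * x * g⁻¹) = g * (c * x) * g⁻¹ := by group
            _ = _ := by rw [h]; group
        · intro h
          have := congrArg (fun t => g⁻¹ * t * g) h
          simpa [mul_assoc] using this
      refine ⟨?_, fun c hc => ?_⟩
      · rw [← hC4]
        exact (Nat.card_congr ((MulAut.conj g).toEquiv.subtypeEquiv hiff)).symm
      · have h1 := hV2 (g⁻¹ * c * g) ((hiff _).2 (by rwa [show g * (g⁻¹ * c * g) * g⁻¹ = c by group]))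
        calc c * c = g * ((g⁻¹ * c * g) * (g⁻¹ * c * g)) * g⁻¹ := by group
          _ = 1 := by rw [h1]; group
    refine Screen.FourCentralizer.nonempty_mulEquiv_alternating_five h4 hx hone fun hnormal => ?_
    exact (hne V hnormal ⟨⟨⟨fun a b => Subtype.ext (hVab a a.2 b b.2)⟩⟩, hCe⟩).2 hC4
  · -- `V` is not a Sylow subgroup: impossible
    exfalso
    set W := V.subgroupOf (P : Subgroup G) with hW
    have hWne : W < ⊤ := lt_of_le_of_ne le_top fun e =>
      hPV (le_antisymm (Subgroup.subgroupOf_eq_top.1 e) hVP)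
    have : Group.IsNilpotent (P : Subgroup G) := P.2.isNilpotent
    obtain ⟨s, hsN, hsW⟩ := SetLike.exists_of_lt
      (Group.normalizerCondition_of_isNilpotent W hWne)
    have hsV : (s : G) ∉ V := fun h => hsW (Subgroup.mem_subgroupOf.2 h)
    have hsconj : ∀ v ∈ V, (s : G) * v * (s : G)⁻¹ ∈ V := fun v hv => by
      have := ((Subgroup.mem_normalizer_iff).1 hsN ⟨v, hVP hv⟩).1 (Subgroup.mem_subgroupOf.2 hv)
      exact Subgroup.mem_subgroupOf.1 this
    have : Nontrivial (P : Subgroup G) :=
      ⟨⟨⟨x, hVP hxV⟩, 1, fun e => hx1 (congrArg Subtype.val e)⟩⟩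
    have := P.2.center_nontrivial
    have h2Z : 2 ∣ Nat.card (Subgroup.center (P : Subgroup G)) := by
      obtain ⟨k, hk, hc⟩ := (P.2.to_subgroup (Subgroup.center (P : Subgroup G))).nontrivial_iff_card.1 this
      rw [hc]; exact dvd_pow_self 2 hk.ne'
    obtain ⟨z, hz⟩ := exists_prime_orderOf_dvd_card' 2 h2Z
    set t : G := ((z : (P : Subgroup G)) : G) with ht
    have ht2 : orderOf t = 2 := by rw [ht, Subgroup.orderOf_coe, Subgroup.orderOf_coe, hz]
    have ht1 : t ≠ 1 := fun e => by simp [e] at ht2
    have htc : ∀ g ∈ (P : Subgroup G), g * t = t * g := fun g hg =>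
      congrArg Subtype.val (Subgroup.mem_center_iff.1 z.2 ⟨g, hg⟩)
    have htV : t ∈ V := Subgroup.mem_centralizer_singleton_iff.2 (htc x (hVP hxV)).symm
    have hxt : t ≠ x := fun e => hsV (Subgroup.mem_centralizer_singleton_iff.2 (by
      rw [← e]; exact htc _ s.2))
    have hfour := mem_four hC4 hV2 hxV htV hx1 ht1 hxt
    have hsx : (s : G) * x * (s : G)⁻¹ = x * t := by
      rcases hfour _ (hsconj x hxV) with h | h | h | h
      · rw [conj_eq_one_iff] at h; exact absurd h hx1
      · exact absurd (Subgroup.mem_centralizer_singleton_iff.2 (mul_inv_eq_iff_eq_mul.1 h)) hsV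
      · exfalso
        rw [mul_inv_eq_iff_eq_mul, ← htc _ s.2] at h
        exact hxt (mul_left_cancel h).symm
      · exact h
    have hnconj : ¬ IsConj x t := by
      intro hc
      obtain ⟨g, hg⟩ := isConj_iff.1 hc
      -- `P` would be conjugate into the centralizer of `x`
      have hle : ∀ c ∈ (P : Subgroup G), g⁻¹ * c * g ∈ V := fun c hc => by
        refine Subgroup.mem_centralizer_singleton_iff.2 ?_
        calc g⁻¹ * c * g * x = g⁻¹ * (c * (g * x * g⁻¹)) * g := by group
          _ = g⁻¹ * ((g * x * g⁻¹) * c) * g := by rw [hg, htc c hc]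
          _ = _ := by group
      have hcard : Nat.card (P : Subgroup G) ≤ Nat.card V :=
        Nat.card_le_card_of_injective (fun c => (⟨g⁻¹ * (c : G) * g, hle c c.2⟩ : V)) fun c d h => by
          simpa using h
      exact hPV (Subgroup.eq_of_le_of_card_ge hVP hcard).symm
    have hstar : ∀ u : G, orderOf u = 2 → Commute u x → ∀ g : G,
        Commute (g * t * g⁻¹) u → Commute (g * t * g⁻¹) t := by
      intro u hu hux g hgu
      rcases hfour u (Subgroup.mem_centralizer_singleton_iff.2 hux) with h | h | h | h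
      · subst h; simp at hu
      · subst h
        exact hVab _ (Subgroup.mem_centralizer_singleton_iff.2 hgu) t htV
      · subst h; exact hgu
      · subst h
        rw [← hsx] at hgu
        set c := g * t * g⁻¹
        have h1 : (s : G)⁻¹ * c * (s : G) ∈ V := by
          refine Subgroup.mem_centralizer_singleton_iff.2 ?_
          calc (s : G)⁻¹ * c * (s : G) * x = (s : G)⁻¹ * (c * ((s : G) * x * (s : G)⁻¹)) * s := by group
            _ = _ := by rw [hgu.eq]; group
        have h2 := hsconj _ h1
        rw [show (s : G) * ((s : G)⁻¹ * c * (s : G)) * (s : G)⁻¹ = c by group] at h2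
        exact hVab c h2 t htV
    have htx : Commute x t := hVab x hxV t htV
    obtain ⟨-, hNe, hN4⟩ := S3276.result x t hx ht2 htx hnconj hstar
    set N := Subgroup.normalClosure ({t} : Set G) with hN
    have hNnormal : N.Normal := Subgroup.normalClosure_normal
    have htN : t ∈ N := Subgroup.subset_normalClosure rfl
    have hcard : Nat.card N ≤ 4 := by
      by_cases hxN : x ∈ N
      · have hle : N ≤ V := fun c hc => Subgroup.mem_centralizer_singleton_iff.2
          (congrArg Subtype.val (hNe.1.is_comm.comm (⟨c, hc⟩ : N) ⟨x, hxN⟩))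
        exact (Subgroup.card_le_of_le hle).trans hC4.le
      · refine hN4 fun u huN hu hux => ?_
        rcases hfour u (Subgroup.mem_centralizer_singleton_iff.2 hux) with h | h | h | h
        · subst h; simp at hu
        · exact absurd (h ▸ huN) hxN
        · exact h
        · refine absurd ?_ hxN
          have := mul_mem (h ▸ huN : x * t ∈ N) (inv_mem htN)
          simpa using this
    obtain ⟨k, hk⟩ := IsPGroup.iff_card.1 (show IsPGroup 2 N from fun a => ⟨1, Subtype.ext (by
      simpa using hNe.2 a a.2)⟩)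
    have hk2 : k ≤ 2 := (Nat.pow_le_pow_iff_right (by norm_num)).1 (hk ▸ hcard : 2 ^ k ≤ 2 ^ 2)
    have hk0 : k ≠ 0 := by
      rintro rfl
      rw [pow_zero] at hk
      rw [Subgroup.card_eq_one.1 hk, Subgroup.mem_bot] at htN
      exact ht1 htN
    obtain ⟨h2, h4'⟩ := hne N hNnormal hNe
    rcases (by omega : k = 1 ∨ k = 2) with rfl | rfl
    · exact h2 (by rw [hk]; norm_num)
    · exact h4' (by rw [hk]; norm_num)

end Cfsg.Agent.S3277
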