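import Cfsg.Statements.S3278
import Cfsg.Agent.Screen.KleinNormalA5
-- import your own Cfsg.Agent.* helpers here

set_option autoImplicit false
open Cfsg

namespace Cfsg.Agent.S3278

/-- Let G be a finite simple group with an involution x such that a Sylow 2-subgroup of C_G(x) is a Klein four-group which is normal in C_G(x). Then G is isomorphic to the alternating group of degree 5 (that is, to PSL(2, 5)). -/
theorem result {G : Type*} [Group G] [Finite G] [IsSimpleGroup G] (x : G) (hx : orderOf x = 2)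
    (S₀ : Subgroup G) (hle : S₀ ≤ Subgroup.centralizer ({x} : Set G)) (hK : IsKleinFour ↥S₀)
    (hodd : ¬ 2 ∣ S₀.relIndex (Subgroup.centralizer ({x} : Set G))) (hn : (S₀.subgroupOf (Subgroup.centralizer ({x} : Set G))).Normal) :
    Nonempty (G ≃* ↥(alternatingGroup (Fin 5))) := by
  classical
  haveI : Fintype G := Fintype.ofFinite G
  haveI : Fact (Nat.Prime 2) := ⟨Nat.prime_two⟩
  set C := Subgroup.centralizer ({x} : Set G) with hC
  have hV4 : Nat.card S₀ = 4 := hK.card_four
  have hVsq : ∀ v ∈ S₀, v * v = 1 := fun v hv => by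
    have h := Monoid.pow_exponent_eq_one (⟨v, hv⟩ : S₀)
    rw [hK.exponent_two, pow_two] at h
    exact congrArg Subtype.val h
  have hVcomm : ∀ a ∈ S₀, ∀ b ∈ S₀, a * b = b * a := fun a ha b hb => by
    rw [← inv_eq_of_mul_eq_one_right (hVsq _ (S₀.mul_mem ha hb)), mul_inv_rev,
      inv_eq_of_mul_eq_one_right (hVsq a ha), inv_eq_of_mul_eq_one_right (hVsq b hb)]
  have hx1 : x ≠ 1 := fun e => by rw [e, orderOf_one] at hx; omega
  have horder : ∀ u : G, u * u = 1 → u ≠ 1 → orderOf u = 2 := fun u h h1 =>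
    orderOf_eq_prime (by rw [pow_two, h]) h1
  have hinvo : ∀ u : G, orderOf u = 2 → u * u = 1 := fun u hu => by
    rw [← pow_two, ← hu, pow_orderOf_eq_one]
  -- the centralizer modulo the four-group has odd order
  have hoddq : ∀ a ∈ C, ∀ j : ℕ, a ^ 2 ^ j ∈ S₀ → a ∈ S₀ := by
    intro a ha j haj
    haveI := hn
    let q : C ⧸ S₀.subgroupOf C := QuotientGroup.mk (⟨a, ha⟩ : C)
    have h1 : orderOf q ∣ 2 ^ j := orderOf_dvd_of_pow_eq_one (by
      rw [← QuotientGroup.mk_pow, QuotientGroup.eq_one_iff]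
      exact Subgroup.mem_subgroupOf.2 (by simpa using haj))
    have h2 : orderOf q ∣ S₀.relIndex C := orderOf_dvd_natCard q
    obtain ⟨i, -, hi⟩ := (Nat.dvd_prime_pow Nat.prime_two).1 h1
    rcases i with _ | i
    · rw [pow_zero, orderOf_eq_one_iff] at hi
      exact Subgroup.mem_subgroupOf.1 ((QuotientGroup.eq_one_iff _).1 hi)
    · exact absurd ((dvd_pow_self 2 (Nat.succ_ne_zero i)).trans (hi ▸ h2)) hodd
  have hinvV : ∀ u ∈ C, u * u = 1 → u ∈ S₀ := fun u hu huu =>
    hoddq u hu 1 (by rw [pow_one, pow_two, huu]; exact one_mem _)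
  have hxV : x ∈ S₀ := hinvV x (Subgroup.mem_centralizer_singleton_iff.2 rfl) (hinvo x hx)
  have hna' : ¬ IsMulCommutative G := by
    intro hc
    have hnorm : (Subgroup.zpowers x).Normal := ⟨fun a ha g => by
      rw [hc.is_comm.comm g a, mul_inv_cancel_right]; exact ha⟩
    rcases hnorm.eq_bot_or_eq_top with h | h
    · exact hx1 (Subgroup.zpowers_eq_bot.1 h)
    · have h1 := Subgroup.card_le_of_le (show S₀ ≤ Subgroup.zpowers x by rw [h]; exact le_top)
      rw [hV4, Nat.card_zpowers, hx] at h1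
      omega
  have hna : ∃ a b : G, a * b ≠ b * a := by
    by_contra h
    push Not at h
    exact hna' ⟨⟨h⟩⟩
  -- the three involutions of the centralizer
  have hset : ∀ u : G, (orderOf u = 2 ∧ Commute u x) ↔ u ∈ ((S₀ : Set G) \ {1}) := by
    intro u
    constructor
    · rintro ⟨hu, huc⟩
      exact ⟨hinvV u (Subgroup.mem_centralizer_singleton_iff.2 huc.eq) (hinvo u hu),
        fun e => by rw [Set.mem_singleton_iff.1 e, orderOf_one] at hu; omega⟩
    · rintro ⟨hu, hu1⟩
      exact ⟨horder u (hVsq u hu) hu1, hVcomm u hu x hxV⟩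
  have hcV : ((S₀ : Set G) \ {1}).ncard = 3 := by
    rw [Set.ncard_diff_singleton_of_mem (one_mem S₀), ← Nat.card_coe_set_eq]
    show Nat.card S₀ - 1 = 3
    rw [hV4]
  have h3' : (Screen.invCent x).ncard ≤ 3 :=
    (Set.ncard_le_ncard (fun u hu => (hset u).1 hu) (Set.toFinite _)).trans hcV.le
  obtain ⟨S, hS⟩ := Screen.central_of_three hna hx h3'
  have hone : ∀ u v : G, orderOf u = 2 → orderOf v = 2 → IsConj u v := fun u v hu hv =>
    Screen.one_class_of_three hna hx h3' hu hv
  have hSV : (S : Subgroup G) = S₀ := by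
    refine (S.3 (IsPGroup.of_card (n := 2) (by rw [hV4]; norm_num)) fun s hs => ?_).symm
    obtain ⟨j, hj⟩ := S.2 ⟨s, hs⟩
    exact hoddq s (hS hs) j (by rw [show s ^ 2 ^ j = 1 from congrArg Subtype.val hj]; exact one_mem _)
  have hScard : Nat.card S = 4 := by rw [← hV4, ← hSV]
  have hexp : ∀ y : S, y * y = 1 := fun y => Subtype.ext (hVsq y (hSV ▸ y.2))
  -- transport to any involution
  have htr : ∀ z : G, orderOf z = 2 → ∃ k : G, k * x * k⁻¹ = z := fun z hz =>
    isConj_iff.1 (hone x z hx hz)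
  have hinv : ∀ u g z : G, orderOf u = 2 → u * g * u⁻¹ = g⁻¹ → orderOf z = 2 → Commute u z →
      Commute g z → g * g = 1 := by
    intro u g z hu hug hz huz hgz
    obtain ⟨k, rfl⟩ := htr z hz
    let e := MulAut.conj k⁻¹
    have hez : e (k * x * k⁻¹) = x := by simp [e, mul_assoc]
    have heC : ∀ w, Commute w (k * x * k⁻¹) → e w ∈ C := fun w hw =>
      Subgroup.mem_centralizer_singleton_iff.2 (by
        have h : e w * e (k * x * k⁻¹) = e (k * x * k⁻¹) * e w := by rw [← map_mul, ← map_mul, hw.eq]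
        rwa [hez] at h)
    have heu : e u ∈ S₀ := hinvV _ (heC u huz) (by rw [← map_mul, hinvo u hu, map_one])
    have hgV : e g ∈ S₀ := by
      refine hoddq _ (heC g hgz) 1 ?_
      have h1 : e g * e u * (e g)⁻¹ ∈ S₀ :=
        Subgroup.mem_subgroupOf.1 (hn.conj_mem ⟨e u, hle heu⟩ (Subgroup.mem_subgroupOf.2 heu) ⟨e g, heC g hgz⟩)
      have h2 : g ^ 2 = g * u * g⁻¹ * u⁻¹ := by
        calc g ^ 2 = g * (u * g * u⁻¹)⁻¹ := by rw [hug, inv_inv, pow_two]
          _ = g * u * g⁻¹ * u⁻¹ := by group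
      rw [pow_one, ← map_pow, h2, map_mul, map_mul, map_mul, map_inv, map_inv]
      exact S₀.mul_mem h1 (S₀.inv_mem heu)
    exact e.injective (by rw [map_mul, map_one]; exact hVsq _ hgV)
  have hcent : ∀ z : G, orderOf z = 2 → Nat.card {u : G // orderOf u = 2 ∧ Commute u z} = 3 := by
    intro z hz
    obtain ⟨k, rfl⟩ := htr z hz
    rw [← Nat.card_congr (Equiv.subtypeEquiv (MulAut.conj k).toEquiv
      (p := fun u => orderOf u = 2 ∧ Commute u x) (fun u => ?_)),
      Nat.card_congr (Equiv.subtypeEquivRight hset)]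
    · exact (Nat.card_coe_set_eq _).trans hcV
    · show _ ↔ orderOf (MulAut.conj k u) = 2 ∧ Commute (MulAut.conj k u) (MulAut.conj k x)
      rw [MulEquiv.orderOf_eq, Commute, Commute, SemiconjBy, SemiconjBy, ← map_mul, ← map_mul,
        (MulAut.conj k).injective.eq_iff]
  have hI := Screen.KleinA5.card_inv_le hna' S hScard hexp hone hinv hcent
  -- every Sylow 2-subgroup is elementary of order four
  have hsyl : ∀ (P : Sylow 2 G), ∀ a ∈ P, ∀ b ∈ P, a * a = 1 ∧ a * b = b * a := by
    intro P a ha b hb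
    obtain ⟨l, rfl⟩ := MulAction.exists_smul_eq G S P
    obtain ⟨a', ha', rfl⟩ := ha
    obtain ⟨b', hb', rfl⟩ := hb
    show l * a' * l⁻¹ * (l * a' * l⁻¹) = 1 ∧ l * a' * l⁻¹ * (l * b' * l⁻¹) = l * b' * l⁻¹ * (l * a' * l⁻¹)
    constructor
    · calc l * a' * l⁻¹ * (l * a' * l⁻¹) = l * (a' * a') * l⁻¹ := by group
        _ = 1 := by rw [hVsq a' (hSV ▸ ha')]; group
    · calc l * a' * l⁻¹ * (l * b' * l⁻¹) = l * (a' * b') * l⁻¹ := by group
        _ = l * b' * l⁻¹ * (l * a' * l⁻¹) := by rw [hVcomm a' (hSV ▸ ha') b' (hSV ▸ hb')]; group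
  -- an involution lies in only one of them
  have huniq : ∀ (P Q : Sylow 2 G) (u : G), orderOf u = 2 → u ∈ P → u ∈ Q → P = Q := by
    intro P Q u hu huP huQ
    obtain ⟨k, rfl⟩ := htr u hu
    have hto : ∀ R : Sylow 2 G, k * x * k⁻¹ ∈ R →
        (R : Subgroup G) = ((k • S : Sylow 2 G) : Subgroup G) := by
      intro R hR
      have hle' : (R : Subgroup G) ≤ ((k • S : Sylow 2 G) : Subgroup G) := by
        intro r hr
        obtain ⟨hrr, hrc⟩ := hsyl R r hr _ hR
        refine ⟨k⁻¹ * r * k, hSV.symm ▸ hinvV _ (Subgroup.mem_centralizer_singleton_iff.2 ?_) ?_, by simp [mul_assoc]⟩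
        · calc k⁻¹ * r * k * x = k⁻¹ * (r * (k * x * k⁻¹)) * k := by group
            _ = x * (k⁻¹ * r * k) := by rw [hrc]; group
        · calc k⁻¹ * r * k * (k⁻¹ * r * k) = k⁻¹ * (r * r) * k := by group
            _ = 1 := by rw [hrr]; group
      exact (R.3 (k • S : Sylow 2 G).2 hle').symm
    exact Sylow.ext ((hto P huP).trans (hto Q huQ).symm)
  have hinvP : ∀ (P : Sylow 2 G) (u : (P : Subgroup G)), u ≠ 1 → orderOf (u : G) = 2 := fun P u hu =>
    horder _ (hsyl P u u.2 u u.2).1 fun e => hu (Subtype.ext e)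
  have hSyl3 : Nat.card (Sylow 2 G) * 3 ≤ 15 := by
    have hcard : Nat.card ((P : Sylow 2 G) × {u : (P : Subgroup G) // u ≠ 1}) = Nat.card (Sylow 2 G) * 3 := by
      rw [Nat.card_sigma, Finset.sum_const_nat (m := 3), Finset.card_univ, ← Nat.card_eq_fintype_card]
      intro P _
      haveI : Fintype (P : Subgroup G) := Fintype.ofFinite _
      rw [Nat.card_eq_fintype_card, Fintype.card_subtype_compl, Fintype.card_subtype_eq,
        ← Nat.card_eq_fintype_card, Sylow.card_eq_multiplicity, ← Sylow.card_eq_multiplicity S, hScard]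
    rw [← hcard]
    refine (Nat.card_le_card_of_injective
      (fun p : (P : Sylow 2 G) × {u : (P : Subgroup G) // u ≠ 1} =>
        (⟨(p.2.1 : G), hinvP p.1 p.2.1 p.2.2⟩ : {u : G // orderOf u = 2})) ?_).trans hI
    rintro ⟨P, u, hu⟩ ⟨Q, w, hw⟩ h
    have h' : (u : G) = (w : G) := congrArg Subtype.val h
    have hPQ : P = Q := huniq P Q u (hinvP P u hu) u.2 (h' ▸ w.2)
    subst hPQ
    simp [Subtype.ext h']
  set H := Subgroup.normalizer ((S : Subgroup G) : Set G) with hH
  have hidx : H.index = Nat.card (Sylow 2 G) := (Sylow.card_eq_index_normalizer S).symm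
  have hodd2 : Nat.card (Sylow 2 G) % 2 = 1 := card_sylow_modEq_one 2 G
  have hne : H ≠ ⊤ := by
    intro h
    rcases (Subgroup.normalizer_eq_top_iff.1 h).eq_bot_or_eq_top with h1 | h1
    · exact hx1 (Subgroup.mem_bot.1 (h1 ▸ (hSV.symm ▸ hxV : x ∈ (S : Subgroup G))))
    · obtain ⟨a, b, hab⟩ := hna
      have hall : ∀ c : G, c ∈ (S : Subgroup G) := fun c => by rw [h1]; exact Subgroup.mem_top c
      exact hab (hsyl S a (hall a) b (hall b)).2
  have hcase : H.index = 3 ∨ H.index = 5 := by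
    have h1 : H.index ≠ 1 := fun h => hne (Subgroup.index_eq_one.1 h)
    omega
  obtain ⟨φ, hφ⟩ := SmallOrder.embeds_alternating hna' H hne
  have h4G : 4 ∣ Nat.card G := hV4 ▸ Subgroup.card_subgroup_dvd_card S₀
  have hdvd : Nat.card G ∣ Nat.card (alternatingGroup (Fin H.index)) :=
    Subgroup.card_dvd_of_injective φ hφ
  have hcA : 2 * Nat.card (alternatingGroup (Fin H.index)) = H.index.factorial := by
    haveI : Nontrivial (Fin H.index) := Fin.nontrivial_iff_two_le.2 (by omega)
    rw [Nat.card_eq_fintype_card, two_mul_card_alternatingGroup, Fintype.card_perm, Fintype.card_fin]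
  rcases hcase with h | h
  · rw [h] at hcA
    have h3 : Nat.card (alternatingGroup (Fin H.index)) = 3 := by
      rw [h]; norm_num [Nat.factorial] at hcA ⊢; omega
    have h43 := h4G.trans hdvd
    rw [h3] at h43
    omega
  · have h60 : Nat.card (alternatingGroup (Fin H.index)) = 60 := by
      have : Nat.factorial 5 = 120 := rfl
      rw [h, this] at hcA
      rw [h]; omega
    have hmul := H.card_mul_index
    rw [h] at hmul
    rw [h60] at hdvd
    have hH12 : Nat.card H ∣ 12 := by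
      rw [← hmul] at hdvd
      exact Nat.dvd_of_mul_dvd_mul_right (show 0 < 5 by norm_num) hdvd
    have h4H : 4 ∣ Nat.card H := hScard ▸ Subgroup.card_dvd_of_le Subgroup.le_normalizer
    have hH4 : Nat.card H ≠ 4 := by
      intro hH4
      have hHS : H = (S : Subgroup G) :=
        (Subgroup.eq_of_le_of_card_ge Subgroup.le_normalizer (by rw [hH4, hScard])).symm
      obtain ⟨y, ⟨hyV, hy1⟩, hyx⟩ : (((S₀ : Set G) \ {1}) \ {x}).Nonempty :=
        Set.nonempty_of_ncard_ne_zero (by
          rw [Set.ncard_diff_singleton_of_mem (show x ∈ (S₀ : Set G) \ {1} from ⟨hxV, hx1⟩), hcV]; norm_num)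
      obtain ⟨g, hg⟩ := htr y (horder y (hVsq y hyV) hy1)
      have hcent' : ∀ w ∈ S₀, w ∈ Subgroup.centralizer ((S : Subgroup G) : Set G) := fun w hw =>
        Subgroup.mem_centralizer_iff.2 fun s hs => hVcomm s (hSV ▸ hs) w hw
      obtain ⟨n, hnN, hn2⟩ := Transfer.burnside_fusion_elem S (hcent' x hxV) (g := g)
        (by rw [hg]; exact hcent' y hyV)
      have hnV : n ∈ S₀ := hSV ▸ (hHS ▸ hnN)
      rw [hg, hVcomm n hnV x hxV, mul_inv_cancel_right] at hn2
      exact hyx hn2.symm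
    have hcardG : Nat.card G = 60 := by
      have h12 := Nat.le_of_dvd (by norm_num) hH12
      obtain ⟨m, hm⟩ := h4H
      obtain ⟨r, hr⟩ := hH12
      have hm3 : m ≤ 3 := by omega
      rw [hm] at hr hmul hH4
      interval_cases m <;> omega
    have e : G ≃* alternatingGroup (Fin H.index) :=
      MulEquiv.ofBijective φ ((Nat.bijective_iff_injective_and_card φ).2 ⟨hφ, by rw [hcardG, h60]⟩)
    exact h ▸ (⟨e⟩ : Nonempty (G ≃* alternatingGroup (Fin H.index)))

end Cfsg.Agent.S3278
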