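import Cfsg.Statements.S3279
import Cfsg.Agent.Screen.ThreeInvolutions
-- import your own Cfsg.Agent.* helpers here

set_option autoImplicit false
open Cfsg

namespace Cfsg.Agent.S3279

/-- Let G be a finite simple group and x an involution of G whose centralizer contains at most three involutions. Then C_G(x) contains a Sylow 2-subgroup of G, and all involutions of G are conjugate. -/
theorem result {G : Type*} [Group G] [Finite G] [IsSimpleGroup G] (x : G) (hx : orderOf x = 2)
    (h3 : Nat.card {u : ↥(Subgroup.centralizer ({x} : Set G)) // orderOf u = 2} ≤ 3) :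
    (∃ S : Sylow 2 G, (S : Subgroup G) ≤ Subgroup.centralizer ({x} : Set G)) ∧
      ∀ u v : G, orderOf u = 2 → orderOf v = 2 → IsConj u v := by
  haveI : Fact (Nat.Prime 2) := ⟨Nat.prime_two⟩
  have h3' : (Cfsg.Agent.Screen.invCent x).ncard ≤ 3 := by
    refine le_trans ?_ h3
    rw [← Nat.card_coe_set_eq]
    refine le_of_eq (Nat.card_congr
      { toFun := fun u => ⟨⟨u.1, Subgroup.mem_centralizer_singleton_iff.2 u.2.2.eq⟩,
          by rw [← Subgroup.orderOf_coe]; exact u.2.1⟩
        invFun := fun u => ⟨u.1.1, by rw [Subgroup.orderOf_coe]; exact u.2,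
          Subgroup.mem_centralizer_singleton_iff.1 u.1.2⟩
        left_inv := fun u => rfl
        right_inv := fun u => rfl })
  by_cases hna : ∃ a b : G, a * b ≠ b * a
  · exact ⟨Cfsg.Agent.Screen.central_of_three hna hx h3', fun u v hu hv =>
      Cfsg.Agent.Screen.one_class_of_three hna hx h3' hu hv⟩
  · push Not at hna
    refine ⟨?_, fun u v hu hv => ?_⟩
    · obtain ⟨S⟩ : Nonempty (Sylow 2 G) := inferInstance
      exact ⟨S, fun s _ => Subgroup.mem_centralizer_singleton_iff.2 (hna s x)⟩
    · have hn : (Subgroup.zpowers u).Normal :=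
        ⟨fun n hn g => by rw [hna g n, mul_inv_cancel_right]; exact hn⟩
      rcases hn.eq_bot_or_eq_top with hb | ht
      · rw [Subgroup.zpowers_eq_bot] at hb
        rw [hb, orderOf_one] at hu; omega
      · have hvm : v ∈ Subgroup.zpowers u := ht ▸ Subgroup.mem_top v
        obtain ⟨i, rfl⟩ := Subgroup.mem_zpowers_iff.1 hvm
        have uu : u ^ (2 : ℤ) = 1 := by
          rw [show (2 : ℤ) = ((2 : ℕ) : ℤ) from rfl, zpow_natCast, ← hu, pow_orderOf_eq_one]
        rcases Int.even_or_odd i with ⟨l, rfl⟩ | ⟨l, rfl⟩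
        · rw [← two_mul, zpow_mul, uu, one_zpow, orderOf_one] at hv; omega
        · rw [zpow_add, zpow_mul, uu, one_zpow, one_mul, zpow_one]

end Cfsg.Agent.S3279
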