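import Cfsg.Statements.S3282
import Cfsg.Agent.Screen.BSW.Main

set_option autoImplicit false
open Cfsg

namespace Cfsg.Agent.S3282

/-- The abstract form of the Brauer–Suzuki–Wall Theorem. Let G be a finite group with an involution t and an abelian subgroup K of H = C_G(t) containing t, such that H = K⟨s⟩ for an involution s ∉ K with C_K(s) = ⟨t⟩ and s inverting every element of K, K ∩ K^g = 1 for every g outside H, and all involutions of G conjugate. Then G has a subgroup Q, of order q say, with |G| = q(q+1)(q−1)/2, C_G(x) = Q for every non-identity x ∈ Q, N_G(Q) = QD for an abelian subgroup D of order (q−1)/2 meeting Q trivially, and for every nontrivial subgroup X of D, N_G(X) = N_G(D) = D⟨u⟩ for some involution u ∉ D inverting D. -/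
theorem result {G : Type*} [Group G] [Finite G] (t : G) (ht : orderOf t = 2)
    (K : Subgroup G) (hKab : IsMulCommutative ↥K) (hKH : K ≤ Subgroup.centralizer ({t} : Set G)) (htK : t ∈ K)
    (s : G) (hs : orderOf s = 2) (hsH : s ∈ Subgroup.centralizer ({t} : Set G)) (hsK : s ∉ K)
    (hH : K ⊔ Subgroup.zpowers s = Subgroup.centralizer ({t} : Set G)) (hCK : K ⊓ Subgroup.centralizer ({s} : Set G) = Subgroup.zpowers t)
    (hinv : ∀ x ∈ K, s * x * s⁻¹ = x⁻¹)
    (hTI : ∀ g : G, g ∉ Subgroup.centralizer ({t} : Set G) → K ⊓ K.map (MulAut.conj g).toMonoidHom = ⊥)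
    (hconj : ∀ x y : G, orderOf x = 2 → orderOf y = 2 → IsConj x y) :
    ∃ Q D : Subgroup G, 2 * Nat.card G = Nat.card ↥Q * (Nat.card ↥Q + 1) * (Nat.card ↥Q - 1) ∧
      (∀ x ∈ Q, x ≠ 1 → Subgroup.centralizer ({x} : Set G) = Q) ∧
      IsMulCommutative ↥D ∧ 2 * Nat.card ↥D + 1 = Nat.card ↥Q ∧ Q ⊓ D = ⊥ ∧
      Subgroup.normalizer (Q : Set G) = Q ⊔ D ∧
      ∀ X : Subgroup G, X ≤ D → X ≠ ⊥ →
        Subgroup.normalizer (X : Set G) = Subgroup.normalizer (D : Set G) ∧
        ∃ u : G, orderOf u = 2 ∧ u ∉ D ∧ (∀ d ∈ D, u * d * u⁻¹ = d⁻¹) ∧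
          Subgroup.normalizer (D : Set G) = D ⊔ Subgroup.zpowers u := by
  exact Screen.BSW.Setup.concl (t := t) (s := s) (K := K)
    ⟨ht, fun x hx y hy => congrArg Subtype.val (hKab.is_comm.comm (⟨x, hx⟩ : K) ⟨y, hy⟩), htK, hs, hsH, hsK, hH,
      hCK, hinv, hTI, hconj⟩

end Cfsg.Agent.S3282
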