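import Cfsg.Statements.S5395
import Cfsg.Agent.FGS3.Extraspecial
-- import your own Cfsg.Agent.* helpers here

set_option autoImplicit false
open Cfsg
open scoped commutatorElement

namespace Cfsg.Agent.S5395

/-- For a finite extraspecial 2-group E, an automorphism of E that induces the identity on E modulo its centre is inner (so these automorphisms form exactly the inner automorphism group, an elementary abelian 2-group of order |E|/2). -/
theorem result {E : Type*} [Group E] [Finite E] (hE : Cfsg.IsExtraspecial 2 E) (φ : E ≃* E) (hφ : ∀ x : E, φ x * x⁻¹ ∈ Subgroup.center E) : ∃ g : E, ∀ x : E, φ x = g * x * g⁻¹ := by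
  classical
  haveI := Fact.mk Nat.prime_two
  obtain ⟨⟨hP, hfr, hcm⟩, hZ⟩ := hE
  set Z := Subgroup.center E with hZdef
  letI : CommGroup (E ⧸ Z) :=
    { (inferInstance : Group (E ⧸ Z)) with
      mul_comm := by
        rintro ⟨a⟩ ⟨b⟩
        refine QuotientGroup.eq.2 ?_
        have : ⁅b⁻¹, a⁻¹⁆ ∈ Z := hcm ▸ Subgroup.commutator_mem_commutator (Subgroup.mem_top _) (Subgroup.mem_top _)
        simpa [commutatorElement_def, mul_assoc] using this }
  have hcent : ∀ z ∈ Z, ∀ x : E, x * z = z * x := fun z hz x => Subgroup.mem_center_iff.1 hz x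
  -- an automorphism trivial mod the centre gives a homomorphism to the centre killing the centre
  have mk : ∀ ψ : E ≃* E, (∀ x : E, ψ x * x⁻¹ ∈ Z) →
      ∃ f : (E ⧸ Z) →* Z, ∀ x : E, ψ x = (f x : E) * x := by
    intro ψ hψ
    let f₀ : E →* Z := MonoidHom.mk' (fun x => ⟨ψ x * x⁻¹, hψ x⟩) fun a b => Subtype.ext <| by
      show ψ (a * b) * (a * b)⁻¹ = ψ a * a⁻¹ * (ψ b * b⁻¹)
      rw [map_mul, mul_inv_rev, mul_assoc (ψ a) a⁻¹, hcent _ (hψ b) a⁻¹]
      simp [mul_assoc]
    have hker : Z ≤ f₀.ker := by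
      intro z hz
      have : commutator E ≤ f₀.ker := by
        rw [commutator_def, Subgroup.commutator_le]
        intro a _ b _
        rw [MonoidHom.mem_ker, map_commutatorElement, commutatorElement_eq_one_iff_commute]
        exact Subtype.ext (hcent _ (f₀ b).2 _)
      exact this (hcm.symm ▸ hz)
    exact ⟨QuotientGroup.lift Z f₀ hker, fun x => by simp [f₀]⟩
  have hconj : ∀ g x : E, MulAut.conj g x * x⁻¹ ∈ Z := fun g x =>
    hcm ▸ Subgroup.commutator_mem_commutator (Subgroup.mem_top g) (Subgroup.mem_top x)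
  choose F hF using fun g => mk (MulAut.conj g) (hconj g)
  let J : E ⧸ Z → ((E ⧸ Z) →* Z) := fun q => F q.out
  have hJ : Function.Injective J := by
    intro q r h
    rw [← q.out_eq, ← r.out_eq]
    refine QuotientGroup.eq.2 (Subgroup.mem_center_iff.2 fun x => ?_)
    have e : MulAut.conj q.out x = MulAut.conj r.out x := by
      rw [hF q.out x, hF r.out x, show F q.out = F r.out from h]
    simp only [MulAut.conj_apply] at e
    calc x * (q.out⁻¹ * r.out) = q.out⁻¹ * (q.out * x * q.out⁻¹) * r.out := by group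
      _ = q.out⁻¹ * r.out * x := by rw [e]; group
  have hroot : Nat.card (rootsOfUnity 2 ℂ) = 2 := by
    exact Complex.card_rootsOfUnity 2
  let e : Z ≃* rootsOfUnity 2 ℂ := mulEquivOfPrimeCardEq hZ hroot
  let ι : Z →* ℂˣ := (rootsOfUnity 2 ℂ).subtype.comp e.toMonoidHom
  have hι : Function.Injective ι := Subtype.val_injective.comp e.injective
  have hcardle : Nat.card ((E ⧸ Z) →* Z) ≤ Nat.card (E ⧸ Z) := by
    have : Finite ((E ⧸ Z) →* ℂˣ) := Finite.of_equiv _
      (CommGroup.monoidHom_mulEquiv_of_hasEnoughRootsOfUnity (E ⧸ Z) ℂ).some.symm.toEquiv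
    rw [← CommGroup.card_monoidHom_of_hasEnoughRootsOfUnity (E ⧸ Z) ℂ]
    refine Nat.card_le_card_of_injective (fun f => ι.comp f) fun a b h => MonoidHom.ext fun q => hι ?_
    exact DFunLike.congr_fun h q
  obtain ⟨f, hf⟩ := mk φ hφ
  have : Finite ((E ⧸ Z) →* Z) := Finite.of_injective _ DFunLike.coe_injective
  obtain ⟨q, hq⟩ := (hJ.bijective_of_nat_card_le hcardle).2 f
  refine ⟨q.out, fun x => ?_⟩
  rw [hf x, ← MulAut.conj_apply, hF q.out x, show F q.out = f from hq]

end Cfsg.Agent.S5395
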