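import Cfsg.Statements.S3300
import Cfsg.Agent.Screen.ExtraFusion
-- import your own Cfsg.Agent.* helpers here

set_option autoImplicit false
open Cfsg

namespace Cfsg.Agent.S3300

/-- Let G be a finite group with no nontrivial 2-group quotient (O^2(G) = G), z an involution of G with H = C_G(z), and suppose E = O_2(H) is extraspecial with C_G(E) ≤ E and of order 2^(2n+1) with n ≥ 3. If H has a normal subgroup of index 2, then z is conjugate in G to an element of E other than z. -/
theorem result {G : Type*} [Group G] [Finite G] (hres : Cfsg.pResidual 2 G = ⊤) (z : G) (hz : orderOf z = 2)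
    (E : Subgroup G) (hE : E = (Cfsg.pCore 2 ↥(Subgroup.centralizer ({z} : Set G))).map (Subgroup.centralizer ({z} : Set G)).subtype)
    (hext : Cfsg.IsExtraspecial 2 ↥E) (hcent : Subgroup.centralizer (E : Set G) ≤ E) (n : ℕ) (hn : 3 ≤ n) (hcard : Nat.card ↥E = 2 ^ (2 * n + 1))
    (K : Subgroup G) (hKH : K ≤ Subgroup.centralizer ({z} : Set G))
    (hKn : ∀ h ∈ Subgroup.centralizer ({z} : Set G), K.map (MulAut.conj h).toMonoidHom = K)
    (hKi : K.relIndex (Subgroup.centralizer ({z} : Set G)) = 2) :
    ∃ g : G, g * z * g⁻¹ ∈ E ∧ g * z * g⁻¹ ≠ z := by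
  classical
  have hi : (K.subgroupOf (Subgroup.centralizer ({z} : Set G))).index = 2 := hKi
  let φ : Subgroup.centralizer ({z} : Set G) →* Multiplicative (ZMod 2) :=
    MonoidHom.mk' (fun x => if x ∈ K.subgroupOf (Subgroup.centralizer ({z} : Set G)) then 1
        else Multiplicative.ofAdd 1) (fun x y => by
      by_cases hx : x ∈ K.subgroupOf (Subgroup.centralizer ({z} : Set G)) <;>
        by_cases hy : y ∈ K.subgroupOf (Subgroup.centralizer ({z} : Set G)) <;>
        simp only [Subgroup.mul_mem_iff_of_index_two hi, hx, hy, iff_self, iff_false, false_iff,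
          not_true_eq_false, not_false_eq_true, if_true, if_false] <;> decide)
  refine Screen.ExtraFusion.main hres hz (hE ▸ Subgroup.map_subtype_le _) ?_ hext hcent ?_ φ ?_
  · subst hE
    rintro h hh _ ⟨e, he, rfl⟩
    refine ⟨(⟨h, hh⟩ : Subgroup.centralizer ({z} : Set G))⁻¹ * e * ⟨h, hh⟩, ?_, by simp⟩
    have := (inferInstance : (Cfsg.pCore 2 ↥(Subgroup.centralizer ({z} : Set G))).Normal).conj_mem e he
      (⟨h, hh⟩ : Subgroup.centralizer ({z} : Set G))⁻¹
    simpa using this
  · rw [hcard]
    calc 32 = 2 ^ 5 := rfl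
      _ < 2 ^ (2 * n + 1) := Nat.pow_lt_pow_right (by norm_num) (by omega)
  · obtain ⟨a, ha⟩ : ∃ a, a ∉ K.subgroupOf (Subgroup.centralizer ({z} : Set G)) := by
      by_contra hcon
      push Not at hcon
      have := Subgroup.index_eq_one.2 (eq_top_iff.2 fun a _ => hcon a)
      omega
    exact ⟨a, if_neg ha⟩

end Cfsg.Agent.S3300
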