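import Cfsg.Statements.S3301
import Cfsg.Agent.Screen.ExtraAbelianization
-- import your own Cfsg.Agent.* helpers here

set_option autoImplicit false
open Cfsg

namespace Cfsg.Agent.S3301

/-- Let G be a finite group with no nontrivial 2-group quotient (O^2(G) = G), z an involution of G with H = C_G(z), and suppose E = O_2(H) is extraspecial with C_G(E) ≤ E. Then the Sylow 2-subgroups of H/[H, H] are elementary abelian: every element of 2-power order of the abelianization of H has order at most 2. -/
theorem result {G : Type*} [Group G] [Finite G] (hres : Cfsg.pResidual 2 G = ⊤) (z : G) (hz : orderOf z = 2)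
    (E : Subgroup G) (hE : E = (Cfsg.pCore 2 ↥(Subgroup.centralizer ({z} : Set G))).map (Subgroup.centralizer ({z} : Set G)).subtype)
    (hext : Cfsg.IsExtraspecial 2 ↥E) (hcent : Subgroup.centralizer (E : Set G) ≤ E) :
    ∀ q : Abelianization ↥(Subgroup.centralizer ({z} : Set G)), (∃ k : ℕ, orderOf q = 2 ^ k) → q ^ 2 = 1 := by
  intro q ⟨k, hk⟩
  by_contra hq
  obtain ⟨ψ, a, ha⟩ := Screen.ExtraAbelianization.exists_hom_four q hk hq
  obtain ⟨b, rfl⟩ := QuotientGroup.mk_surjective a
  refine Screen.ExtraAbelianization.no_hom_four hres hz (hE ▸ Subgroup.map_subtype_le _) ?_ hext hcent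
    (ψ.comp Abelianization.of) ⟨b, ha⟩
  subst hE
  rintro h hh _ ⟨e, he, rfl⟩
  refine ⟨(⟨h, hh⟩ : Subgroup.centralizer ({z} : Set G))⁻¹ * e * ⟨h, hh⟩, ?_, by simp⟩
  have := (inferInstance : (Cfsg.pCore 2 ↥(Subgroup.centralizer ({z} : Set G))).Normal).conj_mem e he
    (⟨h, hh⟩ : Subgroup.centralizer ({z} : Set G))⁻¹
  simpa using this

end Cfsg.Agent.S3301
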