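import Cfsg.Statements.S3303
import Cfsg.Agent.Core.SylowIntersection

set_option autoImplicit false
set_option linter.style.haveILetI false
open Cfsg

namespace Cfsg.Agent.S3303

/-- Let G be a finite solvable group in which the intersection of any two distinct Sylow 2-subgroups is cyclic. Then G/O(G) has a normal Sylow 2-subgroup, where O(G) is the largest normal subgroup of odd order. -/
theorem result {G : Type*} [Group G] [Finite G] (hs : Group.IsSolvable G)
    (hC : ∀ S T : Sylow 2 G, S ≠ T → IsCyclic ↥((S : Subgroup G) ⊓ (T : Subgroup G))) :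
    ∃ P : Sylow 2 (G ⧸ Cfsg.oddCore G), (P : Subgroup (G ⧸ Cfsg.oddCore G)).Normal := by
  haveI := Fact.mk Nat.prime_two
  haveI := hs
  by_contra hno
  obtain ⟨S', T', hne⟩ := Core.exists_sylow_ne hno
  obtain ⟨S, T, hST, D, hD, ⟨e⟩⟩ := Core.exists_sylow_inter_lift (Cfsg.oddCore G)
    (Core.not_dvd_card_pPrimeCore 2 G) S' T' hne
  haveI := hC S T hST
  haveI : IsCyclic D := isCyclic_of_injective _ (Subgroup.inclusion_injective hD)
  haveI : IsCyclic ↥((S' : Subgroup (G ⧸ Cfsg.oddCore G)) ⊓ (T' : Subgroup (G ⧸ Cfsg.oddCore G))) :=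
    isCyclic_of_surjective e.toMonoidHom e.surjective
  haveI : IsCyclic ↥(Cfsg.pCore 2 (G ⧸ Cfsg.oddCore G)) := isCyclic_of_injective _
    (Subgroup.inclusion_injective (le_inf (Core.pCore_le_sylow S') (Core.pCore_le_sylow T')))
  have hA : IsPGroup 2 (MulAut ↥(Cfsg.pCore 2 (G ⧸ Cfsg.oddCore G))) := by
    obtain ⟨k, hk⟩ := IsPGroup.iff_card.mp (Core.isPGroup_pCore 2 (G ⧸ Cfsg.oddCore G))
    refine IsPGroup.of_card (n := k - 1) ?_
    rw [IsCyclic.card_mulAut, hk]
    rcases k with _ | k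
    · simp
    · rw [Nat.totient_prime_pow_succ Nat.prime_two]; simp
  have h2 := Core.isPGroup_of_mulAut_pCore (Core.pPrimeCore_quotient_pPrimeCore 2 G) hA
  exact hne (Sylow.ext ((S'.3 (h2.to_subgroup ⊤) le_top).symm.trans (T'.3 (h2.to_subgroup ⊤) le_top)))

end Cfsg.Agent.S3303
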