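import Cfsg.Statements.S3305
-- import your own Cfsg.Agent.* helpers here

set_option autoImplicit false
open Cfsg

namespace Cfsg.Agent.S3305

/-- Lifting a `p`-subgroup through a surjection, above a given `p`-subgroup. -/
theorem exists_lift {p : ℕ} [Fact p.Prime] {G Q : Type*} [Group G] [Group Q] [Finite G]
    (f : G →* Q) (hf : Function.Surjective f) (K : Subgroup Q) (hK : IsPGroup p K)
    (D0 : Subgroup G) (hD0 : IsPGroup p D0) (hle : D0 ≤ K.comap f) :
    ∃ D : Subgroup G, IsPGroup p D ∧ D0 ≤ D ∧ D ≤ K.comap f ∧ D.map f = K := by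
  obtain ⟨P, hP⟩ := (hD0.of_equiv (Subgroup.subgroupOfEquivOfLe hle).symm).exists_le_sylow
  have hg : Function.Surjective (f.subgroupComap K) := f.subgroupComap_surjective_of_surjective K hf
  have htop : IsPGroup p (⊤ : Subgroup K) := hK.to_subgroup ⊤
  have heq : (P : Subgroup (K.comap f)).map (f.subgroupComap K) = ⊤ :=
    ((P.mapSurjective hg).3 htop le_top).symm
  refine ⟨(P : Subgroup (K.comap f)).map (K.comap f).subtype, P.2.map _, ?_, Subgroup.map_subtype_le _, ?_⟩
  · intro x hx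
    exact Subgroup.mem_map.2 ⟨⟨x, hle hx⟩, hP (Subgroup.mem_subgroupOf.2 hx), rfl⟩
  · have hc : f.comp (K.comap f).subtype = K.subtype.comp (f.subgroupComap K) := rfl
    rw [Subgroup.map_map, hc, ← Subgroup.map_map, heq, ← MonoidHom.range_eq_map, Subgroup.range_subtype]

/-- If any two distinct Sylow 2-subgroups of the finite group G intersect in a cyclic group, then the same holds in every quotient group G/H, H a normal subgroup of G. -/
theorem result {G : Type*} [Group G] [Finite G]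
    (hC : ∀ S T : Sylow 2 G, S ≠ T → IsCyclic ↥((S : Subgroup G) ⊓ (T : Subgroup G))) (H : Subgroup G) [H.Normal] :
    ∀ S T : Sylow 2 (G ⧸ H), S ≠ T → IsCyclic ↥((S : Subgroup (G ⧸ H)) ⊓ (T : Subgroup (G ⧸ H))) := by
  intro S T hST
  haveI : Fact (Nat.Prime 2) := ⟨Nat.prime_two⟩
  let f := QuotientGroup.mk' H
  have hf : Function.Surjective f := QuotientGroup.mk'_surjective H
  obtain ⟨D, hD2, -, hDle, hDmap⟩ := exists_lift f hf
    ((S : Subgroup (G ⧸ H)) ⊓ (T : Subgroup (G ⧸ H))) (IsPGroup.to_le S.2 inf_le_left)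
    ⊥ IsPGroup.of_bot bot_le
  obtain ⟨D1, h12, hD1, -, hD1map⟩ := exists_lift f hf (S : Subgroup (G ⧸ H)) S.2 D hD2
    (hDle.trans (Subgroup.comap_mono inf_le_left))
  obtain ⟨D2, h22, hD2', -, hD2map⟩ := exists_lift f hf (T : Subgroup (G ⧸ H)) T.2 D hD2
    (hDle.trans (Subgroup.comap_mono inf_le_right))
  obtain ⟨S1, hS1⟩ := h12.exists_le_sylow
  obtain ⟨T1, hT1⟩ := h22.exists_le_sylow
  have hS1map : (S1 : Subgroup G).map f = (S : Subgroup (G ⧸ H)) :=
    S.3 (S1.2.map f) (hD1map ▸ Subgroup.map_mono hS1)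
  have hT1map : (T1 : Subgroup G).map f = (T : Subgroup (G ⧸ H)) :=
    T.3 (T1.2.map f) (hD2map ▸ Subgroup.map_mono hT1)
  have hne : S1 ≠ T1 := by
    rintro rfl
    exact hST (Sylow.ext (hS1map.symm.trans hT1map))
  haveI := hC S1 T1 hne
  haveI : IsCyclic D := isCyclic_of_injective
    (Subgroup.inclusion (le_inf (hD1.trans hS1) (hD2'.trans hT1))) (Subgroup.inclusion_injective _)
  rw [← hDmap]
  exact isCyclic_of_surjective (f.subgroupMap D) (f.subgroupMap_surjective D)

end Cfsg.Agent.S3305
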