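import Cfsg.Statements.S3309
import Cfsg.Agent.Screen.ThreeInvolutions
import Mathlib.GroupTheory.SpecificGroups.Dihedral
import Mathlib.Data.ZMod.Basic
-- import your own Cfsg.Agent.* helpers here

set_option autoImplicit false
open Cfsg

namespace Cfsg.Agent.S3309

/-- The model group. -/
abbrev H := Multiplicative (ZMod 2) × DihedralGroup 4

/-- The central involution of the first factor. -/
def cc : H := (Multiplicative.ofAdd 1, 1)

/-- The square. -/
def dd : H := (1, DihedralGroup.r 2)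

def s₁ : H := (1, DihedralGroup.sr 0)
def s₂ : H := (Multiplicative.ofAdd 1, DihedralGroup.sr 0)
def t₁ : H := (1, DihedralGroup.sr 1)
def t₂ : H := (Multiplicative.ofAdd 1, DihedralGroup.sr 1)

theorem sq_cases : ∀ k : H, k * k = 1 ∨ k * k = dd := by decide
theorem sq_exists : ∃ k : H, k * k = dd := by decide
theorem dd_ne_one : dd ≠ 1 := by decide
theorem dd_mul_self : dd * dd = 1 := by decide
theorem central_of_mem : ∀ a : H, (a = cc ∨ a = dd ∨ a = cc * dd) → ∀ k, k * a = a * k := by decide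
theorem mul_self_of_mem : ∀ a : H, (a = cc ∨ a = cc * dd) → a * a = 1 := by decide

/-- The involutions up to conjugacy. -/
theorem classify : ∀ h : H, h * h = 1 → h = 1 ∨ h = dd ∨ h = cc ∨ h = cc * dd ∨
    ∃ r ∈ [s₁, s₂, t₁, t₂], ∃ k, k * r * k⁻¹ = h := by decide

/-- The value on the dihedral factor. -/
def phiAux (a b : ZMod 2) : DihedralGroup 4 → ZMod 2
  | .r i => (a + b) * (i.val : ZMod 2)
  | .sr i => a + (a + b) * (i.val : ZMod 2)

theorem phiAux_mul : ∀ (a b : ZMod 2) (x y : DihedralGroup 4),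
    phiAux a b (x * y) = phiAux a b x + phiAux a b y := by decide

/-- The homomorphisms with `c` outside the kernel. -/
def phi (a b : ZMod 2) : H →* Multiplicative (ZMod 2) where
  toFun h := Multiplicative.ofAdd (Multiplicative.toAdd h.1 + phiAux a b h.2)
  map_one' := by revert a b; decide
  map_mul' x y := by
    simp only [Prod.fst_mul, Prod.snd_mul, phiAux_mul, toAdd_mul, ← ofAdd_add]
    exact congrArg _ (add_add_add_comm _ _ _ _)

theorem cd_ne_dd : cc * dd ≠ dd := by decide
theorem cc_ne_cd : cc ≠ cc * dd := by decide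
theorem cc_ne_dd : cc ≠ dd := by decide
theorem two_elts : ∀ (u v : Multiplicative (ZMod 2)), u ≠ 1 →
    v * u = 1 ∧ ¬v = 1 ∨ v = 1 ∧ ¬v * u = 1 := by decide
theorem phi_ne : ∀ (a b : ZMod 2) (z : H), (z = cc ∨ z = cc * dd) → phi a b z ≠ 1 := by decide
theorem ker_s0 : ∀ r ∈ [s₁, s₂], ∀ b : ZMod 2, phi 0 b r = 1 → r = s₁ := by decide
theorem ker_s1 : ∀ r ∈ [s₁, s₂], ∀ b : ZMod 2, phi 1 b r = 1 → r = s₂ := by decide
theorem ker_t0 : ∀ r ∈ [t₁, t₂], ∀ a : ZMod 2, phi a 0 r = 1 → r = t₁ := by decide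
theorem ker_t1 : ∀ r ∈ [t₁, t₂], ∀ a : ZMod 2, phi a 1 r = 1 → r = t₂ := by decide

/-- A finite group whose Sylow 2-subgroups are isomorphic to the direct product of a group of order 2 and the dihedral group of order 8 is not a non-abelian simple group. -/
theorem result {G : Type*} [Group G] [Finite G] (S : Sylow 2 G) (hS : Nonempty (↥(S : Subgroup G) ≃* Multiplicative (ZMod 2) × DihedralGroup 4))
    [IsSimpleGroup G] (hG : ¬ IsMulCommutative G) : False := by
  haveI : Fact (Nat.Prime 2) := ⟨Nat.prime_two⟩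
  obtain ⟨e⟩ := hS
  have hna : ∃ a b : G, a * b ≠ b * a := by
    by_contra hcon
    push Not at hcon
    exact hG (IsMulCommutative.of_comm hcon)
  let ι : H → G := fun h => ((e.symm h : (S : Subgroup G)) : G)
  have hιmul : ∀ a b, ι (a * b) = ι a * ι b := fun a b => by simp [ι]
  have hιinj : Function.Injective ι := fun a b h => e.symm.injective (Subtype.ext h)
  have hι1 : ι 1 = 1 := by simp [ι]
  have hord : ∀ h : H, h * h = 1 → h ≠ 1 → orderOf (ι h) = 2 := fun h h2 h1 =>
    orderOf_eq_prime (by rw [pow_two, ← hιmul, h2, hι1]) (fun h' => h1 (hιinj (h'.trans hι1.symm)))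
  have hιS : ∀ h, ι h ∈ (S : Subgroup G) := fun h => (e.symm h).2
  have hinner : ∀ k h, IsConj (ι h) (ι (k * h * k⁻¹)) := fun k h =>
    isConj_iff.2 ⟨ι k, by simp [ι]⟩
  -- Thompson transfer through a homomorphism
  have htr : ∀ (φ : H →* Multiplicative (ZMod 2)) (h : H), h * h = 1 → φ h ≠ 1 →
      ∃ a : H, a * a = 1 ∧ a ≠ 1 ∧ φ a = 1 ∧ IsConj (ι h) (ι a) := by
    intro φ h h2 hφ
    set A := (φ.comp e.toMonoidHom).ker with hA
    have hidx : A.index = 2 := by
      refine Subgroup.index_eq_two_iff.2 ⟨e.symm h, fun b => ?_⟩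
      simp only [hA, MonoidHom.mem_ker, MonoidHom.comp_apply, MulEquiv.coe_toMonoidHom, map_mul,
        MulEquiv.apply_symm_apply]
      revert hφ
      generalize φ h = u
      generalize φ (e b) = v
      revert u v
      simp only [xor_def]
      exact two_elts
    obtain ⟨g, a, ha, hga⟩ := Screen.exists_conj_mem_of_index_two hna S A hidx
      (hord h h2 (fun h1 => hφ (by rw [h1, map_one]))) (hιS h) (by
        show e.symm h ∉ A
        simp [hA, MonoidHom.mem_ker, hφ])
    have hga' : g * ι h * g⁻¹ = ι (e a) := by simpa [ι] using hga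
    have hne : e a ≠ 1 := fun h1 => by
      rw [h1, hι1, conj_eq_one_iff] at hga'
      exact (fun h' : h ≠ 1 => h' (hιinj (hga'.trans hι1.symm))) (fun h1 => hφ (by rw [h1, map_one]))
    refine ⟨e a, hιinj ?_, hne, (MonoidHom.mem_ker.1 ha : (φ.comp e.toMonoidHom) a = 1), isConj_iff.2 ⟨g, hga'⟩⟩
    rw [hιmul, hι1, ← hga', show g * ι h * g⁻¹ * (g * ι h * g⁻¹) = g * (ι h * ι h) * g⁻¹ by group,
      ← hιmul, h2, hι1]
    group
  -- central elements are not fused
  have hcent : ∀ h : H, (∀ k, k * h = h * k) → ∀ s ∈ (S : Subgroup G), s * ι h = ι h * s := by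
    intro h hh s hs
    obtain ⟨k, hk⟩ := e.symm.surjective ⟨s, hs⟩
    have : ι k = s := congrArg Subtype.val hk
    rw [← this, ← hιmul, ← hιmul, hh k]
  have hsep : ∀ a b : H, (a = cc ∨ a = dd ∨ a = cc * dd) → (b = cc ∨ b = dd ∨ b = cc * dd) →
      IsConj (ι a) (ι b) → a = b := by
    intro a b ha hb hab
    obtain ⟨g, hg⟩ := isConj_iff.1 hab
    obtain ⟨n, hn, hnab⟩ := Screen.burnside_central S (hcent a (central_of_mem a ha))
      (hcent b (central_of_mem b hb)) hg
    have hnS : ∀ s ∈ (S : Subgroup G), n * s * n⁻¹ ∈ (S : Subgroup G) := fun s hs =>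
      ((Subgroup.mem_normalizer_iff).1 hn s).1 hs
    -- `n` fixes the square
    have hd : n * ι dd * n⁻¹ = ι dd := by
      obtain ⟨k, hk⟩ : ∃ k : H, k * k = dd := sq_exists
      obtain ⟨k', hk'⟩ := e.symm.surjective ⟨n * ι k * n⁻¹, hnS _ (hιS k)⟩
      have hk'' : ι k' = n * ι k * n⁻¹ := congrArg Subtype.val hk'
      have hsq : ι (k' * k') = n * ι dd * n⁻¹ := by
        rw [hιmul, hk'', ← hk, hιmul]; group
      rcases sq_cases k' with h | h
      · rw [h, hι1, eq_comm, conj_eq_one_iff] at hsq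
        exact absurd (hιinj (hsq.trans hι1.symm)) dd_ne_one
      · rw [h] at hsq; exact hsq.symm
    obtain ⟨m, hm, hmS⟩ : ∃ m, Odd m ∧ n ^ m ∈ (S : Subgroup G) := by
      set N := Subgroup.normalizer ((S : Subgroup G) : Set G)
      have : ((S : Subgroup G).subgroupOf N).Normal :=
        (Subgroup.normal_subgroupOf_iff_le_normalizer Subgroup.le_normalizer).2 le_rfl
      refine ⟨((S : Subgroup G).subgroupOf N).index, ?_, ?_⟩
      · rw [← Nat.not_even_iff_odd]
        intro he
        exact S.not_dvd_index ((even_iff_two_dvd.1 he).trans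
          (Dvd.intro _ (Subgroup.relIndex_mul_index (Subgroup.le_normalizer : (S : Subgroup G) ≤ N))))
      · have := Subgroup.pow_index_mem ((S : Subgroup G).subgroupOf N) (⟨n, hn⟩ : N)
        simpa [Subgroup.mem_subgroupOf] using this
    obtain ⟨b', hb'⟩ := e.symm.surjective ⟨n * ι b * n⁻¹, hnS _ (hιS b)⟩
    have hb'' : ι b' = n * ι b * n⁻¹ := congrArg Subtype.val hb'
    by_contra hne
    -- `n` swaps the two conjugate elements
    have hcases : (a = cc ∧ b = cc * dd) ∨ (a = cc * dd ∧ b = cc) := by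
      rcases ha with rfl | rfl | rfl <;> rcases hb with rfl | rfl | rfl <;>
        first
          | exact absurd rfl hne
          | exact Or.inl ⟨rfl, rfl⟩
          | exact Or.inr ⟨rfl, rfl⟩
          | (rw [hd] at hnab; exact absurd (hιinj hnab) hne)
          | (exfalso
             refine hne (hιinj ?_)
             apply mul_left_cancel (a := n)
             apply mul_right_cancel (b := n⁻¹)
             rw [hnab, hd])
    have hswap : n * ι b * n⁻¹ = ι a := by
      rcases hcases with ⟨rfl, rfl⟩ | ⟨rfl, rfl⟩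
      · rw [hιmul, ← conj_mul, hnab, hd, ← hιmul, mul_assoc, dd_mul_self, mul_one]
      · have : ι cc = ι (cc * dd) * ι dd := by rw [← hιmul, mul_assoc, dd_mul_self, mul_one]
        rw [this, ← conj_mul, hnab, hd, ← hιmul]
    obtain ⟨k, rfl⟩ := hm
    have hev : ∀ j : ℕ, n ^ (2 * j) * ι a * (n ^ (2 * j))⁻¹ = ι a := by
      intro j
      induction j with
      | zero => simp
      | succ j ih =>
        rw [show 2 * (j + 1) = 2 * j + 1 + 1 by ring, pow_succ, pow_succ,
          show n ^ (2 * j) * n * n * ι a * (n ^ (2 * j) * n * n)⁻¹ =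
            n ^ (2 * j) * (n * (n * ι a * n⁻¹) * n⁻¹) * (n ^ (2 * j))⁻¹ by group, hnab, hswap, ih]
    have h1 : n ^ (2 * k + 1) * ι a * (n ^ (2 * k + 1))⁻¹ = ι a := by
      rw [hcent a (central_of_mem a ha) _ hmS, mul_inv_cancel_right]
    rw [pow_succ', show n * n ^ (2 * k) * ι a * (n * n ^ (2 * k))⁻¹ =
      n * (n ^ (2 * k) * ι a * (n ^ (2 * k))⁻¹) * n⁻¹ by group, hev k, hnab] at h1
    exact hne (hιinj h1).symm
  -- the classes meeting `c` and `cd`
  have hfour : ∀ z : H, (z = cc ∨ z = cc * dd) →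
      (IsConj (ι z) (ι s₁) ∧ IsConj (ι z) (ι s₂)) ∨ (IsConj (ι z) (ι t₁) ∧ IsConj (ι z) (ι t₂)) := by
    intro z hz
    have hsel : ∀ a b : ZMod 2, ∃ r : H, r ∈ [s₁, s₂, t₁, t₂] ∧ phi a b r = 1 ∧ IsConj (ι z) (ι r) := by
      intro a b
      obtain ⟨h, h2, h1, hφ, hc⟩ := htr (phi a b) z (mul_self_of_mem z hz) (phi_ne a b z hz)
      rcases classify h h2 with h' | h' | h' | h' | ⟨r, hr, k, hk⟩
      · exact absurd h' h1
      · exfalso
        subst h'
        have := hsep z dd (hz.elim Or.inl (fun h => Or.inr (Or.inr h))) (Or.inr (Or.inl rfl)) hc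
        rcases hz with rfl | rfl
        exacts [cc_ne_dd this, cd_ne_dd this]
      · exact absurd hφ (phi_ne a b h (Or.inl h'))
      · exact absurd hφ (phi_ne a b h (Or.inr h'))
      · refine ⟨r, hr, ?_, ?_⟩
        · rw [← hk, map_mul, map_mul, map_inv, mul_comm (phi a b k), mul_inv_cancel_right] at hφ
          exact hφ
        · rw [← hk] at hc
          exact hc.trans (hinner k r).symm
    by_contra hcon
    rw [not_or, not_and_or, not_and_or] at hcon
    obtain ⟨⟨a, ha⟩, ⟨b, hb⟩⟩ :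
        (∃ a : ZMod 2, ∀ r ∈ [s₁, s₂], ∀ b : ZMod 2, phi a b r = 1 → ¬ IsConj (ι z) (ι r)) ∧
        (∃ b : ZMod 2, ∀ r ∈ [t₁, t₂], ∀ a : ZMod 2, phi a b r = 1 → ¬ IsConj (ι z) (ι r)) := by
      refine ⟨?_, ?_⟩
      · rcases hcon.1 with h | h
        · refine ⟨0, fun r hr b hφ => ?_⟩
          rw [show r = s₁ from ker_s0 r hr b hφ]; exact h
        · refine ⟨1, fun r hr b hφ => ?_⟩
          rw [show r = s₂ from ker_s1 r hr b hφ]; exact h
      · rcases hcon.2 with h | h
        · refine ⟨0, fun r hr a hφ => ?_⟩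
          rw [show r = t₁ from ker_t0 r hr a hφ]; exact h
        · refine ⟨1, fun r hr a hφ => ?_⟩
          rw [show r = t₂ from ker_t1 r hr a hφ]; exact h
    obtain ⟨r, hr, hφ, hc⟩ := hsel a b
    simp only [List.mem_cons, List.not_mem_nil, or_false] at hr
    rcases hr with rfl | rfl | rfl | rfl
    · exact ha _ (by simp) b hφ hc
    · exact ha _ (by simp) b hφ hc
    · exact hb _ (by simp) a hφ hc
    · exact hb _ (by simp) a hφ hc
  have hne : ∀ r, IsConj (ι cc) (ι r) → IsConj (ι (cc * dd)) (ι r) → False := fun r h1 h2 => by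
    have := hsep cc (cc * dd) (Or.inl rfl) (Or.inr (Or.inr rfl)) (h1.trans h2.symm)
    exact cc_ne_cd this
  -- `d` would be isolated
  refine Screen.not_isolated_of_simple hna (ι dd) (Blocks.isIsolatedInvolution_of_sylow (P := S)
    (hord dd dd_mul_self dd_ne_one) fun g hg => ?_)
  obtain ⟨k, hk⟩ := e.symm.surjective ⟨_, hg⟩
  have hk' : ι k = g * ι dd * g⁻¹ := congrArg Subtype.val hk
  have hdk : IsConj (ι dd) (ι k) := isConj_iff.2 ⟨g, hk'.symm⟩
  have hk2 : k * k = 1 := hιinj (by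
    rw [hιmul, hk', show g * ι dd * g⁻¹ * (g * ι dd * g⁻¹) = g * (ι dd * ι dd) * g⁻¹ by group,
      ← hιmul, dd_mul_self, hι1]
    group)
  have hA : ∀ r, (IsConj (ι cc) (ι r) ∨ IsConj (ι (cc * dd)) (ι r)) → ¬ IsConj (ι dd) (ι r) := by
    rintro r (h | h) h'
    · have := hsep cc dd (Or.inl rfl) (Or.inr (Or.inl rfl)) (h.trans h'.symm)
      exact cc_ne_dd this
    · have := hsep (cc * dd) dd (Or.inr (Or.inr rfl)) (Or.inr (Or.inl rfl)) (h.trans h'.symm)
      exact cd_ne_dd this
  rcases classify k hk2 with h | h | h | h | ⟨r, hr, j, hj⟩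
  · exfalso
    rw [h, hι1, eq_comm, conj_eq_one_iff] at hk'
    exact dd_ne_one (hιinj (hk'.trans hι1.symm))
  · rw [← hk', h]
  · exact absurd (h ▸ hdk) (hA cc (Or.inl (IsConj.refl _)))
  · exact absurd (h ▸ hdk) (hA (cc * dd) (Or.inr (IsConj.refl _)))
  · exfalso
    have hdr : IsConj (ι dd) (ι r) := by
      rw [← hj] at hdk
      exact hdk.trans (hinner j r).symm
    refine hA r ?_ hdr
    simp only [List.mem_cons, List.not_mem_nil, or_false] at hr
    rcases hfour cc (Or.inl rfl) with ⟨a1, a2⟩ | ⟨a1, a2⟩ <;>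
      rcases hfour (cc * dd) (Or.inr rfl) with ⟨b1, b2⟩ | ⟨b1, b2⟩
    · exact absurd b1 (fun h => hne _ a1 h)
    · rcases hr with rfl | rfl | rfl | rfl
      exacts [Or.inl a1, Or.inl a2, Or.inr b1, Or.inr b2]
    · rcases hr with rfl | rfl | rfl | rfl
      exacts [Or.inr b1, Or.inr b2, Or.inl a1, Or.inl a2]
    · exact absurd b1 (fun h => hne _ a1 h)

end Cfsg.Agent.S3309
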