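import Cfsg.Statements.S3315
import Cfsg.Agent.Chars.SU3SylowAut

set_option autoImplicit false
open Cfsg

namespace Cfsg.Agent.S3315

/-- Let S be a Sylow 2-subgroup of SU₃(2ⁿ), n ≥ 2 (realised over the field with 4ⁿ elements). If a finite 2-group R contains a subgroup S' of index 2 isomorphic to S, then the centre of S' is contained in the centre of R. -/
theorem result {R : Type*} [Group R] [Finite R]
    (hR : IsPGroup 2 R) (n : ℕ) (hn : 2 ≤ n) {F : Type*} [Field F] [Fintype F] (hF : Fintype.card F = 4 ^ n)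
    (P : Sylow 2 ↥(Cfsg.SU 3 F (2 ^ n))) (S' : Subgroup R) (hS : Nonempty (↥S' ≃* ↥(P : Subgroup ↥(Cfsg.SU 3 F (2 ^ n)))))
    (hidx : S'.index = 2) :
    (Subgroup.center ↥S').map S'.subtype ≤ Subgroup.center R := by
  have hq : (2 : ℕ) ^ n = 2 ^ n := rfl
  have hF' : Fintype.card F = (2 ^ n) ^ 2 := by
    rw [hF, ← pow_mul, mul_comm, pow_mul]; norm_num
  haveI : CharP F 2 := by
    have h : ((Fintype.card F : ℕ) : F) = 0 := Nat.cast_card_eq_zero F
    rw [hF', ← pow_mul, Nat.cast_pow] at h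
    exact CharTwo.of_one_ne_zero_of_two_eq_zero one_ne_zero (pow_eq_zero_iff (by omega) |>.1 h)
  obtain ⟨e⟩ := hS
  obtain ⟨C₀⟩ := (Cfsg.Agent.Chars.exists_coords hn hq hF').1 P
  set C := C₀.congr e
  have hn1 : 1 ≤ n := by omega
  have hcen := C.mem_center_iff hn1 hq hF' (C.exists_alpha hn1 hq hF')
  haveI : S'.Normal := Subgroup.normal_of_index_eq_two hidx
  rintro _ ⟨z, hz, rfl⟩
  rw [Subgroup.mem_center_iff]
  intro r
  by_cases hr : r ∈ S'
  · exact congrArg Subtype.val (Subgroup.mem_center_iff.1 hz ⟨r, hr⟩)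
  · let f : MulAut ↥S' := MulAut.conjNormal r
    have hr2 : r * r ∈ S' := Subgroup.mul_self_mem_of_index_two hidx r
    have hff : ∀ x : ↥S', f (f x) = ⟨r * r, hr2⟩ * x * ⟨r * r, hr2⟩⁻¹ := fun x => by
      apply Subtype.ext
      simp only [f, MulAut.conjNormal_apply, Subgroup.coe_mul, Subgroup.coe_inv]
      group
    have h := C.involution_center hn1 hq hF' f
      (fun x => by
        rw [hff, C.add, C.add]
        have h0 := C.add ⟨r * r, hr2⟩ ⟨r * r, hr2⟩⁻¹
        rw [mul_inv_cancel, (C.at_one (by positivity)).1] at h0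
        linear_combination -h0)
      (fun x hx => by
        rw [hff, Subgroup.mem_center_iff.1 ((hcen x).2 hx) ⟨r * r, hr2⟩, mul_inv_cancel_right])
      z ((hcen z).1 hz)
    have h' := congrArg Subtype.val h
    simp only [f, MulAut.conjNormal_apply] at h'
    exact mul_inv_eq_iff_eq_mul.1 h'

end Cfsg.Agent.S3315
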