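import Cfsg.Statements.S3333
import Cfsg.Agent.OddChar.Wreath72Sym

set_option autoImplicit false
open Cfsg

namespace Cfsg.Agent.S3333

/-- Let G be a finite group with a Sylow 3-subgroup S of order 9 that is its own centralizer, with N_G(S)/S dihedral of order 8, and such that C_G(x) ≤ N_G(S) for every non-identity x in S. Then S is normal in G or G is isomorphic to the symmetric group of degree 6. -/
theorem result {G : Type*} [Group G] [Finite G]
    (P : Sylow 3 G) (S : Subgroup G) (hSP : S = P) (hcard : Nat.card S = 9)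
    (hC : Subgroup.centralizer (S : Set G) = S)
    (eN : Subgroup.normalizer (S : Set G) ⧸ S.subgroupOf (Subgroup.normalizer (S : Set G)) ≃* DihedralGroup 4)
    (hcent : ∀ x ∈ S, x ≠ 1 → Subgroup.centralizer ({x} : Set G) ≤ Subgroup.normalizer (S : Set G)) :
    S.Normal ∨ Nonempty (G ≃* Equiv.Perm (Fin 6)) := by
  classical
  haveI := Fintype.ofFinite G
  haveI : Fact (Nat.Prime 2) := ⟨Nat.prime_two⟩
  haveI : Fact (Nat.Prime 3) := ⟨Nat.prime_three⟩
  subst hSP
  set N := Subgroup.normalizer ((P : Subgroup G) : Set G) with hN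
  haveI := Fintype.ofFinite N
  have hle : (P : Subgroup G) ≤ N := Subgroup.le_normalizer
  set M₀ := (P : Subgroup G).subgroupOf N with hM₀
  haveI hn : M₀.Normal := Subgroup.normal_in_normalizer
  have h9 : Nat.card M₀ = 9 := by
    rw [hM₀, Nat.card_congr (Subgroup.subgroupOfEquivOfLe hle).toEquiv, hcard]
  have hidx : Nat.card (N ⧸ M₀) = 8 := by
    rw [Nat.card_congr eN.toEquiv, DihedralGroup.nat_card]
  have hN72 : Nat.card N = 72 := by
    rw [Subgroup.card_eq_card_quotient_mul_card_subgroup M₀, hidx, h9]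
  have hself0 : Subgroup.centralizer (M₀ : Set N) = M₀ := by
    ext x
    rw [Subgroup.mem_centralizer_iff, hM₀, Subgroup.mem_subgroupOf]
    constructor
    · intro h
      rw [← hC, Subgroup.mem_centralizer_iff]
      exact fun m hm => congrArg Subtype.val (h ⟨m, hle hm⟩ hm)
    · intro h m hm
      have h' : (x : G) ∈ Subgroup.centralizer ((P : Subgroup G) : Set G) := by rw [hC]; exact h
      exact Subtype.ext (Subgroup.mem_centralizer_iff.mp h' _ hm)
  -- the exponent is three
  have h3 : ∀ m ∈ (P : Subgroup G), m ^ 3 = 1 := by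
    intro m hm
    by_contra hm3
    set g : M₀ := ⟨⟨m, hle hm⟩, hm⟩ with hg
    have hgo : orderOf g = 9 := by
      have hd : orderOf g ∣ 3 ^ 2 := by
        have := orderOf_dvd_natCard g
        rwa [h9] at this
      obtain ⟨k, hk, hk'⟩ := (Nat.dvd_prime_pow Nat.prime_three).mp hd
      rcases (show k ≤ 1 ∨ k = 2 by omega) with h | h
      · exfalso
        apply hm3
        have : g ^ 3 = 1 := orderOf_dvd_iff_pow_eq_one.mp (hk' ▸ (pow_dvd_pow 3 h).trans (dvd_of_eq (pow_one 3)))
        simpa [hg] using congrArg (fun u : M₀ => ((u : N) : G)) this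
      · rw [hk', h]; norm_num
    have hgen : ∀ u : M₀, u ∈ Subgroup.zpowers g := by
      intro u
      have : Subgroup.zpowers g = ⊤ :=
        Subgroup.eq_top_of_card_eq _ (by rw [Nat.card_zpowers, hgo, h9])
      rw [this]; exact Subgroup.mem_top u
    have hpow : ∀ a : N, ∃ i : ℤ, a * (g : N) * a⁻¹ = (g : N) ^ i := by
      intro a
      obtain ⟨i, hi⟩ := Subgroup.mem_zpowers_iff.mp (hgen ⟨_, hn.conj_mem _ g.2 a⟩)
      exact ⟨i, by simpa using (congrArg Subtype.val hi).symm⟩
    have hcomm : ∀ a b : N, a⁻¹ * b⁻¹ * a * b ∈ M₀ := by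
      intro a b
      obtain ⟨i, hi⟩ := hpow a
      obtain ⟨j, hj⟩ := hpow b
      have e1 : (a * b) * (g : N) * (a * b)⁻¹ = (g : N) ^ (i * j) := by
        calc (a * b) * (g : N) * (a * b)⁻¹ = a * (b * g * b⁻¹) * a⁻¹ := by group
          _ = (a * g * a⁻¹) ^ j := by rw [hj, conj_zpow]
          _ = _ := by rw [hi, ← zpow_mul]
      have e2 : (b * a) * (g : N) * (b * a)⁻¹ = (g : N) ^ (i * j) := by
        calc (b * a) * (g : N) * (b * a)⁻¹ = b * (a * g * a⁻¹) * b⁻¹ := by group
          _ = (b * g * b⁻¹) ^ i := by rw [hi, conj_zpow]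
          _ = _ := by rw [hj, ← zpow_mul, mul_comm]
      rw [← hself0, Subgroup.mem_centralizer_iff]
      intro u hu
      obtain ⟨k, hk⟩ := Subgroup.mem_zpowers_iff.mp (hgen ⟨u, hu⟩)
      have hk' : (g : N) ^ k = u := by simpa using congrArg Subtype.val hk
      have e3 : a⁻¹ * b⁻¹ * a * b * (g : N) = (g : N) * (a⁻¹ * b⁻¹ * a * b) := by
        calc a⁻¹ * b⁻¹ * a * b * (g : N) = (b * a)⁻¹ * ((a * b) * (g : N) * (a * b)⁻¹) * (a * b) := by group
          _ = (b * a)⁻¹ * ((b * a) * (g : N) * (b * a)⁻¹) * (a * b) := by rw [e1, e2]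
          _ = _ := by group
      rw [← hk']
      exact ((show Commute (a⁻¹ * b⁻¹ * a * b) (g : N) from e3).zpow_right k).symm
    have hD : ∀ x y : DihedralGroup 4, x⁻¹ * y⁻¹ * x * y = 1 := by
      intro x y
      obtain ⟨a, ha⟩ := QuotientGroup.mk_surjective (eN.symm x)
      obtain ⟨b, hb⟩ := QuotientGroup.mk_surjective (eN.symm y)
      have := (QuotientGroup.eq_one_iff _).mpr (hcomm a b)
      apply eN.symm.injective
      rw [map_mul, map_mul, map_mul, map_inv, map_inv, map_one, ← ha, ← hb]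
      exact this
    exact absurd (hD (.r 1) (.sr 0)) (by decide)
  obtain ⟨T⟩ : Nonempty (Sylow 2 N) := inferInstance
  have hT8 : Nat.card (T : Subgroup N) = 8 := by
    rw [T.card_eq_multiplicity, hN72, show (72 : ℕ) = 2 ^ 3 * 9 by norm_num,
      Nat.factorization_mul (by norm_num) (by norm_num), Finsupp.add_apply,
      Nat.prime_two.factorization_pow, Finsupp.single_eq_same,
      Nat.factorization_eq_zero_of_not_dvd (show ¬ 2 ∣ 9 by norm_num)]
    norm_num
  let π : (T : Subgroup N) →* N ⧸ M₀ := (QuotientGroup.mk' M₀).comp (T : Subgroup N).subtype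
  have hπ : Function.Injective π := by
    rw [injective_iff_map_eq_one]
    intro x hx
    have hxM : (x : N) ∈ M₀ := (QuotientGroup.eq_one_iff _).mp hx
    have h1 : orderOf (x : N) ∣ 8 := by
      rw [Subgroup.orderOf_coe, ← hT8]; exact orderOf_dvd_natCard x
    have h2 : orderOf (x : N) ∣ 9 := by
      rw [← Subgroup.orderOf_mk (x : N) hxM, ← h9]; exact orderOf_dvd_natCard _
    have h : orderOf (x : N) ∣ Nat.gcd 8 9 := Nat.dvd_gcd h1 h2
    exact Subtype.ext (orderOf_eq_one_iff.mp (Nat.dvd_one.mp h))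
  have hbij : Function.Bijective π :=
    (Nat.bijective_iff_injective_and_card π).mpr ⟨hπ, by rw [hT8, hidx]⟩
  let e8 : (T : Subgroup N) ≃* DihedralGroup 4 := (MulEquiv.ofBijective π hbij).trans eN
  obtain ⟨e⟩ := OddChar.Wreath72.exists_iso M₀ (T : Subgroup N) h9
    (fun m hm => Subtype.ext (by simpa using h3 _ hm)) hself0 e8 hN72
  have hA := OddChar.Wreath72.isTISection_normalizer P hcard h3 hC hN hcent e
  obtain ⟨F⟩ := OddChar.Wreath72.exists_full e hA
  have A : OddChar.Wreath72.Ambient P N := ⟨hcard, h3, hC, hN, hcent⟩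
  rcases F.two_or_order A with ⟨hT2, hz⟩ | hg
  · exact Or.inl (F.normal_of_two A hT2 hz)
  · exact Or.inr (F.iso_perm A hg)

end Cfsg.Agent.S3333
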