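import Cfsg.Statements.S3341
import Cfsg.Agent.Recog.SelfCentNineGroup
import Cfsg.Agent.S0497
-- import your own Cfsg.Agent.* helpers here

set_option autoImplicit false
open Cfsg

namespace Cfsg.Agent.S3341

open scoped Classical ComplexConjugate
open Cfsg.Agent.Recog.SelfCentNine


/-- Let G be a finite simple group whose Sylow 3-subgroup S is elementary abelian of order 9, such that G has more than one conjugacy class of elements of order 3 and C_G(s) = S for every non-identity s in S. Then G is isomorphic to the alternating group of degree 6. -/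
theorem result {G : Type*} [Group G] [Finite G] [IsSimpleGroup G]
    (P : Sylow 3 G) (S : Subgroup G) (hSP : S = P) (hcomm : IsMulCommutative S) (hexp : ∀ a ∈ S, a ^ 3 = 1)
    (hcard : Nat.card S = 9)
    (hclasses : ∃ a b : G, orderOf a = 3 ∧ orderOf b = 3 ∧ ∀ g : G, g * a * g⁻¹ ≠ b)
    (hcent : ∀ s ∈ S, s ≠ 1 → Subgroup.centralizer ({s} : Set G) = S) :
    Nonempty (G ≃* alternatingGroup (Fin 6)) := by
  classical
  subst hSP
  haveI := Fintype.ofFinite G
  have h : Hyp P := ⟨hcard, hexp, hcent⟩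
  have hs1e : ∃ s ∈ (P : Subgroup G), s ≠ 1 := by
    by_contra hc
    push Not at hc
    have : (P : Subgroup G) = ⊥ := (Subgroup.eq_bot_iff_forall _).2 hc
    rw [this, Subgroup.card_bot] at hcard
    omega
  have hna : ¬ ∀ a b : G, a * b = b * a := by
    intro hc
    obtain ⟨s, hs, hs1⟩ := hs1e
    have htop : (P : Subgroup G) = ⊤ := eq_top_iff.2 fun x _ => h.mem_of_comm hs hs1 (hc x s)
    obtain ⟨a, b, ha, hb, hab⟩ := hclasses
    have hGc : Nat.card G = 9 := by rw [← Subgroup.card_top, ← htop, hcard]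
    haveI : IsMulCommutative G := ⟨⟨hc⟩⟩
    letI : CommGroup G := { (inferInstance : Group G) with mul_comm := hc }
    haveI : IsSimpleGroup G := inferInstance
    have := IsSimpleGroup.prime_card (α := G)
    rw [hGc] at this
    norm_num at this
  set N := Subgroup.normalizer ((P : Subgroup G) : Set G) with hN
  have hPN : (P : Subgroup G) ≤ N := Subgroup.le_normalizer
  obtain ⟨k, hk⟩ : ∃ k : ℕ, Nat.card N = k * 9 := by
    obtain ⟨j, hj⟩ := Subgroup.card_dvd_of_le hPN
    rw [hcard] at hj
    exact ⟨j, by rw [hj, mul_comm]⟩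
  have horb : ∀ s ∈ (P : Subgroup G), s ≠ 1 → (orb P s).card = k := fun s hs hs1 => by
    have := h.orb_card hs hs1; rw [← hN, hk] at this; omega
  obtain ⟨hk8, hk8'⟩ := h.orb_sum k horb
  -- every element of order three is conjugate into the Sylow subgroup
  obtain ⟨a₀, b₀, ha₀P, hb₀P, ha₀1, hb₀1, hab₀⟩ : ∃ a b : G, a ∈ (P : Subgroup G) ∧
      b ∈ (P : Subgroup G) ∧ a ≠ 1 ∧ b ≠ 1 ∧ ¬ IsConj a b := by
    obtain ⟨a, b, ha, hb, hab⟩ := hclasses
    obtain ⟨g, hg⟩ := h.conj_mem (x := a) (ha ▸ pow_orderOf_eq_one a)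
    obtain ⟨g', hg'⟩ := h.conj_mem (x := b) (hb ▸ pow_orderOf_eq_one b)
    refine ⟨_, _, hg, hg', fun e => ?_, fun e => ?_, fun hc => ?_⟩
    · rw [conj_eq_one_iff] at e; rw [e, orderOf_one] at ha; omega
    · rw [conj_eq_one_iff] at e; rw [e, orderOf_one] at hb; omega
    · obtain ⟨c, hc'⟩ := isConj_iff.1 hc
      refine hab (g'⁻¹ * c * g) ?_
      calc g'⁻¹ * c * g * a * (g'⁻¹ * c * g)⁻¹ = g'⁻¹ * (c * (g * a * g⁻¹) * c⁻¹) * g' := by group
        _ = b := by rw [hc']; group
  have hkne8 : k ≠ 8 := fun e => hab₀ (hk8' e a₀ ha₀P b₀ hb₀P ha₀1 hb₀1)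
  have hkne1 : k ≠ 1 := by
    intro e
    have hNP : N = (P : Subgroup G) :=
      (Subgroup.eq_of_le_of_card_ge hPN (le_of_eq (by rw [hk, e, hcard]))).symm
    have hle : N ≤ Subgroup.centralizer ((P : Subgroup G) : Set G) := by
      rw [hNP]
      exact fun x hx => Subgroup.mem_centralizer_iff.2 fun y hy => h.comm hy hx
    have hcompl := MonoidHom.ker_transferSylow_isComplement' P hle
    rcases (MonoidHom.normal_ker (MonoidHom.transferSylow P hle)).eq_bot_or_eq_top with hb | hb
    · rw [hb] at hcompl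
      have htop : (P : Subgroup G) = ⊤ := Subgroup.isComplement'_bot_left.1 hcompl
      exact hna fun x y => h.comm (htop ▸ Subgroup.mem_top x) (htop ▸ Subgroup.mem_top y)
    · rw [hb] at hcompl
      have hbot : (P : Subgroup G) = ⊥ := Subgroup.isComplement'_top_left.1 hcompl
      rw [hbot, Subgroup.card_bot] at hcard
      omega
  have hk24 : k = 2 ∨ k = 4 := by
    have := Nat.le_of_dvd (by norm_num) hk8
    interval_cases k <;> omega
  -- an involution inverting the Sylow subgroup
  have hinv : ∀ s ∈ (P : Subgroup G), IsConj s s⁻¹ := by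
    haveI : Fact (Nat.Prime 2) := ⟨Nat.prime_two⟩
    obtain ⟨t, ht⟩ := exists_prime_orderOf_dvd_card' (G := N) 2
      (by rw [hk]; rcases hk24 with rfl | rfl <;> norm_num)
    have htt : (t : G) * t = 1 := by
      rw [← pow_two, ← Subgroup.coe_pow, ← ht, pow_orderOf_eq_one, Subgroup.coe_one]
    intro s hs
    refine isConj_iff.2 ⟨t, ?_⟩
    have hts : (t : G) * s * (t : G)⁻¹ ∈ (P : Subgroup G) := (Subgroup.mem_normalizer_iff.1 t.2 s).1 hs
    have hti : (t : G)⁻¹ = t := inv_eq_of_mul_eq_one_right htt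
    set w := s * ((t : G) * s * (t : G)⁻¹) with hw
    have hfix : (t : G) * w = w * t := by
      rw [hw, h.comm hs hts]
      conv_rhs => rw [← h.comm hs hts]
      rw [hti]
      simp only [← mul_assoc, htt, one_mul]
      simp only [mul_assoc, htt, mul_one]
    by_contra hne
    have hw1 : w ≠ 1 := fun e => hne (by rw [eq_inv_of_mul_eq_one_right e])
    have htP := h.mem_of_comm (mul_mem hs hts) hw1 hfix
    have h3 : orderOf (t : G) ∣ 3 := orderOf_dvd_of_pow_eq_one (h.cube _ htP)
    rw [Subgroup.orderOf_coe, ht] at h3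
    norm_num at h3
  have hinv' : ∀ s ∈ (P : Subgroup G), IsConj s⁻¹ s := fun s hs => (hinv s hs).symm
  -- values
  have hval : ∀ (χ : IrrCharacter G) (s : (P : Subgroup G)), ∃ q : ℤ × ℤ,
      (χ : G → ℂ) s = q.1 ∧ (χ : G → ℂ) 1 = q.2 ∧ (3 : ℤ) ∣ q.1 - q.2 := by
    intro χ s
    obtain ⟨a, b, h1, h2, h3⟩ :=
      exists_int_value (Chars.irr_isCharacter χ) (h.cube s s.2) (hinv s s.2)
    exact ⟨(a, b), h1, h2, h3⟩
  choose q hq using hval
  let u : IrrCharacter G → G → ℤ := fun χ s => if hs : s ∈ (P : Subgroup G) then (q χ ⟨s, hs⟩).1 else 0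
  let d : IrrCharacter G → ℤ := fun χ => (q χ 1).2
  have hu : ∀ χ : IrrCharacter G, ∀ s ∈ (P : Subgroup G), (χ : G → ℂ) s = (u χ s : ℂ) := fun χ s hs => by
    simp only [u, dif_pos hs]; exact (hq χ ⟨s, hs⟩).1
  have hd : ∀ χ : IrrCharacter G, (χ : G → ℂ) 1 = (d χ : ℂ) := fun χ => (hq χ 1).2.1
  have hu3 : ∀ χ : IrrCharacter G, ∀ s ∈ (P : Subgroup G), (3 : ℤ) ∣ u χ s - d χ := fun χ s hs => by
    have := (hq χ ⟨s, hs⟩).2.2
    have he : (q χ ⟨s, hs⟩).2 = d χ := by exact_mod_cast (hq χ ⟨s, hs⟩).2.1.symm.trans (hd χ)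
    simp only [u, dif_pos hs]; rwa [he] at this
  have hdpos : ∀ χ, 0 < d χ := fun χ => by
    obtain ⟨n, hn0, hn⟩ := Chars.exists_irr_apply_one_eq χ.2
    have : (n : ℤ) = d χ := by exact_mod_cast hn.symm.trans (hd χ)
    omega
  set e : IrrCharacter G := ⟨fun _ => 1, Chars.isIrrCharacter_one⟩ with he
  have hue : ∀ s ∈ (P : Subgroup G), u e s = 1 := fun s hs => by
    have h1 : ((u e s : ℤ) : ℂ) = 1 := (hu e s hs).symm
    exact_mod_cast h1
  have hde : d e = 1 := by
    have h1 : ((d e : ℤ) : ℂ) = 1 := (hd e).symm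
    exact_mod_cast h1
  have hd1 : ∀ χ, d χ = 1 → χ = e := fun χ hχ => Subtype.ext
    (Chars.SimpleDeg.eq_one_of_degree_one hna (by rw [hd, hχ, Int.cast_one]))
  have hC9 : ∀ s ∈ (P : Subgroup G), s ≠ 1 →
      Nat.card (Subgroup.centralizer ({s} : Set G)) = 9 := fun s hs hs1 => by rw [hcent s hs hs1, hcard]
  have horth : ∀ a ∈ (P : Subgroup G), ∀ b ∈ (P : Subgroup G), a ≠ 1 →
      ∑ χ, u χ a * u χ b = if IsConj a b then 9 else 0 := fun a ha b hb ha1 => by
    have := Chars.column_orth a b
    rw [hC9 a ha ha1, Finset.sum_congr rfl fun (χ : IrrCharacter G) _ => show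
      (χ : G → ℂ) a * conj ((χ : G → ℂ) b) = (u χ a : ℂ) * (u χ b : ℂ) by rw [hu χ a ha, hu χ b hb, map_intCast]] at this
    split_ifs at this ⊢ <;> exact_mod_cast this
  have hdeg : ∀ a ∈ (P : Subgroup G), a ≠ 1 → ∑ χ, d χ * u χ a = 0 := fun a ha ha1 => by
    have := Chars.sum_apply_one_mul (G := G) a
    rw [if_neg ha1, Finset.sum_congr rfl fun (χ : IrrCharacter G) _ => show
      (χ : G → ℂ) 1 * (χ : G → ℂ) a = (d χ : ℂ) * (u χ a : ℂ) by rw [hu χ a ha, hd χ]] at this
    exact_mod_cast this
  -- the class multiplication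
  have hcount : ∀ a ∈ (P : Subgroup G), ∀ s ∈ (P : Subgroup G), ∀ b ∈ (P : Subgroup G), a ≠ 1 → b ≠ 1 →
      s ≠ 1 → (81 : ℚ) * ((OddChar.clOf a).filter fun y => IsConj (s * y) b).card =
        (Nat.card G : ℚ) * ∑ χ, (u χ a : ℚ) * (u χ s : ℚ) * (u χ b : ℚ) / (d χ : ℚ) := by
    intro a ha s hs b hb ha1 hb1 _
    set c := ((OddChar.clOf a).filter fun y => IsConj (s * y) b).card with hc
    have h1 : ∑ y ∈ OddChar.clOf a, ∑ χ : IrrCharacter G, (χ : G → ℂ) (s * y) * conj ((χ : G → ℂ) b) =
        9 * (c : ℂ) := by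
      rw [Finset.sum_congr rfl fun y _ => Chars.column_orth (s * y) b,
        Finset.sum_congr rfl (g := fun y => if IsConj (s * y) b then (9 : ℂ) else 0) fun y _ => ?_,
        ← Finset.sum_filter, Finset.sum_const, ← hc, nsmul_eq_mul, mul_comm]
      split_ifs with hy
      · have hcc : Nat.card (Subgroup.centralizer ({s * y} : Set G)) =
            Nat.card (Subgroup.centralizer ({b} : Set G)) := by
          obtain ⟨g, hg⟩ := isConj_iff.1 hy
          rw [← hg]
          refine Nat.card_congr
            { toFun := fun x => ⟨g * x * g⁻¹, Subgroup.mem_centralizer_singleton_iff.2 ?_⟩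
              invFun := fun x => ⟨g⁻¹ * x * g, Subgroup.mem_centralizer_singleton_iff.2 ?_⟩
              left_inv := fun x => Subtype.ext (by simp [mul_assoc])
              right_inv := fun x => Subtype.ext (by simp [mul_assoc]) }
          · have := Subgroup.mem_centralizer_singleton_iff.1 x.2
            calc g * (x : G) * g⁻¹ * (g * (s * y) * g⁻¹) = g * ((x : G) * (s * y)) * g⁻¹ := by group
              _ = _ := by rw [this]; group
          · have := Subgroup.mem_centralizer_singleton_iff.1 x.2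
            calc g⁻¹ * (x : G) * g * (s * y) = g⁻¹ * ((x : G) * (g * (s * y) * g⁻¹)) * g := by group
              _ = _ := by rw [this]; group
        rw [hcc, hC9 b hb hb1]; norm_num
      · rfl
    have hcl : (OddChar.clOf a).card * 9 = Nat.card G := by
      rw [OddChar.card_clOf, ← hC9 a ha ha1, Subgroup.index_mul_card]
    have hcl' : ((OddChar.clOf a).card : ℂ) * 9 = (Nat.card G : ℂ) := by exact_mod_cast hcl
    rw [Finset.sum_comm, Finset.sum_congr rfl (g := fun χ => ((OddChar.clOf a).card : ℂ) *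
      ((u χ a : ℂ) * (u χ s : ℂ) * (u χ b : ℂ) / (d χ : ℂ))) fun χ _ => ?_, ← Finset.mul_sum] at h1
    · have h2 : ((81 * c : ℚ) : ℂ) = (((Nat.card G : ℚ) * ∑ χ, (u χ a : ℚ) * (u χ s : ℚ) * (u χ b : ℚ) / (d χ : ℚ)) : ℚ) := by
        push_cast
        rw [← hcl']
        linear_combination -9 * h1
      exact_mod_cast h2
    · have h3 := OddChar.irr_class_sum_mul χ.2 a s
      rw [hd, hu χ a ha, hu χ s hs] at h3
      have hd0 : (d χ : ℂ) ≠ 0 := by exact_mod_cast (hdpos χ).ne'
      rw [← Finset.sum_mul, hu χ b hb, map_intCast]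
      field_simp
      linear_combination (u χ b : ℂ) * h3
  have hY : ∀ a ∈ (P : Subgroup G), ∀ s ∈ (P : Subgroup G), ∀ b ∈ (P : Subgroup G), s ≠ 1 →
      ¬ (IsConj a s ∧ IsConj b s) → ((OddChar.clOf a).filter fun y => IsConj (s * y) b) =
        (orb P a).filter fun y => IsConj (s * y) b := by
    intro a ha s hs b hb hs1 hnot
    ext y
    simp only [Finset.mem_filter, OddChar.mem_clOf, mem_orb]
    refine ⟨fun ⟨hy, hsy⟩ => ⟨⟨?_, hy⟩, hsy⟩, fun ⟨⟨_, hy⟩, hsy⟩ => ⟨hy, hsy⟩⟩
    have h3 : ∀ w z : G, IsConj w z → w ^ 3 = 1 → z ^ 3 = 1 := fun w z hwz hw => by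
      obtain ⟨g, hg⟩ := isConj_iff.1 hwz
      rw [← hg, conj_pow, hw]; group
    have hy3 : y ^ 3 = 1 := h3 a y hy (h.cube a ha)
    have hsy3 : (s * y) ^ 3 = 1 := h3 b _ hsy.symm (h.cube b hb)
    rcases h.triangle (y := s * y) (z := y⁻¹) hs hs1 hsy3 (by rw [inv_pow, hy3, inv_one]) (by group)
      with ⟨_, h2⟩ | ⟨h1, h2⟩
    · simpa using inv_mem h2
    · exfalso
      refine hnot ⟨?_, ?_⟩
      · obtain ⟨g, hg⟩ := isConj_iff.1 h2
        exact hy.trans (isConj_iff.2 ⟨g, by rw [← inv_inj, ← hg]; group⟩)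
      · exact hsy.symm.trans (h1.trans (hinv' s hs))
  -- orbits
  have horb_mem : ∀ s ∈ (P : Subgroup G), s ≠ 1 → s ∈ orb P s ∧ s⁻¹ ∈ orb P s := fun s hs _ =>
    ⟨mem_orb.2 ⟨hs, IsConj.refl s⟩, mem_orb.2 ⟨inv_mem hs, hinv s hs⟩⟩
  have hne_inv : ∀ s ∈ (P : Subgroup G), s ≠ 1 → s ≠ s⁻¹ := fun s hs hs1 e => hs1 (by
    have h3 := h.cube s hs
    have h2 : s * s = 1 := mul_eq_one_iff_eq_inv.2 e
    rw [pow_three, h2, mul_one] at h3
    exact h3)
  rcases hk24 with rfl | rfl
  · -- four classes
    exfalso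
    have horb2 : ∀ s ∈ (P : Subgroup G), s ≠ 1 → orb P s = {s, s⁻¹} := fun s hs hs1 => by
      refine (Finset.eq_of_subset_of_card_le ?_ ?_).symm
      · intro x hx
        rcases Finset.mem_insert.1 hx with rfl | hx
        · exact (horb_mem _ hs hs1).1
        · rw [Finset.mem_singleton.1 hx]; exact (horb_mem _ hs hs1).2
      · rw [Finset.card_pair (hne_inv s hs hs1), horb s hs hs1]
    have hconj2 : ∀ a ∈ (P : Subgroup G), ∀ b ∈ (P : Subgroup G), a ≠ 1 → IsConj a b → b = a ∨ b = a⁻¹ := by
      intro a ha b hb ha1 hab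
      have : b ∈ orb P a := mem_orb.2 ⟨hb, hab⟩
      rw [horb2 a ha ha1] at this
      simpa using this
    set s := a₀ with hs_def
    set t := b₀ with ht_def
    have hts : t ≠ s ∧ t ≠ s⁻¹ := ⟨fun e => hab₀ (e ▸ IsConj.refl _), fun e => hab₀ (e ▸ hinv s ha₀P)⟩
    have hst : s * t = t * s := h.comm ha₀P hb₀P
    have hs3 : s * s = s⁻¹ := eq_inv_of_mul_eq_one_left (by rw [← pow_three']; exact h.cube s ha₀P)
    have ht3 : t * t = t⁻¹ := eq_inv_of_mul_eq_one_left (by rw [← pow_three']; exact h.cube t hb₀P)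
    let r : Fin 4 → G := ![s, t, s * t, s * t⁻¹]
    have hr : ∀ l, r l ∈ (P : Subgroup G) ∧ r l ≠ 1 := by
      intro l
      fin_cases l
      · exact ⟨ha₀P, ha₀1⟩
      · exact ⟨hb₀P, hb₀1⟩
      · exact ⟨mul_mem ha₀P hb₀P, fun e => hts.2 (eq_inv_of_mul_eq_one_right e)⟩
      · exact ⟨mul_mem ha₀P (inv_mem hb₀P), fun e => hts.1 (mul_inv_eq_one.1 e).symm⟩
    have hrne : ∀ l m, l ≠ m → ¬ IsConj (r l) (r m) := by
      have key : ∀ a ∈ (P : Subgroup G), ∀ b ∈ (P : Subgroup G), a ≠ 1 → b ≠ a → b ≠ a⁻¹ → ¬ IsConj a b :=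
        fun a ha b hb ha1 h1 h2 hc => by rcases hconj2 a ha b hb ha1 hc with e | e <;> contradiction
      have t01 := key s ha₀P t hb₀P ha₀1 hts.1 hts.2
      have t02 : ¬ IsConj s (s * t) := key s ha₀P _ (hr 2).1 ha₀1
        (fun e => hb₀1 (mul_eq_left.1 e))
        (fun e => hts.1 (by rw [← hs3] at e; exact mul_left_cancel e))
      have t03 : ¬ IsConj s (s * t⁻¹) := key s ha₀P _ (hr 3).1 ha₀1
        (fun e => hb₀1 (inv_eq_one.1 (mul_eq_left.1 e)))
        (fun e => hts.2 (by rw [← hs3] at e; exact inv_eq_iff_eq_inv.1 (mul_left_cancel e)))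
      have t12 : ¬ IsConj t (s * t) := key t hb₀P _ (hr 2).1 hb₀1
        (fun e => ha₀1 (mul_eq_right.1 e))
        (fun e => hts.1 (by rw [hst, ← ht3] at e; exact (mul_left_cancel e).symm))
      have t13 : ¬ IsConj t (s * t⁻¹) := key t hb₀P _ (hr 3).1 hb₀1
        (fun e => hts.2 (by
          have : s = t * t := mul_inv_eq_iff_eq_mul.1 e
          rw [this, ht3, inv_inv]))
        (fun e => ha₀1 (mul_eq_right.1 e))
      have t23 : ¬ IsConj (s * t) (s * t⁻¹) := key _ (hr 2).1 _ (hr 3).1 (hr 2).2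
        (fun e => hne_inv t hb₀P hb₀1 (mul_left_cancel e).symm)
        (fun e => hne_inv s ha₀P ha₀1 (by
          change s * t⁻¹ = (s * t)⁻¹ at e
          rw [mul_inv_rev, h.comm (inv_mem hb₀P) (inv_mem ha₀P)] at e
          exact mul_right_cancel e))
      intro l m hlm hc
      fin_cases l <;> fin_cases m <;> first
        | exact hlm rfl
        | exact t01 hc | exact t01 hc.symm | exact t02 hc | exact t02 hc.symm
        | exact t03 hc | exact t03 hc.symm | exact t12 hc | exact t12 hc.symm
        | exact t13 hc | exact t13 hc.symm | exact t23 hc | exact t23 hc.symm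
    refine four_class_false (fun χ l => u χ (r l)) d e (fun l => hue _ (hr l).1) hde hdpos hd1
      (fun l m => ?_) (fun χ l m => ?_) (fun l => hdeg _ (hr l).1 (hr l).2) ?_
    · rw [horth _ (hr l).1 _ (hr m).1 (hr l).2]
      by_cases hlm : l = m
      · subst hlm; rw [if_pos (IsConj.refl _), if_pos rfl]
      · rw [if_neg (hrne l m hlm), if_neg hlm]
    · have := hu3 χ _ (hr l).1; have := hu3 χ _ (hr m).1; omega
    · have hc := hcount s ha₀P s ha₀P t hb₀P ha₀1 hb₀1 ha₀1
      rw [hY s ha₀P s ha₀P t hb₀P ha₀1 (fun hh => hab₀ hh.2.symm), horb2 s ha₀P ha₀1,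
        Finset.filter_eq_empty_iff.2 (fun y hy hyt => ?_)] at hc
      · simp only [Finset.card_empty, Nat.cast_zero, mul_zero] at hc
        have hG0 : (Nat.card G : ℚ) ≠ 0 := by exact_mod_cast Nat.card_pos.ne'
        refine (Finset.sum_congr rfl fun χ _ => ?_).trans ((mul_eq_zero.1 hc.symm).resolve_left hG0)
        simp only [r, Matrix.cons_val_zero, Matrix.cons_val_one]
        ring
      · rcases Finset.mem_insert.1 hy with rfl | hy
        · rw [hs3] at hyt
          exact hab₀ ((hinv s ha₀P).trans hyt)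
        · rw [Finset.mem_singleton.1 hy, mul_inv_cancel] at hyt
          exact hb₀1 (isConj_one_right.1 hyt)
  · -- two classes
    set s := a₀ with hs_def
    set t := b₀ with ht_def
    have hO : ∀ x ∈ (P : Subgroup G), x ≠ 1 → IsConj s x ∨ IsConj t x := by
      intro x hx hx1
      by_contra hne
      push Not at hne
      set U := orb P s ∪ orb P t ∪ orb P x with hU
      have hd1' : Disjoint (orb P s) (orb P t) := Finset.disjoint_left.2 fun y h1 h2 =>
        hab₀ ((mem_orb.1 h1).2.trans (mem_orb.1 h2).2.symm)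
      have hd2 : Disjoint (orb P s ∪ orb P t) (orb P x) := Finset.disjoint_left.2 fun y h1 h2 => by
        rcases Finset.mem_union.1 h1 with h1 | h1
        · exact hne.1 ((mem_orb.1 h1).2.trans (mem_orb.1 h2).2.symm)
        · exact hne.2 ((mem_orb.1 h1).2.trans (mem_orb.1 h2).2.symm)
      have hc12 : U.card = 12 := by
        rw [hU, Finset.card_union_of_disjoint hd2, Finset.card_union_of_disjoint hd1',
          horb s ha₀P ha₀1, horb t hb₀P hb₀1, horb x hx hx1]
      have hsub : U ⊆ Finset.univ.filter fun a : G => a ∈ (P : Subgroup G) := fun y hy => by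
        simp only [hU, Finset.mem_union, mem_orb] at hy
        exact Finset.mem_filter.2 ⟨Finset.mem_univ y, by tauto⟩
      have := Finset.card_le_card hsub
      rw [hc12, ← Fintype.card_subtype, ← Nat.card_eq_fintype_card,
        show Nat.card {a : G // a ∈ (P : Subgroup G)} = 9 from hcard] at this
      omega
    obtain ⟨hsmem, hsimem⟩ := horb_mem s ha₀P ha₀1
    obtain ⟨r, hrO, hrs, hrsi⟩ : ∃ r ∈ orb P s, r ≠ s ∧ r ≠ s⁻¹ := by
      by_contra hne
      push Not at hne
      have : orb P s ⊆ {s, s⁻¹} := fun y hy => by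
        by_cases e : y = s
        · simp [e]
        · simp [hne y hy e]
      have := Finset.card_le_card this
      rw [horb s ha₀P ha₀1] at this
      have := Finset.card_le_two (a := s) (b := s⁻¹)
      omega
    obtain ⟨hrP, hsr⟩ := mem_orb.1 hrO
    have hr1 : r ≠ 1 := fun e => ha₀1 (isConj_one_left.1 (e ▸ hsr))
    have hs3 : s * s = s⁻¹ := eq_inv_of_mul_eq_one_left (by rw [← pow_three']; exact h.cube s ha₀P)
    have hr3 : r * r = r⁻¹ := eq_inv_of_mul_eq_one_left (by rw [← pow_three']; exact h.cube r hrP)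
    have horbs : orb P s = {s, s⁻¹, r, r⁻¹} := by
      refine (Finset.eq_of_subset_of_card_le ?_ ?_).symm
      · intro x hx
        simp only [Finset.mem_insert, Finset.mem_singleton] at hx
        rcases hx with rfl | rfl | rfl | rfl
        · exact hsmem
        · exact hsimem
        · exact hrO
        · exact mem_orb.2 ⟨inv_mem hrP, hsr.trans (hinv r hrP)⟩
      · rw [horb s ha₀P ha₀1]
        have e1 : r⁻¹ ≠ s := fun e => hrsi (by rw [← e, inv_inv])
        have e2 : r⁻¹ ≠ s⁻¹ := fun e => hrs (inv_inj.1 e)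
        rw [Finset.card_insert_of_notMem (by simp [hne_inv s ha₀P ha₀1, hrs.symm, e1.symm]),
          Finset.card_insert_of_notMem (by simp [hrsi.symm, hrs.symm]),
          Finset.card_pair (hne_inv r hrP hr1)]
    have hsr' : ∀ y ∈ ({r, r⁻¹} : Finset G), IsConj (s * y) t := by
      intro y hy
      have hy' : y = r ∨ y = r⁻¹ := by simpa using hy
      have hyP : y ∈ (P : Subgroup G) := by rcases hy' with rfl | rfl <;> [exact hrP; exact inv_mem hrP]
      have hyO : y ∈ orb P s := by rw [horbs]; rcases hy' with rfl | rfl <;> simp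
      have hys : y ≠ s ∧ y ≠ s⁻¹ := by
        rcases hy' with rfl | rfl
        · exact ⟨hrs, hrsi⟩
        · exact ⟨fun e => hrsi (by rw [← e, inv_inv]), fun e => hrs (inv_inj.1 e)⟩
      have hy1 : y ≠ 1 := fun e => ha₀1 (isConj_one_left.1 (e ▸ (mem_orb.1 hyO).2))
      have hsy1 : s * y ≠ 1 := fun e => hys.2 (eq_inv_of_mul_eq_one_right e)
      refine ((hO _ (mul_mem ha₀P hyP) hsy1).resolve_left fun hc => ?_).symm
      have hmem : s * y ∈ orb P s := mem_orb.2 ⟨mul_mem ha₀P hyP, hc⟩
      have hnot : ∀ z : G, (z = y ∨ z = y⁻¹) → s * y ≠ z := by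
        rintro z (rfl | rfl) e
        · exact ha₀1 (mul_eq_right.1 e)
        · apply hys.1
          have hy3 : y * y = y⁻¹ := eq_inv_of_mul_eq_one_left (by rw [← pow_three']; exact h.cube y hyP)
          rw [← hy3] at e
          exact (mul_right_cancel e).symm
      rw [horbs] at hmem
      simp only [Finset.mem_insert, Finset.mem_singleton] at hmem
      rcases hmem with e | e | e | e
      · exact hy1 (mul_eq_left.1 e)
      · exact hys.1 (by rw [← hs3] at e; exact mul_left_cancel e)
      · rcases hy' with rfl | rfl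
        · exact hnot _ (Or.inl rfl) e
        · exact hnot r (Or.inr (inv_inv r).symm) e
      · rcases hy' with rfl | rfl
        · exact hnot _ (Or.inr rfl) e
        · exact hnot _ (Or.inl rfl) e
    have hcard2 : ((OddChar.clOf s).filter fun y => IsConj (s * y) t).card = 2 := by
      rw [hY s ha₀P s ha₀P t hb₀P ha₀1 (fun hh => hab₀ hh.2.symm), horbs]
      have : ({s, s⁻¹, r, r⁻¹} : Finset G).filter (fun y => IsConj (s * y) t) = {r, r⁻¹} := by
        ext y
        simp only [Finset.mem_filter]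
        constructor
        · rintro ⟨hy, hyt⟩
          simp only [Finset.mem_insert, Finset.mem_singleton] at hy
          rcases hy with rfl | rfl | rfl | rfl
          · rw [hs3] at hyt
            exact absurd ((hinv y ha₀P).trans hyt) hab₀
          · rw [mul_inv_cancel] at hyt
            exact absurd (isConj_one_right.1 hyt) hb₀1
          · simp
          · simp
        · intro hy
          refine ⟨?_, hsr' y hy⟩
          simp only [Finset.mem_insert, Finset.mem_singleton] at hy ⊢
          tauto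
      rw [this, Finset.card_pair (hne_inv r hrP hr1)]
    have h9 : ∀ χ, (9 : ℤ) ∣ d χ + 4 * u χ s + 4 * u χ t := by
      intro χ
      haveI := Fintype.ofFinite (P : Subgroup G)
      obtain ⟨m, hm⟩ := Chars.exists_classInner_eq_nat
        (Chars.isCharacter_restrict (Chars.irr_isCharacter χ) (P : Subgroup G))
        (Chars.isCharacter_one (G := (P : Subgroup G)))
      rw [Chars.classInner_def] at hm
      simp only [map_one, mul_one, hcard] at hm
      have hsum : ∑ y : (P : Subgroup G), (χ : G → ℂ) y =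
          ((d χ + 4 * u χ s + 4 * u χ t : ℤ) : ℂ) := by
        rw [← Finset.sum_subtype (Finset.univ.filter fun a : G => a ∈ (P : Subgroup G))
          (by simp) (fun a => (χ : G → ℂ) a)]
        have hset : (Finset.univ.filter fun a : G => a ∈ (P : Subgroup G)) =
            insert 1 (orb P s ∪ orb P t) := by
          ext a
          simp only [Finset.mem_filter, Finset.mem_univ, true_and, Finset.mem_insert,
            Finset.mem_union, mem_orb]
          constructor
          · intro ha
            by_cases ha1 : a = 1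
            · exact Or.inl ha1
            · rcases hO a ha ha1 with hc | hc
              · exact Or.inr (Or.inl ⟨ha, hc⟩)
              · exact Or.inr (Or.inr ⟨ha, hc⟩)
          · rintro (rfl | ⟨ha, _⟩ | ⟨ha, _⟩)
            · exact one_mem _
            · exact ha
            · exact ha
        have hconst : ∀ z ∈ (P : Subgroup G), ∀ a ∈ orb P z, (χ : G → ℂ) a = (u χ z : ℂ) := by
          intro z hz a ha
          obtain ⟨g, hg⟩ := isConj_iff.1 (mem_orb.1 ha).2
          rw [← hg, Chars.isClassFunction_irr χ, hu χ z hz]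
        rw [hset, Finset.sum_insert, Finset.sum_union, Finset.sum_congr rfl (hconst s ha₀P),
          Finset.sum_congr rfl (hconst t hb₀P), Finset.sum_const, Finset.sum_const,
          horb s ha₀P ha₀1, horb t hb₀P hb₀1, hd]
        · simp only [nsmul_eq_mul]; push_cast; ring
        · exact Finset.disjoint_left.2 fun y h1 h2 =>
            hab₀ ((mem_orb.1 h1).2.trans (mem_orb.1 h2).2.symm)
        · simp only [Finset.mem_union, mem_orb, not_or, not_and]
          exact ⟨fun _ e => ha₀1 (isConj_one_left.1 e), fun _ e => hb₀1 (isConj_one_left.1 e)⟩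
      rw [hsum] at hm
      refine ⟨m, ?_⟩
      have : ((d χ + 4 * u χ s + 4 * u χ t : ℤ) : ℂ) = ((9 * (m : ℤ) : ℤ) : ℂ) := by
        push_cast at hm ⊢
        linear_combination (9 : ℂ) * hm
      exact_mod_cast this
    have hbound := two_class_bound (fun χ => u χ s) (fun χ => u χ t) d e (hue s ha₀P) (hue t hb₀P)
      hde hdpos
      (by have := horth s ha₀P s ha₀P ha₀1; rw [if_pos (IsConj.refl s)] at this; simpa [sq] using this)
      (by have := horth t hb₀P t hb₀P hb₀1; rw [if_pos (IsConj.refl t)] at this; simpa [sq] using this)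
      (by have := horth s ha₀P t hb₀P ha₀1; rwa [if_neg hab₀] at this)
      (fun χ => by have := hu3 χ s ha₀P; have := hu3 χ t hb₀P; omega) h9
      (hdeg s ha₀P ha₀1) (hdeg t hb₀P hb₀1)
    have hc := hcount s ha₀P s ha₀P t hb₀P ha₀1 hb₀1 ha₀1
    rw [hcard2] at hc
    have hG720 : Nat.card G ≤ 720 := by
      have hnn : (0 : ℚ) ≤ (Nat.card G : ℚ) := Nat.cast_nonneg _
      have hmul := mul_le_mul_of_nonneg_left hbound hnn
      have heq : ∑ χ, (u χ s : ℚ) * (u χ s : ℚ) * (u χ t : ℚ) / (d χ : ℚ) =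
          ∑ χ, (u χ s : ℚ) ^ 2 * (u χ t : ℚ) / (d χ : ℚ) :=
        Finset.sum_congr rfl fun χ _ => by ring
      rw [heq] at hc
      push_cast at hc
      exact_mod_cast (show (Nat.card G : ℚ) ≤ 720 by linarith)
    -- the number of Sylow subgroups
    have hn9 : Nat.card (Sylow 3 G) % 9 = 1 := by
      haveI := Fintype.ofFinite (Sylow 3 G)
      have hfix : ∀ Q : Sylow 3 G, (∃ x ∈ (P : Subgroup G), x ≠ 1 ∧ x • Q = Q) → Q = P := by
        rintro Q ⟨x, hxP, hx1, hxQ⟩
        have hxQ' : x ∈ (Q : Subgroup G) := by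
          have hxN : x ∈ Subgroup.normalizer ((Q : Subgroup G) : Set G) :=
            Sylow.smul_eq_iff_mem_normalizer.1 hxQ
          have hp : IsPGroup 3 (Subgroup.zpowers x) :=
            P.isPGroup'.to_le (Subgroup.zpowers_le.2 hxP)
          have := hp.inf_normalizer_sylow Q
          have hx : x ∈ Subgroup.zpowers x ⊓ Subgroup.normalizer ((Q : Subgroup G) : Set G) :=
            ⟨Subgroup.mem_zpowers x, hxN⟩
          exact ((SetLike.ext_iff.1 this x).1 hx).2
        obtain ⟨g, hg⟩ := MulAction.exists_smul_eq G P Q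
        have hgx : g⁻¹ * x * g ∈ (P : Subgroup G) := by
          rw [← hg, Sylow.coe_subgroup_smul, Subgroup.mem_pointwise_smul_iff_inv_smul_mem] at hxQ'
          simpa [MulAut.smul_def, MulAut.conj_apply, MulAut.inv_def, MulAut.conj_symm_apply] using hxQ'
        have hgN : g⁻¹ ∈ Subgroup.normalizer ((P : Subgroup G) : Set G) :=
          h.mem_normalizer hxP hx1 (by simpa using hgx)
        rw [← hg]
        exact Sylow.smul_eq_iff_mem_normalizer.2 (inv_mem_iff.1 hgN)
      let act : MulAction (P : Subgroup G) (Sylow 3 G) :=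
        MulAction.compHom _ (P : Subgroup G).subtype
      letI := act
      let orbit : Sylow 3 G → Finset (Sylow 3 G) := fun Q =>
        Finset.univ.image fun x : (P : Subgroup G) => (x : G) • Q
      have hcardo : ∀ Q, Q ≠ P → (orbit Q).card = 9 := fun Q hQ => by
        rw [Finset.card_image_of_injective _ ?_, Finset.card_univ, ← Nat.card_eq_fintype_card, hcard]
        intro x y hxy
        by_contra hne
        refine hQ (hfix Q ⟨((y⁻¹ * x : (P : Subgroup G)) : G), SetLike.coe_mem _, ?_, ?_⟩)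
        · exact fun e => hne ((inv_mul_eq_one.1 (Subtype.ext e)).symm)
        · rw [Subgroup.coe_mul, Subgroup.coe_inv, mul_smul]
          show (y : G)⁻¹ • ((x : G) • Q) = Q
          rw [show (x : G) • Q = (y : G) • Q from hxy, inv_smul_smul]
      have hPfix : ∀ x ∈ (P : Subgroup G), x • P = P := fun x hx =>
        Sylow.smul_eq_iff_mem_normalizer.2 (Subgroup.le_normalizer hx)
      have hstep : 9 ∣ ((Finset.univ : Finset (Sylow 3 G)).erase P).card := by
        rw [Finset.card_eq_sum_card_image orbit, Finset.sum_congr rfl (g := fun _ => 9),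
          Finset.sum_const, smul_eq_mul]
        · exact dvd_mul_left _ _
        · intro o ho
          obtain ⟨Q, hQ, rfl⟩ := Finset.mem_image.1 ho
          rw [← hcardo Q (Finset.ne_of_mem_erase hQ)]
          congr 1
          ext R
          simp only [Finset.mem_filter, Finset.mem_erase, Finset.mem_univ, and_true]
          constructor
          · rintro ⟨-, he⟩
            rw [← he]
            exact Finset.mem_image.2 ⟨1, Finset.mem_univ _, by simp⟩
          · intro hR
            obtain ⟨x, -, rfl⟩ := Finset.mem_image.1 hR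
            refine ⟨fun e => Finset.ne_of_mem_erase hQ ?_, ?_⟩
            · rw [← inv_smul_smul (x : G) Q, e, hPfix _ (inv_mem x.2)]
            · ext R
              simp only [orbit, Finset.mem_image, Finset.mem_univ, true_and]
              constructor
              · rintro ⟨z, rfl⟩; exact ⟨z * x, by rw [Subgroup.coe_mul, mul_smul]⟩
              · rintro ⟨z, rfl⟩
                exact ⟨z * x⁻¹, by rw [Subgroup.coe_mul, Subgroup.coe_inv, mul_smul, inv_smul_smul]⟩
      have hcs := Finset.card_erase_add_one (Finset.mem_univ P)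
      rw [Finset.card_univ] at hcs
      rw [Nat.card_eq_fintype_card]
      omega
    have hGn : Nat.card G = Nat.card (Sylow 3 G) * 36 := by
      rw [P.card_eq_index_normalizer]
      show Nat.card G = N.index * 36
      rw [← Subgroup.index_mul_card N, hk]
    have hncases : Nat.card (Sylow 3 G) = 1 ∨ Nat.card (Sylow 3 G) = 10 ∨ Nat.card (Sylow 3 G) = 19 := by
      omega
    rcases hncases with hn | hn | hn
    · exfalso
      have hidx : N.index = 1 := by rw [← hn, P.card_eq_index_normalizer]; rfl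
      rw [Subgroup.index_eq_one, hN, Subgroup.normalizer_eq_top_iff] at hidx
      rcases hidx.eq_bot_or_eq_top with hb | hb
      · rw [hb, Subgroup.card_bot] at hcard; omega
      · rw [hb, Subgroup.card_top, hGn, hn] at hcard; omega
    · exact S0497.result (by rw [hGn, hn])
    · exfalso
      haveI : Fact (Nat.Prime 19) := ⟨by norm_num⟩
      have hG : Nat.card G = 19 * 36 := by rw [hGn, hn]
      obtain ⟨Q⟩ : Nonempty (Sylow 19 G) := inferInstance
      have hQc : Nat.card (Q : Subgroup G) = 19 := by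
        rw [Q.card_eq_multiplicity, hG, Nat.factorization_mul (by norm_num) (by norm_num),
          Finsupp.add_apply, Nat.Prime.factorization_self (by norm_num),
          Nat.factorization_eq_zero_of_not_dvd (by norm_num : ¬ 19 ∣ 36)]
        norm_num
      have hidx : (Q : Subgroup G).index = 36 := by
        have := Subgroup.card_mul_index (Q : Subgroup G)
        rw [hQc, hG] at this
        omega
      have hdvd : Nat.card (Sylow 19 G) ∣ 36 := hidx ▸ Q.card_dvd_index
      have hmod := card_sylow_modEq_one 19 G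
      have hle := Nat.le_of_dvd (by norm_num) hdvd
      have h1 : Nat.card (Sylow 19 G) = 1 := by
        unfold Nat.ModEq at hmod
        interval_cases hx : Nat.card (Sylow 19 G) <;> omega
      haveI : Subsingleton (Sylow 19 G) := (Nat.card_eq_one_iff_unique.1 h1).1
      haveI : (Q : Subgroup G).Normal := Q.normal_of_subsingleton
      rcases (inferInstance : (Q : Subgroup G).Normal).eq_bot_or_eq_top with hb | hb
      · rw [hb, Subgroup.card_bot] at hQc; omega
      · rw [hb, Subgroup.card_top, hG] at hQc; omega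

end Cfsg.Agent.S3341
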