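import Cfsg.Statements.S3349
import Mathlib

set_option autoImplicit false
open Cfsg

namespace Cfsg.Agent.S3349

/-- Let Q be a finite extraspecial p-group and α an automorphism of Q fixing every element of some maximal abelian subgroup of Q. Then the order of α is a power of p. -/
theorem result {Q : Type*} [Group Q] [Finite Q]
    (p : ℕ) [Fact p.Prime] (hQ : Cfsg.IsExtraspecial p Q) (α : MulAut Q)
    (A : Subgroup Q) (hA : IsMulCommutative A) (hmax : ∀ B : Subgroup Q, A ≤ B → IsMulCommutative B → B = A)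
    (hfix : ∀ a ∈ A, α a = a) :
    ∃ k : ℕ, orderOf α = p ^ k := by
  have hp : p.Prime := Fact.out
  obtain ⟨⟨hQp, -, hcomm⟩, -⟩ := hQ
  have hC : ∀ x : Q, (∀ a ∈ A, x * a = a * x) → x ∈ A := by
    intro x hx
    have hB : IsMulCommutative (Subgroup.closure ((A : Set Q) ∪ {x})) := by
      refine Subgroup.isMulCommutative_closure fun a ha b hb => ?_
      rcases ha with ha | ha <;> rcases hb with hb | hb
      · exact congrArg Subtype.val (hA.is_comm.comm (⟨a, ha⟩ : A) ⟨b, hb⟩)
      · rw [Set.mem_singleton_iff.mp hb]; exact (hx a ha).symm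
      · rw [Set.mem_singleton_iff.mp ha]; exact hx b hb
      · rw [Set.mem_singleton_iff.mp ha, Set.mem_singleton_iff.mp hb]
    have := hmax _ (fun a ha => Subgroup.subset_closure (Or.inl ha)) hB
    rw [← this]
    exact Subgroup.subset_closure (Or.inr rfl)
  have hnorm : ∀ x : Q, ∀ a ∈ A, x * a * x⁻¹ ∈ A := by
    intro x a ha
    have hc : x * a * x⁻¹ * a⁻¹ ∈ commutator Q :=
      Subgroup.commutator_mem_commutator (g₁ := x) (g₂ := a) (Subgroup.mem_top x) (Subgroup.mem_top a)
    rw [hcomm] at hc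
    have hcA : x * a * x⁻¹ * a⁻¹ ∈ A := hC _ fun b _ => (Subgroup.mem_center_iff.mp hc b).symm
    simpa using A.mul_mem hcA ha
  have hkey : ∀ x : Q, x⁻¹ * α x ∈ A := by
    intro x
    apply hC
    intro a ha
    have h1 : α (x * a * x⁻¹) = x * a * x⁻¹ := hfix _ (hnorm x a ha)
    rw [map_mul, map_mul, map_inv, hfix a ha] at h1
    calc x⁻¹ * α x * a = x⁻¹ * (α x * a * (α x)⁻¹) * α x := by group
      _ = a * (x⁻¹ * α x) := by rw [h1]; group
  have hiter : ∀ (x : Q) (k : ℕ), (α ^ k) x = x * (x⁻¹ * α x) ^ k := by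
    intro x k
    induction k with
    | zero => simp
    | succ k ih =>
      rw [pow_succ', MulAut.mul_apply, ih, map_mul, map_pow, hfix _ (hkey x), pow_succ', ← mul_assoc, mul_inv_cancel_left]
  obtain ⟨j, hj⟩ := hQp.exists_card_eq
  have : α ^ (p ^ j) = 1 := MulEquiv.ext fun x => by
    rw [hiter, ← hj, pow_card_eq_one', mul_one]; rfl
  obtain ⟨i, -, hi⟩ := (Nat.dvd_prime_pow hp).mp (orderOf_dvd_of_pow_eq_one this)
  exact ⟨i, hi⟩

end Cfsg.Agent.S3349
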