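import Cfsg.Statements.S3370
import Cfsg.Agent.FGS2.PrimeOrdersSixty
import Cfsg.Agent.OddLocal.UniqueSubgroup
import Cfsg.Agent.Fusion.GL2Shapes

set_option autoImplicit false
open Cfsg

namespace Cfsg.Agent.S3370


/-- `q^n = 2^k + 1` forces `n = 1` or `q^n = 9`. -/
theorem odd_pow_eq {q n k : ℕ} (hq : 3 ≤ q) (hodd : Odd q) (hn : 1 ≤ n) (h : q ^ n = 2 ^ k + 1) :
    n = 1 ∨ (q = 3 ∧ n = 2) := by
  rcases Nat.even_or_odd n with ⟨r, hr⟩ | hno
  · right
    have hr1 : 1 ≤ r := by omega
    have hA : 3 ≤ q ^ r := le_trans hq (Nat.le_self_pow (by omega) q)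
    obtain ⟨A, hA'⟩ : ∃ A, q ^ r = A + 3 := Nat.exists_eq_add_of_le' hA
    have hp : (A + 2) * (A + 4) = 2 ^ k := by
      rw [hr, pow_add, hA'] at h
      nlinarith
    obtain ⟨i, -, hi⟩ := (Nat.dvd_prime_pow Nat.prime_two).1 (hp ▸ dvd_mul_right (A + 2) (A + 4))
    obtain ⟨j, -, hj⟩ := (Nat.dvd_prime_pow Nat.prime_two).1 (hp ▸ dvd_mul_left (A + 4) (A + 2))
    have hij : i ≤ 1 := by
      by_contra hc
      have h4 : 4 ∣ 2 ^ i := (show (4 : ℕ) = 2 ^ 2 from rfl) ▸ pow_dvd_pow 2 (by omega)
      have hlt : i < j := by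
        by_contra hc2
        have := Nat.pow_le_pow_right (show 1 ≤ 2 by norm_num) (show j ≤ i by omega)
        omega
      have h4' : 4 ∣ 2 ^ j := (show (4 : ℕ) = 2 ^ 2 from rfl) ▸ pow_dvd_pow 2 (by omega)
      omega
    have h2i : 2 ^ i ≤ 2 := by
      calc 2 ^ i ≤ 2 ^ 1 := Nat.pow_le_pow_right (by norm_num) hij
        _ = 2 := rfl
    have hA0 : A = 0 := by omega
    subst hA0
    rcases Nat.lt_or_ge r 2 with h2 | h2
    · obtain rfl : r = 1 := by omega
      exact ⟨by simpa using hA', by omega⟩
    · have := Nat.pow_le_pow_right (show 1 ≤ q by omega) h2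
      nlinarith
  · left
    obtain ⟨S, hS⟩ : ∃ S : ℕ, (∑ i ∈ Finset.range n, q ^ i) = S := ⟨_, rfl⟩
    have hSodd : Odd S := by
      rw [← hS, Finset.odd_sum_iff_odd_card_odd]
      rwa [Finset.filter_true_of_mem fun i _ => hodd.pow, Finset.card_range]
    have hgeom : S * (q - 1) + 1 = q ^ n := by
      have := geom_sum_mul_add (q - 1) n
      rw [show q - 1 + 1 = q by omega] at this
      rw [← hS]; exact this
    obtain ⟨j, -, hj⟩ := (Nat.dvd_prime_pow Nat.prime_two).1
      (show S ∣ 2 ^ k from ⟨q - 1, by omega⟩)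
    have hS1 : S = 1 := by
      rcases Nat.eq_zero_or_pos j with rfl | hj0
      · simpa using hj
      · exact absurd hSodd (by rw [hj, Nat.not_odd_iff_even, Nat.even_pow]; exact ⟨even_two, by omega⟩)
    by_contra hn1
    have : q ^ 0 + q ^ 1 ≤ S := by
      rw [← hS]
      calc q ^ 0 + q ^ 1 = ∑ i ∈ Finset.range 2, q ^ i := by simp [Finset.sum_range_succ]
        _ ≤ _ := Finset.sum_le_sum_of_subset (by intro i hi; simp at hi ⊢; omega)
    simp at this
    omega

theorem isQuasiDihedral_congr {A B : Type*} [Group A] [Group B] (e : A ≃* B)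
    (h : Cfsg.IsQuasiDihedral A) : Cfsg.IsQuasiDihedral B := by
  obtain ⟨n, hn, hc, x, y, hx, hy, hxy⟩ := h
  exact ⟨n, hn, by rw [← Nat.card_congr e.toEquiv, hc], e x, e y, by rw [e.orderOf_eq, hx],
    by rw [e.orderOf_eq, hy], by rw [← map_inv, ← map_mul, ← map_mul, hxy, map_pow]⟩


/-- Let q be a prime, V a non-trivial finite vector space over the field with q elements, and G a non-trivial finite p-group (p prime) acting faithfully and linearly on V and transitively on the non-zero vectors. Then either q = 2 and G has prime order p = |V| − 1; or p = 2, V has q elements with q = 2^m + 1 and G is cyclic of order 2^m; or p = 2, q = 3, V has 9 elements and G is cyclic of order 8, quaternion of order 8, or semidihedral of order 16. -/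
theorem result (q : ℕ) [Fact q.Prime] {V : Type*} [AddCommGroup V] [Module (ZMod q) V] [Finite V] [Nontrivial V]
    {G : Type*} [Group G] [Finite G] [Nontrivial G] (p : ℕ) [Fact p.Prime] (hG : IsPGroup p G)
    (ρ : G →* (V ≃ₗ[ZMod q] V)) (hρ : Function.Injective ρ)
    (htrans : ∀ v w : V, v ≠ 0 → w ≠ 0 → ∃ g : G, ρ g v = w) :
    (q = 2 ∧ p = Nat.card V - 1 ∧ Nat.card G = p) ∨
    (p = 2 ∧ Nat.card V = q ∧ (∃ m : ℕ, q = 2 ^ m + 1 ∧ Nat.card G = 2 ^ m) ∧ IsCyclic G) ∨
    (p = 2 ∧ q = 3 ∧ Nat.card V = 9 ∧
      ((IsCyclic G ∧ Nat.card G = 8) ∨ Nonempty (G ≃* QuaternionGroup 2) ∨ (Cfsg.IsQuasiDihedral G ∧ Nat.card G = 16))) := by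
  classical
  let m : MulAction G {v : V // v ≠ 0} :=
    { smul := fun g v => ⟨ρ g v.1, fun h => v.2 ((ρ g).injective (h.trans (map_zero _).symm))⟩
      one_smul := fun v => Subtype.ext (by show ρ 1 v.1 = v.1; rw [map_one]; rfl)
      mul_smul := fun g h v => Subtype.ext (by show ρ (g * h) v.1 = ρ g (ρ h v.1); rw [map_mul]; rfl) }
  letI := m
  haveI : MulAction.IsPretransitive G {v : V // v ≠ 0} :=
    ⟨fun a b => (htrans a b a.2 b.2).imp fun g hg => Subtype.ext hg⟩
  obtain ⟨v0, hv0⟩ := exists_ne (0 : V)
  let a0 : {v : V // v ≠ 0} := ⟨v0, hv0⟩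
  have hNpos := Nat.card_pos (α := V)
  have hidx : (MulAction.stabilizer G a0).index = Nat.card V - 1 := by
    rw [MulAction.index_stabilizer_of_transitive]
    let := Fintype.ofFinite V
    rw [Nat.card_eq_fintype_card, Nat.card_eq_fintype_card, Fintype.card_subtype_compl,
      Fintype.card_subtype_eq]
  have hdiag : ∀ g : G, (∀ v : V, ρ g v = v) → g = 1 := fun g hg =>
    hρ (by rw [map_one]; exact LinearEquiv.ext hg)
  have hfree : ∀ z ∈ Subgroup.center G, ∀ v : V, v ≠ 0 → ρ z v = v → z = 1 := by
    intro z hz v hv hzv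
    refine hdiag z fun w => ?_
    by_cases hw : w = 0
    · rw [hw, map_zero]
    obtain ⟨g, rfl⟩ := htrans v w hv hw
    show (ρ z * ρ g) v = ρ g v
    rw [← map_mul, ← Subgroup.mem_center_iff.1 hz g, map_mul]
    show ρ g (ρ z v) = ρ g v
    rw [hzv]
  obtain ⟨a, ha⟩ := IsPGroup.iff_card.1 hG
  obtain ⟨k, -, hk⟩ := (Nat.dvd_prime_pow (Fact.out : p.Prime)).1
    (ha ▸ Subgroup.index_dvd_card (MulAction.stabilizer G a0))
  rw [hidx] at hk
  have hk0 : k ≠ 0 := by
    rintro rfl
    obtain ⟨g, hg⟩ := exists_ne (1 : G)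
    have h2 : Nat.card V = 2 := by rw [pow_zero] at hk; omega
    refine hg (hdiag g fun w => ?_)
    by_cases hw : w = 0
    · rw [hw, map_zero]
    have hs : ∀ x : V, x ≠ 0 → x = v0 := fun x hx => by
      by_contra hne
      let := Fintype.ofFinite V
      have : ({0, v0, x} : Finset V).card ≤ Nat.card V := by
        rw [Nat.card_eq_fintype_card]; exact Finset.card_le_univ _
      rw [Finset.card_insert_of_notMem (by simp [Ne.symm hv0, Ne.symm hx]),
        Finset.card_pair (Ne.symm hne), h2] at this
      omega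
    rw [hs w hw, hs (ρ g v0) fun h => hv0 ((ρ g).injective (h.trans (map_zero _).symm))]
  set n := Module.finrank (ZMod q) V with hn
  have hcard : Nat.card V = q ^ n := by
    rw [Module.natCard_eq_pow_finrank (K := ZMod q), Nat.card_zmod]
  have hn0 : 1 ≤ n := Module.finrank_pos
  have hq := (Fact.out : q.Prime)
  have hp := (Fact.out : p.Prime)
  rcases hq.eq_two_or_odd' with rfl | hqo
  · left
    have hk1 : k = 1 := Cfsg.Agent.FGS2.PrimeOrdersSixty.two_pow_sub_one_prime_pow hp.two_le (by omega)
      (a := n) (by omega)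
    subst hk1
    rw [pow_one] at hk
    refine ⟨rfl, hk.symm, ?_⟩
    obtain ⟨z, hz⟩ := exists_prime_orderOf_dvd_card' (G := Subgroup.center G) p
      ((IsPGroup.iff_card.1 (hG.to_subgroup _)).elim fun j hj => hj ▸ dvd_pow_self p (fun h0 => by
        have : Nontrivial (Subgroup.center G) := hG.center_nontrivial
        have := Finite.one_lt_card (α := Subgroup.center G)
        rw [hj, h0, pow_zero] at this
        omega))
    rw [← Subgroup.orderOf_coe] at hz
    have hdisj : Subgroup.zpowers (z : G) ⊓ MulAction.stabilizer G a0 = ⊥ := by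
      rw [eq_bot_iff]
      rintro x ⟨hx, hxs⟩
      exact hfree x ((Subgroup.zpowers_le.2 z.2) hx) v0 hv0 (congrArg Subtype.val hxs)
    set S := MulAction.stabilizer G a0 with hS
    have hSn : S.Normal := by
      refine Subgroup.normal_of_index_eq_minFac_card ?_
      rw [hidx, hk, ha, Nat.pow_minFac, hp.minFac_eq]
      rintro rfl
      rw [pow_zero] at ha
      exact absurd ha Finite.one_lt_card.ne'
    have hS1 : S = ⊥ := by
      rw [eq_bot_iff]
      intro x hx
      refine hdiag x fun w => ?_
      by_cases hw : w = 0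
      · rw [hw, map_zero]
      obtain ⟨g, hg⟩ := MulAction.exists_smul_eq G a0 (⟨w, hw⟩ : {v : V // v ≠ 0})
      have h1 : (g⁻¹ * x * g) • a0 = a0 := by
        have h2 := hSn.conj_mem x hx g⁻¹
        rwa [inv_inv] at h2
      rw [mul_smul, mul_smul, inv_smul_eq_iff, hg] at h1
      exact congrArg Subtype.val h1
    have := S.card_mul_index
    rw [hS1, Subgroup.card_bot, one_mul, ← hS1, hidx, hk] at this
    exact this.symm
  · have hq3 : 3 ≤ q := by obtain ⟨j, rfl⟩ := hqo; have := hq.two_le; omega
    obtain rfl : p = 2 := by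
      by_contra hp2
      have h1 : Odd (q ^ n) := hqo.pow
      have h2 : Odd (p ^ k) := (hp.odd_of_ne_two hp2).pow
      rw [← hk, hcard] at h2
      obtain ⟨i, hi⟩ := h1
      obtain ⟨j, hj⟩ := h2
      omega
    right
    rcases odd_pow_eq hq3 hqo hn0 (k := k) (by omega) with h1 | ⟨h1, h2⟩
    · left
      have hline : ∀ w : V, ∃ c : ZMod q, c • v0 = w :=
        (finrank_eq_one_iff_of_nonzero' v0 hv0).1 (hn ▸ h1)
      choose c hc using fun g => hline (ρ g v0)
      have hlin : ∀ (g : G) (x : ZMod q), ρ g (x • v0) = (x * c g) • v0 := fun g x => by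
        rw [map_smul, ← hc, smul_smul]
      have hinj : ∀ g : G, c g = 1 → g = 1 := fun g hg => hdiag g fun w => by
        obtain ⟨x, rfl⟩ := hline w
        rw [hlin, hg, mul_one]
      let φ : G →* ZMod q :=
        { toFun := c
          map_one' := smul_left_injective (ZMod q) hv0 (by
            show c 1 • v0 = (1 : ZMod q) • v0
            rw [hc, map_one, one_smul]; rfl)
          map_mul' := fun g h => smul_left_injective (ZMod q) hv0 (by
            show c (g * h) • v0 = (c g * c h) • v0
            rw [hc, map_mul, mul_comm, ← hlin, hc]; rfl) }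
      have hφ : Function.Injective φ.toHomUnits := by
        rw [injective_iff_map_eq_one]
        intro g hg
        exact hinj g (congrArg Units.val hg)
      have hcyc : IsCyclic G := isCyclic_of_injective_ringHom φ (fun g h e => hφ (Units.ext e))
      have hS1 : MulAction.stabilizer G a0 = ⊥ := by
        rw [eq_bot_iff]
        intro g hg
        refine hinj g (smul_left_injective (ZMod q) hv0 ?_)
        show c g • v0 = (1 : ZMod q) • v0
        rw [hc, one_smul]
        exact congrArg Subtype.val hg
      have := (MulAction.stabilizer G a0).card_mul_index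
      rw [hS1, Subgroup.card_bot, one_mul, ← hS1, hidx, hk] at this
      rw [h1, pow_one] at hcard
      exact ⟨rfl, hcard, ⟨k, by omega, this.symm⟩, hcyc⟩
    · right
      subst h1
      have h9 : Nat.card V = 9 := by rw [hcard, h2]; norm_num
      refine ⟨rfl, rfl, h9, ?_⟩
      let b : Module.Basis (Fin 2) (ZMod 3) V := (Module.finBasisOfFinrankEq (ZMod 3) V (hn ▸ h2))
      let f : G →* GL (Fin 2) (ZMod 3) :=
        (Units.map (LinearMap.toMatrixAlgEquiv b).toMonoidHom).comp
          ((LinearMap.GeneralLinearGroup.generalLinearEquiv (ZMod 3) V).symm.toMonoidHom.comp ρ)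
      have hf : Function.Injective f := by
        intro x y e
        apply hρ
        apply (LinearMap.GeneralLinearGroup.generalLinearEquiv (ZMod 3) V).symm.injective
        exact Units.ext ((LinearMap.toMatrixAlgEquiv b).injective (congrArg Units.val e))
      have h48 : Nat.card (GL (Fin 2) (ZMod 3)) = 48 := by
        rw [Matrix.card_GL_field]
        simp [Fin.prod_univ_two]
      have hd48 : Nat.card G ∣ 48 := h48 ▸ Subgroup.card_dvd_of_injective f hf
      have hd8 : 8 ∣ Nat.card G := by
        have := Subgroup.index_dvd_card (MulAction.stabilizer G a0)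
        rwa [hidx, h9] at this
      have ha4 : a ≤ 4 := by
        by_contra hc
        have h32 : 2 ^ 5 ∣ 2 ^ a := pow_dvd_pow 2 (by omega)
        rw [ha] at hd48
        exact absurd (h32.trans hd48) (by norm_num)
      have ha3 : 3 ≤ a := by
        by_contra hc
        have := Nat.le_of_dvd (by positivity) (ha ▸ hd8)
        interval_cases a <;> simp at this
      rcases (show a = 3 ∨ a = 4 by omega) with rfl | rfl
      · have hS1 : MulAction.stabilizer G a0 = ⊥ := by
          have h3 := (MulAction.stabilizer G a0).card_mul_index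
          rw [hidx, h9, ha] at h3
          exact Subgroup.card_eq_one.1 (by omega)
        have hfix : ∀ (g : G) (v : V), v ≠ 0 → ρ g v = v → g = 1 := by
          intro g v hv hgv
          obtain ⟨x, hx⟩ := htrans v0 v hv0 hv
          have h4 : x⁻¹ * g * x ∈ MulAction.stabilizer G a0 := by
            apply Subtype.ext
            show ρ (x⁻¹ * g * x) v0 = v0
            rw [map_mul, map_mul]
            show ρ x⁻¹ (ρ g (ρ x v0)) = v0
            rw [hx, hgv, ← hx]
            show (ρ x⁻¹ * ρ x) v0 = v0
            rw [← map_mul, inv_mul_cancel, map_one]; rfl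
          rw [hS1, Subgroup.mem_bot] at h4
          calc g = x * (x⁻¹ * g * x) * x⁻¹ := by group
            _ = 1 := by rw [h4]; group
        have hneg : ∀ t : G, orderOf t = 2 → ∀ v : V, ρ t v = -v := by
          intro t ht v
          have h5 : ρ t (ρ t v + v) = ρ t v + v := by
            rw [map_add]
            have h6 : ρ t (ρ t v) = v := by
              show (ρ t * ρ t) v = v
              rw [← map_mul, ← sq, ← ht, pow_orderOf_eq_one, map_one]; rfl
            rw [h6, add_comm]
          by_contra hne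
          have h7 := hfix t _ (fun e => hne (eq_neg_of_add_eq_zero_left e)) h5
          rw [h7, orderOf_one] at ht
          omega
        have huniq : ∀ H K : Subgroup G, Nat.card H = 2 → Nat.card K = 2 → H = K := by
          have hkey : ∀ H : Subgroup G, Nat.card H = 2 → ∀ K : Subgroup G, Nat.card K = 2 → H ≤ K := by
            intro H hH K hK x hx
            by_cases hx1 : x = 1
            · rw [hx1]; exact one_mem _
            obtain ⟨y, hy⟩ := exists_prime_orderOf_dvd_card' (G := K) 2 (hK ▸ dvd_rfl)
            rw [← Subgroup.orderOf_coe] at hy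
            have hxo : orderOf x = 2 := by
              have h8 := orderOf_dvd_natCard (⟨x, hx⟩ : H)
              rw [← Subgroup.orderOf_coe, hH] at h8
              exact ((Nat.dvd_prime Nat.prime_two).1 h8).resolve_left fun e => hx1 (orderOf_eq_one_iff.1 e)
            have hxy : x = (y : G) := hρ (LinearEquiv.ext fun v => by
              rw [hneg x hxo, hneg (y : G) hy])
            rw [hxy]; exact y.2
          exact fun H K hH hK => le_antisymm (hkey H hH K hK) (hkey K hK H hH)
        rcases Cfsg.Agent.OddLocal.isCyclic_or_quaternion hG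
            (Cfsg.Agent.OddLocal.UniqueOrderP.of_card huniq) with hc | ⟨-, j, ⟨e⟩⟩
        · exact Or.inl ⟨hc, by rw [ha]; norm_num⟩
        · refine Or.inr (Or.inl ?_)
          haveI : NeZero (2 ^ j) := ⟨pow_ne_zero _ two_ne_zero⟩
          have h8 := Nat.card_congr e.toEquiv
          rw [ha, Nat.card_eq_fintype_card, QuaternionGroup.card] at h8
          have hj : j = 1 := Nat.pow_right_injective le_rfl (by
            show 2 ^ j = 2 ^ 1
            omega)
          subst hj
          exact ⟨e⟩
      · refine Or.inr (Or.inr ⟨?_, by rw [ha]; norm_num⟩)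
        have h16 : Nat.card f.range = 16 := by
          rw [← Nat.card_congr (MonoidHom.ofInjective hf).toEquiv, ha]; norm_num
        obtain ⟨P, hP⟩ := (IsPGroup.of_card (p := 2) (n := 4) (G := f.range) (by rw [h16]; norm_num)).exists_le_sylow
        have hPe : f.range = (P : Subgroup (GL (Fin 2) (ZMod 3))) := by
          refine Subgroup.eq_of_le_of_card_ge hP ?_
          obtain ⟨j, hj⟩ := IsPGroup.iff_card.1 P.2
          have hd : Nat.card (P : Subgroup (GL (Fin 2) (ZMod 3))) ∣ 48 := h48 ▸ Subgroup.card_subgroup_dvd_card _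
          rw [hj] at hd ⊢
          rw [h16]
          have hj4 : j ≤ 4 := by
            by_contra hc
            exact absurd ((pow_dvd_pow 2 (show 5 ≤ j by omega)).trans hd) (by norm_num)
          calc 2 ^ j ≤ 2 ^ 4 := Nat.pow_le_pow_right (by norm_num) hj4
            _ = 16 := rfl
        exact isQuasiDihedral_congr ((MonoidHom.ofInjective hf).trans (MulEquiv.subgroupCongr hPe)).symm
          (Cfsg.Agent.Fusion.GL2Two.quasiDihedral_GL2 (by simp) P)

end Cfsg.Agent.S3370
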