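import Cfsg.Statements.S3376
import Cfsg.Agent.OddLocal.NilBasics

set_option autoImplicit false
open Cfsg

namespace Cfsg.Agent.S3376

/-- The cycle type of a fixed point free permutation of order three of nine points. -/
theorem cycleType_nine {σ : Equiv.Perm (Fin 9)} (h3 : σ ^ 3 = 1) (hfix : ∀ i, σ i ≠ i) :
    σ.cycleType = Multiset.replicate 3 3 := by
  have ho : orderOf σ = 3 := by
    haveI : Fact (Nat.Prime 3) := ⟨Nat.prime_three⟩
    exact orderOf_eq_prime h3 (fun h => hfix 0 (by rw [h]; rfl))
  obtain ⟨n, hn⟩ := Equiv.Perm.cycleType_prime_order (ho.symm ▸ Nat.prime_three : (orderOf σ).Prime)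
  rw [ho] at hn
  have hs : σ.support = Finset.univ := Finset.eq_univ_of_forall fun i => Equiv.Perm.mem_support.2 (hfix i)
  have h9 := Equiv.Perm.sum_cycleType σ
  rw [hn, hs, Multiset.sum_replicate, Finset.card_univ, Fintype.card_fin, smul_eq_mul] at h9
  rw [hn, show n + 1 = 3 by omega]

theorem target_card : Nat.card (Subgroup.centralizer ({Equiv.swap (0 : Fin 9) 1 * Equiv.swap 1 2 * Equiv.swap 3 4 * Equiv.swap 4 5 * Equiv.swap 6 7 * Equiv.swap 7 8} : Set (Equiv.Perm (Fin 9)))) = 162 := by
  rw [Equiv.Perm.nat_card_centralizer, cycleType_nine (by decide) (by decide), Fintype.card_fin]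
  decide

/-- The order of a subgroup generated by a commuting pair. -/
theorem card_closure_pair_le {G : Type*} [Group G] [Finite G] {a b : G} (hab : Commute a b) :
    Nat.card (Subgroup.closure ({a, b} : Set G)) ≤ orderOf a * orderOf b := by
  have hle : ∀ x ∈ Subgroup.closure ({a, b} : Set G), ∃ i j : ℤ, a ^ i * b ^ j = x := by
    intro x hx
    induction hx using Subgroup.closure_induction with
    | mem y hy =>
      rcases hy with rfl | rfl
      exacts [⟨1, 0, by simp⟩, ⟨0, 1, by simp⟩]
    | one => exact ⟨0, 0, by simp⟩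
    | mul x y _ _ hx hy =>
      obtain ⟨i, j, rfl⟩ := hx
      obtain ⟨i', j', rfl⟩ := hy
      exact ⟨i + i', j + j', by rw [zpow_add, zpow_add, mul_assoc, mul_assoc, ← mul_assoc (a ^ i') (b ^ j),
        (hab.zpow_zpow i' j).eq, mul_assoc]⟩
    | inv x _ hx =>
      obtain ⟨i, j, rfl⟩ := hx
      exact ⟨-i, -j, by rw [mul_inv_rev, zpow_neg, zpow_neg, ((hab.zpow_zpow i j).inv_inv).eq]⟩
  let f : Subgroup.zpowers a × Subgroup.zpowers b → G := fun x => (x.1 : G) * (x.2 : G)
  calc Nat.card (Subgroup.closure ({a, b} : Set G))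
      ≤ Nat.card (Set.range f) := Nat.card_mono (Set.finite_range f) (fun x hx => by
        obtain ⟨i, j, rfl⟩ := hle x hx
        exact ⟨(⟨a ^ i, i, rfl⟩, ⟨b ^ j, j, rfl⟩), rfl⟩)
    _ ≤ Nat.card (Subgroup.zpowers a × Subgroup.zpowers b) := Finite.card_range_le f
    _ = _ := by rw [Nat.card_prod, Nat.card_zpowers, Nat.card_zpowers]


/-- Let G be a group of order 162 = 3⁴·2 with Sylow 3-subgroup S and Sylow 2-subgroup T, having an elementary abelian normal subgroup J of order 27, such that Z = Z(S) has order 3, Z centralizes T, and C_S(T) ≠ S. Then G is isomorphic to the centralizer in Sym(9) of a product of three disjoint 3-cycles. -/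
theorem result {G : Type*} [Group G] [Finite G] (hG : Nat.card G = 162)
    (S : Sylow 3 G) (T : Sylow 2 G) (J : Subgroup G) [hJn : J.Normal] (hJcomm : IsMulCommutative J)
    (hJexp : ∀ a ∈ J, a ^ 3 = 1) (hJcard : Nat.card J = 27)
    (Z : Subgroup G) (hZ : Z = (S : Subgroup G) ⊓ Subgroup.centralizer ((S : Subgroup G) : Set G)) (hZcard : Nat.card Z = 3)
    (hZT : Z ≤ Subgroup.centralizer ((T : Subgroup G) : Set G))
    (hST : (S : Subgroup G) ⊓ Subgroup.centralizer ((T : Subgroup G) : Set G) ≠ S) :
    Nonempty (G ≃* Subgroup.centralizer ({Equiv.swap (0 : Fin 9) 1 * Equiv.swap 1 2 * Equiv.swap 3 4 * Equiv.swap 4 5 * Equiv.swap 6 7 * Equiv.swap 7 8} : Set (Equiv.Perm (Fin 9)))) := by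
  classical
  haveI : Fact (Nat.Prime 3) := ⟨Nat.prime_three⟩
  haveI : Fact (Nat.Prime 2) := ⟨Nat.prime_two⟩
  have hS81 : Nat.card (S : Subgroup G) = 81 := by
    rw [S.card_eq_multiplicity, hG, show (162 : ℕ) = 3 ^ 4 * 2 from rfl,
      Nat.factorization_mul (by norm_num) (by norm_num), Nat.Prime.factorization_pow Nat.prime_three,
      Nat.Prime.factorization Nat.prime_two]
    simp
  have hT2 : Nat.card (T : Subgroup G) = 2 := by
    rw [T.card_eq_multiplicity, hG, show (162 : ℕ) = 3 ^ 4 * 2 from rfl,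
      Nat.factorization_mul (by norm_num) (by norm_num), Nat.Prime.factorization_pow Nat.prime_three,
      Nat.Prime.factorization Nat.prime_two]
    simp
  have hSi : (S : Subgroup G).index = 2 := by
    have := (S : Subgroup G).card_mul_index
    rw [hS81, hG] at this
    omega
  haveI hSn : (S : Subgroup G).Normal := Subgroup.normal_of_index_eq_two hSi
  obtain ⟨⟨t, ht⟩, ht2⟩ := exists_prime_orderOf_dvd_card' (G := (T : Subgroup G)) 2 (by rw [hT2])
  rw [Subgroup.orderOf_mk] at ht2
  have htt : t * t = 1 := by rw [← sq, ← ht2, pow_orderOf_eq_one]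
  have htz : Subgroup.zpowers t = (T : Subgroup G) :=
    Subgroup.eq_of_le_of_card_ge (Subgroup.zpowers_le.2 ht) (by rw [Nat.card_zpowers, ht2, hT2])
  obtain ⟨⟨z, hz⟩, hz3⟩ := exists_prime_orderOf_dvd_card' (G := Z) 3 (by rw [hZcard])
  rw [Subgroup.orderOf_mk] at hz3
  have hzZ : Subgroup.zpowers z = Z :=
    Subgroup.eq_of_le_of_card_ge (Subgroup.zpowers_le.2 hz) (by rw [Nat.card_zpowers, hz3, hZcard])
  have hz' : z ∈ (S : Subgroup G) ∧ z ∈ Subgroup.centralizer ((S : Subgroup G) : Set G) := by
    have h := hz; rw [hZ] at h; exact h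
  have htop : ∀ H : Subgroup G, (S : Subgroup G) ≤ H → t ∈ H → H = ⊤ := by
    intro H h1 h2
    apply Subgroup.eq_top_of_card_eq
    have e1 := Subgroup.card_dvd_of_le h1
    have e2 : 2 ∣ Nat.card H := by
      have h := orderOf_dvd_natCard (⟨t, h2⟩ : H)
      rwa [Subgroup.orderOf_mk, ht2] at h
    rw [hS81] at e1
    exact Nat.dvd_antisymm (Subgroup.card_subgroup_dvd_card H)
      (hG ▸ (Nat.Coprime.mul_dvd_of_dvd_of_dvd (by norm_num : Nat.Coprime 81 2) e1 e2))
  have hzc : z ∈ Subgroup.center G := by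
    have hall : Subgroup.centralizer ((Subgroup.zpowers z : Subgroup G) : Set G) = ⊤ := by
      refine htop _ (fun s hs => ?_) ?_
      · exact Subgroup.mem_centralizer_iff.2 fun y hy =>
          (Subgroup.mem_centralizer_iff.1 ((Subgroup.zpowers_le.2 hz'.2) hy) s hs).symm
      · exact Subgroup.mem_centralizer_iff.2 fun y hy =>
          (Subgroup.mem_centralizer_iff.1 (hZT (hzZ ▸ hy)) t ht).symm
    exact Subgroup.centralizer_eq_top_iff_subset.1 hall (Subgroup.mem_zpowers z)
  have hJS : J ≤ (S : Subgroup G) := by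
    intro x hx
    by_contra h
    have h1 := Subgroup.mul_self_mem_of_index_two hSi x
    exact h (by
      have e : x = (x * x)⁻¹ := eq_inv_of_mul_eq_one_left (by rw [← mul_assoc, ← sq, ← pow_succ, hJexp x hx])
      rw [e]; exact inv_mem h1)
  have hzJ : z ∈ J := by
    haveI : Nontrivial J := Finite.one_lt_card_iff_nontrivial.1 (by rw [hJcard]; norm_num)
    haveI : Group.IsNilpotent (S : Subgroup G) := S.isPGroup'.isNilpotent
    haveI : (J.subgroupOf (S : Subgroup G)).Normal := Subgroup.normal_subgroupOf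
    obtain ⟨w, hw, hw1, hwc⟩ := Cfsg.Agent.OddLocal.exists_ne_one_mem_center_of_normal
      (J.subgroupOf (S : Subgroup G)) (fun h => by
        rw [Subgroup.subgroupOf_eq_bot, disjoint_iff, inf_eq_left.2 hJS] at h
        rw [h, Subgroup.card_bot] at hJcard
        norm_num at hJcard)
    have hwZ : (w : G) ∈ Z := by
      rw [hZ]
      exact ⟨w.2, Subgroup.mem_centralizer_iff.2 fun s hs => congrArg Subtype.val (Subgroup.mem_center_iff.1 hwc ⟨s, hs⟩)⟩
    have : Subgroup.zpowers (w : G) = Z := Subgroup.eq_of_le_of_card_ge (Subgroup.zpowers_le.2 hwZ) (by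
      have hd := orderOf_dvd_natCard (⟨(w : G), hwZ⟩ : Z)
      rw [Subgroup.orderOf_mk, hZcard] at hd
      rcases (Nat.dvd_prime Nat.prime_three).1 hd with e | e
      · exact absurd (Subtype.ext (orderOf_eq_one_iff.1 e)) hw1
      · rw [Nat.card_zpowers, e, hZcard])
    exact (this ▸ Subgroup.zpowers_le.2 (show (w : G) ∈ J from hw)) hz
  have hcm : ∀ a ∈ J, ∀ b ∈ J, Commute a b := fun a ha b hb =>
    congrArg Subtype.val (mul_comm' (⟨a, ha⟩ : J) ⟨b, hb⟩)
  have ho3 : ∀ a ∈ J, orderOf a ∣ 3 := fun a ha => orderOf_dvd_of_pow_eq_one (hJexp a ha)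
  -- eigenvectors of `t` generate `J`
  have hcl : ∀ a b : G, a ∈ J → b ∈ J → Nat.card (Subgroup.closure ({a, b} : Set G)) ≤ 9 := by
    intro a b ha hb
    refine (card_closure_pair_le (hcm a ha b hb)).trans ?_
    have h1 := Nat.le_of_dvd (by norm_num) (ho3 a ha)
    have h2 := Nat.le_of_dvd (by norm_num) (ho3 b hb)
    exact le_trans (Nat.mul_le_mul h1 h2) (by norm_num)
  have heig : ∀ P : Subgroup G, Nat.card P < 27 → ∃ a ∈ J, a ∉ P ∧ (t * a * t = a ∨ t * a * t = a⁻¹) := by
    intro P hP
    by_contra hcon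
    push Not at hcon
    have hle : J ≤ P := by
      intro x hx
      have hx' : t * x * t ∈ J := by
        have h := hJn.conj_mem x hx t
        rwa [inv_eq_of_mul_eq_one_right htt] at h
      have hc := hcm x hx _ hx'
      have hinv : t * x⁻¹ * t = (t * x * t)⁻¹ := by
        rw [mul_inv_rev, mul_inv_rev, inv_eq_of_mul_eq_one_right htt, mul_assoc]
      have h1 : x * (t * x * t) ∈ P := by
        by_contra h
        refine (hcon _ (mul_mem hx hx') h).1 ?_
        rw [show t * (x * (t * x * t)) * t = t * x * t * (x * (t * t)) by group, htt, mul_one]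
        exact hc.symm
      have h2 : x * (t * x * t)⁻¹ ∈ P := by
        by_contra h
        refine (hcon _ (mul_mem hx (inv_mem hx')) h).2 ?_
        rw [← hinv, show t * (x * (t * x⁻¹ * t)) * t = t * x * t * (x⁻¹ * (t * t)) by group, htt, mul_one,
          mul_inv_rev, hinv, inv_inv]
      have e : x * x ∈ P := by
        have := mul_mem h1 h2
        rwa [mul_assoc, ← mul_assoc (t * x * t) x, ← hc.eq, mul_assoc, mul_inv_cancel, mul_one] at this
      have := inv_mem e
      rwa [← eq_inv_of_mul_eq_one_left (show x * (x * x) = 1 by rw [← mul_assoc, ← sq, ← pow_succ, hJexp x hx])] at this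
    have := Subgroup.card_le_of_le hle
    omega
  obtain ⟨a, haJ, haP, hat⟩ := heig (Subgroup.zpowers z) (by rw [Nat.card_zpowers, hz3]; norm_num)
  obtain ⟨b, hbJ, hbP, hbt⟩ := heig (Subgroup.closure {z, a}) (lt_of_le_of_lt (hcl z a hzJ haJ) (by norm_num))
  set L := Subgroup.closure ({a, b} : Set G) with hL
  have hLJ : L ≤ J := (Subgroup.closure_le _).2 (by rintro y (rfl | rfl) <;> assumption)
  have hpow3 : ∀ P : Subgroup G, P ≤ J → ∃ k, Nat.card P = 3 ^ k := fun P hP => by
    obtain ⟨k, -, hk⟩ := (Nat.dvd_prime_pow Nat.prime_three).1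
      (show Nat.card P ∣ 3 ^ 3 by have h := Subgroup.card_dvd_of_le hP; rw [hJcard] at h; exact h)
    exact ⟨k, hk⟩
  have hge : ∀ c d : G, c ∈ J → d ∈ J → c ≠ 1 → d ∉ Subgroup.zpowers c →
      9 ≤ Nat.card (Subgroup.closure ({c, d} : Set G)) := by
    intro c d hc hd hc1 hdc
    obtain ⟨k, hk⟩ := hpow3 (Subgroup.closure {c, d}) ((Subgroup.closure_le _).2 (by rintro y (rfl | rfl) <;> assumption))
    by_contra h
    have hcs : Subgroup.zpowers c ≤ Subgroup.closure ({c, d} : Set G) :=
      Subgroup.zpowers_le.2 (Subgroup.subset_closure (by simp))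
    have h3 : orderOf c = 3 := orderOf_eq_prime (hJexp c hc) hc1
    have hk1 : k ≤ 1 := by
      by_contra hk2
      have := Nat.pow_le_pow_right (show 1 ≤ 3 by norm_num) (show 2 ≤ k by omega)
      omega
    have := Subgroup.eq_of_le_of_card_ge hcs (by
      rw [Nat.card_zpowers, h3, hk]
      exact le_trans (Nat.pow_le_pow_right (by norm_num) hk1) le_rfl)
    exact hdc (this ▸ Subgroup.subset_closure (by simp))
  have hzne : z ≠ 1 := fun h => by rw [h, orderOf_one] at hz3; norm_num at hz3
  have ha1 : a ≠ 1 := fun h => haP (h ▸ one_mem _)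
  have hbza : b ∉ Subgroup.zpowers a := fun h => hbP
    ((Subgroup.zpowers_le.2 (Subgroup.subset_closure (by simp : a ∈ ({z, a} : Set G)))) h)
  have hL9 : Nat.card L = 9 := le_antisymm (hcl a b haJ hbJ) (hge a b haJ hbJ ha1 hbza)
  have hzL : z ∉ L := by
    intro hzL
    have hle : Subgroup.closure ({z, a} : Set G) ≤ L := (Subgroup.closure_le _).2 (by
      rintro y (rfl | rfl)
      exacts [hzL, Subgroup.subset_closure (by simp)])
    have := Subgroup.eq_of_le_of_card_ge hle (by rw [hL9]; exact hge z a hzJ haJ hzne haP)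
    exact hbP (this ▸ Subgroup.subset_closure (by simp))
  have hLt : ∀ x ∈ L, t * x * t ∈ L := by
    intro x hx
    induction hx using Subgroup.closure_induction with
    | mem y hy =>
      rcases hy with rfl | rfl
      · rcases hat with e | e <;> rw [e]
        exacts [Subgroup.subset_closure (by simp), inv_mem (Subgroup.subset_closure (by simp))]
      · rcases hbt with e | e <;> rw [e]
        exacts [Subgroup.subset_closure (by simp), inv_mem (Subgroup.subset_closure (by simp))]
    | one => rw [mul_one, htt]; exact one_mem _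
    | mul x y _ _ hx hy =>
      have e := mul_mem hx hy
      rwa [show t * x * t * (t * y * t) = t * x * (t * t) * y * t by group, htt, mul_one,
        mul_assoc t x y] at e
    | inv x _ hx =>
      have e := inv_mem hx
      rwa [mul_inv_rev, mul_inv_rev, inv_eq_of_mul_eq_one_right htt, ← mul_assoc] at e
  let K : Subgroup G :=
    { carrier := {g | g ∈ L ∨ g * t ∈ L}
      one_mem' := Or.inl (one_mem _)
      mul_mem' := by
        rintro x y (hx | hx) (hy | hy)
        · exact Or.inl (mul_mem hx hy)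
        · exact Or.inr (by rw [mul_assoc]; exact mul_mem hx hy)
        · refine Or.inr ?_
          have := mul_mem hx (hLt y hy)
          rwa [show x * t * (t * y * t) = x * (t * t) * y * t by group, htt, mul_one] at this
        · refine Or.inl ?_
          have := mul_mem hx (hLt _ hy)
          rwa [show x * t * (t * (y * t) * t) = x * (t * t) * y * (t * t) by group, htt, mul_one, mul_one] at this
      inv_mem' := by
        rintro x (hx | hx)
        · exact Or.inl (inv_mem hx)
        · refine Or.inr ?_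
          have := hLt _ (inv_mem hx)
          rwa [mul_inv_rev, inv_eq_of_mul_eq_one_right htt, ← mul_assoc, htt, one_mul] at this }
  have hLK : L ≤ K := fun x hx => Or.inl hx
  have htK : t ∈ K := Or.inr (by rw [htt]; exact one_mem _)
  have hK18 : Nat.card K = 18 := by
    apply le_antisymm
    · have hinj : Function.Injective (fun x : K => if h : (x : G) ∈ L then ((⟨x, h⟩ : L), true)
          else ((⟨(x : G) * t, x.2.resolve_left h⟩ : L), false)) := by
        intro x y e
        by_cases hx : (x : G) ∈ L <;> by_cases hy : (y : G) ∈ L <;> simp [hx, hy] at e <;>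
          exact e
      refine (Nat.card_le_card_of_injective _ hinj).trans ?_
      rw [Nat.card_prod, hL9, Nat.card_eq_fintype_card, Fintype.card_bool]
    · refine Nat.le_of_dvd Nat.card_pos (Nat.Coprime.mul_dvd_of_dvd_of_dvd
        (by norm_num : Nat.Coprime 9 2) (hL9 ▸ Subgroup.card_dvd_of_le hLK) ?_)
      have h := orderOf_dvd_natCard (⟨t, htK⟩ : K)
      rwa [Subgroup.orderOf_mk, ht2] at h
  have hzK : z ∉ K := by
    rintro (h | h)
    · exact hzL h
    · have h1 : t ∈ J := by
        have := mul_mem (inv_mem hzJ) (hLJ h)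
        rwa [inv_mul_cancel_left] at this
      have := ho3 t h1
      rw [ht2] at this
      norm_num at this
  have hK9 : Nat.card (G ⧸ K) = 9 := by
    have := K.card_mul_index
    rw [hK18, hG, Subgroup.index_eq_card] at this
    omega
  let ι : G ⧸ K ≃ Fin 9 := Finite.equivFinOfCardEq hK9
  let f : G →* Equiv.Perm (Fin 9) := ι.permCongrHom.toMonoidHom.comp (MulAction.toPermHom G (G ⧸ K))
  have hf : Function.Injective f := by
    refine (ι.permCongrHom.injective).comp ?_
    rw [← MonoidHom.ker_eq_bot_iff, ← Subgroup.normalCore_eq_ker]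
    by_contra hne
    haveI := Subgroup.normalCore_normal K
    set N := K.normalCore
    by_cases hNS : N ⊓ (S : Subgroup G) = ⊥
    · -- the core would be the central Sylow `2`-subgroup
      obtain ⟨x, hx, hx1⟩ := (Subgroup.ne_bot_iff_exists_ne_one.1 hne).elim fun x hx =>
        (⟨(x : G), x.2, fun h => hx (Subtype.ext h)⟩ : ∃ x : G, x ∈ N ∧ x ≠ 1)
      have hNc : ∀ g : G, g * x * g⁻¹ = x := by
        intro g
        have hgx : g * x * g⁻¹ ∈ N := Subgroup.Normal.conj_mem inferInstance x hx g
        have hxS : x ∉ (S : Subgroup G) := fun h => hx1 (by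
          rw [← Subgroup.mem_bot, ← hNS]; exact ⟨hx, h⟩)
        have hgS : g * x * g⁻¹ ∉ (S : Subgroup G) := fun h => hxS (by
          have := hSn.conj_mem _ h g⁻¹
          rwa [inv_inv, ← mul_assoc, ← mul_assoc, inv_mul_cancel, one_mul, inv_mul_cancel_right] at this)
        have h2 : g * x * g⁻¹ * x⁻¹ ∈ N ⊓ (S : Subgroup G) :=
          ⟨N.mul_mem hgx (N.inv_mem hx), (Subgroup.mul_mem_iff_of_index_two hSi).2
            (iff_of_false hgS (fun h => hxS (inv_inv x ▸ inv_mem h)))⟩
        rw [hNS, Subgroup.mem_bot] at h2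
        exact mul_inv_eq_one.1 h2
      apply hST
      rw [inf_eq_left]
      intro s hs
      have hxS : x ∉ (S : Subgroup G) := fun h => hx1 (by
        rw [← Subgroup.mem_bot, ← hNS]; exact ⟨hx, h⟩)
      have hx2 : x * x = 1 := by
        rw [← Subgroup.mem_bot, ← hNS]
        exact ⟨mul_mem hx hx, Subgroup.mul_self_mem_of_index_two hSi x⟩
      obtain ⟨y, hy⟩ := (IsPGroup.of_card (p := 2) (n := 1) (G := Subgroup.zpowers x)
        (by rw [Nat.card_zpowers, pow_one]; exact orderOf_eq_prime (by rw [sq, hx2]) hx1)).exists_le_sylow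
      obtain ⟨g, rfl⟩ := MulAction.exists_smul_eq G T y
      have hxT : x ∈ ((g • T : Sylow 2 G) : Subgroup G) := hy (Subgroup.mem_zpowers x)
      rw [Sylow.coe_subgroup_smul, Subgroup.mem_pointwise_smul_iff_inv_smul_mem, ← map_inv,
        MulAut.smul_def, MulAut.conj_apply, hNc] at hxT
      have hTx : (T : Subgroup G) = Subgroup.zpowers x :=
        (Subgroup.eq_of_le_of_card_ge (Subgroup.zpowers_le.2 hxT)
          (by rw [Nat.card_zpowers, hT2, orderOf_eq_prime (p := 2) (by rw [sq, hx2]) hx1])).symm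
      refine Subgroup.mem_centralizer_iff.2 fun y hy => ?_
      rw [hTx] at hy
      obtain ⟨i, rfl⟩ := hy
      have : Commute s x := by
        show s * x = x * s
        conv_rhs => rw [← hNc s]
        rw [inv_mul_cancel_right]
      exact (this.zpow_right i).eq.symm
    · haveI : Group.IsNilpotent (S : Subgroup G) := S.isPGroup'.isNilpotent
      haveI : (N.subgroupOf (S : Subgroup G)).Normal := Subgroup.normal_subgroupOf
      obtain ⟨w, hw, hw1, hwc⟩ := Cfsg.Agent.OddLocal.exists_ne_one_mem_center_of_normal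
        (N.subgroupOf (S : Subgroup G)) (fun h => hNS (by rwa [Subgroup.subgroupOf_eq_bot, disjoint_iff] at h))
      have hwZ : (w : G) ∈ Z := by
        rw [hZ]
        exact ⟨w.2, Subgroup.mem_centralizer_iff.2 fun s hs => congrArg Subtype.val (Subgroup.mem_center_iff.1 hwc ⟨s, hs⟩)⟩
      have : Subgroup.zpowers (w : G) = Z := Subgroup.eq_of_le_of_card_ge (Subgroup.zpowers_le.2 hwZ) (by
        have hd := orderOf_dvd_natCard (⟨(w : G), hwZ⟩ : Z)
        rw [Subgroup.orderOf_mk, hZcard] at hd
        rcases (Nat.dvd_prime Nat.prime_three).1 hd with e | e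
        · exact absurd (Subtype.ext (orderOf_eq_one_iff.1 e)) hw1
        · rw [Nat.card_zpowers, e, hZcard])
      exact hzK ((this ▸ Subgroup.zpowers_le.2 (Subgroup.normalCore_le K hw)) hz)
  have hzfix : ∀ i, f z i ≠ i := by
    intro i h
    have h' : z • ι.symm i = ι.symm i := ι.injective (by simpa [f] using h)
    generalize ι.symm i = c at h'
    induction c using QuotientGroup.induction_on with
    | _ g =>
      rw [MulAction.Quotient.smul_mk, QuotientGroup.eq] at h'
      refine hzK (inv_mem_iff.1 ?_)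
      rwa [smul_eq_mul, mul_inv_rev, mul_assoc,
        ← Subgroup.mem_center_iff.1 (inv_mem hzc) g, inv_mul_cancel_left] at h'
  have hct : (f z).cycleType = Multiset.replicate 3 3 :=
    cycleType_nine (by rw [← map_pow, ← hz3, pow_orderOf_eq_one, map_one]) hzfix
  set τ : Equiv.Perm (Fin 9) := Equiv.swap (0 : Fin 9) 1 * Equiv.swap 1 2 * Equiv.swap 3 4 * Equiv.swap 4 5 * Equiv.swap 6 7 * Equiv.swap 7 8 with hτ
  obtain ⟨π, hπ⟩ := isConj_iff.1 (Equiv.Perm.isConj_iff_cycleType_eq.2
    (hct.trans (cycleType_nine (σ := τ) (by rw [hτ]; decide) (by rw [hτ]; decide)).symm))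
  let g : G →* Subgroup.centralizer ({τ} : Set (Equiv.Perm (Fin 9))) :=
    ((MulAut.conj π).toMonoidHom.comp f).codRestrict _ (fun x => by
      rw [Subgroup.mem_centralizer_singleton_iff]
      show π * f x * π⁻¹ * τ = τ * (π * f x * π⁻¹)
      rw [← hπ, show π * f x * π⁻¹ * (π * f z * π⁻¹) = π * (f x * f z) * π⁻¹ by group,
        show π * f z * π⁻¹ * (π * f x * π⁻¹) = π * (f z * f x) * π⁻¹ by group, ← map_mul, ← map_mul,
        Subgroup.mem_center_iff.1 hzc x])
  have hg : Function.Injective g := fun x y e =>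
    hf ((MulAut.conj π).injective (congrArg Subtype.val e))
  exact ⟨MulEquiv.ofBijective g ((Nat.bijective_iff_injective_and_card g).2 ⟨hg, by rw [hG, hτ, target_card]⟩)⟩

end Cfsg.Agent.S3376
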