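import Cfsg.Statements.S3389
import Mathlib

set_option autoImplicit false
open Cfsg

namespace Cfsg.Agent.S3389

/-- Let G be a finite group acting faithfully and transitively on a finite set Ω with fixity k ≥ 1: every non-identity element fixes at most k points and some non-identity element fixes exactly k points. Then |Z(G)| divides k; if k = 2 then |G| is even; and for every prime p > k dividing |G| and every point α, either p does not divide |G_α| or G_α contains a Sylow p-subgroup of G. -/
theorem result {G : Type*} [Group G] [Finite G] {Ω : Type*} [Fintype Ω] [MulAction G Ω] [FaithfulSMul G Ω]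
    (htr : MulAction.IsPretransitive G Ω) (k : ℕ) (hk : 1 ≤ k)
    (hfix : ∀ g : G, g ≠ 1 → Nat.card (MulAction.fixedBy Ω g) ≤ k) (hex : ∃ g : G, g ≠ 1 ∧ Nat.card (MulAction.fixedBy Ω g) = k) :
    Nat.card (Subgroup.center G) ∣ k ∧ (k = 2 → 2 ∣ Nat.card G) ∧
      ∀ (p : ℕ), p.Prime → k < p → p ∣ Nat.card G → ∀ α : Ω,
        ¬ p ∣ Nat.card (MulAction.stabilizer G α) ∨ ¬ p ∣ (MulAction.stabilizer G α).index := by
  classical
  obtain ⟨g₀, hg₀, hg₀k⟩ := hex
  refine ⟨?_, ?_, ?_⟩
  · -- the centre acts semiregularly on the fixed points of any element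
    have hfree : ∀ (z : Subgroup.center G) (ω : Ω), (z : G) • ω = ω → z = 1 := by
      intro z ω h
      apply Subtype.ext
      refine FaithfulSMul.eq_of_smul_eq_smul (α := Ω) fun ω' => ?_
      obtain ⟨g, rfl⟩ := htr.exists_smul_eq ω ω'
      rw [Subgroup.coe_one, one_smul, ← mul_smul, ← (Subgroup.mem_center_iff.mp z.2 g), mul_smul, h]
    let act : MulAction (Subgroup.center G) (MulAction.fixedBy Ω g₀) :=
      { smul := fun z ω => ⟨(z : G) • ω.1, by
          rw [MulAction.mem_fixedBy, ← mul_smul, (Subgroup.mem_center_iff.mp z.2 g₀), mul_smul,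
            MulAction.mem_fixedBy.mp ω.2]⟩
        one_smul := fun ω => Subtype.ext (one_smul G ω.1)
        mul_smul := fun a b ω => Subtype.ext (mul_smul (a : G) b ω.1) }
    rw [← hg₀k]
    have hst : ∀ ω : MulAction.fixedBy Ω g₀, MulAction.stabilizer (Subgroup.center G) ω = ⊥ := by
      intro ω
      rw [eq_bot_iff]
      intro z hz
      exact hfree z ω.1 (congrArg Subtype.val hz)
    rw [Nat.card_congr (MulAction.selfEquivSigmaOrbits (Subgroup.center G) (MulAction.fixedBy Ω g₀))]
    have := Fintype.ofFinite (MulAction.orbitRel.Quotient (Subgroup.center G) (MulAction.fixedBy Ω g₀))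
    rw [Nat.card_sigma]
    refine Finset.dvd_sum fun q _ => dvd_of_eq ?_
    have := Nat.card_congr (MulAction.orbitProdStabilizerEquivGroup (Subgroup.center G) q.out)
    rw [Nat.card_prod, hst, Subgroup.card_bot, mul_one] at this
    exact this.symm
  · intro hk2
    by_contra hodd
    have hodd' : ∀ g : G, g ^ 2 = 1 → g = 1 := fun g hg => by
      rcases (Nat.dvd_prime Nat.prime_two).mp (orderOf_dvd_of_pow_eq_one hg) with h | h
      · exact orderOf_eq_one_iff.mp h
      · exact absurd (h ▸ orderOf_dvd_natCard g) hodd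
    have hnd : ¬ 2 ∣ Fintype.card Ω := by
      rcases isEmpty_or_nonempty Ω with h | ⟨⟨ω⟩⟩
      · exfalso; subst hk2
        rw [Nat.card_of_isEmpty] at hg₀k; exact absurd hg₀k (by norm_num)
      · intro h
        apply hodd
        have h1 : (MulAction.stabilizer G ω).index = Fintype.card Ω := by
          rw [MulAction.index_stabilizer_of_transitive, Nat.card_eq_fintype_card]
        exact h.trans (h1 ▸ Subgroup.index_dvd_card _)
    -- an element of prime order fixing two points fixes exactly two
    obtain ⟨r, hr, hrd⟩ := Nat.exists_prime_and_dvd (n := orderOf g₀) (fun e => hg₀ (orderOf_eq_one_iff.mp e))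
    have := Fact.mk hr
    obtain ⟨u, hu, hfu⟩ : ∃ u, orderOf u = r ∧ MulAction.fixedBy Ω g₀ ⊆ MulAction.fixedBy Ω u :=
      ⟨g₀ ^ (orderOf g₀ / r), orderOf_pow_orderOf_div (orderOf_pos g₀).ne' hrd,
        fun ω hω => Subgroup.pow_mem (MulAction.stabilizer G ω) hω _⟩
    have hu1 : u ≠ 1 := fun e => by rw [e, orderOf_one] at hu; exact hr.one_lt.ne hu
    have hcu : Nat.card (MulAction.fixedBy Ω u) = 2 := by
      refine le_antisymm ((hfix u hu1).trans hk2.le) ?_
      rw [← hk2, ← hg₀k]
      exact Nat.card_mono (Set.toFinite _) hfu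
    by_cases hr2 : r = 2
    · exact hodd (hr2 ▸ hu ▸ orderOf_dvd_natCard u)
    -- the cycle structure forces `Ω` to be `2` modulo `r`
    have hpg : IsPGroup r (Subgroup.zpowers u) :=
      IsPGroup.of_card (show Nat.card (Subgroup.zpowers u) = r ^ 1 by rw [Nat.card_zpowers, hu, pow_one])
    have hmod := hpg.card_modEq_card_fixedPoints Ω
    have hfp : MulAction.fixedPoints (Subgroup.zpowers u) Ω = MulAction.fixedBy Ω u := by
      ext ω
      refine ⟨fun h => h ⟨u, Subgroup.mem_zpowers u⟩, fun h x => ?_⟩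
      exact (Subgroup.zpowers_le.mpr (show u ∈ MulAction.stabilizer G ω from h)) x.2
    rw [hfp, hcu, Nat.card_eq_fintype_card] at hmod
    -- a Sylow subgroup fixing two points; its normalizer swaps them
    obtain ⟨a, b, hab, hset⟩ := Set.ncard_eq_two.mp (show (MulAction.fixedBy Ω u).ncard = 2 from hcu)
    have hua : u • a = a := show a ∈ MulAction.fixedBy Ω u by rw [hset]; simp
    obtain ⟨R, hR⟩ := ((IsPGroup.of_card (show Nat.card (Subgroup.zpowers u) = r ^ 1 by
      rw [Nat.card_zpowers, hu, pow_one])).of_equiv (Subgroup.subgroupOfEquivOfLe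
        (Subgroup.zpowers_le.mpr (show u ∈ MulAction.stabilizer G a from hua))).symm).exists_le_sylow
    let R' : Subgroup G := (R : Subgroup (MulAction.stabilizer G a)).map (MulAction.stabilizer G a).subtype
    have hR'p : IsPGroup r R' := R.2.map _
    have huR : u ∈ R' := ⟨⟨u, hua⟩, hR (Subgroup.mem_subgroupOf.mpr (Subgroup.mem_zpowers u)), rfl⟩
    have hri : ¬ r ∣ (MulAction.stabilizer G a).index := fun h => by
      rw [MulAction.index_stabilizer_of_transitive, Nat.card_eq_fintype_card] at h
      have h0 := Nat.modEq_zero_iff_dvd.mpr h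
      have h3 := Nat.le_of_dvd two_pos (Nat.modEq_zero_iff_dvd.mp (hmod.symm.trans h0))
      have := hr.two_le
      omega
    have hR'G : ¬ r ∣ R'.index := by
      rw [Subgroup.index_map_subtype]
      exact hr.not_dvd_mul R.not_dvd_index hri
    have hsub : MulAction.fixedPoints R' Ω ⊆ MulAction.fixedBy Ω u := fun ω hω => hω ⟨u, huR⟩
    have hle : Nat.card (MulAction.fixedPoints R' Ω) ≤ 2 := hcu ▸ Nat.card_mono (Set.toFinite _) hsub
    have hmodR := hR'p.card_modEq_card_fixedPoints Ω
    rw [Nat.card_eq_fintype_card] at hmodR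
    have hR2 : Nat.card (MulAction.fixedPoints R' Ω) = 2 := by
      have hh : Nat.card (MulAction.fixedPoints R' Ω) ≡ 2 [MOD r] := hmodR.symm.trans hmod
      have hr3 : 3 ≤ r := by have := hr.two_le; omega
      rw [Nat.ModEq, Nat.mod_eq_of_lt (by omega), Nat.mod_eq_of_lt (by omega)] at hh
      exact hh
    have hfixR : MulAction.fixedPoints R' Ω = MulAction.fixedBy Ω u :=
      Set.eq_of_subset_of_ncard_le hsub (le_of_eq (hcu.trans hR2.symm)) (Set.toFinite _)
    have hRb : R' ≤ MulAction.stabilizer G b := fun x hx => by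
      have hb : b ∈ MulAction.fixedPoints R' Ω := by rw [hfixR, hset]; simp
      exact hb ⟨x, hx⟩
    obtain ⟨g, hg⟩ := htr.exists_smul_eq a b
    let S₁ : Sylow r G := (hR'p).toSylow hR'G
    have hS₁ : (S₁ : Subgroup G) = R' := rfl
    have hgR : ((g • S₁ : Sylow r G) : Subgroup G) ≤ MulAction.stabilizer G b := by
      intro x hx
      rw [Sylow.coe_subgroup_smul, Subgroup.mem_pointwise_smul_iff_inv_smul_mem, ← map_inv, MulAut.smul_def,
        MulAut.conj_apply, inv_inv] at hx
      obtain ⟨y, hy, hyx⟩ := hx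
      rw [MulAction.mem_stabilizer_iff, ← hg, ← mul_smul]
      have : x * g = g * (y : G) := by
        change (y : G) = _ at hyx
        rw [hyx]; group
      rw [this, mul_smul, (y.2 : (y : G) • a = a)]
    obtain ⟨h, hh⟩ := MulAction.exists_smul_eq (MulAction.stabilizer G b)
      ((g • S₁).subtype hgR) (S₁.subtype (hS₁ ▸ hRb))
    have hnorm : (h : G) * g ∈ Subgroup.normalizer ((S₁ : Subgroup G) : Set G) := by
      refine Sylow.smul_eq_iff_mem_normalizer.mp ?_
      rw [mul_smul]
      have hle : ((((h : G)) • (g • S₁) : Sylow r G) : Subgroup G) ≤ MulAction.stabilizer G b :=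
        Sylow.smul_le hgR h
      refine Sylow.subtype_injective (hP := hle) (hQ := hS₁ ▸ hRb) ?_
      exact (Sylow.smul_subtype hgR h).symm.trans hh
    have hkfix : ∀ ω ∈ MulAction.fixedBy Ω u, ((h : G) * g) • ω ∈ MulAction.fixedBy Ω u := by
      intro ω hω
      rw [← hfixR] at hω ⊢
      rintro ⟨x, hx⟩
      show x • ((h : G) * g) • ω = ((h : G) * g) • ω
      have hc := (Subgroup.mem_normalizer_iff''.mp hnorm x).mp hx
      have := hω ⟨_, hc⟩
      rw [← mul_smul, show x * ((h : G) * g) = ((h : G) * g) * (((h : G) * g)⁻¹ * x * ((h : G) * g)) by group,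
        mul_smul]
      exact congrArg _ this
    have hka : ((h : G) * g) • a = b := by rw [mul_smul, hg]; exact h.2
    have hkb : ((h : G) * g) • b = a := by
      have hb2 := hkfix b (by rw [hset]; simp)
      rw [hset] at hb2
      rcases hb2 with h1 | h1
      · exact h1
      · exact absurd (smul_left_cancel _ (h1.trans hka.symm)).symm hab
    have hsq : ((h : G) * g) ^ 2 • a = a := by rw [sq, mul_smul, hka, hkb]
    obtain ⟨m, hm⟩ : Odd (orderOf ((h : G) * g)) :=
      Nat.odd_iff.mpr (Nat.two_dvd_ne_zero.mp fun h' => hodd (h'.trans (orderOf_dvd_natCard _)))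
    have h1 := pow_orderOf_eq_one ((h : G) * g)
    rw [hm, pow_succ', pow_mul] at h1
    have h2 : (((h : G) * g) ^ 2) ^ m • a = a :=
      Subgroup.pow_mem (MulAction.stabilizer G a) hsq m
    have h3 := congrArg (fun y => y • a) h1
    simp only [one_smul] at h3
    rw [mul_smul, h2, hka] at h3
    exact hab h3.symm
  · intro p hp hpk hpG α
    by_contra hcon
    push Not at hcon
    obtain ⟨h1, h2⟩ := hcon
    have := Fact.mk hp
    obtain ⟨x, hx⟩ := exists_prime_orderOf_dvd_card' p h1
    have hxG : orderOf (x : G) = p := by rw [Subgroup.orderOf_coe]; exact hx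
    have hx1 : (x : G) ≠ 1 := fun e => by rw [e, orderOf_one] at hxG; exact hp.one_lt.ne hxG
    have hpg : IsPGroup p (Subgroup.zpowers (x : G)) :=
      IsPGroup.of_card (show Nat.card (Subgroup.zpowers (x : G)) = p ^ 1 by rw [Nat.card_zpowers, hxG, pow_one])
    have hmod := hpg.card_modEq_card_fixedPoints Ω
    have hΩ : p ∣ Nat.card Ω := by rwa [MulAction.index_stabilizer_of_transitive] at h2
    have hne : Nonempty (MulAction.fixedPoints (Subgroup.zpowers (x : G)) Ω) :=
      ⟨⟨α, fun y => (Subgroup.zpowers_le.mpr x.2) y.2⟩⟩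
    have hle : Nat.card (MulAction.fixedPoints (Subgroup.zpowers (x : G)) Ω) ≤ k := by
      refine (Nat.card_mono (Set.toFinite _) ?_).trans (hfix _ hx1)
      intro ω hω
      exact hω ⟨x, Subgroup.mem_zpowers _⟩
    have hpos : 0 < Nat.card (MulAction.fixedPoints (Subgroup.zpowers (x : G)) Ω) := Nat.card_pos
    have h0 := Nat.modEq_zero_iff_dvd.mpr hΩ
    have h3 := Nat.le_of_dvd hpos (Nat.modEq_zero_iff_dvd.mp (hmod.symm.trans h0))
    omega

end Cfsg.Agent.S3389
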