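import Cfsg.Statements.S3391
import Cfsg.Agent.SmallOrder.SzFixity

set_option autoImplicit false
open Cfsg

namespace Cfsg.Agent.S3391

/-- Let q = 2^{2m+1} ≥ 8 and let G be isomorphic to the Suzuki group Sz(q). If G acts faithfully and transitively on a finite set Ω with fixity 2 (every non-identity element fixes at most two points, and some fixes exactly two), then either |Ω| = q² + 1 and the action is 2-transitive, or |Ω| = q²(q² + 1) and the point stabilizers have order q − 1. -/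
theorem result {G : Type*} [Group G] [Finite G] (F : Type) [Field F] [Fintype F] (m : ℕ) (hm : 1 ≤ m) (hF : Fintype.card F = 2 ^ (2 * m + 1))
    (e : G ≃* ↥(Cfsg.Lie.Sz F (2 ^ (m + 1)))) {Ω : Type*} [Fintype Ω] [MulAction G Ω] [FaithfulSMul G Ω] (htr : MulAction.IsPretransitive G Ω)
    (hfix : ∀ g : G, g ≠ 1 → Nat.card (MulAction.fixedBy Ω g) ≤ 2) (hex : ∃ g : G, g ≠ 1 ∧ Nat.card (MulAction.fixedBy Ω g) = 2) :
    (Fintype.card Ω = Fintype.card F ^ 2 + 1 ∧ MulAction.IsMultiplyPretransitive G Ω 2) ∨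
    (Fintype.card Ω = Fintype.card F ^ 2 * (Fintype.card F ^ 2 + 1) ∧ ∀ α : Ω, Nat.card (MulAction.stabilizer G α) = Fintype.card F - 1) := by
  have h : Cfsg.Agent.Suzuki.Ctx F m := ⟨hm, by rw [Nat.card_eq_fintype_card, hF]⟩
  let e' : G ≃* Cfsg.Sz F m := e.trans (Cfsg.Agent.Suzuki.lieEquiv h).symm
  letI : MulAction (Cfsg.Sz F m) Ω := MulAction.compHom Ω e'.symm.toMonoidHom
  have hsmul : ∀ (g : G) (x : Ω), (e' g) • x = g • x := fun g x => by
    show e'.symm.toMonoidHom (e' g) • x = g • x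
    simp
  have hfb : ∀ g : G, MulAction.fixedBy Ω (e' g) = MulAction.fixedBy Ω g := fun g => by
    ext x; simp [MulAction.mem_fixedBy, hsmul]
  have hne : ∀ g : G, e' g ≠ 1 ↔ g ≠ 1 := fun g => by simp
  have htr' : MulAction.IsPretransitive (Cfsg.Sz F m) Ω := ⟨fun a b => by
    obtain ⟨g, hg⟩ := htr.exists_smul_eq a b
    exact ⟨e' g, by rw [hsmul, hg]⟩⟩
  have hfix' : ∀ g : Cfsg.Sz F m, g ≠ 1 → Nat.card (MulAction.fixedBy Ω g) ≤ 2 := by
    intro g hg
    obtain ⟨g, rfl⟩ := e'.surjective g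
    rw [hfb]; exact hfix g ((hne g).1 hg)
  obtain ⟨g0, hg0, hc0⟩ := hex
  have hmain := Cfsg.Agent.SmallOrder.SzFixity.sz_main h hfix' htr'
    ⟨e' g0, (hne g0).2 hg0, by rw [hfb]; exact hc0⟩
  rw [← Nat.card_eq_fintype_card, ← Nat.card_eq_fintype_card]
  rcases hmain with ⟨hc, h2⟩ | ⟨hc, hs⟩
  · refine Or.inl ⟨hc, ?_⟩
    rw [MulAction.is_two_pretransitive_iff] at h2 ⊢
    intro a b c d hab hcd
    obtain ⟨g, h1, h3⟩ := h2 hab hcd
    obtain ⟨g, rfl⟩ := e'.surjective g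
    exact ⟨g, by rw [← hsmul]; exact h1, by rw [← hsmul]; exact h3⟩
  · refine Or.inr ⟨hc, fun α => ?_⟩
    rw [← hs α]
    refine Nat.card_congr (e'.toEquiv.subtypeEquiv fun g => ?_)
    simp [MulAction.mem_stabilizer_iff, hsmul]

end Cfsg.Agent.S3391
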