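import Cfsg.Statements.S3431
import Cfsg.Agent.S0228
import Cfsg.Agent.SmallOrder.NseAlt.Data
import Cfsg.Agent.SmallOrder.NseAlt.Alt
import Cfsg.Agent.SmallOrder.Spec5.Main

set_option autoImplicit false
open Cfsg

namespace Cfsg.Agent.S3431

/-- Let n be 4, 5 or 6 and let G be a finite group whose set of sizes of same-order classes (the set of numbers #{g : o(g) = m} over the element orders m of G) equals that of the alternating group of degree n. Then G is isomorphic to that alternating group. -/
theorem result {G : Type*} [Group G] [Finite G] (n : ℕ) (hn : n = 4 ∨ n = 5 ∨ n = 6)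
    (h : ((fun m : ℕ => Nat.card {g : G // orderOf g = m}) '' Set.range (orderOf : G → ℕ)) = ((fun m : ℕ => Nat.card {g : ↥(alternatingGroup (Fin n)) // orderOf g = m}) '' Set.range (orderOf : ↥(alternatingGroup (Fin n)) → ℕ))) :
    Nonempty (G ≃* ↥(alternatingGroup (Fin n))) := by
  have hset : ∀ {l : List ℕ} {a : ℕ} {t : List ℕ}, l = 1 :: a :: t → ({v | v ∈ l} : Set ℕ) = {v | v = 1 ∨ v = a ∨ v ∈ t} := by
    rintro l a t rfl
    simp only [List.mem_cons]
  rcases hn with rfl | rfl | rfl
  · rw [Cfsg.Agent.SmallOrder.NseAlt.image_four, hset rfl] at h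
    obtain ⟨hc, ho⟩ := Cfsg.Agent.SmallOrder.NseAlt.reduce [8] Cfsg.Agent.SmallOrder.NseAlt.chkList 3
      Cfsg.Agent.SmallOrder.NseAlt.list_four [(1, 1), (2, 3), (3, 8)] (by norm_num) (by norm_num) (by decide)
      (by decide +kernel) Cfsg.Agent.SmallOrder.NseAlt.cover_four (by decide +kernel) (by decide +kernel)
      Cfsg.Agent.SmallOrder.NseAlt.search_four h
    simp [Cfsg.Agent.SmallOrder.NseAlt.dsum] at hc
    refine Cfsg.Agent.S0228.result hc fun z hz hzc => ?_
    obtain ⟨b, hb⟩ := (ho 3).2 (by decide)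
    have h6 : orderOf (z * b) = 6 := by
      rw [(show Commute z b from ((Subgroup.mem_center_iff.1 hzc) b).symm).orderOf_mul_eq_mul_orderOf_of_coprime
        (by rw [hz, hb]; decide), hz, hb]
    have := (ho 6).1 ⟨z * b, h6⟩
    simp at this
  · rw [Cfsg.Agent.SmallOrder.NseAlt.image_five, hset rfl] at h
    obtain ⟨hc, ho⟩ := Cfsg.Agent.SmallOrder.NseAlt.reduce [20, 24] Cfsg.Agent.SmallOrder.NseAlt.chkList 15
      Cfsg.Agent.SmallOrder.NseAlt.list_five [(1, 1), (2, 15), (3, 20), (5, 24)] (by norm_num) (by norm_num) (by decide)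
      (by decide +kernel) Cfsg.Agent.SmallOrder.NseAlt.cover_five (by decide +kernel) (by decide +kernel)
      Cfsg.Agent.SmallOrder.NseAlt.search_five h
    simp [Cfsg.Agent.SmallOrder.NseAlt.dsum] at hc
    have hs : Cfsg.Agent.SmallOrder.Spec5.Spec5 G := fun x => by
      have := (ho (orderOf x)).1 ⟨x, rfl⟩
      simp only [List.map, List.mem_cons, List.not_mem_nil, or_false] at this
      omega
    rcases hs.structure_theorem (fun k hk => (ho k).2 (by rcases hk with rfl | rfl | rfl <;> decide)) with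
      ⟨⟨e⟩⟩ | ⟨N, hN, hE, ⟨e⟩⟩
    · have h1 := Nat.card_congr e.toEquiv
      rw [hc, nat_card_alternatingGroup, Nat.card_fin] at h1
      norm_num [Nat.factorial] at h1
    · have h1 := N.card_eq_card_quotient_mul_card_subgroup
      rw [hc, Nat.card_congr e.toEquiv, nat_card_alternatingGroup, Nat.card_fin] at h1
      norm_num [Nat.factorial] at h1
      subst h1
      exact ⟨(QuotientGroup.quotientBot (G := G)).symm.trans e⟩
  · rw [Cfsg.Agent.SmallOrder.NseAlt.image_six, hset rfl] at h
    obtain ⟨hc, ho⟩ := Cfsg.Agent.SmallOrder.NseAlt.reduce [80, 90, 144] Cfsg.Agent.SmallOrder.NseAlt.chkList 45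
      Cfsg.Agent.SmallOrder.NseAlt.list_six [(1, 1), (2, 45), (3, 80), (4, 90), (5, 144)] (by norm_num) (by norm_num)
      (by decide) (by decide +kernel) Cfsg.Agent.SmallOrder.NseAlt.cover_six (by decide +kernel) (by decide +kernel)
      Cfsg.Agent.SmallOrder.NseAlt.search_six h
    simp [Cfsg.Agent.SmallOrder.NseAlt.dsum] at hc
    have hs : Cfsg.Agent.SmallOrder.Spec5.Spec5 G := fun x => by
      have := (ho (orderOf x)).1 ⟨x, rfl⟩
      simp only [List.map, List.mem_cons, List.not_mem_nil, or_false] at this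
      omega
    rcases hs.structure_theorem (fun k hk => (ho k).2 (by rcases hk with rfl | rfl | rfl <;> decide)) with
      h' | ⟨N, hN, hE, ⟨e⟩⟩
    · exact h'
    · exfalso
      have h1 := N.card_eq_card_quotient_mul_card_subgroup
      rw [hc, Nat.card_congr e.toEquiv, nat_card_alternatingGroup, Nat.card_fin] at h1
      norm_num [Nat.factorial] at h1
      haveI : Fact (Nat.Prime 3) := ⟨Nat.prime_three⟩
      obtain ⟨w, hw⟩ := exists_prime_orderOf_dvd_card' (G := N) 3 (by omega)
      have h2 : (w : G) ^ 2 = 1 := hE.2 w w.2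
      have h3 := orderOf_dvd_of_pow_eq_one h2
      rw [Subgroup.orderOf_coe, hw] at h3
      norm_num at h3

end Cfsg.Agent.S3431
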