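import Cfsg.Statements.S3433
import Cfsg.Agent.SmallOrder.Spec5.Main

set_option autoImplicit false
open Cfsg

namespace Cfsg.Agent.S3433

/-- A finite group whose set of element orders is exactly {1, 2, 3, 4, 5} is isomorphic to the alternating group of degree 6, or has a normal elementary abelian 2-subgroup with quotient isomorphic to the alternating group of degree 5. -/
theorem result {G : Type*} [Group G] [Finite G] (h : Set.range (orderOf : G → ℕ) = {k : ℕ | 1 ≤ k ∧ k ≤ 5}) :
    Nonempty (G ≃* ↥(alternatingGroup (Fin 6))) ∨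
      ∃ (N : Subgroup G) (_ : N.Normal), Cfsg.IsElementaryAbelian 2 N ∧ Nonempty (G ⧸ N ≃* ↥(alternatingGroup (Fin 5))) := by
  have hs : Cfsg.Agent.SmallOrder.Spec5.Spec5 G := fun x => by
    have : orderOf x ∈ Set.range (orderOf : G → ℕ) := ⟨x, rfl⟩
    rw [h] at this
    exact this.2
  exact hs.structure_theorem fun k hk => by
    have : k ∈ Set.range (orderOf : G → ℕ) := h.symm ▸ (⟨by omega, by omega⟩ : 1 ≤ k ∧ k ≤ 5)
    exact this

end Cfsg.Agent.S3433
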