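import Cfsg.Statements.S3495
import Mathlib

set_option autoImplicit false
open Cfsg

namespace Cfsg.Agent.S3495

/-- Let a finite group G act faithfully and primitively on a finite set Ω with non-trivial point stabilizers, each acting primitively on every one of its orbits (an extremely primitive group), and suppose G has an elementary abelian normal p-subgroup N acting regularly on Ω (affine type). Then every non-trivial subgroup M of a point stabilizer G_α that is normal in G_α has the same orbits on Ω as G_α, and normalizes no subgroup of N other than 1 and N. -/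
theorem result {G : Type*} [Group G] [Finite G] {Ω : Type*} [Fintype Ω] [MulAction G Ω] [FaithfulSMul G Ω] (hprim : MulAction.IsPreprimitive G Ω) (hH : ∀ α : Ω, MulAction.stabilizer G α ≠ ⊥) (hep : ∀ (α : Ω) (ω : Ω), MulAction.IsPreprimitive (MulAction.stabilizer G α) (MulAction.orbit (MulAction.stabilizer G α) ω))
    (N : Subgroup G) [N.Normal] (hNc : IsMulCommutative N) (p : ℕ) (hp : p.Prime) (hNp : ∀ n ∈ N, n ^ p = 1)
    (hNtr : MulAction.IsPretransitive N Ω) (hNreg : ∀ ω : Ω, MulAction.stabilizer N ω = ⊥) (α : Ω) (M : Subgroup G) (hM : M ≠ ⊥) (hMle : M ≤ MulAction.stabilizer G α)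
    (hMn : MulAction.stabilizer G α ≤ Subgroup.normalizer (M : Set G)) :
    (∀ ω : Ω, MulAction.orbit M ω = MulAction.orbit (MulAction.stabilizer G α) ω) ∧
    (∀ L : Subgroup G, L ≤ N → M ≤ Subgroup.normalizer (L : Set G) → L = ⊥ ∨ L = N) := by
  classical
  have hΩ : Nontrivial Ω := by
    by_contra h
    rw [not_nontrivial_iff_subsingleton] at h
    apply hH α
    rw [eq_bot_iff]
    exact fun x _ => Subgroup.mem_bot.mpr (FaithfulSMul.eq_of_smul_eq_smul (α := Ω) fun c => Subsingleton.elim _ _)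
  set H := MulAction.stabilizer G α with hHdef
  have hfree : ∀ n ∈ N, n • α = α → n = 1 := fun n hn h => by
    have h1 : (⟨n, hn⟩ : N) ∈ MulAction.stabilizer N α := h
    rw [hNreg, Subgroup.mem_bot] at h1
    exact congrArg Subtype.val h1
  have hinj : ∀ n ∈ N, ∀ m ∈ N, n • α = m • α → n = m := fun n hn m hm h => by
    refine (inv_mul_eq_one.mp (hfree _ (N.mul_mem (N.inv_mem hm) hn) ?_)).symm
    rw [mul_smul, h, inv_smul_smul]
  have hact : ∀ h ∈ H, ∀ s : G, h • s • α = (h * s * h⁻¹) • α := fun h hh s => by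
    rw [mul_smul, mul_smul, show h⁻¹ • α = α from H.inv_mem hh]
  have hmax := MulAction.IsPreprimitive.isCoatom_stabilizer_of_isPreprimitive G α
  have hNM : Subgroup.normalizer (M : Set G) ≤ H := by
    rcases hmax.le_iff.mp hMn with h | h
    · exfalso
      have hn := Subgroup.normalizer_eq_top_iff.mp h
      apply hM
      rw [eq_bot_iff]
      intro x hx
      refine Subgroup.mem_bot.mpr (FaithfulSMul.eq_of_smul_eq_smul (α := Ω) fun ω => ?_)
      obtain ⟨k, rfl⟩ := MulAction.exists_smul_eq G α ω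
      have h2 : (k⁻¹ * x * k) • α = α := by have := hMle (hn.conj_mem x hx k⁻¹); rw [inv_inv] at this; exact this
      rw [mul_smul, mul_smul, inv_smul_eq_iff] at h2
      rw [h2, one_smul]
    · exact h.le
  have horb : ∀ ω : Ω, MulAction.orbit M ω = MulAction.orbit H ω := by
    intro ω
    refine Set.Subset.antisymm ?_ ?_
    · rintro _ ⟨m, rfl⟩
      exact ⟨⟨m, hMle m.2⟩, rfl⟩
    rintro _ ⟨⟨h, hh⟩, rfl⟩
    by_cases hωα : ω = α
    · subst hωα
      exact ⟨1, by show (1 : G) • ω = h • ω; rw [one_smul, show h • ω = ω from hh]⟩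
    let D : Subgroup H := M.subgroupOf H
    have : D.Normal := Subgroup.normal_subgroupOf_iff_le_normalizer hMle |>.mpr hMn
    have hB := MulAction.IsBlock.orbit_of_normal (G := H) (N := D)
      (⟨ω, MulAction.mem_orbit_self _⟩ : MulAction.orbit H ω)
    rcases (hep α ω).isTrivialBlock_of_isBlock hB with hs | hu
    · exfalso
      obtain ⟨⟨n, hn⟩, hnω⟩ := hNtr.exists_smul_eq α ω
      have hnω' : n • α = ω := hnω
      have hfix : ∀ m ∈ M, m * n * m⁻¹ = n := by
        intro m hm
        have := hs (MulAction.mem_orbit (⟨ω, MulAction.mem_orbit_self _⟩ : MulAction.orbit H ω)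
          (⟨⟨m, hMle hm⟩, hm⟩ : D)) (MulAction.mem_orbit_self _)
        have h1 : m • ω = ω := congrArg Subtype.val this
        rw [← hnω', hact m (hMle hm)] at h1
        exact hinj _ (Subgroup.Normal.conj_mem ‹N.Normal› n hn m) n hn h1
      have hnN : n ∈ Subgroup.normalizer (M : Set G) := by
        rw [Subgroup.mem_normalizer_iff]
        intro x
        constructor
        · intro hx
          rwa [← mul_inv_eq_iff_eq_mul.mp (hfix x hx), mul_inv_cancel_right]
        · intro hx
          have := mul_inv_eq_iff_eq_mul.mp (hfix _ hx)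
          rw [inv_mul_cancel_right] at this
          rwa [mul_left_cancel (a := n) this]
      exact hωα (by rw [← hnω', hfree n hn (hNM hnN), one_smul])
    · obtain ⟨⟨⟨x, hxH⟩, hxM⟩, hd⟩ : (⟨h • ω, ⟨⟨h, hh⟩, rfl⟩⟩ : MulAction.orbit H ω) ∈
          MulAction.orbit D (⟨ω, MulAction.mem_orbit_self _⟩ : MulAction.orbit H ω) := hu ▸ Set.mem_univ _
      exact ⟨⟨x, hxM⟩, congrArg Subtype.val hd⟩
  refine ⟨horb, fun L hL hLn => ?_⟩
  by_cases hL0 : L = ⊥
  · exact Or.inl hL0
  right
  have hLG : L.Normal := by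
    refine ⟨fun l hl g => ?_⟩
    obtain ⟨⟨n, hn⟩, hna⟩ := hNtr.exists_smul_eq α (g • α)
    have hh : n⁻¹ * g ∈ H := by
      show (n⁻¹ * g) • α = α
      rw [mul_smul, show g • α = n • α from hna.symm, inv_smul_smul]
    set h := n⁻¹ * g with hhdef
    obtain ⟨⟨m, hm⟩, hme⟩ : h • l • α ∈ MulAction.orbit M (l • α) := (horb _).symm ▸ ⟨⟨h, hh⟩, rfl⟩
    have hme' : m • l • α = h • l • α := hme
    rw [hact m (hMle hm), hact h hh] at hme'
    have he := hinj _ (Subgroup.Normal.conj_mem ‹N.Normal› l (hL hl) m) _ (Subgroup.Normal.conj_mem ‹N.Normal› l (hL hl) h) hme'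
    have h1 : h * l * h⁻¹ ∈ L := he ▸ (Subgroup.mem_normalizer_iff.mp (hLn hm) l).mp hl
    have h2 : g * l * g⁻¹ = n * (h * l * h⁻¹) * n⁻¹ := by rw [hhdef]; group
    rw [h2, show n * (h * l * h⁻¹) = (h * l * h⁻¹) * n from
      congrArg Subtype.val (hNc.is_comm.comm ⟨n, hn⟩ ⟨_, hL h1⟩), mul_inv_cancel_right]
    exact h1
  have htr : MulAction.IsPretransitive L Ω := by
    apply MulAction.IsQuasiPreprimitive.isPretransitive_of_normal
    intro h
    apply hL0
    rw [eq_bot_iff]
    intro x hx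
    exact Subgroup.mem_bot.mpr (hfree x (hL hx) ((h.symm ▸ Set.mem_univ α : α ∈ MulAction.fixedPoints L Ω) ⟨x, hx⟩))
  refine le_antisymm hL fun n hn => ?_
  obtain ⟨⟨l, hl⟩, hlα⟩ := htr.exists_smul_eq α (n • α)
  exact hinj l (hL hl) n hn hlα ▸ hl

end Cfsg.Agent.S3495
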