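import Cfsg.Statements.S3496
import Cfsg.Agent.SmallOrder.ExtStabilizer
import Cfsg.Agent.SmallOrder.IrreducibleCyclic

set_option autoImplicit false
open Cfsg

namespace Cfsg.Agent.S3496

/-- The soluble extremely primitive groups. Let a finite solvable group G act faithfully and primitively on a finite set Ω with p ^ d points (p prime), with non-trivial point stabilizers each acting primitively on every one of its orbits. Then there is a prime q such that every orbit of a point stabilizer G_α other than {α} has exactly q points, q divides p ^ d − 1 but no p ^ i − 1 with 0 < i < d, and G_α has a normal subgroup T of order q with G_α generated by T and one further element and the order of G_α dividing q·d (so G_α is cyclic of order q, or an extension of T by a cyclic group of order dividing d). -/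
theorem result {G : Type*} [Group G] [Finite G] {Ω : Type*} [Fintype Ω] [MulAction G Ω] [FaithfulSMul G Ω] [Group.IsSolvable G] (p d : ℕ) (hp : p.Prime) (hcard : Fintype.card Ω = p ^ d)
    (hprim : MulAction.IsPreprimitive G Ω) (hH : ∀ α : Ω, MulAction.stabilizer G α ≠ ⊥) (hep : ∀ (α : Ω) (ω : Ω), MulAction.IsPreprimitive (MulAction.stabilizer G α) (MulAction.orbit (MulAction.stabilizer G α) ω)) (α : Ω) :
    ∃ q : ℕ, q.Prime ∧ (∀ ω : Ω, ω ≠ α → Nat.card (MulAction.orbit (MulAction.stabilizer G α) ω) = q) ∧
      q ∣ p ^ d - 1 ∧ (∀ i : ℕ, 0 < i → i < d → ¬ q ∣ p ^ i - 1) ∧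
      ∃ T : Subgroup G, T ≤ MulAction.stabilizer G α ∧ MulAction.stabilizer G α ≤ Subgroup.normalizer (T : Set G) ∧ Nat.card T = q ∧
        (∃ h : G, MulAction.stabilizer G α = T ⊔ Subgroup.zpowers h) ∧ Nat.card (MulAction.stabilizer G α) ∣ q * d := by
  classical
  have E : SmallOrder.IsExtremelyPrimitive G Ω := ⟨hprim, hH, hep⟩
  obtain ⟨ω₁, hω₁⟩ := E.exists_ne_point α
  have : Nontrivial Ω := nontrivial_of_ne ω₁ α hω₁
  have hd0 : 0 < d := by
    rcases Nat.eq_zero_or_pos d with h | h
    · rw [h, pow_zero] at hcard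
      have := Fintype.one_lt_card (α := Ω)
      omega
    · exact h
  have := Fact.mk hp
  have : Nontrivial G := by
    by_contra h
    rw [not_nontrivial_iff_subsingleton] at h
    exact hH α (Subgroup.eq_bot_of_subsingleton _)
  -- a regular normal elementary abelian subgroup
  obtain ⟨N, hN⟩ := Core.exists_isMinNormal (G := G)
  have hNn := hN.1
  obtain ⟨hNc, r', hr', hNpow, hNpg⟩ := hN.elementaryAbelian_of_isSolvable
  have hNtr : MulAction.IsPretransitive N Ω := by
    apply MulAction.IsQuasiPreprimitive.isPretransitive_of_normal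
    intro h
    apply hN.2.1
    rw [eq_bot_iff]
    intro x hx
    refine Subgroup.mem_bot.mpr (FaithfulSMul.eq_of_smul_eq_smul (α := Ω) fun c => ?_)
    rw [one_smul]
    exact (h.symm ▸ Set.mem_univ c : c ∈ MulAction.fixedPoints N Ω) ⟨x, hx⟩
  have hfreeN : ∀ n ∈ N, n • α = α → n = 1 := by
    intro n hn hna
    refine FaithfulSMul.eq_of_smul_eq_smul (α := Ω) fun c => ?_
    obtain ⟨⟨m, hm⟩, rfl⟩ := hNtr.exists_smul_eq α c
    show n • m • α = (1 : G) • m • α
    rw [one_smul, ← mul_smul, show n * m = m * n from congrArg Subtype.val (hNc.is_comm.comm ⟨n, hn⟩ ⟨m, hm⟩),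
      mul_smul, hna]
  have hNbij := SmallOrder.bijective_smul N (fun ω => by
    obtain ⟨⟨n, hn⟩, h⟩ := hNtr.exists_smul_eq α ω; exact ⟨n, hn, h⟩) hfreeN
  have hNcard : Nat.card N = p ^ d := by
    rw [Nat.card_congr (Equiv.ofBijective _ hNbij), Nat.card_eq_fintype_card, hcard]
  have hrp : r' = p := by
    have := Fact.mk hr'
    obtain ⟨k, hk⟩ := hNpg.exists_card_eq
    rw [hNcard] at hk
    have hd1 : p ∣ r' ^ k := hk ▸ dvd_pow_self p hd0.ne'
    exact ((Nat.prime_dvd_prime_iff_eq hp hr').mp (hp.dvd_of_dvd_pow hd1)).symm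
  subst hrp
  -- the minimal normal subgroup of the stabilizer
  have : Nontrivial (MulAction.stabilizer G α) := (Subgroup.nontrivial_iff_ne_bot _).mpr (hH α)
  obtain ⟨A, hA⟩ := Core.exists_isMinNormal (G := MulAction.stabilizer G α)
  obtain ⟨hFA, hAc, q, hq, hApow, hApg⟩ := E.fittingSubgroup_eq hA (hA.le_fittingSubgroup inferInstance)
  have hAn := hA.1
  have := Fact.mk hq
  obtain ⟨e, he⟩ := hApg.exists_card_eq
  have hdvd : Nat.card A ∣ r' ^ d - 1 := hcard ▸ E.card_dvd A hA.2.1 hAc
  have he0 : e ≠ 0 := fun h => hA.2.1 (Subgroup.eq_bot_of_card_eq _ (by rw [he, h, pow_zero]))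
  have hqp : ¬ r' ∣ q := by
    intro h
    have h1 : r' ∣ r' ^ d - 1 := h.trans ((dvd_pow_self q he0).trans (he ▸ hdvd))
    have h2 : r' ∣ r' ^ d := dvd_pow_self r' hd0.ne'
    have h3 := Nat.dvd_sub h2 h1
    rw [Nat.sub_sub_self (Nat.one_le_pow _ _ hp.pos)] at h3
    exact hp.not_dvd_one h3
  -- conjugation on `N` as endomorphisms
  let : CommGroup N := { (inferInstance : Group N) with mul_comm := hNc.is_comm.comm }
  let c : MulAction.stabilizer G α →* AddMonoid.End (Additive N) :=
    { toFun := fun h => MonoidHom.toAdditive (MulAut.conjNormal (h : G) : MulAut N).toMonoidHom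
      map_one' := AddMonoidHom.ext fun x => Additive.toMul.injective (Subtype.ext (by
        show ((MulAut.conjNormal (1 : G) (Additive.toMul x) : N) : G) = _
        rw [map_one]; rfl))
      map_mul' := fun g h => AddMonoidHom.ext fun x => Additive.toMul.injective (Subtype.ext (by
        show ((MulAut.conjNormal ((g : G) * h) (Additive.toMul x) : N) : G) = _
        rw [map_mul]; rfl)) }
  have hcv : ∀ h x, (((Additive.toMul (c h x)) : N) : G) = (h : G) * ((Additive.toMul x : N) : G) * (h : G)⁻¹ :=
    fun h x => MulAut.conjNormal_apply (h : G) (Additive.toMul x)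
  have hcfix : ∀ h x, c h x = x ↔ (h : G) • ((Additive.toMul x : N) : G) • α = ((Additive.toMul x : N) : G) • α := by
    intro h x
    have e1 : (h : G) • ((Additive.toMul x : N) : G) • α = ((Additive.toMul (c h x) : N) : G) • α := by
      rw [hcv, mul_smul, mul_smul, show (h : G)⁻¹ • α = α from inv_smul_eq_iff.mpr h.2.symm]
    rw [e1]
    exact ⟨fun e => by rw [e], fun e => Additive.toMul.injective (hNbij.1 e)⟩
  have hcinj : Function.Injective c := by
    rw [injective_iff_map_eq_one]
    intro h hh
    refine Subtype.ext (FaithfulSMul.eq_of_smul_eq_smul (α := Ω) fun ω => ?_)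
    obtain ⟨n, rfl⟩ := hNbij.2 ω
    show (h : G) • (n : G) • α = (1 : G) • (n : G) • α
    rw [one_smul]
    exact (hcfix h (Additive.ofMul n)).mp (by rw [hh]; rfl)
  have hfreeA : ∀ a ∈ A, a ≠ 1 → ∀ x, c a x = x → x = 0 := by
    intro a ha ha1 x hx
    by_contra hx0
    refine ha1 (E.abelian_free (ω := ((Additive.toMul x : N) : G) • α) (fun h => hx0 ?_) A hA.2.1
      (fun b hb => congrArg Subtype.val (hAc.is_comm.comm ⟨a, ha⟩ ⟨b, hb⟩)) ((hcfix a x).mp hx))
    exact Additive.toMul.injective (Subtype.ext (hfreeN _ (Additive.toMul x).2 h))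
  have hpV : ∀ x : Additive N, r' • x = 0 := fun x => Additive.toMul.injective (Subtype.ext (by
    show ((Additive.toMul x ^ r' : N) : G) = 1
    rw [Subgroup.coe_pow]; exact hNpow _ (Additive.toMul x).2))
  have hVcard : Nat.card (Additive N) = r' ^ d := by rw [Nat.card_congr (Additive.toMul (α := N)), hNcard]
  have : Nontrivial (Additive N) := Finite.one_lt_card_iff_nontrivial.mp (hVcard ▸ Nat.one_lt_pow hd0.ne' hp.one_lt)
  -- `A` has prime order
  obtain ⟨a, ha, ha1⟩ := A.bot_or_exists_ne_one.resolve_left hA.2.1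
  have haord : orderOf a = q := orderOf_eq_prime (hApow a ha) ha1
  have hAz : A = Subgroup.zpowers a := by
    refine le_antisymm (fun b hb => ?_) (Subgroup.zpowers_le.mpr ha)
    let : CommGroup A := { (inferInstance : Group A) with mul_comm := hAc.is_comm.comm }
    have hqV : ∀ x : Additive N, q • x = 0 → x = 0 := fun x hx => by
      have h1 := addOrderOf_dvd_of_nsmul_eq_zero hx
      have h2 := addOrderOf_dvd_of_nsmul_eq_zero (hpV x)
      rcases (Nat.dvd_prime hp).mp h2 with h3 | h3
      · exact AddMonoid.addOrderOf_eq_one_iff.mp h3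
      · exact absurd (h3 ▸ h1) hqp
    have := SmallOrder.mem_zpowers_of_fpf (c.comp A.subtype) hq (fun x => Subtype.ext (hApow _ x.2))
      (fun x hx v hv => hfreeA x x.2 (fun h => hx (Subtype.ext h)) v hv) hqV
      (a := (⟨a, ha⟩ : A)) (fun h => ha1 (congrArg Subtype.val h)) ⟨b, hb⟩
    obtain ⟨i, hi⟩ := Subgroup.mem_zpowers_iff.mp this
    exact Subgroup.mem_zpowers_iff.mpr ⟨i, congrArg Subtype.val hi⟩
  have hAcard : Nat.card A = q := by rw [hAz, Nat.card_zpowers, haord]
  have hCA : Subgroup.centralizer ({a} : Set (MulAction.stabilizer G α)) = A := by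
    refine le_antisymm (fun h hh => E.centralizer_le A hA.2.1 hAc ?_) (fun b hb => ?_)
    · rw [Subgroup.mem_centralizer_iff]
      intro b hb
      rw [SetLike.mem_coe, hAz] at hb
      obtain ⟨i, rfl⟩ := Subgroup.mem_zpowers_iff.mp hb
      exact ((show Commute h a from Subgroup.mem_centralizer_singleton_iff.mp hh).zpow_right i).eq.symm
    · exact Subgroup.mem_centralizer_singleton_iff.mpr (congrArg Subtype.val (hAc.is_comm.comm ⟨b, hb⟩ ⟨a, ha⟩))
  have hnorm : ∀ h : MulAction.stabilizer G α, ∃ j : ℕ, h * a * h⁻¹ = a ^ j := fun h => by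
    have h1 : h * a * h⁻¹ ∈ Subgroup.zpowers a := hAz ▸ hAn.conj_mem a ha h
    obtain ⟨j, hj⟩ := mem_powers_iff_mem_zpowers.mpr h1
    exact ⟨j, hj.symm⟩
  -- invariant subgroups of `N` have order `≡ 1 mod q`
  have hinv : ∀ W : AddSubgroup (Additive N), (∀ x ∈ W, c a x ∈ W) → q ∣ Nat.card W - 1 := by
    intro W hW
    have hWA : ∀ b ∈ A, ∀ x ∈ W, c b x ∈ W := by
      intro b hb
      rw [hAz] at hb
      obtain ⟨i, rfl⟩ := mem_powers_iff_mem_zpowers.mpr hb
      show ∀ x ∈ W, c (a ^ i) x ∈ W
      clear hb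
      induction i with
      | zero => intro x hx; rw [pow_zero, map_one]; exact hx
      | succ i ih => intro x hx; rw [pow_succ', map_mul]; exact hW _ (ih x hx)
    let act : MulAction A W :=
      { smul := fun b x => ⟨c b x, hWA b b.2 x x.2⟩
        one_smul := fun x => Subtype.ext (by show c ((1 : A) : MulAction.stabilizer G α) x = x; rw [OneMemClass.coe_one, map_one]; rfl)
        mul_smul := fun b b' x => Subtype.ext (by show c ((b * b' : A) : MulAction.stabilizer G α) x = c b (c b' x); rw [Subgroup.coe_mul, map_mul]; rfl) }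
    have hpg : IsPGroup q A := hApg
    have h1 := hpg.card_modEq_card_fixedPoints W
    have h2 : MulAction.fixedPoints A W = {0} := by
      ext x
      rw [Set.mem_singleton_iff, MulAction.mem_fixedPoints]
      constructor
      · intro hx
        exact Subtype.ext (hfreeA a ha ha1 x (congrArg Subtype.val (hx ⟨a, ha⟩)))
      · rintro rfl b
        exact Subtype.ext (map_zero (c b))
    rw [h2, Nat.card_coe_set_eq, Set.ncard_singleton] at h1
    exact (Nat.modEq_iff_dvd' Nat.card_pos).mp h1.symm
  -- the order of `q` modulo powers of `p`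
  have hkey : ∀ i, 0 < i → i < d → ¬ q ∣ r' ^ i - 1 := by
    intro i hi hid hqi
    by_cases htop : A = ⊤
    · have hirr : ∀ W : AddSubgroup (Additive N), (∀ x ∈ W, c a x ∈ W) → W = ⊥ ∨ W = ⊤ := by
        intro W hW
        let M : Subgroup G :=
          { carrier := {n | ∃ hn : n ∈ N, Additive.ofMul (⟨n, hn⟩ : N) ∈ W}
            one_mem' := ⟨N.one_mem, W.zero_mem⟩
            mul_mem' := fun ⟨hn, h1⟩ ⟨hm, h2⟩ => ⟨N.mul_mem hn hm, W.add_mem h1 h2⟩
            inv_mem' := fun ⟨hn, h1⟩ => ⟨N.inv_mem hn, W.neg_mem h1⟩ }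
        have hMn : M.Normal := by
          refine ⟨fun n hn g => ?_⟩
          obtain ⟨hnN, hnW⟩ := hn
          obtain ⟨⟨m, hm⟩, hma⟩ := hNbij.2 (g • α)
          have hma' : m • α = g • α := hma
          have hh : m⁻¹ * g ∈ MulAction.stabilizer G α :=
            show (m⁻¹ * g) • α = α by rw [mul_smul, ← hma', inv_smul_smul]
          have h3 : ∀ j : ℕ, ∀ x ∈ W, c (a ^ j) x ∈ W := by
            intro j
            induction j with
            | zero => intro x hx; rw [pow_zero, map_one]; exact hx
            | succ j ih => intro x hx; rw [pow_succ', map_mul]; exact hW _ (ih x hx)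
          obtain ⟨j, hj⟩ := mem_powers_iff_mem_zpowers.mpr
            (hAz ▸ htop.symm ▸ Subgroup.mem_top _ : (⟨_, hh⟩ : MulAction.stabilizer G α) ∈ Subgroup.zpowers a)
          have h4 : c ⟨_, hh⟩ (Additive.ofMul (⟨n, hnN⟩ : N)) ∈ W := hj ▸ h3 j _ hnW
          have h6 : g * n * g⁻¹ = (m⁻¹ * g) * n * (m⁻¹ * g)⁻¹ := by
            have e1 : g * n * g⁻¹ = m * ((m⁻¹ * g) * n * (m⁻¹ * g)⁻¹) * m⁻¹ := by group
            rw [e1, show m * ((m⁻¹ * g) * n * (m⁻¹ * g)⁻¹) = ((m⁻¹ * g) * n * (m⁻¹ * g)⁻¹) * m from
              congrArg Subtype.val (hNc.is_comm.comm ⟨m, hm⟩ ⟨_, hNn.conj_mem n hnN _⟩), mul_inv_cancel_right]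
          rw [h6]
          exact ⟨hNn.conj_mem n hnN _, by
            convert h4 using 1
            exact Additive.toMul.injective (Subtype.ext (hcv ⟨_, hh⟩ (Additive.ofMul (⟨n, hnN⟩ : N))).symm)⟩
        rcases hN.2.2 M hMn (fun n hn => hn.1) with h | h
        · refine Or.inl ((AddSubgroup.eq_bot_iff_forall _).mpr fun x hx => ?_)
          have h1 : ((Additive.toMul x : N) : G) ∈ M := ⟨(Additive.toMul x).2, hx⟩
          rw [h, Subgroup.mem_bot] at h1
          exact Additive.toMul.injective (Subtype.ext h1)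
        · refine Or.inr (eq_top_iff.mpr fun x _ => ?_)
          exact (h.symm ▸ (Additive.toMul x).2 : ((Additive.toMul x : N) : G) ∈ M).2
      obtain ⟨h1, -⟩ := SmallOrder.cyclic_irreducible hd0 hVcard hpV c a hnorm hcinj hirr
      refine h1 i hi hid ?_
      have h2 : r' ^ i % q = 1 := by
        obtain ⟨t, ht⟩ := hqi
        have : r' ^ i = 1 + q * t := by have := Nat.one_le_pow i r' hp.pos; omega
        rw [this, Nat.add_mul_mod_self_left, Nat.mod_eq_of_lt hq.one_lt]
      rw [← pow_mod_orderOf, haord, h2, pow_one]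
    · obtain ⟨h, -, hhA⟩ := SetLike.exists_of_lt (lt_top_iff_ne_top.mpr htop)
      -- every non-zero vector is moved by exactly one element of `A` to a vector fixed by `h`
      let φ : A → A := fun b => ⟨h * b * h⁻¹ * (b : MulAction.stabilizer G α)⁻¹, A.mul_mem (hAn.conj_mem b b.2 h) (A.inv_mem b.2)⟩
      have hφ : Function.Bijective φ := by
        refine Finite.injective_iff_bijective.mp fun b b' he => ?_
        have he' := congrArg Subtype.val he
        simp only [φ] at he'
        by_contra hne
        have h2 : h * ((b'⁻¹ * b : A) : MulAction.stabilizer G α) * h⁻¹ = ((b'⁻¹ * b : A) : MulAction.stabilizer G α) := by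
          push_cast
          have e1 : h * b * h⁻¹ = h * b' * h⁻¹ * (b' : MulAction.stabilizer G α)⁻¹ * b := mul_inv_eq_iff_eq_mul.mp he'
          have e2 : h * ((b' : MulAction.stabilizer G α)⁻¹ * b) * h⁻¹ = (h * b' * h⁻¹)⁻¹ * (h * b * h⁻¹) := by group
          rw [e2, e1]; group
        refine hhA (E.centralizer_le A hA.2.1 hAc (Subgroup.mem_centralizer_iff.mpr fun x hx => ?_))
        have hgen : A ≤ Subgroup.zpowers ((b'⁻¹ * b : A) : MulAction.stabilizer G α) := by
          refine (Subgroup.eq_of_le_of_card_ge (Subgroup.zpowers_le.mpr (b'⁻¹ * b : A).2) ?_).ge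
          rw [hAcard, Nat.card_zpowers, orderOf_eq_prime (hApow _ (b'⁻¹ * b : A).2)
            (fun e => hne (inv_mul_eq_one.mp (Subtype.ext e)).symm)]
        obtain ⟨k, rfl⟩ := Subgroup.mem_zpowers_iff.mp (hgen hx)
        exact ((show Commute h _ from mul_inv_eq_iff_eq_mul.mp h2).zpow_right k).eq.symm
      let Fx : AddSubgroup (Additive N) :=
        { carrier := {x | c h x = x}
          zero_mem' := map_zero _
          add_mem' := fun {x y} (hx : c h x = x) (hy : c h y = y) => by
            show c h (x + y) = x + y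
            rw [map_add, hx, hy]
          neg_mem' := fun {x} (hx : c h x = x) => by
            show c h (-x) = -x
            rw [map_neg, hx] }
      have huniq : ∀ b₁ ∈ A, ∀ b₂ ∈ A, ∀ x : Additive N, x ≠ 0 → c b₁ x = c b₂ x → b₁ = b₂ := by
        intro b₁ h1 b₂ h2 x hx he
        by_contra hne
        refine hx (hfreeA (b₂⁻¹ * b₁) (A.mul_mem (A.inv_mem h2) h1) (fun e => hne (inv_mul_eq_one.mp e).symm) x ?_)
        rw [map_mul]
        show c b₂⁻¹ (c b₁ x) = x
        rw [he]
        show (c b₂⁻¹ * c b₂) x = x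
        rw [← map_mul, inv_mul_cancel, map_one]; rfl
      let θ : A × {x : Fx // x ≠ 0} → {x : Additive N // x ≠ 0} := fun q => ⟨c q.1 (q.2.1 : Additive N), fun e => q.2.2 (Subtype.ext (by
        have h1 := congrArg (c ((q.1 : MulAction.stabilizer G α))⁻¹) e
        rw [map_zero] at h1
        have h2 : (c ((q.1 : MulAction.stabilizer G α))⁻¹ * c q.1) (q.2.1 : Additive N) = 0 := h1
        rw [← map_mul, inv_mul_cancel, map_one] at h2
        exact h2))⟩
      have hcomp : ∀ (b : A) (x : Additive N), c h (c b x) = c ((φ b * b : A) : MulAction.stabilizer G α) (c h x) := by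
        intro b x
        show (c h * c b) x = (c ((φ b * b : A) : MulAction.stabilizer G α) * c h) x
        rw [← map_mul, ← map_mul]
        simp only [φ, Subgroup.coe_mul]
        rw [inv_mul_cancel_right, inv_mul_cancel_right]
      have hθ : Function.Bijective θ := by
        constructor
        · rintro ⟨b, ⟨x, hx⟩, hx0⟩ ⟨b', ⟨x', hx'⟩, hx0'⟩ he
          have he' : c b x = c b' x' := congrArg Subtype.val he
          have hcx : c h x = x := hx
          have hcx' : c h x' = x' := hx'
          have h1 := hcomp b x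
          rw [hcx, he', hcomp b' x', hcx'] at h1
          have h2 : c ((b'⁻¹ * b : A) : MulAction.stabilizer G α) x = x' := by
            show c ((b' : MulAction.stabilizer G α)⁻¹ * b) x = x'
            rw [map_mul]
            show c (b' : MulAction.stabilizer G α)⁻¹ (c b x) = x'
            rw [he']
            show (c (b' : MulAction.stabilizer G α)⁻¹ * c b') x' = x'
            rw [← map_mul, inv_mul_cancel, map_one]; rfl
          have hxx : x ≠ 0 := fun e => hx0 (Subtype.ext e)
          have h3 : ((φ b' * b' * (b'⁻¹ * b) : A) : MulAction.stabilizer G α) = ((φ b * b : A) : MulAction.stabilizer G α) := by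
            refine huniq _ (φ b' * b' * (b'⁻¹ * b) : A).2 _ (φ b * b : A).2 x hxx ?_
            rw [Subgroup.coe_mul, map_mul]
            show c _ (c _ x) = _
            rw [h2, h1]
          have h4 : φ b' = φ b := by
            have := Subtype.ext h3
            rw [mul_assoc (φ b'), mul_inv_cancel_left] at this
            exact mul_right_cancel this
          have hbb := hφ.1 h4
          subst hbb
          have : x' = x := by rw [← h2, inv_mul_cancel, OneMemClass.coe_one, map_one]; rfl
          subst this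
          rfl
        · rintro ⟨y, hy⟩
          obtain ⟨d₀, hd₀, hde⟩ := E.normal_transitive (ω := ((Additive.toMul y : N) : G) • α)
            (fun e => hy (Additive.toMul.injective (Subtype.ext (hfreeN _ (Additive.toMul y).2 e)))) A hA.2.1 h
          have hde' : c h y = c d₀ y := by
            apply Additive.toMul.injective
            refine hNbij.1 ?_
            show ((Additive.toMul (c h y) : N) : G) • α = ((Additive.toMul (c d₀ y) : N) : G) • α
            rw [hcv, hcv, mul_smul, mul_smul, mul_smul, mul_smul,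
              show (h : G)⁻¹ • α = α from inv_smul_eq_iff.mpr h.2.symm,
              show (d₀ : G)⁻¹ • α = α from inv_smul_eq_iff.mpr d₀.2.symm]
            exact hde.symm
          obtain ⟨b, hb⟩ := hφ.2 (⟨d₀, hd₀⟩⁻¹ : A)
          have hfix : c h (c b y) = c b y := by
            rw [hcomp, hde', hb]
            show (c _ * c d₀) y = _
            rw [← map_mul]
            congr 2
            have hcc : Commute (d₀ : MulAction.stabilizer G α) b := congrArg Subtype.val (hAc.is_comm.comm ⟨d₀, hd₀⟩ b)
            push_cast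
            rw [mul_assoc, ← hcc.eq, inv_mul_cancel_left]
          refine ⟨(b⁻¹, ⟨⟨c b y, hfix⟩, fun e => hy ?_⟩), Subtype.ext ?_⟩
          · have h1 : c b y = 0 := congrArg Subtype.val e
            have h2 := congrArg (c ((b : MulAction.stabilizer G α))⁻¹) h1
            rw [map_zero] at h2
            have h3 : (c ((b : MulAction.stabilizer G α))⁻¹ * c b) y = 0 := h2
            rw [← map_mul, inv_mul_cancel, map_one] at h3
            exact h3
          · show c ((b⁻¹ : A) : MulAction.stabilizer G α) (c b y) = y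
            show (c ((b⁻¹ : A) : MulAction.stabilizer G α) * c b) y = y
            rw [← map_mul, Subgroup.coe_inv, inv_mul_cancel, map_one]; rfl
      have hne : ∀ {X : Type _} [Finite X] (x₀ : X), Nat.card {x : X // x ≠ x₀} = Nat.card X - 1 := fun {X} _ x₀ => by
        have := Fintype.ofFinite X
        rw [Nat.card_eq_fintype_card, Nat.card_eq_fintype_card, Fintype.card_subtype_compl, Fintype.card_subtype_eq]
      have hcount : q * (Nat.card Fx - 1) = r' ^ d - 1 := by
        rw [← hAcard, ← hVcard, ← hne (0 : Fx), ← hne (0 : Additive N), ← Nat.card_prod]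
        exact Nat.card_congr (Equiv.ofBijective θ hθ)
      obtain ⟨s, hsd, hs⟩ := (Nat.dvd_prime_pow hp).mp (hVcard ▸ Fx.card_addSubgroup_dvd_card)
      rw [hs] at hcount
      -- arithmetic
      have h1 : 1 ≤ r' ^ d - 1 := by have := Nat.one_lt_pow hd0.ne' hp.one_lt; omega
      have hs0 : s ≠ 0 := fun e => by rw [e, pow_zero, Nat.sub_self, mul_zero] at hcount; omega
      have hsd' : s ∣ d := by
        have h2 : r' ^ s - 1 ∣ r' ^ d - 1 := ⟨q, by rw [← hcount, mul_comm]⟩
        have h3 := Nat.gcd_eq_left h2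
        rw [Nat.pow_sub_one_gcd_pow_sub_one] at h3
        have h4 : r' ^ s.gcd d = r' ^ s := by
          have := Nat.one_le_pow (s.gcd d) r' hp.pos
          have := Nat.one_le_pow s r' hp.pos
          omega
        exact Nat.gcd_eq_left_iff_dvd.mp (Nat.pow_right_injective hp.two_le h4)
      have hsne : s ≠ d := fun e => by
        rw [e] at hcount
        have := hq.two_le
        nlinarith
      have hg : q ∣ r' ^ i.gcd d - 1 := by
        rw [← Nat.pow_sub_one_gcd_pow_sub_one]
        exact Nat.dvd_gcd hqi (((dvd_pow_self q he0).trans (dvd_of_eq he.symm)).trans hdvd)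
      have hgpos : 0 < i.gcd d := Nat.gcd_pos_of_pos_left d hi
      have hdouble : ∀ t, t ∣ d → t ≠ d → 2 * t ≤ d := by
        intro t ⟨k, hk⟩ htd
        rcases k with _ | _ | k
        · omega
        · exact absurd (by rw [hk]; ring) htd
        · rw [hk]; have := Nat.mul_le_mul_left t (show 2 ≤ k + 1 + 1 by omega); linarith
      have hg2 := hdouble _ (Nat.gcd_dvd_right i d) (fun e => by
        have := Nat.le_of_dvd hi (Nat.gcd_dvd_left i d); omega)
      have hs2 := hdouble _ hsd' hsne
      have hqle : q ≤ r' ^ i.gcd d - 1 := Nat.le_of_dvd (by have := Nat.one_lt_pow hgpos.ne' hp.one_lt; omega) hg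
      have hprod : r' ^ i.gcd d * r' ^ s ≤ r' ^ d := by
        rw [← pow_add]; exact Nat.pow_le_pow_right hp.pos (by omega)
      have hg1 := Nat.one_lt_pow hgpos.ne' hp.one_lt
      have hs1 := Nat.one_lt_pow hs0 hp.one_lt
      obtain ⟨x, hx⟩ : ∃ x, r' ^ i.gcd d = x + 2 := ⟨r' ^ i.gcd d - 2, by omega⟩
      obtain ⟨y, hy⟩ : ∃ y, r' ^ s = y + 2 := ⟨r' ^ s - 2, by omega⟩
      rw [hx, hy] at hprod
      rw [hx] at hqle
      rw [hy] at hcount
      have hb1 : q * (y + 2 - 1) ≤ (x + 1) * (y + 1) := Nat.mul_le_mul (by omega) (by omega)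
      have hb2 : (x + 2) * (y + 2) = (x + 1) * (y + 1) + x + y + 3 := by ring
      omega
  -- the field structure
  obtain ⟨-, hidx⟩ := SmallOrder.cyclic_irreducible hd0 hVcard hpV c a hnorm hcinj (fun W hW => by
    obtain ⟨i, hid, hi⟩ := (Nat.dvd_prime_pow hp).mp (hVcard ▸ W.card_addSubgroup_dvd_card)
    rcases Nat.eq_zero_or_pos i with h0 | h0
    · exact Or.inl (AddSubgroup.eq_bot_of_card_eq _ (by rw [hi, h0, pow_zero]))
    rcases Nat.eq_or_lt_of_le hid with h1 | h1
    · exact Or.inr (AddSubgroup.eq_top_of_card_eq _ (by rw [hi, h1, hVcard]))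
    · exact absurd (hi ▸ hinv W hW) (hkey i h0 h1))
  rw [hCA] at hidx
  have hHcard : Nat.card (MulAction.stabilizer G α) = q * A.index := by rw [← hAcard, A.card_mul_index]
  refine ⟨q, hq, fun ω hω => by rw [E.orbit_card_eq hω A hA.2.1 hAc, hAcard], hAcard ▸ hdvd, hkey,
    A.map (MulAction.stabilizer G α).subtype, Subgroup.map_subtype_le _, fun g hg => ?_, ?_, ?_,
    hHcard ▸ Nat.mul_dvd_mul_left q hidx⟩
  · rw [Subgroup.mem_normalizer_iff]
    intro n
    constructor
    · rintro ⟨b, hb, rfl⟩
      exact ⟨⟨g, hg⟩ * b * (⟨g, hg⟩ : MulAction.stabilizer G α)⁻¹, hAn.conj_mem b hb _, rfl⟩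
    · rintro ⟨b, hb, hbe⟩
      have hbe' : ((b : MulAction.stabilizer G α) : G) = g * n * g⁻¹ := hbe
      refine ⟨(⟨g, hg⟩ : MulAction.stabilizer G α)⁻¹ * b * (⟨g, hg⟩ : MulAction.stabilizer G α),
        by simpa using hAn.conj_mem b hb (⟨g, hg⟩ : MulAction.stabilizer G α)⁻¹, ?_⟩
      show g⁻¹ * (b : G) * g = n
      rw [hbe']; group
  · rw [Subgroup.card_map_of_injective (MulAction.stabilizer G α).subtype_injective, hAcard]
  · have hcyc : IsCyclic (MulAction.stabilizer G α ⧸ A) := by
      have : IsCyclic A := isCyclic_of_prime_card (p := q) hAcard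
      let φ : MulAction.stabilizer G α →* MulAut A := MulAut.conjNormal
      have hker : φ.ker = A := by
        conv_rhs => rw [← hCA]
        ext g
        rw [MonoidHom.mem_ker, Subgroup.mem_centralizer_singleton_iff]
        constructor
        · intro hg
          have := congrArg Subtype.val (DFunLike.congr_fun hg (⟨a, ha⟩ : A))
          exact mul_inv_eq_iff_eq_mul.mp this
        · intro hg
          refine MulEquiv.ext fun b => Subtype.ext ?_
          show g * (b : MulAction.stabilizer G α) * g⁻¹ = b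
          obtain ⟨k, hk⟩ := Subgroup.mem_zpowers_iff.mp (hAz.le b.2)
          rw [← hk, ((show Commute g a from hg).zpow_right k).eq, mul_inv_cancel_right]
      have : NeZero (Nat.card A) := ⟨Nat.card_pos.ne'⟩
      have : IsCyclic (MulAut A) := by
        have h1 := IsCyclic.mulAutMulEquiv A
        have : IsCyclic (ZMod (Nat.card A))ˣ := by
          rw [hAcard]; infer_instance
        exact isCyclic_of_surjective h1.symm h1.symm.surjective
      let f := QuotientGroup.lift A φ hker.ge
      have hf : Function.Injective f := by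
        rw [injective_iff_map_eq_one]
        intro x
        obtain ⟨x, rfl⟩ := QuotientGroup.mk'_surjective A x
        intro hx
        exact (QuotientGroup.eq_one_iff x).mpr ((SetLike.ext_iff.mp hker x).mp hx)
      exact isCyclic_of_injective f hf
    obtain ⟨z, hz⟩ := hcyc.exists_generator
    obtain ⟨h, rfl⟩ := QuotientGroup.mk'_surjective A z
    refine ⟨(h : G), le_antisymm (fun g hg => ?_) (sup_le (Subgroup.map_subtype_le _) (Subgroup.zpowers_le.mpr h.2))⟩
    obtain ⟨k, hk⟩ := Subgroup.mem_zpowers_iff.mp (hz (QuotientGroup.mk' A ⟨g, hg⟩))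
    rw [← map_zpow] at hk
    have hmem : (⟨g, hg⟩ : MulAction.stabilizer G α) * (h ^ k)⁻¹ ∈ A := by
      rw [← QuotientGroup.eq_one_iff, QuotientGroup.mk_mul, QuotientGroup.mk_inv]
      exact mul_inv_eq_one.mpr hk.symm
    have e1 : g = (((⟨g, hg⟩ : MulAction.stabilizer G α) * (h ^ k)⁻¹ : MulAction.stabilizer G α) : G) * (h : G) ^ k := by
      push_cast; group
    rw [e1]
    exact Subgroup.mul_mem _ (le_sup_left (b := Subgroup.zpowers (h : G)) ⟨_, hmem, rfl⟩)
      (Subgroup.zpow_mem _ (le_sup_right (a := A.map (MulAction.stabilizer G α).subtype) (Subgroup.mem_zpowers (h : G))) k)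

end Cfsg.Agent.S3496
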