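import Cfsg.Statements.S3497
import Cfsg.Agent.SmallOrder.ExtStabilizer

set_option autoImplicit false
open Cfsg

namespace Cfsg.Agent.S3497

/-- Restrictions on the point stabilizer of an extremely primitive group. Let a finite group G act faithfully and primitively on a finite set Ω with point stabilizers H = G_α whose order is neither 1 nor a prime, each acting primitively on every one of its orbits. Then H has trivial center, the Fitting subgroup F(H) is an elementary abelian p-group for some prime p, and if F(H) ≠ 1 has order p ^ e then p ^ e divides the number of points minus one and H / F(H) embeds in GL_e(p) (there is a homomorphism from H to GL_e(p) with kernel exactly F(H)). -/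
theorem result {G : Type*} [Group G] [Finite G] {Ω : Type*} [Fintype Ω] [MulAction G Ω] [FaithfulSMul G Ω] (hprim : MulAction.IsPreprimitive G Ω) (hep : ∀ (α : Ω) (ω : Ω), MulAction.IsPreprimitive (MulAction.stabilizer G α) (MulAction.orbit (MulAction.stabilizer G α) ω)) (α : Ω)
    (hH1 : MulAction.stabilizer G α ≠ ⊥) (hHp : ¬ (Nat.card (MulAction.stabilizer G α)).Prime) :
    Subgroup.center (MulAction.stabilizer G α) = ⊥ ∧
    IsMulCommutative (Cfsg.fittingSubgroup (MulAction.stabilizer G α)) ∧
    ∃ p e : ℕ, p.Prime ∧ Nat.card (Cfsg.fittingSubgroup (MulAction.stabilizer G α)) = p ^ e ∧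
      (∀ x ∈ Cfsg.fittingSubgroup (MulAction.stabilizer G α), x ^ p = 1) ∧
      (Cfsg.fittingSubgroup (MulAction.stabilizer G α) ≠ ⊥ →
        p ^ e ∣ Fintype.card Ω - 1 ∧
        ∃ φ : MulAction.stabilizer G α →* GL (Fin e) (ZMod p), φ.ker = Cfsg.fittingSubgroup (MulAction.stabilizer G α)) := by
  classical
  have hΩ : Nontrivial Ω := by
    by_contra h
    rw [not_nontrivial_iff_subsingleton] at h
    exact hH1 ((eq_bot_iff).mpr fun x _ => Subgroup.mem_bot.mpr
      (FaithfulSMul.eq_of_smul_eq_smul (α := Ω) fun c => Subsingleton.elim _ _))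
  have E : SmallOrder.IsExtremelyPrimitive G Ω := by
    refine ⟨hprim, fun β => ?_, hep⟩
    obtain ⟨g, hg⟩ := MulAction.exists_smul_eq G α β
    intro h
    apply hH1
    rw [eq_bot_iff]
    intro x hx
    have h1 : g * x * g⁻¹ ∈ MulAction.stabilizer G β := by
      show (g * x * g⁻¹) • β = β
      rw [← hg, mul_smul, mul_smul, inv_smul_smul, show x • α = α from hx]
    rw [h, Subgroup.mem_bot] at h1
    exact Subgroup.mem_bot.mpr (conj_eq_one_iff.mp h1)
  by_cases hF : Cfsg.fittingSubgroup (MulAction.stabilizer G α) = ⊥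
  · refine ⟨E.center_eq_bot hHp, ?_, 2, 0, Nat.prime_two, ?_, fun x hx => ?_, fun h => absurd hF h⟩
    · rw [hF]; infer_instance
    · rw [hF, Subgroup.card_bot, pow_zero]
    · rw [hF, Subgroup.mem_bot] at hx; rw [hx, one_pow]
  obtain ⟨A, hA, hAF⟩ := Core.exists_isMinNormal_le (Core.fittingSubgroup_normal _) hF
  obtain ⟨hFA, hc, p, hp, hpow, hpg⟩ := E.fittingSubgroup_eq hA hAF
  have := hA.1
  have := Fact.mk hp
  obtain ⟨e, he⟩ := hpg.exists_card_eq
  rw [hFA]
  refine ⟨E.center_eq_bot hHp, hc, p, e, hp, he, hpow, fun _ => ⟨he ▸ E.card_dvd A hA.2.1 hc, ?_⟩⟩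
  obtain ⟨φ, hφ⟩ := SmallOrder.exists_conj_GL A hc hpow he
  refine ⟨φ, hφ.trans (le_antisymm (E.centralizer_le A hA.2.1 hc) ?_)⟩
  intro a ha
  exact Subgroup.mem_centralizer_iff.mpr fun b hb => congrArg Subtype.val (hc.is_comm.comm ⟨b, hb⟩ ⟨a, ha⟩)

end Cfsg.Agent.S3497
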