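import Cfsg.Statements.S3498
import Mathlib

set_option autoImplicit false
open Cfsg

namespace Cfsg.Agent.S3498

/-- A maximal subgroup of a finite almost simple group does not have prime order. Here G is almost simple in the sense that it has a non-abelian simple normal subgroup T with trivial centralizer. -/
theorem result {G : Type*} [Group G] [Finite G] (T : Subgroup G) [T.Normal] (hT : IsSimpleGroup T) (hTc : ¬ IsMulCommutative T)
    (hC : Subgroup.centralizer (T : Set G) = ⊥) (H : Subgroup G) (hmax : IsCoatom H) : ¬ (Nat.card H).Prime := by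
  classical
  intro hp
  obtain ⟨p, hpH⟩ : ∃ p, Nat.card H = p := ⟨_, rfl⟩
  rw [hpH] at hp
  have := Fact.mk hp
  have hH : H ≠ ⊤ := hmax.1
  have hTbot : T ≠ ⊥ := fun h => by
    subst h
    exact hTc ⟨⟨fun a b => Subsingleton.elim _ _⟩⟩
  have hTp : ∀ (r : ℕ), r.Prime → ¬ IsPGroup r T := fun r hr hrT => by
    have := Fact.mk hr
    have := (Subgroup.nontrivial_iff_ne_bot T).mpr hTbot
    have hc : Nontrivial (Subgroup.center T) := hrT.center_nontrivial
    have hc' : Subgroup.center T = ⊤ :=
      (Subgroup.Normal.eq_bot_or_eq_top (inferInstance : (Subgroup.center T).Normal)).resolve_left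
        ((Subgroup.nontrivial_iff_ne_bot _).mp hc)
    exact hTc ⟨⟨fun a b => Subgroup.mem_center_iff.mp (hc' ▸ Subgroup.mem_top b : b ∈ Subgroup.center T) a⟩⟩
  have hsub : ∀ M : Subgroup G, M.Normal → M ≠ ⊥ → T ≤ M := by
    intro M hM hMne
    rcases (inferInstance : (M.subgroupOf T).Normal).eq_bot_or_eq_top with h | h
    · exfalso
      apply hMne
      rw [← le_bot_iff, ← hC]
      exact Subgroup.commutator_eq_bot_iff_le_centralizer.mp
        (le_bot_iff.mp ((Subgroup.commutator_le_inf M T).trans
          (le_bot_iff.mpr (disjoint_iff.mp (Subgroup.subgroupOf_eq_bot.mp h)))))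
    · exact Subgroup.subgroupOf_eq_top.mp h
  have hHne : H ≠ ⊥ := fun h => hp.one_lt.ne' (by rw [← hpH, h, Subgroup.card_bot])
  have hHn : ¬ H.Normal := fun hn => by
    have hTH := hsub H hn hHne
    rcases (Nat.dvd_prime hp).mp ((Subgroup.card_dvd_of_le hTH).trans (dvd_of_eq hpH)) with h | h
    · exact hTbot (Subgroup.card_eq_one.mp h)
    · exact hTp p hp (IsPGroup.of_card (h.trans (pow_one p).symm))
  have hself : Subgroup.normalizer (H : Set G) = H := by
    rcases (Subgroup.le_normalizer (H := H)).eq_or_lt with e | e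
    · exact e.symm
    · exact absurd (Subgroup.normalizer_eq_top_iff.mp (hmax.2 _ e)) hHn
  -- H is a Sylow subgroup
  have hHp : IsPGroup p H := IsPGroup.of_card (show Nat.card H = p ^ 1 by rw [pow_one, hpH])
  obtain ⟨P, hP⟩ := hHp.exists_le_sylow
  have hPH : (P : Subgroup G) = H := by
    by_contra hne
    have hlt : H.subgroupOf (P : Subgroup G) < ⊤ :=
      lt_top_iff_ne_top.mpr fun e => hne (le_antisymm (Subgroup.subgroupOf_eq_top.mp e) hP)
    have hnc := Group.normalizerCondition_of_isNilpotent (G := (P : Subgroup G)) (h := P.2.isNilpotent) _ hlt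
    obtain ⟨x, hx, hx'⟩ := SetLike.exists_of_lt hnc
    apply hx'
    rw [← Subgroup.subgroupOf_normalizer_eq hP, Subgroup.mem_subgroupOf, hself] at hx
    exact Subgroup.mem_subgroupOf.mpr hx
  -- Burnside transfer
  have hNC : Subgroup.normalizer ((P : Subgroup G) : Set G) ≤ Subgroup.centralizer ((P : Subgroup G) : Set G) := by
    rw [hPH, hself]
    have : IsCyclic H := isCyclic_of_prime_card hpH
    exact Subgroup.le_centralizer H
  have hK := MonoidHom.ker_transferSylow_isComplement' P hNC
  set K := (MonoidHom.transferSylow P hNC).ker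
  have : K.Normal := MonoidHom.normal_ker _
  rw [hPH] at hK
  have hdisj : K ⊓ H = ⊥ := disjoint_iff.mp hK.disjoint
  have hKne : K ≠ ⊥ := fun h => by
    rw [h, Subgroup.isComplement'_bot_left] at hK
    exact hH hK
  obtain ⟨r, hr, hrK⟩ := Nat.exists_prime_and_dvd (n := Nat.card K)
    (fun h => hKne (Subgroup.card_eq_one.mp h))
  have := Fact.mk hr
  obtain ⟨R⟩ := (inferInstance : Nonempty (Sylow r K))
  set R' : Subgroup G := (R : Subgroup K).map K.subtype
  have hfr : Subgroup.normalizer (R' : Set G) ⊔ K = ⊤ := Sylow.normalizer_sup_eq_top R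
  have hR'ne : R' ≠ ⊥ := fun h =>
    R.ne_bot_of_dvd_card hrK ((Subgroup.map_eq_bot_iff_of_injective _ K.subtype_injective).mp h)
  have hpd : p ∣ Nat.card (Subgroup.normalizer (R' : Set G)) := by
    have h1 : Nat.card (Subgroup.normalizer (R' : Set G)) * K.relIndex (Subgroup.normalizer (R' : Set G)) ∣
        Nat.card (Subgroup.normalizer (R' : Set G)) * Nat.card (Subgroup.normalizer (R' : Set G)) :=
      Nat.mul_dvd_mul_left _ (Subgroup.relIndex_dvd_card _ _)
    have hidx : K.index = p := (hK.symm.index_eq_card).trans hpH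
    have h2 : K.relIndex (Subgroup.normalizer (R' : Set G)) = p := by
      rw [← Subgroup.relIndex_sup_right, hfr, Subgroup.relIndex_top_right, hidx]
    exact h2 ▸ Subgroup.relIndex_dvd_card _ _
  obtain ⟨x, hx⟩ := exists_prime_orderOf_dvd_card' p hpd
  have hxG : orderOf (x : G) = p := by rw [Subgroup.orderOf_coe]; exact hx
  obtain ⟨Q, hQ⟩ := (IsPGroup.of_card (show Nat.card (Subgroup.zpowers (x : G)) = p ^ 1 by
    rw [Nat.card_zpowers, hxG, pow_one])).exists_le_sylow
  obtain ⟨g, hg⟩ := MulAction.exists_smul_eq G Q P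
  have hQx : (Q : Subgroup G) = Subgroup.zpowers (x : G) := by
    refine (Subgroup.eq_of_le_of_card_ge hQ ?_).symm
    rw [Nat.card_zpowers, hxG, Q.card_eq_multiplicity, ← P.card_eq_multiplicity]
    exact le_of_eq ((congrArg (fun S : Subgroup G => Nat.card S) hPH).trans hpH)
  have hHR : H ≤ Subgroup.normalizer ((R'.map (MulAut.conj g).toMonoidHom : Subgroup G) : Set G) := by
    have h1 : (Q : Subgroup G) ≤ Subgroup.normalizer (R' : Set G) := hQx ▸ Subgroup.zpowers_le.mpr x.2
    have h2 : H = (Q : Subgroup G).map (MulAut.conj g).toMonoidHom := by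
      rw [← hPH, ← hg, Sylow.coe_subgroup_smul]; rfl
    rw [h2]
    exact (Subgroup.map_mono h1).trans (Subgroup.le_normalizer_map _)
  set R'' : Subgroup G := R'.map (MulAut.conj g).toMonoidHom
  have hR''ne : R'' ≠ ⊥ := fun h =>
    hR'ne ((Subgroup.map_eq_bot_iff_of_injective _ (MulAut.conj g).injective).mp h)
  have hR''K : R'' ≤ K := by
    rintro _ ⟨y, hy, rfl⟩
    exact Subgroup.Normal.conj_mem ‹_› y (Subgroup.map_subtype_le _ hy) g
  rcases hHR.eq_or_lt with e | e
  · apply hR''ne
    rw [← le_bot_iff, ← hdisj]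
    exact le_inf hR''K (e ▸ Subgroup.le_normalizer)
  · have hn : R''.Normal := Subgroup.normalizer_eq_top_iff.mp (hmax.2 _ e)
    have hle := hsub R'' hn hR''ne
    exact hTp r hr (((R.2.map K.subtype).map (MulAut.conj g).toMonoidHom).to_le hle)

end Cfsg.Agent.S3498
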