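import Cfsg.Statements.S3504
import Mathlib

set_option autoImplicit false
open Cfsg

namespace Cfsg.Agent.S3504

/-- For n ≥ 5, the fixed-point-free permutations of prime order in the symmetric group of degree n form a single conjugacy class if and only if n is a prime power. -/
theorem result (n : ℕ) (hn : 5 ≤ n) :
    Nat.card {c : ConjClasses (Equiv.Perm (Fin n)) // ∃ g : Equiv.Perm (Fin n), ConjClasses.mk g = c ∧ (orderOf g).Prime ∧ ∀ i : Fin n, g i ≠ i} = 1 ↔ IsPrimePow n := by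
  classical
  have hsupp : ∀ g : Equiv.Perm (Fin n), (∀ i, g i ≠ i) → g.support.card = n := fun g hg => by
    rw [show g.support = Finset.univ from Finset.eq_univ_iff_forall.mpr fun i => Equiv.Perm.mem_support.mpr (hg i),
      Finset.card_univ, Fintype.card_fin]
  have hty : ∀ g : Equiv.Perm (Fin n), (orderOf g).Prime → (∀ i, g i ≠ i) →
      orderOf g ∣ n ∧ g.cycleType = Multiset.replicate (n / orderOf g) (orderOf g) := by
    intro g hp hg
    haveI := Fact.mk hp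
    obtain ⟨k, hk⟩ := Equiv.Perm.cycleType_prime_order hp
    have hs := g.sum_cycleType
    rw [hk, Multiset.sum_replicate, hsupp g hg, smul_eq_mul] at hs
    have hd : orderOf g ∣ n := ⟨k + 1, hs.symm.trans (mul_comm _ _)⟩
    refine ⟨hd, ?_⟩
    have hdiv : n / orderOf g = k + 1 := Nat.div_eq_of_eq_mul_left hp.pos hs.symm
    rw [hk, hdiv]
  have hex : ∀ p : ℕ, p.Prime → p ∣ n → ∃ g : Equiv.Perm (Fin n), orderOf g = p ∧ ∀ i, g i ≠ i := by
    intro p hp hd
    have hdp : n / p * p = n := Nat.div_mul_cancel hd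
    obtain ⟨g, hg⟩ := (Equiv.Perm.exists_with_cycleType_iff (Fin n) (m := Multiset.replicate (n / p) p)).mpr
      ⟨by rw [Multiset.sum_replicate, smul_eq_mul, Fintype.card_fin, hdp],
        fun a ha => by rw [Multiset.eq_of_mem_replicate ha]; exact hp.two_le⟩
    have hne : n / p ≠ 0 := fun h => by rw [h, zero_mul] at hdp; omega
    refine ⟨g, ?_, fun i hi => ?_⟩
    · rw [← Equiv.Perm.lcm_cycleType, hg]
      refine Nat.dvd_antisymm (Multiset.lcm_dvd.mpr fun a ha => (Multiset.eq_of_mem_replicate ha).dvd)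
        (Multiset.dvd_lcm (Multiset.mem_replicate.mpr ⟨hne, rfl⟩))
    · have hs := g.sum_cycleType
      rw [hg, Multiset.sum_replicate, smul_eq_mul, hdp] at hs
      have : g.support = Finset.univ := Finset.eq_univ_of_card _ (by rw [← hs, Fintype.card_fin])
      exact Equiv.Perm.mem_support.mp (this ▸ Finset.mem_univ i) hi
  constructor
  · intro h1
    haveI := (Nat.card_eq_one_iff_unique.mp h1).1
    obtain ⟨p, hp, hpd⟩ := Nat.exists_prime_and_dvd (show n ≠ 1 by omega)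
    rw [isPrimePow_iff_unique_prime_dvd]
    refine ⟨p, ⟨hp, hpd⟩, fun q ⟨hq, hqd⟩ => ?_⟩
    obtain ⟨g, hg, hgf⟩ := hex p hp hpd
    obtain ⟨h, hh, hhf⟩ := hex q hq hqd
    have := congrArg Subtype.val (Subsingleton.elim
      (α := {c : ConjClasses (Equiv.Perm (Fin n)) // ∃ g : Equiv.Perm (Fin n), ConjClasses.mk g = c ∧ (orderOf g).Prime ∧ ∀ i : Fin n, g i ≠ i})
      ⟨_, g, rfl, hg ▸ hp, hgf⟩ ⟨_, h, rfl, hh ▸ hq, hhf⟩)
    obtain ⟨c, hc⟩ := isConj_iff.mp (ConjClasses.mk_eq_mk_iff_isConj.mp this)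
    rw [← hg, ← hh, ← hc]
    exact orderOf_injective (MulAut.conj c).toMonoidHom (MulAut.conj c).injective g
  · intro hpp
    obtain ⟨p, ⟨hp, hpd⟩, huniq⟩ := isPrimePow_iff_unique_prime_dvd.mp hpp
    obtain ⟨g, hg, hgf⟩ := hex p hp hpd
    rw [Nat.card_eq_one_iff_unique]
    refine ⟨⟨?_⟩, ⟨⟨_, g, rfl, hg ▸ hp, hgf⟩⟩⟩
    rintro ⟨c₁, u, rfl, hu, huf⟩ ⟨c₂, v, rfl, hv, hvf⟩
    apply Subtype.ext
    refine ConjClasses.mk_eq_mk_iff_isConj.mpr (Equiv.Perm.isConj_iff_cycleType_eq.mpr ?_)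
    obtain ⟨hud, hut⟩ := hty u hu huf
    obtain ⟨hvd, hvt⟩ := hty v hv hvf
    rw [hut, hvt, huniq _ ⟨hu, hud⟩, huniq _ ⟨hv, hvd⟩]

end Cfsg.Agent.S3504
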