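import Cfsg.Statements.S3508
import Mathlib

set_option autoImplicit false
open Cfsg

namespace Cfsg.Agent.S3508

/-- Let a finite group G act faithfully on a set Ω with p ^ m points (p prime) and have an elementary abelian normal p-subgroup N acting regularly on Ω (so G is a group of affine transformations of an m-dimensional space over the field with p elements). If G contains an element of order p ^ r with r ≥ 1, then p ^ (r − 1) ≤ m. In particular an element of order p ^ m forces m ≤ 2, and m ≤ 1 when p is odd. -/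
theorem result {G : Type*} [Group G] [Finite G] {Ω : Type*} [Fintype Ω] [MulAction G Ω] [FaithfulSMul G Ω] (p m : ℕ) (hp : p.Prime) (hcard : Fintype.card Ω = p ^ m)
    (N : Subgroup G) [N.Normal] (hNc : IsMulCommutative N) (hNp : ∀ n ∈ N, n ^ p = 1)
    (hNtr : MulAction.IsPretransitive N Ω) (hNreg : ∀ ω : Ω, MulAction.stabilizer N ω = ⊥)
    (g : G) (r : ℕ) (hr : 1 ≤ r) (hg : orderOf g = p ^ r) :
    p ^ (r - 1) ≤ m ∧ (r = m → m ≤ 2 ∧ (2 < p → m ≤ 1)) := by
  classical
  have : Fact p.Prime := ⟨hp⟩
  obtain ⟨a⟩ : Nonempty Ω := Fintype.card_pos_iff.mp (hcard ▸ pow_pos hp.pos m)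
  have hbij : Function.Bijective fun n : N => (n : G) • a := by
    refine ⟨fun u v h => ?_, fun ω => hNtr.exists_smul_eq a ω⟩
    have h' : (u : G) • a = (v : G) • a := h
    have : v⁻¹ * u ∈ MulAction.stabilizer N a := by
      show ((v⁻¹ * u : N) : G) • a = a
      push_cast
      rw [mul_smul, h', inv_smul_smul]
    rw [hNreg, Subgroup.mem_bot, inv_mul_eq_one] at this
    exact this.symm
  have hNcard : Nat.card N = p ^ m := by
    rw [Nat.card_congr (Equiv.ofBijective _ hbij), Nat.card_eq_fintype_card, hcard]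
  obtain ⟨⟨n, hn⟩, hna⟩ := hNtr.exists_smul_eq a (g • a)
  have hna' : n • a = g • a := hna
  set h := n⁻¹ * g with hh
  have hha : h • a = a := by rw [hh, mul_smul, ← hna', inv_smul_smul]
  let M := Additive N
  let : CommGroup N := { (inferInstance : Group N) with mul_comm := hNc.is_comm.comm }
  let u : AddMonoid.End (Additive N) := MonoidHom.toAdditive
    { toFun := fun x : N => (⟨g * x * g⁻¹, Subgroup.Normal.conj_mem ‹N.Normal› x x.2 g⟩ : N)
      map_one' := Subtype.ext (by simp)
      map_mul' := fun x y => Subtype.ext (by push_cast; group) }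
  have hu : ∀ (i : ℕ) (x : N), (Additive.toMul ((u ^ i) (Additive.ofMul x)) : N).1 = g ^ i * x * (g ^ i)⁻¹ := by
    intro i
    induction i with
    | zero => intro x; simp
    | succ i ih =>
      intro x
      rw [pow_succ']
      show g * (Additive.toMul ((u ^ i) (Additive.ofMul x)) : N).1 * g⁻¹ = _
      rw [ih, pow_succ']; group
  by_cases hm : m = 0
  · -- a one-point set has only the trivial group
    exfalso
    have hs : Subsingleton Ω := Fintype.card_le_one_iff_subsingleton.mp (by rw [hcard, hm, pow_zero])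
    have : g = 1 := FaithfulSMul.eq_of_smul_eq_smul (α := Ω) fun ω => Subsingleton.elim _ _
    rw [this, orderOf_one] at hg
    exact absurd hg.symm (Nat.one_lt_pow (by omega) hp.one_lt).ne'
  have : Nontrivial (Additive N) := by
    have : Nontrivial N := Finite.one_lt_card_iff_nontrivial.mp (hNcard ▸ Nat.one_lt_pow hm hp.one_lt)
    infer_instance
  have hchar : ∀ i : ℕ, ∀ x : Additive N, p ∣ i → i • x = 0 := by
    rintro i x ⟨j, rfl⟩
    rw [mul_comm, mul_smul]
    have : p • x = 0 := Additive.toMul.injective (Subtype.ext (by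
      show ((Additive.toMul x ^ p : N) : G) = 1
      rw [Subgroup.coe_pow]; exact hNp _ (Additive.toMul x).2))
    rw [this, smul_zero]
  have : CharP (AddMonoid.End (Additive N)) p := by
    refine ⟨fun i => ⟨fun h0 => ?_, fun hd => AddMonoidHom.ext fun x => by
      rw [← nsmul_one i]; exact hchar i x hd⟩⟩
    by_contra hd
    obtain ⟨x, hx⟩ := exists_ne (0 : Additive N)
    have h1 : i • x = 0 := by
      have := DFunLike.congr_fun h0 x
      rw [← nsmul_one i] at this
      exact this
    have h2 : addOrderOf x ∣ i := addOrderOf_dvd_of_nsmul_eq_zero h1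
    have h3 : addOrderOf x ∣ p := addOrderOf_dvd_of_nsmul_eq_zero (hchar p x dvd_rfl)
    rcases (Nat.dvd_prime hp).mp h3 with h4 | h4
    · exact hx (AddMonoid.addOrderOf_eq_one_iff.mp h4)
    · exact hd (h4 ▸ h2)
  set φ := u - 1 with hφ
  have hup : u ^ p ^ r = 1 := AddMonoidHom.ext fun x => Additive.toMul.injective (Subtype.ext (by
    show ((Additive.toMul ((u ^ p ^ r) (Additive.ofMul (Additive.toMul x))) : N) : G) = _
    rw [hu, ← hg, pow_orderOf_eq_one, one_mul, inv_one, mul_one]; rfl))
  have hφp : φ ^ p ^ r = 0 := by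
    rw [hφ, sub_pow_char_pow_of_commute p r (Commute.one_right u), one_pow, hup, sub_self]
  have hφm : φ ^ m = 0 := by
    let R : ℕ → AddSubgroup (Additive N) := fun i => AddMonoidHom.range ((φ ^ i : AddMonoid.End (Additive N)) : Additive N →+ Additive N)
    have hsucc : ∀ i, R (i + 1) = (R i).map φ := fun i => by
      ext y
      constructor
      · rintro ⟨x, rfl⟩
        exact ⟨(φ ^ i : AddMonoid.End (Additive N)) x, ⟨x, rfl⟩, by rw [pow_succ']; rfl⟩
      · rintro ⟨_, ⟨x, rfl⟩, rfl⟩
        exact ⟨x, by rw [pow_succ']; rfl⟩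
    have hstep : ∀ i, R (i + 1) ≤ R i := fun i => by
      rintro _ ⟨x, rfl⟩
      exact ⟨φ x, by rw [pow_succ]; rfl⟩
    have hstable : ∀ i, R (i + 1) = R i → R i = ⊥ := fun i h => by
      have : ∀ j, R (i + j) = R i := fun j => by
        induction j with
        | zero => rfl
        | succ j ih => rw [← add_assoc, hsucc, ih, ← hsucc, h]
      rw [← this (p ^ r)]
      refine eq_bot_iff.mpr ?_
      rintro _ ⟨x, rfl⟩
      rw [AddSubgroup.mem_bot, pow_add, hφp, mul_zero]; rfl
    have hc : ∀ i, i ≤ m → Nat.card (R i) ∣ p ^ (m - i) := by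
      intro i
      induction i with
      | zero =>
        intro _
        rw [Nat.sub_zero, ← hNcard]
        exact (R 0).card_addSubgroup_dvd_card
      | succ i ih =>
        intro hi
        by_cases h : R (i + 1) = R i
        · rw [h, hstable i h, AddSubgroup.card_bot]; exact one_dvd _
        obtain ⟨c, hc, hc'⟩ := (Nat.dvd_prime_pow hp).mp (ih (by omega))
        obtain ⟨e, he, he'⟩ := (Nat.dvd_prime_pow hp).mp (hc' ▸ AddSubgroup.card_dvd_of_le (hstep i))
        have : e ≠ c := fun e0 => h (AddSubgroup.eq_of_le_of_card_ge (hstep i) (by rw [hc', he', e0]))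
        rw [he']
        exact pow_dvd_pow p (by omega)
    have := hc m le_rfl
    rw [Nat.sub_self, pow_zero, Nat.dvd_one] at this
    have hb := AddSubgroup.eq_bot_of_card_eq _ this
    exact AddMonoidHom.ext fun x => AddSubgroup.mem_bot.mp (hb ▸ ⟨x, rfl⟩ : (φ ^ m) x ∈ (⊥ : AddSubgroup (Additive N)))
  have hmain : p ^ (r - 1) ≤ m := by
    by_contra hlt
    push Not at hlt
    set k := p ^ (r - 1) with hk
    have hgk : g ^ k ≠ 1 := fun h0 => by
      have := Nat.le_of_dvd (pow_pos hp.pos _) (orderOf_dvd_of_pow_eq_one h0)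
      rw [hg] at this
      exact absurd ((Nat.pow_le_pow_iff_right hp.one_lt).mp this) (by omega)
    have hnull : ∀ i, m ≤ i → φ ^ i = 0 := fun i hi => by
      rw [← Nat.sub_add_cancel hi, pow_add, hφm, mul_zero]
    -- the geometric series vanishes
    have hgeom : ∑ i ∈ Finset.range k, u ^ i = 0 := by
      have : (∑ i ∈ Finset.range k, (Polynomial.X + 1 : Polynomial (ZMod p)) ^ i) = Polynomial.X ^ (k - 1) := by
        refine mul_right_cancel₀ (b := (Polynomial.X : Polynomial (ZMod p))) Polynomial.X_ne_zero ?_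
        rw [← pow_succ, Nat.sub_add_cancel (pow_pos hp.pos _)]
        have := geom_sum_mul (Polynomial.X + 1 : Polynomial (ZMod p)) k
        rw [add_sub_cancel_right] at this
        rw [this, hk, add_pow_char_pow, one_pow, add_sub_cancel_right]
      let alg : Algebra (ZMod p) (AddMonoid.End (Additive N)) := ZMod.algebra _ p
      have h2 := congrArg (Polynomial.aeval φ) this
      rw [map_sum, map_pow, Polynomial.aeval_X, hnull (k - 1) (by omega)] at h2
      rw [← h2]
      exact Finset.sum_congr rfl fun i _ => by rw [map_pow, map_add, map_one, Polynomial.aeval_X, hφ, sub_add_cancel]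
    -- so the power acts trivially on `N` and fixes `a`
    have hgka : g ^ k • a = a := by
      have hrec : ∀ j, g ^ j • a = ((Additive.toMul ((∑ i ∈ Finset.range j, u ^ i : AddMonoid.End (Additive N)) (Additive.ofMul (⟨n, hn⟩ : N))) : N) : G) • a := by
        intro j
        induction j with
        | zero => simp
        | succ j ih =>
          rw [pow_succ, mul_smul, ← hna', ← mul_smul,
            show g ^ j * n = (g ^ j * n * (g ^ j)⁻¹) * g ^ j by group, mul_smul, ih, ← mul_smul, Finset.sum_range_succ]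
          congr 1
          show g ^ j * n * (g ^ j)⁻¹ * _ = ((Additive.toMul ((∑ i ∈ Finset.range j, u ^ i : AddMonoid.End (Additive N)) (Additive.ofMul (⟨n, hn⟩ : N)) + (u ^ j) (Additive.ofMul (⟨n, hn⟩ : N)))) : N).1
          rw [toMul_add, Subgroup.coe_mul, hu]
          exact congrArg Subtype.val (hNc.is_comm.comm
            ⟨g ^ j * n * (g ^ j)⁻¹, Subgroup.Normal.conj_mem ‹N.Normal› n hn _⟩ _)
      rw [hrec, hgeom]; simp
    have hcomm : ∀ x : N, g ^ k * x * (g ^ k)⁻¹ = x := fun x => by
      rw [← hu]
      have : u ^ k = 1 := by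
        have h1 : φ ^ k = 0 := hnull k hlt.le
        rw [hφ, hk, sub_pow_char_pow_of_commute p (r - 1) (Commute.one_right u), one_pow, sub_eq_zero] at h1
        rw [hk]; exact h1
      rw [this]; rfl
    refine hgk (FaithfulSMul.eq_of_smul_eq_smul (α := Ω) fun ω => ?_)
    obtain ⟨x, rfl⟩ := hNtr.exists_smul_eq a ω
    show g ^ k • (x : G) • a = (1 : G) • (x : G) • a
    rw [one_smul, ← mul_smul, show g ^ k * x = x * g ^ k from mul_inv_eq_iff_eq_mul.mp (hcomm x), mul_smul, hgka]
  refine ⟨hmain, fun hrm => ?_⟩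
  subst hrm
  have h2 : ∀ j, j + 3 < 2 ^ (j + 2) := fun j => by
    induction j with
    | zero => norm_num
    | succ j ih => rw [pow_succ]; omega
  refine ⟨?_, fun hp2 => ?_⟩
  · by_contra hc
    push Not at hc
    obtain ⟨j, rfl⟩ : ∃ j, r = j + 3 := ⟨r - 3, by omega⟩
    have := h2 j
    have := Nat.pow_le_pow_left hp.two_le (j + 2)
    rw [show j + 3 - 1 = j + 2 by omega] at hmain
    omega
  · by_contra hc
    push Not at hc
    have h3 : ∀ j, j + 2 < 3 ^ (j + 1) := fun j => by
      induction j with
      | zero => norm_num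
      | succ j ih => rw [pow_succ]; omega
    obtain ⟨j, rfl⟩ : ∃ j, r = j + 2 := ⟨r - 2, by omega⟩
    have := h3 j
    have := Nat.pow_le_pow_left (show 3 ≤ p by omega) (j + 1)
    rw [show j + 2 - 1 = j + 1 by omega] at hmain
    omega

end Cfsg.Agent.S3508
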