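import Cfsg.Statements.S3511
import Mathlib

set_option autoImplicit false
open Cfsg

namespace Cfsg.Agent.S3511

/-- Let a finite group G act faithfully on a set Ω. If every element of G of square-free order has a regular cycle (an orbit of the cyclic group it generates with trivial stabilizer), then every element of G has a regular cycle. -/
theorem result {G : Type*} [Group G] [Finite G] {Ω : Type*} [MulAction G Ω] [FaithfulSMul G Ω]
    (h : ∀ g : G, Squarefree (orderOf g) → ∃ ω : Ω, MulAction.stabilizer (Subgroup.zpowers g) ω = ⊥) (g : G) :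
    ∃ ω : Ω, MulAction.stabilizer (Subgroup.zpowers g) ω = ⊥ := by
  have hpos : 0 < orderOf g := orderOf_pos g
  let r := ∏ p ∈ (orderOf g).primeFactors, p
  have hr : r ∣ orderOf g := Nat.prod_primeFactors_dvd _
  have hr0 : 0 < r := Nat.pos_of_dvd_of_pos hr hpos
  have hh : orderOf (g ^ (orderOf g / r)) = r := orderOf_pow_orderOf_div hpos.ne' hr
  have hsq : Squarefree r := by
    refine Finset.squarefree_prod_of_pairwise_isCoprime ?_ ?_
    · intro a ha b hb hab
      exact Nat.coprime_iff_isRelPrime.mp ((Nat.coprime_primes (Nat.prime_of_mem_primeFactors ha)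
        (Nat.prime_of_mem_primeFactors hb)).mpr hab)
    · intro a ha
      exact (Nat.prime_of_mem_primeFactors ha).squarefree
  obtain ⟨ω, hω⟩ := h (g ^ (orderOf g / r)) (hh.symm ▸ hsq)
  refine ⟨ω, ?_⟩
  rw [eq_bot_iff]
  rintro ⟨x, hx⟩ hxs
  rw [Subgroup.mem_bot]
  by_contra hne
  have hne' : x ≠ 1 := fun e => hne (Subtype.ext e)
  obtain ⟨p, hp, hpd⟩ := Nat.exists_prime_and_dvd (n := orderOf x)
    (fun e => hne' (orderOf_eq_one_iff.mp e))
  let y := x ^ (orderOf x / p)
  have hy : orderOf y = p := orderOf_pow_orderOf_div (orderOf_pos _).ne' hpd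
  have hyfix : y • ω = ω := Subgroup.pow_mem (MulAction.stabilizer G ω) hxs _
  have hpdg : p ∣ orderOf g := hpd.trans (orderOf_dvd_of_mem_zpowers hx)
  have hpr : p ∣ r := Finset.dvd_prod_of_mem _ (Nat.mem_primeFactors.mpr ⟨hp, hpdg, hpos.ne'⟩)
  have hyz : y ∈ Subgroup.zpowers (g ^ (orderOf g / r)) := by
    obtain ⟨j, hj⟩ := (Subgroup.mem_zpowers_iff).mp (Subgroup.pow_mem _ hx (orderOf x / p))
    have h1 : (orderOf g : ℤ) ∣ j * r := by
      rw [orderOf_dvd_iff_zpow_eq_one, zpow_mul, hj, zpow_natCast, ← orderOf_dvd_iff_pow_eq_one]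
      show orderOf y ∣ r
      rw [hy]; exact hpr
    have h2 : ((orderOf g / r : ℕ) : ℤ) ∣ j := by
      obtain ⟨q, hq⟩ := hr
      have hq' : orderOf g / r = q := by rw [hq, Nat.mul_div_cancel_left _ hr0]
      rw [hq']
      rw [hq, Nat.cast_mul, mul_comm j] at h1
      exact (mul_dvd_mul_iff_left (by exact_mod_cast hr0.ne')).mp h1
    obtain ⟨i, hi⟩ := h2
    refine Subgroup.mem_zpowers_iff.mpr ⟨i, ?_⟩
    rw [← zpow_natCast, ← zpow_mul, ← hi, hj]
  have : (⟨y, hyz⟩ : Subgroup.zpowers (g ^ (orderOf g / r))) ∈ MulAction.stabilizer _ ω := hyfix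
  rw [hω, Subgroup.mem_bot] at this
  have hy1 : y = 1 := congrArg Subtype.val this
  rw [hy1, orderOf_one] at hy
  exact hp.one_lt.ne hy

end Cfsg.Agent.S3511
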