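import Cfsg.Statements.S3514
import Mathlib

set_option autoImplicit false
open Cfsg

namespace Cfsg.Agent.S3514

/-- Let p be a prime, V a finite vector space over the field with p elements, and H a group of linear transformations of V all of whose orbits on V have size coprime to p. (i) Every normal subgroup K of H has all its orbits on V of size coprime to p. (ii) If N is a group of linear transformations of V of order coprime to p that is normalized by H, then the group generated by N and H has all its orbits on V of size coprime to p. -/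
theorem result (p : ℕ) [Fact p.Prime] {V : Type*} [AddCommGroup V] [Module (ZMod p) V] [Finite V]
    (H : Subgroup (V ≃ₗ[ZMod p] V)) (hH : ∀ v : V, ¬ p ∣ Nat.card {u : V | ∃ h ∈ H, h v = u}) :
    (∀ K : Subgroup (V ≃ₗ[ZMod p] V), K ≤ H → H ≤ Subgroup.normalizer (K : Set (V ≃ₗ[ZMod p] V)) →
        ∀ v : V, ¬ p ∣ Nat.card {u : V | ∃ k ∈ K, k v = u}) ∧
    (∀ N : Subgroup (V ≃ₗ[ZMod p] V), ¬ p ∣ Nat.card N → H ≤ Subgroup.normalizer (N : Set (V ≃ₗ[ZMod p] V)) →
        ∀ v : V, ¬ p ∣ Nat.card {u : V | ∃ x ∈ N ⊔ H, x v = u}) := by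
  classical
  have : Finite (V ≃ₗ[ZMod p] V) := Finite.of_injective (fun e => (e : V → V)) DFunLike.coe_injective
  have horb : ∀ (K : Subgroup (V ≃ₗ[ZMod p] V)) (v : V),
      Nat.card {u : V | ∃ k ∈ K, k v = u} = (MulAction.stabilizer (V ≃ₗ[ZMod p] V) v).relIndex K := by
    intro K v
    have e : {u : V | ∃ k ∈ K, k v = u} = MulAction.orbit K v := by
      ext u
      exact ⟨fun ⟨k, hk, e⟩ => ⟨⟨k, hk⟩, e⟩, fun ⟨k, e⟩ => ⟨k, k.2, e⟩⟩
    have e2 : (MulAction.stabilizer (V ≃ₗ[ZMod p] V) v).subgroupOf K = MulAction.stabilizer K v := by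
      ext ⟨x, hx⟩; rfl
    rw [e, Nat.card_congr (MulAction.orbitEquivQuotientStabilizer K v), Subgroup.relIndex, e2, Subgroup.index]
  have key : ∀ A K : Subgroup (V ≃ₗ[ZMod p] V), A ≤ Subgroup.normalizer (K : Set (V ≃ₗ[ZMod p] V)) →
      A.relIndex (K ⊔ A) = A.relIndex K := by
    intro A K hA
    have hKn : (K.subgroupOf (K ⊔ A)).Normal :=
      (Subgroup.normal_subgroupOf_iff_le_normalizer le_sup_left).mpr (sup_le Subgroup.le_normalizer hA)
    have h1 := Subgroup.relIndex_sup_left (A.subgroupOf (K ⊔ A)) (K.subgroupOf (K ⊔ A))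
    rw [← Subgroup.subgroupOf_sup le_sup_left le_sup_right, Subgroup.relIndex_subgroupOf le_rfl,
      Subgroup.relIndex_subgroupOf le_sup_right] at h1
    have hc : ∀ X Y : Subgroup (V ≃ₗ[ZMod p] V), X.relIndex Y * Nat.card (X ⊓ Y : Subgroup _) = Nat.card Y := fun X Y => by
      rw [← Subgroup.inf_relIndex_right, mul_comm, ← Subgroup.relIndex_bot_left, Subgroup.relIndex_mul_relIndex _ _ _ bot_le inf_le_right,
        Subgroup.relIndex_bot_left]
    have e1 := hc A (K ⊔ A)
    have e2 := hc K (K ⊔ A)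
    rw [inf_eq_left.mpr (le_sup_right : A ≤ K ⊔ A)] at e1
    rw [inf_eq_left.mpr (le_sup_left : K ≤ K ⊔ A), h1] at e2
    have e3 := hc A K
    have e4 := hc K A
    rw [inf_comm] at e4
    refine Nat.eq_of_mul_eq_mul_right (Nat.card_pos (α := A)) ?_
    rw [e1, ← e2]
    rw [← e3, ← e4]; ring
  refine ⟨fun K hK hn v hd => hH v ?_, fun N hN hn v hd => ?_⟩
  · rw [horb] at hd ⊢
    set S := MulAction.stabilizer (V ≃ₗ[ZMod p] V) v ⊓ H
    have hSn : S ≤ Subgroup.normalizer (K : Set (V ≃ₗ[ZMod p] V)) := inf_le_right.trans hn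
    have e1 : (MulAction.stabilizer (V ≃ₗ[ZMod p] V) v).relIndex K = S.relIndex K := by
      rw [← Subgroup.inf_relIndex_right, ← Subgroup.inf_relIndex_right S K, inf_assoc, inf_eq_right.mpr hK]
    rw [e1, ← key S K hSn] at hd
    rw [← Subgroup.inf_relIndex_right]
    exact hd.trans ⟨_, (Subgroup.relIndex_mul_relIndex S (K ⊔ S) H le_sup_right (sup_le hK inf_le_right)).symm⟩
  · rw [show {u : V | ∃ x ∈ N ⊔ H, x v = u} = {u : V | ∃ k ∈ (N ⊔ H), k v = u} from rfl, horb] at hd
    set S := MulAction.stabilizer (V ≃ₗ[ZMod p] V) v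
    have h1 := hd.trans (Subgroup.relIndex_dvd_of_le_left (N ⊔ H) (inf_le_left : S ⊓ H ≤ S))
    rw [← Subgroup.relIndex_mul_relIndex (S ⊓ H) H (N ⊔ H) inf_le_right le_sup_right,
      Subgroup.inf_relIndex_right, key H N hn] at h1
    rcases (Nat.Prime.dvd_mul Fact.out).mp h1 with h2 | h2
    · exact hH v ((horb H v).symm ▸ h2)
    · exact hN (h2.trans (Subgroup.relIndex_dvd_card H N))

end Cfsg.Agent.S3514
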