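import Cfsg.Statements.S3515
import Cfsg.Agent.SmallOrder.Closure

set_option autoImplicit false
open Cfsg

namespace Cfsg.Agent.S3515

/-- Every primitive affine permutation group of degree p² is 3-closed. Let p be a prime and G a group of permutations of the plane V = F_p² consisting of affine maps x ↦ Ax + b, containing all translations, and acting primitively on V. Then any permutation σ of V that agrees on every triple of points with some element of G (σ preserves every G-orbit on ordered triples) already lies in G. -/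
theorem result (p : ℕ) [Fact p.Prime] (G : Subgroup (Equiv.Perm (Fin 2 → ZMod p)))
    (haff : (G : Set (Equiv.Perm (Fin 2 → ZMod p))) ⊆ {τ : Equiv.Perm (Fin 2 → ZMod p) | ∃ (A : (Fin 2 → ZMod p) ≃ₗ[ZMod p] (Fin 2 → ZMod p)) (b : Fin 2 → ZMod p), ∀ x, τ x = A x + b})
    (htrans : ∀ b : Fin 2 → ZMod p, ∃ g ∈ G, ∀ x, g x = x + b) (hprim : MulAction.IsPreprimitive G (Fin 2 → ZMod p))
    (σ : Equiv.Perm (Fin 2 → ZMod p)) (hσ : (∀ t : Fin 3 → (Fin 2 → ZMod p), ∃ g ∈ G, ∀ i, σ (t i) = g (t i))) : σ ∈ G := by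
  have hpre : ∀ (τ : Equiv.Perm (Fin 2 → ZMod p)), (∀ t : Fin 3 → (Fin 2 → ZMod p), ∃ g ∈ G, ∀ i, τ (t i) = g (t i)) →
      ∀ u w : Fin 2 → ZMod p, ∀ c : ZMod p, τ (u + c • (w - u)) = τ u + c • (τ w - τ u) := by
    intro τ hτ
    apply SmallOrder.affine_on_lines
    intro t
    obtain ⟨g, hg, e⟩ := hτ t
    obtain ⟨A, b, hA⟩ := haff hg
    exact ⟨A, b, fun i => (e i).trans (hA _)⟩
  obtain ⟨g, hg, e⟩ := hσ ![0, Pi.single 0 1, Pi.single 1 1]
  set τ := g⁻¹ * σ with hτ
  suffices h : τ = 1 by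
    rw [hτ, inv_mul_eq_one] at h
    exact h ▸ hg
  have hτG : ∀ t : Fin 3 → (Fin 2 → ZMod p), ∃ k ∈ G, ∀ i, τ (t i) = k (t i) := fun t => by
    obtain ⟨k, hk, e'⟩ := hσ t
    exact ⟨g⁻¹ * k, G.mul_mem (G.inv_mem hg) hk, fun i => by simp [hτ, e' i]⟩
  have h0 : τ 0 = 0 := by rw [hτ, Equiv.Perm.mul_apply, Equiv.Perm.inv_eq_iff_eq]; simpa using e 0
  have h1 : τ (Pi.single 0 1) = Pi.single 0 1 := by rw [hτ, Equiv.Perm.mul_apply, Equiv.Perm.inv_eq_iff_eq]; simpa using e 1
  have h2 : τ (Pi.single 1 1) = Pi.single 1 1 := by rw [hτ, Equiv.Perm.mul_apply, Equiv.Perm.inv_eq_iff_eq]; simpa using e 2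
  have hl := hpre τ hτG
  have haxis : ∀ (i : Fin 2) (c : ZMod p), τ (Pi.single i c) = Pi.single i c := by
    intro i c
    have hi : τ (Pi.single i 1) = Pi.single i 1 := by fin_cases i <;> assumption
    have := hl 0 (Pi.single i 1) c
    rw [zero_add, sub_zero, h0, hi, sub_zero, zero_add, ← Pi.single_smul', smul_eq_mul, mul_one] at this
    exact this
  refine Equiv.ext fun v => ?_
  show τ v = v
  by_cases hp2 : (2 : ZMod p) = 0
  · -- four points, three of them fixed
    by_contra hne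
    have hp : p = 2 := (Nat.prime_dvd_prime_iff_eq Fact.out Nat.prime_two).mp ((ZMod.natCast_eq_zero_iff 2 p).mp (by exact_mod_cast hp2))
    subst hp
    have key : ∀ w : Fin 2 → ZMod 2, w = 0 ∨ w = Pi.single 0 1 ∨ w = Pi.single 1 1 ∨ w = ![1, 1] := by
      intro w
      have k0 : ∀ a : ZMod 2, a = 0 ∨ a = 1 := fun a => by fin_cases a <;> first | exact Or.inl rfl | exact Or.inr rfl
      rcases k0 (w 0) with h0' | h0' <;> rcases k0 (w 1) with h1' | h1'
      · left; ext i; fin_cases i <;> simp [h0', h1']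
      · right; right; left; ext i; fin_cases i <;> simp [h0', h1']
      · right; left; ext i; fin_cases i <;> simp [h0', h1']
      · right; right; right; ext i; fin_cases i <;> simp [h0', h1']
    have hfix : ∀ w, w ≠ ![1, 1] → τ w = w := by
      intro w hw
      rcases key w with h | h | h | h <;> first | exact absurd h hw | (rw [h]; assumption)
    rcases eq_or_ne v ![1, 1] with hv | hv
    · refine hne (τ.injective (hfix _ fun h => hne ?_))
      rw [h, hv]
    · exact hne (hfix v hv)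
  have := hl (Pi.single 0 (2 * v 0)) (Pi.single 1 (2 * v 1)) 2⁻¹
  rw [haxis, haxis] at this
  have e3 : Pi.single 0 (2 * v 0) + (2 : ZMod p)⁻¹ • (Pi.single 1 (2 * v 1) - Pi.single 0 (2 * v 0)) = v := by
    ext i
    fin_cases i <;> simp <;> field_simp <;> ring
  rwa [e3] at this

end Cfsg.Agent.S3515
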