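import Cfsg.Statements.S3516
import Cfsg.Agent.SmallOrder.Closure

set_option autoImplicit false
open Cfsg

namespace Cfsg.Agent.S3516

/-- Let p be an odd prime, d ≥ 3, and G a group of affine permutations x ↦ Ax + b of V = F_p^d containing all translations and all maps x ↦ Ax with A of determinant 1. Then the 3-closure of G is the full affine group: a permutation σ of V agrees on every triple of points with some element of G if and only if σ is an affine map. -/
theorem result (p : ℕ) [Fact p.Prime] (hp : p ≠ 2) (d : ℕ) (hd : 3 ≤ d) (G : Subgroup (Equiv.Perm (Fin d → ZMod p)))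
    (haff : (G : Set (Equiv.Perm (Fin d → ZMod p))) ⊆ {τ : Equiv.Perm (Fin d → ZMod p) | ∃ (A : (Fin d → ZMod p) ≃ₗ[ZMod p] (Fin d → ZMod p)) (b : Fin d → ZMod p), ∀ x, τ x = A x + b})
    (htrans : ∀ b : Fin d → ZMod p, ∃ g ∈ G, ∀ x, g x = x + b)
    (hsl : ∀ A : (Fin d → ZMod p) ≃ₗ[ZMod p] (Fin d → ZMod p), LinearMap.det (A : (Fin d → ZMod p) →ₗ[ZMod p] (Fin d → ZMod p)) = 1 → ∃ g ∈ G, ∀ x, g x = A x)
    (σ : Equiv.Perm (Fin d → ZMod p)) :
    (∀ t : Fin 3 → (Fin d → ZMod p), ∃ g ∈ G, ∀ i, σ (t i) = g (t i)) ↔ σ ∈ {τ : Equiv.Perm (Fin d → ZMod p) | ∃ (A : (Fin d → ZMod p) ≃ₗ[ZMod p] (Fin d → ZMod p)) (b : Fin d → ZMod p), ∀ x, τ x = A x + b} := by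
  constructor
  · intro h
    have h2 : (2 : ZMod p) ≠ 0 := fun h0 => hp
      ((Nat.prime_dvd_prime_iff_eq Fact.out Nat.prime_two).mp ((ZMod.natCast_eq_zero_iff 2 p).mp (by exact_mod_cast h0)))
    refine SmallOrder.affine_of_affine_on_lines h2 σ (SmallOrder.affine_on_lines _ fun t => ?_)
    obtain ⟨g, hg, e⟩ := h t
    obtain ⟨A, b, hA⟩ := haff hg
    exact ⟨A, b, fun i => (e i).trans (hA _)⟩
  · rintro ⟨A, b, hA⟩ t
    set W := Submodule.span (ZMod p) {t 1 - t 0, t 2 - t 0} with hW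
    have hWtop : W < ⊤ := by
      refine lt_top_iff_ne_top.mpr fun h => ?_
      have h2 : Module.finrank (ZMod p) W ≤ 2 := by
        refine (finrank_span_le_card ({t 1 - t 0, t 2 - t 0} : Set (Fin d → ZMod p))).trans ?_
        rw [← Set.ncard_eq_toFinset_card']
        exact (Set.ncard_insert_le _ _).trans (by simp)
      rw [h, finrank_top, Module.finrank_pi, Fintype.card_fin] at h2
      omega
    obtain ⟨φ, hφ, hφW⟩ := Submodule.exists_le_ker_of_lt_top W hWtop
    obtain ⟨w, hw⟩ : ∃ w, φ w ≠ 0 := by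
      by_contra h
      push Not at h
      exact hφ (LinearMap.ext h)
    set c := (LinearMap.det (A : (Fin d → ZMod p) →ₗ[ZMod p] (Fin d → ZMod p)))⁻¹ with hc
    have hdet : LinearMap.det (A : (Fin d → ZMod p) →ₗ[ZMod p] (Fin d → ZMod p)) ≠ 0 := A.isUnit_det'.ne_zero
    let D := LinearMap.id + φ.smulRight (((c - 1) * (φ w)⁻¹) • w)
    have hD : LinearMap.det D = c := by
      rw [SmallOrder.det_id_add_smulRight, map_smul, smul_eq_mul, mul_assoc, inv_mul_cancel₀ hw]; ring
    let De := LinearEquiv.ofIsUnitDet (v := Pi.basisFun (ZMod p) (Fin d)) (v' := Pi.basisFun (ZMod p) (Fin d)) (f := D)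
      (by rw [LinearMap.det_toMatrix, hD]; exact isUnit_iff_ne_zero.mpr (inv_ne_zero hdet))
    let B := De.trans A
    have hB : LinearMap.det (B : (Fin d → ZMod p) →ₗ[ZMod p] (Fin d → ZMod p)) = 1 := by
      rw [show (B : (Fin d → ZMod p) →ₗ[ZMod p] (Fin d → ZMod p)) = (A : _ →ₗ[ZMod p] _) ∘ₗ D from rfl,
        LinearMap.det_comp, hD, hc, mul_inv_cancel₀ hdet]
    obtain ⟨g, hg, hgB⟩ := hsl B hB
    obtain ⟨k, hk, hkB⟩ := htrans (A (t 0) + b - B (t 0))
    refine ⟨k * g, G.mul_mem hk hg, fun i => ?_⟩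
    rw [Equiv.Perm.mul_apply, hkB, hgB, hA]
    have hfix : ∀ x ∈ W, B x = A x := fun x hx => by
      show A (x + φ x • _) = A x
      rw [show φ x = 0 from hφW hx, zero_smul, add_zero]
    have hti : t i - t 0 ∈ W := by
      fin_cases i
      · simp
      · exact Submodule.subset_span (Or.inl rfl)
      · exact Submodule.subset_span (Or.inr rfl)
    have := hfix _ hti
    rw [map_sub, map_sub, sub_eq_iff_eq_add] at this
    rw [this]; abel

end Cfsg.Agent.S3516
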