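import Cfsg.Statements.S3517
import Mathlib

set_option autoImplicit false
open Cfsg

namespace Cfsg.Agent.S3517

/-- For d ≥ 3, the 3-closure of the affine group AGL_d(2) acting on F_2^d is the full symmetric group: every permutation of F_2^d agrees on every ordered triple of points with some affine map (AGL_d(2) is 3-transitive). -/
theorem result (d : ℕ) (hd : 3 ≤ d) (σ : Equiv.Perm (Fin d → ZMod 2)) (t : Fin 3 → (Fin d → ZMod 2)) :
    ∃ (A : (Fin d → ZMod 2) ≃ₗ[ZMod 2] (Fin d → ZMod 2)) (b : Fin d → ZMod 2), ∀ i, σ (t i) = A (t i) + b := by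
  classical
  -- reduce to: any map of triples preserving equalities is affine
  have key : ∀ (n : ℕ) (hn : n ≤ 3) (u v : Fin n → (Fin d → ZMod 2)), Function.Injective u → Function.Injective v →
      ∃ (A : (Fin d → ZMod 2) ≃ₗ[ZMod 2] (Fin d → ZMod 2)) (b : Fin d → ZMod 2), ∀ i, v i = A (u i) + b := by
    intro n hn u v hu hv
    rcases n with _ | n
    · exact ⟨LinearEquiv.refl _ _, 0, fun i => i.elim0⟩
    have li : ∀ (w : Fin (n+1) → (Fin d → ZMod 2)), Function.Injective w → LinearIndependent (ZMod 2) (fun i : Fin n => w i.succ - w 0) := by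
      intro w hw
      have hne : ∀ i : Fin n, w i.succ - w 0 ≠ 0 := fun i h => (Fin.succ_ne_zero i) (hw (sub_eq_zero.mp h))
      have hinj : ∀ i j : Fin n, w i.succ - w 0 = w j.succ - w 0 → i = j := fun i j h =>
        Fin.succ_injective _ (hw (sub_left_injective h))
      rcases n with _ | _ | _ | n
      · exact linearIndependent_empty_type
      · exact LinearIndependent.of_subsingleton (ι := Fin 1) 0 (hne 0)
      · refine linearIndependent_fin2.mpr ⟨hne 1, fun a => ?_⟩
        rcases (show ∀ a : ZMod 2, a = 0 ∨ a = 1 by decide) a with ha | ha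
        · rw [ha, zero_smul]; exact (hne 0).symm
        · rw [ha, one_smul]; exact fun h => absurd (hinj _ _ h) (by decide)
      · omega
    obtain ⟨B, hB⟩ : ∃ B : (Fin d → ZMod 2) ≃ₗ[ZMod 2] (Fin d → ZMod 2), ∀ i : Fin n, B (u i.succ - u 0) = v i.succ - v 0 := by
      have h1 := (li u hu).linearIndepOn_id
      let b1 := Module.Basis.sumExtend (li u hu)
      let b2 := Module.Basis.sumExtend (li v hv)
      have := Fintype.ofFinite (Module.Basis.sumExtendIndex (li u hu))
      have := Fintype.ofFinite (Module.Basis.sumExtendIndex (li v hv))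
      have c1 := Module.finrank_eq_card_basis b1
      have c2 := Module.finrank_eq_card_basis b2
      have e : Module.Basis.sumExtendIndex (li u hu) ≃ Module.Basis.sumExtendIndex (li v hv) :=
        Fintype.equivOfCardEq (by rw [Fintype.card_sum] at c1 c2; omega)
      refine ⟨b1.equiv b2 (Equiv.sumCongr (Equiv.refl _) e), fun i => ?_⟩
      have k1 : b1 (Sum.inl i) = u i.succ - u 0 := by
        simp only [b1, b2]; unfold Module.Basis.sumExtend; simp only [Module.Basis.reindex_apply, Module.Basis.extend_apply_self, Equiv.symm_symm]; rfl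
      have k2 : b2 (Sum.inl i) = v i.succ - v 0 := by
        simp only [b1, b2]; unfold Module.Basis.sumExtend; simp only [Module.Basis.reindex_apply, Module.Basis.extend_apply_self, Equiv.symm_symm]; rfl
      rw [← k1, Module.Basis.equiv_apply, ← k2]; rfl
    refine ⟨B, v 0 - B (u 0), fun i => ?_⟩
    induction i using Fin.cases with
    | zero => abel
    | succ i => rw [← sub_add_cancel (v i.succ) (v 0), ← hB i, map_sub]; abel
  let S := Finset.univ.image t
  have hS : S.card ≤ 3 := Finset.card_image_le.trans (by simp)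
  let u : Fin S.card → (Fin d → ZMod 2) := fun i => (S.equivFin.symm i).1
  have hu : Function.Injective u := Subtype.val_injective.comp S.equivFin.symm.injective
  obtain ⟨A, b, hAb⟩ := key _ hS u (σ ∘ u) hu (σ.injective.comp hu)
  refine ⟨A, b, fun i => ?_⟩
  have h := hAb (S.equivFin ⟨t i, Finset.mem_image_of_mem _ (Finset.mem_univ i)⟩)
  simpa [u] using h

end Cfsg.Agent.S3517
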