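import Cfsg.Statements.S3518
import Cfsg.Agent.SmallOrder.Closure

set_option autoImplicit false
open Cfsg

namespace Cfsg.Agent.S3518

/-- Closures of subgroups of the one-dimensional affine group. Let p be a prime and G a group of permutations of F_p lying in the affine group AGL₁(p) = {x ↦ ax + b, a ≠ 0} and containing all translations. (1) If G is a proper subgroup of AGL₁(p), then G is 2-closed: a permutation of F_p agreeing on every ordered pair of points with some element of G lies in G. (2) Every permutation of F_p agrees on every ordered pair with some element of AGL₁(p) (the 2-closure of AGL₁(p) is the symmetric group). (3) AGL₁(p) is 3-closed: a permutation agreeing on every ordered triple with some affine map is affine. -/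
theorem result (p : ℕ) [Fact p.Prime] (G : Subgroup (Equiv.Perm (ZMod p))) (hG : G ≤ Cfsg.affineGroup (ZMod p))
    (htrans : ∀ b : ZMod p, ∃ g ∈ G, ∀ x, g x = x + b) :
    (G ≠ Cfsg.affineGroup (ZMod p) → ∀ σ : Equiv.Perm (ZMod p), (∀ t : Fin 2 → ZMod p, ∃ g ∈ G, ∀ i, σ (t i) = g (t i)) → σ ∈ G) ∧
    (∀ σ : Equiv.Perm (ZMod p), (∀ t : Fin 2 → ZMod p, ∃ g ∈ Cfsg.affineGroup (ZMod p), ∀ i, σ (t i) = g (t i))) ∧
    (∀ σ : Equiv.Perm (ZMod p), (∀ t : Fin 3 → ZMod p, ∃ g ∈ Cfsg.affineGroup (ZMod p), ∀ i, σ (t i) = g (t i)) → σ ∈ Cfsg.affineGroup (ZMod p)) := by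
  refine ⟨fun hne σ hσ => ?_, fun σ t => ?_, fun σ hσ => ?_⟩
  · let A : Subgroup (ZMod p)ˣ :=
      { carrier := {a | ∃ g ∈ G, ∃ b, ∀ x, g x = (a : ZMod p) * x + b}
        one_mem' := ⟨1, G.one_mem, 0, fun x => by simp⟩
        mul_mem' := by
          rintro a c ⟨g, hg, b, hb⟩ ⟨k, hk, d, hd⟩
          exact ⟨g * k, G.mul_mem hg hk, (a : ZMod p) * d + b, fun x => by
            simp only [Equiv.Perm.coe_mul, Function.comp_apply, hb, hd, Units.val_mul]; ring⟩
        inv_mem' := by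
          rintro a ⟨g, hg, b, hb⟩
          refine ⟨g⁻¹, G.inv_mem hg, -((a⁻¹ : (ZMod p)ˣ) : ZMod p) * b, fun x => ?_⟩
          apply g.injective
          rw [Equiv.Perm.inv_def, Equiv.apply_symm_apply, hb, mul_add, ← mul_assoc, Units.mul_inv, ← mul_assoc,
            mul_neg, Units.mul_inv]
          ring }
    have hmem : ∀ a ∈ A, ∀ b, ∀ τ : Equiv.Perm (ZMod p), (∀ x, τ x = (a : ZMod p) * x + b) → τ ∈ G := by
      rintro a ⟨g, hg, d, hd⟩ b τ hτ
      obtain ⟨k, hk, hkd⟩ := htrans (b - d)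
      have : τ = k * g := Equiv.ext fun x => by rw [Equiv.Perm.mul_apply, hkd, hd, hτ]; ring
      exact this ▸ G.mul_mem hk hg
    have hA : A ≠ ⊤ := fun h => hne (le_antisymm hG fun τ ⟨a, b, hab⟩ => hmem a (h ▸ Subgroup.mem_top a) b τ hab)
    obtain ⟨a, ha, e⟩ := SmallOrder.affine_of_quotients_mem A hA σ fun x y hxy => by
      obtain ⟨g, hg, hg'⟩ := hσ ![x, y]
      obtain ⟨a, b, hab⟩ := hG hg
      refine ⟨a, ⟨g, hg, b, hab⟩, ?_⟩
      have e0 := hg' 0
      have e1 := hg' 1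
      simp only [Matrix.cons_val_zero, Matrix.cons_val_one] at e0 e1
      rw [e0, e1, hab, hab]; ring
    exact hmem a ha (σ 0) σ e
  · by_cases h : t 0 = t 1
    · refine ⟨Equiv.addRight (σ (t 0) - t 0), ⟨1, σ (t 0) - t 0, fun x => by simp⟩, fun i => ?_⟩
      fin_cases i <;> simp [h]
    · have hs : σ (t 1) - σ (t 0) ≠ 0 := sub_ne_zero.mpr fun e => h (σ.injective e).symm
      have ht : t 1 - t 0 ≠ 0 := sub_ne_zero.mpr (Ne.symm h)
      refine ⟨(Equiv.mulLeft₀ _ (div_ne_zero hs ht)).trans (Equiv.addRight (σ (t 0) - (σ (t 1) - σ (t 0)) / (t 1 - t 0) * t 0)),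
        ⟨Units.mk0 _ (div_ne_zero hs ht), σ (t 0) - (σ (t 1) - σ (t 0)) / (t 1 - t 0) * t 0, fun x => by simp⟩, fun i => ?_⟩
      fin_cases i <;> simp <;> field_simp <;> ring
  · have hs : σ 1 - σ 0 ≠ 0 := sub_ne_zero.mpr fun e => one_ne_zero (σ.injective e)
    refine ⟨Units.mk0 _ hs, σ 0, fun x => ?_⟩
    obtain ⟨g, ⟨a, b, hab⟩, e⟩ := hσ ![0, 1, x]
    have e0 := e 0; have e1 := e 1; have e2 := e 2
    simp only [Matrix.cons_val_zero, Matrix.cons_val_one, Matrix.cons_val] at e0 e1 e2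
    simp only [Units.val_mk0]
    rw [e2, e1, e0, hab, hab, hab]
    simp [mul_comm]

end Cfsg.Agent.S3518
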