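import Cfsg.Statements.S3532
import Cfsg.Agent.Linear.PSL2Spectrum
import Cfsg.Agent.PermGroups.FrobeniusSpectrum

set_option autoImplicit false
open Cfsg

namespace Cfsg.Agent.S3532

/-- Let q ≥ 4 be a prime power and L = PSL(2,q). There is a finite solvable group with the same set of element orders as L × L (so L × L is not determined by its spectrum). -/
theorem result {F : Type*} [Field F] [Fintype F] (hF : 4 ≤ Fintype.card F) :
    ∃ (H : Type) (_ : Group H) (_ : Finite H), Group.IsSolvable H ∧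
      Set.range (orderOf : H → ℕ) = Set.range (orderOf : Matrix.ProjectiveSpecialLinearGroup (Fin 2) F × Matrix.ProjectiveSpecialLinearGroup (Fin 2) F → ℕ) := by
  classical
  obtain ⟨p, hchar⟩ := CharP.exists F
  obtain ⟨⟨n, hn0⟩, hp, hn⟩ := FiniteField.card F p
  simp only [PNat.mk_coe] at hn
  have : Fact p.Prime := ⟨hp⟩
  set q := Fintype.card F with hq
  set d := Nat.gcd 2 (q - 1) with hd
  set x := (q - 1) / d with hx
  set y := (q + 1) / d with hy
  have hd2 : (q % 2 = 0 ∧ d = 1) ∨ (q % 2 = 1 ∧ d = 2) := Linear.PSL2Classes.gcd_two (F := F)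
  have hdx : d ∣ q - 1 := Nat.gcd_dvd_right _ _
  have hdy : d ∣ q + 1 := by rcases hd2 with ⟨_, e⟩ | ⟨_, e⟩ <;> rw [e] <;> omega
  have hxy : Nat.Coprime x y := by
    rw [Nat.coprime_iff_gcd_eq_one]
    rcases hd2 with ⟨hq2, e⟩ | ⟨hq2, e⟩
    · have h1 : Nat.gcd x y ∣ 2 := by
        have : y = x + 2 := by rw [hx, hy, e]; omega
        rw [this, Nat.gcd_comm]
        exact (Nat.dvd_add_right (Nat.gcd_dvd_right _ _)).1 (Nat.gcd_dvd_left (x + 2) x)
      rcases (Nat.dvd_prime Nat.prime_two).1 h1 with h | h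
      · exact h
      · have := h ▸ Nat.gcd_dvd_left x y
        rw [hx, e, Nat.div_one] at this
        omega
    · have : y = x + 1 := by rw [hx, hy, e]; omega
      rw [this]
      simp
  have hpq : ∀ m : ℕ, m ∣ q - 1 ∨ m ∣ q + 1 → Nat.Coprime p m := by
    intro m hm
    rw [hp.coprime_iff_not_dvd]
    intro h
    have hpq' : p ∣ q := hn ▸ dvd_pow_self p (by omega)
    rcases hm with hm | hm
    · have := (Nat.dvd_sub hpq' (h.trans hm))
      rw [show q - (q - 1) = 1 by omega] at this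
      exact hp.one_lt.ne' (Nat.dvd_one.1 this)
    · exact hp.one_lt.ne' (Nat.dvd_one.1 ((Nat.dvd_add_right hpq').1 (h.trans hm)))
  have hpx : Nat.Coprime p x := hpq x (Or.inl (Nat.div_dvd_of_dvd hdx))
  have hpy : Nat.Coprime p y := hpq y (Or.inr (Nat.div_dvd_of_dvd hdy))
  let K := GaloisField p (2 * n)
  have : Finite K := inferInstance
  letI : Fintype K := Fintype.ofFinite K
  have hK : Nat.card Kˣ = (q - 1) * (q + 1) := by
    rw [Nat.card_units, GaloisField.card p (2 * n) (by omega)]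
    rw [show p ^ (2 * n) = q * q by rw [hn, two_mul, pow_add]]
    obtain ⟨r, hr⟩ : ∃ r, q = r + 1 := ⟨q - 1, by omega⟩
    rw [hr, Nat.add_sub_cancel]
    have : (r + 1) * (r + 1) = r * (r + 1 + 1) + 1 := by ring
    omega
  obtain ⟨g, hg⟩ := IsCyclic.exists_generator (α := Kˣ)
  have hord : orderOf g = (q - 1) * (q + 1) := by
    rw [orderOf_eq_card_of_forall_mem_zpowers hg, hK]
  have hsub : ∀ m : ℕ, m ∣ (q - 1) * (q + 1) → ∃ U : Subgroup Kˣ, Nat.card U = m := by
    intro m hm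
    obtain ⟨h, hh⟩ := Linear.PSL2Classes.exists_of_dvd_order g (hord ▸ hm)
    exact ⟨Subgroup.zpowers h, by rw [Nat.card_zpowers, hh]⟩
  obtain ⟨U₁, hU₁⟩ := hsub y ((Nat.div_dvd_of_dvd hdy).mul_left _)
  obtain ⟨U₂, hU₂⟩ := hsub x ((Nat.div_dvd_of_dvd hdx).mul_right _)
  let H₁ := PermGroups.ScalarFrobenius K U₁
  let H₂ := PermGroups.ScalarFrobenius K U₂
  have : Finite H₁ := Finite.of_equiv _ SemidirectProduct.equivProd.symm
  have : Finite H₂ := Finite.of_equiv _ SemidirectProduct.equivProd.symm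
  have : Group.IsSolvable H₁ := PermGroups.scalarFrobenius_isSolvable K U₁
  have : Group.IsSolvable H₂ := PermGroups.scalarFrobenius_isSolvable K U₂
  refine ⟨H₁ × H₂, inferInstance, inferInstance, inferInstance, ?_⟩
  have hset : ∀ a b : ℕ, (a ∣ p ∨ a ∣ x ∨ a ∣ y) → (b ∣ p ∨ b ∣ x ∨ b ∣ y) →
      (Nat.lcm a b ∣ p * x ∨ Nat.lcm a b ∣ p * y ∨ Nat.lcm a b ∣ x * y) := by
    intro a b hA hB
    have l1 : ∀ {u v s t : ℕ}, u ∣ s → v ∣ t → Nat.lcm u v ∣ s * t := fun hu hv =>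
      Nat.lcm_dvd (hu.trans (dvd_mul_right _ _)) (hv.trans (dvd_mul_left _ _))
    have l2 : ∀ {u v s : ℕ}, u ∣ s → v ∣ s → Nat.lcm u v ∣ s := fun hu hv => Nat.lcm_dvd hu hv
    rcases hA with a | a | a <;> rcases hB with b | b | b
    · exact Or.inl ((l2 a b).trans (dvd_mul_right _ _))
    · exact Or.inl (l1 a b)
    · exact Or.inr (Or.inl (l1 a b))
    · exact Or.inl (by rw [mul_comm]; exact l1 a b)
    · exact Or.inl ((l2 a b).trans (dvd_mul_left _ _))
    · exact Or.inr (Or.inr (l1 a b))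
    · exact Or.inr (Or.inl (by rw [mul_comm]; exact l1 a b))
    · exact Or.inr (Or.inr (by rw [mul_comm]; exact l1 a b))
    · exact Or.inr (Or.inl ((l2 a b).trans (dvd_mul_left _ _)))
  ext m
  constructor
  · rintro ⟨c, rfl⟩
    obtain ⟨Lp, hLp⟩ : p ∈ Set.range (orderOf : Matrix.ProjectiveSpecialLinearGroup (Fin 2) F → ℕ) := by
      rw [Linear.PSL2Classes.range_orderOf p]; exact Or.inl dvd_rfl
    obtain ⟨Lx, hLx⟩ : x ∈ Set.range (orderOf : Matrix.ProjectiveSpecialLinearGroup (Fin 2) F → ℕ) := by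
      rw [Linear.PSL2Classes.range_orderOf p]; exact Or.inr (Or.inl dvd_rfl)
    obtain ⟨Ly, hLy⟩ : y ∈ Set.range (orderOf : Matrix.ProjectiveSpecialLinearGroup (Fin 2) F → ℕ) := by
      rw [Linear.PSL2Classes.range_orderOf p]; exact Or.inr (Or.inr dvd_rfl)
    have hpair : ∀ a b : Matrix.ProjectiveSpecialLinearGroup (Fin 2) F, Nat.Coprime (orderOf a) (orderOf b) →
        orderOf (a, b) = orderOf a * orderOf b := fun a b h => by rw [Prod.orderOf_mk]; exact h.lcm_eq_mul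
    rcases Prod.orderOf c ▸ hset _ _ ((fun a => (PermGroups.scalarFrobenius_orderOf_dvd K U₁ p a).imp id
        (fun h => Or.inr (dvd_trans h hU₁.dvd))) c.1)
      ((fun b => (PermGroups.scalarFrobenius_orderOf_dvd K U₂ p b).imp id
        (fun h => Or.inl (dvd_trans h hU₂.dvd))) c.2) with h | h | h
    · exact Linear.PSL2Classes.exists_of_dvd_order (Lp, Lx)
        (by rw [hpair _ _ (by rw [hLp, hLx]; exact hpx), hLp, hLx]; exact h)
    · exact Linear.PSL2Classes.exists_of_dvd_order (Lp, Ly)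
        (by rw [hpair _ _ (by rw [hLp, hLy]; exact hpy), hLp, hLy]; exact h)
    · exact Linear.PSL2Classes.exists_of_dvd_order (Lx, Ly)
        (by rw [hpair _ _ (by rw [hLx, hLy]; exact hxy), hLx, hLy]; exact h)
  · rintro ⟨c, rfl⟩
    have hL : ∀ a : Matrix.ProjectiveSpecialLinearGroup (Fin 2) F,
        orderOf a ∣ p ∨ orderOf a ∣ x ∨ orderOf a ∣ y := Linear.PSL2Classes.orderOf_dvd p
    obtain ⟨⟨a₁, ha₁⟩, ⟨b₁, hb₁⟩⟩ := PermGroups.scalarFrobenius_exists_orders K U₁ p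
    obtain ⟨⟨a₂, ha₂⟩, ⟨b₂, hb₂⟩⟩ := PermGroups.scalarFrobenius_exists_orders K U₂ p
    rw [hU₁] at hb₁
    rw [hU₂] at hb₂
    rcases Prod.orderOf c ▸ hset _ _ (hL c.1) (hL c.2) with h | h | h
    · exact Linear.PSL2Classes.exists_of_dvd_order (a₁, b₂)
        (by rw [Prod.orderOf (a₁, b₂), ha₁, hb₂, hpx.lcm_eq_mul]; exact h)
    · exact Linear.PSL2Classes.exists_of_dvd_order (b₁, a₂)
        (by rw [Prod.orderOf (b₁, a₂), ha₂, hb₁, Nat.lcm_comm, hpy.lcm_eq_mul]; exact h)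
    · exact Linear.PSL2Classes.exists_of_dvd_order (b₁, b₂)
        (by rw [Prod.orderOf (b₁, b₂), hb₁, hb₂, Nat.lcm_comm, hxy.lcm_eq_mul]; exact h)

end Cfsg.Agent.S3532
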