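import Cfsg.Statements.S3547
import Cfsg.Agent.PermGroups.Counting

set_option autoImplicit false
open Cfsg

namespace Cfsg.Agent.S3547

/-- Let G act faithfully and transitively on a finite set Ω, let D be the subgroup generated by the derangements, and let r_G and r_D be the numbers of orbits of G and of D on ordered pairs of points (the permutation ranks). Then r_D − 1 = (r_G − 1)·[G : D]. -/
theorem result {G Ω : Type*} [Group G] [Finite G] [MulAction G Ω] [FaithfulSMul G Ω] [Finite Ω]
    (htrans : MulAction.IsPretransitive G Ω) :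
    Nat.card (MulAction.orbitRel.Quotient ↥(Subgroup.closure {g : G | ∀ ω : Ω, g • ω ≠ ω}) (Ω × Ω)) - 1 =
      (Nat.card (MulAction.orbitRel.Quotient G (Ω × Ω)) - 1) * (Subgroup.closure {g : G | ∀ ω : Ω, g • ω ≠ ω}).index := by
  classical
  obtain ⟨hD, h2⟩ := Cfsg.Agent.PermGroups.derangementSubgroup_transitive_and_fix (G := G) (Ω := Ω)
  change Nat.card (MulAction.orbitRel.Quotient (Cfsg.Agent.PermGroups.derangementSubgroup G Ω) (Ω × Ω)) - 1 =
    (_ - 1) * (Cfsg.Agent.PermGroups.derangementSubgroup G Ω).index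
  set D := Cfsg.Agent.PermGroups.derangementSubgroup G Ω with hDdef
  rcases isEmpty_or_nonempty Ω with h | h
  · have hq1 : IsEmpty (MulAction.orbitRel.Quotient D (Ω × Ω)) :=
      ⟨fun q => Quotient.inductionOn' q fun x => isEmptyElim x⟩
    have hq2 : IsEmpty (MulAction.orbitRel.Quotient G (Ω × Ω)) :=
      ⟨fun q => Quotient.inductionOn' q fun x => isEmptyElim x⟩
    simp
  have : Fintype G := Fintype.ofFinite G
  have hG2 := Cfsg.Agent.PermGroups.sum_natCard_fixedBy (G := G) (Ω := Ω × Ω)
  simp only [Cfsg.Agent.PermGroups.natCard_fixedBy_prod] at hG2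
  have hD2 := Cfsg.Agent.PermGroups.sum_natCard_fixedBy (G := D) (Ω := Ω × Ω)
  simp only [Cfsg.Agent.PermGroups.natCard_fixedBy_prod] at hD2
  have hsub : ∑ g : D, Nat.card (MulAction.fixedBy Ω g) * Nat.card (MulAction.fixedBy Ω g) =
      ∑ g ∈ Finset.univ.filter (· ∈ D),
        Nat.card (MulAction.fixedBy Ω g) * Nat.card (MulAction.fixedBy Ω g) :=
    (Finset.sum_subtype (Finset.univ.filter (· ∈ D)) (p := (· ∈ D)) (by simp)
      (fun g => Nat.card (MulAction.fixedBy Ω g) * Nat.card (MulAction.fixedBy Ω g))).symm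
  rw [hsub] at hD2
  rw [← Finset.sum_filter_add_sum_filter_not (Finset.univ : Finset G) (· ∈ D), hD2,
    Finset.sum_congr rfl (g := fun _ => 1) (fun g hg => by
      rw [h2 g (by simpa using hg)]), ← Finset.card_eq_sum_ones] at hG2
  have hcards := Finset.card_filter_add_card_filter_not (s := (Finset.univ : Finset G)) (· ∈ D)
  rw [Finset.card_univ, ← Nat.card_eq_fintype_card, ← Fintype.card_subtype,
    ← Nat.card_eq_fintype_card] at hcards
  change Nat.card D + _ = _ at hcards
  have hidx := D.index_mul_card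
  have hpos : 0 < Nat.card D := Nat.card_pos
  set r := Nat.card (MulAction.orbitRel.Quotient G (Ω × Ω))
  set rD := Nat.card (MulAction.orbitRel.Quotient D (Ω × Ω))
  set i := D.index with hi
  have hr : 1 ≤ r := by
    have : Nonempty (MulAction.orbitRel.Quotient G (Ω × Ω)) :=
      ⟨Quotient.mk'' (Classical.arbitrary _)⟩
    exact Nat.card_pos
  have hrD : 1 ≤ rD := by
    have : Nonempty (MulAction.orbitRel.Quotient D (Ω × Ω)) :=
      ⟨Quotient.mk'' (Classical.arbitrary _)⟩
    exact Nat.card_pos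
  obtain ⟨r', hr'⟩ := Nat.exists_eq_add_of_le hr
  obtain ⟨rD', hrD'⟩ := Nat.exists_eq_add_of_le hrD
  rw [← hidx] at hG2 hcards
  rw [hr', hrD'] at hG2 ⊢
  simp only [Nat.add_sub_cancel_left]
  have : rD' * Nat.card D = (r' * i) * Nat.card D := by nlinarith
  exact Nat.eq_of_mul_eq_mul_right hpos this

end Cfsg.Agent.S3547
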