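import Cfsg.Statements.S3548
import Cfsg.Agent.PermGroups.DerangementIndex

set_option autoImplicit false
open Cfsg

namespace Cfsg.Agent.S3548

/-- Let G act faithfully and transitively on a finite set with n ≥ 2 points and let D be the subgroup generated by the derangements. Then the index of D in G divides n − 1, and if it equals n − 1 then n is a prime power. -/
theorem result {G Ω : Type*} [Group G] [Finite G] [MulAction G Ω] [FaithfulSMul G Ω] [Finite Ω]
    (htrans : MulAction.IsPretransitive G Ω) (hΩ : 2 ≤ Nat.card Ω) :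
    (Subgroup.closure {g : G | ∀ ω : Ω, g • ω ≠ ω}).index ∣ Nat.card Ω - 1 ∧
    ((Subgroup.closure {g : G | ∀ ω : Ω, g • ω ≠ ω}).index = Nat.card Ω - 1 → IsPrimePow (Nat.card Ω)) := by
  classical
  obtain ⟨a⟩ : Nonempty Ω := Finite.card_pos_iff.mp (by omega)
  refine ⟨Cfsg.Agent.PermGroups.derangement_index_dvd_pred a, fun he => ?_⟩
  change (Cfsg.Agent.PermGroups.derangementSubgroup G Ω).index = _ at he
  obtain ⟨hDt, -⟩ := Cfsg.Agent.PermGroups.derangementSubgroup_transitive_and_fix (G := G) (Ω := Ω)
  have hN := Cfsg.Agent.PermGroups.derangementSubgroup_normal (G := G) (Ω := Ω)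
  set D := Cfsg.Agent.PermGroups.derangementSubgroup G Ω
  -- every suborbit is everything else
  have horb : ∀ b, a ≠ b →
      MulAction.orbit (MulAction.stabilizer G a) b = {a}ᶜ ∧
        Nat.card (MulAction.orbit (MulAction.stabilizer G a) b) = D.index := by
    intro b hab
    have hd := Cfsg.Agent.PermGroups.derangement_index_dvd_suborbit (G := G) hab
    have hsub : MulAction.orbit (MulAction.stabilizer G a) b ⊆ ({a}ᶜ : Set Ω) := by
      rintro _ ⟨⟨h, hh⟩, rfl⟩ e
      refine hab ?_
      have e' : h • b = h • a := (Set.mem_singleton_iff.mp e).trans hh.symm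
      exact (smul_left_cancel h e').symm
    have hpos : 0 < Nat.card (MulAction.orbit (MulAction.stabilizer G a) b) := by
      have : Nonempty (MulAction.orbit (MulAction.stabilizer G a) b) :=
        ⟨⟨b, MulAction.mem_orbit_self b⟩⟩
      exact Nat.card_pos
    have hle := Nat.le_of_dvd hpos hd
    have hcard : ({a}ᶜ : Set Ω).ncard = Nat.card Ω - 1 := by
      rw [Set.ncard_compl, Set.ncard_singleton]
    have heq := Set.eq_of_subset_of_ncard_le hsub (by
      rw [hcard, ← he, ← Nat.card_coe_set_eq]; exact hle) (Set.toFinite _)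
    exact ⟨heq, by rw [heq, Nat.card_coe_set_eq, hcard, he]⟩
  -- `D` is regular
  have hfree : ∀ d ∈ D, d • a = a → d = 1 := by
    intro d hd hda
    apply FaithfulSMul.eq_of_smul_eq_smul (α := Ω)
    intro b
    rw [one_smul]
    by_cases hab : a = b
    · rw [← hab]; exact hda
    · have h1 := (horb b hab).2
      rw [Cfsg.Agent.PermGroups.natCard_suborbit,
        Cfsg.Agent.PermGroups.derangement_index_eq_relIndex a] at h1
      have hle : MulAction.stabilizer G b ⊓ MulAction.stabilizer G a ≤
          D ⊓ MulAction.stabilizer G a :=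
        le_inf (inf_comm (MulAction.stabilizer G a) (MulAction.stabilizer G b) ▸
          Cfsg.Agent.PermGroups.stabilizer_inf_le_derangement hab) inf_le_right
      have hc1 := Subgroup.relIndex_mul_relIndex _ _ (MulAction.stabilizer G a) hle inf_le_right
      rw [Subgroup.inf_relIndex_right, Subgroup.inf_relIndex_right, h1] at hc1
      have hne : D.relIndex (MulAction.stabilizer G a) ≠ 0 :=
        Subgroup.FiniteIndex.index_ne_zero
      have hone : (MulAction.stabilizer G b ⊓ MulAction.stabilizer G a).relIndex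
          (D ⊓ MulAction.stabilizer G a) = 1 := by
        have := Nat.eq_of_mul_eq_mul_right (Nat.pos_of_ne_zero hne) (hc1.trans (one_mul _).symm)
        exact this
      exact (Subgroup.relIndex_eq_one.mp hone ⟨hd, hda⟩).1
  have hbij : Function.Bijective (fun d : D => (d : G) • a) :=
    ⟨fun d e hde => by
      have h1 : ((e : G)⁻¹ * d) • a = a := by
        rw [mul_smul, show (d : G) • a = (e : G) • a from hde, inv_smul_smul]
      exact Subtype.ext (inv_mul_eq_one.mp (hfree _ (D.mul_mem (D.inv_mem e.2) d.2) h1)).symm,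
      fun x => hDt.exists_smul_eq a x⟩
  have hDcard : Nat.card D = Nat.card Ω := Nat.card_congr (Equiv.ofBijective _ hbij)
  obtain ⟨p, hp, hpd⟩ := Nat.exists_prime_and_dvd (show Nat.card D ≠ 1 by omega)
  have : Fact p.Prime := ⟨hp⟩
  obtain ⟨d₀, hd₀⟩ := exists_prime_orderOf_dvd_card' (G := D) p hpd
  have hall : ∀ d : D, d ≠ 1 → orderOf d = p := by
    intro d hd
    have hd' : (d : G) • a ≠ a := fun e => hd (Subtype.ext (hfree d d.2 e))
    have hne0 : (d₀ : G) • a ≠ a := fun e => by
      have : d₀ = 1 := Subtype.ext (hfree _ d₀.2 e)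
      rw [this, orderOf_one] at hd₀
      exact hp.ne_one hd₀.symm
    have hmem : (d : G) • a ∈ MulAction.orbit (MulAction.stabilizer G a) ((d₀ : G) • a) := by
      rw [(horb _ (Ne.symm hne0)).1]
      exact hd'
    obtain ⟨⟨h, hh⟩, e⟩ := hmem
    have e' : h • (d₀ : G) • a = (d : G) • a := e
    have heq : (⟨h * d₀ * h⁻¹, hN.conj_mem _ d₀.2 h⟩ : D) = d := hbij.1 (by
      show (h * (d₀ : G) * h⁻¹) • a = (d : G) • a
      rw [mul_smul, mul_smul, inv_smul_eq_iff.mpr (show a = h • a from hh.symm), e'])
    rw [← Subgroup.orderOf_coe, ← heq]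
    change orderOf (h * (d₀ : G) * h⁻¹) = p
    rw [show h * (d₀ : G) * h⁻¹ = MulAut.conj h (d₀ : G) from rfl, MulEquiv.orderOf_eq,
      Subgroup.orderOf_coe, hd₀]
  have hpg : IsPGroup p D := fun d => by
    by_cases hd : d = 1
    · exact ⟨0, by simp [hd]⟩
    · exact ⟨1, by rw [pow_one, ← hall d hd, pow_orderOf_eq_one]⟩
  obtain ⟨k, hk⟩ := IsPGroup.iff_card.mp hpg
  rw [← hDcard, hk]
  refine hp.isPrimePow.pow ?_
  rintro rfl
  rw [pow_zero] at hk
  omega

end Cfsg.Agent.S3548
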