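import Cfsg.Statements.S3549
import Cfsg.Agent.PermGroups.DerangementIndex

set_option autoImplicit false
open Cfsg

open scoped Pointwise

namespace Cfsg.Agent.S3549

/-- Let G act faithfully, transitively but imprimitively on a finite set with n points, and let D be the subgroup generated by the derangements. Then the index of D in G is at most √n − 1. -/
theorem result {G Ω : Type*} [Group G] [Finite G] [MulAction G Ω] [FaithfulSMul G Ω] [Finite Ω]
    (htrans : MulAction.IsPretransitive G Ω) (himp : ¬ MulAction.IsPreprimitive G Ω) :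
    ((Subgroup.closure {g : G | ∀ ω : Ω, g • ω ≠ ω}).index : ℝ) ≤ Real.sqrt (Nat.card Ω) - 1 := by
  classical
  have hex : ∃ B : Set Ω, MulAction.IsBlock G B ∧ ¬ MulAction.IsTrivialBlock B := by
    by_contra h
    push Not at h
    exact himp ⟨fun {B} hB => h B hB⟩
  obtain ⟨B, hB, hnt⟩ := hex
  obtain ⟨hns, hnu⟩ := not_or.mp hnt
  obtain ⟨a, ha⟩ := (Set.not_subsingleton_iff.mp hns).nonempty
  have hBn := hB.ncard_dvd_card ⟨a, ha⟩
  have hBinv : ∀ h ∈ MulAction.stabilizer G a, ∀ {x}, x ∈ B → h • x ∈ B := by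
    intro h hh x hx
    have := (MulAction.isBlock_iff_smul_eq_of_mem.mp hB) (g := h) ha (by
      rw [show h • a = a from hh]; exact ha)
    rw [← this]; exact Set.smul_mem_smul_set hx
  have hS := Cfsg.Agent.PermGroups.derangement_index_dvd_invariant (G := G) a (B \ {a}) (by simp)
    (fun h hh x hx => ⟨by
        exact hBinv h hh hx.1,
      fun e => hx.2 (by
        have e' : h • x = h • a := (Set.mem_singleton_iff.mp e).trans hh.symm
        exact smul_left_cancel h e')⟩)
  have hpred := Cfsg.Agent.PermGroups.derangement_index_dvd_pred (G := G) (Ω := Ω) a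
  rw [Nat.card_coe_set_eq, Set.ncard_sdiff (by simpa using ha), Set.ncard_singleton] at hS
  obtain ⟨t, ht⟩ := hBn
  have hs2 : 2 ≤ B.ncard := (Set.one_lt_ncard (Set.toFinite B)).mpr (Set.not_subsingleton_iff.mp hns)
  have ht2 : 2 ≤ t := by
    have h1 : B.ncard < Nat.card Ω := by
      rw [← Set.ncard_univ Ω]
      exact Set.ncard_lt_ncard (lt_of_le_of_ne (Set.subset_univ B) hnu)
    nlinarith
  obtain ⟨s, hs⟩ := Nat.exists_eq_add_of_le (show 1 ≤ B.ncard by omega)
  obtain ⟨t', rfl⟩ := Nat.exists_eq_add_of_le (show 1 ≤ t by omega)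
  change ((Cfsg.Agent.PermGroups.derangementSubgroup G Ω).index : ℝ) ≤ _
  set i := (Cfsg.Agent.PermGroups.derangementSubgroup G Ω).index with hi
  rw [hs, Nat.add_sub_cancel_left] at hS
  rw [ht, hs, show (1 + s) * (1 + t') - 1 = s * (1 + t') + t' by
    rw [Nat.add_mul, one_mul]; omega] at hpred
  have hdt : i ∣ t' := (Nat.dvd_add_right (hS.mul_right _)).mp hpred
  have h1 : i ≤ s := Nat.le_of_dvd (by omega) hS
  have h2 : i ≤ t' := Nat.le_of_dvd (by omega) hdt
  rw [le_sub_iff_add_le]
  apply Real.le_sqrt_of_sq_le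
  rw [ht, hs]
  have : (i + 1) ^ 2 ≤ (1 + s) * (1 + t') := by
    rw [pow_two]
    exact Nat.mul_le_mul (by omega) (by omega)
  exact_mod_cast this

end Cfsg.Agent.S3549
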