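import Cfsg.Statements.S3560
import Mathlib.GroupTheory.GroupAction.MultipleTransitivity
import Mathlib.InformationTheory.Hamming

set_option autoImplicit false
open Cfsg
open scoped Pointwise

namespace Cfsg.Agent.S3560

/-- Let K be a finite group isomorphic to a direct product of r ≥ 2 groups all of the same order m ≥ 3. Then K is not a B-group: there is a primitive but not doubly transitive permutation group (on some finite set) containing a regular subgroup isomorphic to K. -/
theorem result {K : Type*} [Group K] [Finite K] {ι : Type*} [Fintype ι] (F : ι → Type*) [∀ i, Group (F i)]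
    (hr : 2 ≤ Fintype.card ι) (m : ℕ) (hm : 3 ≤ m) (hcard : ∀ i, Nat.card (F i) = m) (e : K ≃* (∀ i, F i)) :
    ∃ (n : ℕ) (G R : Subgroup (Equiv.Perm (Fin n))), R ≤ G ∧ Nonempty (↥R ≃* K) ∧
      MulAction.IsPretransitive ↥R (Fin n) ∧ (∀ a : Fin n, MulAction.stabilizer ↥R a = ⊥) ∧
      MulAction.IsPreprimitive ↥G (Fin n) ∧ ¬ MulAction.IsMultiplyPretransitive ↥G (Fin n) 2 := by
  classical
  haveI : Nonempty ι := Fintype.card_pos_iff.1 (by omega)
  haveI : ∀ i, Finite (F i) := fun i => Nat.finite_of_card_ne_zero (by rw [hcard i]; omega)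
  let u : ∀ i, F i ≃ Fin m := fun i => (Finite.equivFin (F i)).trans (finCongr (hcard i))
  let n := Fintype.card (ι → Fin m)
  let E : Fin n ≃ (ι → Fin m) := (Fintype.equivFin _).symm
  let U : Fin n ≃ (∀ i, F i) := E.trans (Equiv.piCongrRight u).symm
  let G : Subgroup (Equiv.Perm (Fin n)) :=
    { carrier := {σ | ∀ a b, hammingDist (E (σ a)) (E (σ b)) = hammingDist (E a) (E b)}
      one_mem' := fun a b => rfl
      mul_mem' := fun {σ τ} hσ hτ a b => (hσ _ _).trans (hτ a b)
      inv_mem' := fun {σ} hσ a b => by
        have := hσ (σ⁻¹ a) (σ⁻¹ b)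
        rw [show σ (σ⁻¹ a) = a from σ.apply_symm_apply a, show σ (σ⁻¹ b) = b from σ.apply_symm_apply b] at this
        exact this.symm }
  -- the two kinds of generators of the wreath product
  have hmk : ∀ (π : Equiv.Perm ι) (σ : ι → Equiv.Perm (Fin m)),
      ∃ g ∈ G, ∀ a, E (g a) = fun i => σ i (E a (π i)) := by
    intro π σ
    let T : Equiv.Perm (ι → Fin m) :=
      ((π.arrowCongr (Equiv.refl (Fin m))).symm).trans (Equiv.piCongrRight σ)
    have hT : ∀ x i, T x i = σ i (x (π i)) := fun x i => rfl
    refine ⟨E.symm.permCongr T, fun a b => ?_, fun a => funext fun i => ?_⟩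
    · simp only [Equiv.permCongr_apply, Equiv.symm_symm, Equiv.apply_symm_apply]
      unfold hammingDist
      refine Finset.card_equiv π fun i => ?_
      simp [hT]
    · simp only [Equiv.permCongr_apply, Equiv.symm_symm, Equiv.apply_symm_apply, hT]
  let φ : K →* Equiv.Perm (Fin n) :=
    { toFun := fun k => U.symm.permCongr (Equiv.mulLeft (e k))
      map_one' := by ext a; simp
      map_mul' := fun k l => by ext a; simp [mul_assoc] }
  have hφU : ∀ k a, U (φ k a) = e k * U a := fun k a => by simp [φ]
  have hφinj : Function.Injective φ := fun k l hkl => e.injective <| by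
    obtain ⟨a, ha⟩ := U.surjective 1
    simpa [hφU, ha] using congrArg (fun σ : Equiv.Perm (Fin n) => U (σ a)) hkl
  have hEU : ∀ a i, E a i = u i (U a i) := fun a i => by simp [U]
  have hRG : φ.range ≤ G := by
    rintro _ ⟨k, rfl⟩ a b
    unfold hammingDist
    refine congrArg Finset.card (Finset.filter_congr fun i _ => ?_)
    simp [hEU, hφU]
  haveI htR : MulAction.IsPretransitive ↥φ.range (Fin n) := by
    refine ⟨fun a b => ⟨⟨_, e.symm (U b * (U a)⁻¹), rfl⟩, U.injective ?_⟩⟩
    show U (φ _ a) = U b
    rw [hφU, e.apply_symm_apply, inv_mul_cancel_right]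
  haveI htG : MulAction.IsPretransitive ↥G (Fin n) := by
    refine ⟨fun a b => ?_⟩
    obtain ⟨⟨r, hr'⟩, hrab⟩ := MulAction.exists_smul_eq (↥φ.range) a b
    exact ⟨⟨r, hRG hr'⟩, hrab⟩
  refine ⟨n, G, φ.range, hRG, ⟨(MonoidHom.ofInjective hφinj).symm⟩, htR, fun a => ?_, ?_, ?_⟩
  · rw [Subgroup.eq_bot_iff_forall]
    rintro ⟨_, k, rfl⟩ hk
    have hk' : φ k a = a := hk
    have h1 := hφU k a
    rw [hk', eq_comm, mul_eq_right, ← map_one e] at h1
    exact Subtype.ext (by show φ k = 1; rw [e.injective h1, map_one])
  · refine ⟨fun {B} hB => ?_⟩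
    by_cases hBs : B.Subsingleton
    · exact Or.inl hBs
    right
    obtain ⟨a, ha, b, hb, hne⟩ := Set.not_subsingleton_iff.1 hBs
    have hstab : ∀ g ∈ G, ∀ c ∈ B, g c ∈ B → ∀ d ∈ B, g d ∈ B := by
      intro g hg c hc hgc d hd
      have heq : (⟨g, hg⟩ : ↥G) • B = B :=
        (MulAction.isBlock_iff_smul_eq_of_nonempty.1 hB)
          ⟨g c, Set.smul_mem_smul_set hc, hgc⟩
      exact heq.le (Set.smul_mem_smul_set hd : (⟨g, hg⟩ : ↥G) • d ∈ _)
    obtain ⟨i, hi⟩ : ∃ i, E a i ≠ E b i := by
      by_contra hcon
      push Not at hcon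
      exact hne (E.injective (funext hcon))
    -- a point of the block at distance one from `b`
    obtain ⟨c, hca, hcb⟩ : ∃ c : Fin m, c ≠ E a i ∧ c ≠ E b i := by
      have : ({E a i, E b i} : Finset (Fin m)).card < Fintype.card (Fin m) :=
        lt_of_le_of_lt Finset.card_le_two (by rw [Fintype.card_fin]; omega)
      obtain ⟨c, -, hc⟩ := Finset.exists_mem_notMem_of_card_lt_card (t := Finset.univ) this
      exact ⟨c, by simp_all, by simp_all⟩
    obtain ⟨g, hg, hgE⟩ := hmk 1 (Function.update (fun _ => 1) i (Equiv.swap (E b i) c))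
    have hga : g a = a := E.injective (by
      rw [hgE]; funext k
      rcases eq_or_ne k i with rfl | hk
      · simp [Equiv.swap_apply_of_ne_of_ne hi hca.symm]
      · simp [hk])
    have hb' : g b ∈ B := hstab g hg a ha (hga.symm ▸ ha) b hb
    have hEb' : E (g b) = Function.update (E b) i c := by
      rw [hgE]; funext k
      rcases eq_or_ne k i with rfl | hk
      · simp
      · simp [hk]
    -- hence every single coordinate may be changed inside the block
    have hstep : ∀ z ∈ B, ∀ (j : ι) (v : Fin m), E.symm (Function.update (E z) j v) ∈ B := by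
      intro z hz j v
      rcases eq_or_ne v (E z j) with rfl | hv
      · simpa using hz
      set π : Equiv.Perm ι := Equiv.swap i j with hπ
      set τ : Equiv.Perm (Fin m) := Equiv.swap (E b i) (E z j) with hτ
      obtain ⟨h, hh, hhE⟩ := hmk π (Function.update (fun k => Equiv.swap (E b (π k)) (E z k)) j
        (Equiv.swap (τ c) v * τ))
      have hτc : τ c ≠ E z j := by
        intro hcon
        exact hcb (τ.injective (hcon.trans (by simp [hτ])))
      have hhb : h b = z := E.injective (by
        rw [hhE]; funext k
        rcases eq_or_ne k j with rfl | hk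
        · simp only [Function.update_self, hπ, Equiv.swap_apply_right, Equiv.Perm.mul_apply]
          rw [show τ (E b i) = E z k by simp [hτ], Equiv.swap_apply_of_ne_of_ne hτc.symm hv.symm]
        · simp [Function.update_of_ne hk])
      have hhg : E (h (g b)) = Function.update (E z) j v := by
        rw [hhE, hEb']; funext k
        rcases eq_or_ne k j with rfl | hk
        · simp only [Function.update_self, hπ, Equiv.swap_apply_right, Equiv.Perm.mul_apply,
            Equiv.swap_apply_left]
        · have hπk : π k ≠ i := fun hcon => hk (π.injective (hcon.trans (by simp [hπ])))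
          simp [Function.update_of_ne hk, Function.update_of_ne hπk]
      have := hstab h hh b hb (hhb.symm ▸ hz) (g b) hb'
      rwa [← hhg, Equiv.symm_apply_apply]
    have hall : ∀ (s : Finset ι) (w : ι → Fin m), E.symm (s.piecewise w (E a)) ∈ B := by
      intro s w
      induction s using Finset.induction_on with
      | empty => simpa using ha
      | @insert j t hj ih =>
        rw [Finset.piecewise_insert]
        have := hstep _ ih j (w j)
        rwa [Equiv.apply_symm_apply] at this
    refine Set.eq_univ_of_forall fun x => ?_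
    simpa using hall Finset.univ (E x)
  · intro h2
    obtain ⟨i, j, hij⟩ := Fintype.exists_pair_of_one_lt_card (α := ι) (by omega)
    let z0 : Fin m := ⟨0, by omega⟩
    let z1 : Fin m := ⟨1, by omega⟩
    have h01 : z1 ≠ z0 := by simp [z0, z1, Fin.ext_iff]
    let o : ι → Fin m := fun _ => z0
    let x : ι → Fin m := Function.update o i z1
    let y : ι → Fin m := Function.update x j z1
    have hox : o ≠ x := fun hcon => h01 (by simpa [o, x] using (congrFun hcon i).symm)
    have hoy : o ≠ y := fun hcon => h01 (by simpa [o, y] using (congrFun hcon j).symm)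
    obtain ⟨g, hg0, hg1⟩ := MulAction.is_two_pretransitive_iff.1 h2
      (E.symm.injective.ne hox) (E.symm.injective.ne hoy)
    have hd := g.2 (E.symm o) (E.symm x)
    rw [show (g : Equiv.Perm (Fin n)) (E.symm o) = E.symm o from hg0,
      show (g : Equiv.Perm (Fin n)) (E.symm x) = E.symm y from hg1,
      Equiv.apply_symm_apply, Equiv.apply_symm_apply, Equiv.apply_symm_apply] at hd
    have h1 : hammingDist o x = 1 := by
      unfold hammingDist
      rw [Finset.card_eq_one]
      refine ⟨i, Finset.ext fun k => ?_⟩
      simp only [Finset.mem_filter, Finset.mem_univ, true_and, Finset.mem_singleton]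
      rcases eq_or_ne k i with rfl | hk
      · simp [x, o, h01.symm]
      · simp [x, hk]
    have h2' : 2 ≤ hammingDist o y := by
      unfold hammingDist
      refine le_trans (le_of_eq (Finset.card_pair hij).symm) (Finset.card_le_card fun k hk => ?_)
      simp only [Finset.mem_insert, Finset.mem_singleton] at hk
      simp only [Finset.mem_filter, Finset.mem_univ, true_and]
      rcases hk with rfl | rfl
      · simp [y, x, o, hij, h01.symm]
      · simp [y, o, h01.symm]
    omega

end Cfsg.Agent.S3560
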