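import Cfsg.Statements.S3571
import Cfsg.Agent.PermGroups.AltDerangement.Main

set_option autoImplicit false
open Cfsg

namespace Cfsg.Agent.S3571

/-- Let G be an almost simple group whose socle is an alternating group of degree m ≥ 5 (G has a normal subgroup T isomorphic to that alternating group with trivial centralizer), acting faithfully and primitively on a finite set Ω with at least two points, and let r be the largest prime divisor of the number of points. Then G contains an element of order r fixing no point. -/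
theorem result {G Ω : Type*} [Group G] [Finite G] [MulAction G Ω] [FaithfulSMul G Ω] [Finite Ω]
    (T : Subgroup G) (hT : T.Normal) (hTc : Subgroup.centralizer (T : Set G) = ⊥) (m : ℕ) (hm : 5 ≤ m)
    (eT : ↥T ≃* ↥(alternatingGroup (Fin m))) (hprim : MulAction.IsPreprimitive G Ω) (hΩ : 2 ≤ Nat.card Ω)
    (r : ℕ) (hr : r.Prime) (hrd : r ∣ Nat.card Ω) (hmax : ∀ s : ℕ, s.Prime → s ∣ Nat.card Ω → s ≤ r) :
    ∃ g : G, orderOf g = r ∧ ∀ ω : Ω, g • ω ≠ ω := by
  classical
  haveI := hT
  haveI := hprim
  obtain ⟨ω₀⟩ : Nonempty Ω := by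
    rw [← not_isEmpty_iff]; intro h; rw [Nat.card_of_isEmpty] at hΩ; omega
  have hTne : MulAction.fixedPoints T Ω ≠ Set.univ := by
    intro e
    have hall : ∀ t ∈ T, t = 1 := fun t ht => eq_of_smul_eq_smul fun ω : Ω => by
      rw [one_smul]
      exact (MulAction.mem_fixedPoints.1 (e ▸ Set.mem_univ ω)) ⟨t, ht⟩
    have h1 : Subsingleton ↥T := ⟨fun a b => Subtype.ext ((hall a a.2).trans (hall b b.2).symm)⟩
    haveI : Nontrivial (Fin m) := Fin.nontrivial_iff_two_le.2 (by omega)
    have h2 : Subsingleton ↥(alternatingGroup (Fin m)) := eT.symm.toEquiv.subsingleton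
    have h3 := Nat.card_of_subsingleton (1 : ↥(alternatingGroup (Fin m)))
    have h4 := two_mul_card_alternatingGroup (α := Fin m)
    rw [Fintype.card_perm, Fintype.card_fin, ← Nat.card_eq_fintype_card, h3] at h4
    have h5 := Nat.factorial_le hm
    norm_num [Nat.factorial] at h5
    omega
  haveI : MulAction.IsPretransitive T Ω :=
    MulAction.IsQuasiPreprimitive.isPretransitive_of_normal hTne
  set S := MulAction.stabilizer T ω₀ with hS
  have hidx : S.index = Nat.card Ω := MulAction.index_stabilizer_of_transitive T ω₀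
  set K := (S.map eT.toMonoidHom).map (alternatingGroup (Fin m)).subtype with hK
  have hcard : Nat.card K = Nat.card S := by
    rw [hK, Subgroup.card_map_of_injective (Subgroup.subtype_injective _), Subgroup.card_map_of_injective eT.injective]
  haveI : Nontrivial (Fin m) := Fin.nontrivial_iff_two_le.2 (by omega)
  have hfac : 2 * Nat.card K * Nat.card Ω = (Fintype.card (Fin m)).factorial := by
    have h1 := S.card_mul_index
    have h2 := two_mul_card_alternatingGroup (α := Fin m)
    rw [Fintype.card_perm, ← Nat.card_eq_fintype_card, ← Nat.card_congr eT.toEquiv, ← h1, hidx] at h2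
    rw [hcard, mul_assoc]; exact h2
  obtain ⟨σ, hσA, hσo, hσ⟩ := PermGroups.AltDerangement.core K (by rw [Fintype.card_fin]; exact hm)
    (Subgroup.map_subtype_le _) (Nat.card Ω) r hfac hr hrd hmax
  refine ⟨(eT.symm ⟨σ, hσA⟩ : ↥T), ?_, fun ω hω => ?_⟩
  · rw [Subgroup.orderOf_coe, MulEquiv.orderOf_eq, Subgroup.orderOf_mk, hσo]
  obtain ⟨t, ht⟩ := MulAction.exists_smul_eq T ω ω₀
  have hmem : t * eT.symm ⟨σ, hσA⟩ * t⁻¹ ∈ S := by
    rw [hS, MulAction.mem_stabilizer_iff, ← ht, mul_smul, mul_smul, inv_smul_smul]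
    exact congrArg (t • ·) hω
  refine hσ (eT t : Equiv.Perm (Fin m)) (eT t).2 ?_
  refine ⟨eT (t * eT.symm ⟨σ, hσA⟩ * t⁻¹), ⟨_, hmem, rfl⟩, ?_⟩
  simp

end Cfsg.Agent.S3571
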