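import Cfsg.Statements.S3619

set_option autoImplicit false
open Cfsg

open scoped Pointwise

namespace Cfsg.Agent.S3619

/-- Let G act faithfully on a finite set in such a way that every non-trivial normal subgroup of G is transitive (G is quasiprimitive). Let Γ be a subset with more than one point and not the whole set, such that the pointwise stabilizer of the complement of Γ acts transitively on Γ (a Jordan set). If that pointwise stabilizer acts primitively on Γ, then G is k-fold transitive where k is one more than the number of points outside Γ (the Jordan set is a trivial one). -/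
theorem result {G Ω : Type*} [Group G] [Finite G] [MulAction G Ω] [FaithfulSMul G Ω] [Finite Ω]
    (hqp : ∀ N : Subgroup G, N.Normal → N ≠ ⊥ → MulAction.IsPretransitive ↥N Ω)
    (Γ : Set Ω) (hΓ1 : 1 < Γ.ncard) (hΓ2 : Γ.ncard < Nat.card Ω)
    (hJ : MulAction.IsPretransitive ↥(fixingSubgroup G Γᶜ) ↥(SubMulAction.ofFixingSubgroup G Γᶜ))
    (hJp : MulAction.IsPreprimitive ↥(fixingSubgroup G Γᶜ) ↥(SubMulAction.ofFixingSubgroup G Γᶜ)) :
    MulAction.IsMultiplyPretransitive G Ω (Nat.card Ω - Γ.ncard + 1) := by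
  classical
  haveI := Fintype.ofFinite Ω
  have hbot : ∀ N : Subgroup G, N.Normal → ∀ g ∈ N, (∃ ω : Ω, g • ω ≠ ω) →
      MulAction.IsPretransitive ↥N Ω := by
    intro N hN g hg ⟨ω, hω⟩
    refine hqp N hN fun e => hω ?_
    rw [e, Subgroup.mem_bot] at hg
    rw [hg, one_smul]
  obtain ⟨x₀, hx₀, y₀, hy₀, hne₀⟩ := (Set.one_lt_ncard).1 hΓ1
  obtain ⟨⟨g₀, hg₀⟩, hg₀x⟩ := hJ.exists_smul_eq ⟨x₀, not_not.2 hx₀⟩ ⟨y₀, not_not.2 hy₀⟩
  have hg₀x' : g₀ • x₀ = y₀ := congrArg Subtype.val hg₀x
  have htr : MulAction.IsPretransitive G Ω := by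
    have := hbot ⊤ inferInstance g₀ (Subgroup.mem_top _) ⟨x₀, by rw [hg₀x']; exact hne₀.symm⟩
    exact ⟨fun a b => ⟨((this.exists_smul_eq a b).choose : G), (this.exists_smul_eq a b).choose_spec⟩⟩
  have hprim : MulAction.IsPreprimitive G Ω := by
    refine ⟨fun {B} hB => ?_⟩
    by_contra hnt
    rw [MulAction.IsTrivialBlock, not_or] at hnt
    obtain ⟨hsub, huniv⟩ := hnt
    obtain ⟨b, hb⟩ : B.Nonempty := by
      by_contra he
      rw [Set.not_nonempty_iff_eq_empty] at he
      exact hsub (he ▸ Set.subsingleton_empty)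
    have hJfix : ∀ k : fixingSubgroup G Γᶜ, ∀ z ∉ Γ, (k : G) • z = z := fun k z hz =>
      (mem_fixingSubgroup_iff G).1 k.2 z hz
    -- a block translate meeting `Γ` is invariant under the fixing subgroup
    have key : ∀ (k : fixingSubgroup G Γᶜ) (g : G), (k : G) • (g • B) = g • B := by
      intro k g
      have hgB : MulAction.IsBlock G (g • B) := hB.translate g
      by_contra hk
      -- then the block lies inside `Γ`
      have hsubΓ : g • B ⊆ Γ := fun z hz => by
        by_contra hzΓ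
        exact hk (hgB.smul_eq_of_nonempty ⟨z, ⟨z, hz, hJfix k z hzΓ⟩, hz⟩)
      -- and is a block for the fixing subgroup
      let C : Set (SubMulAction.ofFixingSubgroup G Γᶜ) := Subtype.val ⁻¹' (g • B)
      have hC : MulAction.IsBlock (fixingSubgroup G Γᶜ) C := by
        rw [MulAction.isBlock_iff_smul_eq_of_nonempty]
        rintro t ⟨u, ⟨v, hv, rfl⟩, hu⟩
        have e : (t : G) • (g • B) = g • B :=
          hgB.smul_eq_of_nonempty ⟨(t : G) • v.1, ⟨v.1, hv, rfl⟩, hu⟩
        refine Set.ext fun w => ?_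
        rw [Set.mem_smul_set_iff_inv_smul_mem]
        show (t : G)⁻¹ • (w : Ω) ∈ g • B ↔ (w : Ω) ∈ g • B
        rw [← Set.mem_smul_set_iff_inv_smul_mem, e]
      rcases hJp.isTrivialBlock_of_isBlock hC with h | h
      · apply hsub
        intro u hu v hv
        have := @h ⟨g • u, not_not.2 (hsubΓ ⟨u, hu, rfl⟩)⟩ ⟨u, hu, rfl⟩
          ⟨g • v, not_not.2 (hsubΓ ⟨v, hv, rfl⟩)⟩ ⟨v, hv, rfl⟩
        exact smul_left_cancel g (congrArg Subtype.val this)
      · refine hk ?_
        have hΓeq : g • B = Γ := Set.Subset.antisymm hsubΓ fun z hz => by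
          have : (⟨z, not_not.2 hz⟩ : SubMulAction.ofFixingSubgroup G Γᶜ) ∈ C := h ▸ Set.mem_univ _
          exact this
        obtain ⟨z, hz⟩ := Set.nonempty_of_ncard_ne_zero (show Γ.ncard ≠ 0 by omega)
        refine hgB.smul_eq_of_nonempty ⟨(k : G) • z, ⟨z, hΓeq.symm ▸ hz, rfl⟩, ?_⟩
        rw [hΓeq]
        exact not_not.1 (k • (⟨z, not_not.2 hz⟩ : SubMulAction.ofFixingSubgroup G Γᶜ)).2
    -- the kernel of the action on the translates of `B` is transitive
    let N : Subgroup G :=
      { carrier := {x | ∀ g : G, x • (g • B) = g • B}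
        mul_mem' := fun {x y} hx hy g => by rw [mul_smul, hy g, hx g]
        one_mem' := fun g => one_smul _ _
        inv_mem' := fun {x} hx g => by rw [inv_smul_eq_iff, hx g] }
    have hN : N.Normal := ⟨fun x hx g h => by
      rw [mul_smul, mul_smul, smul_smul g⁻¹ h B, hx (g⁻¹ * h), smul_smul, mul_inv_cancel_left]⟩
    have hNt := hbot N hN g₀ (key ⟨g₀, hg₀⟩) ⟨x₀, by rw [hg₀x']; exact hne₀.symm⟩
    refine huniv (Set.eq_univ_of_forall fun z => ?_)
    obtain ⟨⟨x, hx⟩, rfl⟩ := hNt.exists_smul_eq b z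
    have h1 := hx 1
    rw [one_smul] at h1
    exact h1 ▸ Set.smul_mem_smul_set hb
  have hc : (Γᶜ).ncard = Nat.card Ω - Γ.ncard := Set.ncard_compl Γ
  have hmp := hprim.isMultiplyPreprimitive (s := Γᶜ) (n := Nat.card Ω - Γ.ncard - 1)
    (by omega) (by omega) hJp
  rw [show Nat.card Ω - Γ.ncard - 1 + 2 = Nat.card Ω - Γ.ncard + 1 by omega] at hmp
  haveI := hmp
  exact MulAction.IsMultiplyPreprimitive.isMultiplyPretransitive ..

end Cfsg.Agent.S3619
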