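import Cfsg.Statements.S3622
import Mathlib

set_option autoImplicit false
open Cfsg

namespace Cfsg.Agent.S3622

/-- Let G be a group of permutations of a finite set, m ≥ 2, and α a point. Say a permutation σ is k-approximated by a set S of permutations if for every k points there is a member of S agreeing with σ at those points. Suppose every permutation that is (m-1)-approximated by the stabilizer of α in G lies in that stabilizer (the stabilizer is (m-1)-closed). Then every permutation that is m-approximated by G lies in G (G is m-closed). -/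
theorem result {Ω : Type*} [Finite Ω] (G : Subgroup (Equiv.Perm Ω)) (m : ℕ) (hm : 2 ≤ m) (α : Ω)
    (hclosed : ∀ σ : Equiv.Perm Ω,
      (∀ t : Fin (m - 1) → Ω, ∃ g ∈ MulAction.stabilizer ↥G α, ∀ i, (g : Equiv.Perm Ω) (t i) = σ (t i)) →
      σ ∈ G ∧ σ α = α) :
    ∀ σ : Equiv.Perm Ω, (∀ t : Fin m → Ω, ∃ g ∈ G, ∀ i, g (t i) = σ (t i)) → σ ∈ G := by
  obtain ⟨n, rfl⟩ := Nat.exists_eq_add_of_le (show 1 ≤ m by omega)
  intro σ hσ
  obtain ⟨g, hg, hgα⟩ := hσ (fun _ => α)
  have hα : g α = σ α := hgα ⟨0, by omega⟩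
  have key := hclosed (g⁻¹ * σ) (fun t => by
    obtain ⟨h, hh, heq⟩ := hσ (fun i => if hi : (i : ℕ) < 1 + n - 1 then t ⟨i, hi⟩ else α)
    have h1 : h α = σ α := by
      have := heq ⟨n, by omega⟩
      simpa using this
    refine ⟨⟨g⁻¹ * h, mul_mem (inv_mem hg) hh⟩, ?_, fun i => ?_⟩
    · change g⁻¹ (h α) = α
      rw [h1, ← hα]
      simp
    · have := heq ⟨i, by omega⟩
      simp only [Fin.is_lt, dite_true, Fin.eta] at this
      simp [this])
  have := mul_mem hg key.1
  simpa using this

end Cfsg.Agent.S3622
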