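import Cfsg.Statements.S3633
import Cfsg.Agent.PermGroups.PrimeGraphFacts

set_option autoImplicit false
open Cfsg

namespace Cfsg.Agent.S3633

/-- Let G be a finite group and ρ a set of at least three prime divisors of the order of G that are pairwise non-adjacent in the prime graph (no element of order rs for distinct r, s ∈ ρ). Then at most one prime of ρ divides the order of any given solvable normal subgroup of G; in particular G is not solvable. -/
theorem result {G : Type*} [Group G] [Finite G] (ρ : Finset ℕ) (hρ : 3 ≤ ρ.card) (hc : ((∀ r ∈ ρ, r.Prime ∧ r ∣ Nat.card G) ∧ (∀ r ∈ ρ, ∀ s ∈ ρ, r ≠ s → ¬ ∃ x : G, orderOf x = r * s)))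
    (K : Subgroup G) [K.Normal] (hK : Group.IsSolvable ↥K) :
    (∀ r ∈ ρ, ∀ s ∈ ρ, r ∣ Nat.card ↥K → s ∣ Nat.card ↥K → r = s) ∧ ¬ Group.IsSolvable G := by
  obtain ⟨hpr, hno⟩ := hc
  have key : ∀ H : Subgroup G, Group.IsSolvable H → ∀ T : Finset ℕ, 3 ≤ T.card → T ⊆ ρ →
      (∀ r ∈ T, r ∣ Nat.card H) → False := by
    intro H hH T hT hTρ hd
    obtain ⟨r, hr, s, hs, hrs, x, hx⟩ := Cfsg.Agent.PermGroups.exists_edge_of_solvable (G := H) T hT
      fun r hr => ⟨(hpr r (hTρ hr)).1, hd r hr⟩
    exact hno r (hTρ hr) s (hTρ hs) hrs ⟨(x : G), by rw [Subgroup.orderOf_coe, hx]⟩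
  refine ⟨fun r hr s hs hrK hsK => ?_, fun hG => ?_⟩
  · by_contra hrs
    obtain ⟨t, ht, htr, hts⟩ : ∃ t ∈ ρ, t ≠ r ∧ t ≠ s := by
      obtain ⟨t, ht, htn⟩ := Finset.exists_mem_notMem_of_card_lt_card
        (s := ({r, s} : Finset ℕ)) (t := ρ) ((Finset.card_le_two).trans_lt (by omega))
      simp only [Finset.mem_insert, Finset.mem_singleton, not_or] at htn
      exact ⟨t, ht, htn⟩
    haveI : Fact t.Prime := ⟨(hpr t ht).1⟩
    obtain ⟨y, hy⟩ := exists_prime_orderOf_dvd_card' (G := G) t (hpr t ht).2
    let H : Subgroup G := K ⊔ Subgroup.zpowers y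
    have hsol : Group.IsSolvable H := by
      let f := (QuotientGroup.mk' K).comp H.subtype
      have hcomm : ∀ a b : f.range, a * b = b * a := by
        have hle : f.range ≤ Subgroup.zpowers (QuotientGroup.mk' K y) := by
          rw [MonoidHom.range_comp, Subgroup.range_subtype, Subgroup.map_sup,
            QuotientGroup.map_mk'_self, bot_sup_eq, MonoidHom.map_zpowers]
        intro a b
        obtain ⟨i, hi⟩ := hle a.2
        obtain ⟨j, hj⟩ := hle b.2
        apply Subtype.ext
        rw [Subgroup.coe_mul, Subgroup.coe_mul, ← hi, ← hj]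
        exact (Commute.zpow_zpow_self _ i j).eq
      have : Group.IsSolvable f.range := Group.isSolvable_of_comm hcomm
      haveI := hK
      refine Group.isSolvable_of_ker_le_range (Subgroup.inclusion (le_sup_left : K ≤ H))
        f.rangeRestrict ?_
      intro x hx
      rw [MonoidHom.ker_rangeRestrict] at hx
      exact ⟨⟨x.1, (QuotientGroup.eq_one_iff _).1 hx⟩, rfl⟩
    refine key H hsol {r, s, t} ?_ ?_ ?_
    · rw [Finset.card_eq_three.2 ⟨r, s, t, hrs, Ne.symm htr, Ne.symm hts, rfl⟩]
    · intro u hu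
      simp only [Finset.mem_insert, Finset.mem_singleton] at hu
      rcases hu with rfl | rfl | rfl <;> assumption
    · intro u hu
      simp only [Finset.mem_insert, Finset.mem_singleton] at hu
      rcases hu with rfl | rfl | rfl
      · exact hrK.trans (Subgroup.card_dvd_of_le le_sup_left)
      · exact hsK.trans (Subgroup.card_dvd_of_le le_sup_left)
      · rw [← hy, ← Nat.card_zpowers]
        exact Subgroup.card_dvd_of_le le_sup_right
  · haveI := hG
    exact key ⊤ inferInstance ρ hρ subset_rfl fun r hr => by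
      rw [Subgroup.card_top]; exact (hpr r hr).2

end Cfsg.Agent.S3633
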