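import Cfsg.Statements.S3639
import Cfsg.Agent.PermGroups.SuzukiFixedVectors
import Cfsg.Agent.PermGroups.PrimeGraphExtension

set_option autoImplicit false
open Cfsg

namespace Cfsg.Agent.S3639

/-- Let S be the Suzuki group over the field with q = 2^(2m+1) ≥ 8 elements. Then there are finite groups of arbitrarily large order with the same prime graph as S. -/
theorem result {F : Type*} [Field F] [Fintype F] {m : ℕ} (hm : 1 ≤ m) (hF : Fintype.card F = 2 ^ (2 * m + 1)) (N : ℕ) :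
    ∃ (H : Type) (_ : Group H) (_ : Fintype H), N < Fintype.card H ∧ ((∀ r : ℕ, r.Prime → (r ∣ Nat.card ↥(Cfsg.Lie.Sz F (2 ^ (m + 1))) ↔ r ∣ Nat.card H)) ∧
      (∀ r s : ℕ, r.Prime → s.Prime → r ≠ s → ((∃ x : ↥(Cfsg.Lie.Sz F (2 ^ (m + 1))), orderOf x = r * s) ↔ (∃ y : H, orderOf y = r * s)))) := by
  have h : Cfsg.Agent.Suzuki.Ctx F m := ⟨hm, by rw [Nat.card_eq_fintype_card, hF]⟩
  have := Cfsg.Agent.Suzuki.finite_sz h
  have := h.charP
  letI : DistribMulAction (Cfsg.Sz F m) (Fin 4 → F) :=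
    { smul := fun g v => g.1.1.mulVec v
      one_smul := fun v => Matrix.one_mulVec v
      mul_smul := fun g g' v => (Matrix.mulVec_mulVec v g.1.1 g'.1.1).symm
      smul_zero := fun g => Matrix.mulVec_zero g.1.1
      smul_add := fun g => Matrix.mulVec_add g.1.1 }
  have e := Cfsg.Agent.Suzuki.lieEquiv h
  have hc : Nat.card ↥(Cfsg.Lie.Sz F (2 ^ (m + 1))) = Nat.card (Cfsg.Sz F m) :=
    (Nat.card_congr e.toEquiv).symm
  have h2 : 2 ∣ Nat.card (Cfsg.Sz F m) := by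
    rw [Cfsg.Agent.Suzuki.card_sz h]
    exact ((dvd_pow_self 2 (by omega)).trans (dvd_pow_self _ two_ne_zero)).mul_right _ |>.mul_right _
  obtain ⟨H, hG, hfin, hN, hprimes, hedges⟩ :=
    Cfsg.Agent.PermGroups.exists_extension_same_prime_graph Nat.prime_two h2 (Fin 4 → F)
      (fun v => by rw [two_nsmul]; funext i; exact h.add_self _)
      (fun g hg v hgv hv => Cfsg.Agent.PermGroups.eq_one_of_fixed_vector h hg hgv hv) N
  refine ⟨H, hG, Fintype.ofFinite H, ?_, fun r hr => ?_, fun r s hr hs hrs => ?_⟩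
  · rwa [← @Nat.card_eq_fintype_card H (Fintype.ofFinite H)]
  · rw [hc]; exact hprimes r hr
  · rw [← hedges r s hr hs hrs]
    exact ⟨fun ⟨x, hx⟩ => ⟨e.symm x, by rw [e.symm.orderOf_eq, hx]⟩,
      fun ⟨x, hx⟩ => ⟨e x, by rw [e.orderOf_eq, hx]⟩⟩

end Cfsg.Agent.S3639
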