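import Cfsg.Statements.S3660
import Cfsg.Agent.PermGroups.SLTwoOrders
import Cfsg.Agent.PermGroups.PrimeGraphExtension

set_option autoImplicit false
open Cfsg

namespace Cfsg.Agent.S3660

/-- The prime graph of a finite group has the prime divisors of its order as vertices, two distinct primes p, q being joined when the group has an element of order pq; two groups have the same prime graph when they have the same prime divisors and the same joined pairs. Let F be a finite field of characteristic 2 with at least 4 elements. Then there are finite groups of arbitrarily large order with the same prime graph as PSL(2,F); in particular PSL(2,F) is not determined by its prime graph. -/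
theorem result {F : Type*} [Field F] [Fintype F] [CharP F 2] (hF : 4 ≤ Fintype.card F) (N : ℕ) :
    ∃ (H : Type) (_ : Group H) (_ : Finite H), N < Nat.card H ∧
      ((∀ p : ℕ, p.Prime → (p ∣ Nat.card (Matrix.ProjectiveSpecialLinearGroup (Fin 2) F) ↔ p ∣ Nat.card H)) ∧
      (∀ p q : ℕ, p.Prime → q.Prime → p ≠ q → ((∃ g : (Matrix.ProjectiveSpecialLinearGroup (Fin 2) F), orderOf g = p * q) ↔ (∃ g : H, orderOf g = p * q)))) := by
  obtain ⟨n, hp, hn⟩ := FiniteField.card F 2
  have hbij : Function.Bijective
      (QuotientGroup.mk' (Subgroup.center (Matrix.SpecialLinearGroup (Fin 2) F))) := by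
    refine ⟨(injective_iff_map_eq_one _).2 fun x hx => ?_, QuotientGroup.mk'_surjective _⟩
    have h1 : Nat.card (Subgroup.center (Matrix.SpecialLinearGroup (Fin 2) F)) = 1 := by
      rw [Cfsg.Agent.Linear.card_center_SL, hn]
      have h2 : 2 ∣ 2 ^ (n : ℕ) := dvd_pow_self 2 n.pos.ne'
      have hpos : 1 ≤ 2 ^ (n : ℕ) := Nat.one_le_two_pow
      exact (Nat.prime_two.coprime_iff_not_dvd.2 (by omega))
    exact Subgroup.eq_bot_iff_forall _ |>.1 (Subgroup.card_eq_one.1 h1) x
      ((QuotientGroup.eq_one_iff x).1 hx)
  let e : Matrix.SpecialLinearGroup (Fin 2) F ≃* Matrix.ProjectiveSpecialLinearGroup (Fin 2) F :=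
    MulEquiv.ofBijective _ hbij
  letI : DistribMulAction (Matrix.SpecialLinearGroup (Fin 2) F) (Fin 2 → F) :=
    { smul := fun g v => g.1.mulVec v
      one_smul := fun v => Matrix.one_mulVec v
      mul_smul := fun g g' v => (Matrix.mulVec_mulVec v g.1 g'.1).symm
      smul_zero := fun g => Matrix.mulVec_zero g.1
      smul_add := fun g => Matrix.mulVec_add g.1 }
  have h2 : 2 ∣ Nat.card (Matrix.SpecialLinearGroup (Fin 2) F) := by
    rw [Cfsg.Agent.Linear.card_SL_two, hn]
    exact (dvd_pow_self 2 n.pos.ne').mul_right _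
  obtain ⟨H, hG, hfin, hN, hprimes, hedges⟩ :=
    Cfsg.Agent.PermGroups.exists_extension_same_prime_graph Nat.prime_two h2 (Fin 2 → F)
      (fun v => by rw [two_nsmul]; funext i; exact CharTwo.add_self_eq_zero _)
      (fun g hg v hgv hv => by
        have h := orderOf_dvd_of_pow_eq_one
          (Cfsg.Agent.PermGroups.sq_eq_one_of_fixed_vector hgv hv)
        rcases (Nat.dvd_prime Nat.prime_two).1 h with h | h
        · exact orderOf_eq_one_iff.1 h
        · exact absurd (dvd_of_eq h.symm) hg) N
  refine ⟨H, hG, hfin, hN, fun r hr => ?_, fun r s hr hs hrs => ?_⟩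
  · rw [← Nat.card_congr e.toEquiv]; exact hprimes r hr
  · rw [← hedges r s hr hs hrs]
    exact ⟨fun ⟨x, hx⟩ => ⟨e.symm x, by rw [e.symm.orderOf_eq, hx]⟩,
      fun ⟨x, hx⟩ => ⟨e x, by rw [e.orderOf_eq, hx]⟩⟩

end Cfsg.Agent.S3660
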