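import Cfsg.Statements.S3664
import Cfsg.Agent.PLocal.SzEightExtension
import Cfsg.Agent.PLocal.PSpSixThree

set_option autoImplicit false
open Cfsg

namespace Cfsg.Agent.S3664

/-- The prime graph of a finite group has the prime divisors of its order as vertices, two distinct primes p, q being joined when the group has an element of order pq; two groups have the same prime graph when they have the same prime divisors and the same joined pairs. Let F be the field with 3 elements and L = PSp(6,F). There are finite groups of arbitrarily large order with the same prime graph as L (a prime graph shared by the orthogonal groups Ω₇(3) and PΩ⁺₈(3)). -/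
theorem result {F : Type*} [Field F] [Fintype F] (hF : Fintype.card F = 3) (N : ℕ) :
    ∃ (H : Type) (_ : Group H) (_ : Finite H), N < Nat.card H ∧
      ((∀ p : ℕ, p.Prime → (p ∣ Nat.card (Cfsg.PSp 3 F) ↔ p ∣ Nat.card H)) ∧
      (∀ p q : ℕ, p.Prime → q.Prime → p ≠ q → ((∃ g : (Cfsg.PSp 3 F), orderOf g = p * q) ↔ (∃ g : H, orderOf g = p * q)))) := by
  classical
  obtain ⟨B, hA, hB, π, hπs, hπ⟩ := Forms.exists_psp_hom (F := F) 3 (by norm_num)
  have hc : ∀ (g : Forms.altGroup B) (c : F),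
      (∀ x, (g : (Fin (3 + 3) → F) ≃ₗ[F] (Fin (3 + 3) → F)) x = c • x) → c * c = 1 := by
    intro g c hg
    obtain ⟨x, y, hxy⟩ : ∃ x y, B x y ≠ 0 := by
      by_contra hcon
      push Not at hcon
      have h := hB.1 (Pi.single 0 1) fun y => hcon _ y
      simpa using congrFun h 0
    have h := g.2.1 x y
    rw [hg, hg, map_smul, map_smul, LinearMap.smul_apply, smul_eq_mul, smul_eq_mul,
      ← mul_assoc] at h
    exact mul_right_cancel₀ hxy (by rw [h, one_mul])
  have hcard : Nat.card (Cfsg.PSp 3 F) * 2 =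
      3 ^ (3 ^ 2) * ∏ i ∈ Finset.range 3, (3 ^ (2 * (i + 1)) - 1) := by
    rw [← Cfsg.Agent.S0245.result hF 3,
      show (2 : ℕ) = Nat.card (Subgroup.center (Matrix.symplecticGroup (Fin 3) F)) by
        rw [Cfsg.Agent.S0246.result hF 3 (by norm_num)]; rfl]
    exact (Subgroup.card_eq_card_quotient_mul_card_subgroup _).symm
  have hval : Nat.card (Cfsg.PSp 3 F) = 2 ^ 9 * (3 ^ 9 * (5 * (7 * 13))) := by
    rw [show 3 ^ (3 ^ 2) * ∏ i ∈ Finset.range 3, (3 ^ (2 * (i + 1)) - 1) =
      2 ^ 9 * (3 ^ 9 * (5 * (7 * 13))) * 2 by decide +kernel] at hcard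
    exact Nat.eq_of_mul_eq_mul_right two_pos hcard
  have hprimes : ∀ p : ℕ, p.Prime →
      (p ∣ Nat.card (Cfsg.PSp 3 F) ↔ p ∈ ({2, 3, 5, 7, 13} : Finset ℕ)) := by
    intro p hp
    rw [hval]
    constructor
    · intro h
      simp only [Finset.mem_insert, Finset.mem_singleton]
      rcases hp.dvd_mul.1 h with h1 | h1
      · exact Or.inl ((Nat.prime_dvd_prime_iff_eq hp Nat.prime_two).1 (hp.dvd_of_dvd_pow h1))
      rcases hp.dvd_mul.1 h1 with h1 | h1
      · exact Or.inr (Or.inl ((Nat.prime_dvd_prime_iff_eq hp Nat.prime_three).1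
          (hp.dvd_of_dvd_pow h1)))
      rcases hp.dvd_mul.1 h1 with h1 | h1
      · exact Or.inr (Or.inr (Or.inl ((Nat.prime_dvd_prime_iff_eq hp (by norm_num)).1 h1)))
      rcases hp.dvd_mul.1 h1 with h1 | h1
      · exact Or.inr (Or.inr (Or.inr (Or.inl ((Nat.prime_dvd_prime_iff_eq hp (by norm_num)).1 h1))))
      · exact Or.inr (Or.inr (Or.inr (Or.inr ((Nat.prime_dvd_prime_iff_eq hp (by norm_num)).1 h1))))
    · intro h
      simp only [Finset.mem_insert, Finset.mem_singleton] at h
      rcases h with rfl | rfl | rfl | rfl | rfl <;> norm_num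
  have hctx : Suzuki.Ctx (GaloisField 2 3) 1 := ⟨le_rfl, by rw [GaloisField.card 2 3 (by norm_num)]⟩
  obtain ⟨H, hG, hfin, hN, hpr, hed⟩ := PLocal.SzEight.exists_group hctx N
  refine ⟨H, hG, hfin, hN, fun p hp => (hprimes p hp).trans (hpr p hp).symm,
    fun p q hp hq hpq => ?_⟩
  rw [hed p q hp hq hpq]
  have hdvd : (∃ g : Cfsg.PSp 3 F, orderOf g = p * q) →
      p ∈ ({2, 3, 5, 7, 13} : Finset ℕ) ∧ q ∈ ({2, 3, 5, 7, 13} : Finset ℕ) := by
    rintro ⟨g, hg⟩
    have h := hg ▸ orderOf_dvd_natCard g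
    exact ⟨(hprimes p hp).1 ((dvd_mul_right p q).trans h),
      (hprimes q hq).1 ((dvd_mul_left q p).trans h)⟩
  by_cases hm : p ∈ ({2, 3, 5, 7, 13} : Finset ℕ) ∧ q ∈ ({2, 3, 5, 7, 13} : Finset ℕ)
  · refine ((show (∃ g : Cfsg.PSp 3 F, orderOf g = p * q) ↔ _ from
      Forms.mem_range_iff_hasPair hp hq hpq).trans ?_)
    exact PLocal.PSpSixThree.edges hF hA hB π hπs hπ hc
      (fun t ht => (hprimes t (by
        simp only [Finset.mem_insert, Finset.mem_singleton] at ht
        rcases ht with rfl | rfl | rfl <;> norm_num)).2 (by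
        simp only [Finset.mem_insert, Finset.mem_singleton] at ht ⊢
        tauto)) hp hq hpq hm.1 hm.2
  · refine iff_of_false (fun h => hm (hdvd h)) fun h => hm ?_
    simp only [PLocal.SzEight.Edge, Finset.mem_insert, Finset.mem_singleton, Prod.mk.injEq] at h ⊢
    omega

end Cfsg.Agent.S3664
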