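import Cfsg.Statements.S3670
import Cfsg.Agent.Core.PSU33
import Cfsg.Agent.Core.Degree6048Model
import Cfsg.Agent.Chars.Transport

set_option autoImplicit false
open Cfsg

namespace Cfsg.Agent.S3670

/-- A group of order `6048` with three such degrees has the complete graph on `2, 3, 7`. -/
theorem graph_eq {G : Type*} [Group G] [Finite G] (hc : Nat.card G = 6048)
    (h23 : ∃ χ : IrrCharacter G, 2 * 3 ∣ charDegree (χ : G → ℂ))
    (h27 : ∃ χ : IrrCharacter G, 2 * 7 ∣ charDegree (χ : G → ℂ))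
    (h37 : ∃ χ : IrrCharacter G, 3 * 7 ∣ charDegree (χ : G → ℂ)) :
    degreePrimes G = {2, 3, 7} ∧
      ∀ p q, (degreeGraph G).Adj p q ↔ p ≠ q ∧ p ∈ ({2, 3, 7} : Set ℕ) ∧ q ∈ ({2, 3, 7} : Set ℕ) := by
  haveI := Fintype.ofFinite G
  have hsub : ∀ p : ℕ, p.Prime → ∀ d ∈ charDegrees G, p ∣ d → p ∈ ({2, 3, 7} : Set ℕ) := by
    rintro p hp d ⟨χ, rfl⟩ hpd
    have h := hc ▸ hpd.trans (Core.Degree6048.charDegree_dvd χ)
    rw [show 6048 = 2 ^ 5 * 3 ^ 3 * 7 by norm_num] at h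
    rcases hp.dvd_mul.1 h with h | h
    · rcases hp.dvd_mul.1 h with h | h
      · exact Or.inl ((Nat.prime_dvd_prime_iff_eq hp Nat.prime_two).1 (hp.dvd_of_dvd_pow h))
      · exact Or.inr (Or.inl ((Nat.prime_dvd_prime_iff_eq hp Nat.prime_three).1 (hp.dvd_of_dvd_pow h)))
    · exact Or.inr (Or.inr ((Nat.prime_dvd_prime_iff_eq hp (by norm_num)).1 h))
  have hpair : ∀ p q : ℕ, p ≠ q → p ∈ ({2, 3, 7} : Set ℕ) → q ∈ ({2, 3, 7} : Set ℕ) →
      ∃ d ∈ charDegrees G, p * q ∣ d := by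
    intro p q hne hp hq
    obtain ⟨a, ha⟩ := h23
    obtain ⟨b, hb⟩ := h27
    obtain ⟨c, hc'⟩ := h37
    rcases hp with rfl | rfl | rfl <;> rcases hq with rfl | rfl | rfl <;>
      first
        | exact absurd rfl hne
        | exact ⟨_, ⟨a, rfl⟩, ha⟩
        | exact ⟨_, ⟨b, rfl⟩, hb⟩
        | exact ⟨_, ⟨c, rfl⟩, hc'⟩
        | exact ⟨_, ⟨a, rfl⟩, by rw [mul_comm]; exact ha⟩
        | exact ⟨_, ⟨b, rfl⟩, by rw [mul_comm]; exact hb⟩
        | exact ⟨_, ⟨c, rfl⟩, by rw [mul_comm]; exact hc'⟩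
  have hprime : ∀ p ∈ ({2, 3, 7} : Set ℕ), p.Prime := by
    rintro p (rfl | rfl | rfl) <;> norm_num
  refine ⟨Set.ext fun p => ⟨fun ⟨hp, d, hd, hpd⟩ => hsub p hp d hd hpd, fun hp => ?_⟩, fun p q => ?_⟩
  · obtain ⟨q, hq, hne⟩ : ∃ q ∈ ({2, 3, 7} : Set ℕ), p ≠ q := by
      rcases hp with rfl | rfl | rfl
      exacts [⟨3, by simp, by norm_num⟩, ⟨2, by simp, by norm_num⟩, ⟨2, by simp, by norm_num⟩]
    obtain ⟨d, hd, hdvd⟩ := hpair p q hne hp hq
    exact ⟨hprime p hp, d, hd, (dvd_mul_right p q).trans hdvd⟩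
  · constructor
    · rintro ⟨hne, hp, hq, d, hd, hdvd⟩
      exact ⟨hne, hsub p hp d hd ((dvd_mul_right p q).trans hdvd),
        hsub q hq d hd ((dvd_mul_left q p).trans hdvd)⟩
    · rintro ⟨hne, hp, hq⟩
      exact ⟨hne, hprime p hp, hprime q hq, hpair p q hne hp hq⟩

/-- The character degree graph of a finite group has as vertices the primes dividing some irreducible complex character degree, two distinct primes being joined when their product divides some irreducible character degree; two groups have the same character degree graph when they have the same vertices and the same joined pairs. Let F be the field with 9 elements and L = PSU(3,3) realised over F (order 6048). There is a finite solvable group of order 6048 with the same character degree graph as L; so L is not determined by its order together with its character degree graph. -/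
theorem result {F : Type*} [Field F] [Fintype F] (hF : Fintype.card F = 9) :
    ∃ (H : Type) (_ : Group H) (_ : Fintype H), Group.IsSolvable H ∧ Nat.card H = 6048 ∧ Cfsg.degreePrimes H = Cfsg.degreePrimes (Cfsg.PSU 3 F 3) ∧ Cfsg.degreeGraph H = Cfsg.degreeGraph (Cfsg.PSU 3 F 3) := by
  obtain ⟨H, hG, hfin, hsol, hcard, χ, hχ⟩ := Core.Degree6048Model.exists_model
  refine ⟨H, hG, hfin, hsol, hcard, ?_⟩
  have hF' : Fintype.card F = 3 ^ 2 := by rw [hF]; norm_num
  haveI : Fintype (Cfsg.SU 3 F 3) := Fintype.ofFinite _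
  obtain ⟨D⟩ := Core.PSU33.nonempty_setup (hF := hF')
  obtain ⟨⟨a, ha⟩, ⟨b, hb⟩, ⟨c, hc⟩⟩ := D.degrees
  let e := Core.PSU33.quotEquiv hF'
  have hdeg : ∀ ψ : IrrCharacter (Cfsg.SU 3 F 3),
      charDegree (Chars.irrEquiv e ψ : Cfsg.PSU 3 F 3 → ℂ) = charDegree (ψ : Cfsg.SU 3 F 3 → ℂ) := fun ψ => by
    simp [charDegree]
  have hP := graph_eq (G := Cfsg.PSU 3 F 3) ((Nat.card_congr e.toEquiv).trans D.card)
    ⟨Chars.irrEquiv e a, by rwa [hdeg]⟩ ⟨Chars.irrEquiv e b, by rwa [hdeg]⟩ ⟨Chars.irrEquiv e c, by rwa [hdeg]⟩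
  have hH := graph_eq (G := H) hcard ⟨χ, (by norm_num : 2 * 3 ∣ 2 * 3 * 7).trans hχ⟩
    ⟨χ, (by norm_num : 2 * 7 ∣ 2 * 3 * 7).trans hχ⟩ ⟨χ, (by norm_num : 3 * 7 ∣ 2 * 3 * 7).trans hχ⟩
  exact ⟨hH.1.trans hP.1.symm, SimpleGraph.ext (funext₂ fun p q => propext ((hH.2 p q).trans (hP.2 p q).symm))⟩

end Cfsg.Agent.S3670
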