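import Cfsg.Statements.S3678
import Cfsg.Agent.PermGroups.SLTwoOrders
import Cfsg.Agent.PermGroups.PrimeGraphExtension

set_option autoImplicit false
open Cfsg

namespace Cfsg.Agent.S3678

/-- The prime graph of a finite group has the prime divisors of its order as vertices, two distinct primes p, q being joined when the group has an element of order pq; two groups have the same prime graph when they have the same prime divisors and the same joined pairs. Let F be the field with 7 elements. There are finite groups of arbitrarily large order with the same prime graph as PSL(2,F) (the graph on {2, 3, 7} with no edges, which is also the prime graph of PSL(2,8)). -/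
theorem result {F : Type*} [Field F] [Fintype F] (hF : Fintype.card F = 7) (N : ℕ) :
    ∃ (H : Type) (_ : Group H) (_ : Finite H), N < Nat.card H ∧
      ((∀ p : ℕ, p.Prime → (p ∣ Nat.card (Matrix.ProjectiveSpecialLinearGroup (Fin 2) F) ↔ p ∣ Nat.card H)) ∧
      (∀ p q : ℕ, p.Prime → q.Prime → p ≠ q → ((∃ g : (Matrix.ProjectiveSpecialLinearGroup (Fin 2) F), orderOf g = p * q) ↔ (∃ g : H, orderOf g = p * q)))) := by
  let K := GaloisField 2 3
  have : Fintype K := Fintype.ofFinite K
  have hK : Fintype.card K = 8 := by
    rw [← Nat.card_eq_fintype_card, GaloisField.card 2 3 (by norm_num)]; norm_num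
  letI : DistribMulAction (Matrix.SpecialLinearGroup (Fin 2) K) (Fin 2 → K) :=
    { smul := fun g v => g.1.mulVec v
      one_smul := fun v => Matrix.one_mulVec v
      mul_smul := fun g g' v => (Matrix.mulVec_mulVec v g.1 g'.1).symm
      smul_zero := fun g => Matrix.mulVec_zero g.1
      smul_add := fun g => Matrix.mulVec_add g.1 }
  have hcard8 : Nat.card (Matrix.SpecialLinearGroup (Fin 2) K) = 504 := by
    rw [Cfsg.Agent.Linear.card_SL_two, hK]; norm_num
  have hcard7 : Nat.card (Matrix.ProjectiveSpecialLinearGroup (Fin 2) F) = 168 := by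
    have h := Cfsg.Agent.Linear.card_PSL_two (F := F)
    rw [hF] at h
    norm_num at h
    omega
  obtain ⟨H, hG, hfin, hN, hprimes, hedges⟩ :=
    Cfsg.Agent.PermGroups.exists_extension_same_prime_graph
      (G := Matrix.SpecialLinearGroup (Fin 2) K) Nat.prime_two (by rw [hcard8]; norm_num)
      (Fin 2 → K)
      (fun v => by rw [two_nsmul]; funext i; exact CharTwo.add_self_eq_zero _)
      (fun g hg v hgv hv => by
        have h := orderOf_dvd_of_pow_eq_one
          (Cfsg.Agent.PermGroups.sq_eq_one_of_fixed_vector hgv hv)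
        rcases (Nat.dvd_prime Nat.prime_two).1 h with h | h
        · exact orderOf_eq_one_iff.1 h
        · exact absurd (dvd_of_eq h.symm) hg) N
  refine ⟨H, hG, hfin, hN, fun r hr => ?_, fun r s hr hs hrs => ?_⟩
  · rw [← hprimes r hr, hcard7, hcard8]
    refine ⟨fun h => h.trans (by norm_num), fun h => ?_⟩
    rw [show 504 = 2 ^ 3 * 3 ^ 2 * 7 by norm_num] at h
    rcases hr.dvd_mul.1 h with h | h
    · rcases hr.dvd_mul.1 h with h | h
      · rw [(Nat.prime_dvd_prime_iff_eq hr Nat.prime_two).1 (hr.dvd_of_dvd_pow h)]; norm_num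
      · rw [(Nat.prime_dvd_prime_iff_eq hr Nat.prime_three).1 (hr.dvd_of_dvd_pow h)]; norm_num
    · rw [(Nat.prime_dvd_prime_iff_eq hr (by norm_num)).1 h]; norm_num
  · rw [← hedges r s hr hs hrs]
    have key := fun (p k : ℕ) (hp : p.Prime) =>
      Cfsg.Agent.PermGroups.not_mul_dvd_prime_pow (k := k) hr hs hp hrs
    constructor
    · rintro ⟨x, hx⟩
      obtain ⟨g, rfl⟩ := QuotientGroup.mk_surjective x
      rcases Cfsg.Agent.PermGroups.sl_two_seven_orders hF g _ rfl with h | h | h
      · exact absurd (hx ▸ orderOf_dvd_of_pow_eq_one h) (key 2 2 Nat.prime_two)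
      · exact absurd (by simpa using hx ▸ orderOf_dvd_of_pow_eq_one h)
          (key 3 1 Nat.prime_three)
      · exact absurd (by simpa using hx ▸ orderOf_dvd_of_pow_eq_one h) (key 7 1 (by norm_num))
    · rintro ⟨x, hx⟩
      rcases Cfsg.Agent.PermGroups.sl_two_eight_orders hK x with h | h | h
      · exact absurd (by simpa using hx ▸ orderOf_dvd_of_pow_eq_one h) (key 2 1 Nat.prime_two)
      · exact absurd (by simpa using hx ▸ orderOf_dvd_of_pow_eq_one h) (key 7 1 (by norm_num))
      · exact absurd (hx ▸ orderOf_dvd_of_pow_eq_one h) (key 3 2 Nat.prime_three)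

end Cfsg.Agent.S3678
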