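import Cfsg.Statements.S3681
import Mathlib

set_option autoImplicit false
open Cfsg

namespace Cfsg.Agent.S3681

/-- Bochert's bound for primitive groups. Let a finite group G act faithfully and primitively on a finite set Ω with n elements, and suppose the image of G in the symmetric group of Ω does not contain the alternating group of Ω. Then |G| · ⌊(n + 1)/2⌋! ≤ n!, that is, the index of G in the symmetric group is at least ⌊(n + 1)/2⌋!. -/
theorem result {G Ω : Type*} [Group G] [Finite G] [MulAction G Ω] [FaithfulSMul G Ω] [Fintype Ω] [DecidableEq Ω]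
    (hprim : MulAction.IsPreprimitive G Ω) (hA : ¬ alternatingGroup Ω ≤ (MulAction.toPermHom G Ω).range) :
    Nat.card G * Nat.factorial ((Fintype.card Ω + 1) / 2) ≤ Nat.factorial (Fintype.card Ω) := by
  classical
  have hai : ∀ (e : Equiv.Perm Ω) (x : Ω), e (e⁻¹ x) = x := fun e x => e.apply_symm_apply x
  have hia : ∀ (e : Equiv.Perm Ω) (x : Ω), e⁻¹ (e x) = x := fun e x => e.symm_apply_apply x
  set H : Subgroup (Equiv.Perm Ω) := (MulAction.toPermHom G Ω).range with hH
  have hinj : Function.Injective (MulAction.toPermHom G Ω) := fun x y hxy =>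
    FaithfulSMul.eq_of_smul_eq_smul fun z : Ω => Equiv.congr_fun hxy z
  have hcard : Nat.card H = Nat.card G := (Nat.card_congr (MonoidHom.ofInjective hinj).toEquiv).symm
  haveI hHprim : MulAction.IsPreprimitive H Ω := by
    let f : Ω →ₑ[(MulAction.toPermHom G Ω).rangeRestrict] Ω := { toFun := id, map_smul' := fun g x => rfl }
    exact MulAction.IsPreprimitive.of_surjective (f := f) Function.surjective_id
  -- a minimal set with trivial pointwise stabiliser
  have hex : ∃ d, ∃ Δ : Finset Ω, Δ.card = d ∧ ∀ h ∈ H, (∀ x ∈ Δ, h x = x) → h = 1 :=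
    ⟨_, Finset.univ, rfl, fun h _ hfix => Equiv.ext fun x => hfix x (Finset.mem_univ x)⟩
  obtain ⟨Δ, hΔd, hΔ⟩ := Nat.find_spec hex
  have hmin : ∀ S : Finset Ω, S.card < Δ.card → ∃ h ∈ H, (∀ x ∈ S, h x = x) ∧ h ≠ 1 := by
    intro S hS
    by_contra hcon
    push Not at hcon
    exact Nat.find_min hex (hΔd ▸ hS) ⟨S, rfl, fun h hh hfix => hcon h hh hfix⟩
  have hsmall : Δ.card + (Fintype.card Ω + 1) / 2 ≤ Fintype.card Ω := by
    by_contra hlt
    push Not at hlt
    have hcompl : Δᶜ.card < Δ.card := by rw [Finset.card_compl]; omega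
    obtain ⟨h, hhH, hhfix, hh1⟩ := hmin _ hcompl
    obtain ⟨a, ha⟩ : ∃ a, h a ≠ a := by
      by_contra hcon
      push Not at hcon
      exact hh1 (Equiv.ext hcon)
    have haΔ : a ∈ Δ := by
      by_contra hcon
      exact ha (hhfix a (Finset.mem_compl.2 hcon))
    obtain ⟨g, hgH, hgfix, hg1⟩ := hmin (Δ.erase a) (Finset.card_erase_lt_of_mem haΔ)
    have hga : g a ≠ a := by
      intro hcon
      exact hg1 (hΔ g hgH fun x hx => if hxa : x = a then hxa ▸ hcon else hgfix x (Finset.mem_erase.2 ⟨hxa, hx⟩))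
    have hmeet : ∀ x, g x ≠ x → h x ≠ x → x = a := by
      intro x hgx hhx
      by_contra hxa
      by_cases hxΔ : x ∈ Δ
      · exact hgx (hgfix x (Finset.mem_erase.2 ⟨hxa, hxΔ⟩))
      · exact hhx (hhfix x (Finset.mem_compl.2 hxΔ))
    have hg_fix : ∀ x, x ≠ a → h x ≠ x → g x = x := fun x hxa hhx => by
      by_contra hgx; exact hxa (hmeet x hgx hhx)
    have hh_fix : ∀ x, x ≠ a → g x ≠ x → h x = x := fun x hxa hgx => by
      by_contra hhx; exact hxa (hmeet x hgx hhx)
    have hhha : h (h a) ≠ h a := fun hcon => ha (h.injective hcon)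
    have hgga : g (g a) ≠ g a := fun hcon => hga (g.injective hcon)
    have hgc : g (h a) = h a := hg_fix _ ha hhha
    have hhb : h (g a) = g a := hh_fix _ hga hgga
    have hbc : g a ≠ h a := fun hcon => by
      rw [hcon] at hgga
      exact hgga hgc
    have hk : g * h * g⁻¹ * h⁻¹ = Equiv.swap a (h a) * Equiv.swap a (g a) := by
      refine Equiv.ext fun x => ?_
      simp only [Equiv.Perm.mul_apply]
      rcases eq_or_ne x a with rfl | hxa
      · rw [Equiv.swap_apply_left, Equiv.swap_apply_of_ne_of_ne hga hbc]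
        have h1 : h (h⁻¹ x) = x := hai h x
        have hne : h⁻¹ x ≠ x := fun hcon => ha (by rw [hcon] at h1; exact h1)
        have h2 : g (h⁻¹ x) = h⁻¹ x := hg_fix _ hne (by rw [h1]; exact hne.symm)
        have h3 : g⁻¹ (h⁻¹ x) = h⁻¹ x := by
          rw [Equiv.Perm.inv_eq_iff_eq]; exact h2.symm
        rw [h3, h1]
      rcases eq_or_ne x (g a) with rfl | hxb
      · rw [Equiv.swap_apply_right, Equiv.swap_apply_left]
        have h1 : h⁻¹ (g a) = g a := by rw [Equiv.Perm.inv_eq_iff_eq]; exact hhb.symm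
        rw [h1, hia, hgc]
      rcases eq_or_ne x (h a) with rfl | hxc
      · rw [Equiv.swap_apply_of_ne_of_ne hxa hxb, Equiv.swap_apply_right,
          hia]
        have h1 : g (g⁻¹ a) = a := hai g a
        have hne : g⁻¹ a ≠ a := fun hcon => hga (by rw [hcon] at h1; exact h1)
        have h2 : h (g⁻¹ a) = g⁻¹ a := hh_fix _ hne (by rw [h1]; exact hne.symm)
        rw [h2, h1]
      rw [Equiv.swap_apply_of_ne_of_ne hxa hxb, Equiv.swap_apply_of_ne_of_ne hxa hxc]
      by_cases hhx : h x = x
      · have h1 : h⁻¹ x = x := by rw [Equiv.Perm.inv_eq_iff_eq]; exact hhx.symm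
        rw [h1]
        have hz : g (g⁻¹ x) = x := hai g x
        have hza : g⁻¹ x ≠ a := fun hcon => hxb (by rw [← hcon, hz])
        have : h (g⁻¹ x) = g⁻¹ x := by
          by_contra hcon
          have hgz : g (g⁻¹ x) = g⁻¹ x := hg_fix _ hza hcon
          rw [hz] at hgz
          exact hcon (by rw [← hgz]; exact hhx)
        rw [this, hz]
      · have hy : h (h⁻¹ x) = x := hai h x
        have hya : h⁻¹ x ≠ a := fun hcon => hxc (by rw [← hcon, hy])
        have hgy : g (h⁻¹ x) = h⁻¹ x := hg_fix _ hya (by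
          rw [hy]; intro hcon; exact hhx ((congrArg h hcon).trans hy))
        have hgy' : g⁻¹ (h⁻¹ x) = h⁻¹ x := by rw [Equiv.Perm.inv_eq_iff_eq]; exact hgy.symm
        rw [hgy', hy]
        exact hg_fix x hxa hhx
    refine hA (Equiv.Perm.alternatingGroup_le_of_isPreprimitive_of_isThreeCycle_mem hHprim
      (g := g * h * g⁻¹ * h⁻¹) ?_ (mul_mem (mul_mem (mul_mem hgH hhH) (inv_mem hgH)) (inv_mem hhH)))
    rw [hk]
    exact Equiv.Perm.isThreeCycle_swap_mul_swap_same ha.symm hga.symm hbc.symm
  have hcount : Nat.card H ≤ (Fintype.card Ω).descFactorial Δ.card := by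
    let φ : H → ((Δ : Type _) ↪ Ω) := fun h =>
      (Function.Embedding.subtype _).trans (h : Equiv.Perm Ω).toEmbedding
    have hφ : Function.Injective φ := fun h h' hhh => by
      have key : (h' : Equiv.Perm Ω)⁻¹ * (h : Equiv.Perm Ω) = 1 :=
        hΔ _ (mul_mem (inv_mem h'.2) h.2) fun x hx => by
          have := DFunLike.congr_fun hhh ⟨x, hx⟩
          simp only [φ, Function.Embedding.trans_apply, Function.Embedding.coe_subtype,
            Equiv.toEmbedding_apply] at this
          rw [Equiv.Perm.mul_apply, this, hia]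
      exact Subtype.ext (inv_mul_eq_one.1 key).symm
    calc Nat.card H ≤ Nat.card ((Δ : Type _) ↪ Ω) := Nat.card_le_card_of_injective φ hφ
      _ = _ := by rw [Nat.card_eq_fintype_card, Fintype.card_embedding_eq, Fintype.card_coe]
  rw [← hcard]
  calc Nat.card H * Nat.factorial ((Fintype.card Ω + 1) / 2)
      ≤ (Fintype.card Ω).descFactorial Δ.card * Nat.factorial (Fintype.card Ω - Δ.card) :=
        Nat.mul_le_mul hcount (Nat.factorial_le (by omega))
    _ = _ := by rw [mul_comm, Nat.factorial_mul_descFactorial (Finset.card_le_univ _)]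

end Cfsg.Agent.S3681
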