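import Cfsg.Statements.S3684
import Cfsg.Agent.PermGroups.Basic
import Cfsg.Agent.PermGroups.DerangementIndex

set_option autoImplicit false
open Cfsg

open scoped Pointwise

namespace Cfsg.Agent.S3684

/-- Let a finite group G act faithfully and primitively on a set Ω, and suppose the stabilizer of a point a has an orbit of length 2. Then the stabilizer of a has order 2 and G is isomorphic to the dihedral group of order 2p for some prime p. -/
theorem result {G Ω : Type*} [Group G] [Finite G] [MulAction G Ω] [FaithfulSMul G Ω] [Finite Ω]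
    (hprim : MulAction.IsPreprimitive G Ω) (a b : Ω) (h2 : Nat.card (MulAction.orbit (MulAction.stabilizer G a) b) = 2) :
    Nat.card (MulAction.stabilizer G a) = 2 ∧ ∃ p : ℕ, p.Prime ∧ Nonempty (G ≃* DihedralGroup p) := by
  classical
  set A := MulAction.stabilizer G a with hA
  set B := MulAction.stabilizer G b with hB
  have hnt : Nontrivial (MulAction.orbit A b) := Finite.one_lt_card_iff_nontrivial.mp (by omega)
  have hab : a ≠ b := by
    rintro rfl
    obtain ⟨⟨u, hu⟩, ⟨v, hv⟩, huv⟩ := hnt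
    obtain ⟨g, rfl⟩ := hu
    obtain ⟨g', rfl⟩ := hv
    exact huv (Subtype.ext (g.2.trans g'.2.symm))
  have : Nontrivial Ω := ⟨⟨a, b, hab⟩⟩
  have hcoA : IsCoatom A := (MulAction.isCoatom_stabilizer_iff_preprimitive (G := G) a).mpr hprim
  have hcoB : IsCoatom B := (MulAction.isCoatom_stabilizer_iff_preprimitive (G := G) b).mpr hprim
  have hne : A ≠ B := by
    intro e
    obtain ⟨⟨u, hu⟩, ⟨v, hv⟩, huv⟩ := hnt
    obtain ⟨g, rfl⟩ := hu
    obtain ⟨g', rfl⟩ := hv
    exact huv (Subtype.ext ((show (g : G) ∈ B from e ▸ g.2).trans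
      (show (g' : G) ∈ B from e ▸ g'.2).symm))
  have hidx : (A ⊓ B).relIndex A = 2 := by
    rw [inf_comm, Subgroup.inf_relIndex_right, ← h2,
      Cfsg.Agent.PermGroups.natCard_suborbit a b]
  have hAB : Nat.card A = Nat.card B := by
    obtain ⟨g, hg⟩ := MulAction.exists_smul_eq G a b
    exact Nat.card_congr (MulAction.stabilizerEquivStabilizer hg.symm).toEquiv
  have hidx' : (A ⊓ B).relIndex B = 2 := by
    have h3 := Subgroup.relIndex_mul_relIndex ⊥ (A ⊓ B) A bot_le inf_le_left
    have h4 := Subgroup.relIndex_mul_relIndex ⊥ (A ⊓ B) B bot_le inf_le_right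
    simp only [Subgroup.relIndex_bot_left] at h3 h4
    rw [hidx] at h3
    rw [← hAB, ← h3] at h4
    exact Nat.eq_of_mul_eq_mul_left Nat.card_pos h4
  have hsup : A ⊔ B = ⊤ := hcoA.2 _ (lt_of_le_of_ne le_sup_left fun e => by
    have hBA : B ≤ A := e ▸ le_sup_right
    exact hcoB.1.elim (absurd rfl (fun _ : B = B => hne (le_antisymm
      (by
        by_contra hlt
        exact hcoA.1 (hcoB.2 A (lt_of_le_of_ne hBA fun e' => hne e'.symm))) hBA))))
  have hnormal : (A ⊓ B).Normal := by
    rw [← Subgroup.normalizer_eq_top_iff, eq_top_iff, ← hsup]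
    have hn : ∀ D : Subgroup G, A ⊓ B ≤ D → (A ⊓ B).relIndex D = 2 →
        D ≤ Subgroup.normalizer ((A ⊓ B : Subgroup G) : Set G) := by
      intro D hD hi
      have : ((A ⊓ B).subgroupOf D).Normal := Subgroup.normal_of_index_eq_two hi
      exact (Subgroup.normal_subgroupOf_iff_le_normalizer hD).mp this
    exact sup_le (hn A inf_le_left hidx) (hn B inf_le_right hidx')
  have hbot : A ⊓ B = ⊥ := by
    rw [eq_bot_iff]
    intro k hk
    rw [Subgroup.mem_bot]
    apply FaithfulSMul.eq_of_smul_eq_smul (α := Ω)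
    intro u
    obtain ⟨g, rfl⟩ := MulAction.exists_smul_eq G a u
    have : (g⁻¹ * k * g⁻¹⁻¹) • a = a := (hnormal.conj_mem k hk g⁻¹).1
    rw [inv_inv, mul_smul, mul_smul, inv_smul_eq_iff] at this
    rw [this, one_smul]
  have hA2 : Nat.card A = 2 := by rw [← hidx, hbot, Subgroup.relIndex_bot_left]
  refine ⟨hA2, ?_⟩
  have : Fact (Nat.Prime 2) := ⟨Nat.prime_two⟩
  obtain ⟨t', ht'⟩ := exists_prime_orderOf_dvd_card' (G := A) 2 (hA2 ▸ dvd_rfl)
  obtain ⟨s', hs'⟩ := exists_prime_orderOf_dvd_card' (G := B) 2 (by rw [← hAB, hA2])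
  set t : G := t'.1
  set s : G := s'.1
  have hto : orderOf t = 2 := by rw [Subgroup.orderOf_coe, ht']
  have hso : orderOf s = 2 := by rw [Subgroup.orderOf_coe, hs']
  have htt : t * t = 1 := by
    have := pow_orderOf_eq_one t
    rwa [hto, pow_two] at this
  have hss : s * s = 1 := by
    have := pow_orderOf_eq_one s
    rwa [hso, pow_two] at this
  have hAt : Subgroup.zpowers t = A := Subgroup.eq_of_le_of_card_ge
    (Subgroup.zpowers_le.mpr t'.2) (by rw [Nat.card_zpowers, hto, hA2])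
  have hBs : Subgroup.zpowers s = B := Subgroup.eq_of_le_of_card_ge
    (Subgroup.zpowers_le.mpr s'.2) (by rw [Nat.card_zpowers, hso, ← hAB, hA2])
  set x := t * s with hx
  have htinv : t⁻¹ = t := inv_eq_of_mul_eq_one_right htt
  have hsinv : s⁻¹ = s := inv_eq_of_mul_eq_one_right hss
  have htx : t * x * t⁻¹ = x⁻¹ := by
    rw [hx, htinv, mul_inv_rev, htinv, hsinv, ← mul_assoc, htt, one_mul]
  set R := Subgroup.zpowers x with hR
  have hRn : ∀ S ≤ R, S.Normal := by
    intro S hS
    rw [← Subgroup.normalizer_eq_top_iff, eq_top_iff, ← hsup, ← hAt, ← hBs]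
    have hcomm : ∀ z ∈ R, t * z * t⁻¹ = z⁻¹ := by
      intro z hz
      obtain ⟨k, rfl⟩ := hz
      change t * x ^ k * t⁻¹ = (x ^ k)⁻¹
      rw [← conj_zpow, htx, inv_zpow]
    have hts : t ∈ Subgroup.normalizer (S : Set G) := by
      rw [Subgroup.mem_normalizer_iff]
      intro z
      refine ⟨fun hz => hcomm z (hS hz) ▸ S.inv_mem hz, fun hz => ?_⟩
      have := hcomm _ (hS hz)
      rw [htinv, ← mul_assoc, ← mul_assoc, htt, one_mul, mul_assoc, htt, mul_one] at this
      rw [this]
      exact S.inv_mem (by rw [htinv] at hz; exact hz)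
    have hxs : x ∈ Subgroup.normalizer (S : Set G) := by
      rw [Subgroup.mem_normalizer_iff]
      intro z
      have hc : ∀ z ∈ R, x * z * x⁻¹ = z := by
        intro z hz
        obtain ⟨k, rfl⟩ := hz
        change x * x ^ k * x⁻¹ = x ^ k
        rw [← zpow_one_add, add_comm, zpow_add_one, mul_inv_cancel_right]
      refine ⟨fun hz => (hc z (hS hz)).symm ▸ hz, fun hz => ?_⟩
      have h5 := hc _ (hS hz)
      have : x * z * x⁻¹ = z := mul_left_cancel (a := x) (mul_right_cancel (b := x⁻¹) h5)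
      rwa [this] at hz
    refine sup_le (Subgroup.zpowers_le.mpr hts) (Subgroup.zpowers_le.mpr ?_)
    have : s = t⁻¹ * x := by rw [hx, inv_mul_cancel_left]
    rw [this]
    exact mul_mem (inv_mem hts) hxs
  have hst : s ≠ t := fun e => hne (by rw [← hAt, ← hBs, e])
  have hx1 : x ≠ 1 := fun e => hst (by rw [← mul_eq_one_iff_inv_eq.mp e, htinv])
  have htR : t ∉ R := by
    intro ht
    have hn := hRn _ (Subgroup.zpowers_le.mpr ht)
    rw [hAt] at hn
    have hle : A ≤ B := fun g hg => by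
      obtain ⟨k, hk⟩ := MulAction.exists_smul_eq G a b
      have : (k⁻¹ * g * k⁻¹⁻¹) • a = a := hn.conj_mem g hg k⁻¹
      rwa [inv_inv, mul_smul, mul_smul, inv_smul_eq_iff, hk] at this
    have : (t : G) ∈ A ⊓ B := ⟨t'.2, hle t'.2⟩
    rw [hbot, Subgroup.mem_bot] at this
    rw [this, orderOf_one] at hto
    omega
  have ht2 : ∀ j : ℤ, t ^ (2 * j) = 1 := fun j => by rw [zpow_mul, zpow_two, htt, one_zpow]
  have hcover : ∀ S ≤ R, S ≠ ⊥ → ∀ g : G, g ∈ S ∨ t * g ∈ S := by
    intro S hS hSne g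
    have hn := hRn S hS
    have htop : A ⊔ S = ⊤ := hcoA.2 _ (lt_of_le_of_ne le_sup_left fun e => hSne (by
      rw [eq_bot_iff]
      intro z hz
      have hzA : z ∈ A := e ▸ Subgroup.mem_sup_right hz
      rw [← hAt] at hzA
      obtain ⟨k, rfl⟩ := hzA
      rcases Int.even_or_odd' k with ⟨j, rfl | rfl⟩
      · simp only [zpow_mul, zpow_two, htt, one_zpow, Subgroup.mem_bot]
      · exfalso
        apply htR
        have h6 : t ^ (2 * j + 1) ∈ R := hS hz
        rwa [zpow_add_one, zpow_mul, zpow_two, htt, one_zpow, one_mul] at h6))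
    have hg : g ∈ (↑(A ⊔ S) : Set G) := by rw [htop]; trivial
    rw [Subgroup.mul_normal] at hg
    obtain ⟨u, hu, z, hz, rfl⟩ := Set.mem_mul.mp hg
    rw [SetLike.mem_coe, ← hAt] at hu
    obtain ⟨k, rfl⟩ := hu
    rcases Int.even_or_odd' k with ⟨j, rfl | rfl⟩
    · left
      simpa [ht2] using hz
    · right
      simpa [zpow_add_one, ht2, ← mul_assoc, htt] using hz
  have hsimple : IsCoatom (⊥ : Subgroup R) := by
    refine ⟨fun e => ?_, fun S hS => ?_⟩
    · have : (⟨x, Subgroup.mem_zpowers x⟩ : R) ∈ (⊥ : Subgroup R) := e ▸ Subgroup.mem_top _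
      exact hx1 (congrArg Subtype.val (Subgroup.mem_bot.mp this))
    · rw [eq_top_iff]
      rintro ⟨z, hz⟩ -
      have hS' : S.map R.subtype ≠ ⊥ := fun e =>
        hS.ne' ((Subgroup.map_eq_bot_iff_of_injective S R.subtype_injective).mp e)
      rcases hcover _ (Subgroup.map_subtype_le S) hS' z with h | h
      · obtain ⟨w, hw, e⟩ := h
        have : w = ⟨z, hz⟩ := Subtype.ext e
        exact this ▸ hw
      · exfalso
        apply htR
        have h7 : t * z ∈ R := Subgroup.map_subtype_le S h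
        simpa using R.mul_mem h7 (R.inv_mem hz)
  obtain ⟨-, hp⟩ := Cfsg.Agent.PermGroups.isCyclic_and_prime_card_of_isCoatom_bot hsimple
  set p := Nat.card R with hpdef
  have : Fact p.Prime := ⟨hp⟩
  have hxo : orderOf x = p := (Nat.card_zpowers x).symm
  have hpow : ∀ i j : ZMod p, x ^ (i + j).val = x ^ i.val * x ^ j.val := fun i j => by
    rw [ZMod.val_add, ← pow_add, ← pow_mod_orderOf x (i.val + j.val), hxo]
  have hflip : ∀ i : ℕ, x ^ i * t = t * (x ^ i)⁻¹ := fun i => by
    rw [← inv_pow, ← htx, conj_pow, ← mul_assoc, ← mul_assoc, htt, one_mul, htinv]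
  let φ : DihedralGroup p → G := fun d => match d with
    | .r i => x ^ i.val
    | .sr i => t * x ^ i.val
  have hsub : ∀ i j : ZMod p, x ^ (j - i).val = (x ^ i.val)⁻¹ * x ^ j.val := fun i j => by
    rw [eq_inv_mul_iff_mul_eq, ← hpow, add_sub_cancel]
  have hmul : ∀ u v, φ (u * v) = φ u * φ v := by
    rintro (i | i) (j | j)
    · exact hpow i j
    · change t * x ^ (j - i).val = x ^ i.val * (t * x ^ j.val)
      rw [hsub, ← mul_assoc, ← mul_assoc, hflip]
    · change t * x ^ (i + j).val = t * x ^ i.val * x ^ j.val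
      rw [hpow, mul_assoc]
    · change x ^ (j - i).val = t * x ^ i.val * (t * x ^ j.val)
      rw [hsub, mul_assoc t, ← mul_assoc (x ^ i.val), hflip, mul_assoc, ← mul_assoc t, htt, one_mul]
  have hinjR : ∀ i j : ZMod p, x ^ i.val = x ^ j.val → i = j := fun i j e =>
    ZMod.val_injective p (pow_injOn_Iio_orderOf (x := x) (by simp [hxo, ZMod.val_lt])
      (by simp [hxo, ZMod.val_lt]) e)
  have hsurjR : ∀ z ∈ R, ∃ i : ZMod p, x ^ i.val = z := fun z hz => by
    obtain ⟨k, rfl⟩ := (mem_powers_iff_mem_zpowers).mpr hz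
    exact ⟨(k : ZMod p), by rw [ZMod.val_natCast]; exact hxo ▸ pow_mod_orderOf x k⟩
  refine ⟨p, hp, ⟨(MulEquiv.ofBijective (MonoidHom.mk' φ hmul) ⟨?_, ?_⟩).symm⟩⟩
  · rintro (i | i) (j | j) e
    · exact congrArg _ (hinjR i j e)
    · exfalso
      apply htR
      have e' : x ^ i.val = t * x ^ j.val := e
      rw [← mul_inv_eq_iff_eq_mul] at e'
      rw [← e']
      exact mul_mem (pow_mem (Subgroup.mem_zpowers x) _) (inv_mem (pow_mem (Subgroup.mem_zpowers x) _))
    · exfalso
      apply htR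
      have e' : x ^ j.val = t * x ^ i.val := e.symm
      rw [← mul_inv_eq_iff_eq_mul] at e'
      rw [← e']
      exact mul_mem (pow_mem (Subgroup.mem_zpowers x) _) (inv_mem (pow_mem (Subgroup.mem_zpowers x) _))
    · exact congrArg _ (hinjR i j (mul_left_cancel e))
  · intro g
    rcases hcover R le_rfl (fun e => hx1 (by
      have := Subgroup.mem_zpowers x
      rw [← hR, e, Subgroup.mem_bot] at this
      exact this)) g with h | h
    · obtain ⟨i, hi⟩ := hsurjR g h
      exact ⟨.r i, hi⟩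
    · obtain ⟨i, hi⟩ := hsurjR _ h
      refine ⟨.sr i, ?_⟩
      change t * x ^ i.val = g
      rw [hi, ← mul_assoc, htt, one_mul]

end Cfsg.Agent.S3684
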