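import Cfsg.Statements.S3696
import Cfsg.Agent.PermGroups.AbelianPGroupBound

set_option autoImplicit false
open Cfsg

namespace Cfsg.Agent.S3696

/-- Let p be a prime, Ω a finite set with n ≥ p elements, and A an abelian p-subgroup of the symmetric group on Ω whose elements of order dividing p number p^k (so k is the rank of A). Then |A| · k^k ≤ n^k, that is, |A| ≤ (n/k)^k. -/
theorem result {Ω : Type*} [Fintype Ω] [DecidableEq Ω]
    (p : ℕ) (hp : p.Prime) (hn : p ≤ Fintype.card Ω) (A : Subgroup (Equiv.Perm Ω)) (hA : IsPGroup p A) (hab : IsMulCommutative A)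
    (k : ℕ) (hk : Nat.card {x : A // x ^ p = 1} = p ^ k) :
    Nat.card A * k ^ k ≤ Fintype.card Ω ^ k := by
  classical
  let E : Subgroup A :=
    { carrier := {x : A | x ^ p = 1}
      mul_mem' := fun {a b} ha hb => by
        show (a * b) ^ p = 1
        rw [(show Commute a b from hab.1.1 a b).mul_pow, show a ^ p = 1 from ha,
          show b ^ p = 1 from hb, one_mul]
      one_mem' := one_pow p
      inv_mem' := fun {a} ha => by
        show a⁻¹ ^ p = 1
        rw [inv_pow, show a ^ p = 1 from ha, inv_one] }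
  have hE : Nat.card E = p ^ k := hk
  obtain ⟨S, hS, hfaith, hmove, horb⟩ :=
    Cfsg.Agent.PermGroups.exists_faithful_points hp A hA (fun a b => hab.1.1 a b) k E hE.le
  have : Fact p.Prime := ⟨hp⟩
  have hinj : Function.Injective (fun a : A => fun s : S =>
      (⟨a • s.1, MulAction.mem_orbit _ _⟩ : MulAction.orbit A s.1)) := by
    intro a b e
    by_contra hne
    have hc : b⁻¹ * a ≠ 1 := fun h => hne (inv_mul_eq_one.1 h).symm
    have hpd : p ∣ Nat.card (Subgroup.zpowers (b⁻¹ * a)) := by
      obtain ⟨t, ht⟩ := hA (b⁻¹ * a)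
      rw [Nat.card_zpowers]
      obtain ⟨i, -, hi⟩ := (Nat.dvd_prime_pow hp).1 (orderOf_dvd_of_pow_eq_one ht)
      rcases i with _ | i
      · exact absurd (orderOf_eq_one_iff.1 (by simpa using hi)) hc
      · exact hi ▸ dvd_pow_self p (by omega)
    obtain ⟨⟨y, hy⟩, hyo⟩ := exists_prime_orderOf_dvd_card' p hpd
    rw [Subgroup.orderOf_mk] at hyo
    have hy1 : y = 1 := by
      refine hfaith y (show y ^ p = 1 from hyo ▸ pow_orderOf_eq_one y) fun s hs => ?_
      have hs' : b⁻¹ * a ∈ MulAction.stabilizer A s := by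
        rw [MulAction.mem_stabilizer_iff, mul_smul, inv_smul_eq_iff]
        exact congrArg Subtype.val (congrFun e ⟨s, hs⟩)
      exact (Subgroup.zpowers_le.2 hs' : _ ≤ MulAction.stabilizer A s) hy
    rw [hy1, orderOf_one] at hyo
    exact hp.one_lt.ne hyo
  have hcard : Nat.card A ≤ ∏ s ∈ S, Nat.card (MulAction.orbit A s) := by
    refine (Nat.card_le_card_of_injective _ hinj).trans_eq ?_
    rw [Nat.card_pi, ← Finset.prod_coe_sort S fun s => Nat.card (MulAction.orbit A s)]
  have hexp : ∀ s : Ω, ∃ e, Nat.card (MulAction.orbit A s) = p ^ e := fun s => by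
    obtain ⟨n, hn⟩ := hA.index (MulAction.stabilizer A s)
    exact ⟨n, by rw [← hn, MulAction.index_stabilizer, Nat.card_coe_set_eq]⟩
  choose e he using hexp
  have he1 : ∀ x ∈ S.val.map e, 1 ≤ x := by
    intro x hx
    obtain ⟨s, hs, rfl⟩ := Multiset.mem_map.1 hx
    by_contra h
    obtain ⟨y, -, hy⟩ := hmove s hs
    have h1 : Nat.card (MulAction.orbit A s) = 1 := by
      rw [he, show e s = 0 by omega, pow_zero]
    obtain ⟨hsub, -⟩ := Nat.card_eq_one_iff_unique.1 h1
    exact hy (congrArg Subtype.val (Subsingleton.elim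
      (⟨y • s, MulAction.mem_orbit _ _⟩ : MulAction.orbit A s) ⟨s, MulAction.mem_orbit_self s⟩))
  have hprod : ((S.val.map e).map (p ^ ·)).prod = ∏ s ∈ S, Nat.card (MulAction.orbit A s) := by
    rw [Multiset.map_map]
    exact Finset.prod_congr rfl fun s _ => (he s).symm
  have hsum : ((S.val.map e).map (p ^ ·)).sum = ∑ s ∈ S, Nat.card (MulAction.orbit A s) := by
    rw [Multiset.map_map]
    exact Finset.sum_congr rfl fun s _ => (he s).symm
  have hk' : k ≤ (S.val.map e).sum := by
    refine (Nat.pow_le_pow_iff_right hp.one_lt).1 ?_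
    have h1 : p ^ k ≤ Nat.card A := hE ▸ Subgroup.card_le_card_group E
    refine h1.trans (hcard.trans_eq ?_)
    rw [← hprod, Multiset.map_map]
    exact Finset.prod_pow_eq_pow_sum S e p
  have key := Cfsg.Agent.PermGroups.prime_pow_split hp.two_le k (k - S.card) (S.val.map e)
    (by rw [Multiset.card_map]; show S.card + _ = k; omega) he1 hk'
  rw [hprod, hsum] at key
  refine (Nat.mul_le_mul_right _ hcard).trans (key.trans (Nat.pow_le_pow_left ?_ k))
  rw [← Nat.card_eq_fintype_card, ← Finset.sum_coe_sort S fun s => Nat.card (MulAction.orbit A s),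
    ← Nat.card_sigma]
  refine Nat.card_le_card_of_injective (fun x : Σ s : S, MulAction.orbit A s.1 => (x.2 : Ω)) ?_
  rintro ⟨⟨s, hs⟩, ⟨u, hu⟩⟩ ⟨⟨t, ht⟩, ⟨v, hv⟩⟩ (h : u = v)
  subst h
  obtain rfl : t = s := horb s hs t ht (by
    rw [← MulAction.orbit_eq_iff.2 hu, MulAction.orbit_eq_iff.2 hv]
    exact MulAction.mem_orbit_self t)
  rfl

end Cfsg.Agent.S3696
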