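import Cfsg.Statements.S3716
import Cfsg.Agent.OddChar.Wreath72Setup

set_option autoImplicit false
open Cfsg

namespace Cfsg.Agent.S3716

/-- Let G be a finite group with an elementary abelian Sylow 3-subgroup M of order 9 which is self-centralizing (C_G(M) = M), let N = N_G(M), and suppose C_G(g) ≤ N for every nonidentity g ∈ M. If the Sylow 2-subgroups of N are dihedral of order 8, then G is not simple. -/
theorem result {G : Type*} [Group G] [Finite G] (M : Sylow 3 G) (hM9 : Nat.card ↥(M : Subgroup G) = 9)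
    (hMel : ∀ m ∈ (M : Subgroup G), m ^ 3 = 1)
    (hCM : Subgroup.centralizer ((M : Subgroup G) : Set G) = (M : Subgroup G))
    (N : Subgroup G) (hN : N = Subgroup.normalizer ((M : Subgroup G) : Set G))
    (hCg : ∀ g ∈ (M : Subgroup G), g ≠ 1 → Subgroup.centralizer ({g} : Set G) ≤ N)
    (hS : ∀ S : Sylow 2 ↥N, Nonempty (↥(S : Subgroup ↥N) ≃* DihedralGroup 4)) :
    ¬ IsSimpleGroup G := by
  intro hs
  classical
  haveI := Fintype.ofFinite G
  haveI := Fintype.ofFinite N
  obtain ⟨S⟩ : Nonempty (Sylow 2 ↥N) := inferInstance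
  obtain ⟨e8⟩ := hS S
  have hS8 : Nat.card (S : Subgroup ↥N) = 8 := by
    rw [Nat.card_congr e8.toEquiv, DihedralGroup.nat_card]
  have hN72 := OddChar.Wreath72.card_normalizer M hM9 hCM hN S hS8
  haveI hn : ((M : Subgroup G).subgroupOf N).Normal := by
    subst hN; exact Subgroup.normal_in_normalizer
  have hle : (M : Subgroup G) ≤ N := hN ▸ Subgroup.le_normalizer
  obtain ⟨e⟩ := OddChar.Wreath72.exists_iso ((M : Subgroup G).subgroupOf N) (S : Subgroup ↥N)
    (by rw [Nat.card_congr (Subgroup.subgroupOfEquivOfLe hle).toEquiv, hM9])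
    (fun m hm => Subtype.ext (by simpa using hMel _ hm))
    (by
      ext x
      rw [Subgroup.mem_centralizer_iff, Subgroup.mem_subgroupOf]
      constructor
      · intro h
        rw [← hCM, Subgroup.mem_centralizer_iff]
        exact fun m hm => congrArg Subtype.val (h ⟨m, hle hm⟩ hm)
      · intro h m hm
        have h' : (x : G) ∈ Subgroup.centralizer ((M : Subgroup G) : Set G) := by rw [hCM]; exact h
        exact Subtype.ext (Subgroup.mem_centralizer_iff.mp h' _ hm))
    e8 hN72
  have hA := OddChar.Wreath72.isTISection_normalizer M hM9 hMel hCM hN hCg e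
  obtain ⟨φ, hφ⟩ := OddChar.Wreath72.exists_linear e hA
  rcases hs.eq_bot_or_eq_top_of_normal φ.ker inferInstance with h | h
  · have hcomm : ∀ a b : G, a * b = b * a := fun a b =>
      (MonoidHom.ker_eq_bot_iff φ).mp h (by rw [map_mul, map_mul, mul_comm])
    have hW : OddChar.Wreath72.r1 * OddChar.Wreath72.r2 ≠
        OddChar.Wreath72.r2 * OddChar.Wreath72.r1 := by decide
    apply hW
    apply e.symm.injective
    rw [map_mul, map_mul]
    exact Subtype.ext (hcomm _ _)
  · exact hφ (MonoidHom.ext fun g => MonoidHom.mem_ker.mp (h ▸ Subgroup.mem_top g))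

end Cfsg.Agent.S3716
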