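import Cfsg.Statements.S3802
import Cfsg.Agent.Transfer.Subnormal

set_option autoImplicit false
open Cfsg

namespace Cfsg.Agent.S3802

/-- Let G be a finite group, M a maximal subgroup of G and N a subnormal subgroup of G contained in M. Then N is contained in every conjugate of M, that is, N lies in the core of M in G. -/
theorem result {G : Type*} [Group G] [Finite G] (M N : Subgroup G) (hM : IsCoatom M) (hN : N.IsSubnormal) (hNM : N ≤ M) :
    N ≤ Subgroup.normalCore M := by
  set C := Subgroup.normalCore M with hC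
  have hCM : C ≤ M := Subgroup.normalCore_le M
  let q := QuotientGroup.mk' C
  have hker : q.ker ≤ M := by rw [QuotientGroup.ker_mk']; exact hCM
  have hM' : M.map q ≠ ⊤ := by
    intro h
    apply hM.1
    rw [← sup_eq_left.mpr hker, ← Subgroup.comap_map_eq, h, Subgroup.comap_top]
  haveI : Nontrivial (G ⧸ C) := by
    rcases subsingleton_or_nontrivial (G ⧸ C) with h | h
    · exact absurd (Subsingleton.elim _ _) hM'
    · exact h
  obtain ⟨K, hK, -⟩ := Cfsg.Agent.Core.exists_isMinNormal_le
    (N := (⊤ : Subgroup (G ⧸ C))) inferInstance top_ne_bot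
  have hKM : ¬ K ≤ M.map q := by
    intro h
    apply hK.2.1
    have h1 : K.comap q ≤ C := by
      haveI : (K.comap q).Normal := hK.1.comap q
      refine Subgroup.normal_le_normalCore.mpr ?_
      exact (Subgroup.comap_mono h).trans (by rw [Subgroup.comap_map_eq]; exact sup_le le_rfl hker)
    rw [eq_bot_iff]
    intro y hy
    obtain ⟨g, rfl⟩ := QuotientGroup.mk'_surjective C y
    exact (QuotientGroup.eq_one_iff g).mpr (h1 hy)
  have htop : K.comap q ⊔ M = ⊤ := hM.2 _ (lt_of_le_of_ne le_sup_right fun h => hKM (by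
    have h2 : K.comap q ≤ M := le_trans le_sup_left h.ge
    have h5 := Subgroup.map_mono (f := q) h2
    rwa [Subgroup.map_comap_eq_self_of_surjective (f := q) (QuotientGroup.mk'_surjective C) K] at h5))
  intro x hx g
  haveI : (K.comap q).Normal := hK.1.comap q
  obtain ⟨m, hm, k, hk, rfl⟩ := Subgroup.mem_sup_of_normal_right.mp
    ((sup_comm M (K.comap q)).trans htop ▸ Subgroup.mem_top g : g ∈ M ⊔ K.comap q)
  have h1 : q k * q x * (q k)⁻¹ ∈ N.map q :=
    (Subgroup.mem_normalizer_iff.mp (Cfsg.Agent.Transfer.isMinNormal_le_normalizer hK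
      (hN.map (QuotientGroup.mk'_surjective C)) hk) _).mp (Subgroup.mem_map_of_mem _ hx)
  have h2 : k * x * k⁻¹ ∈ M := by
    obtain ⟨n, hn, e⟩ := h1
    rw [← map_inv, ← map_mul, ← map_mul] at e
    have h3 : n⁻¹ * (k * x * k⁻¹) ∈ C := QuotientGroup.eq.mp e
    have := mul_mem (hNM hn) (hCM h3)
    rwa [mul_inv_cancel_left] at this
  show m * k * x * (m * k)⁻¹ ∈ M
  rw [show m * k * x * (m * k)⁻¹ = m * (k * x * k⁻¹) * m⁻¹ by group]
  exact mul_mem (mul_mem hm h2) (inv_mem hm)

end Cfsg.Agent.S3802
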