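import Cfsg.Statements.S3805
import Cfsg.Agent.OddChar.S3SquaredCount
import Cfsg.Agent.OddChar.S3SquaredIso

set_option autoImplicit false
open Cfsg

namespace Cfsg.Agent.S3805

/-- Let G be a finite group whose Sylow 3-subgroup T is elementary abelian of order 9 and self-centralizing, with N_G(T)/T a Klein four-group, and suppose that the centralizer of every nonidentity element of T lies in N_G(T). Then T is normal in G. -/
theorem result {G : Type*} [Group G] [Finite G]
    (T : Sylow 3 G) (hT : Cfsg.IsElementaryAbelian 3 (T : Subgroup G)) (hcard : Nat.card T = 9)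
    (hC : Subgroup.centralizer ((T : Subgroup G) : Set G) = T)
    [hn : ((T : Subgroup G).subgroupOf (Subgroup.normalizer ((T : Subgroup G) : Set G))).Normal]
    (hK : IsKleinFour (↥(Subgroup.normalizer ((T : Subgroup G) : Set G)) ⧸
      (T : Subgroup G).subgroupOf (Subgroup.normalizer ((T : Subgroup G) : Set G))))
    (hloc : ∀ t ∈ (T : Subgroup G), t ≠ 1 →
      Subgroup.centralizer ({t} : Set G) ≤ Subgroup.normalizer ((T : Subgroup G) : Set G)) :
    Subgroup.normalizer ((T : Subgroup G) : Set G) = ⊤ := by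
  classical
  haveI := Fintype.ofFinite G
  haveI : Fact (Nat.Prime 2) := ⟨Nat.prime_two⟩
  haveI : Fact (Nat.Prime 3) := ⟨Nat.prime_three⟩
  set N := Subgroup.normalizer ((T : Subgroup G) : Set G) with hN
  haveI := Fintype.ofFinite N
  have hle : (T : Subgroup G) ≤ N := Subgroup.le_normalizer
  set M₀ := (T : Subgroup G).subgroupOf N with hM₀
  have h9 : Nat.card M₀ = 9 := by
    rw [hM₀, Nat.card_congr (Subgroup.subgroupOfEquivOfLe hle).toEquiv, hcard]
  have hidx : Nat.card (N ⧸ M₀) = 4 := hK.card_four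
  have hN36 : Nat.card N = 36 := by
    rw [Subgroup.card_eq_card_quotient_mul_card_subgroup M₀, hidx, h9]
  have hself0 : Subgroup.centralizer (M₀ : Set N) = M₀ := by
    ext x
    rw [Subgroup.mem_centralizer_iff, hM₀, Subgroup.mem_subgroupOf]
    constructor
    · intro h
      rw [← hC, Subgroup.mem_centralizer_iff]
      exact fun m hm => congrArg Subtype.val (h ⟨m, hle hm⟩ hm)
    · intro h m hm
      have h' : (x : G) ∈ Subgroup.centralizer ((T : Subgroup G) : Set G) := by rw [hC]; exact h
      exact Subtype.ext (Subgroup.mem_centralizer_iff.mp h' _ hm)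
  have h3 : ∀ m ∈ (T : Subgroup G), m ^ 3 = 1 := by
    obtain ⟨-, h⟩ := hT
    exact h
  obtain ⟨Q⟩ : Nonempty (Sylow 2 N) := inferInstance
  have hQ4 : Nat.card (Q : Subgroup N) = 4 := by
    rw [Q.card_eq_multiplicity, hN36, show (36 : ℕ) = 2 ^ 2 * 9 by norm_num,
      Nat.factorization_mul (by norm_num) (by norm_num), Finsupp.add_apply,
      Nat.prime_two.factorization_pow, Finsupp.single_eq_same,
      Nat.factorization_eq_zero_of_not_dvd (show ¬ 2 ∣ 9 by norm_num)]
    norm_num
  have hQ2 : ∀ q ∈ (Q : Subgroup N), q * q = 1 := by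
    intro q hq
    have hm : q * q ∈ M₀ := by
      rw [← QuotientGroup.eq_one_iff, QuotientGroup.mk_mul, ← sq]
      exact (Monoid.exponent_dvd_iff_forall_pow_eq_one.mp (dvd_of_eq hK.exponent_two)) _
    have h4 : orderOf (q * q) ∣ 4 := by
      rw [← hQ4, ← Subgroup.orderOf_mk (q * q) (Subgroup.mul_mem _ hq hq)]
      exact orderOf_dvd_natCard _
    have h9' : orderOf (q * q) ∣ 9 := by
      rw [← h9, ← Subgroup.orderOf_mk (q * q) hm]
      exact orderOf_dvd_natCard _
    exact orderOf_eq_one_iff.mp (Nat.dvd_one.mp (Nat.dvd_gcd h4 h9'))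
  obtain ⟨e⟩ := OddChar.S3Squared.exists_iso M₀ (Q : Subgroup N) h9
    (fun m hm => Subtype.ext (by simpa using h3 _ hm)) hself0 hQ4 hQ2 hN36
  have A : OddChar.Wreath72.Ambient T N := ⟨hcard, h3, hC, hN, hloc⟩
  by_cases h : ∃ l, IsConj (OddChar.S3Squared.el e (OddChar.S3Squared.inv' l))
      (OddChar.S3Squared.el e OddChar.S3Squared.zb)
  · obtain ⟨l, hl⟩ := h
    exact (OddChar.S3Squared.false_of_fused e A hl).elim
  · exact OddChar.S3Squared.normal_of_not_fused e A fun k hk => h ⟨k, hk⟩

end Cfsg.Agent.S3805
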