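import Cfsg.Statements.S3814
import Cfsg.Agent.FourPrimes.Lucido

set_option autoImplicit false
open Cfsg Cfsg.Agent.FourPrimes

namespace Cfsg.Agent.S3814

/-- A criterion for nonsolvability from element orders: let G be a finite group and σ a set of at least four primes such that for all distinct p, q ∈ σ the product pq is the order of some element of G, while for all pairwise distinct p, q, r ∈ σ no element of G has order pqr. Then G is not solvable. -/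
theorem result {G : Type*} [Group G] [Finite G]
    (σ : Finset ℕ) (hσ : 4 ≤ σ.card) (hprime : ∀ p ∈ σ, p.Prime)
    (h2 : ∀ p ∈ σ, ∀ q ∈ σ, p ≠ q → ∃ g : G, orderOf g = p * q)
    (h3 : ∀ p ∈ σ, ∀ q ∈ σ, ∀ r ∈ σ, p ≠ q → q ≠ r → p ≠ r → ∀ g : G, orderOf g ≠ p * q * r) :
    ¬ Group.IsSolvable G := by
  intro hsol
  haveI := hsol
  obtain ⟨τ, hτ, hτc⟩ := Finset.exists_subset_card_eq (n := 4) hσ
  have pr : ∀ a ∈ τ, a.Prime := fun a ha => hprime a (hτ ha)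
  have tri : ∀ a ∈ τ, ∀ b ∈ τ, ∀ c ∈ τ, a ≠ b → a ≠ c → b ≠ c → Tri G a b c := by
    intro a ha b hb c hc hab hac hbc x y z hx hy hz hxy hxz hyz
    refine h3 a (hτ ha) b (hτ hb) c (hτ hc) hab hbc hac (x * y * z) ?_
    have h12 : orderOf (x * y) = a * b := by
      rw [hxy.orderOf_mul_eq_mul_orderOf_of_coprime, hx, hy]
      rw [hx, hy]; exact (Nat.coprime_primes (pr a ha) (pr b hb)).2 hab
    rw [(hxz.mul_left hyz).orderOf_mul_eq_mul_orderOf_of_coprime, h12, hz]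
    rw [h12, hz]
    exact Nat.Coprime.mul_left ((Nat.coprime_primes (pr a ha) (pr c hc)).2 hac)
      ((Nat.coprime_primes (pr b hb) (pr c hc)).2 hbc)
  have join : ∀ a ∈ τ, ∀ b ∈ τ, a ≠ b → ∃ g : G, ∃ i j : ℕ, orderOf g = a * b ∧
      orderOf (g ^ i) = a ∧ orderOf (g ^ j) = b := by
    intro a ha b hb hab
    obtain ⟨g, hg⟩ := h2 a (hτ ha) b (hτ hb) hab
    refine ⟨g, b, a, hg, ?_, ?_⟩
    · rw [orderOf_pow' g (pr b hb).ne_zero, hg, Nat.gcd_eq_right (dvd_mul_left b a),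
        Nat.mul_div_cancel _ (pr b hb).pos]
    · rw [orderOf_pow' g (pr a ha).ne_zero, hg, Nat.gcd_eq_right (dvd_mul_right a b),
        Nat.mul_div_cancel_left _ (pr a ha).pos]
  have hsq : ∀ s ∈ τ, ∃ E : Subgroup G, Sq s E := by
    intro s hs
    have hc : (τ.erase s).card = 3 := by rw [Finset.card_erase_of_mem hs, hτc]
    obtain ⟨q, r, t, hqr, hqt, hrt, he⟩ := Finset.card_eq_three.1 hc
    have hm : ∀ l ∈ ({q, r, t} : Set ℕ), l ∈ τ.erase s := fun l hl => by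
      rw [he]; simpa using hl
    refine exists_sq (pr s hs) (pr q (Finset.mem_of_mem_erase (hm q (by simp))))
      (pr r (Finset.mem_of_mem_erase (hm r (by simp))))
      (pr t (Finset.mem_of_mem_erase (hm t (by simp)))) hqr hqt hrt (fun l hl => ?_)
      (fun u hu v hv huv => tri s hs u (Finset.mem_of_mem_erase (hm u hu)) v
        (Finset.mem_of_mem_erase (hm v hv)) (Finset.ne_of_mem_erase (hm u hu)).symm
        (Finset.ne_of_mem_erase (hm v hv)).symm huv)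
    obtain ⟨g, i, j, -, hi, hj⟩ := join s hs l (Finset.mem_of_mem_erase (hm l hl))
      (Finset.ne_of_mem_erase (hm l hl)).symm
    exact ⟨g ^ i, g ^ j, hi, hj, Commute.pow_pow (Commute.refl g) i j⟩
  obtain ⟨H₀, -, hH₀π, hH₀⟩ := exists_hall (⊤ : Subgroup G) (τ : Set ℕ)
  have hE₀ : ∀ s ∈ τ, ∃ E ≤ H₀, Sq s E := fun s hs =>
    exists_sq_hall hH₀ (pr s hs) hs (let ⟨E, hE⟩ := hsq s hs; ⟨E, le_top, hE⟩)
  have hH₀1 : H₀ ≠ ⊥ := by
    obtain ⟨s, hs⟩ := Finset.card_pos.1 (by omega : 0 < τ.card)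
    obtain ⟨E, hEH, hE⟩ := hE₀ s hs
    rintro rfl
    have := Subgroup.card_dvd_of_le hEH
    rw [hE.2, Subgroup.card_bot, Nat.dvd_one] at this
    nlinarith [(pr s hs).two_le]
  obtain ⟨p, hp, hpd, N, hNH, hN1, hN, hNn⟩ := exists_ea le_rfl Subgroup.le_normalizer hH₀1
  have hpτ : p ∈ τ := hH₀π p hp hpd
  have hc : (τ.erase p).card = 3 := by rw [Finset.card_erase_of_mem hpτ, hτc]
  obtain ⟨q, r, t, hqr, hqt, hrt, he⟩ := Finset.card_eq_three.1 hc
  obtain ⟨hqτ, hqp⟩ : q ∈ τ ∧ q ≠ p := by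
    have : q ∈ τ.erase p := by rw [he]; simp
    exact ⟨Finset.mem_of_mem_erase this, Finset.ne_of_mem_erase this⟩
  obtain ⟨hrτ, hrp⟩ : r ∈ τ ∧ r ≠ p := by
    have : r ∈ τ.erase p := by rw [he]; simp
    exact ⟨Finset.mem_of_mem_erase this, Finset.ne_of_mem_erase this⟩
  obtain ⟨htτ, htp⟩ : t ∈ τ ∧ t ≠ p := by
    have : t ∈ τ.erase p := by rw [he]; simp
    exact ⟨Finset.mem_of_mem_erase this, Finset.ne_of_mem_erase this⟩
  obtain ⟨H, hHH, hHπ, hH⟩ := exists_hall H₀ ({q, r, t} : Set ℕ)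
  have hJ : ∀ a b, a ∈ τ → b ∈ τ → a ≠ b → a ∈ ({q, r, t} : Set ℕ) → b ∈ ({q, r, t} : Set ℕ) →
      ∃ x ∈ H, ∃ y ∈ H, orderOf x = a ∧ orderOf y = b ∧ Commute x y := by
    intro a b ha hb hab ha' hb'
    obtain ⟨g, i, j, hg, hi, hj⟩ := join a ha b hb hab
    have hpr : ∀ l, l.Prime → l ∣ Nat.card (Subgroup.zpowers g) → l = a ∨ l = b := by
      intro l hl hd
      rw [Nat.card_zpowers, hg] at hd
      exact ((Nat.Prime.dvd_mul hl).1 hd).imp (Nat.prime_dvd_prime_iff_eq hl (pr a ha)).1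
        (Nat.prime_dvd_prime_iff_eq hl (pr b hb)).1
    obtain ⟨h, -, hle⟩ := hH₀ (Subgroup.zpowers g) le_top fun l hl hd => by
      rcases hpr l hl hd with rfl | rfl <;> assumption
    have hg' : MulAut.conj h g ∈ H₀ := hle ⟨g, Subgroup.mem_zpowers g, rfl⟩
    obtain ⟨k, -, hle'⟩ := hH (Subgroup.zpowers (MulAut.conj h g)) (Subgroup.zpowers_le.2 hg')
      fun l hl hd => by
        rw [Nat.card_zpowers, MulEquiv.orderOf_eq, ← Nat.card_zpowers] at hd
        rcases hpr l hl hd with rfl | rfl <;> assumption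
    have hg'' : MulAut.conj k (MulAut.conj h g) ∈ H :=
      hle' ⟨_, Subgroup.mem_zpowers _, rfl⟩
    exact ⟨_, H.pow_mem hg'' i, _, H.pow_mem hg'' j,
      by rw [← map_pow, ← map_pow, MulEquiv.orderOf_eq, MulEquiv.orderOf_eq, hi],
      by rw [← map_pow, ← map_pow, MulEquiv.orderOf_eq, MulEquiv.orderOf_eq, hj],
      Commute.pow_pow (Commute.refl _) i j⟩
  exact Act.contradiction' (p := p) (q := q) (r := r) (t := t) (N := N) (H := H)
    ⟨hp, pr q hqτ, pr r hrτ, pr t htτ, hqp, hrp, htp, hqr, hqt, hrt, hN, hN1, hHH.trans hNn,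
      fun l hl hd => hHπ l hl hd,
      tri p hpτ q hqτ r hrτ hqp.symm hrp.symm hqr, tri p hpτ q hqτ t htτ hqp.symm htp.symm hqt,
      tri p hpτ r hrτ t htτ hrp.symm htp.symm hrt, tri q hqτ r hrτ t htτ hqr hqt hrt,
      exists_sq_hall hH (pr q hqτ) (Or.inl rfl) (hE₀ q hqτ),
      exists_sq_hall hH (pr r hrτ) (Or.inr (Or.inl rfl)) (hE₀ r hrτ),
      exists_sq_hall hH (pr t htτ) (Or.inr (Or.inr rfl)) (hE₀ t htτ),
      hJ q r hqτ hrτ hqr (Or.inl rfl) (Or.inr (Or.inl rfl)),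
      hJ q t hqτ htτ hqt (Or.inl rfl) (Or.inr (Or.inr rfl)),
      hJ r t hrτ htτ hrt (Or.inr (Or.inl rfl)) (Or.inr (Or.inr rfl))⟩

end Cfsg.Agent.S3814
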