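import Cfsg.Statements.S3815
import Cfsg.Agent.Core.Cores
import Mathlib.GroupTheory.Perm.Cycle.Type

set_option autoImplicit false
open Cfsg

namespace Cfsg.Agent.S3815

/-- Let G be a finite group, p a prime and d ∈ G an element of order prime to p. If dg has order prime to p for every element g ∈ G of order prime to p, then d ∈ O_{p'}(G). -/
theorem result {G : Type*} [Group G] [Finite G] {p : ℕ} [Fact p.Prime]
    (d : G) (hd : (orderOf d).Coprime p)
    (h : ∀ g : G, (orderOf g).Coprime p → (orderOf (d * g)).Coprime p) :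
    d ∈ Cfsg.pPrimeCore p G := by
  let S : Submonoid G :=
    { carrier := {c | (orderOf c).Coprime p ∧ ∀ g : G, (orderOf g).Coprime p → (orderOf (c * g)).Coprime p}
      one_mem' := ⟨by simp, fun g hg => by simpa using hg⟩
      mul_mem' := fun {a b} ha hb => ⟨ha.2 b hb.1, fun g hg => by
        rw [mul_assoc]; exact ha.2 _ (hb.2 g hg)⟩ }
  let N : Subgroup G :=
    { S with
      inv_mem' := fun {x} hx => by
        have : x⁻¹ = x ^ (orderOf x - 1) := by
          refine inv_eq_of_mul_eq_one_right ?_
          rw [← pow_succ', Nat.sub_add_cancel (orderOf_pos x), pow_orderOf_eq_one]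
        rw [this]; exact S.pow_mem hx _ }
  have hN : N.Normal := by
    refine ⟨fun c hc g => ⟨?_, fun k hk => ?_⟩⟩
    · have := orderOf_injective (MulAut.conj g).toMonoidHom (MulAut.conj g).injective c
      simp only [MulEquiv.coe_toMonoidHom, MulAut.conj_apply] at this
      rw [this]; exact hc.1
    · have hk' : (orderOf (g⁻¹ * k * g)).Coprime p := by
        have := orderOf_injective (MulAut.conj g⁻¹).toMonoidHom (MulAut.conj g⁻¹).injective k
        simp only [MulEquiv.coe_toMonoidHom, MulAut.conj_apply, inv_inv] at this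
        rwa [this]
      have := hc.2 _ hk'
      have h2 := orderOf_injective (MulAut.conj g).toMonoidHom (MulAut.conj g).injective (c * (g⁻¹ * k * g))
      simp only [MulEquiv.coe_toMonoidHom, MulAut.conj_apply] at h2
      rw [show g * c * g⁻¹ * k = g * (c * (g⁻¹ * k * g)) * g⁻¹ by group, h2]
      exact this
  refine Cfsg.Agent.Core.le_pPrimeCore hN ?_ (show d ∈ N from ⟨hd, h⟩)
  rw [Nat.coprime_comm, (Fact.out : p.Prime).coprime_iff_not_dvd]
  intro hdvd
  obtain ⟨⟨x, hxN⟩, hx⟩ := exists_prime_orderOf_dvd_card' p hdvd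
  rw [← Subgroup.orderOf_coe] at hx
  have h1 : (orderOf x).Coprime p := (show x ∈ S from hxN).1
  rw [show orderOf x = p from hx, Nat.coprime_self] at h1
  exact (Fact.out : p.Prime).ne_one h1

end Cfsg.Agent.S3815
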