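import Cfsg.Statements.S3818
import Cfsg.Agent.FGS3.FlavellFixedSpace
-- import your own Cfsg.Agent.* helpers here

set_option autoImplicit false
open Cfsg

namespace Cfsg.Agent.S3818

/-- Let G be a finite solvable group and P a subgroup of G of prime order p > 3 whose conjugates generate G. Let V be a faithful irreducible representation of G over a field of positive characteristic, finite-dimensional. Then the subspace of V fixed by P has dimension less than half the dimension of V. -/
theorem result {G : Type*} [Group G] [Finite G] [Group.IsSolvable G]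
    {p : ℕ} [Fact p.Prime] (hp : 3 < p) (P : Subgroup G) (hP : Nat.card P = p) (hgen : Subgroup.normalClosure (P : Set G) = ⊤)
    {k : Type*} [Field k] (ℓ : ℕ) [Fact ℓ.Prime] [CharP k ℓ]
    {V : Type*} [AddCommGroup V] [Module k V] [FiniteDimensional k V]
    (ρ : Representation k G V) [ρ.IsIrreducible] (hfaith : Function.Injective ρ) :
    2 * Module.finrank k ↥(⨅ g : ↥P, LinearMap.ker (ρ (g : G) - LinearMap.id)) < Module.finrank k V := by
  classical
  obtain ⟨g, hg⟩ := exists_prime_orderOf_dvd_card' p (hP ▸ dvd_refl p : p ∣ Nat.card P)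
  have hxp : (g : G) ^ p = 1 := by rw [← hg, ← SubmonoidClass.coe_pow, pow_orderOf_eq_one]; rfl
  have hx1 : (g : G) ≠ 1 := fun h => by
    rw [← Subgroup.orderOf_coe, h, orderOf_one] at hg
    exact (Fact.out : p.Prime).ne_one hg.symm
  have hPz : P = Subgroup.zpowers (g : G) := (Subgroup.eq_of_le_of_card_ge (Subgroup.zpowers_le.2 g.2)
    (by rw [hP, Nat.card_zpowers, Subgroup.orderOf_coe, hg])).symm
  have hgen' : Subgroup.normalClosure ({(g : G)} : Set G) = ⊤ := by
    rw [eq_top_iff, ← hgen]
    refine Subgroup.normalClosure_le_normal ?_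
    exact hPz.le.trans (Subgroup.zpowers_le.2 (Subgroup.subset_normalClosure (Set.mem_singleton _)))
  have hirr : ∀ S : Submodule k V, (∀ g, ∀ v ∈ S, ρ g v ∈ S) → S = ⊥ ∨ S = ⊤ := fun S hS => by
    rcases eq_bot_or_eq_top (⟨S, fun g v hv => hS g v hv⟩ : Subrepresentation ρ) with h | h
    · exact Or.inl (congrArg Subrepresentation.toSubmodule h)
    · exact Or.inr (congrArg Subrepresentation.toSubmodule h)
  have : Nontrivial V := by
    by_contra h
    rw [not_nontrivial_iff_subsingleton] at h
    refine hx1 (hfaith (LinearMap.ext fun v => Subsingleton.elim _ _))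
  have h := FGS3.fixed_space_lt ρ hfaith hirr hp (g : G) hxp hx1 hgen'
  have hle : (⨅ y : ↥P, LinearMap.ker (ρ (y : G) - LinearMap.id)) ≤ LinearMap.ker (ρ (g : G) - 1) :=
    iInf_le _ g
  exact lt_of_le_of_lt (Nat.mul_le_mul_left 2 (Submodule.finrank_mono hle)) h

end Cfsg.Agent.S3818
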