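import Cfsg.Statements.S3820
import Cfsg.Agent.Transfer.Small

set_option autoImplicit false
open Cfsg

namespace Cfsg.Agent.S3820

/-- Call a subgroup H of G pronormal if H and gHg⁻¹ are conjugate inside ⟨H, gHg⁻¹⟩ for every g ∈ G. Let S ≤ H ≤ G be subgroups of a finite group with S pronormal in G (for instance S a Sylow subgroup). Then H is pronormal in G if and only if H and gHg⁻¹ are conjugate inside ⟨H, gHg⁻¹⟩ for every g ∈ N_G(S). In particular H is pronormal whenever N_G(S) ≤ H. -/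
theorem result {G : Type*} [Group G] [Finite G] (S H : Subgroup G) (hSH : S ≤ H)
    (hS : Cfsg.IsPronormal S) :
    Cfsg.IsPronormal H ↔
      ∀ g ∈ Subgroup.normalizer (S : Set G), ∃ w ∈ H ⊔ H.map (MulAut.conj g).toMonoidHom,
        H.map (MulAut.conj g).toMonoidHom = H.map (MulAut.conj w).toMonoidHom := by
  refine ⟨fun h g _ => h g, fun h g => ?_⟩
  obtain ⟨w, hw, hwS⟩ := hS g
  have hwJ : w ∈ H ⊔ H.map (MulAut.conj g).toMonoidHom :=
    sup_le_sup hSH (Subgroup.map_mono hSH) hw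
  have hn : w⁻¹ * g ∈ Subgroup.normalizer (S : Set G) := by
    rw [Cfsg.Agent.Transfer.mem_normalizer_iff_map_conj, ← Cfsg.Agent.Transfer.map_conj_mul, hwS,
      Cfsg.Agent.Transfer.map_conj_mul, inv_mul_cancel, Cfsg.Agent.Transfer.map_conj_one]
  obtain ⟨v, hv, hvH⟩ := h _ hn
  have hJ : H ⊔ H.map (MulAut.conj (w⁻¹ * g)).toMonoidHom ≤ H ⊔ H.map (MulAut.conj g).toMonoidHom := by
    refine sup_le le_sup_left ?_
    rintro _ ⟨a, ha, rfl⟩
    show w⁻¹ * g * a * (w⁻¹ * g)⁻¹ ∈ _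
    rw [show w⁻¹ * g * a * (w⁻¹ * g)⁻¹ = w⁻¹ * (g * a * g⁻¹) * w by group]
    exact mul_mem (mul_mem (inv_mem hwJ)
      (Subgroup.mem_sup_right (Subgroup.mem_map_of_mem _ ha))) hwJ
  refine ⟨w * v, mul_mem hwJ (hJ hv), ?_⟩
  rw [← Cfsg.Agent.Transfer.map_conj_mul w v, ← hvH, Cfsg.Agent.Transfer.map_conj_mul,
    mul_inv_cancel_left]

end Cfsg.Agent.S3820
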