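import Cfsg.Statements.S3821
import Cfsg.Agent.Transfer.Small

set_option autoImplicit false
open Cfsg

namespace Cfsg.Agent.S3821

/-- Let A be a normal subgroup of the finite group G and H a subgroup of A. Then H is pronormal in G (H and gHg⁻¹ conjugate inside ⟨H, gHg⁻¹⟩ for every g ∈ G) if and only if H is pronormal in A and G = A · N_G(H). -/
theorem result {G : Type*} [Group G] [Finite G] (A H : Subgroup G) [A.Normal] (hHA : H ≤ A) :
    Cfsg.IsPronormal H ↔ (Cfsg.IsPronormal (H.subgroupOf A) ∧ A ⊔ Subgroup.normalizer (H : Set G) = ⊤) := by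
  have hmap : ∀ a : A, ((H.subgroupOf A).map (MulAut.conj a).toMonoidHom).map A.subtype =
      H.map (MulAut.conj (a : G)).toMonoidHom := by
    intro a
    conv_rhs => rw [← Subgroup.map_subgroupOf_eq_of_le hHA]
    rw [Subgroup.map_map, Subgroup.map_map]
    rfl
  constructor
  · intro h
    refine ⟨fun a => ?_, ?_⟩
    · obtain ⟨w, hw, e⟩ := h (a : G)
      rw [← hmap a, ← Subgroup.map_subgroupOf_eq_of_le hHA, ← Subgroup.map_sup,
        Subgroup.map_subgroupOf_eq_of_le hHA] at hw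
      obtain ⟨v, hv, rfl⟩ := hw
      refine ⟨v, hv, Subgroup.map_injective A.subtype_injective ?_⟩
      rw [hmap, hmap]
      exact e
    · rw [eq_top_iff]
      intro g _
      obtain ⟨w, hw, e⟩ := h g
      have hwA : w ∈ A := by
        refine (sup_le hHA ?_ : H ⊔ H.map (MulAut.conj g).toMonoidHom ≤ A) hw
        rintro _ ⟨a, ha, rfl⟩
        exact ‹A.Normal›.conj_mem a (hHA ha) g
      have hn : w⁻¹ * g ∈ Subgroup.normalizer (H : Set G) := by
        rw [Cfsg.Agent.Transfer.mem_normalizer_iff_map_conj, ← Cfsg.Agent.Transfer.map_conj_mul, e,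
          Cfsg.Agent.Transfer.map_conj_mul, inv_mul_cancel, Cfsg.Agent.Transfer.map_conj_one]
      have := Subgroup.mul_mem_sup (T := Subgroup.normalizer (H : Set G)) hwA hn
      simpa using this
  · rintro ⟨hA, hG⟩ g
    obtain ⟨a, ha, n, hn, rfl⟩ := Subgroup.mem_sup_of_normal_left.mp
      (hG.symm ▸ Subgroup.mem_top g : g ∈ A ⊔ Subgroup.normalizer (H : Set G))
    rw [← Cfsg.Agent.Transfer.map_conj_mul, Cfsg.Agent.Transfer.mem_normalizer_iff_map_conj.mp hn]
    obtain ⟨v, hv, e⟩ := hA ⟨a, ha⟩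
    refine ⟨v, ?_, ?_⟩
    · rw [← hmap ⟨a, ha⟩, ← Subgroup.map_subgroupOf_eq_of_le hHA, ← Subgroup.map_sup,
        Subgroup.map_subgroupOf_eq_of_le hHA]
      exact ⟨v, hv, rfl⟩
    · rw [← hmap ⟨a, ha⟩, e, hmap]

end Cfsg.Agent.S3821
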