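import Cfsg.Statements.S3825
import Mathlib.GroupTheory.FixedPointFree
import Mathlib.GroupTheory.SpecificGroups.Cyclic

set_option autoImplicit false
open scoped commutatorElement
open Cfsg

namespace Cfsg.Agent.S3825

/-- Let U be a subgroup of a finite group H and w an involution of H normalizing U and commuting with exactly two elements of U, the identity and y. If V is a non-cyclic elementary abelian 2-subgroup of U containing y which is normal in U and invariant under w, then V is a Sylow 2-subgroup of U, V has order 4, and U/V is abelian. -/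
theorem result {H : Type*} [Group H] [Finite H] (U : Subgroup H) (w : H) (hw : orderOf w = 2)
    (hwU : w ∈ Subgroup.normalizer (U : Set H)) (y : H) (hy : y ≠ 1) (hyU : y ∈ U)
    (hfix : ∀ u ∈ U, w * u * w⁻¹ = u ↔ (u = 1 ∨ u = y))
    (V : Subgroup H) (hVU : V ≤ U) (hVn : (V.subgroupOf U).Normal) (hVw : ∀ v ∈ V, w * v * w⁻¹ ∈ V)
    (hVe : Cfsg.IsElementaryAbelian 2 V) (hVc : ¬ IsCyclic ↥V) (hyV : y ∈ V) :
    ¬ 2 ∣ V.relIndex U ∧ Nat.card ↥V = 4 ∧ ⁅U, U⁆ ≤ V := by
  have hww : w * w = 1 := by rw [← sq, ← hw, pow_orderOf_eq_one]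
  have hwi : w⁻¹ = w := inv_eq_of_mul_eq_one_right hww
  have hconj : ∀ a b : H, w * (a * b) * w⁻¹ = (w * a * w⁻¹) * (w * b * w⁻¹) := fun a b => by group
  have hinv : ∀ a : H, w * (w * a * w⁻¹) * w⁻¹ = a := fun a => by
    rw [hwi, ← mul_assoc, ← mul_assoc, hww, one_mul, mul_assoc, hww, mul_one]
  have hwy : w * y * w⁻¹ = y := (hfix y hyU).mpr (Or.inr rfl)
  have hV2 : ∀ v ∈ V, v * v = 1 := fun v hv => by rw [← sq]; exact hVe.2 v hv
  have hVinv : ∀ v ∈ V, v⁻¹ = v := fun v hv => inv_eq_of_mul_eq_one_right (hV2 v hv)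
  have hVc' : ∀ a ∈ V, ∀ b ∈ V, a * b = b * a := fun a ha b hb =>
    congrArg Subtype.val (hVe.1.is_comm.comm (⟨a, ha⟩ : V) ⟨b, hb⟩)
  -- commutators of `V` with `w` lie in `{1, y}`
  have him : ∀ v ∈ V, v * (w * v * w⁻¹) = 1 ∨ v * (w * v * w⁻¹) = y := by
    intro v hv
    refine (hfix _ (U.mul_mem (hVU hv) (hVU (hVw v hv)))).mp ?_
    rw [hconj, hinv]
    exact hVc' _ (hVw v hv) v hv
  -- `V` has order at most 4
  classical
  haveI : Fintype H := Fintype.ofFinite H
  let sv : Finset H := Finset.univ.filter fun x => x ∈ V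
  have hsv : sv.card = Nat.card V := by
    rw [Nat.card_eq_fintype_card, Fintype.card_subtype]
  have hle4 : Nat.card V ≤ 4 := by
    rw [← hsv]
    refine (Finset.card_le_mul_card_image sv (f := fun v => v * (w * v * w⁻¹)) 2 fun b _ => ?_).trans ?_
    · rcases ({a ∈ sv | a * (w * a * w⁻¹) = b} : Finset H).eq_empty_or_nonempty with h | ⟨a, ha⟩
      · rw [h]; simp
      · obtain ⟨ha1, ha2⟩ := Finset.mem_filter.mp ha
        have haV : a ∈ V := (Finset.mem_filter.mp ha1).2
        refine (Finset.card_le_card (t := {a, a * y}) fun c hc => ?_).trans Finset.card_le_two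
        obtain ⟨hc1, hc2⟩ := Finset.mem_filter.mp hc
        have hcV : c ∈ V := (Finset.mem_filter.mp hc1).2
        have hfx : w * (a⁻¹ * c) * w⁻¹ = a⁻¹ * c := by
          have e1 : w * a * w⁻¹ = a⁻¹ * b := by rw [← ha2]; group
          have e2 : w * c * w⁻¹ = c⁻¹ * b := by rw [← hc2]; group
          have hbV : b ∈ V := ha2 ▸ V.mul_mem haV (hVw a haV)
          calc w * (a⁻¹ * c) * w⁻¹ = (w * a * w⁻¹)⁻¹ * (w * c * w⁻¹) := by group
            _ = (a⁻¹ * b)⁻¹ * (c⁻¹ * b) := by rw [e1, e2]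
            _ = b⁻¹ * (a * c⁻¹) * b := by group
            _ = a⁻¹ * c := by
              rw [hVc' _ (V.inv_mem hbV) _ (V.mul_mem haV (V.inv_mem hcV)), inv_mul_cancel_right,
                hVinv c hcV, hVinv a haV]
        rcases (hfix _ (U.mul_mem (U.inv_mem (hVU haV)) (hVU hcV))).mp hfx with h | h
        · simp [← inv_mul_eq_one.mp h]
        · simp [← h]
    · have : (sv.image fun v => v * (w * v * w⁻¹)).card ≤ 2 := by
        refine (Finset.card_le_card (t := {1, y}) fun b hb => ?_).trans Finset.card_le_two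
        obtain ⟨v, hv, rfl⟩ := Finset.mem_image.mp hb
        simpa using him v (Finset.mem_filter.mp hv).2
      omega
  have hV4 : Nat.card V = 4 := by
    by_contra hne
    apply hVc
    obtain ⟨k, hk⟩ := (IsPGroup.iff_card (p := 2)).mp
      (show IsPGroup 2 V from fun x => ⟨1, Subtype.ext (by simpa using hVe.2 x x.2)⟩)
    rcases k with _ | _ | _ | k
    · haveI : Subsingleton V := (Nat.card_eq_one_iff_unique.mp hk).1
      exact ⟨⟨1, fun x => ⟨0, Subsingleton.elim _ _⟩⟩⟩
    · exact isCyclic_of_prime_card (p := 2) hk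
    · exact absurd hk hne
    · have : 2 ^ 3 ≤ Nat.card V := hk ▸ Nat.pow_le_pow_right (by norm_num) (by omega)
      omega
  -- some `v ∈ V` is moved to `v y`
  obtain ⟨v₀, hv₀, hv₀e⟩ : ∃ v ∈ V, w * v * w⁻¹ = v * y := by
    by_contra hcon
    push Not at hcon
    have hall : ∀ v ∈ V, v = 1 ∨ v = y := by
      intro v hv
      rcases him v hv with h | h
      · exact (hfix v (hVU hv)).mp (by rw [eq_inv_of_mul_eq_one_right h, hVinv v hv])
      · exact absurd (by rw [← h, ← mul_assoc, hV2 v hv, one_mul]) (hcon v hv)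
    have : Nat.card V ≤ 2 := by
      rw [← hsv]
      refine (Finset.card_le_card (t := {1, y}) fun b hb => ?_).trans Finset.card_le_two
      simpa using hall b (Finset.mem_filter.mp hb).2
    omega
  -- `w` acts on `U / V` without fixed points
  have hmem : ∀ u ∈ U, u⁻¹ * (w * u * w⁻¹) ∈ V → u ∈ V := by
    intro u hu hv
    obtain ⟨v, hvdef⟩ : ∃ v, u⁻¹ * (w * u * w⁻¹) = v := ⟨_, rfl⟩
    rw [hvdef] at hv
    have hu' : w * u * w⁻¹ = u * v := by rw [← hvdef, mul_inv_cancel_left]
    rcases him v hv with h | h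
    · -- `w v w = v`, so `v ∈ {1, y}`
      have hvf : w * v * w⁻¹ = v := by rw [eq_inv_of_mul_eq_one_right h, hVinv v hv]
      rcases (hfix v (hVU hv)).mp hvf with e | e
      · rw [e, mul_one] at hu'
        rcases (hfix u hu).mp hu' with h' | h'
        · exact h' ▸ V.one_mem
        · exact h' ▸ hyV
      · rw [e] at hu'
        have hfx : w * (u * v₀⁻¹) * w⁻¹ = u * v₀⁻¹ := by
          calc w * (u * v₀⁻¹) * w⁻¹ = (w * u * w⁻¹) * (w * v₀ * w⁻¹)⁻¹ := by group
            _ = u * y * (v₀ * y)⁻¹ := by rw [hu', hv₀e]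
            _ = u * v₀⁻¹ := by group
        rcases (hfix _ (U.mul_mem hu (U.inv_mem (hVU hv₀)))).mp hfx with h' | h'
        · exact (mul_inv_eq_one.mp h') ▸ hv₀
        · exact (mul_inv_eq_iff_eq_mul.mp h') ▸ V.mul_mem hyV hv₀
    · exfalso
      have hvy : w * v * w⁻¹ = v * y := by rw [← h, ← mul_assoc, hV2 v hv, one_mul]
      have h3 := hinv u
      rw [hu', hconj, hu', hvy] at h3
      have h4 : u * (v * (v * y)) = u := by rw [← mul_assoc]; exact h3
      rw [← mul_assoc v, hV2 v hv, one_mul] at h4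
      exact hy (mul_eq_left.mp h4)
  haveI := hVn
  have hwU' : ∀ u ∈ U, w * u * w⁻¹ ∈ U := fun u hu => (Subgroup.mem_normalizer_iff.mp hwU u).mp hu
  let ψ : U →* U ⧸ V.subgroupOf U := (QuotientGroup.mk' _).comp
    (MonoidHom.mk' (fun u : U => (⟨w * u * w⁻¹, hwU' u u.2⟩ : U))
      fun a b => Subtype.ext (hconj (a : H) (b : H)))
  let φ : U ⧸ V.subgroupOf U →* U ⧸ V.subgroupOf U := QuotientGroup.lift _ ψ (fun u hu => by
    rw [MonoidHom.mem_ker]
    exact (QuotientGroup.eq_one_iff _).mpr (show w * (u : H) * w⁻¹ ∈ V from hVw _ hu))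
  have hφ : MonoidHom.FixedPointFree φ := by
    intro q hq
    obtain ⟨u, rfl⟩ := QuotientGroup.mk_surjective q
    refine (QuotientGroup.eq_one_iff u).mpr (hmem u u.2 ?_)
    have hq' : ((⟨w * u * w⁻¹, hwU' u u.2⟩ : U) : U ⧸ V.subgroupOf U) = (u : U ⧸ V.subgroupOf U) := hq
    exact Subgroup.mem_subgroupOf.mp (QuotientGroup.eq.mp hq'.symm)
  have hinvol : Function.Involutive φ := fun q => by
    obtain ⟨u, rfl⟩ := QuotientGroup.mk_surjective q
    exact congrArg _ (Subtype.ext (hinv (u : H)))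
  refine ⟨?_, hV4, ?_⟩
  · rw [Subgroup.relIndex, Subgroup.index_eq_card]
    exact fun h => (Nat.not_even_iff_odd.mpr (hφ.odd_card_of_involutive hinvol)) (even_iff_two_dvd.mpr h)
  · rw [Subgroup.commutator_le]
    intro a ha b hb
    have h1 : Commute ((⟨a, ha⟩ : U) : U ⧸ V.subgroupOf U) ((⟨b, hb⟩ : U) : U ⧸ V.subgroupOf U) :=
      hφ.commute_all_of_involutive hinvol _ _
    have h2 := commutatorElement_eq_one_iff_commute.mpr h1
    rw [← QuotientGroup.mk'_apply, ← QuotientGroup.mk'_apply, ← map_commutatorElement,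
      QuotientGroup.mk'_apply, QuotientGroup.eq_one_iff] at h2
    exact h2

end Cfsg.Agent.S3825
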