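import Cfsg.Statements.S3838
import Cfsg.Agent.Transfer.Tate
import Cfsg.Agent.Transfer.Burnside
import Cfsg.Agent.Core.Cores

set_option autoImplicit false
open Cfsg
open scoped commutatorElement

namespace Cfsg.Agent.S3838

/-- Let G be a finite group with Sylow p-subgroup P such that N_G(P) has a normal p-complement. Then N_G(Q) has a normal p-complement for every subgroup Q with [P, P] ≤ Q ≤ Φ(P). -/
theorem result {G : Type*} [Group G] [Finite G] {p : ℕ} [Fact p.Prime] (P : Sylow p G) (hN : Cfsg.HasNormalPComplement p ↥(Subgroup.normalizer ((P : Subgroup G) : Set G))) (Q : Subgroup G) (h1 : (commutator ↥(P : Subgroup G)).map (P : Subgroup G).subtype ≤ Q) (h2 : Q ≤ (frattini ↥(P : Subgroup G)).map (P : Subgroup G).subtype) : Cfsg.HasNormalPComplement p ↥(Subgroup.normalizer (Q : Set G)) := by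
  classical
  set M := Subgroup.normalizer (Q : Set G)
  have hQP : Q ≤ (P : Subgroup G) := h2.trans (Subgroup.map_subtype_le _)
  have hcm : ∀ a ∈ (P : Subgroup G), ∀ b ∈ (P : Subgroup G), a * b * a⁻¹ * b⁻¹ ∈ Q := fun a ha b hb => by
    refine h1 ⟨⁅(⟨a, ha⟩ : ↥(P : Subgroup G)), ⟨b, hb⟩⁆, ?_, by simp [commutatorElement_def]⟩
    exact Subgroup.commutator_mem_commutator (Subgroup.mem_top _) (Subgroup.mem_top _)
  have hPM : (P : Subgroup G) ≤ M := fun a ha => by
    refine Transfer.mem_normalizer_iff_map_conj.mpr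
      (Subgroup.eq_of_le_of_card_ge ?_ (Transfer.card_map_conj a Q).ge)
    rintro _ ⟨q, hq, rfl⟩
    show a * q * a⁻¹ ∈ Q
    have := mul_mem (hcm a ha q (hQP hq)) hq
    rwa [inv_mul_cancel_right] at this
  set PM : Sylow p ↥M := P.subtype hPM
  set QM : Subgroup ↥M := Q.subgroupOf M
  haveI : QM.Normal := Subgroup.normal_in_normalizer
  haveI : Finite (↥M ⧸ QM) := Finite.of_surjective _ (QuotientGroup.mk'_surjective QM)
  set PX := PM.mapSurjective (QuotientGroup.mk'_surjective QM)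
  have hQPM : QM ≤ (PM : Subgroup ↥M) := fun x hx => hQP hx
  have hburn : Cfsg.HasNormalPComplement p (↥M ⧸ QM) := by
    refine Transfer.hasNormalPComplement_of_normalizer_le_centralizer PX fun x hx => ?_
    obtain ⟨m, rfl⟩ := QuotientGroup.mk'_surjective QM x
    have hm : m ∈ (Subgroup.normalizer ((Subgroup.map (QuotientGroup.mk' QM) (PM : Subgroup ↥M) :
        Subgroup _) : Set (↥M ⧸ QM))).comap (QuotientGroup.mk' QM) := hx
    rw [Subgroup.comap_normalizer_eq_of_surjective _ (QuotientGroup.mk'_surjective QM), Subgroup.comap_map_eq,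
      QuotientGroup.ker_mk', sup_of_le_left hQPM] at hm
    have hmN : (m : G) ∈ Subgroup.normalizer ((P : Subgroup G) : Set G) := by
      refine Subgroup.mem_normalizer_iff.mpr fun z => ⟨fun hz => ?_, fun hz => ?_⟩
      · exact (Subgroup.mem_normalizer_iff.mp hm ⟨z, hPM hz⟩).mp hz
      · have hzM : z ∈ M := by
          have := mul_mem (mul_mem (inv_mem m.2) (hPM hz)) m.2
          simpa [mul_assoc] using this
        exact (Subgroup.mem_normalizer_iff.mp hm ⟨z, hzM⟩).mpr hz
    set N := Subgroup.normalizer ((P : Subgroup G) : Set G)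
    let PN : Sylow p ↥N := P.subtype Subgroup.le_normalizer
    have hPNn : (PN : Subgroup ↥N).Normal := Subgroup.normal_in_normalizer
    have hK : (PN : Subgroup ↥N) ⊓ Cfsg.pResidual p ↥N = ⊥ := (Transfer.inf_pResidual_eq_bot_iff PN).mpr hN
    obtain ⟨y, hy, k, hk, e⟩ := Subgroup.mem_sup_of_normal_left.mp
      (show (⟨m, hmN⟩ : ↥N) ∈ (PN : Subgroup ↥N) ⊔ Cfsg.pResidual p ↥N by
        rw [Transfer.sylow_sup_pResidual]; trivial)
    refine Subgroup.mem_centralizer_iff.mpr ?_
    intro z hz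
    obtain ⟨z, hz', rfl⟩ := (Subgroup.mem_map.mp hz :)
    rw [← map_mul, ← map_mul, QuotientGroup.mk'_apply, QuotientGroup.mk'_apply, QuotientGroup.eq]
    have hzP : (z : G) ∈ (P : Subgroup G) := hz'
    have hkz : (k : G) * z = z * k := congrArg Subtype.val
      (Subgroup.commute_of_normal_of_disjoint _ _ hPNn Transfer.pResidual_normal (disjoint_iff.mpr hK)
        ⟨z, Subgroup.le_normalizer hzP⟩ k hzP hk).symm.eq
    show ((z : G) * (m : G))⁻¹ * ((m : G) * z) ∈ Q
    have e' : (y : G) * k = m := congrArg Subtype.val e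
    rw [← e']
    have h3 := hcm (y : G) hy z hzP
    have h4 : ((z : G) * ((y : G) * k))⁻¹ * ((y : G) * k * z) =
        (k : G)⁻¹ * ((y : G)⁻¹ * ((z : G)⁻¹ * ((y : G) * z * (y : G)⁻¹ * (z : G)⁻¹) * z) * y) * k := by
      rw [mul_assoc (y : G) k z, hkz]
      group
    rw [h4]
    have hconj : ∀ g ∈ M, ∀ q ∈ Q, g⁻¹ * q * g ∈ Q := fun g hg q hq => (Subgroup.mem_normalizer_iff''.mp hg q).mp hq
    refine hconj _ ?_ _ (hconj _ (hPM hy) _ (hconj _ (hPM hzP) _ h3))
    have := mul_mem (inv_mem (hPM hy)) m.2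
    simpa [← e'] using this
  set L := (Cfsg.pResidual p (↥M ⧸ QM)).comap (QuotientGroup.mk' QM)
  haveI : L.Normal := Transfer.pResidual_normal.comap _
  have hLP : L ⊓ (PM : Subgroup ↥M) ≤
      (frattini ↥(PM : Subgroup ↥M)).map (PM : Subgroup ↥M).subtype := by
    intro x hx
    obtain ⟨hxL, hxP⟩ := Subgroup.mem_inf.mp hx
    have h3 : QuotientGroup.mk' QM x ∈ (PX : Subgroup _) ⊓ Cfsg.pResidual p (↥M ⧸ QM) :=
      ⟨Subgroup.mem_map_of_mem _ hxP, hxL⟩
    rw [(Transfer.inf_pResidual_eq_bot_iff PX).mpr hburn, Subgroup.mem_bot, QuotientGroup.mk'_apply,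
      QuotientGroup.eq_one_iff] at h3
    obtain ⟨z, hz, hzx⟩ := Subgroup.mem_map.mp (h2 h3)
    let e : ↥(P : Subgroup G) →* ↥(PM : Subgroup ↥M) :=
      { toFun := fun a => ⟨⟨a, hPM a.2⟩, a.2⟩
        map_one' := rfl
        map_mul' := fun a b => rfl }
    refine ⟨e z, frattini_le_comap_frattini_of_surjective (φ := e) (fun a => ⟨⟨a.1.1, a.2⟩, rfl⟩) hz,
      Subtype.ext hzx⟩
  have hT := Transfer.hasNormalPComplement_of_inf_le_frattini PM L hLP
  obtain ⟨K, hK, hKc, a, hKa⟩ : ∃ K : Subgroup ↥M, K.Normal ∧ (Nat.card K).Coprime p ∧ ∃ a, K.index = p ^ a := by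
    obtain ⟨j, hj⟩ := IsPGroup.iff_card.mp (Transfer.isPGroup_quotient_pResidual (p := p) (G := ↥L))
    obtain ⟨i, hi⟩ := IsPGroup.iff_card.mp (Transfer.isPGroup_quotient_pResidual (p := p) (G := ↥M ⧸ QM))
    haveI : (Cfsg.pResidual p ↥L).Characteristic := Transfer.pResidual_characteristic
    refine ⟨(Cfsg.pResidual p ↥L).map L.subtype, Core.normal_map_subtype_of_characteristic _, ?_, j + i, ?_⟩
    · rw [Core.card_map_subtype]; exact Transfer.hasNormalPComplement_iff_coprime_pResidual.mp hT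
    · rw [Subgroup.index_map_subtype, Subgroup.index_comap_of_surjective _ (QuotientGroup.mk'_surjective QM),
        Subgroup.index_eq_card, Subgroup.index_eq_card, hj, hi, pow_add]
  exact Transfer.hasNormalPComplement_iff_exists.mpr ⟨K, hK, hKc, a, hKa⟩

end Cfsg.Agent.S3838
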