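import Cfsg.Statements.S3839
import Cfsg.Agent.Transfer.Complement
import Cfsg.Agent.Fusion.Group

set_option autoImplicit false
open Cfsg

namespace Cfsg.Agent.S3839

open Subgroup in
/-- The Frobenius condition at a fully normalised `U ≤ D` with `C_D(U) ≰ U`. -/
theorem step {G : Type*} [Group G] [Finite G] {p : ℕ} [Fact p.Prime] (S : Sylow p G) {D U B : Subgroup G}
    (hD : Cfsg.IsStronglyClosed D (S : Subgroup G))
    (ih : ∀ V : Subgroup G, V ≤ D → Nat.card U < Nat.card V →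
      Cfsg.HasNormalPComplement p ↥(Subgroup.normalizer (V : Set G)))
    (hUD : U ≤ D) (hUB : U ≤ B) (hBS : B ≤ (S : Subgroup G))
    (hBN : B ≤ Subgroup.normalizer (U : Set G))
    (hcC : ¬ D ⊓ centralizer (U : Set G) ≤ U)
    (hfull : ¬ p ∣ ((S : Subgroup G) ⊓ (Subgroup.normalizer (U : Set G) ⊓ Subgroup.normalizer (B : Set G))).relIndex
      (Subgroup.normalizer (U : Set G) ⊓ Subgroup.normalizer (B : Set G)))
    {g : G} (hgU : g ∈ Subgroup.normalizer (U : Set G)) (hgB : g ∈ Subgroup.normalizer (B : Set G))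
    (hg : (orderOf g).Coprime p) : g ∈ centralizer (B : Set G) := by
  have hp : p.Prime := Fact.out
  have hbig : ∀ (A : Subgroup G) (x : G), A ≤ (S : Subgroup G) → Nat.card U < Nat.card ↥(A ⊓ D) →
      x ∈ Subgroup.normalizer (A : Set G) → (orderOf x).Coprime p → x ∈ centralizer (A : Set G) := by
    intro A x hAS hlt hx hxo
    have hnorm : Subgroup.normalizer (A : Set G) ≤ Subgroup.normalizer ((A ⊓ D : Subgroup G) : Set G) := by
      intro y hy
      rw [Cfsg.Agent.Transfer.mem_normalizer_iff_map_conj]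
      refine Subgroup.eq_of_le_of_card_ge ?_ (Cfsg.Agent.Transfer.card_map_conj _ _).ge
      rintro _ ⟨b, ⟨hbA, hbD⟩, rfl⟩
      have hb : y * b * y⁻¹ ∈ A := (mem_normalizer_iff.mp hy b).mp hbA
      exact ⟨hb, hD.2 b hbD y (hAS hb)⟩
    set H := Subgroup.normalizer ((A ⊓ D : Subgroup G) : Set G)
    have hAH : A ≤ H := Subgroup.le_normalizer.trans hnorm
    have := Cfsg.Agent.Transfer.mem_centralizer_of_hasNormalPComplement (ih _ inf_le_right hlt)
      (Q := A.subgroupOf H) (S.isPGroup'.to_le hAS).comap_subtype (g := ⟨x, hnorm hx⟩)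
      (mem_normalizer_iff.mpr fun y => mem_normalizer_iff.mp hx y)
      (by rwa [← Subgroup.orderOf_coe])
    exact mem_centralizer_iff.mpr fun a ha =>
      congrArg Subtype.val (mem_centralizer_iff.mp this ⟨a, hAH ha⟩ ha)
  by_cases hlt : Nat.card U < Nat.card ↥(B ⊓ D)
  · exact hbig B g hBS hlt hgB hg
  have hU : B ⊓ D = U :=
    (Subgroup.eq_of_le_of_card_ge (le_inf hUB hUD) (not_lt.mp hlt)).symm
  have hDn : ∀ b ∈ (S : Subgroup G), ∀ x ∈ D, b * x * b⁻¹ ∈ D := fun b hb x hx =>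
    hD.2 x hx b (mul_mem (mul_mem hb (hD.1 hx)) (inv_mem hb))
  set M := Subgroup.normalizer (U : Set G) ⊓ Subgroup.normalizer (B : Set G) with hM
  set P0 := D ⊓ centralizer (U : Set G)
  -- an element `d` of `C_D(U)` outside `B` normalising `B`
  obtain ⟨d, hd0, hdB, hdN⟩ : ∃ d ∈ P0, d ∉ B ∧ d ∈ Subgroup.normalizer (B : Set G) := by
    have hBP : B ≤ Subgroup.normalizer (P0 : Set G) := by
      intro b hb
      rw [Cfsg.Agent.Transfer.mem_normalizer_iff_map_conj]
      refine Subgroup.eq_of_le_of_card_ge ?_ (Cfsg.Agent.Transfer.card_map_conj _ _).ge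
      rintro _ ⟨x, ⟨hxD, hxC⟩, rfl⟩
      refine ⟨hDn b (hBS hb) x hxD, mem_centralizer_iff.mpr fun u hu => ?_⟩
      have h1 := mem_centralizer_iff.mp hxC _ ((mem_normalizer_iff''.mp (hBN hb) u).mp hu)
      simp only [MulEquiv.coe_toMonoidHom, MulAut.conj_apply]
      calc u * (b * x * b⁻¹) = b * ((b⁻¹ * u * b) * x) * b⁻¹ := by group
        _ = b * (x * (b⁻¹ * u * b)) * b⁻¹ := by rw [h1]
        _ = b * x * b⁻¹ * u := by group
    set Y := P0 ⊔ B
    have hYp : IsPGroup p Y := S.isPGroup'.to_le (sup_le (inf_le_left.trans hD.1) hBS)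
    haveI : Group.IsNilpotent Y := hYp.isNilpotent
    have hne : B.subgroupOf Y < ⊤ := by
      rw [lt_top_iff_ne_top, Ne, subgroupOf_eq_top]
      intro h
      exact hcC (fun x hx => hU.le ⟨h ((le_sup_left : P0 ≤ Y) hx), hx.1⟩)
    obtain ⟨⟨y, hy⟩, hyN, hyB⟩ := SetLike.exists_of_lt (Group.normalizerCondition_of_isNilpotent _ hne)
    have hyN' : y ∈ Subgroup.normalizer (B : Set G) := by
      rw [Cfsg.Agent.Transfer.mem_normalizer_iff_map_conj]
      refine Subgroup.eq_of_le_of_card_ge ?_ (Cfsg.Agent.Transfer.card_map_conj _ _).ge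
      rintro _ ⟨b, hb, rfl⟩
      exact (mem_normalizer_iff.mp hyN ⟨b, (le_sup_right : B ≤ Y) hb⟩).mp hb
    have hy' := hy
    rw [← SetLike.mem_coe, show Y = P0 ⊔ B from rfl,
      Subgroup.coe_mul_of_right_le_normalizer_left P0 B hBP] at hy'
    obtain ⟨d, hd, b, hb, rfl⟩ := Set.mem_mul.mp hy'
    refine ⟨d, hd, fun h => hyB (mul_mem h hb), ?_⟩
    simpa using mul_mem hyN' (inv_mem (Subgroup.le_normalizer hb))
  -- the elements acting trivially on `U` and on `B/U`
  let K : Subgroup G :=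
    { carrier := {m | m ∈ M ∧ (∀ u ∈ U, m * u * m⁻¹ = u) ∧ ∀ b ∈ B, b⁻¹ * (m * b * m⁻¹) ∈ U}
      one_mem' := ⟨one_mem _, by simp, by simp⟩
      mul_mem' := by
        rintro m n ⟨hm, hmU, hmB⟩ ⟨hn, hnU, hnB⟩
        refine ⟨mul_mem hm hn, fun u hu => ?_, fun b hb => ?_⟩
        · calc m * n * u * (m * n)⁻¹ = m * (n * u * n⁻¹) * m⁻¹ := by group
            _ = u := by rw [hnU u hu, hmU u hu]
        · have h1 := hnB b hb
          rw [show b⁻¹ * (m * n * b * (m * n)⁻¹) =
            (b⁻¹ * (m * b * m⁻¹)) * (m * (b⁻¹ * (n * b * n⁻¹)) * m⁻¹) by group, hmU _ h1]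
          exact mul_mem (hmB b hb) h1
      inv_mem' := by
        rintro m ⟨hm, hmU, hmB⟩
        refine ⟨inv_mem hm, fun u hu => ?_, fun b hb => ?_⟩
        · conv_lhs => rw [← hmU u hu]
          group
        · have h1 := hmB _ ((mem_normalizer_iff''.mp hm.2 b).mp hb)
          rw [show b⁻¹ * (m⁻¹ * b * m⁻¹⁻¹) =
            ((m⁻¹ * b * m)⁻¹ * (m * (m⁻¹ * b * m) * m⁻¹))⁻¹ by group]
          exact inv_mem h1 }
  have hKM : K ≤ M := fun m hm => hm.1
  have hKn : ∀ n ∈ M, ∀ m ∈ K, n * m * n⁻¹ ∈ K := by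
    rintro n hn m ⟨hm, hmU, hmB⟩
    refine ⟨mul_mem (mul_mem hn hm) (inv_mem hn), fun u hu => ?_, fun b hb => ?_⟩
    · calc n * m * n⁻¹ * u * (n * m * n⁻¹)⁻¹ = n * (m * (n⁻¹ * u * n) * m⁻¹) * n⁻¹ := by group
        _ = u := by rw [hmU _ ((mem_normalizer_iff''.mp hn.1 u).mp hu)]; group
    · have h1 := (mem_normalizer_iff.mp hn.1 _).mp (hmB _ ((mem_normalizer_iff''.mp hn.2 b).mp hb))
      convert h1 using 1
      group
  have hKc : ∀ m ∈ K, (orderOf m).Coprime p → m ∈ centralizer (B : Set G) := by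
    rintro m ⟨-, hmU, hmB⟩ hmo
    refine mem_centralizer_iff.mpr fun b hb => ?_
    set u := b⁻¹ * (m * b * m⁻¹) with hu
    have hpow : ∀ k : ℕ, m ^ k * b * (m ^ k)⁻¹ = b * u ^ k := by
      intro k
      induction k with
      | zero => simp
      | succ k ihk =>
        calc m ^ (k + 1) * b * (m ^ (k + 1))⁻¹ = m * (m ^ k * b * (m ^ k)⁻¹) * m⁻¹ := by
              rw [pow_succ' m k]; group
          _ = (m * b * m⁻¹) * (m * u ^ k * m⁻¹) := by rw [ihk]; group
          _ = b * u ^ (k + 1) := by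
              rw [hmU _ (pow_mem (hmB b hb) k), pow_succ', ← mul_assoc b, hu, mul_inv_cancel_left]
    have h1 := hpow (orderOf m)
    rw [pow_orderOf_eq_one, one_mul, inv_one, mul_one, left_eq_mul] at h1
    obtain ⟨n, hn⟩ := IsPGroup.iff_card.mp (S.isPGroup'.to_le ((hUB.trans hBS)))
    have h3 : u = 1 := orderOf_eq_one_iff.mp (Nat.eq_one_of_dvd_coprimes
      (hmo.pow_right n) (orderOf_dvd_of_pow_eq_one h1)
      (hn ▸ Subgroup.orderOf_dvd_natCard _ (hmB b hb)))
    have h4 := hpow 1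
    rw [h3, pow_one, one_pow, mul_one] at h4
    exact (mul_inv_eq_iff_eq_mul.mp h4).symm
  refine hKc g ?_ hg
  -- Frattini
  set R := (S : Subgroup G) ⊓ K
  have hR : ¬ p ∣ R.relIndex K := by
    let TM : Sylow p M := IsPGroup.toSylow (P := ((S : Subgroup G) ⊓ M).subgroupOf M)
      S.isPGroup'.to_inf_left.comap_subtype hfull
    haveI : (K.subgroupOf M).Normal := ⟨fun m hm n => hKn n n.2 m hm⟩
    have := Cfsg.Agent.Transfer.not_dvd_relIndex_of_normal TM (K.subgroupOf M)
    change ¬ p ∣ (((S : Subgroup G) ⊓ M).subgroupOf M).relIndex (K.subgroupOf M) at this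
    rw [relIndex_subgroupOf hKM, ← inf_relIndex_right, inf_assoc, inf_eq_right.mpr hKM] at this
    exact this
  have hgM : g ∈ M := ⟨hgU, hgB⟩
  obtain ⟨l, hl, hle⟩ := Cfsg.Agent.Fusion.exists_conj_le_of_sylow (inf_le_right : R ≤ K)
    S.isPGroup'.to_inf_left hR (R := R.map (MulAut.conj g).toMonoidHom)
    (by rintro _ ⟨r, hr, rfl⟩; exact hKn g hgM r hr.2) (S.isPGroup'.to_inf_left.map _)
  set A := B ⊔ R
  have hlgA : l * g ∈ Subgroup.normalizer (A : Set G) := by
    have hBl : l * g ∈ Subgroup.normalizer (B : Set G) := mul_mem (hKM hl).2 hgB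
    rw [Cfsg.Agent.Transfer.mem_normalizer_iff_map_conj] at hBl ⊢
    refine Subgroup.eq_of_le_of_card_ge ?_ (Cfsg.Agent.Transfer.card_map_conj _ _).ge
    rw [Subgroup.map_sup, hBl]
    refine sup_le_sup_left ?_ _
    rw [← Cfsg.Agent.Transfer.map_conj_mul]
    rintro _ ⟨r, hr, rfl⟩
    exact hle r hr
  have hdA : d ∈ A := by
    have hdU : d ∈ Subgroup.normalizer (U : Set G) := centralizer_le_normalizer _ hd0.2
    refine Subgroup.mem_sup_right ⟨hD.1 hd0.1, ⟨hdU, hdN⟩, fun u hu => ?_, fun b hb => ?_⟩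
    · exact mul_inv_eq_iff_eq_mul.mpr (mem_centralizer_iff.mp hd0.2 u hu).symm
    · refine hU.le ⟨B.mul_mem (B.inv_mem hb) ((mem_normalizer_iff.mp hdN b).mp hb), ?_⟩
      have h1 := hDn b⁻¹ (inv_mem (hBS hb)) d hd0.1
      rw [show b⁻¹ * (d * b * d⁻¹) = b⁻¹ * d * b⁻¹⁻¹ * d⁻¹ by group]
      exact D.mul_mem h1 (D.inv_mem hd0.1)
  have hlt' : Nat.card U < Nat.card ↥(A ⊓ D) := by
    refine lt_of_le_of_ne (Subgroup.card_le_of_le (le_inf (hUB.trans le_sup_left) hUD)) fun e => hdB ?_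
    have h1 := Subgroup.eq_of_le_of_card_ge (le_inf (hUB.trans le_sup_left) hUD) e.ge
    exact hUB (h1.ge ⟨hdA, hd0.1⟩)
  obtain ⟨a, m, hm, hlm⟩ := Nat.exists_eq_pow_mul_and_not_dvd (orderOf_pos (l * g)).ne' p hp.ne_one
  have hxo : (orderOf ((l * g) ^ p ^ a)).Coprime p := by
    refine Nat.Coprime.of_dvd_left ?_ ((hp.coprime_iff_not_dvd.mpr hm).symm)
    rw [orderOf_dvd_iff_pow_eq_one, ← pow_mul, ← hlm, pow_orderOf_eq_one]
  have hxC := hbig A ((l * g) ^ p ^ a) (sup_le hBS inf_le_left) hlt' (pow_mem hlgA _) hxo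
  have hxK : (l * g) ^ p ^ a ∈ K := by
    have h1 : ∀ b ∈ B, (l * g) ^ p ^ a * b * ((l * g) ^ p ^ a)⁻¹ = b := fun b hb =>
      mul_inv_eq_iff_eq_mul.mpr (mem_centralizer_iff.mp hxC b ((le_sup_left : B ≤ A) hb)).symm
    exact ⟨pow_mem (mul_mem (hKM hl) hgM) _, fun u hu => h1 u (hUB hu), fun b hb => by
      rw [h1 b hb, inv_mul_cancel]; exact one_mem _⟩
  have hdiv : ∀ n : ℕ, (l * g) ^ n * (g ^ n)⁻¹ ∈ K := by
    intro n
    induction n with
    | zero => simpa using one_mem K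
    | succ n ihn =>
      rw [show (l * g) ^ (n + 1) * (g ^ (n + 1))⁻¹ = l * (g * ((l * g) ^ n * (g ^ n)⁻¹) * g⁻¹) by
        rw [pow_succ' (l * g), pow_succ' g]; group]
      exact mul_mem hl (hKn g hgM _ ihn)
  have hgK : g ^ p ^ a ∈ K := by
    have := mul_mem (inv_mem (hdiv (p ^ a))) hxK
    rwa [mul_inv_rev, inv_inv, inv_mul_cancel_right] at this
  obtain ⟨k, hk⟩ := exists_pow_eq_self_of_coprime ((hg.pow_right a).symm)
  exact hk ▸ pow_mem hgK k

/-- A Frobenius normal p-complement criterion relative to a strongly closed subgroup. Let G be a finite group, S a Sylow p-subgroup and D a subgroup of S strongly closed in S with respect to G. Then G has a normal p-complement if and only if N_G(U) has a normal p-complement for every subgroup U of D with C_D(U) ≤ U. -/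
theorem result {G : Type*} [Group G] [Finite G] {p : ℕ} [Fact p.Prime] (S : Sylow p G) (D : Subgroup G) (hD : Cfsg.IsStronglyClosed D (S : Subgroup G)) : Cfsg.HasNormalPComplement p G ↔ ∀ U : Subgroup G, U ≤ D → D ⊓ Subgroup.centralizer (U : Set G) ≤ U → Cfsg.HasNormalPComplement p ↥(Subgroup.normalizer (U : Set G)) := by
  constructor
  · exact fun h U _ _ => Cfsg.Agent.Transfer.hasNormalPComplement_subgroup _ h
  intro h
  suffices key : ∀ U : Subgroup G, U ≤ D → Cfsg.HasNormalPComplement p ↥(Subgroup.normalizer (U : Set G)) by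
    have h1 := key ⊥ bot_le
    have h2 : Subgroup.normalizer ((⊥ : Subgroup G) : Set G) = ⊤ :=
      Subgroup.normalizer_eq_top_iff.mpr inferInstance
    rw [h2] at h1
    exact Cfsg.Agent.Transfer.hasNormalPComplement_equiv Subgroup.topEquiv h1
  intro U hUD
  induction hd : Nat.card D - Nat.card U using Nat.strong_induction_on generalizing U with
  | h d ih =>
  subst hd
  obtain ⟨k, hfn, -⟩ := Cfsg.Agent.Transfer.exists_fullyNormalized_conj S (hUD.trans hD.1)
  set V := U.map (MulAut.conj k).toMonoidHom with hV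
  have hVD : V ≤ D := by
    rintro _ ⟨u, hu, rfl⟩
    exact hD.2 u (hUD hu) k (hfn.1 ⟨u, hu, rfl⟩)
  have hcard : Nat.card V = Nat.card U := Cfsg.Agent.Transfer.card_map_conj _ _
  suffices hVc : Cfsg.HasNormalPComplement p ↥(Subgroup.normalizer (V : Set G)) by
    have hmap : (Subgroup.normalizer (U : Set G)).map (MulAut.conj k).toMonoidHom =
        Subgroup.normalizer (V : Set G) := (Cfsg.Agent.Transfer.normalizer_map_conj _ _).symm
    exact Cfsg.Agent.Transfer.hasNormalPComplement_equiv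
      (((Subgroup.normalizer (U : Set G)).equivMapOfInjective _ (MulAut.conj k).injective).trans
        (MulEquiv.subgroupCongr hmap)).symm hVc
  by_cases hcent : D ⊓ Subgroup.centralizer (V : Set G) ≤ V
  · exact h V hVD hcent
  set N := Subgroup.normalizer (V : Set G) with hN
  let T : Sylow p N := IsPGroup.toSylow (P := ((S : Subgroup G) ⊓ N).subgroupOf N)
    S.isPGroup'.to_inf_left.comap_subtype hfn.2
  have hTS : ∀ x : N, x ∈ (T : Subgroup N) → (x : G) ∈ (S : Subgroup G) := fun x hx => hx.1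
  refine Cfsg.Agent.Transfer.hasNormalPComplement_of_frobenius T fun Q hQ htame g hg hgo => ?_
  obtain ⟨T', hTT', -, -⟩ := id htame
  haveI : (V.subgroupOf N).Normal := Subgroup.normal_in_normalizer
  have hVT : ∀ T₁ : Sylow p N, V.subgroupOf N ≤ (T₁ : Subgroup N) := by
    intro T₁
    have h1 := T₁.is_maximal' ((S.isPGroup'.to_le hfn.1).comap_subtype.to_sup_of_normal_left'
      (H := V.subgroupOf N) T₁.isPGroup' (by rw [Subgroup.normalizer_eq_top_iff.mpr inferInstance]; exact le_top))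
      le_sup_right
    exact le_sup_left.trans h1.le
  set B := Q.map N.subtype
  have hVB : V ≤ B := fun v hv => ⟨⟨v, Subgroup.le_normalizer hv⟩,
    hTT'.ge ⟨hVT T hv, hVT T' hv⟩, rfl⟩
  have hnQ : (Subgroup.normalizer (Q : Set N)).map N.subtype = N ⊓ Subgroup.normalizer (B : Set G) := by
    ext x
    constructor
    · rintro ⟨y, hy, rfl⟩
      refine ⟨y.2, Subgroup.mem_normalizer_iff.mpr fun b => ⟨?_, ?_⟩⟩
      · rintro ⟨q, hq, rfl⟩
        exact ⟨y * q * y⁻¹, (Subgroup.mem_normalizer_iff.mp hy q).mp hq, rfl⟩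
      · rintro ⟨q, hq, e⟩
        refine ⟨y⁻¹ * q * y, (Subgroup.mem_normalizer_iff''.mp hy q).mp hq, ?_⟩
        simp only [map_mul, map_inv, e]
        simp [mul_assoc]
    · rintro ⟨hxN, hxB⟩
      refine ⟨⟨x, hxN⟩, Subgroup.mem_normalizer_iff.mpr fun q => ?_, rfl⟩
      have h2 := Subgroup.mem_normalizer_iff.mp hxB (q : G)
      rwa [show (q : G) = N.subtype q from rfl, Subgroup.mem_map_iff_mem N.subtype_injective,
        show x * N.subtype q * x⁻¹ = N.subtype (⟨x, hxN⟩ * q * ⟨x, hxN⟩⁻¹) from rfl,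
        Subgroup.mem_map_iff_mem N.subtype_injective] at h2
  have hfull := (Cfsg.Agent.Transfer.FullyNormalizedIn.of_tame htame).2
  rw [← Subgroup.relIndex_map_map_of_injective _ _ N.subtype_injective,
    Subgroup.map_inf _ _ _ N.subtype_injective, hnQ] at hfull
  have hTmap : (T : Subgroup N).map N.subtype = (S : Subgroup G) ⊓ N := by
    show (((S : Subgroup G) ⊓ N).subgroupOf N).map N.subtype = _
    rw [Subgroup.subgroupOf_map_subtype, inf_assoc, inf_idem]
  rw [hTmap, show (S : Subgroup G) ⊓ N ⊓ (N ⊓ Subgroup.normalizer (B : Set G)) =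
    (S : Subgroup G) ⊓ (N ⊓ Subgroup.normalizer (B : Set G)) by
      rw [inf_assoc, ← inf_assoc N, inf_idem]] at hfull
  have hgB : (g : G) ∈ N ⊓ Subgroup.normalizer (B : Set G) := hnQ ▸ ⟨g, hg, rfl⟩
  have hres := step S hD (fun W hW hlt => ih _ (by
      have := Subgroup.card_le_of_le hW
      omega) W hW rfl) hVD hVB (by rintro _ ⟨q, hq, rfl⟩; exact hTS q (hQ hq))
    (by rintro _ ⟨q, hq, rfl⟩; exact q.2) hcent hfull hgB.1 hgB.2 (by rwa [Subgroup.orderOf_coe])
  exact Subgroup.mem_centralizer_iff.mpr fun q hq => Subtype.ext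
    (Subgroup.mem_centralizer_iff.mp hres q ⟨q, hq, rfl⟩)

end Cfsg.Agent.S3839
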