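import Cfsg.Statements.S3857
import Cfsg.Agent.TwoGroups.PrimeGraph
import Cfsg.Agent.Core.PiNumber

set_option autoImplicit false
open Cfsg

namespace Cfsg.Agent.S3857

open Cfsg.Agent.TwoGroups Subgroup

theorem key {G : Type*} [Group G] [Finite G] [Group.IsSolvable G] {A : Set ℕ} (h : Separated A G)
    {N0 : Subgroup G} (hn0 : N0.Normal) (hne : N0 ≠ ⊥) (hA0 : SetGroup A N0)
    (hb : ∃ b ∉ A, b.Prime ∧ b ∣ Nat.card G) :
    (∃ C : Subgroup G, Cfsg.IsFrobeniusComplement C) ∨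
    (∃ (H K : Subgroup G) (_ : H.Normal), K.Normal ∧ H < K ∧
      (∃ C : Subgroup ↥K, Cfsg.IsFrobeniusComplement C ∧ Cfsg.frobeniusKernel C = (H.subgroupOf K : Set ↥K)) ∧
      (∃ C : Subgroup (G ⧸ H), Cfsg.IsFrobeniusComplement C ∧
        Cfsg.frobeniusKernel C = (K.map (QuotientGroup.mk' H) : Set (G ⧸ H)))) := by
  obtain ⟨N, hN, h0N, hNA, hmax⟩ := exists_max_normal_set hn0 hA0
  haveI := hN
  haveI : Nontrivial (G ⧸ N) := by
    obtain ⟨b, hbA, hb, hbd⟩ := hb
    refine QuotientGroup.nontrivial_iff.2 fun e => hbA (hNA b hb ?_)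
    rwa [e, card_top]
  obtain ⟨M, hM⟩ := Cfsg.Agent.Core.exists_isMinNormal (G := G ⧸ N)
  haveI := hM.1
  obtain ⟨hab, r, hr, hr', -⟩ := hM.elementaryAbelian_of_isSolvable
  haveI := Fact.mk hr
  obtain ⟨k, hk⟩ := IsPGroup.iff_card.1 (show IsPGroup r M from fun x =>
    ⟨1, Subtype.ext (by simpa using hr' _ x.2)⟩)
  let L := M.comap (QuotientGroup.mk' N)
  haveI : L.Normal := hM.1.comap _
  have hcard : Nat.card L = Nat.card N * r ^ k := by
    rw [← hk, Cfsg.Agent.Core.card_comap_mk, mul_comm]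
  have hNL : N < L := by
    refine lt_of_le_of_ne (QuotientGroup.le_comap_mk' N M) fun e => hM.2.1 ?_
    rw [eq_bot_iff_forall]
    intro q hq
    obtain ⟨g, rfl⟩ := QuotientGroup.mk'_surjective N q
    exact (QuotientGroup.eq_one_iff g).2 (e ▸ (show g ∈ L from hq))
  have hrA : r ∉ A := fun hrA => hNL.ne (hmax L inferInstance hNL.le (fun p hp hpd => by
    rw [hcard] at hpd
    rcases hp.dvd_mul.1 hpd with h1 | h1
    · exact hNA p hp h1
    · rwa [(Nat.prime_dvd_prime_iff_eq hp hr).1 (hp.dvd_of_dvd_pow h1)])).symm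
  refine frobenius_or_two h (fun e => hne (le_bot_iff.1 (h0N.trans e.le))) hNA hNL hrA ⟨k, hcard⟩ ?_
  intro x hx
  refine (QuotientGroup.eq_one_iff (x ^ r)).1 ?_
  have := hr' (QuotientGroup.mk' N x) hx
  rwa [← map_pow] at this


/-- A finite solvable group whose prime graph (prime divisors of the order, two distinct primes joined when there is an element of order their product) is disconnected is a Frobenius group or a 2-Frobenius group (it has normal subgroups H < K with K a Frobenius group with kernel H and G/H a Frobenius group with kernel K/H). -/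
theorem result {G : Type*} [Group G] [Finite G] (hsol : Group.IsSolvable G)
    (hdisc : (∃ A : Set ℕ, (∃ a ∈ A, a.Prime ∧ a ∣ Nat.card G) ∧ (∃ b ∉ A, b.Prime ∧ b ∣ Nat.card G) ∧
      ∀ a ∈ A, ∀ b ∉ A, a.Prime → b.Prime → a ∣ Nat.card G → b ∣ Nat.card G → ¬ ∃ g : G, orderOf g = a * b)) :
    (∃ C : Subgroup G, Cfsg.IsFrobeniusComplement C) ∨
    (∃ (H K : Subgroup G) (_ : H.Normal), K.Normal ∧ H < K ∧
      (∃ C : Subgroup ↥K, Cfsg.IsFrobeniusComplement C ∧ Cfsg.frobeniusKernel C = (H.subgroupOf K : Set ↥K)) ∧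
      (∃ C : Subgroup (G ⧸ H), Cfsg.IsFrobeniusComplement C ∧ Cfsg.frobeniusKernel C = (K.map (QuotientGroup.mk' H) : Set (G ⧸ H)))) := by
  obtain ⟨A, ⟨a, haA, ha, had⟩, ⟨b, hbA, hb, hbd⟩, hedge⟩ := hdisc
  haveI := hsol
  haveI : Nontrivial G := Finite.one_lt_card_iff_nontrivial.1
    (lt_of_lt_of_le ha.one_lt (Nat.le_of_dvd Nat.card_pos had))
  have h : Separated A G := separated_of_noEdge hedge
  obtain ⟨N0, hN0⟩ := Cfsg.Agent.Core.exists_isMinNormal (G := G)
  haveI := hN0.1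
  obtain ⟨-, p, hp, hp', -⟩ := hN0.elementaryAbelian_of_isSolvable
  haveI := Fact.mk hp
  have hpg : IsPGroup p N0 := fun x => ⟨1, Subtype.ext (by simpa using hp' _ x.2)⟩
  by_cases hpA : p ∈ A
  · exact key h hN0.1 hN0.2.1 (SetGroup.of_pGroup hpA hpg) ⟨b, hbA, hb, hbd⟩
  · exact key h.compl hN0.1 hN0.2.1 (SetGroup.of_pGroup hpA hpg) ⟨a, not_not.2 haA, ha, had⟩

end Cfsg.Agent.S3857
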