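import Cfsg.Statements.S3858
import Cfsg.Agent.TwoGroups.Closed
import Mathlib

set_option autoImplicit false
open Cfsg

namespace Cfsg.Agent.S3858

/-- Let G be a finite group with a normal non-abelian simple subgroup T whose centralizer is trivial (G almost simple with socle T), r a prime and R a Sylow r-subgroup of G meeting T nontrivially. Then R lies in exactly one maximal subgroup of G if and only if G has exactly one conjugacy class of maximal subgroups whose index is prime to r. -/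
theorem result {G : Type*} [Group G] [Finite G] (T : Subgroup G) [T.Normal] (hT : IsSimpleGroup T) (hna : ¬ IsMulCommutative T)
    (hC : Subgroup.centralizer (T : Set G) = ⊥) {r : ℕ} [Fact r.Prime] (R : Sylow r G) (hR0 : (R : Subgroup G) ⊓ T ≠ ⊥) :
    (∃! M : Subgroup G, IsCoatom M ∧ (R : Subgroup G) ≤ M) ↔
      ((∃ M : Subgroup G, IsCoatom M ∧ ¬ r ∣ M.index) ∧
        ∀ M₁ M₂ : Subgroup G, IsCoatom M₁ → ¬ r ∣ M₁.index → IsCoatom M₂ → ¬ r ∣ M₂.index → ∃ g : G, M₂ = M₁.map (MulAut.conj g).toMonoidHom) := by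
  have hRn : ¬ (R : Subgroup G).Normal := by
    intro hn
    haveI := hn
    rcases Subgroup.Normal.eq_bot_or_eq_top ((inferInstance : ((R : Subgroup G).subgroupOf T).Normal)) with h | h
    · rw [Subgroup.subgroupOf_eq_bot, disjoint_iff] at h
      exact hR0 h
    · rw [Subgroup.subgroupOf_eq_top] at h
      haveI : Group.IsNilpotent T := (R.2.to_le h).isNilpotent
      exact hna ⟨⟨fun a b => IsSimpleGroup.comm_iff_isSolvable.mpr inferInstance a b⟩⟩
  obtain ⟨M₃, hM₃, hN⟩ := (IsCoatomic.eq_top_or_exists_le_coatom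
    (Subgroup.normalizer ((R : Subgroup G) : Set G))).resolve_left
      (fun e => hRn (Subgroup.normalizer_eq_top_iff.mp e))
  have hR3 : (R : Subgroup G) ≤ M₃ := Subgroup.le_normalizer.trans hN
  have idx : ∀ M : Subgroup G, (R : Subgroup G) ≤ M → ¬ r ∣ M.index := fun M h hd =>
    R.not_dvd_index (hd.trans (Subgroup.index_dvd_of_le h))
  -- every subgroup of index prime to `r` contains a conjugate of `R`
  have cont : ∀ M : Subgroup G, ¬ r ∣ M.index →
      ∃ g : G, (R : Subgroup G).map (MulAut.conj g).toMonoidHom ≤ M := by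
    intro M hM
    obtain ⟨Q⟩ := (inferInstance : Nonempty (Sylow r M))
    obtain ⟨S, hS⟩ := (Q.2.map M.subtype).exists_le_sylow
    obtain ⟨g, hg⟩ := TwoGroups.sylow_conj R S
    refine ⟨g, hg ▸ ?_⟩
    have hc : ¬ r ∣ ((Q : Subgroup M).map M.subtype).index := by
      rw [Subgroup.index_map_subtype]
      exact (Nat.Prime.not_dvd_mul Fact.out) Q.not_dvd_index hM
    have h1 := Subgroup.relIndex_dvd_index_of_le hS
    obtain ⟨k, hk⟩ := IsPGroup.iff_card.mp S.2
    have h2 : ((Q : Subgroup M).map M.subtype).relIndex S ∣ r ^ k := hk ▸ Subgroup.relIndex_dvd_card _ _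
    obtain ⟨i, -, hi⟩ := (Nat.dvd_prime_pow Fact.out).mp h2
    have : i = 0 := by
      by_contra h
      exact hc ((dvd_pow_self r h).trans (hi ▸ h1))
    rw [this, pow_zero, Subgroup.relIndex_eq_one] at hi
    exact hi.trans (Subgroup.map_subtype_le _)
  constructor
  · rintro ⟨M, ⟨hM, hRM⟩, hu⟩
    have key : ∀ M₁ : Subgroup G, IsCoatom M₁ → ¬ r ∣ M₁.index →
        ∃ g : G, M₁ = M.map (MulAut.conj g).toMonoidHom := by
      intro M₁ h1 h1'
      obtain ⟨g, hg⟩ := cont M₁ h1'
      refine ⟨g, ?_⟩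
      have h2 := Subgroup.map_mono (f := (MulAut.conj g⁻¹).toMonoidHom) hg
      rw [TwoGroups.map_conj_map, inv_mul_cancel, TwoGroups.map_conj_one] at h2
      have h3 := hu _ ⟨((MulEquiv.mapSubgroup (MulAut.conj g⁻¹)).isCoatom_iff M₁).mpr h1, h2⟩
      rw [← h3, show (MulEquiv.mapSubgroup (MulAut.conj g⁻¹)) M₁ = M₁.map (MulAut.conj g⁻¹).toMonoidHom from rfl,
        TwoGroups.map_conj_map, mul_inv_cancel, TwoGroups.map_conj_one]
    refine ⟨⟨M, hM, idx M hRM⟩, fun M₁ M₂ h1 h1' h2 h2' => ?_⟩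
    obtain ⟨a, ha⟩ := key M₁ h1 h1'
    obtain ⟨b, hb⟩ := key M₂ h2 h2'
    exact ⟨b * a⁻¹, by rw [ha, hb, TwoGroups.map_conj_map, inv_mul_cancel_right]⟩
  · rintro ⟨-, hcl⟩
    refine ⟨M₃, ⟨hM₃, hR3⟩, ?_⟩
    rintro M ⟨hM, hRM⟩
    obtain ⟨g, hg⟩ := hcl M₃ M hM₃ (idx _ hR3) hM (idx _ hRM)
    -- `R` and a conjugate of it are Sylow subgroups of `M`
    have hgR : (R : Subgroup G).map (MulAut.conj g).toMonoidHom ≤ M := hg ▸ Subgroup.map_mono hR3
    have hgR' : ((g • R : Sylow r G) : Subgroup G) ≤ M := hgR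
    obtain ⟨m, hm⟩ := TwoGroups.sylow_conj ((g • R : Sylow r G).subtype hgR' : Sylow r M) (R.subtype hRM)
    have hm' : (R : Subgroup G) = (R : Subgroup G).map (MulAut.conj ((m : G) * g)).toMonoidHom := by
      have h2 := congrArg (Subgroup.map M.subtype) hm
      rw [Sylow.coe_subtype, Subgroup.map_subgroupOf_eq_of_le hRM, Subgroup.map_map] at h2
      rw [show M.subtype.comp (MulAut.conj m).toMonoidHom = (MulAut.conj (m : G)).toMonoidHom.comp M.subtype from rfl,
        ← Subgroup.map_map, Sylow.coe_subtype, Subgroup.map_subgroupOf_eq_of_le hgR'] at h2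
      rw [← TwoGroups.map_conj_map]
      exact h2
    have hmg : (m : G) * g ∈ M₃ := hN (by
      rw [Subgroup.mem_normalizer_iff]
      intro x
      constructor
      · intro hx; rw [hm']; exact TwoGroups.conj_mem_map_conj hx
      · intro hx
        rw [hm', TwoGroups.mem_map_conj] at hx
        simpa [mul_assoc] using hx)
    ext x
    constructor
    · intro hx
      have h2 : (m : G)⁻¹ * x * m ∈ M := mul_mem (mul_mem (inv_mem m.2) hx) m.2
      have h2 := TwoGroups.mem_map_conj.mp (hg.le h2)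
      have h3 := mul_mem (mul_mem hmg h2) (inv_mem hmg)
      simpa [mul_assoc] using h3
    · intro hx
      have h2 : g * (((m : G) * g)⁻¹ * x * ((m : G) * g)) * g⁻¹ ∈ M := by
        exact hg.ge (TwoGroups.conj_mem_map_conj (mul_mem (mul_mem (inv_mem hmg) hx) hmg))
      have h3 := mul_mem (mul_mem m.2 h2) (inv_mem m.2)
      simpa [mul_assoc] using h3

end Cfsg.Agent.S3858
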