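import Cfsg.Statements.S3859
import Mathlib

set_option autoImplicit false
open Cfsg

namespace Cfsg.Agent.S3859

/-- Let G be a finite group with a normal non-abelian simple subgroup T whose centralizer is trivial (G almost simple with socle T), r a prime and R a Sylow r-subgroup of G meeting T nontrivially. If R lies in exactly one maximal subgroup of G, then G/T is an r-group. -/
theorem result {G : Type*} [Group G] [Finite G] (T : Subgroup G) [T.Normal] (hT : IsSimpleGroup T) (hna : ¬ IsMulCommutative T)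
    (hC : Subgroup.centralizer (T : Set G) = ⊥) {r : ℕ} [Fact r.Prime] (R : Sylow r G) (hR0 : (R : Subgroup G) ⊓ T ≠ ⊥)
    (huniq : ∃! M : Subgroup G, IsCoatom M ∧ (R : Subgroup G) ≤ M) : IsPGroup r (G ⧸ T) := by
  obtain ⟨M, ⟨hM, hRM⟩, hMu⟩ := huniq
  have hnorm : Subgroup.normalizer (((R : Subgroup G) ⊓ T : Subgroup G) : Set G) ≠ ⊤ := by
    intro e
    rw [Subgroup.normalizer_eq_top_iff] at e
    rcases Subgroup.Normal.eq_bot_or_eq_top (e.subgroupOf T) with h | h
    · rw [Subgroup.subgroupOf_eq_bot, disjoint_iff, inf_assoc, inf_idem] at h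
      exact hR0 h
    · rw [Subgroup.subgroupOf_eq_top] at h
      have hTR : T ≤ R := h.trans inf_le_left
      have hTp : IsPGroup r T := R.2.to_le hTR
      haveI : Group.IsNilpotent T := hTp.isNilpotent
      exact hna ⟨⟨fun a b => IsSimpleGroup.comm_iff_isSolvable.mpr inferInstance a b⟩⟩
  have hNM : Subgroup.normalizer (((R : Subgroup G) ⊓ T : Subgroup G) : Set G) ≤ M := by
    obtain ⟨M', hM', hle⟩ := (IsCoatomic.eq_top_or_exists_le_coatom _).resolve_left hnorm
    have hRN : (R : Subgroup G) ≤ Subgroup.normalizer (((R : Subgroup G) ⊓ T : Subgroup G) : Set G) := by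
      apply (Subgroup.normal_subgroupOf_iff_le_normalizer inf_le_left).mp
      rw [Subgroup.inf_subgroupOf_left]
      infer_instance
    rw [← hMu M' ⟨hM', hRN.trans hle⟩]
    exact hle
  obtain ⟨Rt, hRt⟩ : ∃ Rt : Sylow r T, ((Rt : Subgroup T)).map T.subtype = (R : Subgroup G) ⊓ T := by
    have hp : IsPGroup r ((R : Subgroup G).subgroupOf T) := R.2.comap_subtype
    obtain ⟨Rt, hRt⟩ := hp.exists_le_sylow
    refine ⟨Rt, le_antisymm ?_ ?_⟩
    · rintro _ ⟨⟨x, hx⟩, hxR, rfl⟩
      refine ⟨?_, hx⟩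
      obtain ⟨Q, hQ⟩ := (Rt.2.map T.subtype).exists_le_sylow
      obtain ⟨g, hg⟩ := MulAction.exists_smul_eq G Q R
      have h1 : ((Rt : Subgroup T).map T.subtype) ≤ (Q : Subgroup G) ⊓ T :=
        le_inf hQ (Subgroup.map_subtype_le _)
      have hc : Nat.card ((Q : Subgroup G) ⊓ T : Subgroup G) = Nat.card ((R : Subgroup G) ⊓ T : Subgroup G) := by
        rw [← hg]
        have : ((g • Q : Sylow r G) : Subgroup G) ⊓ T = ((Q : Subgroup G) ⊓ T).map (MulAut.conj g).toMonoidHom := by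
          rw [Subgroup.map_inf _ _ _ (MulAut.conj g).injective]
          congr 1
          exact (Subgroup.Normal.map_conj_eq T g).symm
        rw [this, Subgroup.card_map_of_injective (MulAut.conj g).injective]
      have h2 : (R : Subgroup G) ⊓ T ≤ (Rt : Subgroup T).map T.subtype := by
        rintro y ⟨hy1, hy2⟩
        exact ⟨⟨y, hy2⟩, hRt hy1, rfl⟩
      have h3 := Subgroup.eq_of_le_of_card_ge h2 (le_of_le_of_eq (Subgroup.card_le_of_le h1) hc)
      have : x ∈ (Rt : Subgroup T).map T.subtype := ⟨⟨x, hx⟩, hxR, rfl⟩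
      rw [← h3] at this
      exact this.1
    · rintro y ⟨hy1, hy2⟩
      exact ⟨⟨y, hy2⟩, hRt hy1, rfl⟩
  have hF := Rt.normalizer_sup_eq_top
  rw [hRt] at hF
  have hTM : ¬ T ≤ M := fun h => hM.1 (eq_top_iff.mpr (hF ▸ sup_le hNM h))
  have htop : T ⊔ (R : Subgroup G) = ⊤ := by
    by_contra hne
    obtain ⟨M', hM', hle⟩ := (IsCoatomic.eq_top_or_exists_le_coatom _).resolve_left hne
    exact hTM (hMu M' ⟨hM', le_sup_right.trans hle⟩ ▸ le_sup_left.trans hle)
  intro q
  obtain ⟨g, rfl⟩ := QuotientGroup.mk_surjective q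
  have hg : g ∈ T ⊔ (R : Subgroup G) := htop ▸ Subgroup.mem_top g
  obtain ⟨t, ht, s, hs, rfl⟩ := Subgroup.mem_sup_of_normal_left.mp hg
  obtain ⟨k, hk⟩ := R.2 ⟨s, hs⟩
  refine ⟨k, ?_⟩
  have h1 : s ^ r ^ k = 1 := congrArg Subtype.val hk
  rw [QuotientGroup.mk_mul, (QuotientGroup.eq_one_iff t).mpr ht, one_mul, ← QuotientGroup.mk_pow, h1]
  rfl

end Cfsg.Agent.S3859
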