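import Cfsg.Statements.S3861
import Cfsg.Agent.Components.BaerSuzuki
import Cfsg.Agent.Core.Cores
import Cfsg.Agent.Core.SchurZassenhaus
import Cfsg.Agent.Transfer.Basic

set_option autoImplicit false
open Cfsg

namespace Cfsg.Agent.S3861

/-- A finite group G has no non-identity element of odd order that is conjugate to its inverse if and only if the Sylow 2-subgroups of G are normal. -/
theorem result {G : Type*} [Group G] [Finite G] (P : Sylow 2 G) : (∀ x : G, x ≠ 1 → Odd (orderOf x) → ¬ IsConj x x⁻¹) ↔ (P : Subgroup G).Normal := by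
  classical
  constructor
  swap
  · intro hn x hx1 hxo hc
    haveI := hn
    obtain ⟨g, hg⟩ := isConj_iff.mp hc
    obtain ⟨n, hn'⟩ := IsPGroup.iff_card.mp P.2
    have hodd : ∀ y : G ⧸ (P : Subgroup G), Odd (orderOf y) := fun y => by
      refine Odd.of_dvd_nat ?_ (orderOf_dvd_natCard y)
      rw [← Subgroup.index_eq_card]
      exact Nat.not_even_iff_odd.mp (fun he => P.not_dvd_index he.two_dvd)
    set a : G ⧸ (P : Subgroup G) := QuotientGroup.mk x
    set b : G ⧸ (P : Subgroup G) := QuotientGroup.mk g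
    have hab : b * a * b⁻¹ = a⁻¹ := by
      show ((g * x * g⁻¹ : G) : G ⧸ (P : Subgroup G)) = ((x⁻¹ : G) : G ⧸ (P : Subgroup G))
      rw [hg]
    have hb2 : Commute (b ^ 2) a := by
      have h2 : b * a⁻¹ * b⁻¹ = a := by
        have := congrArg (·⁻¹) hab
        simpa [mul_assoc] using this
      show b ^ 2 * a = a * b ^ 2
      calc b ^ 2 * a = (b * (b * a * b⁻¹) * b⁻¹) * b ^ 2 := by simp [pow_two, mul_assoc]
        _ = a * b ^ 2 := by rw [hab, h2]
    obtain ⟨k, hk⟩ := hodd b
    have hb : Commute b a := by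
      have : b = (b ^ 2) ^ (k + 1) := by
        rw [← pow_mul, show 2 * (k + 1) = orderOf b + 1 by omega, pow_succ, pow_orderOf_eq_one, one_mul]
      rw [this]; exact hb2.pow_left _
    rw [hb.eq, mul_inv_cancel_right] at hab
    have ha : a ^ 2 = 1 := by
      rw [pow_two]; nth_rewrite 2 [hab]; exact mul_inv_cancel a
    have ha1 : a = 1 := by
      obtain ⟨j, hj⟩ := hodd a
      have := Nat.le_of_dvd two_pos (orderOf_dvd_of_pow_eq_one ha)
      exact orderOf_eq_one_iff.mp (by omega)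
    obtain ⟨i, hi⟩ := P.2 ⟨x, (QuotientGroup.eq_one_iff x).mp ha1⟩
    have hi' : x ^ 2 ^ i = 1 := congrArg Subtype.val hi
    exact hx1 (orderOf_eq_one_iff.mp (Nat.eq_one_of_dvd_coprimes
      (Nat.Coprime.pow_right i (Nat.coprime_two_right.mpr hxo)) dvd_rfl (orderOf_dvd_of_pow_eq_one hi')))
  intro h
  set N := Cfsg.pCore 2 G
  have hN : IsPGroup 2 N := Core.isPGroup_pCore 2 G
  obtain ⟨n, hn⟩ := IsPGroup.iff_card.mp hN
  have hquot : ∀ a : G ⧸ N, a ≠ 1 → Odd (orderOf a) → ¬ IsConj a a⁻¹ := by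
    intro a ha hao hac
    obtain ⟨z, rfl⟩ := QuotientGroup.mk_surjective a
    set m := orderOf (QuotientGroup.mk z : G ⧸ N)
    -- a lift of odd order
    obtain ⟨x, hxo, hxz⟩ : ∃ x : G, Odd (orderOf x) ∧ (QuotientGroup.mk x : G ⧸ N) = QuotientGroup.mk z := by
      have h1 : z ^ m ∈ N := (QuotientGroup.eq_one_iff _).mp (by
        rw [QuotientGroup.mk_pow]; exact pow_orderOf_eq_one _)
      obtain ⟨i, hi⟩ := hN ⟨_, h1⟩
      have hi' : (z ^ m) ^ 2 ^ i = 1 := congrArg Subtype.val hi
      obtain ⟨c, -, hc⟩ := Nat.exists_mul_mod_eq_one_of_coprime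
        (Nat.Coprime.pow_left i (Nat.coprime_two_left.mpr hao) : Nat.Coprime (2 ^ i) m)
        (Nat.lt_of_le_of_ne (Nat.pos_of_ne_zero fun e => by
          rw [e] at hao; exact absurd hao (by decide)) (fun e => ha (orderOf_eq_one_iff.mp e.symm)))
      refine ⟨z ^ (2 ^ i * c), Odd.of_dvd_nat hao (orderOf_dvd_of_pow_eq_one ?_), ?_⟩
      · rw [← pow_mul, mul_assoc, mul_comm c m, ← mul_assoc, mul_comm (2 ^ i) m, pow_mul z _ c,
          pow_mul z m, hi', one_pow]
      · rw [QuotientGroup.mk_pow, ← pow_mod_orderOf, show 2 ^ i * c % m = 1 from hc, pow_one]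
    rw [← hxz] at hac ha
    obtain ⟨g', hg'⟩ := isConj_iff.mp hac
    obtain ⟨g, rfl⟩ := QuotientGroup.mk_surjective g'
    set y := g * x * g⁻¹
    have hy : (QuotientGroup.mk y : G ⧸ N) = (QuotientGroup.mk x)⁻¹ := hg'
    have hyo : Odd (orderOf y) := by
      show Odd (orderOf (MulAut.conj g x))
      rwa [MulEquiv.orderOf_eq]
    set H := Subgroup.zpowers x ⊔ N
    have hyH : y ∈ H := by
      have h1 : x * y ∈ N := (QuotientGroup.eq_one_iff _).mp (by
        rw [QuotientGroup.mk_mul, hy, mul_inv_cancel])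
      have h2 : y = x⁻¹ * (x * y) := by group
      rw [h2]
      exact mul_mem (Subgroup.mem_sup_left (inv_mem (Subgroup.mem_zpowers x))) (Subgroup.mem_sup_right h1)
    set NH := N.subgroupOf H
    have hNc : Nat.card NH = 2 ^ n :=
      (Nat.card_congr (Subgroup.subgroupOfEquivOfLe (le_sup_right : N ≤ H)).toEquiv).trans hn
    have hidx : NH.index = orderOf x := by
      show N.relIndex H = _
      rw [Subgroup.relIndex_sup_right, ← Subgroup.inf_relIndex_right,
        show N ⊓ Subgroup.zpowers x = ⊥ from ?_, Subgroup.relIndex_bot_left, Nat.card_zpowers]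
      rw [← Subgroup.card_eq_one]
      exact Nat.eq_one_of_dvd_coprimes (Nat.Coprime.pow_left n (Nat.coprime_two_left.mpr hxo))
        (hn ▸ Subgroup.card_dvd_of_le inf_le_left) (Nat.card_zpowers x ▸ Subgroup.card_dvd_of_le inf_le_right)
    have hsol : Group.IsSolvable NH := by
      haveI := IsPGroup.isNilpotent (p := 2) (G := ↥NH) (IsPGroup.of_card hNc)
      infer_instance
    have hz : ∀ (w : G) (hw : w ∈ H), orderOf w = orderOf x →
        Nat.card (Subgroup.zpowers (⟨w, hw⟩ : ↥H)) = NH.index := fun w hw e => by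
      rw [Nat.card_zpowers, Subgroup.orderOf_mk, e, hidx]
    obtain ⟨c, hc, hce⟩ := Core.exists_conj_eq_of_coprime (N := NH)
      (by rw [hNc, hidx]; exact Nat.Coprime.pow_left n (Nat.coprime_two_left.mpr hxo)) (Or.inl hsol)
      (hz y hyH ((MulAut.conj g).orderOf_eq x)) (hz x (Subgroup.mem_sup_left (Subgroup.mem_zpowers x)) rfl)
    have hcy : c * ⟨y, hyH⟩ * c⁻¹ ∈ Subgroup.zpowers (⟨x, Subgroup.mem_sup_left (Subgroup.mem_zpowers x)⟩ : ↥H) := by
      rw [← hce, Subgroup.mem_pointwise_smul_iff_inv_smul_mem]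
      simpa [MulAut.smul_def, mul_assoc] using Subgroup.mem_zpowers (⟨y, hyH⟩ : ↥H)
    obtain ⟨i, hi⟩ := hcy
    have hi' : x ^ i = (c : G) * y * (c : G)⁻¹ := congrArg Subtype.val hi
    refine h x (fun e => ha (by rw [e, QuotientGroup.mk_one])) hxo (isConj_iff.mpr ⟨(c : G) * g, ?_⟩)
    have hcN : (QuotientGroup.mk (c : G) : G ⧸ N) = 1 := (QuotientGroup.eq_one_iff _).mpr hc
    have h1 : x ^ i * x ∈ N := (QuotientGroup.eq_one_iff _).mp (by
      rw [hi', QuotientGroup.mk_mul, QuotientGroup.mk_mul, QuotientGroup.mk_mul, hy, QuotientGroup.mk_inv, hcN]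
      simp)
    have h2 : x ^ i * x = 1 := by
      have hmem : x ^ i * x ∈ N ⊓ Subgroup.zpowers x :=
        ⟨h1, mul_mem (zpow_mem (Subgroup.mem_zpowers x) i) (Subgroup.mem_zpowers x)⟩
      have hbot : Nat.card ↥(N ⊓ Subgroup.zpowers x) = 1 :=
        Nat.eq_one_of_dvd_coprimes (Nat.Coprime.pow_left n (Nat.coprime_two_left.mpr hxo))
          (hn ▸ Subgroup.card_dvd_of_le inf_le_left) (Nat.card_zpowers x ▸ Subgroup.card_dvd_of_le inf_le_right)
      rw [Subgroup.card_eq_one.mp hbot] at hmem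
      exact hmem
    rw [← eq_inv_of_mul_eq_one_left h2, hi']
    show (c : G) * g * x * ((c : G) * g)⁻¹ = (c : G) * (g * x * g⁻¹) * (c : G)⁻¹
    group
  have hPN : (P : Subgroup G) = N := by
    refine le_antisymm ?_ (Core.pCore_le_sylow P)
    by_contra hne
    have hdvd : 2 ∣ Nat.card (G ⧸ N) := by
      rw [← Subgroup.index_eq_card, ← Subgroup.relIndex_mul_index (Core.pCore_le_sylow P)]
      refine dvd_mul_of_dvd_left ?_ _
      obtain ⟨j, hj⟩ := IsPGroup.iff_card.mp P.2
      obtain ⟨e, -, he⟩ := (Nat.dvd_prime_pow Nat.prime_two).mp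
        (hj ▸ Subgroup.relIndex_dvd_card N (P : Subgroup G))
      rw [he]
      refine dvd_pow_self 2 fun e0 => hne (Subgroup.relIndex_eq_one.mp ?_)
      show N.relIndex _ = 1
      rw [he, e0, pow_zero]
    obtain ⟨t, ht⟩ := exists_prime_orderOf_dvd_card' 2 hdvd
    have htt : t * t = 1 := by
      have := pow_orderOf_eq_one t
      rwa [ht, pow_two] at this
    obtain ⟨R, hR, hRp, htR⟩ := Components.baer_suzuki (p := 2) (Subgroup.zpowers t) (fun g => by
      set s := g * t * g⁻¹
      have hss : s * s = 1 := by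
        show g * t * g⁻¹ * (g * t * g⁻¹) = 1
        rw [show g * t * g⁻¹ * (g * t * g⁻¹) = g * (t * t) * g⁻¹ by group, htt, mul_one, mul_inv_cancel]
      have hinv : t * (t * s) * t⁻¹ = (t * s)⁻¹ := by
        rw [mul_inv_rev, inv_eq_of_mul_eq_one_right htt, inv_eq_of_mul_eq_one_right hss, ← mul_assoc, htt,
          one_mul]
      obtain ⟨k, m, hm, hkm⟩ := Nat.exists_eq_two_pow_mul_odd (orderOf_pos (t * s)).ne'
      have hm1 : m = 1 := by
        by_contra hm1
        have ho : orderOf ((t * s) ^ 2 ^ k) = m := by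
          rw [orderOf_pow_of_dvd (by positivity) (hkm ▸ dvd_mul_right _ _), hkm, Nat.mul_div_cancel_left _ (by positivity)]
        refine hquot ((t * s) ^ 2 ^ k) (fun e => hm1 (by rw [← ho, e, orderOf_one])) (ho ▸ hm) (isConj_iff.mpr ⟨t, ?_⟩)
        rw [← conj_pow, hinv, inv_pow]
      rw [hm1, mul_one] at hkm
      have hp : IsPGroup 2 ↥(Subgroup.zpowers (t * s)) := IsPGroup.of_card (n := k) (by rw [Nat.card_zpowers, hkm])
      have hpt : IsPGroup 2 ↥(Subgroup.zpowers t) := IsPGroup.of_card (n := 1) (by rw [Nat.card_zpowers, ht, pow_one])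
      refine (hp.to_sup_of_normal_left' hpt ?_).to_le ?_
      · rw [Subgroup.zpowers_le, Transfer.mem_normalizer_iff_map_conj, MonoidHom.map_zpowers]
        show Subgroup.zpowers (t * (t * s) * t⁻¹) = _
        rw [hinv, Subgroup.zpowers_inv]
      · rw [MonoidHom.map_zpowers]
        refine sup_le le_sup_right (Subgroup.zpowers_le.mpr ?_)
        show s ∈ _
        have h' : s = t * (t * s) := by rw [← mul_assoc, htt, one_mul]
        have := mul_mem (Subgroup.mem_sup_right (S := Subgroup.zpowers (t * s)) (Subgroup.mem_zpowers t))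
          (Subgroup.mem_sup_left (T := Subgroup.zpowers t) (Subgroup.mem_zpowers (t * s)))
        rwa [← h'] at this)
    have h1 : R = ⊥ := le_bot_iff.mp (Core.pCore_quotient_pCore 2 G ▸ Core.le_pCore hR hRp)
    rw [h1] at htR
    have := Subgroup.mem_bot.mp (htR (Subgroup.mem_zpowers t))
    rw [this, orderOf_one] at ht
    omega
  rw [hPN]
  infer_instance

end Cfsg.Agent.S3861
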