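import Cfsg.Statements.S3862
import Cfsg.Agent.Transfer.Complement
import Cfsg.Agent.FGS3.PGroupFrattini

set_option autoImplicit false
open Cfsg
open scoped commutatorElement

namespace Cfsg.Agent.S3862

/-- If every 2-element of the finite group G that is conjugate to its inverse lies in the centre of G, then G has a normal 2-complement. -/
theorem result {G : Type*} [Group G] [Finite G] (h : ∀ x : G, (∃ j : ℕ, orderOf x = 2 ^ j) → IsConj x x⁻¹ → x ∈ Subgroup.center G) : Cfsg.HasNormalPComplement 2 G := by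
  classical
  obtain ⟨P⟩ : Nonempty (Sylow 2 G) := Sylow.nonempty
  refine Transfer.hasNormalPComplement_of_frobenius P fun Q hQ _ g hg hgo => ?_
  have hodd : Odd (orderOf g) := Nat.coprime_two_right.mp hgo
  suffices key : ∀ n, ∀ Q : Subgroup G, Nat.card Q = n → IsPGroup 2 Q → g ∈ Subgroup.normalizer (Q : Set G) →
      g ∈ Subgroup.centralizer (Q : Set G) from key _ Q rfl (P.2.to_le hQ) hg
  intro n
  induction n using Nat.strong_induction_on with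
  | _ n ih =>
  intro Q hn hQp hgQ
  by_contra hgC
  have hinv : ∀ a ∈ Q, g * a * g⁻¹ ∈ Q := fun a ha => (Subgroup.mem_normalizer_iff.mp hgQ a).mp ha
  set C := Q ⊓ Subgroup.centralizer ({g} : Set G)
  have hCiff : ∀ a, a ∈ C ↔ a ∈ Q ∧ g * a * g⁻¹ = a := by
    intro a
    rw [Subgroup.mem_inf, Subgroup.mem_centralizer_singleton_iff, mul_inv_eq_iff_eq_mul]
    exact and_congr_right fun _ => eq_comm
  -- proper invariant subgroups are centralised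
  have hsmall : ∀ R : Subgroup G, R ≤ Q → R ≠ Q → (∀ a ∈ R, g * a * g⁻¹ ∈ R) → R ≤ C := by
    intro R hRQ hne hR a ha
    refine (hCiff a).mpr ⟨hRQ ha, ?_⟩
    have hlt : Nat.card R < n := hn ▸ lt_of_le_of_ne (Subgroup.card_le_of_le hRQ)
      (fun e => hne (Subgroup.eq_of_le_of_card_ge hRQ e.ge))
    have hgR : g ∈ Subgroup.normalizer (R : Set G) := Transfer.mem_normalizer_iff_map_conj.mpr
      (Subgroup.eq_of_le_of_card_ge (by rintro _ ⟨b, hb, rfl⟩; exact hR b hb) (Transfer.card_map_conj g R).ge)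
    have h1 := Subgroup.mem_centralizer_iff.mp (ih _ hlt R rfl (hQp.to_le hRQ) hgR) a ha
    rw [← h1, mul_inv_cancel_right]
  -- squares and commutators are centralised
  set Φ := (frattini ↥Q).map Q.subtype
  have hΦQ : Φ ≤ Q := Subgroup.map_subtype_le _
  haveI : Nontrivial ↥Q := (Subgroup.nontrivial_iff_ne_bot Q).mpr fun e => hgC (by
    rw [e]; simp [Subgroup.mem_centralizer_iff])
  have hΦne : Φ ≠ Q := fun e => by
    have h2 : frattini ↥Q = ⊤ := by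
      apply Subgroup.map_injective Q.subtype_injective
      rw [← MonoidHom.range_eq_map, Subgroup.range_subtype]
      exact e
    exact bot_ne_top (frattini_nongenerating (K := (⊥ : Subgroup ↥Q)) (by rw [bot_sup_eq, h2]))
  have hΦC : Φ ≤ C := hsmall Φ hΦQ hΦne (by
    rintro _ ⟨a, ha, rfl⟩
    let c : ↥Q →* ↥Q :=
      { toFun := fun b => ⟨g * b * g⁻¹, hinv b b.2⟩
        map_one' := Subtype.ext (by simp)
        map_mul' := fun b b' => Subtype.ext (by simp [mul_assoc]) }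
    have hc : Function.Surjective c := Finite.surjective_of_injective fun b b' e => Subtype.ext (by
      have h' : g * (b : G) * g⁻¹ = g * (b' : G) * g⁻¹ := congrArg Subtype.val e
      simpa using h')
    exact ⟨c a, frattini_le_comap_frattini_of_surjective hc ha, rfl⟩)
  have hsq : ∀ y ∈ Q, y ^ 2 ∈ C := fun y hy =>
    hΦC ⟨_, FGS3.pow_mem_frattini hQp ⟨y, hy⟩, rfl⟩
  have hcom : ∀ a ∈ Q, ∀ b ∈ Q, a * b * a⁻¹ * b⁻¹ ∈ C := fun a ha b hb =>
    hΦC ⟨⁅(⟨a, ha⟩ : ↥Q), ⟨b, hb⟩⁆, FGS3.commutator_le_frattini hQp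
      (Subgroup.commutator_mem_commutator (Subgroup.mem_top _) (Subgroup.mem_top _)),
      by simp [commutatorElement_def]⟩
  obtain ⟨x, hxQ, hxC⟩ : ∃ x ∈ Q, x ∉ C := by
    by_contra hcon
    push Not at hcon
    exact hgC (Subgroup.mem_centralizer_iff.mpr fun a ha =>
      (mul_inv_eq_iff_eq_mul.mp ((hCiff a).mp (hcon a ha)).2).symm)
  -- `g` does not centralise `Q / C`
  have hmove : ∀ y ∈ Q, y⁻¹ * (g * y * g⁻¹) ∈ C → y ∈ C := by
    intro y hy hc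
    refine (hCiff y).mpr ⟨hy, ?_⟩
    obtain ⟨-, hc'⟩ := (hCiff _).mp hc
    set c := y⁻¹ * (g * y * g⁻¹) with hcdef
    have hpow : ∀ k : ℕ, g ^ k * y * (g ^ k)⁻¹ = y * c ^ k := by
      intro k
      induction k with
      | zero => simp
      | succ k ihk =>
        rw [pow_succ', mul_inv_rev, show g * g ^ k * y * ((g ^ k)⁻¹ * g⁻¹) = g * (g ^ k * y * (g ^ k)⁻¹) * g⁻¹ by group,
          ihk, show g * (y * c ^ k) * g⁻¹ = (g * y * g⁻¹) * (g * c ^ k * g⁻¹) by group, ← conj_pow, hc',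
          pow_succ', ← mul_assoc, show g * y * g⁻¹ = y * c by rw [hcdef]; group]
    have h1 := hpow (orderOf g)
    rw [pow_orderOf_eq_one] at h1
    have hc1 : c ^ orderOf g = 1 := by simpa using h1.symm
    obtain ⟨i, hi⟩ := hQp ⟨c, ((hCiff c).mp hc).1⟩
    have hi' : c ^ 2 ^ i = 1 := congrArg Subtype.val hi
    have hc0 : c = 1 := orderOf_eq_one_iff.mp (Nat.eq_one_of_dvd_coprimes
      (Nat.Coprime.pow_right i (Nat.coprime_two_right.mpr hodd)) (orderOf_dvd_of_pow_eq_one hc1) (orderOf_dvd_of_pow_eq_one hi'))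
    rw [hcdef, inv_mul_eq_one] at hc0
    exact hc0.symm
  have hkill : ∀ K : Subgroup G, K ≤ Q → (∀ y ∈ Q, y⁻¹ * (g * y * g⁻¹) ∈ K) → K = Q := by
    intro K hKQ hK
    by_contra hne
    have h1 := hsmall K hKQ hne fun a ha => by
      have := K.mul_mem ha (hK a (hKQ ha))
      rwa [mul_inv_cancel_left] at this
    exact hxC (hmove x hxQ (h1 (hK x hxQ)))
  have hcent : ∀ c ∈ C, ∀ y ∈ Q, Commute y c := by
    intro c hc y hy
    have h := hkill (Q ⊓ Subgroup.centralizer (C : Set G)) inf_le_left fun y hy => by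
      refine Subgroup.mem_inf.mpr ⟨Q.mul_mem (Q.inv_mem hy) (hinv y hy), Subgroup.mem_centralizer_iff.mpr fun c hc => ?_⟩
      obtain ⟨hcQ, hgc⟩ := (hCiff c).mp hc
      obtain ⟨-, hfix⟩ := (hCiff _).mp (hcom y hy c hcQ)
      have h2 : (g * y * g⁻¹) * c * (g * y * g⁻¹)⁻¹ = y * c * y⁻¹ := by
        refine mul_right_cancel (b := c⁻¹) ?_
        calc (g * y * g⁻¹) * c * (g * y * g⁻¹)⁻¹ * c⁻¹
            = (g * y * g⁻¹) * (g * c * g⁻¹) * (g * y * g⁻¹)⁻¹ * (g * c * g⁻¹)⁻¹ := by rw [hgc]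
          _ = g * (y * c * y⁻¹ * c⁻¹) * g⁻¹ := by group
          _ = y * c * y⁻¹ * c⁻¹ := hfix
      calc c * (y⁻¹ * (g * y * g⁻¹)) = y⁻¹ * (y * c * y⁻¹) * (g * y * g⁻¹) := by group
        _ = y⁻¹ * ((g * y * g⁻¹) * c * (g * y * g⁻¹)⁻¹) * (g * y * g⁻¹) := by rw [h2]
        _ = y⁻¹ * (g * y * g⁻¹) * c := by group
    exact (Subgroup.mem_centralizer_iff.mp (h.ge hy).2 c hc).symm
  -- `D = [x, Q]`
  have hmulc : ∀ z ∈ Q, ∀ a ∈ Q, ∀ b ∈ Q,
      z * (a * b) * z⁻¹ * (a * b)⁻¹ = (z * a * z⁻¹ * a⁻¹) * (z * b * z⁻¹ * b⁻¹) := by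
    intro z hz a ha b hb
    calc z * (a * b) * z⁻¹ * (a * b)⁻¹ = (z * a * z⁻¹ * a⁻¹) * (a * (z * b * z⁻¹ * b⁻¹) * a⁻¹) := by group
      _ = _ := by rw [(hcent _ (hcom z hz b hb) a ha).eq, mul_inv_cancel_right]
  let φ : ↥Q →* G := MonoidHom.mk' (fun y => x * y * x⁻¹ * (y : G)⁻¹) fun a b => hmulc x hxQ a a.2 b b.2
  set D := φ.range
  have hDC : D ≤ C := by rintro _ ⟨y, rfl⟩; exact hcom x hxQ y y.2
  let R : Subgroup G :=
    { carrier := {z | z ∈ Q ∧ ∀ y ∈ Q, z * y * z⁻¹ * y⁻¹ ∈ D}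
      one_mem' := ⟨one_mem Q, fun y _ => by simp⟩
      mul_mem' := fun {a b} ⟨ha, ha'⟩ ⟨hb, hb'⟩ => ⟨mul_mem ha hb, fun y hy => by
        rw [show a * b * y * (a * b)⁻¹ * y⁻¹ = a * (b * y * b⁻¹ * y⁻¹) * a⁻¹ * (a * y * a⁻¹ * y⁻¹) by group,
          (hcent _ (hcom b hb y hy) a ha).eq, mul_inv_cancel_right]
        exact mul_mem (hb' y hy) (ha' y hy)⟩
      inv_mem' := fun {a} ⟨ha, ha'⟩ => ⟨inv_mem ha, fun y hy => by
        have h1 := inv_mem (ha' (a⁻¹ * y * a) (mul_mem (mul_mem (inv_mem ha) hy) ha))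
        rwa [show (a * (a⁻¹ * y * a) * a⁻¹ * (a⁻¹ * y * a)⁻¹)⁻¹ = a⁻¹ * y * a⁻¹⁻¹ * y⁻¹ by group] at h1⟩ }
  have hRQ : R = Q := by
    by_contra hne
    have hRg : ∀ z ∈ R, g * z * g⁻¹ ∈ R := by
      intro z hz
      refine ⟨hinv z hz.1, fun y hy => ?_⟩
      have hy' : g⁻¹ * y * g ∈ Q := (Subgroup.mem_normalizer_iff''.mp hgQ y).mp hy
      have h1 := hz.2 _ hy'
      rw [← ((hCiff _).mp (hDC h1)).2] at h1
      convert h1 using 1
      group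
    exact hxC (hsmall R (fun z hz => hz.1) hne hRg ⟨hxQ, fun y hy => ⟨⟨y, hy⟩, rfl⟩⟩)
  have hR : ∀ a ∈ Q, ∀ b ∈ Q, a * b * a⁻¹ * b⁻¹ ∈ D := fun a ha b hb => (hRQ.ge ha).2 b hb
  let K : Subgroup G :=
    { carrier := {z | z ∈ Q ∧ z ^ 2 ∈ D}
      one_mem' := ⟨one_mem Q, by simp⟩
      mul_mem' := fun {a b} ⟨ha, ha'⟩ ⟨hb, hb'⟩ => ⟨mul_mem ha hb, by
        rw [show (a * b) ^ 2 = a * (b * a * b⁻¹ * a⁻¹) * (a * b ^ 2) by rw [pow_two, pow_two]; group,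
          (hcent _ (hcom b hb a ha) a ha).eq,
          show b * a * b⁻¹ * a⁻¹ * a * (a * b ^ 2) = b * a * b⁻¹ * a⁻¹ * (a ^ 2 * b ^ 2) by rw [pow_two a]; group]
        exact mul_mem (hR b hb a ha) (mul_mem ha' hb')⟩
      inv_mem' := fun {a} ⟨ha, ha'⟩ => ⟨inv_mem ha, by rw [inv_pow]; exact inv_mem ha'⟩ }
  have hKQ : K = Q := hkill K (fun z hz => hz.1) fun y hy => by
    have hy' := hinv y hy
    refine ⟨mul_mem (inv_mem hy) hy', ?_⟩
    have hfix := ((hCiff _).mp (hsq y hy)).2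
    rw [pow_two, show y⁻¹ * (g * y * g⁻¹) * (y⁻¹ * (g * y * g⁻¹)) =
        (y⁻¹ * ((g * y * g⁻¹) * y⁻¹ * (g * y * g⁻¹)⁻¹ * y⁻¹⁻¹) * y⁻¹) * (g * y * g⁻¹) ^ 2 by rw [pow_two]; group,
      conj_pow, hfix, pow_two]
    have h3 := hR _ hy' _ (inv_mem hy)
    rw [← (hcent _ (hDC h3) _ (inv_mem hy)).symm.eq]
    rw [show ((g * y * g⁻¹) * y⁻¹ * (g * y * g⁻¹)⁻¹ * y⁻¹⁻¹) * y⁻¹ * y⁻¹ * (y * y) =
      (g * y * g⁻¹) * y⁻¹ * (g * y * g⁻¹)⁻¹ * y⁻¹⁻¹ by group]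
    exact h3
  obtain ⟨y, hy⟩ := MonoidHom.mem_range.mp (hKQ.ge hxQ).2
  have hreal : IsConj x x⁻¹ := isConj_iff.mpr ⟨(y : G), by
    have e1 : x * y * x⁻¹ * (y : G)⁻¹ = x * x := hy.trans (pow_two x)
    have e2 : (y : G) * x⁻¹ * (y : G)⁻¹ = x := mul_left_cancel (a := x) (by rw [← e1]; group)
    nth_rewrite 2 [← e2]
    group⟩
  obtain ⟨j, hj⟩ : ∃ j, orderOf x = 2 ^ j := by
    obtain ⟨j, hj⟩ := IsPGroup.iff_orderOf.mp hQp ⟨x, hxQ⟩
    exact ⟨j, by rwa [Subgroup.orderOf_mk] at hj⟩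
  have hcenx : x ∈ Subgroup.center G := h x ⟨j, hj⟩ hreal
  exact hxC ((hCiff x).mpr ⟨hxQ, by rw [Subgroup.mem_center_iff.mp hcenx g, mul_inv_cancel_right]⟩)

end Cfsg.Agent.S3862
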