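import Cfsg.Statements.S3863
import Mathlib

set_option autoImplicit false
open Cfsg

namespace Cfsg.Agent.S3863

/-- Let x be an element of the finite group G that is conjugate to its inverse. Then some 2-element conjugates x to its inverse; if the conjugacy class of x has odd size then x ^ 2 = 1; and x lies in, and is conjugate to its inverse inside, every normal subgroup of odd index. -/
theorem result {G : Type*} [Group G] [Finite G] (x : G) (hx : IsConj x x⁻¹) : (∃ t : G, (∃ j : ℕ, orderOf t = 2 ^ j) ∧ t * x * t⁻¹ = x⁻¹) ∧ (Odd (Subgroup.centralizer ({x} : Set G)).index → x ^ 2 = 1) ∧ ∀ (N : Subgroup G) [N.Normal], Odd N.index → ∃ hxN : x ∈ N, IsConj (⟨x, hxN⟩ : N) (⟨x, hxN⟩ : N)⁻¹ := by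
  obtain ⟨t, ht⟩ := isConj_iff.mp hx
  have hsq : ∀ n : ℕ, (Odd n → t ^ n * x * (t ^ n)⁻¹ = x⁻¹) ∧ (Even n → t ^ n * x * (t ^ n)⁻¹ = x) := by
    intro n
    induction n with
    | zero => exact ⟨fun h => absurd h (by simp), fun _ => by simp⟩
    | succ n ih =>
      refine ⟨fun h => ?_, fun h => ?_⟩
      · have := ih.2 (by simpa [parity_simps] using h)
        rw [pow_succ', show t * t ^ n * x * (t * t ^ n)⁻¹ = t * (t ^ n * x * (t ^ n)⁻¹) * t⁻¹ by group]
        rw [this, ht]
      · have := ih.1 (by simpa [parity_simps] using h)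
        rw [pow_succ', show t * t ^ n * x * (t * t ^ n)⁻¹ = t * (t ^ n * x * (t ^ n)⁻¹) * t⁻¹ by group]
        rw [this, ← conj_inv, ht, inv_inv]
  refine ⟨?_, ?_, ?_⟩
  · obtain ⟨j, d, hd, hjd⟩ := Nat.exists_eq_two_pow_mul_odd (orderOf_pos t).ne'
    refine ⟨t ^ d, ⟨j, ?_⟩, (hsq d).1 hd⟩
    rw [orderOf_pow' t hd.pos.ne', hjd, Nat.gcd_mul_left_left, Nat.mul_div_cancel _ hd.pos]
  · intro hodd
    set C := Subgroup.centralizer ({x} : Set G) with hCdef
    have hnorm : C.relIndex (Subgroup.normalizer (Subgroup.zpowers x : Set G)) ∣ C.index := by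
      apply Subgroup.relIndex_dvd_index_of_le
      intro c hc
      apply Subgroup.centralizer_le_normalizer
      rw [Subgroup.mem_centralizer_iff]
      intro z hz
      obtain ⟨n, rfl⟩ := Subgroup.mem_zpowers_iff.mp hz
      exact ((Commute.symm (Subgroup.mem_centralizer_singleton_iff.mp hc)).zpow_left n).eq
    -- a two-element inverting `x` lies in the centralizer
    by_contra hx2
    set N := C ⊔ Subgroup.zpowers t with hNdef
    have htC : t ∉ C := fun h => hx2 (by
      have e := Subgroup.mem_centralizer_singleton_iff.mp h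
      rw [e, mul_inv_cancel_right] at ht
      rw [pow_two]; nth_rw 2 [ht]; exact mul_inv_cancel x)
    have ht2 : t * t ∈ C := by
      have := (hsq 2).2 even_two
      rw [Subgroup.mem_centralizer_singleton_iff, ← mul_inv_eq_iff_eq_mul, ← pow_two]
      exact this
    have hCn : Subgroup.zpowers t ≤ Subgroup.normalizer (C : Set G) := by
      rw [Subgroup.zpowers_le, Subgroup.mem_normalizer_iff]
      intro c
      rw [Subgroup.mem_centralizer_singleton_iff, Subgroup.mem_centralizer_singleton_iff]
      have key : t * c * t⁻¹ * x⁻¹ = t * (c * x) * t⁻¹ := by rw [← ht]; group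
      have key2 : x⁻¹ * (t * c * t⁻¹) = t * (x * c) * t⁻¹ := by rw [← ht]; group
      constructor
      · intro h
        have : Commute (t * c * t⁻¹) x⁻¹ := by
          show t * c * t⁻¹ * x⁻¹ = x⁻¹ * (t * c * t⁻¹)
          rw [key, key2, h]
        exact Commute.inv_right_iff.mp this
      · intro h
        have := (Commute.inv_right_iff.mpr h).eq
        rw [key, key2] at this
        simpa using this
    have hev : Even (C.relIndex N) := by
      -- `t` induces an element of order two of `N / C`
      have hCn' : (C.subgroupOf N).Normal := by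
        rw [hNdef, sup_comm]
        exact Subgroup.normal_subgroupOf_of_le_normalizer (sup_le hCn Subgroup.le_normalizer)
      let q : N ⧸ C.subgroupOf N := QuotientGroup.mk (⟨t, le_sup_right (a := C) (Subgroup.mem_zpowers t)⟩ : N)
      have hq : orderOf q = 2 := by
        rw [orderOf_eq_prime_iff]
        refine ⟨?_, fun e => htC ?_⟩
        · rw [pow_two, ← QuotientGroup.mk_mul, QuotientGroup.eq_one_iff, Subgroup.mem_subgroupOf]
          exact ht2
        · rw [QuotientGroup.eq_one_iff, Subgroup.mem_subgroupOf] at e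
          exact e
      rw [even_iff_two_dvd, ← hq, Subgroup.relIndex, Subgroup.index]
      exact orderOf_dvd_natCard q
    have : C.relIndex N ∣ C.index := Subgroup.relIndex_dvd_index_of_le le_sup_left
    exact Nat.not_even_iff_odd.mpr (hodd.of_dvd_nat this) hev
  · intro N hN hNodd
    have hmem : ∀ g : G, g ^ N.index ∈ N := fun g => Subgroup.pow_index_mem N g
    have hxN : x ∈ N := by
      have h1 : (QuotientGroup.mk' N t) * QuotientGroup.mk' N x * (QuotientGroup.mk' N t)⁻¹ =
          (QuotientGroup.mk' N x)⁻¹ := by rw [← map_inv, ← map_mul, ← map_mul, ht, map_inv]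
      have h2 : (QuotientGroup.mk' N (t ^ N.index)) = 1 := (QuotientGroup.eq_one_iff _).mpr (hmem t)
      have h3 := congrArg (QuotientGroup.mk' N) ((hsq N.index).1 hNodd)
      rw [map_mul, map_mul, map_inv, h2, one_mul, inv_one, mul_one, map_inv] at h3
      have h4 : (QuotientGroup.mk' N x) ^ 2 = 1 := by rw [pow_two]; nth_rw 2 [h3]; exact mul_inv_cancel _
      have h5 : (QuotientGroup.mk' N x) ^ N.index = 1 := by
        rw [← map_pow]; exact (QuotientGroup.eq_one_iff _).mpr (hmem x)
      obtain ⟨r, hr⟩ := hNodd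
      rw [hr, pow_succ, pow_mul, h4, one_pow, one_mul] at h5
      exact (QuotientGroup.eq_one_iff _).mp h5
    refine ⟨hxN, isConj_iff.mpr ⟨⟨t ^ N.index, hmem t⟩, ?_⟩⟩
    exact Subtype.ext (by simpa using (hsq N.index).1 hNodd)

end Cfsg.Agent.S3863
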