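import Cfsg.Statements.S3864
import Cfsg.Agent.TwoGroups.DihedralFusion

set_option autoImplicit false
open Cfsg

namespace Cfsg.Agent.S3864

/-- Let G be a finite group whose Sylow 2-subgroups are dihedral of order 2 ^ n with n ≥ 3, and count the conjugacy classes of involutions of G. Then exactly one of the following holds: there is one class of involutions and no normal subgroup of index 2; there are two classes of involutions, a normal subgroup of index 2 and none of index 4; there are three classes of involutions and G has a normal 2-complement. -/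
theorem result {G : Type*} [Group G] [Finite G] (P : Sylow 2 G) (n : ℕ) (hn : 3 ≤ n) (hdih : Nonempty (↥(P : Subgroup G) ≃* DihedralGroup (2 ^ (n - 1)))) : (Nat.card {C : ConjClasses G // ∃ g : G, ConjClasses.mk g = C ∧ orderOf g = 2} = 1 ∧ ∀ N : Subgroup G, N.Normal → N.index ≠ 2) ∨ (Nat.card {C : ConjClasses G // ∃ g : G, ConjClasses.mk g = C ∧ orderOf g = 2} = 2 ∧ (∃ N : Subgroup G, N.Normal ∧ N.index = 2) ∧ ∀ N : Subgroup G, N.Normal → N.index ≠ 4) ∨ (Nat.card {C : ConjClasses G // ∃ g : G, ConjClasses.mk g = C ∧ orderOf g = 2} = 3 ∧ Cfsg.HasNormalPComplement 2 G) := by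
  classical
  obtain ⟨eS⟩ := hdih
  have h2 : 2 ≤ 2 ^ (n - 1) := le_trans (by norm_num) (Nat.pow_le_pow_right two_pos (show 1 ≤ n - 1 by omega))
  obtain ⟨r, s, k, h, hmk⟩ := TwoGroups.exists_dihIn P _ h2 eS
  have hk : 2 ≤ k := by
    have := Nat.pow_right_injective (le_refl 2) hmk
    omega
  set z := r ^ ((2 : ℤ) ^ (k - 1))
  set t₀ := r ^ (0 : ℤ) * s
  set t₁ := r ^ (1 : ℤ) * s
  have oz : orderOf z = 2 := h.orderOf_z
  have o0 : orderOf t₀ = 2 := h.orderOf_refl 0
  have o1 : orderOf t₁ = 2 := h.orderOf_refl 1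
  let K := {C : ConjClasses G // ∃ g : G, ConjClasses.mk g = C ∧ orderOf g = 2}
  let cz : K := ⟨ConjClasses.mk z, z, rfl, oz⟩
  let c0 : K := ⟨ConjClasses.mk t₀, t₀, rfl, o0⟩
  let c1 : K := ⟨ConjClasses.mk t₁, t₁, rfl, o1⟩
  have hall : ∀ C : K, C = cz ∨ C = c0 ∨ C = c1 := by
    rintro ⟨C, g, rfl, hg⟩
    rcases h.isConj_rep hg with e | e | e
    · exact Or.inl (Subtype.ext (ConjClasses.mk_eq_mk_iff_isConj.mpr e))
    · exact Or.inr (Or.inl (Subtype.ext (ConjClasses.mk_eq_mk_iff_isConj.mpr e)))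
    · exact Or.inr (Or.inr (Subtype.ext (ConjClasses.mk_eq_mk_iff_isConj.mpr e)))
  have heq : ∀ {a b : G} (ha : orderOf a = 2) (hb : orderOf b = 2),
      (⟨ConjClasses.mk a, a, rfl, ha⟩ : K) = ⟨ConjClasses.mk b, b, rfl, hb⟩ ↔ IsConj a b := fun ha hb => by
    rw [Subtype.mk.injEq, ConjClasses.mk_eq_mk_iff_isConj]
  have ext_all : ∀ U : Subgroup G, U ≤ P → IsKleinFour U → ∃ i : ℤ, (i = 0 ∨ i = 1) ∧
      (TwoGroups.Exotic U ↔ TwoGroups.Exotic (h.four i)) := by
    intro U hUS hU
    obtain ⟨j, rfl⟩ := h.eq_four hU hUS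
    rw [h.exotic_four_iff]
    split
    · exact ⟨0, Or.inl rfl, Iff.rfl⟩
    · exact ⟨1, Or.inr rfl, Iff.rfl⟩
  have two_case : ∀ (i j : ℤ), (i = 0 ∧ j = 1 ∨ i = 1 ∧ j = 0) → ¬ TwoGroups.Exotic (h.four i) →
      TwoGroups.Exotic (h.four j) → Nat.card K = 2 ∧ (∃ N : Subgroup G, N.Normal ∧ N.index = 2) ∧
        ∀ N : Subgroup G, N.Normal → N.index ≠ 4 := by
    intro i j hij hi hj
    have hzj : IsConj z (r ^ j * s) := h.isConj_of_exotic hj (h.z_mem_four j) h.z_ne (h.t_mem_four j)
      (fun e => h.refl_notMem j (e ▸ one_mem _))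
    let ci : K := ⟨ConjClasses.mk (r ^ i * s), _, rfl, h.orderOf_refl i⟩
    have hcov : ∀ C : K, C = cz ∨ C = ci := by
      intro C
      rcases hall C with e | e | e <;> rcases hij with ⟨rfl, rfl⟩ | ⟨rfl, rfl⟩
      all_goals first
        | exact Or.inl e
        | exact Or.inr e
        | exact Or.inl (e.trans (Subtype.ext (ConjClasses.mk_eq_mk_iff_isConj.mpr hzj.symm)))
    have hne : cz ≠ ci := fun e => h.not_isConj hi (ConjClasses.mk_eq_mk_iff_isConj.mp (congrArg Subtype.val e))
    refine ⟨?_, h.exists_normal_index_two hi, fun N hN h4 => ?_⟩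
    · rw [Nat.card_eq_two_iff]
      exact ⟨cz, ci, hne, Set.eq_univ_of_forall fun C => (hcov C).imp id id⟩
    · haveI := hN
      have hcomm : ∀ a b : G, a * b * a⁻¹ * b⁻¹ ∈ N := by
        intro a b
        have hc : Nat.card (G ⧸ N) = 2 ^ 2 := by rw [← Subgroup.index_eq_card, h4]; norm_num
        haveI : Fact (Nat.Prime 2) := ⟨Nat.prime_two⟩
        have h1 := IsPGroup.commGroupOfCardEqPrimeSq hc
        apply (QuotientGroup.eq_one_iff _).mp
        rw [QuotientGroup.mk_mul, QuotientGroup.mk_mul, QuotientGroup.mk_mul, QuotientGroup.mk_inv, QuotientGroup.mk_inv,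
          (IsPGroup.isMulCommutative_of_card_eq_prime_sq hc).is_comm.comm (a : G ⧸ N), mul_inv_cancel_right,
          mul_inv_cancel]
      obtain ⟨g, hg⟩ := isConj_iff.mp hzj.symm
      have h3 : z * (r ^ j * s) ∈ N := by
        have := hcomm g (r ^ j * s)
        rwa [hg, inv_eq_of_mul_eq_one_right (h.refl_sq j)] at this
      have hr2 : r ^ (2 : ℤ) ∈ N := by
        have := hcomm (r ^ (1 : ℤ)) (r ^ (0 : ℤ) * s)
        rw [inv_eq_of_mul_eq_one_right (h.refl_sq 0), TwoGroups.DihIn.rot_mul_refl, ← zpow_neg,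
          h.refl_mul_rot, h.xy_mul_xy] at this
        convert this using 2; norm_num
      have hev : ∀ e : ℤ, 2 ∣ e → r ^ e ∈ N := by
        rintro e ⟨c, rfl⟩
        rw [zpow_mul]; exact zpow_mem hr2 c
      have htj : r ^ j * s ∈ N := by
        have := mul_mem (inv_mem (hev _ (dvd_pow_self (2 : ℤ) (by omega : k - 1 ≠ 0)))) h3
        rwa [inv_mul_cancel_left] at this
      have hle : h.evenSub j ≤ N := by
        rintro g ⟨c, rfl | rfl⟩
        · exact hev _ ⟨c, rfl⟩
        · rw [add_comm, zpow_add, mul_assoc]; exact mul_mem (hev _ ⟨c, rfl⟩) htj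
      have htop : (P : Subgroup G) ⊔ N = ⊤ := Transfer.sup_eq_top_of_isPGroup_quotient P
        (IsPGroup.of_card (n := 2) (by rw [← Subgroup.index_eq_card, h4]; norm_num))
      have h5 : N.relIndex (P : Subgroup G) = 4 := by
        rw [← Subgroup.relIndex_sup_right, htop, Subgroup.relIndex_top_right, h4]
      have h6 : N.relIndex (P : Subgroup G) ∣ 2 := by
        have h7 : (h.evenSub j).relIndex (P : Subgroup G) ∣ 2 := by
          have : ((h.evenSub j).subgroupOf (P : Subgroup G)).index = 2 := by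
            rw [Subgroup.index_eq_two_iff]
            refine ⟨⟨r ^ (j + 1) * s, h.refl_mem _⟩, fun b => ?_⟩
            show Xor' ((b : G) * (r ^ (j + 1) * s) ∈ h.evenSub j) ((b : G) ∈ h.evenSub j)
            have hrot : ∀ c : ℤ, r ^ c ∈ h.evenSub j ↔ 2 ∣ c := by
              refine fun c => ⟨?_, h.rot_mem_evenSub⟩
              rintro ⟨m, hm | hm⟩
              · rw [h.zpow_eq_iff] at hm
                have := h.two_dvd.trans hm
                omega
              · exact absurd (hm ▸ Subgroup.zpow_mem_zpowers r c) (h.refl_notMem _)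
            obtain ⟨c, hc | hc⟩ := h.exists_eq b.2 <;> rw [hc]
            · rw [TwoGroups.DihIn.rot_mul_refl, h.refl_mem_evenSub, hrot]
              by_cases hd : 2 ∣ c
              · exact Or.inr ⟨hd, by omega⟩
              · exact Or.inl ⟨by omega, hd⟩
            · rw [h.xy_mul_xy, h.refl_mem_evenSub, hrot]
              by_cases hd : 2 ∣ c - j
              · exact Or.inr ⟨hd, by omega⟩
              · exact Or.inl ⟨by omega, hd⟩
          exact dvd_of_eq this
        exact (Subgroup.relIndex_dvd_of_le_left _ hle).trans h7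
      rw [h5] at h6
      norm_num at h6
  by_cases he0 : TwoGroups.Exotic (h.four 0) <;> by_cases he1 : TwoGroups.Exotic (h.four 1)
  · refine Or.inl ⟨?_, fun N _ => h.index_ne_two (fun U hUS hU => ?_) N⟩
    · rw [Nat.card_eq_one_iff_exists]
      refine ⟨cz, fun C => ?_⟩
      rcases hall C with e | e | e
      · exact e
      · exact e.trans (Subtype.ext <| ConjClasses.mk_eq_mk_iff_isConj.mpr (h.isConj_of_exotic he0 (h.t_mem_four 0) (fun e => h.refl_notMem 0 ((congrArg (fun v => v ∈ Subgroup.zpowers r) e).mpr (one_mem _)))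
          (h.z_mem_four 0) h.z_ne))
      · exact e.trans (Subtype.ext <| ConjClasses.mk_eq_mk_iff_isConj.mpr (h.isConj_of_exotic he1 (h.t_mem_four 1) (fun e => h.refl_notMem 1 ((congrArg (fun v => v ∈ Subgroup.zpowers r) e).mpr (one_mem _)))
          (h.z_mem_four 1) h.z_ne))
    · obtain ⟨i, hi, e⟩ := ext_all U hUS hU
      rcases hi with rfl | rfl
      exacts [e.mpr he0, e.mpr he1]
  · exact Or.inr (Or.inl (two_case 1 0 (Or.inr ⟨rfl, rfl⟩) he1 he0))
  · exact Or.inr (Or.inl (two_case 0 1 (Or.inl ⟨rfl, rfl⟩) he0 he1))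
  · refine Or.inr (Or.inr ⟨?_, h.hasNormalPComplement fun U hUS hU hx => ?_⟩)
    · have hz0 : cz ≠ c0 := fun e => h.not_isConj he0 (ConjClasses.mk_eq_mk_iff_isConj.mp (congrArg Subtype.val e))
      have hz1 : cz ≠ c1 := fun e => h.not_isConj he1 (ConjClasses.mk_eq_mk_iff_isConj.mp (congrArg Subtype.val e))
      have h01 : c0 ≠ c1 := fun e => by
        obtain ⟨g, hg⟩ := isConj_iff.mp (ConjClasses.mk_eq_mk_iff_isConj.mp (congrArg Subtype.val e)).symm
        obtain ⟨L, -, -, -, hnot, hodd, hf⟩ := h.exists_index_two he0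
        have h1L : t₁ ∈ L := hodd hk 1 (by norm_num)
        have h3 := mul_mem h1L (hf _ (h.refl_mem 1) g (hg ▸ h.refl_mem 0))
        rw [mul_inv_cancel_left, hg] at h3
        exact hnot h3
      let _ : Fintype K := Fintype.ofFinite K
      rw [Nat.card_eq_fintype_card, Fintype.card, show (Finset.univ : Finset K) = {cz, c0, c1} from
        (Finset.eq_univ_of_forall fun C => by simpa using hall C).symm, Finset.card_eq_three.mpr
        ⟨cz, c0, c1, hz0, hz1, h01, rfl⟩]
    · obtain ⟨i, hi, e⟩ := ext_all U hUS hU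
      rcases hi with rfl | rfl
      exacts [he0 (e.mp hx), he1 (e.mp hx)]

end Cfsg.Agent.S3864
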