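import Cfsg.Statements.S3866
import Mathlib

set_option autoImplicit false
open Cfsg

namespace Cfsg.Agent.S3866

/-- Let A be a commutative normal subgroup of the finite group G with G generated by A and an element x. Then a ↦ x a x⁻¹ a⁻¹ is a surjective homomorphism from A onto the commutator subgroup of G whose kernel is the centralizer of x in A; in particular the commutator subgroup has order equal to the index in A of that centralizer. -/
theorem result {G : Type*} [Group G] [Finite G] (A : Subgroup G) [A.Normal] (hA : IsMulCommutative A) (x : G) (hgen : A ⊔ Subgroup.zpowers x = ⊤) : (∀ a ∈ A, x * a * x⁻¹ * a⁻¹ ∈ commutator G) ∧ (∀ c ∈ commutator G, ∃ a ∈ A, x * a * x⁻¹ * a⁻¹ = c) ∧ (∀ a ∈ A, ∀ b ∈ A, x * (a * b) * x⁻¹ * (a * b)⁻¹ = (x * a * x⁻¹ * a⁻¹) * (x * b * x⁻¹ * b⁻¹)) ∧ Nat.card (commutator G) * Nat.card ↥(A ⊓ Subgroup.centralizer ({x} : Set G)) = Nat.card A := by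
  have hcomm : ∀ a ∈ A, ∀ b ∈ A, a * b = b * a := fun a ha b hb =>
    congrArg Subtype.val (hA.is_comm.comm (⟨a, ha⟩ : A) ⟨b, hb⟩)
  have hcj : ∀ a ∈ A, x * a * x⁻¹ ∈ A := fun a ha => Subgroup.Normal.conj_mem inferInstance a ha x
  have hmul : ∀ a ∈ A, ∀ b ∈ A, x * (a * b) * x⁻¹ * (a * b)⁻¹ =
      (x * a * x⁻¹ * a⁻¹) * (x * b * x⁻¹ * b⁻¹) := by
    intro a ha b hb
    calc x * (a * b) * x⁻¹ * (a * b)⁻¹ = (x * a * x⁻¹) * ((x * b * x⁻¹ * b⁻¹) * a⁻¹) := by group
      _ = (x * a * x⁻¹) * (a⁻¹ * (x * b * x⁻¹ * b⁻¹)) := by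
          rw [hcomm _ (mul_mem (hcj b hb) (inv_mem hb)) _ (inv_mem ha)]
      _ = _ := by group
  let f : A →* G := MonoidHom.mk' (fun a => x * a * x⁻¹ * (a : G)⁻¹) (fun a b => hmul a a.2 b b.2)
  have hf : ∀ a : A, f a ∈ A := fun a => mul_mem (hcj a a.2) (inv_mem a.2)
  have hrn : f.range.Normal := by
    rw [← Subgroup.normalizer_eq_top_iff, eq_top_iff, ← hgen, sup_le_iff]
    have inA : ∀ c ∈ f.range, c ∈ A := by rintro _ ⟨a, rfl⟩; exact hf a
    constructor
    · refine le_trans ?_ (Subgroup.centralizer_le_normalizer _)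
      intro a ha
      rw [Subgroup.mem_centralizer_iff]
      exact fun c hc => hcomm c (inA c hc) a ha
    · rw [Subgroup.zpowers_le]
      rw [Subgroup.mem_normalizer_iff]
      intro c
      constructor
      · rintro ⟨a, rfl⟩
        exact ⟨⟨x * a * x⁻¹, hcj a a.2⟩, by simp [f, mul_assoc]⟩
      · rintro ⟨a, ha⟩
        refine ⟨⟨x⁻¹ * a * x, by simpa using Subgroup.Normal.conj_mem inferInstance (a : G) a.2 x⁻¹⟩, ?_⟩
        have : c = x⁻¹ * (f a) * x := by rw [ha]; group
        rw [this]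
        simp [f, mul_assoc]
  have hrange : f.range = commutator G := by
    apply le_antisymm
    · rintro _ ⟨a, rfl⟩
      exact Subgroup.commutator_mem_commutator (Subgroup.mem_top x) (Subgroup.mem_top (a : G))
    · rw [← hrn.quotient_commutative_iff_commutator_le]
      let π := QuotientGroup.mk' f.range
      have hcommQ : ∀ u v, u ∈ π '' (A ∪ {x}) → v ∈ π '' (A ∪ {x}) → u * v = v * u := by
        have hxa : ∀ a ∈ A, π x * π a = π a * π x := by
          intro a ha
          have : π (f ⟨a, ha⟩) = 1 := (QuotientGroup.eq_one_iff _).mpr ⟨_, rfl⟩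
          rw [show f ⟨a, ha⟩ = x * a * x⁻¹ * a⁻¹ from rfl] at this
          rw [map_mul, map_mul, map_mul, map_inv, map_inv, mul_inv_eq_one, mul_inv_eq_iff_eq_mul] at this
          exact this
        rintro _ _ ⟨u, hu | hu, rfl⟩ ⟨v, hv | hv, rfl⟩
        · rw [← map_mul, ← map_mul, hcomm u hu v hv]
        · rw [Set.mem_singleton_iff] at hv; subst hv; exact (hxa u hu).symm
        · rw [Set.mem_singleton_iff] at hu; subst hu; exact hxa v hv
        · rw [Set.mem_singleton_iff] at hu hv; subst hu; subst hv; rfl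
      have htop : Subgroup.closure (π '' (A ∪ {x})) = ⊤ := by
        rw [← MonoidHom.map_closure, Subgroup.closure_union, Subgroup.closure_eq,
          ← Subgroup.zpowers_eq_closure, hgen]
        exact Subgroup.map_top_of_surjective _ (QuotientGroup.mk'_surjective _)
      haveI := Subgroup.isMulCommutative_closure (fun u hu v hv => hcommQ u v hu hv)
      refine ⟨⟨fun u v => ?_⟩⟩
      exact congrArg Subtype.val (mul_comm' (⟨u, htop ▸ Subgroup.mem_top u⟩ : Subgroup.closure (π '' (A ∪ {x}))) ⟨v, htop ▸ Subgroup.mem_top v⟩)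
  refine ⟨fun a ha => ?_, fun c hc => ?_, hmul, ?_⟩
  · rw [← hrange]; exact ⟨⟨a, ha⟩, rfl⟩
  · rw [← hrange] at hc
    obtain ⟨a, rfl⟩ := hc
    exact ⟨a, a.2, rfl⟩
  · rw [← hrange, ← Subgroup.index_ker]
    have hk : Nat.card f.ker = Nat.card ↥(A ⊓ Subgroup.centralizer ({x} : Set G)) := by
      refine Nat.card_congr ⟨fun a => ⟨a.1.1, a.1.2, ?_⟩, fun a => ⟨⟨a.1, a.2.1⟩, ?_⟩, fun a => rfl, fun a => rfl⟩
      · have h : x * (a.1 : G) * x⁻¹ * (a.1 : G)⁻¹ = 1 := a.2
        rw [mul_inv_eq_one, mul_inv_eq_iff_eq_mul] at h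
        exact Subgroup.mem_centralizer_singleton_iff.mpr h.symm
      · show x * (a : G) * x⁻¹ * (a : G)⁻¹ = 1
        rw [← Subgroup.mem_centralizer_singleton_iff.mp a.2.2]
        group
    rw [← hk, mul_comm, Subgroup.card_mul_index]

end Cfsg.Agent.S3866
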