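import Cfsg.Statements.S3867
import Cfsg.Agent.Transfer.Basic

set_option autoImplicit false
open Cfsg

namespace Cfsg.Agent.S3867

/-- Let M and N be nontrivial normal subgroups of the finite group G with M ⊓ N trivial, and let p be a prime. Writing n(X) for the number of Sylow p-subgroups of a group X, one has n(G) · n(G/MN) = n(G/M) · n(G/N). -/
theorem result {G : Type*} [Group G] [Finite G] (p : ℕ) [Fact p.Prime] (M N : Subgroup G) [M.Normal] [N.Normal] (hM : M ≠ ⊥) (hN : N ≠ ⊥) (hMN : M ⊓ N = ⊥) : Nat.card (Sylow p G) * Nat.card (Sylow p (G ⧸ (M ⊔ N))) = Nat.card (Sylow p (G ⧸ M)) * Nat.card (Sylow p (G ⧸ N)) := by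
  classical
  obtain ⟨P⟩ : Nonempty (Sylow p G) := Sylow.nonempty
  have key : ∀ (K : Subgroup G) [K.Normal],
      Nat.card (Sylow p (G ⧸ K)) = (Subgroup.normalizer (((P : Subgroup G) ⊔ K : Subgroup G) : Set G)).index := by
    intro K _
    rw [Sylow.card_eq_index_normalizer (P.mapSurjective (QuotientGroup.mk'_surjective K)),
      ← Subgroup.index_comap_of_surjective _ (QuotientGroup.mk'_surjective K)]
    show (Subgroup.comap (QuotientGroup.mk' K)
      (Subgroup.normalizer ((Subgroup.map (QuotientGroup.mk' K) (P : Subgroup G) : Subgroup _) : Set (G ⧸ K)))).index = _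
    rw [Subgroup.comap_normalizer_eq_of_surjective _ (QuotientGroup.mk'_surjective K),
      Subgroup.comap_map_eq, QuotientGroup.ker_mk']
  rw [key M, key N, key (M ⊔ N), P.card_eq_index_normalizer]
  set a := Subgroup.normalizer (((P : Subgroup G)) : Set G)
  set b := Subgroup.normalizer (((P : Subgroup G) ⊔ M : Subgroup G) : Set G)
  set c := Subgroup.normalizer (((P : Subgroup G) ⊔ N : Subgroup G) : Set G)
  set d := Subgroup.normalizer (((P : Subgroup G) ⊔ (M ⊔ N) : Subgroup G) : Set G)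
  have hcomm : ∀ m ∈ M, ∀ n ∈ N, m * n = n * m := fun m hm n hn =>
    Subgroup.commute_of_normal_of_disjoint M N inferInstance inferInstance (disjoint_iff.mpr hMN) m n hm hn
  have supnorm : ∀ (K : Subgroup G) [K.Normal] (H : Subgroup G),
      Subgroup.normalizer (H : Set G) ≤ Subgroup.normalizer ((H ⊔ K : Subgroup G) : Set G) := by
    intro K _ H g hg
    rw [Transfer.mem_normalizer_iff_map_conj] at hg ⊢
    rw [Subgroup.map_sup, hg, Transfer.mem_normalizer_iff_map_conj.mp (Subgroup.normalizer_eq_top K ▸ Subgroup.mem_top g)]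
  have hab : a ≤ b := supnorm M _
  have hac : a ≤ c := supnorm N _
  have hMb : M ≤ b := le_sup_right.trans Subgroup.le_normalizer
  have hNc : N ≤ c := le_sup_right.trans Subgroup.le_normalizer
  have hbd : b ≤ d := by
    have := supnorm N ((P : Subgroup G) ⊔ M)
    rwa [sup_assoc] at this
  have hcd : c ≤ d := by
    have := supnorm M ((P : Subgroup G) ⊔ N)
    rwa [sup_assoc, sup_comm N M] at this
  -- the normaliser of `P (M N)` is `M N N(P)`
  have hd : ∀ g ∈ d, ∃ m ∈ M, ∃ n ∈ N, ∃ k ∈ a, g = m * n * k := by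
    intro g hg
    set X := (P : Subgroup G) ⊔ (M ⊔ N)
    have hgP : ((g • P : Sylow p G) : Subgroup G) ≤ X := by
      rw [Sylow.coe_subgroup_smul]
      exact le_of_le_of_eq (Subgroup.pointwise_smul_le_pointwise_smul_iff.mpr le_sup_left)
        (Transfer.mem_normalizer_iff_map_conj.mp hg)
    obtain ⟨k, hk⟩ := MulAction.exists_smul_eq ↥X (P.subtype le_sup_left) ((g • P : Sylow p G).subtype hgP)
    have hk' : (k : G) • P = g • P := by
      rw [Sylow.smul_subtype] at hk
      exact Sylow.subtype_injective hk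
    have hka : (k : G)⁻¹ * g ∈ a := by
      exact Sylow.smul_eq_iff_mem_normalizer.mp (by rw [mul_smul, ← hk', inv_smul_smul])
    have hk2 : (k : G) ∈ (M ⊔ N) ⊔ (P : Subgroup G) := by rw [sup_comm]; exact k.2
    obtain ⟨mn, hmn, q, hq, e⟩ := Subgroup.mem_sup_of_normal_left.mp hk2
    obtain ⟨m, hm, n, hn, e'⟩ := Subgroup.mem_sup_of_normal_left.mp hmn
    exact ⟨m, hm, n, hn, q * ((k : G)⁻¹ * g), mul_mem (Subgroup.le_normalizer hq) hka,
      by rw [e', ← mul_assoc, e, mul_inv_cancel_left]⟩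
  have hinf : b ⊓ c = a := by
    refine le_antisymm (fun g hg => ?_) (le_inf hab hac)
    obtain ⟨hgb, hgc⟩ := Subgroup.mem_inf.mp hg
    obtain ⟨m, hm, n, hn, k, hk, rfl⟩ := hd g (hbd hgb)
    have hnb : n ∈ b := by
      have := mul_mem (mul_mem (inv_mem (hMb hm)) hgb) (inv_mem (hab hk))
      simpa [mul_assoc] using this
    have hmc : m ∈ c := by
      have h1 := mul_mem hgc (inv_mem (mul_mem (hNc hn) (hac hk)))
      simpa [mul_assoc] using h1
    -- `PM ∩ PN = P`
    have hPP : ∀ x ∈ (P : Subgroup G) ⊔ M, x ∈ (P : Subgroup G) ⊔ N → x ∈ (P : Subgroup G) := by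
      have hpg : IsPGroup p ↥(((P : Subgroup G) ⊔ M) ⊓ ((P : Subgroup G) ⊔ N) : Subgroup G) := by
        set I := ((P : Subgroup G) ⊔ M) ⊓ ((P : Subgroup G) ⊔ N)
        have e1 : ∀ x : ↥I, ∃ j, (x : G) ^ p ^ j ∈ M := fun x => by
          obtain ⟨j, hj⟩ := IsPGroup.map P.2 (QuotientGroup.mk' M)
            ⟨QuotientGroup.mk' M x, by
              rw [← Subgroup.mem_comap, Subgroup.comap_map_eq, QuotientGroup.ker_mk']
              exact (Subgroup.mem_inf.mp x.2).1⟩
          exact ⟨j, (QuotientGroup.eq_one_iff _).mp (congrArg Subtype.val hj)⟩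
        have e2 : ∀ x : ↥I, ∃ j, (x : G) ^ p ^ j ∈ N := fun x => by
          obtain ⟨j, hj⟩ := IsPGroup.map P.2 (QuotientGroup.mk' N)
            ⟨QuotientGroup.mk' N x, by
              rw [← Subgroup.mem_comap, Subgroup.comap_map_eq, QuotientGroup.ker_mk']
              exact (Subgroup.mem_inf.mp x.2).2⟩
          exact ⟨j, (QuotientGroup.eq_one_iff _).mp (congrArg Subtype.val hj)⟩
        intro x
        obtain ⟨i, hi⟩ := e1 x
        obtain ⟨j, hj⟩ := e2 x
        refine ⟨i + j, Subtype.ext ?_⟩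
        have h1 : (x : G) ^ p ^ (i + j) ∈ M ⊓ N := Subgroup.mem_inf.mpr
          ⟨by rw [pow_add, pow_mul]; exact pow_mem hi _, by rw [pow_add, mul_comm, pow_mul]; exact pow_mem hj _⟩
        rw [hMN] at h1
        simpa using Subgroup.mem_bot.mp h1
      intro x h1 h2
      rw [← P.3 hpg (le_inf le_sup_left le_sup_left)]
      exact ⟨h1, h2⟩
    have haM : ∀ j ∈ b, j ∈ c → j ∈ a := by
      intro j hj hj'
      refine Transfer.mem_normalizer_iff_map_conj.mpr
        (Subgroup.eq_of_le_of_card_ge ?_ (Transfer.card_map_conj j (P : Subgroup G)).ge)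
      rintro _ ⟨x, hx, rfl⟩
      exact hPP _ ((Subgroup.mem_normalizer_iff.mp hj x).mp (Subgroup.mem_sup_left hx))
        ((Subgroup.mem_normalizer_iff.mp hj' x).mp (Subgroup.mem_sup_left hx))
    exact haM _ hgb hgc
  have hrel : b.relIndex d = a.relIndex c := by
    rw [← hinf, Subgroup.inf_relIndex_right]
    refine (Nat.card_eq_of_bijective _ ⟨(Subgroup.quotientSubgroupOfEmbeddingOfLE b hcd).injective, fun z => ?_⟩).symm
    induction z using QuotientGroup.induction_on with
    | H z =>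
      obtain ⟨m, hm, n, hn, k, hk, e⟩ := hd _ (inv_mem z.2)
      have e' : (z : G) = k⁻¹ * n⁻¹ * m⁻¹ := by rw [← inv_inv (z : G), e]; group
      refine ⟨QuotientGroup.mk (⟨k⁻¹ * n⁻¹, mul_mem (inv_mem (hac hk)) (inv_mem (hNc hn))⟩ : ↥c), ?_⟩
      rw [Subgroup.quotientSubgroupOfEmbeddingOfLE_apply_mk, QuotientGroup.eq]
      show (k⁻¹ * n⁻¹)⁻¹ * (z : G) ∈ b
      rw [e', inv_mul_cancel_left]
      exact inv_mem (hMb hm)
  show a.index * d.index = b.index * c.index
  rw [← Subgroup.relIndex_mul_index hac, ← hrel, mul_right_comm, Subgroup.relIndex_mul_index hbd]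

end Cfsg.Agent.S3867
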