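import Cfsg.Statements.S3878
import Cfsg.Agent.TwoGroups.HallSL2

set_option autoImplicit false
open Cfsg

namespace Cfsg.Agent.S3878

open scoped Pointwise

universe u

variable {π : Set ℕ}

theorem ePi_of_dPi {G : Type u} [Group G] [Finite G] (h : Cfsg.IsDPiGroup π G) : Cfsg.IsEPiGroup π G := by
  have hbot : Cfsg.IsPiSubgroup π (⊥ : Subgroup G) := fun p hp hd => by
    rw [Subgroup.card_bot, Nat.dvd_one] at hd
    exact absurd hd hp.ne_one
  obtain ⟨M, -, hM⟩ := (Set.toFinite {K : Subgroup G | Cfsg.IsPiSubgroup π K}).exists_le_maximal hbot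
  refine ⟨M, hM.prop, fun p hp hpπ hd => ?_⟩
  haveI := Fact.mk hp
  let P : Sylow p G := default
  have hP : Cfsg.IsPiSubgroup π (P : Subgroup G) := fun s hs hsd => by
    obtain ⟨k, hk⟩ := IsPGroup.iff_card.1 P.isPGroup'
    rw [hk] at hsd
    rwa [(Nat.prime_dvd_prime_iff_eq hs hp).1 (hs.dvd_of_dvd_pow hsd)]
  obtain ⟨K, hPK, hK⟩ := (Set.toFinite {K : Subgroup G | Cfsg.IsPiSubgroup π K}).exists_le_maximal
    (show (P : Subgroup G) ∈ {K : Subgroup G | Cfsg.IsPiSubgroup π K} from hP)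
  obtain ⟨g, hg⟩ := h M K hM hK
  refine P.not_dvd_index (hd.trans ?_)
  have : M.index = K.index := by
    rw [hg]; exact (M.index_map_equiv (MulAut.conj g)).symm
  rw [this]
  exact Subgroup.index_dvd_of_le hPK

theorem pi_all {G : Type u} [Group G] [Finite G] (h : ∀ p : ℕ, p.Prime → p ∈ π) :
    Cfsg.IsEPiGroup π G ∧ Cfsg.IsDPiGroup π G := by
  refine ⟨⟨⊤, fun p hp _ => h p hp, fun p hp _ hd => ?_⟩, fun H K hH hK => ⟨1, ?_⟩⟩
  · rw [Subgroup.index_top, Nat.dvd_one] at hd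
    exact hp.ne_one hd
  · have key : ∀ H : Subgroup G, Maximal (Cfsg.IsPiSubgroup π) H → H = ⊤ := fun H hH =>
      top_unique (hH.le_of_ge (show Cfsg.IsPiSubgroup π (⊤ : Subgroup G) from fun p hp _ => h p hp) le_top)
    rw [key H hH, key K hK, Subgroup.map_top_of_surjective _ (MulAut.conj (1 : G)).surjective]

theorem pi_single {G : Type u} [Group G] [Finite G]
    (h : ∀ p q : ℕ, p.Prime → q.Prime → p ∈ π → q ∈ π → p = q) :
    Cfsg.IsEPiGroup π G ∧ Cfsg.IsDPiGroup π G := by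
  by_cases hne : ∃ p : ℕ, p.Prime ∧ p ∈ π
  · obtain ⟨p, hp, hpπ⟩ := hne
    haveI := Fact.mk hp
    have hiff : ∀ K : Subgroup G, Cfsg.IsPiSubgroup π K ↔ IsPGroup p K := by
      intro K
      constructor
      · intro hK
        exact IsPGroup.of_card (Nat.eq_prime_pow_of_unique_prime_dvd Nat.card_pos.ne'
          (fun {d} hd hdd => h d p hd hp (hK d hd hdd) hpπ))
      · intro hK s hs hsd
        obtain ⟨k, hk⟩ := IsPGroup.iff_card.1 hK
        rw [hk] at hsd
        rwa [(Nat.prime_dvd_prime_iff_eq hs hp).1 (hs.dvd_of_dvd_pow hsd)]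
    let P : Sylow p G := default
    refine ⟨⟨P, (hiff _).2 P.isPGroup', fun s hs hsπ hd => ?_⟩, fun H K hH hK => ?_⟩
    · rw [h s p hs hp hsπ hpπ] at hd
      exact P.not_dvd_index hd
    · have key : ∀ H : Subgroup G, Maximal (Cfsg.IsPiSubgroup π) H → ∃ S : Sylow p G, (S : Subgroup G) = H := by
        intro H hH
        obtain ⟨S, hS⟩ := ((hiff H).1 hH.prop).exists_le_sylow
        exact ⟨S, le_antisymm (hH.le_of_ge ((hiff _).2 S.isPGroup') hS) hS⟩
      obtain ⟨S, rfl⟩ := key H hH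
      obtain ⟨T, rfl⟩ := key K hK
      obtain ⟨g, rfl⟩ := MulAction.exists_smul_eq G S T
      exact ⟨g, Sylow.coe_subgroup_smul⟩
  · push Not at hne
    have key : ∀ K : Subgroup G, Cfsg.IsPiSubgroup π K → K = ⊥ := fun K hK => by
      by_contra hK'
      obtain ⟨p, hp, hd⟩ := Nat.exists_prime_and_dvd (mt (Subgroup.eq_bot_of_card_eq K) hK')
      exact hne p hp (hK p hp hd)
    refine ⟨⟨⊥, fun p hp hd => ?_, fun p hp hpπ _ => hne p hp hpπ⟩, fun H K hH hK => ⟨1, ?_⟩⟩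
    · rw [Subgroup.card_bot, Nat.dvd_one] at hd
      exact absurd hd hp.ne_one
    · rw [key H hH.prop, key K hK.prop, Subgroup.map_bot]

theorem necessary (h : ∀ (G : Type) [Group G] [Finite G], Cfsg.IsEPiGroup π G) :
    (∀ p q : ℕ, p.Prime → q.Prime → p ∈ π → q ∈ π → p = q) ∨ ∀ p : ℕ, p.Prime → p ∈ π := by
  by_contra hcon
  push Not at hcon
  obtain ⟨⟨p, q, hp, hq, hpπ, hqπ, hpq⟩, r, hr, hrπ⟩ := hcon
  by_cases hq2 : q = 2
  · obtain ⟨G, hG, hGf, hn⟩ := TwoGroups.exists_not_ePiGroup hq hp hr hqπ hpπ hrπ (Ne.symm hpq)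
      (fun e => hpq (e.trans hq2.symm))
    exact hn (@h G hG hGf)
  · obtain ⟨G, hG, hGf, hn⟩ := TwoGroups.exists_not_ePiGroup hp hq hr hpπ hqπ hrπ hpq hq2
    exact hn (@h G hG hGf)


/-- For a set of primes π the following are equivalent: every finite group has a Hall π-subgroup; in every finite group the maximal π-subgroups are pairwise conjugate; π contains at most one prime or contains every prime. -/
theorem result (π : Set ℕ) :
    ((∀ (G : Type) [Group G] [Finite G], Cfsg.IsEPiGroup π G) ↔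
      ((∀ p q : ℕ, p.Prime → q.Prime → p ∈ π → q ∈ π → p = q) ∨ ∀ p : ℕ, p.Prime → p ∈ π)) ∧
    ((∀ (G : Type) [Group G] [Finite G], Cfsg.IsDPiGroup π G) ↔
      ((∀ p q : ℕ, p.Prime → q.Prime → p ∈ π → q ∈ π → p = q) ∨ ∀ p : ℕ, p.Prime → p ∈ π)) := by
  refine ⟨⟨necessary, fun h G _ _ => ?_⟩,
    ⟨fun h => necessary fun G _ _ => ePi_of_dPi (h G), fun h G _ _ => ?_⟩⟩
  · exact h.elim (fun h => (pi_single h).1) (fun h => (pi_all h).1)
  · exact h.elim (fun h => (pi_single h).2) (fun h => (pi_all h).2)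

end Cfsg.Agent.S3878
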