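import Cfsg.Statements.S3895
import Cfsg.Agent.TwoGroups.CentricAlperin
import Cfsg.Agent.TwoGroups.WrAutomizer
import Cfsg.Agent.Transfer.Complement

set_option autoImplicit false
open Cfsg

namespace Cfsg.Agent.S3895

open Subgroup in
theorem exists_not_quiet {G : Type*} [Group G] [Finite G] (S : Sylow 2 G)
    (h : ¬ Cfsg.HasNormalPComplement 2 G) :
    ∃ B : Subgroup G, Cfsg.Agent.TwoGroups.CentricIn (S : Subgroup G) B ∧
      ∃ g ∈ Subgroup.normalizer (B : Set G), Odd (orderOf g) ∧ g ∉ centralizer (B : Set G) := by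
  by_contra hcon
  push Not at hcon
  refine h (Cfsg.Agent.Transfer.hasNormalPComplement_of_fusion S fun x hx g hgx => ?_)
  have := Cfsg.Agent.TwoGroups.centric_induction S
    (fun A g => ∃ a ∈ (S : Subgroup G), ∀ b ∈ A, a * b * a⁻¹ = g * b * g⁻¹) ?_ ?_ ?_ ?_ ?_
    (A := zpowers x) (zpowers_le.mpr hx) (g := g)
    (by rw [MonoidHom.map_zpowers]; exact zpowers_le.mpr hgx)
  · obtain ⟨a, ha, e⟩ := this
    exact ⟨a, ha, e x (mem_zpowers x)⟩
  · rintro A B g hAB ⟨a, ha, e⟩
    exact ⟨a, ha, fun b hb => e b (hAB hb)⟩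
  · rintro A g g' ⟨a, ha, e⟩ ⟨a', ha', e'⟩
    refine ⟨a' * a, mul_mem ha' ha, fun b hb => ?_⟩
    have := e' _ (mem_map_of_mem _ hb)
    simp only [MulEquiv.coe_toMonoidHom, MulAut.conj_apply] at this
    calc a' * a * b * (a' * a)⁻¹ = a' * (a * b * a⁻¹) * a'⁻¹ := by group
      _ = g' * g * b * (g' * g)⁻¹ := by rw [e b hb, this]; group
  · rintro A g ⟨a, ha, e⟩
    refine ⟨a⁻¹, inv_mem ha, ?_⟩
    rintro _ ⟨b, hb, rfl⟩
    simp only [MulEquiv.coe_toMonoidHom, MulAut.conj_apply]
    calc a⁻¹ * (g * b * g⁻¹) * a⁻¹⁻¹ = a⁻¹ * (a * b * a⁻¹) * a := by rw [e b hb, inv_inv]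
      _ = g⁻¹ * (g * b * g⁻¹) * g⁻¹⁻¹ := by group
  · rintro A g g' e ⟨a, ha, e'⟩
    exact ⟨a, ha, fun b hb => (e' b hb).trans (e b hb)⟩
  · exact fun B hB hc m hm => Cfsg.Agent.TwoGroups.exists_agree hB
      (fun g hg hgo => hcon B hc g hg hgo) hm

open Subgroup Finset in
/-- Without a normal `2`-complement there are at most `|P|/2` classes of `2`-elements. -/
theorem two_mul_card_le {G : Type*} [Group G] [Finite G] [Fintype G] [DecidableEq G]
    [DecidableEq (ConjClasses G)] (P : Sylow 2 G) [Fintype ↥(P : Subgroup G)]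
    (h : ¬ Cfsg.HasNormalPComplement 2 G) :
    2 * (univ.image (fun x : ↥(P : Subgroup G) => ConjClasses.mk (x : G))).card ≤
      Fintype.card ↥(P : Subgroup G) := by
  classical
  obtain ⟨B, ⟨hBP, hcent⟩, g, hg, hgo, hgC⟩ := exists_not_quiet P h
  set F := B ⊓ centralizer ({g} : Set G) with hF
  have hmem : ∀ b ∈ B, g * b * g⁻¹ ∈ B := fun b hb => (mem_normalizer_iff.mp hg b).mp hb
  have hfix : ∀ b, b ∈ F ↔ b ∈ B ∧ g * b * g⁻¹ = b := fun b => by
    rw [hF, Subgroup.mem_inf, mem_centralizer_singleton_iff, mul_inv_eq_iff_eq_mul]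
    exact and_congr_right fun _ => eq_comm
  have hidx : 4 ≤ F.relIndex B := by
    obtain ⟨n, hn⟩ := IsPGroup.iff_card.mp (P.isPGroup'.to_le hBP)
    obtain ⟨j, -, hj⟩ := (Nat.dvd_prime_pow Nat.prime_two).mp
      (hn ▸ (Subgroup.relIndex_dvd_card F B))
    rcases j with _ | _ | j
    · refine absurd ?_ hgC
      rw [pow_zero, relIndex_eq_one] at hj
      exact Cfsg.Agent.TwoGroups.mem_centralizer_of_fix fun b hb => ((hfix b).mp (hj hb)).2
    · refine absurd ?_ hgC
      rw [zero_add, pow_one] at hj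
      refine Cfsg.Agent.TwoGroups.mem_centralizer_of_fix fun b hb => ?_
      by_contra hne
      have h1 : (⟨b, hb⟩ : B)⁻¹ ∉ F.subgroupOf B := fun hc =>
        hne ((hfix b).mp (by simpa [mem_subgroupOf] using inv_mem hc)).2
      have h2 : (⟨g * b * g⁻¹, hmem b hb⟩ : B) ∉ F.subgroupOf B := fun hc => by
        have hc' := ((hfix _).mp hc).2
        exact hne (mul_left_cancel (mul_right_cancel hc'))
      have h3 := (Subgroup.mul_mem_iff_of_index_two (show (F.subgroupOf B).index = 2 from hj)).mpr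
        (iff_of_false h1 h2)
      rw [mem_subgroupOf] at h3
      have h4 : b⁻¹ * (g * b * g⁻¹) ∈ F := by simpa using h3
      exact hne (Cfsg.Agent.TwoGroups.fix_of_comm P.isPGroup' hgo
        (hBP ((hfix _).mp h4).1) ((hfix _).mp h4).2)
    · calc 4 = 2 ^ 2 := rfl
        _ ≤ 2 ^ (j + 1 + 1) := Nat.pow_le_pow_right (by norm_num) (by omega)
        _ = _ := hj.symm
  set f := fun x : ↥(P : Subgroup G) => ConjClasses.mk (x : G) with hf
  set n := fun c => (univ.filter (fun x => f x = c)).card with hn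
  set I := univ.image f
  set U := I.filter (fun c => n c = 1)
  set T := I.filter (fun c => 3 ≤ n c)
  have hsum : ∑ c ∈ I, n c = Fintype.card ↥(P : Subgroup G) :=
    (Finset.card_eq_sum_card_image f univ).symm
  have hconj : ∀ x : G, ConjClasses.mk (g * x * g⁻¹) = ConjClasses.mk x := fun x =>
    (ConjClasses.mk_eq_mk_iff_isConj.mpr (isConj_iff.mpr ⟨g, rfl⟩)).symm
  set Ff := univ.filter (fun x : ↥(P : Subgroup G) => (x : G) ∈ F)
  set Bf := univ.filter (fun x : ↥(P : Subgroup G) => (x : G) ∈ B ∧ (x : G) ∉ F)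
  have hU : U.card ≤ Ff.card := by
    refine (Finset.card_le_card (t := Ff.image f) fun c hc => ?_).trans Finset.card_image_le
    obtain ⟨hcI, hc1⟩ := Finset.mem_filter.mp hc
    obtain ⟨x, -, rfl⟩ := Finset.mem_image.mp hcI
    refine Finset.mem_image.mpr ⟨x, Finset.mem_filter.mpr ⟨Finset.mem_univ _, ?_⟩, rfl⟩
    have huniq : ∀ y, f y = f x → y = x := fun y hy =>
      Finset.card_le_one.mp hc1.le y (by simp [hy]) x (by simp)
    have hxZ : ∀ z ∈ (P : Subgroup G), z * x = x * z := by
      intro z hz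
      have h1 := huniq ⟨z * x * z⁻¹, mul_mem (mul_mem hz x.2) (inv_mem hz)⟩
        (ConjClasses.mk_eq_mk_iff_isConj.mpr (isConj_iff.mpr ⟨z, rfl⟩)).symm
      exact mul_inv_eq_iff_eq_mul.mp (congrArg Subtype.val h1)
    have hxB : (x : G) ∈ B :=
      hcent x x.2 (mem_centralizer_iff.mpr fun b hb => hxZ b (hBP hb))
    exact (hfix _).mpr ⟨hxB,
      congrArg Subtype.val (huniq ⟨_, hBP (hmem _ hxB)⟩ (hconj x))⟩
  have hT : Bf.card ≤ ∑ c ∈ T, n c := by
    have hmaps : ∀ x ∈ Bf, f x ∈ T := by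
      intro x hx
      obtain ⟨-, hxB, hxF⟩ := Finset.mem_filter.mp hx
      refine Finset.mem_filter.mpr ⟨Finset.mem_image_of_mem _ (Finset.mem_univ _), ?_⟩
      let y : ↥(P : Subgroup G) := ⟨_, hBP (hmem _ hxB)⟩
      let z : ↥(P : Subgroup G) := ⟨_, hBP (hmem _ (hmem _ hxB))⟩
      have hxy : x ≠ y := fun e => hxF ((hfix _).mpr ⟨hxB, (congrArg Subtype.val e).symm⟩)
      have hyz : y ≠ z := fun e => hxy (Subtype.ext (by
        have e' := congrArg Subtype.val e
        simp only [y, z] at e'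
        exact mul_left_cancel (mul_right_cancel e')))
      have hxz : x ≠ z := fun e => by
        have e' := congrArg Subtype.val e
        simp only [z] at e'
        have hpow : ∀ k : ℕ, (g * g) ^ k * (x : G) * ((g * g) ^ k)⁻¹ = x := by
          intro k
          induction k with
          | zero => simp
          | succ k ih =>
            calc (g * g) ^ (k + 1) * (x : G) * ((g * g) ^ (k + 1))⁻¹
                = g * (g * ((g * g) ^ k * (x : G) * ((g * g) ^ k)⁻¹) * g⁻¹) * g⁻¹ := by
                  simp only [pow_succ' (g * g), mul_inv_rev, mul_assoc]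
              _ = x := by rw [ih, ← e']
        obtain ⟨m, hm⟩ := hgo
        have hg2 : (g * g) ^ (m + 1) = g := by
          rw [← pow_two, ← pow_mul, show 2 * (m + 1) = orderOf g + 1 by omega, pow_succ,
            pow_orderOf_eq_one, one_mul]
        have := hpow (m + 1)
        rw [hg2] at this
        exact hxy (Subtype.ext this.symm)
      calc 3 = ({x, y, z} : Finset _).card := by
            rw [Finset.card_insert_of_notMem (by simp [hxy, hxz]),
              Finset.card_insert_of_notMem (by simp [hyz]), Finset.card_singleton]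
        _ ≤ n (f x) := Finset.card_le_card (by
            intro w hw
            simp only [Finset.mem_insert, Finset.mem_singleton] at hw
            rcases hw with rfl | rfl | rfl <;> simp [f, y, z, hconj])
    calc Bf.card ≤ (univ.filter (fun x => f x ∈ T)).card :=
          Finset.card_le_card fun x hx => Finset.mem_filter.mpr ⟨Finset.mem_univ _, hmaps x hx⟩
      _ = ∑ c ∈ T, n c := by
          rw [Finset.card_eq_sum_card_fiberwise (f := f) (s := univ.filter (fun x => f x ∈ T)) (t := T)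
            (fun x hx => (Finset.mem_filter.mp hx).2)]
          refine Finset.sum_congr rfl fun c hc => ?_
          rw [Finset.filter_filter]
          exact congrArg Finset.card (Finset.filter_congr fun x _ =>
            ⟨fun h => h.2, fun h => ⟨h ▸ hc, h⟩⟩)
  have hBF : 3 * Ff.card ≤ Bf.card := by
    have e1 : Ff.card = Nat.card F := by
      rw [← Fintype.card_subtype, ← Nat.card_eq_fintype_card]
      exact Nat.card_congr ⟨fun x => ⟨_, x.2⟩, fun x => ⟨⟨x, hBP ((hfix _).mp x.2).1⟩, x.2⟩,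
        fun x => rfl, fun x => rfl⟩
    have e2 : (univ.filter (fun x : ↥(P : Subgroup G) => (x : G) ∈ B)).card = Nat.card B := by
      rw [← Fintype.card_subtype, ← Nat.card_eq_fintype_card]
      exact Nat.card_congr ⟨fun x => ⟨_, x.2⟩, fun x => ⟨⟨x, hBP x.2⟩, x.2⟩,
        fun x => rfl, fun x => rfl⟩
    have e3 : Ff.card + Bf.card = (univ.filter (fun x : ↥(P : Subgroup G) => (x : G) ∈ B)).card := by
      rw [← Finset.card_union_of_disjoint (Finset.disjoint_left.mpr fun x h1 h2 =>
        (Finset.mem_filter.mp h2).2.2 (Finset.mem_filter.mp h1).2)]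
      congr 1
      ext x
      simp only [Ff, Bf, Finset.mem_union, Finset.mem_filter, Finset.mem_univ, true_and]
      exact ⟨fun h => h.elim (fun h => ((hfix _).mp h).1) And.left,
        fun h => (em _).imp_right fun h' => ⟨h, h'⟩⟩
    have e4 : F.relIndex B * Nat.card F = Nat.card B :=
      (mul_comm _ _).trans (by simpa only [relIndex_bot_left] using Subgroup.relIndex_mul_relIndex (⊥ : Subgroup G) F B bot_le inf_le_left)
    nlinarith
  have hmain : ∑ c ∈ I, 2 + ∑ c ∈ T, (n c - 2) ≤ Fintype.card ↥(P : Subgroup G) + U.card := by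
    rw [← hsum, Finset.card_filter, Finset.sum_filter, ← Finset.sum_add_distrib,
      ← Finset.sum_add_distrib]
    refine Finset.sum_le_sum fun c hc => ?_
    have h0 : 1 ≤ n c := by
      obtain ⟨x, -, rfl⟩ := Finset.mem_image.mp hc
      exact Finset.card_pos.mpr ⟨x, by simp⟩
    split_ifs <;> omega
  have hT3 : ∑ c ∈ T, n c ≤ 3 * ∑ c ∈ T, (n c - 2) := by
    rw [Finset.mul_sum]
    exact Finset.sum_le_sum fun c hc => by have := (Finset.mem_filter.mp hc).2; omega
  rw [Finset.sum_const, smul_eq_mul] at hmain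
  omega

/-- Let G be a finite group with Sylow 2-subgroup P, and write k₂(G) for the number of conjugacy classes of G consisting of 2-elements (elements of 2-power order, the identity included). Then k₂(G) > |P|/2 if and only if G has a normal 2-complement and P has more than |P|/2 conjugacy classes. -/
theorem result {G : Type*} [Group G] [Finite G] (P : Sylow 2 G) :
    Nat.card ↥(P : Subgroup G) < 2 * Nat.card {c : ConjClasses G // ∀ x ∈ c.carrier, ∃ k : ℕ, orderOf x = 2 ^ k} ↔
      Cfsg.HasNormalPComplement 2 G ∧ Nat.card ↥(P : Subgroup G) < 2 * Nat.card (ConjClasses ↥(P : Subgroup G)) := by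
  classical
  haveI : Fintype G := Fintype.ofFinite G
  set S := {c : ConjClasses G // ∀ x ∈ c.carrier, ∃ k : ℕ, orderOf x = 2 ^ k}
  set f := fun x : ↥(P : Subgroup G) => ConjClasses.mk (x : G)
  have hk2 : Nat.card S = (Finset.univ.image f).card := by
    rw [← Nat.card_eq_finsetCard]
    refine Nat.card_congr (Equiv.subtypeEquivRight fun c => ⟨fun h => ?_, fun h x hx => ?_⟩)
    · obtain ⟨x, rfl⟩ := c.exists_rep
      obtain ⟨k, hk⟩ := h x ConjClasses.mem_carrier_mk
      obtain ⟨Q, hQ⟩ := (IsPGroup.of_card (G := ↥(Subgroup.zpowers x)) (p := 2) (n := k)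
        (by rw [Nat.card_zpowers, hk])).exists_le_sylow
      obtain ⟨g, rfl⟩ := MulAction.exists_smul_eq G P Q
      have hxP := hQ (Subgroup.mem_zpowers x)
      rw [Sylow.coe_subgroup_smul, Subgroup.mem_pointwise_smul_iff_inv_smul_mem] at hxP
      refine Finset.mem_image.mpr ⟨⟨_, hxP⟩, Finset.mem_univ _, ?_⟩
      exact ConjClasses.mk_eq_mk_iff_isConj.mpr (isConj_iff.mpr ⟨g, by simp [MulAut.smul_def, mul_assoc]⟩)
    · obtain ⟨y, -, rfl⟩ := Finset.mem_image.mp h
      rw [ConjClasses.mem_carrier_iff_mk_eq, ConjClasses.mk_eq_mk_iff_isConj, isConj_iff] at hx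
      obtain ⟨g, hg⟩ := hx
      obtain ⟨k, hk⟩ := IsPGroup.iff_orderOf.mp P.isPGroup' y
      refine ⟨k, ?_⟩
      rw [← hk, ← Subgroup.orderOf_coe, ← hg, ← MulAut.conj_apply, MulEquiv.orderOf_eq]
  set q := ConjClasses.map (P : Subgroup G).subtype
  have himg : (Finset.univ.image f).card = Nat.card (Set.range q) := by
    rw [← Nat.card_eq_finsetCard]
    refine Nat.card_congr (Equiv.subtypeEquivRight fun c => ?_)
    simp only [Finset.mem_image, Finset.mem_univ, true_and, Set.mem_range]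
    constructor
    · rintro ⟨x, rfl⟩; exact ⟨ConjClasses.mk x, rfl⟩
    · rintro ⟨c, rfl⟩; obtain ⟨x, rfl⟩ := c.exists_rep; exact ⟨x, rfl⟩
  have hle : Nat.card S ≤ Nat.card (ConjClasses ↥(P : Subgroup G)) := by
    rw [hk2, himg]
    exact Finite.card_range_le q
  constructor
  · intro h
    refine ⟨?_, by omega⟩
    by_contra hc
    have := two_mul_card_le P hc
    rw [hk2, Nat.card_eq_fintype_card] at h
    exact absurd (lt_of_lt_of_le h (by convert this)) (lt_irrefl _)
  · rintro ⟨hc, h⟩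
    suffices Nat.card (ConjClasses ↥(P : Subgroup G)) ≤ Nat.card S by omega
    rw [hk2, himg]
    refine le_of_eq (Nat.card_range_of_injective ?_).symm
    intro a b hab
    obtain ⟨x, rfl⟩ := a.exists_rep
    obtain ⟨y, rfl⟩ := b.exists_rep
    change ConjClasses.mk (x : G) = ConjClasses.mk (y : G) at hab
    rw [ConjClasses.mk_eq_mk_iff_isConj, isConj_iff] at hab
    obtain ⟨g, hg⟩ := hab
    refine ConjClasses.mk_eq_mk_iff_isConj.mpr (isConj_iff.mpr ?_)
    have hN := Cfsg.Agent.Transfer.isComplement'_pResidual P hc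
    haveI : (Cfsg.pResidual 2 G).Normal := Cfsg.Agent.Transfer.pResidual_normal
    obtain ⟨⟨⟨n, hn⟩, ⟨a, ha⟩⟩, he⟩ := hN.2 g
    simp only at he
    subst he
    refine ⟨⟨a, ha⟩, Subtype.ext ?_⟩
    show a * (x : G) * a⁻¹ = y
    have hx' : a * (x : G) * a⁻¹ ∈ (P : Subgroup G) := mul_mem (mul_mem ha x.2) (inv_mem ha)
    have h1 : (a * (x : G) * a⁻¹)⁻¹ * y ∈ (P : Subgroup G) := mul_mem (inv_mem hx') y.2
    have h2 : (a * (x : G) * a⁻¹)⁻¹ * y ∈ Cfsg.pResidual 2 G := by
      rw [← hg, show (a * (x : G) * a⁻¹)⁻¹ * (n * a * x * (n * a)⁻¹) =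
        ((a * (x : G) * a⁻¹)⁻¹ * n * (a * (x : G) * a⁻¹)⁻¹⁻¹) * n⁻¹ by group]
      exact mul_mem (Subgroup.Normal.conj_mem inferInstance _ hn _) (inv_mem hn)
    exact inv_mul_eq_one.mp (Subgroup.disjoint_def.mp hN.disjoint h2 h1)

end Cfsg.Agent.S3895
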