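import Cfsg.Statements.S3897
import Cfsg.Agent.TwoGroups.PiSylow

set_option autoImplicit false
open Cfsg Cfsg.Agent.TwoGroups.PiClasses

namespace Cfsg.Agent.S3897

/-- Let p be an odd prime and G a finite group with Sylow p-subgroup P, and write k_p(G) for the number of conjugacy classes of G consisting of p-elements (elements of p-power order, the identity included). Then k_p(G) > (p + 1)|P|/(2p) if and only if G has a normal p-complement and P is abelian. -/
theorem result {G : Type*} [Group G] [Finite G] {p : ℕ} [Fact p.Prime] (hp : p ≠ 2) (P : Sylow p G) :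
    (p + 1) * Nat.card ↥(P : Subgroup G) < 2 * p * Nat.card {c : ConjClasses G // ∀ x ∈ c.carrier, ∃ k : ℕ, orderOf x = p ^ k} ↔
      Cfsg.HasNormalPComplement p G ∧ IsMulCommutative ↥(P : Subgroup G) := by
  classical
  rw [card_pClasses_eq]
  set k := kDiv (p ^ (Nat.card G).factorization p) G
  have hp' : p.Prime := Fact.out
  have hp3 : 3 ≤ p := by have := hp'.two_le; omega
  have hPpos : 0 < Nat.card ↥(P : Subgroup G) := Nat.card_pos
  constructor
  · intro h
    have hab : IsMulCommutative ↥(P : Subgroup G) := by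
      by_contra hab
      have hb := bound_of_nonabelian P hab
      obtain ⟨d, rfl⟩ : ∃ d, p = d + 3 := ⟨p - 3, by omega⟩
      simp only [Nat.add_succ_sub_one] at hb
      have h2 := Nat.mul_lt_mul_of_pos_left h (pow_pos (show 0 < d + 3 by omega) 2)
      have e3 : (d + 3) ^ 2 * (2 * (d + 3) * k) = 2 * ((d + 3) ^ 3 * k) := by ring
      rw [e3] at h2
      have key : 2 * ((d + 3) ^ 2 + (d + 2)) ≤ (d + 3) ^ 2 * (d + 4) := by nlinarith
      nlinarith [Nat.mul_le_mul_left 2 hb, Nat.mul_le_mul_right (Nat.card ↥(P : Subgroup G)) key]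
    refine ⟨?_, hab⟩
    by_contra hc
    obtain ⟨g, t, ht, -, -, hgN, hgt, hgC, -⟩ := exists_prime_mover P hab (K := ⊤) (by
      rw [top_inf_eq]; exact fun h' => hc (complement_of_central P h'))
    have hb := bound_of_mover P ht hgN hgt hgC ht.two_le
    rw [show (2 : ℕ) - 1 = 1 from rfl] at hb
    nlinarith
  · rintro ⟨hc, hab⟩
    haveI : Fintype ↥(P : Subgroup G) := Fintype.ofFinite _
    have hk : k = Nat.card ↥(P : Subgroup G) := by
      show kDiv _ G = _
      rw [kDiv_eq_sylow_image P, Finset.card_image_of_injective, Finset.card_univ, Nat.card_eq_fintype_card]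
      intro x y hxy
      obtain ⟨g, hg⟩ := isConj_iff.mp (ConjClasses.mk_eq_mk_iff_isConj.mp hxy)
      obtain ⟨a, ha⟩ := exists_conj_of_complement P hc x y hg
      rw [← ha, mul_comm' a x, mul_inv_cancel_right]
    rw [hk]
    nlinarith

end Cfsg.Agent.S3897
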