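import Cfsg.Statements.S3898
import Cfsg.Agent.TwoGroups.PiHall
import Cfsg.Agent.S3895

set_option autoImplicit false
open Cfsg Cfsg.Agent.TwoGroups.PiClasses

namespace Cfsg.Agent.S3898

/-- Let π be a finite set of primes containing 2 and G a finite group. Write k_π(G) for the number of conjugacy classes of G consisting of π-elements (elements all of whose order's prime divisors lie in π) and |G|_π for the π-part of the order of G. If k_π(G) > |G|_π/2, then G has a normal π-complement (a normal subgroup of order prime to π whose index is a π-number) and an abelian Hall subgroup for the set of odd primes in π. -/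
theorem result {G : Type*} [Group G] [Finite G] (π : Finset ℕ) (hπ : ∀ r ∈ π, r.Prime) (h2 : 2 ∈ π)
    (hk : π.prod (fun r => r ^ (Nat.card G).factorization r) < 2 * Nat.card {c : ConjClasses G // ∀ x ∈ c.carrier, ∀ r : ℕ, r.Prime → r ∣ orderOf x → r ∈ π}) :
    (∃ N : Subgroup G, N.Normal ∧ (∀ r : ℕ, r.Prime → r ∣ Nat.card ↥N → r ∉ π) ∧ ∀ r : ℕ, r.Prime → r ∣ N.index → r ∈ π) ∧ ∃ H : Subgroup G, Cfsg.IsPiHall ((↑π : Set ℕ) \ {2}) H ∧ IsMulCommutative ↥H := by
  rw [card_piClasses_eq hπ] at hk
  have hk' : 1 * part π (Nat.card G) < 2 * kDiv (part π (Nat.card G)) G := by rw [one_mul]; exact hk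
  haveI := Fact.mk Nat.prime_two
  have hc2 : Cfsg.HasNormalPComplement 2 G := by
    obtain ⟨Q⟩ : Nonempty (Sylow 2 G) := inferInstance
    have hsub := lt_of_subset (μ := {2}) hπ (Finset.singleton_subset_iff.mpr h2) hk'
    rw [show part {2} (Nat.card G) = 2 ^ (Nat.card G).factorization 2 from Finset.prod_singleton _ _,
      one_mul, ← card_pClasses_eq, ← Q.card_eq_multiplicity] at hsub
    exact ((Cfsg.Agent.S3895.result Q).mp hsub).1
  have hdata : ∀ r ∈ π, r ≠ 2 → Cfsg.HasNormalPComplement r G ∧
      ∀ P : Sylow r G, IsMulCommutative ↥(P : Subgroup G) := by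
    intro r hr hr2
    haveI := Fact.mk (hπ r hr)
    have hr3 : 3 ≤ r := by have := (hπ r hr).two_le; omega
    have hsub := lt_of_subset (μ := {r}) hπ (Finset.singleton_subset_iff.mpr hr) hk'
    rw [show part {r} (Nat.card G) = r ^ (Nat.card G).factorization r from Finset.prod_singleton _ _,
      one_mul] at hsub
    have hab : ∀ P : Sylow r G, IsMulCommutative ↥(P : Subgroup G) := by
      intro P
      by_contra hab
      have hb := bound_of_nonabelian P hab
      rw [← P.card_eq_multiplicity] at hsub hb
      obtain ⟨d, rfl⟩ : ∃ d, r = d + 3 := ⟨r - 3, by omega⟩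
      simp only [Nat.add_succ_sub_one] at hb
      have key : 2 * ((d + 3) ^ 2 + (d + 2)) ≤ (d + 3) ^ 3 := by nlinarith
      nlinarith [Nat.mul_le_mul_left 2 hb, Nat.mul_le_mul_right (Nat.card ↥(P : Subgroup G)) key,
        Nat.mul_lt_mul_of_pos_left hsub (pow_pos (show 0 < d + 3 by omega) 3)]
    refine ⟨?_, hab⟩
    by_contra hc
    obtain ⟨P⟩ : Nonempty (Sylow r G) := inferInstance
    have hodd : ∀ (g : G) (t : ℕ), t.Prime → t ≠ 2 → t ≠ r →
        g ∈ Subgroup.normalizer ((P : Subgroup G) : Set G) →
        g ^ t ∈ Subgroup.centralizer ((P : Subgroup G) : Set G) →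
        g ∈ Subgroup.centralizer ((P : Subgroup G) : Set G) := by
      intro g t ht ht2 htr hgN hgt
      by_contra hgC
      have hsub' := hsub
      rw [← P.card_eq_multiplicity] at hsub'
      have h4 : t ≠ 4 := by rintro rfl; exact absurd ht (by decide)
      have := ht.two_le
      by_cases hr3' : r = 3
      · subst hr3'
        have hb := bound_of_mover P ht hgN hgt hgC (show 5 ≤ t by omega)
        rw [← P.card_eq_multiplicity] at hb
        omega
      · have hb := bound_of_mover P ht hgN hgt hgC (show 3 ≤ t by omega)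
        rw [← P.card_eq_multiplicity] at hb
        have hr4 : 4 ≤ r := by omega
        simp only [Nat.add_one_sub_one] at hb
        nlinarith
    have hK : Cfsg.pResidual 2 G ⊓ Subgroup.normalizer ((P : Subgroup G) : Set G) ≤
        Subgroup.centralizer ((P : Subgroup G) : Set G) := by
      by_contra hK
      obtain ⟨g, t, ht, htr, -, hgN, hgt, hgC, htd⟩ := exists_prime_mover P (hab P) hK
      refine hgC (hodd g t ht ?_ htr hgN hgt)
      rintro rfl
      exact (Nat.prime_two.coprime_iff_not_dvd.mp
        (Cfsg.Agent.Transfer.hasNormalPComplement_iff_coprime_pResidual.mp hc2).symm) htd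
    obtain ⟨g, t, ht, htr, -, hgN, hgt, hgC, -⟩ := exists_prime_mover P (hab P) (K := ⊤) (by
      rw [top_inf_eq]; exact fun h' => hc (complement_of_central P h'))
    have hb := two_prime_bound hr2 P (hab P) hc2 hK hgN hgC
    have h2r := lt_of_subset (μ := {r, 2}) hπ
      (Finset.insert_subset hr (Finset.singleton_subset_iff.mpr h2)) hk'
    rw [show part {r, 2} (Nat.card G) = r ^ (Nat.card G).factorization r * 2 ^ (Nat.card G).factorization 2
      from Finset.prod_pair hr2] at h2r
    omega
  have := complement_and_hall π (π.erase 2) hπ (Finset.erase_subset 2 π)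
    (fun r hr => if e : r = 2 then e ▸ hc2 else (hdata r hr e).1)
    (fun r hr => (hdata r (Finset.mem_of_mem_erase hr) (Finset.ne_of_mem_erase hr)).2)
  rwa [Finset.coe_erase] at this

end Cfsg.Agent.S3898
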