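import Cfsg.Statements.S3899
import Cfsg.Agent.TwoGroups.PiHall
import Cfsg.Agent.S3897

set_option autoImplicit false
open Cfsg Cfsg.Agent.TwoGroups.PiClasses

namespace Cfsg.Agent.S3899

/-- Let π be a finite non-empty set of odd primes with smallest member p and G a finite group. Write k_π(G) for the number of conjugacy classes of G consisting of π-elements (elements all of whose order's prime divisors lie in π) and |G|_π for the π-part of the order of G. If k_π(G) > (p + 1)|G|_π/(2p), then G has a normal π-complement (a normal subgroup of order prime to π whose index is a π-number) and an abelian Hall π-subgroup. -/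
theorem result {G : Type*} [Group G] [Finite G] (π : Finset ℕ) (hπ : ∀ r ∈ π, r.Prime) (h2 : 2 ∉ π) (p : ℕ) (hp : p ∈ π)
    (hmin : ∀ r ∈ π, p ≤ r) (hk : (p + 1) * π.prod (fun r => r ^ (Nat.card G).factorization r) < 2 * p * Nat.card {c : ConjClasses G // ∀ x ∈ c.carrier, ∀ r : ℕ, r.Prime → r ∣ orderOf x → r ∈ π}) :
    (∃ N : Subgroup G, N.Normal ∧ (∀ r : ℕ, r.Prime → r ∣ Nat.card ↥N → r ∉ π) ∧ ∀ r : ℕ, r.Prime → r ∣ N.index → r ∈ π) ∧ ∃ H : Subgroup G, Cfsg.IsPiHall (↑π : Set ℕ) H ∧ IsMulCommutative ↥H := by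
  rw [card_piClasses_eq hπ] at hk
  have hdata : ∀ r ∈ π, Cfsg.HasNormalPComplement r G ∧ ∀ P : Sylow r G, IsMulCommutative ↥(P : Subgroup G) := by
    intro r hr
    haveI := Fact.mk (hπ r hr)
    have hr2 : r ≠ 2 := fun e => h2 (e ▸ hr)
    have hsub := lt_of_subset (μ := {r}) hπ (Finset.singleton_subset_iff.mpr hr) (a := p + 1) (b := 2 * p) hk
    rw [show part {r} (Nat.card G) = r ^ (Nat.card G).factorization r from Finset.prod_singleton _ _] at hsub
    obtain ⟨P⟩ : Nonempty (Sylow r G) := inferInstance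
    have key : ∀ Q : Sylow r G, (r + 1) * Nat.card ↥(Q : Subgroup G) <
        2 * r * Nat.card {c : ConjClasses G // ∀ x ∈ c.carrier, ∃ k : ℕ, orderOf x = r ^ k} := by
      intro Q
      rw [card_pClasses_eq, Q.card_eq_multiplicity]
      set R := r ^ (Nat.card G).factorization r
      refine Nat.lt_of_mul_lt_mul_left (a := p) ?_
      have hle : p * (r + 1) ≤ r * (p + 1) := by nlinarith [hmin r hr]
      calc p * ((r + 1) * R) = p * (r + 1) * R := (mul_assoc _ _ _).symm
        _ ≤ r * (p + 1) * R := Nat.mul_le_mul_right _ hle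
        _ = r * ((p + 1) * R) := mul_assoc _ _ _
        _ < r * (2 * p * kDiv R G) := Nat.mul_lt_mul_of_pos_left hsub (hπ r hr).pos
        _ = p * (2 * r * kDiv R G) := by ring
    exact ⟨((Cfsg.Agent.S3897.result hr2 P).mp (key P)).1,
      fun Q => ((Cfsg.Agent.S3897.result hr2 Q).mp (key Q)).2⟩
  exact complement_and_hall π π hπ subset_rfl (fun r hr => (hdata r hr).1) (fun r hr => (hdata r hr).2)

end Cfsg.Agent.S3899
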