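import Cfsg.Statements.S3903
import Cfsg.Agent.TwoGroups.Isolated
import Cfsg.Agent.FGS2.NilMax
import Cfsg.Agent.Fusion.Group

set_option autoImplicit false
open Cfsg

namespace Cfsg.Agent.S3903

open Subgroup

section Aux

open Subgroup
open scoped Pointwise

variable {G : Type*} [Group G] [Finite G]

theorem nilpotent_of_pgroup {p : ℕ} [Fact p.Prime] {M : Subgroup G} (hM : IsPGroup p M) :
    Group.IsNilpotent M := hM.isNilpotent

/-- A centralizer of an element outside `N` is a `p`-group. -/
theorem centralizer_isPGroup (N : Subgroup G) [N.Normal]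
    (h : ∀ x : G, x ∉ N → IsPrimePow (orderOf x) ∧ IsCoatom (centralizer ({x} : Set G)))
    {x : G} (hx : x ∉ N) {p k : ℕ} (hp : p.Prime) (hk : orderOf x = p ^ k) :
    IsPGroup p (centralizer ({x} : Set G)) := by
  haveI := Fact.mk hp
  have key : ∀ c ∈ centralizer ({x} : Set G), (orderOf c).Coprime p → c = 1 := by
    intro c hc hco
    have hcomm : Commute x c := (mem_centralizer_singleton_iff.mp hc).symm
    by_contra hc1
    by_cases hxc : x * c ∈ N
    · apply hx
      have h1 : x ^ orderOf c ∈ N := by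
        have := pow_mem hxc (orderOf c)
        rwa [hcomm.mul_pow, pow_orderOf_eq_one, mul_one] at this
      obtain ⟨m, hm⟩ := exists_pow_eq_self_of_coprime (x := x) (n := orderOf c)
        (by rw [hk]; exact hco.pow_right k)
      exact hm ▸ pow_mem h1 m
    · obtain ⟨q, j, hq, -, hqj⟩ := (isPrimePow_nat_iff _).mp (h _ hxc).1
      rw [hcomm.orderOf_mul_eq_mul_orderOf_of_coprime (by rw [hk]; exact (hco.pow_right k).symm), hk] at hqj
      have hc' : orderOf c ≠ 1 := fun e => hc1 (orderOf_eq_one_iff.mp e)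
      have hk0 : k ≠ 0 := fun e => hx (by
        rw [e, pow_zero, orderOf_eq_one_iff] at hk
        exact hk ▸ one_mem N)
      have hpq : p = q := (Nat.prime_dvd_prime_iff_eq hp hq).mp
        (hp.dvd_of_dvd_pow ((Dvd.dvd.mul_right (dvd_pow_self p hk0) _).trans (dvd_of_eq hqj.symm)))
      obtain ⟨r, hr, hrc⟩ := Nat.exists_prime_and_dvd hc'
      have hrq : r = q := (Nat.prime_dvd_prime_iff_eq hr hq).mp
        (hr.dvd_of_dvd_pow ((Dvd.dvd.mul_left hrc _).trans (dvd_of_eq hqj.symm)))
      exact hr.ne_one (Nat.eq_one_of_dvd_coprimes hco hrc (hpq ▸ hrq ▸ dvd_rfl))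
  intro c
  obtain ⟨a, m, hm, e⟩ := Nat.exists_eq_pow_mul_and_not_dvd (orderOf_pos (c : G)).ne' p hp.ne_one
  refine ⟨a, Subtype.ext ?_⟩
  show (c : G) ^ p ^ a = 1
  refine key _ (pow_mem c.2 _) (Nat.Coprime.of_dvd_left ?_ (hp.coprime_iff_not_dvd.mpr hm).symm)
  rw [orderOf_dvd_iff_pow_eq_one, ← pow_mul, ← e, pow_orderOf_eq_one]

/-- A normal maximal subgroup that is nilpotent forces solvability. -/
theorem isSolvable_of_normal_coatom {M : Subgroup G} [M.Normal] (hmax : IsCoatom M)
    (hnil : Group.IsNilpotent M) : Group.IsSolvable G := by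
  haveI := hnil
  haveI : Group.IsSolvable (G ⧸ M) := by
    obtain ⟨g, -, hg⟩ := SetLike.exists_of_lt hmax.1.lt_top
    have htop : zpowers (QuotientGroup.mk' M g) = ⊤ := by
      have h1 : ((zpowers (QuotientGroup.mk' M g)).comap (QuotientGroup.mk' M)) = ⊤ :=
        hmax.2 _ (SetLike.lt_iff_le_and_exists.mpr ⟨fun a ha => by
          rw [mem_comap, show QuotientGroup.mk' M a = 1 from (QuotientGroup.eq_one_iff a).mpr ha]
          exact one_mem _, g, mem_zpowers _, hg⟩)
      rw [← map_comap_eq_self_of_surjective (QuotientGroup.mk'_surjective M) (zpowers _), h1,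
        map_top_of_surjective _ (QuotientGroup.mk'_surjective M)]
    refine Group.isSolvable_of_comm fun a b => ?_
    obtain ⟨i, rfl⟩ := mem_zpowers_iff.mp (htop.ge (mem_top a))
    obtain ⟨j, rfl⟩ := mem_zpowers_iff.mp (htop.ge (mem_top b))
    exact (Commute.zpow_zpow_self _ i j).eq
  exact (Group.isSolvable_iff_subgroup_quotient M).mpr ⟨inferInstance, inferInstance⟩

/-- A non-normal maximal `p`-subgroup is a Sylow subgroup. -/
theorem not_dvd_index_of_coatom {p : ℕ} [Fact p.Prime] {M : Subgroup G} (hmax : IsCoatom M)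
    (hM : IsPGroup p M) (hn : ¬ M.Normal) : ¬ p ∣ M.index := by
  obtain ⟨S, hS⟩ := hM.exists_le_sylow
  suffices (S : Subgroup G) = M by rw [← this]; exact S.not_dvd_index
  by_contra hne
  have hlt : M < (S : Subgroup G) := lt_of_le_of_ne hS (Ne.symm hne)
  refine hn ?_
  have hS' : (S : Subgroup G) = ⊤ := hmax.2 _ hlt
  haveI : Group.IsNilpotent G :=
    @Group.nilpotent_of_mulEquiv _ _ _ _ S.isPGroup'.isNilpotent
      ((MulEquiv.subgroupCongr hS').trans topEquiv)
  exact (Group.normalizerCondition_of_isNilpotent).normal_of_coatom M hmax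

theorem relIndex_sup_of_normal (H N : Subgroup G) [N.Normal] :
    H.relIndex (H ⊔ N) = H.relIndex N := by
  have e1 : (⊥ : Subgroup G).relIndex H * H.relIndex (H ⊔ N) = Nat.card ↥(H ⊔ N) := by
    rw [relIndex_mul_relIndex _ _ _ bot_le le_sup_left, relIndex_bot_left]
  have e2 : (⊥ : Subgroup G).relIndex N * N.relIndex (H ⊔ N) = Nat.card ↥(H ⊔ N) := by
    rw [relIndex_mul_relIndex _ _ _ bot_le le_sup_right, relIndex_bot_left]
  have e3 : (⊥ : Subgroup G).relIndex (H ⊓ N) * (H ⊓ N).relIndex H = Nat.card H := by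
    rw [relIndex_mul_relIndex _ _ _ bot_le inf_le_left, relIndex_bot_left]
  have e4 : (⊥ : Subgroup G).relIndex (H ⊓ N) * (H ⊓ N).relIndex N = Nat.card N := by
    rw [relIndex_mul_relIndex _ _ _ bot_le inf_le_right, relIndex_bot_left]
  rw [relIndex_bot_left, inf_relIndex_left] at e3
  rw [relIndex_bot_left, inf_relIndex_right] at e4
  rw [relIndex_bot_left] at e1 e2
  rw [relIndex_sup_right] at e2
  rw [← e2, ← e4, ← e3] at e1
  refine Nat.eq_of_mul_eq_mul_left (Nat.mul_pos (Nat.card_pos (α := ↥(H ⊓ N)))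
    (Nat.pos_of_ne_zero (show N.relIndex H ≠ 0 from (N.subgroupOf H).index_ne_zero_of_finite))) ?_
  rw [e1]; ring

end Aux

/-- Let N be a proper normal subgroup of the finite group G such that every element x of G outside N has prime power order and has centralizer C_G(x) a maximal subgroup of G. Then N is solvable. -/
theorem result {G : Type*} [Group G] [Finite G] (N : Subgroup G) [N.Normal] (hN : N ≠ ⊤)
    (h : ∀ x : G, x ∉ N → IsPrimePow (orderOf x) ∧ IsCoatom (Subgroup.centralizer ({x} : Set G))) : Group.IsSolvable ↥N := by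
  skip
  classical
  haveI := Fact.mk Nat.prime_two
  suffices hG : Group.IsSolvable G ∨ Group.IsSolvable ↥N by
    rcases hG with hG | hG
    · infer_instance
    · exact hG
  by_contra hns
  push Not at hns
  obtain ⟨hns, hnsN⟩ := hns
  obtain ⟨x, -, hx⟩ := SetLike.exists_of_lt hN.lt_top
  obtain ⟨p, k, hp, hk0, hk⟩ := (isPrimePow_nat_iff _).mp (h x hx).1
  haveI := Fact.mk hp
  set M := centralizer ({x} : Set G)
  have hMmax : IsCoatom M := (h x hx).2
  have hMp : IsPGroup p M := centralizer_isPGroup N h hx hp hk.symm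
  have hp2 : p = 2 := by
    by_contra hp2
    refine hns (Cfsg.Agent.FGS2.NilMax.isSolvable_of_odd hMmax hMp.isNilpotent ?_)
    obtain ⟨j, hj⟩ := IsPGroup.iff_card.mp hMp
    rw [hj]
    exact (hp.odd_of_ne_two hp2).pow
  subst hp2
  -- every element outside `N` congruent to `x` has a Sylow centraliser
  have hsyl : ∀ y : G, x⁻¹ * y ∈ N → IsPGroup 2 (centralizer ({y} : Set G)) ∧
      ¬ 2 ∣ (centralizer ({y} : Set G)).index := by
    intro y hy
    have hyN : y ∉ N := fun hyN => hx (by
      have := N.mul_mem hyN (N.inv_mem hy)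
      simpa using this)
    obtain ⟨q, j, hq, -, hqj⟩ := (isPrimePow_nat_iff _).mp (h y hyN).1
    have hq2 : q = 2 := by
      by_contra hq2
      apply hx
      have h1 : (QuotientGroup.mk y : G ⧸ N) = QuotientGroup.mk x :=
        (QuotientGroup.eq.mpr hy).symm
      have h2 : x ^ q ^ j ∈ N := by
        rw [← QuotientGroup.eq_one_iff, QuotientGroup.mk_pow, ← h1, ← QuotientGroup.mk_pow, hqj,
          pow_orderOf_eq_one, QuotientGroup.mk_one]
      obtain ⟨m, hm⟩ := exists_pow_eq_self_of_coprime (x := x) (n := q ^ j)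
        (by rw [← hk]; exact Nat.coprime_pow_primes j k hq Nat.prime_two hq2)
      exact hm ▸ pow_mem h2 m
    subst hq2
    have hC := centralizer_isPGroup N h hyN Nat.prime_two hqj.symm
    refine ⟨hC, not_dvd_index_of_coatom (h y hyN).2 hC fun hn => hns ?_⟩
    haveI := hn
    exact isSolvable_of_normal_coatom (h y hyN).2 hC.isNilpotent
  have hMi : ¬ 2 ∣ M.index := (hsyl x (by simp)).2
  set D := M ⊓ N with hDdef
  have hDi : ∀ C : Subgroup G, ¬ 2 ∣ C.index → ¬ 2 ∣ (C ⊓ N).relIndex N := fun C hC h2 => hC (by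
    rw [inf_relIndex_right] at h2
    rw [← relIndex_sup_of_normal] at h2
    exact h2.trans (relIndex_dvd_index_of_le le_sup_left))
  set T := D ⊔ zpowers x
  have hTM : T ≤ M := sup_le inf_le_left (zpowers_le.mpr (mem_centralizer_singleton_iff.mpr rfl))
  have hxT : x ∈ T := mem_sup_right (mem_zpowers x)
  have hTN : T ⊓ N = D :=
    le_antisymm (le_inf (inf_le_left.trans hTM) inf_le_right) (le_inf le_sup_left inf_le_right)
  set X := N ⊔ T
  have hTidx : ¬ 2 ∣ T.relIndex X := by
    rw [show T.relIndex X = T.relIndex N from (congrArg T.relIndex (sup_comm N T)).trans (relIndex_sup_of_normal T N)]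
    intro h2
    exact hDi M hMi (h2.trans (relIndex_dvd_of_le_left N (le_sup_left : D ≤ T)))
  have hXdec : ∀ g ∈ X, ∃ n ∈ N, ∃ t ∈ T, g = n * t := fun g hg => by
    obtain ⟨n, hn, t, ht, e⟩ := mem_sup_of_normal_left.mp hg
    exact ⟨n, hn, t, ht, e.symm⟩
  -- orbits of `N` on the coset of `x`
  let orb : G → Finset G := fun y => (Set.range fun n : N => (n : G) * y * (n : G)⁻¹).toFinite.toFinset
  have horb : ∀ y, x⁻¹ * y ∈ N → (orb y).card * Nat.card D = Nat.card N := by
    intro y hy
    set C := centralizer ({y} : Set G)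
    have hcard : Nat.card ↥(C ⊓ N) = Nat.card D := by
      obtain ⟨S', hS'⟩ : ∃ S' : Sylow 2 G, (S' : Subgroup G) = C :=
        ⟨(hsyl y hy).1.toSylow (hsyl y hy).2, rfl⟩
      obtain ⟨S, hS⟩ : ∃ S : Sylow 2 G, (S : Subgroup G) = M := ⟨hMp.toSylow hMi, rfl⟩
      obtain ⟨g, hg⟩ := MulAction.exists_smul_eq G S S'
      have e : C ⊓ N = D.map (MulAut.conj g).toMonoidHom := by
        have h1 : C = M.map (MulAut.conj g).toMonoidHom := by
          rw [← hS', ← hg, Sylow.coe_subgroup_smul, hS]; rfl
        rw [hDdef, map_inf _ _ _ (MulAut.conj g).injective, ← h1]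
        congr 1
        exact (Cfsg.Agent.Transfer.mem_normalizer_iff_map_conj.mp
          (by rw [normalizer_eq_top_iff.mpr inferInstance]; exact mem_top g)).symm
      rw [e, Cfsg.Agent.Transfer.card_map_conj]
    let K := (C ⊓ N).subgroupOf N
    have e1 : (orb y).card = K.index := by
      rw [← Nat.card_eq_finsetCard]
      refine (Nat.card_congr (Equiv.ofBijective (fun q : N ⧸ K => Quotient.liftOn' q
        (fun n => (⟨(n : G) * y * (n : G)⁻¹, by simp [orb]⟩ : orb y)) ?_) ⟨?_, ?_⟩)).symm
      · intro a b hab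
        rw [QuotientGroup.leftRel_apply] at hab
        refine Subtype.ext ?_
        have h1 : ((a : G)⁻¹ * b) * y = y * ((a : G)⁻¹ * b) := mem_centralizer_singleton_iff.mp hab.1
        calc (a : G) * y * (a : G)⁻¹ = a * (y * ((a : G)⁻¹ * b)) * (b : G)⁻¹ := by group
          _ = a * ((a : G)⁻¹ * b * y) * (b : G)⁻¹ := by rw [h1]
          _ = b * y * (b : G)⁻¹ := by group
      · intro q q' hqq
        induction q using QuotientGroup.induction_on with | H a => ?_
        induction q' using QuotientGroup.induction_on with | H b => ?_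
        have h2 : (a : G) * y * (a : G)⁻¹ = b * y * (b : G)⁻¹ := congrArg Subtype.val hqq
        refine QuotientGroup.eq.mpr ⟨mem_centralizer_singleton_iff.mpr ?_, (a⁻¹ * b).2⟩
        show (a : G)⁻¹ * b * y = y * ((a : G)⁻¹ * b)
        calc (a : G)⁻¹ * b * y = (a : G)⁻¹ * (b * y * (b : G)⁻¹) * b := by group
          _ = y * ((a : G)⁻¹ * b) := by rw [← h2]; group
      · rintro ⟨w, hw⟩
        obtain ⟨n, rfl⟩ : ∃ n : N, (n : G) * y * (n : G)⁻¹ = w := by simpa [orb] using hw
        exact ⟨QuotientGroup.mk n, rfl⟩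
    rw [e1, ← hcard, ← Nat.card_congr (subgroupOfEquivOfLe (inf_le_right : C ⊓ N ≤ N)).toEquiv]
    exact K.index_mul_card
  -- each element of the coset is `N`-conjugate to some `d * x` with `d` central in `D`
  set Zc := ((Set.univ : Set G).toFinite.toFinset).filter fun d => d ∈ D ∧ ∀ e ∈ D, d * e = e * d with hZc
  have hcover : ∀ y, x⁻¹ * y ∈ N → ∃ d ∈ Zc, y ∈ orb (d * x) := by
    intro y hy
    obtain ⟨n₁, hn₁, hle⟩ := Cfsg.Agent.Fusion.exists_conj_le_of_sylow (p := 2) (inf_le_right : D ≤ N)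
      (hMp.to_le inf_le_left) (by have := hDi M hMi; exact this) (inf_le_right : centralizer ({y} : Set G) ⊓ N ≤ N)
      ((hsyl y hy).1.to_le inf_le_left)
    set y' := n₁ * y * n₁⁻¹ with hy'def
    have hy'N : x⁻¹ * y' ∈ N := by
      rw [← QuotientGroup.eq_one_iff, hy'def]
      simp only [QuotientGroup.mk_mul, QuotientGroup.mk_inv, (QuotientGroup.eq_one_iff n₁).mpr hn₁,
        one_mul, inv_one, mul_one]
      rw [← QuotientGroup.mk_inv, ← QuotientGroup.mk_mul]
      exact (QuotientGroup.eq_one_iff _).mpr hy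
    have hDy' : ∀ e ∈ D, e * y' = y' * e := by
      have heq : (centralizer ({y} : Set G) ⊓ N).map (MulAut.conj n₁).toMonoidHom = D := by
        refine eq_of_le_of_card_ge (by rintro _ ⟨r, hr, rfl⟩; exact hle r hr) ?_
        rw [Cfsg.Agent.Transfer.card_map_conj]
        refine le_of_eq (Nat.eq_of_mul_eq_mul_left (n := (orb y).card) ?_ ?_)
        · exact Finset.card_pos.mpr ⟨y, by simp only [orb, Set.Finite.mem_toFinset]; exact ⟨1, by simp⟩⟩
        · rw [horb y hy]
          have h1 := horb y' hy'N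
          by_contra hne
          exact hne (by
            obtain ⟨S', hS'⟩ : ∃ S' : Sylow 2 G, (S' : Subgroup G) = centralizer ({y} : Set G) :=
              ⟨(hsyl y hy).1.toSylow (hsyl y hy).2, rfl⟩
            obtain ⟨S, hS⟩ : ∃ S : Sylow 2 G, (S : Subgroup G) = M := ⟨hMp.toSylow hMi, rfl⟩
            obtain ⟨g, hg⟩ := MulAction.exists_smul_eq G S S'
            have e : centralizer ({y} : Set G) ⊓ N = D.map (MulAut.conj g).toMonoidHom := by
              have h1 : centralizer ({y} : Set G) = M.map (MulAut.conj g).toMonoidHom := by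
                rw [← hS', ← hg, Sylow.coe_subgroup_smul, hS]; rfl
              rw [hDdef, map_inf _ _ _ (MulAut.conj g).injective, ← h1]
              congr 1
              exact (Cfsg.Agent.Transfer.mem_normalizer_iff_map_conj.mp
                (by rw [normalizer_eq_top_iff.mpr inferInstance]; exact mem_top g)).symm
            rw [e, Cfsg.Agent.Transfer.card_map_conj]
            exact (horb y hy).symm)
      intro e he
      obtain ⟨r, hr, rfl⟩ := heq.ge he
      have := mem_centralizer_singleton_iff.mp hr.1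
      simp only [MulEquiv.coe_toMonoidHom, MulAut.conj_apply, hy'def]
      calc n₁ * r * n₁⁻¹ * (n₁ * y * n₁⁻¹) = n₁ * (r * y) * n₁⁻¹ := by group
        _ = n₁ * (y * r) * n₁⁻¹ := by rw [this]
        _ = n₁ * y * n₁⁻¹ * (n₁ * r * n₁⁻¹) := by group
    set L := X ⊓ Subgroup.normalizer (D : Set G)
    have hTL : T ≤ L := le_inf le_sup_right (sup_le le_normalizer (zpowers_le.mpr
      (mem_normalizer_iff.mpr fun e => by
        constructor
        · intro he
          rw [show x * e * x⁻¹ = e from mul_inv_eq_iff_eq_mul.mpr (mem_centralizer_singleton_iff.mp he.1).symm]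
          exact he
        · intro he
          have h1 := mem_centralizer_singleton_iff.mp he.1
          rw [inv_mul_cancel_right] at h1
          have h2 : e = x * e * x⁻¹ := mul_left_cancel h1
          rw [h2]
          exact he)))
    have hy'X : y' ∈ X := by
      have := mul_mem (mem_sup_right hxT : x ∈ X) (mem_sup_left hy'N : x⁻¹ * y' ∈ X)
      rwa [mul_inv_cancel_left] at this
    have hy'D : y' ∈ Subgroup.normalizer (D : Set G) :=
      centralizer_le_normalizer _ (mem_centralizer_iff.mpr fun e he => hDy' e he)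
    have hR : IsPGroup 2 ↥(D ⊔ zpowers y') := by
      refine (hsyl y' hy'N).1.to_le (sup_le (fun e he => mem_centralizer_singleton_iff.mpr (hDy' e he))
        (zpowers_le.mpr (mem_centralizer_singleton_iff.mpr rfl)))
    obtain ⟨l, hl, hlT⟩ := Cfsg.Agent.Fusion.exists_conj_le_of_sylow (p := 2) hTL
      ((hMp.to_le hTM)) (fun h2 => hTidx (h2.trans (Dvd.intro _
        (relIndex_mul_relIndex T L X hTL inf_le_left))))
      (sup_le (le_inf ((inf_le_right : D ≤ N).trans le_sup_left) le_normalizer)
        (zpowers_le.mpr ⟨hy'X, hy'D⟩)) hR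
    obtain ⟨t, ht, n₂, hn₂, rfl⟩ := mem_sup_of_normal_right.mp ((le_of_eq (sup_comm N T) : X ≤ T ⊔ N) hl.1)
    have hw : n₂ * y' * n₂⁻¹ ∈ T := by
      have h1 : t * n₂ * y' * (t * n₂)⁻¹ ∈ T := hlT y' (mem_sup_right (mem_zpowers y'))
      have := mul_mem (mul_mem (inv_mem ht) h1) ht
      rwa [show t⁻¹ * (t * n₂ * y' * (t * n₂)⁻¹) * t = n₂ * y' * n₂⁻¹ by group] at this
    have hn₂D : n₂ ∈ Subgroup.normalizer (D : Set G) := by
      have := (Subgroup.normalizer (D : Set G)).mul_mem ((Subgroup.normalizer (D : Set G)).inv_mem (hTL ht).2) hl.2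
      rwa [inv_mul_cancel_left] at this
    set w := n₂ * y' * n₂⁻¹ with hwdef
    have hwN : w * x⁻¹ ∈ N := by
      rw [← QuotientGroup.eq_one_iff, hwdef]
      simp only [QuotientGroup.mk_mul, QuotientGroup.mk_inv, (QuotientGroup.eq_one_iff n₂).mpr hn₂,
        one_mul, inv_one, mul_one]
      rw [← QuotientGroup.mk_inv, ← QuotientGroup.mk_mul]
      refine (QuotientGroup.eq_one_iff _).mpr ?_
      rw [show y' * x⁻¹ = x * (x⁻¹ * y') * x⁻¹ by group]
      exact Subgroup.Normal.conj_mem inferInstance _ hy'N x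
    have hd : w * x⁻¹ ∈ D := hTN.le ⟨T.mul_mem hw (T.inv_mem hxT), hwN⟩
    refine ⟨w * x⁻¹, Finset.mem_filter.mpr ⟨by simp, hd, fun e he => ?_⟩, ?_⟩
    · have h1 := hDy' _ ((mem_normalizer_iff''.mp hn₂D e).mp he)
      have h2 : w * e = e * w := by
        rw [hwdef]
        calc n₂ * y' * n₂⁻¹ * e = n₂ * (y' * (n₂⁻¹ * e * n₂)) * n₂⁻¹ := by group
          _ = n₂ * ((n₂⁻¹ * e * n₂) * y') * n₂⁻¹ := by rw [h1]
          _ = e * (n₂ * y' * n₂⁻¹) := by group
      have h3 : e * x = x * e := mem_centralizer_singleton_iff.mp he.1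
      calc w * x⁻¹ * e = w * (x⁻¹ * (e * x)) * x⁻¹ := by group
        _ = w * (x⁻¹ * (x * e)) * x⁻¹ := by rw [h3]
        _ = (w * e) * x⁻¹ := by group
        _ = e * (w * x⁻¹) := by rw [h2]; group
    · rw [inv_mul_cancel_right]
      simp only [orb, Set.Finite.mem_toFinset]
      exact ⟨⟨(n₂ * n₁)⁻¹, inv_mem (mul_mem hn₂ hn₁)⟩, by
        show (n₂ * n₁)⁻¹ * w * (n₂ * n₁)⁻¹⁻¹ = y
        rw [hwdef, hy'def]; group⟩
  -- `x` is isolated in `X`
  have hiso : ∀ n ∈ N, n * x * n⁻¹ ∈ T → n * x * n⁻¹ = x := by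
    intro n hn hnT
    by_contra hne
    set d := n * x * n⁻¹ * x⁻¹
    have hdN : d ∈ N := by
      show n * x * n⁻¹ * x⁻¹ ∈ N
      rw [show n * x * n⁻¹ * x⁻¹ = n * (x * n⁻¹ * x⁻¹) by group]
      exact N.mul_mem hn (Subgroup.Normal.conj_mem inferInstance _ (N.inv_mem hn) x)
    have hdD : d ∈ D := hTN.le ⟨T.mul_mem hnT (T.inv_mem hxT), hdN⟩
    have hd1 : d ≠ 1 := fun e => hne (mul_inv_eq_one.mp e)
    have hsame : orb (d * x) = orb x := by
      have e : d * x = n * x * n⁻¹ := inv_mul_cancel_right _ _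
      ext w
      simp only [orb, Set.Finite.mem_toFinset, Set.mem_range, e]
      constructor
      · rintro ⟨m, rfl⟩
        exact ⟨m * ⟨n, hn⟩, by simp only [Subgroup.coe_mul]; group⟩
      · rintro ⟨m, rfl⟩
        exact ⟨m * ⟨n, hn⟩⁻¹, by simp only [Subgroup.coe_mul, Subgroup.coe_inv]; group⟩
    set Z' := Zc.erase d
    have hcov' : ((Set.univ : Set G).toFinite.toFinset).filter (fun y => x⁻¹ * y ∈ N) ⊆
        Z'.biUnion fun e => orb (e * x) := by
      intro y hy
      obtain ⟨e, he, hye⟩ := hcover y (Finset.mem_filter.mp hy).2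
      rw [Finset.mem_biUnion]
      by_cases hed : e = d
      · subst hed
        refine ⟨1, Finset.mem_erase.mpr ⟨Ne.symm hd1, Finset.mem_filter.mpr ⟨by simp, one_mem _, by simp⟩⟩, ?_⟩
        rwa [one_mul, ← hsame]
      · exact ⟨e, Finset.mem_erase.mpr ⟨hed, he⟩, hye⟩
    have hcount := (Finset.card_le_card hcov').trans Finset.card_biUnion_le
    have hN' : (((Set.univ : Set G).toFinite.toFinset).filter fun y => x⁻¹ * y ∈ N).card = Nat.card N := by
      rw [← Nat.card_eq_finsetCard]
      exact Nat.card_congr ⟨fun y => ⟨x⁻¹ * y.1, (Finset.mem_filter.mp y.2).2⟩,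
        fun m => ⟨x * m.1, Finset.mem_filter.mpr ⟨by simp, by rw [inv_mul_cancel_left]; exact m.2⟩⟩,
        fun y => Subtype.ext (mul_inv_cancel_left _ _), fun m => Subtype.ext (inv_mul_cancel_left _ _)⟩
    rw [hN'] at hcount
    have hsum : (∑ e ∈ Z', (orb (e * x)).card) * Nat.card D = Z'.card * Nat.card N := by
      rw [Finset.sum_mul, ← smul_eq_mul, ← Finset.sum_const]
      refine Finset.sum_congr rfl fun e he => horb _ ?_
      have heN : e ∈ N := (Finset.mem_filter.mp (Finset.mem_of_mem_erase he)).2.1.2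
      rw [← mul_assoc]
      simpa using Subgroup.Normal.conj_mem inferInstance e heN x⁻¹
    have hZ' : Z'.card < Nat.card D := by
      have hD' : (((Set.univ : Set G).toFinite.toFinset).filter fun e => e ∈ D).card = Nat.card D := by
        rw [← Nat.card_eq_finsetCard]
        exact Nat.card_congr (Equiv.subtypeEquivRight fun e => by simp)
      rw [← hD']
      refine Finset.card_lt_card (Finset.ssubset_iff_of_subset ?_ |>.mpr ⟨d, by simp [hdD], Finset.notMem_erase _ _⟩)
      intro e he
      exact Finset.mem_filter.mpr ⟨by simp, (Finset.mem_filter.mp (Finset.mem_of_mem_erase he)).2.1⟩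
    have h1 := Nat.mul_le_mul_right (Nat.card D) hcount
    rw [hsum] at h1
    have h2 := Nat.mul_lt_mul_of_pos_right hZ' (Nat.card_pos (α := N))
    rw [mul_comm (Nat.card N)] at h1
    omega
  -- Z*-theorem in `X`
  let TX : Sylow 2 X := IsPGroup.toSylow (P := T.subgroupOf X) (hMp.to_le hTM).comap_subtype hTidx
  have hcentral : ∀ g : X, (⟨x, mem_sup_right hxT⟩ : X) * g * (⟨x, mem_sup_right hxT⟩ : X)⁻¹ * g⁻¹ ∈
      Cfsg.oddCore X := by
    refine Cfsg.Agent.TwoGroups.central_mod_oddCore TX (y := (⟨x, mem_sup_right hxT⟩ : X)) hxT fun g hg => Subtype.ext ?_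
    obtain ⟨n, hn, t, ht, e⟩ := hXdec g g.2
    have hg' : (g : G) * x * (g : G)⁻¹ ∈ T := hg
    have htx : t * x * t⁻¹ = x := mul_inv_eq_iff_eq_mul.mpr (mem_centralizer_singleton_iff.mp (hTM ht))
    have e2 : (g : G) * x * (g : G)⁻¹ = n * x * n⁻¹ := by
      rw [e]
      conv_rhs => rw [← htx]
      group
    rw [e2] at hg'
    show (g : G) * x * (g : G)⁻¹ = x
    rw [e2]
    exact hiso n hn hg'
  set O := (Cfsg.oddCore N).map N.subtype
  haveI hOn : O.Normal := ⟨by
    rintro _ ⟨o, ho, rfl⟩ g
    refine ⟨MulAut.conjNormal g o, ?_, rfl⟩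
    exact Cfsg.Agent.Blocks.le_oddCore (Subgroup.Normal.map inferInstance (MulAut.conjNormal (H := N) g).toMonoidHom
      (MulAut.conjNormal g).surjective) (by
        exact (Cfsg.Agent.Blocks.odd_card_oddCore _).of_dvd_nat (card_map_dvd _ _)) ⟨o, ho, rfl⟩⟩
  have hOodd : Odd (Nat.card O) := by
    rw [card_map_of_injective N.subtype_injective]
    exact Cfsg.Agent.Blocks.odd_card_oddCore _
  have hcomm : ∀ n ∈ N, x * n * x⁻¹ * n⁻¹ ∈ O := by
    intro n hn
    have h1 := hcentral ⟨n, mem_sup_left hn⟩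
    set K := ((Cfsg.oddCore X).map X.subtype).subgroupOf N
    have hKn : K.Normal := ⟨by
      intro k hk m
      obtain ⟨c, hc, hck⟩ := hk
      exact ⟨⟨m, mem_sup_left m.2⟩ * c * ⟨m, mem_sup_left m.2⟩⁻¹,
        Subgroup.Normal.conj_mem inferInstance c hc _, by
          show (m : G) * c * (m : G)⁻¹ = _
          rw [show (c : G) = k from hck]; rfl⟩⟩
    have hKo : Odd (Nat.card K) := by
      have h2 : Nat.card (K.map N.subtype) = Nat.card K := card_map_of_injective N.subtype_injective
      rw [← h2]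
      refine (Cfsg.Agent.Blocks.odd_card_oddCore X).of_dvd_nat ?_
      refine (card_dvd_of_le (K := (Cfsg.oddCore X).map X.subtype) ?_).trans
        (card_map_of_injective X.subtype_injective).dvd
      rintro _ ⟨k, hk, rfl⟩
      exact hk
    have hmem : x * n * x⁻¹ * n⁻¹ ∈ N :=
      N.mul_mem (Subgroup.Normal.conj_mem inferInstance n hn x) (N.inv_mem hn)
    exact ⟨⟨_, hmem⟩, Cfsg.Agent.Blocks.le_oddCore hKn hKo ⟨_, h1, rfl⟩, rfl⟩
  by_cases hO : O = ⊥
  · refine hnsN ?_
    have hNM : N ≤ M := fun n hn => by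
      have := hcomm n hn
      rw [hO, mem_bot] at this
      exact mem_centralizer_singleton_iff.mpr (mul_inv_eq_iff_eq_mul.mp (mul_inv_eq_one.mp this)).symm
    haveI : Group.IsNilpotent N := (hMp.to_le hNM).isNilpotent
    infer_instance
  have hsmall : ∀ R : Subgroup G, R ≤ M → Odd (Nat.card R) → R = ⊥ := by
    intro R hR hodd
    obtain ⟨j, hj⟩ := IsPGroup.iff_card.mp (hMp.to_le hR)
    refine eq_bot_of_card_eq _ ?_
    rcases j with _ | j
    · simpa using hj
    · rw [hj] at hodd
      exact absurd (dvd_pow_self 2 (Nat.succ_ne_zero j)) hodd.not_two_dvd_nat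
  have hOM : O ⊔ M = ⊤ := hMmax.2 _ (lt_of_le_of_ne le_sup_right fun e =>
    hO (hsmall O (e ▸ le_sup_left) hOodd))
  haveI : Group.IsNilpotent O := by
    rw [Cfsg.Agent.Core.isNilpotent_iff_forall_sylow_normal]
    intro q hq Q
    by_cases hQ : (Q : Subgroup O) = ⊥
    · rw [hQ]; infer_instance
    set QG := (Q : Subgroup O).map O.subtype
    have hQG : Subgroup.normalizer (QG : Set G) = ⊤ := by
      have hfr := Sylow.normalizer_sup_eq_top Q
      have hdvd : (Subgroup.normalizer (QG : Set G)).index ∣ Nat.card O := by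
        rw [← relIndex_top_right, ← hfr, relIndex_sup_of_normal]
        exact relIndex_dvd_card _ O
      obtain ⟨R, hR⟩ := (hMp.to_le le_rfl).exists_le_sylow
      have hRM : (R : Subgroup G) = M := by
        refine le_antisymm ?_ hR
        by_contra hle
        have := hMmax.2 _ (lt_of_le_of_ne hR fun e => hle e.ge)
        exact hns (by
          haveI : Group.IsNilpotent G := @Group.nilpotent_of_mulEquiv _ _ _ _ R.isPGroup'.isNilpotent
            ((MulEquiv.subgroupCongr this).trans topEquiv)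
          infer_instance)
      set NQ := Subgroup.normalizer (QG : Set G)
      obtain ⟨P₀⟩ : Nonempty (Sylow 2 NQ) := inferInstance
      have hP₀i : ¬ 2 ∣ ((P₀ : Subgroup NQ).map NQ.subtype).index := by
        rw [index_map_subtype]
        intro h2
        rcases Nat.prime_two.dvd_mul.mp h2 with h2 | h2
        · exact P₀.not_dvd_index h2
        · exact hOodd.not_two_dvd_nat (h2.trans hdvd)
      let R' : Sylow 2 G := (P₀.isPGroup'.map NQ.subtype).toSylow hP₀i
      obtain ⟨c, hc⟩ := MulAction.exists_smul_eq G R' R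
      have hle : M.map (MulAut.conj c⁻¹).toMonoidHom ≤ NQ := by
        rw [← hRM, ← hc, Sylow.coe_subgroup_smul]
        rintro _ ⟨r, hr, rfl⟩
        rw [SetLike.mem_coe, mem_pointwise_smul_iff_inv_smul_mem] at hr
        obtain ⟨s, -, hs⟩ := hr
        have : (MulAut.conj c⁻¹) r = (MulAut.conj c)⁻¹ • r := by simp [MulAut.smul_def]
        simp only [MulEquiv.coe_toMonoidHom]
        rw [this, ← hs]
        exact s.2
      by_contra hne
      set M' := M.map (MulAut.conj c⁻¹).toMonoidHom with hM'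
      have heq : NQ = M' := by
        refine le_antisymm ?_ hle
        intro g hg
        by_contra hgM
        have hback : M ≤ NQ.map (MulAut.conj c).toMonoidHom := by
          intro m hm
          exact ⟨c⁻¹ * m * c, by simpa using hle ⟨m, hm, rfl⟩, by simp [mul_assoc]⟩
        rcases eq_or_lt_of_le hback with e | e
        · refine hgM ?_
          have : c * g * c⁻¹ ∈ M := e.ge ⟨g, hg, rfl⟩
          exact ⟨c * g * c⁻¹, this, by simp [mul_assoc]⟩
        · have htop := hMmax.2 _ e
          refine hne (eq_top_iff.mpr fun a _ => ?_)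
          obtain ⟨b, hb, hba⟩ := htop.ge (mem_top (c * a * c⁻¹))
          simp only [MulEquiv.coe_toMonoidHom, MulAut.conj_apply] at hba
          have : b = a := mul_left_cancel (mul_right_cancel hba)
          exact this ▸ hb
      refine hQ ?_
      have hQM : QG.map (MulAut.conj c).toMonoidHom ≤ M := by
        rintro _ ⟨r, hr, rfl⟩
        obtain ⟨m, hm, rfl⟩ := heq.le (le_normalizer hr)
        simpa [mul_assoc] using hm
      have hQodd : Odd (Nat.card (QG.map (MulAut.conj c).toMonoidHom)) := by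
        rw [Cfsg.Agent.Transfer.card_map_conj, card_map_of_injective O.subtype_injective]
        exact hOodd.of_dvd_nat (card_subgroup_dvd_card _)
      have := hsmall _ hQM hQodd
      rwa [map_eq_bot_iff_of_injective _ (MulAut.conj c).injective,
        map_eq_bot_iff_of_injective _ O.subtype_injective] at this
    exact normalizer_eq_top_iff.mp (eq_top_iff.mpr fun a _ => mem_normalizer_iff.mpr fun b => by
      have h1 : (a : G) ∈ Subgroup.normalizer (QG : Set G) := hQG ▸ mem_top _
      have h2 := mem_normalizer_iff.mp h1 (b : G)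
      rwa [show (b : G) = O.subtype b from rfl, mem_map_iff_mem O.subtype_injective,
        show (a : G) * O.subtype b * (a : G)⁻¹ = O.subtype (a * b * a⁻¹) from rfl,
        mem_map_iff_mem O.subtype_injective] at h2)
  haveI : Group.IsSolvable (G ⧸ O) := by
    haveI : Group.IsNilpotent M := hMp.isNilpotent
    refine Group.isSolvable_of_surjective (f := (QuotientGroup.mk' O).comp M.subtype) fun q => ?_
    obtain ⟨g, rfl⟩ := QuotientGroup.mk'_surjective O q
    obtain ⟨o, ho, m, hm, rfl⟩ := mem_sup_of_normal_left.mp (hOM ▸ mem_top g)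
    refine ⟨⟨m, hm⟩, ?_⟩
    show QuotientGroup.mk' O m = QuotientGroup.mk' O (o * m)
    rw [map_mul, show QuotientGroup.mk' O o = 1 from (QuotientGroup.eq_one_iff o).mpr ho, one_mul]
  exact hns ((Group.isSolvable_iff_subgroup_quotient O).mpr ⟨inferInstance, inferInstance⟩)

end Cfsg.Agent.S3903
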