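import Cfsg.Statements.S3904
import Cfsg.Agent.FGS2.NilMax
import Cfsg.Agent.S0042
import Cfsg.Agent.PermGroups.FrobeniusKernel
import Cfsg.Agent.PermGroups.FrobeniusConjugacy
import Cfsg.Agent.Core.MinimalNormal
import Cfsg.Agent.Core.Fitting
import Cfsg.Prelude.Def_Transfer

set_option autoImplicit false
open Cfsg

namespace Cfsg.Agent.S3904

open Subgroup
open scoped Pointwise

variable {G : Type*} [Group G]

local notation "π" => QuotientGroup.mk' (Subgroup.center G)

/-- All centralizers of non-central elements are maximal. -/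
def MaxCent (G : Type*) [Group G] : Prop :=
  ∀ x : G, x ∉ Subgroup.center G → IsCoatom (centralizer ({x} : Set G))

theorem mk_eq_one {x : G} : π x = 1 ↔ x ∈ center G := QuotientGroup.eq_one_iff x

theorem index_prime_of_coatom_normal [Finite G] {C : Subgroup G} [C.Normal] (hC : IsCoatom C) :
    C.index.Prime := by
  obtain ⟨p, hp, hd⟩ := Nat.exists_prime_and_dvd (mt index_eq_one.1 hC.1)
  haveI := Fact.mk hp
  obtain ⟨g, hg⟩ := exists_prime_orderOf_dvd_card' (G := G ⧸ C) p hd
  have htop : zpowers g = ⊤ := by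
    apply comap_injective (QuotientGroup.mk'_surjective C)
    rw [comap_top]
    refine (hC.le_iff.1 (QuotientGroup.le_comap_mk' C (zpowers g))).resolve_right fun e => ?_
    obtain ⟨x, rfl⟩ := QuotientGroup.mk'_surjective C g
    have hx : x ∈ C := e ▸ (mem_zpowers _ : QuotientGroup.mk' C x ∈ zpowers _)
    rw [show QuotientGroup.mk' C x = 1 from (QuotientGroup.eq_one_iff x).2 hx, orderOf_one] at hg
    exact hp.ne_one hg.symm
  have : C.index = p := by
    change Nat.card (G ⧸ C) = p
    rw [← hg, ← Nat.card_zpowers g, htop, card_top]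
  exact this ▸ hp

theorem center_le_cent (x : G) : center G ≤ centralizer ({x} : Set G) := center_le_centralizer _

theorem comap_map_cent {C : Subgroup G} (hC : center G ≤ C) : (C.map π).comap π = C := by
  rw [comap_map_eq, QuotientGroup.ker_mk', sup_eq_left.2 hC]

theorem coatom_map {C : Subgroup G} (hC : center G ≤ C) (h : IsCoatom C) : IsCoatom (C.map π) := by
  refine ⟨fun e => h.1 (by rw [← comap_map_cent hC, e, comap_top]), fun X hX => ?_⟩
  apply comap_injective (QuotientGroup.mk'_surjective (center G))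
  rw [comap_top]
  refine h.2 _ ?_
  conv_lhs => rw [← comap_map_cent hC]
  exact (comap_lt_comap_of_surjective (QuotientGroup.mk'_surjective (center G))).2 hX

theorem exists_part [Finite G] {x : G} {p : ℕ} [hp : Fact p.Prime] (hd : p ∣ orderOf (π x)) :
    ∃ u ∈ zpowers x, u ∉ center G ∧ ∃ k, orderOf u = p ^ k := by
  set m := orderOf x / p ^ (orderOf x).factorization p with hm
  refine ⟨x ^ m, pow_mem (mem_zpowers x) m, fun hc => ?_, (orderOf x).factorization p, ?_⟩
  · have h1 : orderOf (π x) ∣ m := orderOf_dvd_of_pow_eq_one (by rw [← map_pow]; exact mk_eq_one.2 hc)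
    exact Nat.not_dvd_ordCompl hp.out (orderOf_pos x).ne' (hd.trans h1)
  · exact orderOf_pow_orderOf_div (orderOf_pos x).ne' (Nat.ordProj_dvd _ _)

theorem cent_le_of_mem_zpowers {x u : G} (hu : u ∈ zpowers x) :
    centralizer ({x} : Set G) ≤ centralizer ({u} : Set G) := by
  intro y hy
  rw [mem_centralizer_singleton_iff] at hy ⊢
  obtain ⟨i, rfl⟩ := mem_zpowers_iff.1 hu
  exact (Commute.zpow_right (show Commute y x from hy) i).eq

theorem cent_eq_of_le (h : MaxCent G) {x u : G} (hx : x ∉ center G) (hu : u ∉ center G)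
    (hle : centralizer ({x} : Set G) ≤ centralizer ({u} : Set G)) :
    centralizer ({u} : Set G) = centralizer ({x} : Set G) :=
  ((h x hx).le_iff.1 hle).resolve_left (h u hu).1

/-- Two commuting non-central elements of coprime orders have the same centralizer. -/
theorem cent_eq_of_coprime [Finite G] (h : MaxCent G) {u w : G} (hu : u ∉ center G) (hw : w ∉ center G)
    (hc : Commute u w) (hcop : (orderOf u).Coprime (orderOf w)) :
    centralizer ({w} : Set G) = centralizer ({u} : Set G) := by
  have key : ∀ a b : G, Commute a b → (orderOf a).Coprime (orderOf b) → a ∈ zpowers (a * b) := by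
    intro a b hab hcop
    obtain ⟨s, hs⟩ := exists_pow_eq_self_of_coprime (hcop.symm : Nat.Coprime (orderOf b) (orderOf a))
    have h1 : ((a * b) ^ orderOf b) ^ s = a := by
      rw [hab.mul_pow, pow_orderOf_eq_one, mul_one]; exact hs
    have h2 : ((a * b) ^ orderOf b) ^ s ∈ zpowers (a * b) := pow_mem (pow_mem (mem_zpowers _) _) _
    rwa [h1] at h2
  have h1 := key u w hc hcop
  have h2 : w ∈ zpowers (u * w) := by rw [hc.eq]; exact key w u hc.symm hcop.symm
  have huw : u * w ∉ center G := fun e => hu (zpowers_le.2 e h1)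
  rw [cent_eq_of_le h huw hw (cent_le_of_mem_zpowers h2),
    cent_eq_of_le h huw hu (cent_le_of_mem_zpowers h1)]

/-- A centralizer is abelian or a `p`-group modulo the centre. -/
theorem dichotomy [Finite G] (h : MaxCent G) {x : G} (hx : x ∉ center G) {p : ℕ} [hp : Fact p.Prime]
    (hd : p ∣ orderOf (π x)) :
    IsMulCommutative (centralizer ({x} : Set G)) ∨ IsPGroup p ((centralizer ({x} : Set G)).map π) := by
  obtain ⟨u, hu, huc, k, hk⟩ := exists_part hd
  rw [← cent_eq_of_le h hx huc (cent_le_of_mem_zpowers hu)]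
  set C := centralizer ({u} : Set G) with hC
  by_cases hP : IsPGroup p (C.map π)
  · exact Or.inr hP
  left
  rw [IsPGroup.iff_orderOf] at hP
  push Not at hP
  obtain ⟨⟨q0, y, hy, rfl⟩, hq0⟩ := hP
  replace hq0 : ∀ n : ℕ, orderOf (π y) ≠ p ^ n := fun n e => hq0 n ((Subgroup.orderOf_coe _).symm.trans e)
  obtain ⟨q, hq, hqd, hqp⟩ : ∃ q, q.Prime ∧ q ∣ orderOf (π y) ∧ q ≠ p := by
    by_contra hcon
    push Not at hcon
    exact hq0 _ (Nat.eq_prime_pow_of_unique_prime_dvd (orderOf_pos _).ne' (fun {d} hd hdd => hcon d hd hdd))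
  haveI := Fact.mk hq
  obtain ⟨w, hw, hwc, l, hl⟩ := exists_part hqd
  have hwC : w ∈ C := zpowers_le.2 hy hw
  have hCw : centralizer ({w} : Set G) = C := cent_eq_of_coprime h huc hwc
    (show Commute u w from (mem_centralizer_singleton_iff.1 hwC).symm)
    (by rw [hk, hl]; exact Nat.Coprime.pow _ _ ((Nat.coprime_primes hp.out hq).2 hqp.symm))
  have hpp : ∀ v ∈ C, v ∉ center G → ∀ r j : ℕ, r.Prime → orderOf v = r ^ j →
      centralizer ({v} : Set G) = C := by
    intro v hv hvc r j hr hj
    by_cases hrp : r = p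
    · subst hrp
      rw [← hCw]
      rw [← hCw] at hv
      exact cent_eq_of_coprime h hwc hvc (show Commute w v from (mem_centralizer_singleton_iff.1 hv).symm)
        (by rw [hl, hj]; exact Nat.Coprime.pow _ _ ((Nat.coprime_primes hq hr).2 hqp))
    · exact cent_eq_of_coprime h huc hvc (show Commute u v from (mem_centralizer_singleton_iff.1 hv).symm)
        (by rw [hk, hj]; exact Nat.Coprime.pow _ _ ((Nat.coprime_primes hp.out hr).2 (Ne.symm hrp)))
  have hW : ∀ y ∈ C, ∀ z ∈ C, Commute y z := by
    intro y hy z hz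
    let W := zpowers y ⊓ centralizer ({z} : Set G)
    by_contra hne
    have hy1 : y ∉ W := fun e => hne (show Commute y z from mem_centralizer_singleton_iff.1 e.2)
    have hidx : W.relIndex (zpowers y) ≠ 1 := fun e => hy1 (relIndex_eq_one.1 e (mem_zpowers y))
    obtain ⟨r, hr, hrd⟩ := Nat.exists_prime_and_dvd hidx
    haveI := Fact.mk hr
    set m := orderOf y / r ^ (orderOf y).factorization r with hm
    have hym : orderOf (y ^ m) = r ^ (orderOf y).factorization r :=
      orderOf_pow_orderOf_div (orderOf_pos y).ne' (Nat.ordProj_dvd _ _)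
    by_cases hin : y ^ m ∈ W
    · have h1 : W.relIndex (zpowers y) ∣ (zpowers (y ^ m)).relIndex (zpowers y) :=
        relIndex_dvd_of_le_left _ (zpowers_le.2 hin)
      have h2 : (zpowers (y ^ m)).relIndex (zpowers y) ∣ m := by
        have h3 := relIndex_mul_index (zpowers_le.2 (pow_mem (mem_zpowers y) m) :
          zpowers (y ^ m) ≤ zpowers y)
        have h4 : (zpowers (y ^ m)).relIndex (zpowers y) * Nat.card (zpowers (y ^ m)) =
            Nat.card (zpowers y) := by
          rw [mul_comm, relIndex, ← Nat.card_congr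
            (subgroupOfEquivOfLe (zpowers_le.2 (pow_mem (mem_zpowers y) m) :
              zpowers (y ^ m) ≤ zpowers y)).toEquiv, card_mul_index]
        rw [Nat.card_zpowers, Nat.card_zpowers, hym] at h4
        exact dvd_of_eq (hm.trans (Nat.div_eq_of_eq_mul_left (pow_pos hr.pos _) h4.symm)).symm
      exact Nat.not_dvd_ordCompl hr (orderOf_pos y).ne' (hrd.trans (h1.trans h2))
    · apply hin
      refine ⟨pow_mem (mem_zpowers y) m, mem_centralizer_singleton_iff.2 ?_⟩
      by_cases hc : y ^ m ∈ center G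
      · exact (mem_center_iff.1 hc z).symm
      have := hpp _ (pow_mem hy m) hc r _ hr hym
      rw [← this] at hz
      exact (mem_centralizer_singleton_iff.1 hz).symm
  exact ⟨⟨fun a b => Subtype.ext (hW a a.2 b b.2)⟩⟩

theorem isNilpotent_cent [Finite G] (h : MaxCent G) {x : G} (hx : x ∉ center G) :
    Group.IsNilpotent (centralizer ({x} : Set G)) := by
  obtain ⟨p, hp, hd⟩ := Nat.exists_prime_and_dvd (mt (orderOf_eq_one_iff (x := π x)).1 (mt mk_eq_one.1 hx))
  haveI := Fact.mk hp
  rcases dichotomy h hx hd with h1 | h1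
  · haveI := h1
    letI := IsMulCommutative.instCommGroup (G := centralizer ({x} : Set G))
    exact CommGroup.isNilpotent
  · haveI := h1.isNilpotent
    refine Subgroup.isNilpotent_of_ker_le_center
      ((π).subgroupMap (centralizer ({x} : Set G))) ?_
    intro a ha
    have : (a : G) ∈ center G := mk_eq_one.1 (congrArg Subtype.val (MonoidHom.mem_ker.1 ha))
    exact mem_center_iff.2 fun b => Subtype.ext (mem_center_iff.1 this b)

theorem eq_of_mem_abelian (h : MaxCent G) {C : Subgroup G} (hC : IsCoatom C) [IsMulCommutative C]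
    {w : G} (hw : w ∈ C) (hwc : w ∉ center G) : centralizer ({w} : Set G) = C := by
  refine (hC.le_iff.1 fun c hc => mem_centralizer_singleton_iff.2 ?_).resolve_left (h w hwc).1
  exact congrArg Subtype.val (mul_comm' (⟨c, hc⟩ : C) ⟨w, hw⟩)

theorem nilpotent_case [Finite G] [Group.IsNilpotent G] (hna : ¬ IsMulCommutative G) (h : MaxCent G) :
    ∃ p : ℕ, p.Prime ∧ Cfsg.IsElementaryAbelian p (⊤ : Subgroup (G ⧸ center G)) := by
  have hn : ∀ x, x ∉ center G → (centralizer ({x} : Set G)).Normal := fun x hx =>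
    Group.normalizerCondition_of_isNilpotent.normal_of_coatom _ (h x hx)
  have hpi : ∀ x, x ∉ center G → (centralizer ({x} : Set G)).index.Prime := fun x hx =>
    haveI := hn x hx
    index_prime_of_coatom_normal (h x hx)
  have hcomm : ∀ a b : G, a * b * a⁻¹ * b⁻¹ ∈ center G := by
    intro a b
    rw [mem_center_iff]
    intro g
    by_cases hg : g ∈ center G
    · exact (mem_center_iff.1 hg _).symm
    haveI := hn g hg
    haveI := Fact.mk (hpi g hg)
    haveI : IsCyclic (G ⧸ centralizer ({g} : Set G)) := isCyclic_of_prime_card (p := (centralizer ({g} : Set G)).index) rfl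
    letI := IsCyclic.commGroup (α := G ⧸ centralizer ({g} : Set G))
    have : QuotientGroup.mk' (centralizer ({g} : Set G)) (a * b * a⁻¹ * b⁻¹) = 1 := by
      rw [map_mul, map_mul, map_mul, map_inv, map_inv, mul_comm (QuotientGroup.mk' _ a)]
      group
    exact (mem_centralizer_singleton_iff.1 ((QuotientGroup.eq_one_iff _).1 this)).symm
  haveI : IsMulCommutative (G ⧸ center G) := ⟨⟨fun a b => by
    obtain ⟨a, rfl⟩ := QuotientGroup.mk'_surjective (center G) a
    obtain ⟨b, rfl⟩ := QuotientGroup.mk'_surjective (center G) b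
    have := mk_eq_one.2 (hcomm a b)
    rw [map_mul, map_mul, map_mul, map_inv, map_inv, mul_inv_eq_one, mul_inv_eq_iff_eq_mul] at this
    exact this⟩⟩
  haveI : Nontrivial (G ⧸ center G) := by
    refine QuotientGroup.nontrivial_iff.2 fun e => hna ⟨⟨fun a b => ?_⟩⟩
    exact (mem_center_iff.1 (e ▸ mem_top b) a)
  -- only one index occurs
  have hidx : ∀ x, x ∉ center G → ∀ y, y ∉ center G → ∀ p [Fact p.Prime],
      p ∣ orderOf (π x) → (centralizer ({y} : Set G)).index = p := by
    intro x hx y hy p _ hd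
    obtain ⟨u, -, huc, k, hk⟩ := exists_part hd
    have key : (centralizer ({u} : Set G)).index = p := by
      set C := centralizer ({u} : Set G) with hC
      by_contra hne
      obtain ⟨g, hg⟩ : ∃ g, g ∉ C := by
        by_contra hcon
        push Not at hcon
        exact (h u huc).1 (eq_top_iff.2 fun g _ => hcon g)
      haveI := hn u huc
      haveI := Fact.mk (hpi u huc)
      have hord : orderOf (QuotientGroup.mk' C g) = C.index := orderOf_eq_prime
        ((show Nat.card (G ⧸ C) = C.index from rfl) ▸ pow_card_eq_one') fun e => hg ((QuotientGroup.eq_one_iff g).1 e)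
      have hdg : C.index ∣ orderOf g := hord ▸ orderOf_map_dvd _ g
      set m := orderOf g / C.index ^ (orderOf g).factorization C.index with hm
      have hgm : orderOf (g ^ m) = C.index ^ (orderOf g).factorization C.index :=
        orderOf_pow_orderOf_div (orderOf_pos g).ne' (Nat.ordProj_dvd _ _)
      have h1 : g ^ m ∈ C := mem_centralizer_singleton_iff.2
        (OddLocal.commute_of_coprime_orderOf (by
          rw [hgm, hk]; exact Nat.Coprime.pow _ _ ((Nat.coprime_primes (hpi u huc) (Fact.out)).2 hne))).eq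
      have h2 : orderOf (QuotientGroup.mk' C g) ∣ m :=
        orderOf_dvd_of_pow_eq_one (by rw [← map_pow]; exact (QuotientGroup.eq_one_iff _).2 h1)
      rw [hord] at h2
      exact Nat.not_dvd_ordCompl (hpi u huc) (orderOf_pos g).ne' h2
    by_contra hne
    set D := centralizer ({y} : Set G) with hD
    haveI := hn y hy
    haveI := Fact.mk (hpi y hy)
    obtain ⟨q, hq, hqd⟩ := Nat.exists_prime_and_dvd
      (mt (orderOf_eq_one_iff (x := π y)).1 (mt mk_eq_one.1 hy))
    haveI := Fact.mk hq
    obtain ⟨v, hv, hvc, l, hl⟩ := exists_part hqd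
    have hDv := cent_eq_of_le h hy hvc (cent_le_of_mem_zpowers hv)
    have hvq : D.index = q := by
      by_contra hne'
      obtain ⟨g, hg⟩ : ∃ g, g ∉ D := by
        by_contra hcon
        push Not at hcon
        exact (h y hy).1 (eq_top_iff.2 fun g _ => hcon g)
      have hord : orderOf (QuotientGroup.mk' D g) = D.index := orderOf_eq_prime
        ((show Nat.card (G ⧸ D) = D.index from rfl) ▸ pow_card_eq_one') fun e => hg ((QuotientGroup.eq_one_iff g).1 e)
      set m := orderOf g / D.index ^ (orderOf g).factorization D.index with hm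
      have hgm : orderOf (g ^ m) = D.index ^ (orderOf g).factorization D.index :=
        orderOf_pow_orderOf_div (orderOf_pos g).ne' (Nat.ordProj_dvd _ _)
      have h1 : g ^ m ∈ D := by
        rw [hD, ← hDv]
        exact mem_centralizer_singleton_iff.2 (OddLocal.commute_of_coprime_orderOf (by
          rw [hgm, hl]; exact Nat.Coprime.pow _ _ ((Nat.coprime_primes (hpi y hy) hq).2 hne'))).eq
      have h2 : orderOf (QuotientGroup.mk' D g) ∣ m :=
        orderOf_dvd_of_pow_eq_one (by rw [← map_pow]; exact (QuotientGroup.eq_one_iff _).2 h1)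
      rw [hord] at h2
      exact Nat.not_dvd_ordCompl (hpi y hy) (orderOf_pos g).ne' h2
    have hpq : p ≠ q := fun e => hne (hvq.trans e.symm)
    have := cent_eq_of_coprime h huc hvc (OddLocal.commute_of_coprime_orderOf (by
      rw [hk, hl]; exact Nat.Coprime.pow _ _ ((Nat.coprime_primes Fact.out hq).2 hpq)))
      (by rw [hk, hl]; exact Nat.Coprime.pow _ _ ((Nat.coprime_primes Fact.out hq).2 hpq))
    rw [hDv] at this
    exact hne ((congrArg Subgroup.index this).trans key)
  obtain ⟨x0, hx0⟩ : ∃ x : G, x ∉ center G := by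
    obtain ⟨q, hq⟩ := exists_ne (1 : G ⧸ center G)
    obtain ⟨x, rfl⟩ := QuotientGroup.mk'_surjective (center G) q
    exact ⟨x, mt mk_eq_one.2 hq⟩
  obtain ⟨p, hp, hpd⟩ := Nat.exists_prime_and_dvd
    (mt (orderOf_eq_one_iff (x := π x0)).1 (mt mk_eq_one.1 hx0))
  haveI := Fact.mk hp
  refine ⟨p, hp, ⟨⟨fun a b => Subtype.ext (mul_comm' (a : G ⧸ center G) b)⟩⟩, fun a _ => ?_⟩
  obtain ⟨g, rfl⟩ := QuotientGroup.mk'_surjective (center G) a
  rw [← map_pow, mk_eq_one, mem_center_iff]
  intro y
  by_cases hy : y ∈ center G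
  · exact (mem_center_iff.1 hy _).symm
  haveI := hn y hy
  have hi := hidx x0 hx0 y hy p hpd
  have : g ^ p ∈ centralizer ({y} : Set G) := hi ▸ (centralizer ({y} : Set G)).pow_index_mem g
  exact (mem_centralizer_singleton_iff.1 this).symm

theorem frobenius_case [Finite G] (h : MaxCent G) {C : Subgroup G} (hC : IsCoatom C)
    (hZC : center G ≤ C) [IsMulCommutative C] (hCn : ¬ C.Normal) :
    (¬ IsMulCommutative (G ⧸ center G) ∧ (∀ H : Subgroup (G ⧸ center G), H ≠ ⊤ → IsMulCommutative ↥H) ∧
      ∃ p q a : ℕ, p.Prime ∧ q.Prime ∧ p ≠ q ∧ Nat.card (G ⧸ center G) = p ^ a * q ∧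
        ∀ P : Subgroup (G ⧸ center G), Nat.card ↥P = p ^ a → P.Normal) := by
  set Q := C.map π with hQ
  have hQc := coatom_map hZC hC
  have hQn : ¬ Q.Normal := fun e => hCn (comap_map_cent hZC ▸ e.comap π)
  haveI : IsMulCommutative Q := by rw [hQ]; infer_instance
  have hQ1 : Q ≠ ⊥ := fun e => hQn (e ▸ inferInstance)
  have hF : Cfsg.IsFrobeniusComplement Q := by
    refine ⟨hQ1, hQc.1, fun g hg => ?_⟩
    rw [eq_bot_iff_forall]
    rintro w' ⟨hw1, hw2⟩
    by_contra hne
    obtain ⟨a, ha, rfl⟩ := hw1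
    have hac : a ∉ center G := fun e => hne (mk_eq_one.2 e)
    obtain ⟨g, rfl⟩ := QuotientGroup.mk'_surjective (center G) g
    have hb : g⁻¹ * a * g ∈ C := by
      rw [← comap_map_cent hZC, mem_comap, map_mul, map_mul, map_inv]
      exact PermGroups.mem_conj_smul.1 hw2
    have hbc : g⁻¹ * a * g ∉ center G := fun e => hac (by
      have := (inferInstance : (center G).Normal).conj_mem _ e g
      rwa [show g * (g⁻¹ * a * g) * g⁻¹ = a by group] at this)
    have hgN : g ∈ normalizer (C : Set G) := by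
      refine mem_normalizer_iff.2 fun c => ?_
      have e1 := eq_of_mem_abelian h hC ha hac
      have e2 := eq_of_mem_abelian h hC hb hbc
      conv_lhs => rw [← e2]
      conv_rhs => rw [← e1]
      rw [mem_centralizer_singleton_iff, mem_centralizer_singleton_iff]
      constructor
      · intro e
        calc g * c * g⁻¹ * a = g * (c * (g⁻¹ * a * g)) * g⁻¹ := by group
          _ = a * (g * c * g⁻¹) := by rw [e]; group
      · intro e
        calc c * (g⁻¹ * a * g) = g⁻¹ * ((g * c * g⁻¹) * a) * g := by group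
          _ = g⁻¹ * a * g * c := by rw [e]; group
    have hN : normalizer (C : Set G) = C :=
      (hC.le_iff.1 le_normalizer).resolve_left fun e => hCn (normalizer_eq_top_iff.1 e)
    exact hg ⟨g, hN ▸ hgN, rfl⟩
  obtain ⟨K, hKc, hKn, hKnil⟩ := S0042.result Q hF
  obtain ⟨K', hK'c, -, hcompl⟩ := PermGroups.Frobenius.exists_kernel hF
  obtain rfl : K' = K := SetLike.coe_injective (hK'c.trans hKc.symm)
  haveI := hKn
  have hKne : K' ≠ ⊥ := fun e => hQc.1 (isComplement'_bot_left.1 (e ▸ hcompl))
  have hfpf : ∀ c ∈ Q, c ≠ 1 → ∀ k ∈ K', c * k = k * c → k = 1 := fun c hc hc1 k hk e =>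
    PermGroups.Frobenius.centralizer_kernel_eq_one hF hcompl.disjoint hc hc1 hk e
  have hsup : ∀ M : Subgroup (G ⧸ center G), M.Normal → M ≤ K' → M ≠ ⊥ → M = K' := by
    intro M hM hMK hM1
    have htop : M ⊔ Q = ⊤ := (hQc.le_iff.1 le_sup_right).resolve_right fun e => hM1 (by
      rw [eq_bot_iff_forall]
      intro x hx
      exact Subgroup.disjoint_def.1 hcompl.disjoint (hMK hx) (e.le (mem_sup_left hx)))
    refine le_antisymm hMK fun k hk => ?_
    obtain ⟨m, hm, c, hc, rfl⟩ : k ∈ (M : Set (G ⧸ center G)) * (Q : Set (G ⧸ center G)) := by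
      rw [← normal_mul, htop]; trivial
    have hcK : c ∈ K' := by
      have := K'.mul_mem (K'.inv_mem (hMK hm)) hk
      rwa [inv_mul_cancel_left] at this
    simp only [Subgroup.disjoint_def.1 hcompl.disjoint hcK hc, mul_one]
    exact hm
  have hmin : Core.IsMinNormal K' := ⟨hKn, hKne, fun M hM hMK =>
    or_iff_not_imp_left.2 (hsup M hM hMK)⟩
  haveI : Group.IsSolvable K' := by haveI := hKnil; infer_instance
  obtain ⟨hKab, r, hr, hr', hKp⟩ := hmin.elementaryAbelian inferInstance
  haveI := Fact.mk hr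
  haveI := hKab
  -- centralizers of kernel elements
  have hKcent : ∀ x : G, x ∉ center G → π x ∈ K' → (centralizer ({x} : Set G)).map π = K' := by
    intro x hx hxK
    set D := (centralizer ({x} : Set G)).map π with hD
    have hxD : π x ∈ D := ⟨x, mem_centralizer_singleton_iff.2 rfl, rfl⟩
    have hDc : IsCoatom D := coatom_map (center_le_cent x) (h x hx)
    have hKD : K' ≤ D := by
      by_contra hnot
      have htop : D ⊔ K' = ⊤ := (hDc.le_iff.1 le_sup_left).resolve_right
        fun e => hnot (le_sup_right.trans e.le)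
      have hn : (D ⊓ K').Normal := by
        refine normalizer_eq_top_iff.1 (eq_top_iff.2 ?_)
        rw [← htop, sup_le_iff]
        constructor
        · intro d hd
          refine mem_normalizer_iff.2 fun k => ?_
          simp only [mem_inf]
          constructor
          · rintro ⟨h1, h2⟩; exact ⟨D.mul_mem (D.mul_mem hd h1) (D.inv_mem hd), hKn.conj_mem k h2 d⟩
          · rintro ⟨h1, h2⟩
            refine ⟨?_, ?_⟩
            · have := D.mul_mem (D.mul_mem (D.inv_mem hd) h1) hd
              rwa [show d⁻¹ * (d * k * d⁻¹) * d = k by group] at this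
            · have := hKn.conj_mem _ h2 d⁻¹
              rwa [show d⁻¹ * (d * k * d⁻¹) * d⁻¹⁻¹ = k by group] at this
        · intro k hk
          refine mem_normalizer_iff.2 fun y => ?_
          simp only [mem_inf]
          constructor
          · rintro ⟨h1, h2⟩
            rw [show k * y = y * k from congrArg Subtype.val (mul_comm' (⟨k, hk⟩ : K') ⟨y, h2⟩), mul_inv_cancel_right]
            exact ⟨h1, h2⟩
          · rintro ⟨h1, h2⟩
            have hy : y ∈ K' := by
              have := hKn.conj_mem _ h2 k⁻¹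
              rwa [show k⁻¹ * (k * y * k⁻¹) * k⁻¹⁻¹ = y by group] at this
            rw [show k * y = y * k from congrArg Subtype.val (mul_comm' (⟨k, hk⟩ : K') ⟨y, hy⟩), mul_inv_cancel_right] at h1
            exact ⟨h1, hy⟩
      have := hsup _ hn inf_le_right fun e => hx (mk_eq_one.1 (by
        have : π x ∈ D ⊓ K' := ⟨hxD, hxK⟩
        rwa [e, mem_bot] at this))
      exact hnot (this.ge.trans inf_le_left)
    haveI : Group.IsNilpotent D := Core.isNilpotent_map (isNilpotent_cent h hx) π
    refine le_antisymm (fun d hd => ?_) hKD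
    by_contra hdK
    have hdker : d ∈ (K' : Set (G ⧸ center G)) → False := hdK
    rw [hKc] at hdker
    obtain ⟨h1, g, hg⟩ : d ≠ 1 ∧ ∃ g, d ∈ MulAut.conj g • Q := by
      refine ⟨fun e => hdker (Or.inl e), ?_⟩
      by_contra hcon
      push Not at hcon
      exact hdker (Or.inr hcon)
    rw [PermGroups.mem_conj_smul] at hg
    have hcop : (orderOf (π x)).Coprime (orderOf d) := by
      refine Nat.Coprime.of_dvd (?_ : orderOf (π x) ∣ Nat.card K') ?_
        ((PermGroups.Frobenius.natCard_kernel_subgroup hF hKc ▸ (PermGroups.Frobenius.coprime hF).symm))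
      · rw [← Subgroup.orderOf_mk _ hxK]; exact orderOf_dvd_natCard _
      · rw [show orderOf d = orderOf (g⁻¹ * d * g) by
          rw [← (MulAut.conj g⁻¹).orderOf_eq d]; simp]
        rw [← Subgroup.orderOf_mk _ hg]; exact orderOf_dvd_natCard _
    have hc' : Commute (⟨π x, hxD⟩ : D) ⟨d, hd⟩ := OddLocal.commute_of_coprime_orderOf
      (by rwa [Subgroup.orderOf_mk, Subgroup.orderOf_mk])
    have hc : π x * d = d * π x := congrArg Subtype.val hc'.eq
    have hxK' : g⁻¹ * π x * g ∈ K' := by
      have := hKn.conj_mem _ hxK g⁻¹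
      rwa [inv_inv] at this
    have := hfpf _ hg (fun e => h1 (by
      calc d = g * (g⁻¹ * d * g) * g⁻¹ := by group
        _ = 1 := by rw [e]; group)) _ hxK' (by
      calc g⁻¹ * d * g * (g⁻¹ * π x * g) = g⁻¹ * (d * π x) * g := by group
        _ = g⁻¹ * π x * g * (g⁻¹ * d * g) := by rw [← hc]; group)
    exact hx (mk_eq_one.1 (by
      calc π x = g * (g⁻¹ * π x * g) * g⁻¹ := by group
        _ = 1 := by rw [this]; group))
  -- `K'` is maximal, `Q` has prime order
  have hKtop : IsCoatom K' := by
    obtain ⟨k, hk, hk1⟩ := (Subgroup.bot_or_exists_ne_one K').resolve_left hKne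
    obtain ⟨x, rfl⟩ := QuotientGroup.mk'_surjective (center G) k
    have hxc : x ∉ center G := mt mk_eq_one.2 hk1
    exact hKcent x hxc hk ▸ coatom_map (center_le_cent x) (h x hxc)
  have hq : K'.index.Prime := index_prime_of_coatom_normal hKtop
  have hQcard : Nat.card Q = K'.index := hcompl.symm.index_eq_card.symm
  obtain ⟨a, ha⟩ := IsPGroup.iff_card.1 hKp
  have hrq : r ≠ K'.index := by
    intro e
    have hcop := PermGroups.Frobenius.coprime hF
    rw [hQcard, ← PermGroups.Frobenius.natCard_kernel_subgroup hF hKc, ha, ← e] at hcop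
    have ha0 : a ≠ 0 := fun e => hKne (eq_bot_of_card_eq _ (by rw [ha, e, pow_zero]))
    exact hr.ne_one (Nat.Coprime.eq_one_of_dvd hcop (dvd_pow_self r ha0))
  refine ⟨fun hab => hQn ⟨fun c hc g => by rw [hab.1.1 g c, mul_inv_cancel_right]; exact hc⟩, ?_,
    r, K'.index, a, hr, hq, hrq, by rw [← ha, card_mul_index], ?_⟩
  · intro H hH
    by_cases hHK : H ≤ K'
    · exact ⟨⟨fun u v => Subtype.ext (show (u : G ⧸ center G) * v = v * u from congrArg Subtype.val
        (mul_comm' (⟨u, hHK u.2⟩ : K') ⟨v, hHK v.2⟩))⟩⟩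
    have htop : K' ⊔ H = ⊤ := (hKtop.le_iff.1 le_sup_left).resolve_right
      fun e => hHK (le_sup_right.trans e.le)
    have hn : (H ⊓ K').Normal := by
      refine normalizer_eq_top_iff.1 (eq_top_iff.2 ?_)
      rw [← htop, sup_le_iff]
      constructor
      · intro k hk
        refine mem_normalizer_iff.2 fun y => ?_
        simp only [mem_inf]
        constructor
        · rintro ⟨h1, h2⟩
          rw [show k * y = y * k from congrArg Subtype.val (mul_comm' (⟨k, hk⟩ : K') ⟨y, h2⟩), mul_inv_cancel_right]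
          exact ⟨h1, h2⟩
        · rintro ⟨h1, h2⟩
          have hy : y ∈ K' := by
            have := hKn.conj_mem _ h2 k⁻¹
            rwa [show k⁻¹ * (k * y * k⁻¹) * k⁻¹⁻¹ = y by group] at this
          rw [show k * y = y * k from congrArg Subtype.val (mul_comm' (⟨k, hk⟩ : K') ⟨y, hy⟩), mul_inv_cancel_right] at h1
          exact ⟨h1, hy⟩
      · intro g hg
        refine inf_normalizer_le_normalizer_inf ⟨le_normalizer hg, ?_⟩
        rw [normalizer_eq_top K']; trivial
    by_cases hb : H ⊓ K' = ⊥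
    · haveI : IsCyclic H := by
        haveI := Fact.mk hq
        refine isCyclic_of_prime_card (p := K'.index) ?_
        exact ((isComplement'_of_disjoint_and_mul_eq_univ (disjoint_iff.2 (inf_comm H K' ▸ hb))
          (by rw [← normal_mul, htop, coe_top])).symm.index_eq_card).symm
      exact IsCyclic.isMulCommutative
    · exfalso
      apply hH
      rw [eq_top_iff, ← htop]
      exact sup_le ((hsup _ hn inf_le_right hb).ge.trans inf_le_left) le_rfl
  · intro P hP
    have hPK : P ≤ K' := by
      by_contra hnot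
      obtain ⟨g, hg, hgK⟩ := SetLike.not_le_iff_exists.1 hnot
      haveI := Fact.mk hq
      have hd : orderOf (QuotientGroup.mk' K' g) = K'.index := orderOf_eq_prime
        ((show Nat.card (_ ⧸ K') = K'.index from rfl) ▸ pow_card_eq_one') fun e => hgK ((QuotientGroup.eq_one_iff g).1 e)
      have : K'.index ∣ r ^ a := hP ▸ hd ▸ (orderOf_map_dvd _ g).trans
        (by rw [← Subgroup.orderOf_mk g hg]; exact orderOf_dvd_natCard _)
      exact hrq ((Nat.prime_dvd_prime_iff_eq hq hr).1 (hq.dvd_of_dvd_pow this)).symm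
    exact (eq_of_le_of_card_ge hPK (by rw [hP, ha])) ▸ hKn

theorem exists_abelian_nonnormal [Finite G] (hnil : ¬ Group.IsNilpotent G) (h : MaxCent G) :
    ∃ x : G, x ∉ center G ∧ IsMulCommutative (centralizer ({x} : Set G)) ∧
      ¬ (centralizer ({x} : Set G)).Normal := by
  by_contra hno
  push Not at hno
  have hsylow : ∀ (x : G), x ∉ center G → ¬ (centralizer ({x} : Set G)).Normal →
      ∀ (p : ℕ) [Fact p.Prime], p ∣ orderOf (π x) →
      ∃ P : Sylow p (G ⧸ center G), (P : Subgroup (G ⧸ center G)) = (centralizer ({x} : Set G)).map π := by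
    intro x hx hn p _ hd
    have hP : IsPGroup p ((centralizer ({x} : Set G)).map π) :=
      (dichotomy h hx hd).resolve_left fun hab => hn (hno x hx hab)
    obtain ⟨P, hle⟩ := hP.exists_le_sylow
    refine ⟨P, ?_⟩
    have hc := coatom_map (center_le_cent x) (h x hx)
    rcases hc.le_iff.1 hle with hP' | hP'
    · exfalso
      apply hn
      rw [← comap_map_cent (center_le_cent x)]
      have hp' : IsPGroup p (G ⧸ center G) := by
        have := P.isPGroup'
        rw [hP'] at this
        exact this.of_equiv topEquiv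
      haveI := hp'.isNilpotent
      exact (Group.normalizerCondition_of_isNilpotent.normal_of_coatom _ hc).comap _
    · exact hP'
  have hFit : ∀ x : G, x ∉ center G → (centralizer ({x} : Set G)).Normal →
      π x ∈ Cfsg.fittingSubgroup (G ⧸ center G) := by
    intro x hx hn
    refine Core.le_fittingSubgroup (hn.map π (QuotientGroup.mk'_surjective _))
      (Core.isNilpotent_map (isNilpotent_cent h hx) π) ⟨x, mem_centralizer_singleton_iff.2 rfl, rfl⟩
  have hZ : ∀ {g : G}, ¬ Group.IsNilpotent (G ⧸ center G) := fun {g} e =>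
    hnil (by haveI := e; exact Subgroup.isNilpotent_of_ker_le_center π (QuotientGroup.ker_mk' (center G)).le)
  obtain ⟨x0, hx0, hn0⟩ : ∃ x : G, x ∉ center G ∧ ¬ (centralizer ({x} : Set G)).Normal := by
    by_contra hcon
    push Not at hcon
    refine hZ (g := 1) (Core.fittingSubgroup_eq_top_iff.1 (eq_top_iff.2 fun q _ => ?_))
    obtain ⟨x, rfl⟩ := QuotientGroup.mk'_surjective (center G) q
    by_cases hx : x ∈ center G
    · rw [mk_eq_one.2 hx]; exact one_mem _
    · exact hFit x hx (hcon x hx)
  obtain ⟨p, hp, hd0⟩ := Nat.exists_prime_and_dvd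
    (mt (orderOf_eq_one_iff (x := π x0)).1 (mt mk_eq_one.1 hx0))
  haveI := Fact.mk hp
  obtain ⟨P, hP⟩ := hsylow x0 hx0 hn0 p hd0
  have hPc : IsCoatom (P : Subgroup (G ⧸ center G)) := hP ▸ coatom_map (center_le_cent x0) (h x0 hx0)
  have hPn : ¬ (P : Subgroup (G ⧸ center G)).Normal := fun e => hn0 (by
    rw [← comap_map_cent (center_le_cent x0), ← hP]; exact e.comap _)
  set F := Cfsg.fittingSubgroup (G ⧸ center G) with hFdef
  have hqelt : ∀ (q : ℕ) [Fact q.Prime], q ∣ Nat.card (G ⧸ center G) →
      ∃ y : G, y ∉ center G ∧ q ∣ orderOf (π y) ∧ orderOf (π y) = q := by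
    intro q _ hq
    obtain ⟨b, hb⟩ := exists_prime_orderOf_dvd_card' (G := G ⧸ center G) q hq
    obtain ⟨y, rfl⟩ := QuotientGroup.mk'_surjective (center G) b
    refine ⟨y, fun e => ?_, dvd_of_eq hb.symm, hb⟩
    rw [mk_eq_one.2 e, orderOf_one] at hb
    exact (Fact.out : q.Prime).ne_one hb.symm
  by_cases hF : F = ⊥
  · obtain ⟨q, hq, hqd, hq2⟩ : ∃ q, q.Prime ∧ q ∣ Nat.card (G ⧸ center G) ∧ q ≠ 2 := by
      by_contra hcon
      push Not at hcon
      have h2 : IsPGroup 2 (G ⧸ center G) := IsPGroup.of_card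
        (Nat.eq_prime_pow_of_unique_prime_dvd Nat.card_pos.ne' (fun {d} hd hdd => hcon d hd hdd))
      exact hZ (g := 1) h2.isNilpotent
    haveI := Fact.mk hq
    obtain ⟨y, hy, hyd, hyo⟩ := hqelt q hqd
    have hn : ¬ (centralizer ({y} : Set G)).Normal := fun e => hy (mk_eq_one.1 (by
      have : π y ∈ F := hFit y hy e
      rwa [hF, mem_bot] at this))
    obtain ⟨Q, hQ⟩ := hsylow y hy hn q hyd
    have hsol : Group.IsSolvable (G ⧸ center G) := FGS2.NilMax.isSolvable_of_odd
      (M := (Q : Subgroup (G ⧸ center G))) (hQ ▸ coatom_map (center_le_cent y) (h y hy))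
      Q.isPGroup'.isNilpotent (by
        obtain ⟨k, hk⟩ := IsPGroup.iff_card.1 Q.isPGroup'
        rw [hk]; exact (hq.odd_of_ne_two hq2).pow)
    haveI := hsol
    haveI : Nontrivial (G ⧸ center G) := Finite.one_lt_card_iff_nontrivial.1
      (lt_of_lt_of_le hq.one_lt (Nat.le_of_dvd Nat.card_pos hqd))
    exact Core.fittingSubgroup_ne_bot hF
  haveI : F.Normal := by rw [hFdef]; infer_instance
  have hpgF : ∀ (q : ℕ) [Fact q.Prime] (Q : Sylow q (G ⧸ center G)), IsPGroup q F →
      F ≤ (Q : Subgroup (G ⧸ center G)) := fun q _ Q hFq =>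
    (Core.le_pCore inferInstance hFq).trans (Core.pCore_le_sylow Q)
  by_cases hFP : F ≤ (P : Subgroup (G ⧸ center G))
  · obtain ⟨q, hq, hqd, hqp⟩ : ∃ q, q.Prime ∧ q ∣ Nat.card (G ⧸ center G) ∧ q ≠ p := by
      by_contra hcon
      push Not at hcon
      have h2 : IsPGroup p (G ⧸ center G) := IsPGroup.of_card
        (Nat.eq_prime_pow_of_unique_prime_dvd Nat.card_pos.ne' (fun {d} hd hdd => hcon d hd hdd))
      exact hZ (g := 1) h2.isNilpotent
    haveI := Fact.mk hq
    obtain ⟨y, hy, hyd, hyo⟩ := hqelt q hqd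
    have hFp : IsPGroup p F := P.isPGroup'.to_le hFP
    have hn : ¬ (centralizer ({y} : Set G)).Normal := fun e => by
      have hyF : π y ∈ F := hFit y hy e
      obtain ⟨k, hk⟩ := IsPGroup.iff_orderOf.1 hFp ⟨π y, hyF⟩
      rw [Subgroup.orderOf_mk, hyo] at hk
      exact hqp ((Nat.prime_dvd_prime_iff_eq hq hp).1 (hq.dvd_of_dvd_pow (dvd_of_eq hk)))
    obtain ⟨Q, hQ⟩ := hsylow y hy hn q hyd
    have hQc : IsCoatom (Q : Subgroup (G ⧸ center G)) := hQ ▸ coatom_map (center_le_cent y) (h y hy)
    have hdisj : Disjoint F (Q : Subgroup (G ⧸ center G)) := by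
      refine disjoint_of_coprime_natCard ?_
      obtain ⟨i, hi⟩ := IsPGroup.iff_card.1 hFp
      obtain ⟨j, hj⟩ := IsPGroup.iff_card.1 Q.isPGroup'
      rw [hi, hj]
      exact Nat.Coprime.pow _ _ ((Nat.coprime_primes hp hq).2 hqp.symm)
    have htop : F ⊔ (Q : Subgroup (G ⧸ center G)) = ⊤ := (hQc.le_iff.1 le_sup_right).resolve_right
      fun e => hF (le_bot_iff.1 (hdisj.le_bot.trans' (le_inf le_rfl (le_sup_left.trans e.le))))
    have hc : IsComplement' F (Q : Subgroup (G ⧸ center G)) :=
      isComplement'_of_disjoint_and_mul_eq_univ hdisj (by rw [← normal_mul, htop, coe_top])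
    apply hPn
    have : (P : Subgroup (G ⧸ center G)) = F := by
      refine (eq_of_le_of_card_ge hFP ?_).symm
      have h1 : Nat.card (P : Subgroup (G ⧸ center G)) ∣ Nat.card F * Nat.card (Q : Subgroup (G ⧸ center G)) :=
        hc.card_mul.symm ▸ card_subgroup_dvd_card _
      obtain ⟨i, hi⟩ := IsPGroup.iff_card.1 P.isPGroup'
      obtain ⟨j, hj⟩ := IsPGroup.iff_card.1 Q.isPGroup'
      refine Nat.le_of_dvd Nat.card_pos ((Nat.Coprime.dvd_of_dvd_mul_right ?_ h1))
      rw [hi, hj]
      exact Nat.Coprime.pow _ _ ((Nat.coprime_primes hp hq).2 hqp.symm)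
    exact this ▸ inferInstance
  -- `F` has an element of order prime to `p`
  obtain ⟨q, hq, hqF, hqp⟩ : ∃ q, q.Prime ∧ q ∣ Nat.card F ∧ q ≠ p := by
    by_contra hcon
    push Not at hcon
    exact hFP (hpgF p P (IsPGroup.of_card
      (Nat.eq_prime_pow_of_unique_prime_dvd Nat.card_pos.ne' (fun {d} hd hdd => hcon d hd hdd))))
  haveI := Fact.mk hq
  obtain ⟨⟨b, hbF⟩, hb⟩ := exists_prime_orderOf_dvd_card' (G := F) q hqF
  rw [Subgroup.orderOf_mk] at hb
  obtain ⟨y, rfl⟩ := QuotientGroup.mk'_surjective (center G) b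
  have hy : y ∉ center G := fun e => by
    rw [mk_eq_one.2 e, orderOf_one] at hb; exact hq.ne_one hb.symm
  have hFtop : F ⊔ (P : Subgroup (G ⧸ center G)) = ⊤ := (hPc.le_iff.1 le_sup_right).resolve_right
    fun e => hFP (le_sup_left.trans e.le)
  have hidx : F.index ∣ Nat.card (P : Subgroup (G ⧸ center G)) := by
    rw [← relIndex_top_right, ← hFtop, sup_comm, relIndex_sup_right]
    exact relIndex_dvd_card _ _
  have hyn : (centralizer ({y} : Set G)).Normal := by
    by_contra hn
    obtain ⟨Q, hQ⟩ := hsylow y hy hn q (dvd_of_eq hb.symm)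
    have hQF : (Q : Subgroup (G ⧸ center G)) ≤ F := by
      intro g hg
      refine (QuotientGroup.eq_one_iff g).1 (orderOf_eq_one_iff.1 (Nat.eq_one_of_dvd_coprimes ?_
        (orderOf_map_dvd (QuotientGroup.mk' F) g |>.trans
          (show orderOf g ∣ Nat.card (Q : Subgroup (G ⧸ center G)) by rw [← Subgroup.orderOf_mk g hg]; exact _root_.orderOf_dvd_natCard _))
        ((_root_.orderOf_dvd_natCard _).trans hidx)))
      obtain ⟨i, hi⟩ := IsPGroup.iff_card.1 P.isPGroup'
      obtain ⟨j, hj⟩ := IsPGroup.iff_card.1 Q.isPGroup'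
      rw [hi, hj]
      exact Nat.Coprime.pow _ _ ((Nat.coprime_primes hq hp).2 hqp)
    haveI : Group.IsNilpotent F := Core.isNilpotent_fittingSubgroup _
    haveI : ((Q : Subgroup (G ⧸ center G)).subgroupOf F).Normal :=
      Core.isNilpotent_iff_forall_sylow_normal.1 inferInstance q inferInstance (Q.subtype hQF)
    have hQn : (Q : Subgroup (G ⧸ center G)).Normal := by
      have hchar : ((Q : Subgroup (G ⧸ center G)).subgroupOf F).Characteristic :=
        Sylow.characteristic_of_normal (Q.subtype hQF) inferInstance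
      have := Cfsg.Agent.Core.normal_map_subtype_of_characteristic (H := F) ((Q : Subgroup (G ⧸ center G)).subgroupOf F)
      rwa [subgroupOf_map_subtype, inf_eq_left.2 hQF] at this
    exact hn (by rw [← comap_map_cent (center_le_cent y), ← hQ]; exact hQn.comap _)
  haveI := hyn
  set D := centralizer ({y} : Set G) with hD
  haveI := Fact.mk (index_prime_of_coatom_normal (h y hy))
  -- `C(x0)` is abelian
  have hab : ∀ hDab : IsMulCommutative D, IsMulCommutative (centralizer ({x0} : Set G)) := by
    intro hDab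
    have hx0D : x0 ∉ D := fun e => by
      haveI := hDab
      exact hn0 ((eq_of_mem_abelian h (h y hy) e hx0) ▸ hyn)
    haveI : IsCyclic (G ⧸ D) := isCyclic_of_prime_card (p := D.index) rfl
    have hgen : ∀ a ∈ centralizer ({x0} : Set G), ∃ (i : ℤ) (d : G),
        d ∈ D ∧ d ∈ centralizer ({x0} : Set G) ∧ a = x0 ^ i * d := by
      intro a ha
      obtain ⟨i, hi⟩ : ∃ i : ℤ, (QuotientGroup.mk' D x0) ^ i = QuotientGroup.mk' D a :=
        mem_zpowers_iff.1 (mem_zpowers_of_prime_card (p := D.index) rfl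
          (fun e => hx0D ((QuotientGroup.eq_one_iff x0).1 e)))
      refine ⟨i, (x0 ^ i)⁻¹ * a, ?_, ?_, (mul_inv_cancel_left _ _).symm⟩
      · refine (QuotientGroup.eq_one_iff _).1 ?_
        change QuotientGroup.mk' D ((x0 ^ i)⁻¹ * a) = 1
        rw [map_mul, map_inv, map_zpow, hi, inv_mul_cancel]
      · exact mul_mem (inv_mem (zpow_mem (mem_centralizer_singleton_iff.2 rfl) i)) ha
    refine ⟨⟨fun a b => Subtype.ext ?_⟩⟩
    obtain ⟨i, d, hd, hd', ea⟩ := hgen a a.2
    obtain ⟨j, e, he, he', eb⟩ := hgen b b.2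
    have c1 : Commute d e := congrArg Subtype.val (hDab.1.1 ⟨d, hd⟩ ⟨e, he⟩)
    have c2 : Commute d x0 := mem_centralizer_singleton_iff.1 hd'
    have c3 : Commute e x0 := mem_centralizer_singleton_iff.1 he'
    change (a : G) * b = b * a
    rw [ea, eb]
    exact (((Commute.zpow_zpow_self x0 i j).mul_right (c3.zpow_right i).symm).mul_left
      ((c2.zpow_right j).mul_right c1)).eq
  rcases dichotomy h hy (dvd_of_eq hb.symm) with hDab | hDq
  · exact hn0 (hno x0 hx0 (hab hDab))
  · -- `D` is a `q`-group, so `P` has prime order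
    haveI : (D.map π).Normal := hyn.map π (QuotientGroup.mk'_surjective _)
    have hdisj : Disjoint (D.map π) (P : Subgroup (G ⧸ center G)) := by
      refine disjoint_of_coprime_natCard ?_
      obtain ⟨i, hi⟩ := IsPGroup.iff_card.1 hDq
      obtain ⟨j, hj⟩ := IsPGroup.iff_card.1 P.isPGroup'
      rw [hi, hj]
      exact Nat.Coprime.pow _ _ ((Nat.coprime_primes hq hp).2 hqp)
    have hx0D : x0 ∉ D := fun e => by
      have h1 : π x0 ∈ (P : Subgroup (G ⧸ center G)) := hP ▸ ⟨x0, mem_centralizer_singleton_iff.2 rfl, rfl⟩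
      exact hx0 (mk_eq_one.1 (Subgroup.disjoint_def.1 hdisj ⟨x0, e, rfl⟩ h1))
    apply hn0
    refine hno x0 hx0 ⟨⟨fun a b => Subtype.ext ?_⟩⟩
    have hgen : ∀ a ∈ centralizer ({x0} : Set G), ∃ (i : ℤ) (z : G), z ∈ center G ∧ a = x0 ^ i * z := by
      intro a ha
      obtain ⟨i, hi⟩ : ∃ i : ℤ, (QuotientGroup.mk' D x0) ^ i = QuotientGroup.mk' D a :=
        mem_zpowers_iff.1 (mem_zpowers_of_prime_card (p := D.index) rfl
          (fun e => hx0D ((QuotientGroup.eq_one_iff x0).1 e)))
      refine ⟨i, (x0 ^ i)⁻¹ * a, mk_eq_one.1 ?_, (mul_inv_cancel_left _ _).symm⟩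
      refine Subgroup.disjoint_def.1 hdisj ⟨_, ?_, rfl⟩ (hP ▸ ⟨_, ?_, rfl⟩)
      · refine (QuotientGroup.eq_one_iff _).1 ?_
        change QuotientGroup.mk' D ((x0 ^ i)⁻¹ * a) = 1
        rw [map_mul, map_inv, map_zpow, hi, inv_mul_cancel]
      · exact mul_mem (inv_mem (zpow_mem (mem_centralizer_singleton_iff.2 rfl) i)) ha
    obtain ⟨i, d, hd, ea⟩ := hgen a a.2
    obtain ⟨j, e, he, eb⟩ := hgen b b.2
    change (a : G) * b = b * a
    rw [ea, eb]
    have cd : ∀ g : G, Commute d g := fun g => (mem_center_iff.1 hd g).symm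
    have ce : ∀ g : G, Commute e g := fun g => (mem_center_iff.1 he g).symm
    exact (((Commute.zpow_zpow_self x0 i j).mul_right (ce _).symm).mul_left
      ((cd _).mul_right (cd _))).eq


/-- Let G be a non-abelian finite group in which the centralizer of every non-central element is a maximal subgroup. Then G/Z(G) is either an elementary abelian p-group for some prime p, or a minimal non-abelian group (non-abelian with all proper subgroups abelian) of order p^a · q for distinct primes p, q with a normal Sylow p-subgroup. -/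
theorem result {G : Type*} [Group G] [Finite G] (hna : ¬ IsMulCommutative G)
    (h : ∀ x : G, x ∉ Subgroup.center G → IsCoatom (Subgroup.centralizer ({x} : Set G))) :
    (∃ p : ℕ, p.Prime ∧ Cfsg.IsElementaryAbelian p (⊤ : Subgroup (G ⧸ Subgroup.center G))) ∨
    (¬ IsMulCommutative (G ⧸ Subgroup.center G) ∧ (∀ H : Subgroup (G ⧸ Subgroup.center G), H ≠ ⊤ → IsMulCommutative ↥H) ∧
      ∃ p q a : ℕ, p.Prime ∧ q.Prime ∧ p ≠ q ∧ Nat.card (G ⧸ Subgroup.center G) = p ^ a * q ∧
        ∀ P : Subgroup (G ⧸ Subgroup.center G), Nat.card ↥P = p ^ a → P.Normal) := by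
  by_cases hnil : Group.IsNilpotent G
  · exact Or.inl (nilpotent_case hna h)
  obtain ⟨x, hx, hab, hn⟩ := exists_abelian_nonnormal hnil h
  exact Or.inr (frobenius_case h (h x hx) (center_le_cent x) hn)

end Cfsg.Agent.S3904
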