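import Cfsg.Statements.S3908
import Cfsg.Agent.OddLocal.UniqueSubgroup
import Mathlib.GroupTheory.Sylow
import Cfsg.Agent.Coprime.Conjugacy
-- import your own Cfsg.Agent.* helpers here

set_option autoImplicit false
open Cfsg

namespace Cfsg.Agent.S3908

open Cfsg.Agent

variable {G : Type*} [Group G] [Finite G]

theorem comm_of_exponent_two {S : Subgroup G} (h : ∀ x ∈ S, x ^ 2 = 1) : IsMulCommutative S := by
  refine ⟨⟨fun a b => ?_⟩⟩
  have key : ∀ z : S, z⁻¹ = z := fun z =>
    inv_eq_of_mul_eq_one_right (Subtype.ext (by simpa [pow_two] using h z z.2))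
  rw [← key (a * b), mul_inv_rev, key, key]

/-- In such a group a `p`-subgroup has exponent `p` or a unique subgroup of order `p`. -/
theorem exponent_or_unique
    (hB : ∀ A B : Subgroup G, IsMulCommutative ↥A → IsMulCommutative ↥B → Nat.card ↥A = Nat.card ↥B → ∃ g : G, B = A.map (MulAut.conj g).toMonoidHom)
    {p : ℕ} [hp : Fact p.Prime] (P : Subgroup G) (hP : IsPGroup p P) :
    (∀ x ∈ P, x ^ p = 1) ∨ OddLocal.UniqueOrderP p P := by
  by_contra hcon
  obtain ⟨hexp, huni⟩ := not_or.mp hcon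
  push Not at hexp
  obtain ⟨x, hx, hxp⟩ := hexp
  -- a cyclic subgroup of order `p ^ 2`
  obtain ⟨i, hi⟩ := IsPGroup.iff_orderOf.mp hP ⟨x, hx⟩
  rw [Subgroup.orderOf_mk] at hi
  have hi2 : 2 ≤ i := by
    by_contra hlt
    refine hxp (orderOf_dvd_iff_pow_eq_one.mp ?_)
    rw [hi]
    exact (pow_dvd_pow p (show i ≤ 1 by omega)).trans (by rw [pow_one])
  obtain ⟨j, rfl⟩ : ∃ j, i = j + 2 := ⟨i - 2, by omega⟩
  have hy : orderOf (x ^ p ^ j) = p ^ 2 := by
    rw [orderOf_pow' x (pow_ne_zero _ hp.out.ne_zero), hi, Nat.gcd_eq_right (pow_dvd_pow p (by omega)),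
      pow_add, Nat.mul_div_cancel_left _ (pow_pos hp.out.pos _)]
  -- an elementary abelian subgroup of order `p ^ 2`
  haveI : Nontrivial P := Subgroup.nontrivial_iff_ne_bot P |>.mpr fun e => hxp (by
    rw [e] at hx; rw [Subgroup.mem_bot.mp hx, one_pow])
  obtain ⟨z, hz⟩ := exists_prime_orderOf_dvd_card' (G := Subgroup.center P) p (by
    haveI := hP.center_nontrivial
    obtain ⟨k, hk⟩ := IsPGroup.iff_card.mp (hP.to_subgroup (Subgroup.center P))
    rw [hk]
    refine dvd_pow_self p fun e => ?_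
    rw [e, pow_zero] at hk
    exact Finite.one_lt_card.ne' hk)
  set c : G := ((z : P) : G) with hcdef
  have hc : orderOf c = p := by rw [hcdef, Subgroup.orderOf_coe, Subgroup.orderOf_coe, hz]
  obtain ⟨b, hbp, hbn⟩ : ∃ b : P, b ^ p = 1 ∧ b ∉ Subgroup.zpowers (z : P) := by
    by_contra h
    push Not at h
    refine huni fun a d ha hd ha1 => ?_
    have heq : Subgroup.zpowers a = Subgroup.zpowers (z : P) := by
      refine Subgroup.eq_of_le_of_card_ge (Subgroup.zpowers_le.mpr (h a ha)) ?_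
      rw [Nat.card_zpowers, Nat.card_zpowers, Subgroup.orderOf_coe, hz, orderOf_eq_prime ha ha1]
    exact heq ▸ h d hd
  have hb1 : b ≠ 1 := fun e => hbn (e ▸ Subgroup.one_mem _)
  have hcb : Commute c (b : G) := by
    have := Subgroup.mem_center_iff.mp z.2 b
    exact (congrArg Subtype.val this).symm
  set E := Subgroup.zpowers c ⊔ Subgroup.zpowers (b : G) with hE
  haveI hEc : IsMulCommutative E := by
    rw [hE, Subgroup.zpowers_eq_closure, Subgroup.zpowers_eq_closure,
      ← Subgroup.closure_union]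
    refine Subgroup.isMulCommutative_closure ?_
    rintro u (rfl | rfl) v (rfl | rfl)
    · rfl
    · exact hcb.eq
    · exact hcb.eq.symm
    · rfl
  have hEexp : ∀ e ∈ E, e ^ p = 1 := by
    intro e he
    have hn : Subgroup.zpowers (b : G) ≤ Subgroup.normalizer (Subgroup.zpowers c : Set G) := by
      refine le_trans ?_ (Subgroup.centralizer_le_normalizer _)
      rw [Subgroup.zpowers_le, Subgroup.mem_centralizer_iff]
      intro u hu
      obtain ⟨s, rfl⟩ := Subgroup.mem_zpowers_iff.mp hu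
      exact (hcb.zpow_left s).eq
    rw [hE, ← SetLike.mem_coe, Subgroup.coe_mul_of_right_le_normalizer_left _ _ hn] at he
    obtain ⟨u, hu, v, hv, rfl⟩ := he
    obtain ⟨s, rfl⟩ := Subgroup.mem_zpowers_iff.mp hu
    obtain ⟨t, rfl⟩ := Subgroup.mem_zpowers_iff.mp hv
    show (c ^ s * (b : G) ^ t) ^ p = 1
    rw [(hcb.zpow_zpow s t).mul_pow]
    have e1 : c ^ p = 1 := by rw [← hc, pow_orderOf_eq_one]
    have e2 : (b : G) ^ p = 1 := by simpa using congrArg Subtype.val hbp
    have e3 : (c ^ s) ^ p = 1 := by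
      rw [← zpow_natCast, ← zpow_mul, mul_comm, zpow_mul, zpow_natCast, e1, one_zpow]
    have e4 : ((b : G) ^ t) ^ p = 1 := by
      rw [← zpow_natCast, ← zpow_mul, mul_comm, zpow_mul, zpow_natCast, e2, one_zpow]
    rw [e3, e4, one_mul]
  have hEcard : Nat.card E = p ^ 2 := by
    have hn : Subgroup.zpowers (b : G) ≤ Subgroup.normalizer (Subgroup.zpowers c : Set G) := by
      refine le_trans ?_ (Subgroup.centralizer_le_normalizer _)
      rw [Subgroup.zpowers_le, Subgroup.mem_centralizer_iff]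
      intro u hu
      obtain ⟨s, rfl⟩ := Subgroup.mem_zpowers_iff.mp hu
      exact (hcb.zpow_left s).eq
    rw [hE, Coprime.card_sup hn]
    · rw [Nat.card_zpowers, Nat.card_zpowers, hc, Subgroup.orderOf_coe, orderOf_eq_prime hbp hb1, pow_two]
    · rw [Subgroup.eq_bot_iff_forall]
      rintro u ⟨hu, hu'⟩
      by_contra hu1
      have h1 : Subgroup.zpowers u = Subgroup.zpowers (b : G) := by
        refine Subgroup.eq_of_le_of_card_ge (Subgroup.zpowers_le.mpr hu') ?_
        rw [Nat.card_zpowers, Nat.card_zpowers, Subgroup.orderOf_coe, orderOf_eq_prime hbp hb1]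
        refine le_of_eq (orderOf_eq_prime ?_ hu1).symm
        exact hEexp u (Subgroup.mem_sup_left hu)
      have h2 : (b : G) ∈ Subgroup.zpowers c := Subgroup.zpowers_le.mpr hu (h1 ▸ Subgroup.mem_zpowers (b : G))
      obtain ⟨s, hs⟩ := Subgroup.mem_zpowers_iff.mp h2
      exact hbn (Subgroup.mem_zpowers_iff.mpr ⟨s, Subtype.ext (by simpa [hcdef] using hs)⟩)
  obtain ⟨g, hg⟩ := hB E (Subgroup.zpowers (x ^ p ^ j)) hEc inferInstance
    (by rw [hEcard, Nat.card_zpowers, hy])
  have hmem : x ^ p ^ j ∈ E.map (MulAut.conj g).toMonoidHom := hg ▸ Subgroup.mem_zpowers _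
  obtain ⟨e, he, hee⟩ := hmem
  have h3 : (x ^ p ^ j) ^ p = 1 := by rw [← hee, ← map_pow, hEexp e he, map_one]
  have h4 := orderOf_dvd_of_pow_eq_one h3
  rw [hy] at h4
  have := Nat.le_of_dvd hp.out.pos h4
  have := hp.out.two_le
  nlinarith

/-- Let G be a finite group in which any two abelian subgroups of the same order are conjugate. Then a Sylow 2-subgroup of G is cyclic, elementary abelian or generalized quaternion, and for an odd prime p a Sylow p-subgroup of G is cyclic or has exponent dividing p. -/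
theorem result {G : Type*} [Group G] [Finite G] (hB : ∀ A B : Subgroup G, IsMulCommutative ↥A → IsMulCommutative ↥B → Nat.card ↥A = Nat.card ↥B → ∃ g : G, B = A.map (MulAut.conj g).toMonoidHom) :
    (∀ P : Sylow 2 G, IsCyclic ↥(P : Subgroup G) ∨ Cfsg.IsElementaryAbelian 2 (P : Subgroup G) ∨ ∃ k : ℕ, Nonempty (↥(P : Subgroup G) ≃* QuaternionGroup (2 ^ k))) ∧
    ∀ (p : ℕ) [Fact p.Prime], p ≠ 2 → ∀ P : Sylow p G, IsCyclic ↥(P : Subgroup G) ∨ ∀ x ∈ (P : Subgroup G), x ^ p = 1 := by
  refine ⟨fun P => ?_, fun p hp hp2 P => ?_⟩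
  · rcases exponent_or_unique hB (P : Subgroup G) P.2 with h | h
    · exact Or.inr (Or.inl ⟨comm_of_exponent_two h, h⟩)
    · rcases OddLocal.isCyclic_or_quaternion P.2 h with h | ⟨-, h⟩
      · exact Or.inl h
      · exact Or.inr (Or.inr h)
  · rcases exponent_or_unique hB (P : Subgroup G) P.2 with h | h
    · exact Or.inr h
    · exact Or.inl (OddLocal.isCyclic_of_uniqueOrderP _ P.2 h (Or.inl hp2) le_rfl)

end Cfsg.Agent.S3908
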