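import Cfsg.Statements.S3910
import Cfsg.Agent.FGS2.Basic

set_option autoImplicit false
open Cfsg

namespace Cfsg.Agent.S3910

/-- A finite nilpotent group in which any two abelian subgroups of the same order are conjugate is cyclic. -/
theorem result {G : Type*} [Group G] [Finite G] (hB : ∀ A B : Subgroup G, IsMulCommutative ↥A → IsMulCommutative ↥B → Nat.card ↥A = Nat.card ↥B → ∃ g : G, B = A.map (MulAut.conj g).toMonoidHom) (hnil : Group.IsNilpotent G) : IsCyclic G := by
  have : IsZGroup G := by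
    refine ⟨fun p hp P => ?_⟩
    have : Fact p.Prime := ⟨hp⟩
    by_contra hnc
    let Pg := (P : Subgroup G)
    obtain ⟨x, hx⟩ := Finite.exists_max (fun x : ↥Pg => orderOf x)
    have hne : Subgroup.zpowers x ≠ ⊤ := fun h => hnc ⟨⟨x, fun y => (h.symm ▸ Subgroup.mem_top y : y ∈ Subgroup.zpowers x)⟩⟩
    obtain ⟨M, hM, hxM⟩ := (eq_top_or_exists_le_coatom (Subgroup.zpowers x)).resolve_left hne
    have : Group.IsNilpotent ↥Pg := P.isPGroup'.isNilpotent
    have hMn : M.Normal := Subgroup.NormalizerCondition.normal_of_coatom M normalizerCondition_of_isNilpotent hM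
    refine hM.1 (eq_top_iff.2 fun y _ => ?_)
    have hdvd : orderOf y ∣ orderOf x := by
      obtain ⟨i, hi⟩ := IsPGroup.iff_orderOf.1 P.isPGroup' y
      obtain ⟨j, hj⟩ := IsPGroup.iff_orderOf.1 P.isPGroup' x
      have := hx y
      rw [hi, hj] at this ⊢
      exact pow_dvd_pow p ((Nat.pow_le_pow_iff_right hp.one_lt).1 this)
    have hz : orderOf ((x : G) ^ (orderOf x / orderOf y)) = orderOf y := by
      rw [← Subgroup.coe_pow, Subgroup.orderOf_coe,
        orderOf_pow_orderOf_div (orderOf_pos x).ne' hdvd]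
    obtain ⟨g, hg⟩ := hB (Subgroup.zpowers ((x : G) ^ (orderOf x / orderOf y)))
      (Subgroup.zpowers (y : G)) inferInstance inferInstance
      (by rw [Nat.card_zpowers, Nat.card_zpowers, hz, Subgroup.orderOf_coe])
    obtain ⟨z, hz', hzy⟩ : (y : G) ∈ (Subgroup.zpowers ((x : G) ^ (orderOf x / orderOf y))).map
        (MulAut.conj g).toMonoidHom := hg ▸ Subgroup.mem_zpowers _
    obtain ⟨k, rfl⟩ := Subgroup.mem_zpowers_iff.1 hz'
    have hgtop : g ∈ Pg ⊔ Subgroup.centralizer (Pg : Set G) :=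
      Cfsg.Agent.FGS2.sylow_sup_centralizer hnil P ▸ Subgroup.mem_top g
    have hPn : Pg.Normal := Sylow.normal_of_normalizerCondition normalizerCondition_of_isNilpotent P
    obtain ⟨a, ha, b, hb, rfl⟩ := Subgroup.mem_sup_of_normal_left.1 hgtop
    have hy : y = (⟨a, ha⟩ : ↥Pg) * (x ^ (orderOf x / orderOf y)) ^ k * (⟨a, ha⟩ : ↥Pg)⁻¹ := by
      apply Subtype.ext
      rw [← hzy]
      have hc := hb _ ((x ^ (orderOf x / orderOf y)) ^ k : ↥Pg).2
      simp only [MulEquiv.coe_toMonoidHom, MulAut.conj_apply, Subgroup.coe_mul, Subgroup.coe_inv,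
        mul_inv_rev]
      push_cast at hc ⊢
      calc a * b * _ * (b⁻¹ * a⁻¹) = a * (b * ((x : G) ^ (orderOf x / orderOf y)) ^ k) * b⁻¹ * a⁻¹ := by group
        _ = a * ((((x : G) ^ (orderOf x / orderOf y)) ^ k) * b) * b⁻¹ * a⁻¹ := by rw [hc]
        _ = _ := by group
    rw [hy]
    exact hMn.conj_mem _ (zpow_mem (pow_mem (hxM (Subgroup.mem_zpowers x)) _) k) _
  have := hnil
  exact inferInstance

end Cfsg.Agent.S3910
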