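import Cfsg.Statements.S3917
import Cfsg.Agent.OddLocal.UniqueSubgroup
import Cfsg.Agent.FGS2.Basic

set_option autoImplicit false
open Cfsg

namespace Cfsg.Agent.S3917

theorem map_subtype_subgroupOf_eq_of_le {G : Type*} [Group G] {H K L : Subgroup G}
    (hH : H ≤ L) (hK : K ≤ L) (h : H.subgroupOf L = K.subgroupOf L) : H = K := by
  rw [← inf_eq_left.2 hH, ← inf_eq_left.2 hK, ← Subgroup.subgroupOf_map_subtype,
    ← Subgroup.subgroupOf_map_subtype, h]

/-- Say that a group has self-centralizing non-cyclic subgroups when every non-cyclic subgroup H satisfies C_G(H) ≤ H. A finite abelian group with self-centralizing non-cyclic subgroups is cyclic or elementary abelian of order p² for a prime p. -/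
theorem result {G : Type*} [CommGroup G] [Finite G] (hX : (∀ H : Subgroup G, ¬ IsCyclic ↥H → Subgroup.centralizer (H : Set G) ≤ H)) :
    IsCyclic G ∨ ∃ p : ℕ, p.Prime ∧ Nat.card G = p ^ 2 ∧ Monoid.exponent G = p := by
  have htop : ∀ H : Subgroup G, ¬ IsCyclic ↥H → H = ⊤ := fun H hH =>
    eq_top_iff.2 fun x _ => hX H hH (fun h _ => mul_comm h x)
  refine or_iff_not_imp_left.2 fun hnc => ?_
  obtain ⟨p, hp, P, hP⟩ : ∃ p, p.Prime ∧ ∃ P : Sylow p G, ¬ IsCyclic ↥(P : Subgroup G) := by
    by_contra h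
    have : IsZGroup G := ⟨fun p hp P => by_contra fun hc => h ⟨p, hp, P, hc⟩⟩
    exact hnc inferInstance
  have : Fact p.Prime := ⟨hp⟩
  have hpG : IsPGroup p G :=
    IsPGroup.of_equiv P.isPGroup' ((MulEquiv.subgroupCongr (htop _ hP)).trans Subgroup.topEquiv)
  have hker : (powMonoidHom p : G →* G).ker = ⊤ := by
    refine htop _ fun hcyc => hnc ?_
    refine Cfsg.Agent.OddLocal.isCyclic_of_uniqueOrderP (Nat.card G) hpG
      (Cfsg.Agent.OddLocal.UniqueOrderP.of_card fun H K hH hK => ?_) (Or.inr fun a b => mul_comm a b) le_rfl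
    have hle : ∀ S : Subgroup G, Nat.card ↥S = p → S ≤ (powMonoidHom p : G →* G).ker := fun S hS x hx => by
      have := pow_card_eq_one' (x := (⟨x, hx⟩ : ↥S))
      rw [hS] at this
      exact congrArg Subtype.val this
    refine map_subtype_subgroupOf_eq_of_le (hle H hH) (hle K hK) ?_
    exact Cfsg.Agent.FGS2.subgroup_eq_of_card_eq (by
      rw [Nat.card_congr (Subgroup.subgroupOfEquivOfLe (hle H hH)).toEquiv,
        Nat.card_congr (Subgroup.subgroupOfEquivOfLe (hle K hK)).toEquiv, hH, hK])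
  have hexp : ∀ x : G, x ^ p = 1 := fun x => by
    have : x ∈ (powMonoidHom p : G →* G).ker := hker ▸ Subgroup.mem_top x
    exact this
  refine ⟨p, hp, ?_⟩
  have hnt : Nontrivial G := not_subsingleton_iff_nontrivial.1 fun h => hnc isCyclic_of_subsingleton
  obtain ⟨x, hx⟩ := exists_ne (1 : G)
  have hox : orderOf x = p := (orderOf_eq_prime_iff).2 ⟨hexp x, hx⟩
  obtain ⟨y, hy⟩ : ∃ y, y ∉ Subgroup.zpowers x := by
    by_contra h; push Not at h; exact hnc ⟨⟨x, h⟩⟩
  have hy1 : y ≠ 1 := fun h => hy (h ▸ one_mem _)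
  have hoy : orderOf y = p := (orderOf_eq_prime_iff).2 ⟨hexp y, hy1⟩
  let H := Subgroup.zpowers x ⊔ Subgroup.zpowers y
  have hHnc : ¬ IsCyclic ↥H := by
    intro hc
    have h1 : Subgroup.zpowers x ≤ H := le_sup_left
    have h2 : Subgroup.zpowers y ≤ H := le_sup_right
    have : Subgroup.zpowers x = Subgroup.zpowers y :=
      map_subtype_subgroupOf_eq_of_le h1 h2 (Cfsg.Agent.FGS2.subgroup_eq_of_card_eq (by
        rw [Nat.card_congr (Subgroup.subgroupOfEquivOfLe h1).toEquiv,
          Nat.card_congr (Subgroup.subgroupOfEquivOfLe h2).toEquiv, Nat.card_zpowers, Nat.card_zpowers,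
          hox, hoy]))
    exact hy (this ▸ Subgroup.mem_zpowers y)
  have hle : Nat.card G ≤ p ^ 2 := by
    let f : ↥(Subgroup.zpowers x) × ↥(Subgroup.zpowers y) → G := fun z => z.1 * z.2
    have hf : Function.Surjective f := fun g => by
      obtain ⟨a, ha, b, hb, hab⟩ := Subgroup.mem_sup.1 ((htop H hHnc) ▸ Subgroup.mem_top g : g ∈ H)
      exact ⟨(⟨a, ha⟩, ⟨b, hb⟩), hab⟩
    have := Nat.card_le_card_of_surjective f hf
    rwa [Nat.card_prod, Nat.card_zpowers, Nat.card_zpowers, hox, hoy, ← sq] at this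
  have hcard : Nat.card G = p ^ 2 := by
    obtain ⟨a, ha⟩ := IsPGroup.iff_card.1 hpG
    rcases Nat.lt_or_ge a 2 with h | h
    · interval_cases a
      · exact absurd (Nat.card_eq_one_iff_unique.1 (by simpa using ha)).1 (not_subsingleton_iff_nontrivial.2 hnt)
      · exact absurd (isCyclic_of_prime_card (by simpa using ha)) hnc
    · exact le_antisymm hle (ha ▸ Nat.pow_le_pow_right hp.pos h)
  refine ⟨hcard, ?_⟩
  rcases (Nat.dvd_prime hp).1 (Monoid.exponent_dvd_of_forall_pow_eq_one hexp) with h | h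
  · exact absurd (hox.symm.trans (Nat.eq_one_of_dvd_one (h ▸ Monoid.order_dvd_exponent x))) hp.ne_one
  · exact h

end Cfsg.Agent.S3917
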