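import Cfsg.Statements.S3920
import Cfsg.Agent.FGS2.DihedralSub
-- import your own Cfsg.Agent.* helpers here

set_option autoImplicit false
open Cfsg

namespace Cfsg.Agent.S3920

/-- Say that a group has self-centralizing non-cyclic subgroups when every non-cyclic subgroup H satisfies C_G(H) ≤ H. For n ≥ 3, the dihedral group of order 2n has self-centralizing non-cyclic subgroups if and only if n is odd or a power of 2. -/
theorem result (n : ℕ) (hn : 3 ≤ n) : (∀ H : Subgroup (DihedralGroup n), ¬ IsCyclic ↥H → Subgroup.centralizer (H : Set (DihedralGroup n)) ≤ H) ↔ (Odd n ∨ ∃ k : ℕ, n = 2 ^ k) := by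
  constructor
  · intro h
    by_contra hc
    push Not at hc
    obtain ⟨hodd, h2⟩ := hc
    rw [Nat.not_odd_iff_even, even_iff_two_dvd] at hodd
    obtain ⟨a, m, hm, hn'⟩ := Nat.exists_eq_two_pow_mul_odd (n := n) (by omega)
    have hm1 : m ≠ 1 := fun h1 => h2 a (by rw [hn', h1, mul_one])
    have ha : a ≠ 0 := by
      rintro rfl
      rw [hn', pow_zero, one_mul] at hodd
      exact hm.not_two_dvd_nat hodd
    have hd : 2 ^ a ∣ n := Dvd.intro m hn'.symm
    have hna : ¬ IsMulCommutative (FGS2.dihedralSub (2 ^ a) hd) := by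
      refine FGS2.not_isMulCommutative_dihedralSub hd fun hdd => ?_
      rw [hn', mul_comm 2] at hdd
      have h3 := (Nat.dvd_prime Nat.prime_two).mp (Nat.dvd_of_mul_dvd_mul_left (by positivity) hdd)
      obtain ⟨k, rfl⟩ := hm
      omega
    have hnc : ¬ IsCyclic (FGS2.dihedralSub (2 ^ a) hd) := fun hc => hna inferInstance
    obtain ⟨c, hc2⟩ := hodd
    have hhalf : (c : ZMod n) + c = 0 := by
      rw [← Nat.cast_add, ← two_mul, ← hc2]; exact ZMod.natCast_self n
    have hmem : DihedralGroup.r (c : ZMod n) ∈ Subgroup.centralizer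
        ((FGS2.dihedralSub (2 ^ a) hd : Subgroup (DihedralGroup n)) : Set (DihedralGroup n)) := by
      refine Subgroup.mem_centralizer_iff.mpr ?_
      rintro (x | x) -
      · simp [add_comm]
      · simp only [DihedralGroup.r_mul_sr, DihedralGroup.sr_mul_r]
        rw [sub_eq_add_neg, neg_eq_of_add_eq_zero_right hhalf]
    have := h _ hnc hmem
    rw [FGS2.r_mem_dihedralSub, map_natCast, ZMod.natCast_eq_zero_iff] at this
    obtain ⟨b, hb⟩ := this
    have h5 : 2 ^ a * m = 2 ^ a * (2 * b) := by
      rw [← hn', hc2, hb, Nat.mul_left_comm]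
    exact hm.not_two_dvd_nat ⟨b, Nat.eq_of_mul_eq_mul_left (by positivity) h5⟩
  · intro hn' H hH g hg
    have : NeZero n := ⟨by omega⟩
    obtain ⟨i, hi⟩ : ∃ i, DihedralGroup.sr i ∈ H := by
      by_contra hc
      push Not at hc
      refine hH ?_
      suffices hle : H ≤ Subgroup.zpowers (DihedralGroup.r 1) from
        isCyclic_of_injective (Subgroup.inclusion hle) (Subgroup.inclusion_injective hle)
      rintro (x | x) hx
      · exact ⟨x.val, by simp⟩
      · exact absurd hx (hc x)
    obtain ⟨k, hk, hk0⟩ : ∃ k, DihedralGroup.r k ∈ H ∧ k ≠ 0 := by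
      by_contra hc
      push Not at hc
      suffices hle : H ≤ Subgroup.zpowers (DihedralGroup.sr i) from
        hH (isCyclic_of_injective (Subgroup.inclusion hle) (Subgroup.inclusion_injective hle))
      rintro (x | x) hx
      · rw [hc x hx]; exact one_mem _
      · have h1 := mul_mem hi hx
        rw [DihedralGroup.sr_mul_sr] at h1
        rw [sub_eq_zero.mp (hc _ h1)]
        exact Subgroup.mem_zpowers _
    have hcomm : ∀ y ∈ H, y * g = g * y := Subgroup.mem_centralizer_iff.mp hg
    have e1 := hcomm _ hi
    have e2 := hcomm _ hk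
    -- elements killed by two lie in `H`
    have hhalf : ∀ x : ZMod n, x + x = 0 → DihedralGroup.r x ∈ H := by
      intro x hx
      rcases hn' with ⟨m, hm⟩ | ⟨e, rfl⟩
      · have h3 : ((2 * m + 1 : ℕ) : ZMod n) = 0 := by rw [← hm]; exact ZMod.natCast_self n
        push_cast at h3
        rw [show x = 0 by linear_combination x * h3 - (m : ZMod n) * hx]
        exact one_mem _
      · by_cases hx0 : x = 0
        · rw [hx0]; exact one_mem _
        rcases e with _ | e
        · simp at hn
        have h2x : x.val = 2 ^ e := by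
          have h3 : ((x.val + x.val : ℕ) : ZMod (2 ^ (e + 1))) = 0 := by
            rw [Nat.cast_add, ZMod.natCast_zmod_val, hx]
          rw [ZMod.natCast_eq_zero_iff] at h3
          obtain ⟨t, ht⟩ := h3
          have hlt := ZMod.val_lt x
          have h0 : x.val ≠ 0 := fun h0 => hx0 ((ZMod.val_eq_zero x).mp h0)
          have : t = 1 := by
            rcases t with _ | _ | t
            · omega
            · rfl
            · have : 2 ^ (e + 1) * (t + 1 + 1) = 2 ^ (e + 1) * t + 2 ^ (e + 1) + 2 ^ (e + 1) := by ring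
              omega
          subst this
          have := pow_succ 2 e
          omega
        have hk0' : k.val ≠ 0 := fun h0 => hk0 ((ZMod.val_eq_zero k).mp h0)
        obtain ⟨u, v, hv, huv⟩ := Nat.exists_eq_two_pow_mul_odd (n := k.val) hk0'
        have hu : u ≤ e := by
          by_contra hlt
          have h4 := ZMod.val_lt k
          rw [huv] at h4
          have h5 : 2 ^ (e + 1) ≤ 2 ^ u * v :=
            (Nat.pow_le_pow_right (by norm_num) (not_le.mp hlt)).trans
              (Nat.le_mul_of_pos_right _ hv.pos)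
          omega
        obtain ⟨w, hw⟩ := hv
        have h6 : x = ((2 ^ (e - u) : ℕ) : ZMod (2 ^ (e + 1))) * k := by
          rw [← ZMod.natCast_zmod_val x, ← ZMod.natCast_zmod_val k, h2x, huv, hw, ← Nat.cast_mul]
          have h7 : 2 ^ (e - u) * (2 ^ u * (2 * w + 1)) = 2 ^ e + 2 ^ (e + 1) * w := by
            rw [← mul_assoc, ← pow_add, Nat.sub_add_cancel hu]; ring
          rw [h7, Nat.cast_add, Nat.cast_mul, ZMod.natCast_self, zero_mul, add_zero]
        have := pow_mem hk (2 ^ (e - u))
        rwa [DihedralGroup.r_pow, mul_comm, ← h6] at this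
    rcases g with a | a
    · simp only [DihedralGroup.r_mul_sr, DihedralGroup.sr_mul_r, DihedralGroup.sr.injEq] at e1
      exact hhalf a (by linear_combination e1)
    · simp only [DihedralGroup.r_mul_sr, DihedralGroup.sr_mul_r, DihedralGroup.sr.injEq] at e2
      simp only [DihedralGroup.sr_mul_sr, DihedralGroup.r.injEq] at e1
      have h1 := mul_mem hi (hhalf (a - i) (by linear_combination e1))
      rwa [DihedralGroup.sr_mul_r, add_sub_cancel] at h1

end Cfsg.Agent.S3920
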