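import Cfsg.Statements.S3927
import Cfsg.Agent.FGS2.GenZipper
import Mathlib.GroupTheory.SemidirectProduct
-- import your own Cfsg.Agent.* helpers here

set_option autoImplicit false
open Cfsg

namespace Cfsg.Agent.S3927

open Cfsg.Agent

universe u

theorem closure_iterate (n : ℕ) : ∀ {G : Type u} [Group G] [Finite G] (α : MulAut G), Nat.card G = n →
    Subgroup.closure (Set.range (fun c : G => c * (α c)⁻¹)) = ⊤ → ∀ k : ℕ,
    Subgroup.closure (Set.range ((fun c : G => c * (α c)⁻¹)^[k + 1])) = ⊤ := by
  induction n using Nat.strong_induction_on with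
  | _ n ih =>
  intro G _ _ α hn hG k
  induction k with
  | zero => simpa using hG
  | succ k ihk =>
  set f : G → G := fun c => c * (α c)⁻¹ with hf
  set W := Subgroup.closure (Set.range (f^[k + 1 + 1])) with hW
  by_contra hWt
  have hcomm : ∀ c, f (α c) = α (f c) := fun c => by simp [hf]
  have hcommj : ∀ (j : ℕ) (c : G), f^[j] (α c) = α (f^[j] c) := fun j c =>
    (Function.Semiconj.iterate_right (f := α) (fun x => (hcomm x).symm) j c).symm
  have hWinv : ∀ a ∈ Subgroup.zpowers α, ∀ w ∈ W, a w ∈ W := by
    have hle : W.map α.toMonoidHom ≤ W := by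
      rw [hW, MonoidHom.map_closure, Subgroup.closure_le]
      rintro _ ⟨_, ⟨c, rfl⟩, rfl⟩
      exact Subgroup.subset_closure ⟨α c, hcommj _ c⟩
    have hstep : ∀ w ∈ W, α w ∈ W := fun w hw => hle ⟨w, hw, rfl⟩
    intro a ha w hw
    obtain ⟨m, rfl⟩ := (mem_powers_iff_mem_zpowers (x := α)).2 ha
    clear ha
    simp only
    induction m generalizing w with
    | zero => simpa using hw
    | succ m ihm => simp only [pow_succ, MulAut.mul_apply]; exact ihm (α w) (hstep w hw)
  have : Finite (SemidirectProduct G (Subgroup.zpowers α) (Subgroup.zpowers α).subtype) := Finite.of_equiv _ SemidirectProduct.equivProd.symm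
  let a : Subgroup.zpowers α := ⟨α, Subgroup.mem_zpowers α⟩
  let A : Subgroup (SemidirectProduct G (Subgroup.zpowers α) (Subgroup.zpowers α).subtype) := (SemidirectProduct.inr (φ := (Subgroup.zpowers α).subtype)).range
  let i : G →* (SemidirectProduct G (Subgroup.zpowers α) (Subgroup.zpowers α).subtype) := SemidirectProduct.inl
  have hia : ∀ c : G, i c * SemidirectProduct.inr a * (i c)⁻¹ = i (f c) * SemidirectProduct.inr a := by
    intro c
    apply SemidirectProduct.ext <;> simp [i, hf, a]
  let U : Subgroup (SemidirectProduct G (Subgroup.zpowers α) (Subgroup.zpowers α).subtype) :=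
    { carrier := {x | x.left ∈ W}
      mul_mem' := fun {x y} hx hy => W.mul_mem hx (hWinv _ x.right.2 _ hy)
      one_mem' := W.one_mem
      inv_mem' := fun {x} hx => hWinv _ (x.right⁻¹).2 _ (W.inv_mem hx) }
  have hAU : A ≤ U := by
    rintro _ ⟨b, rfl⟩
    show (SemidirectProduct.inr b : (SemidirectProduct G (Subgroup.zpowers α) (Subgroup.zpowers α).subtype)).left ∈ W
    simp
  have hUt : U ≠ ⊤ := fun h => hWt (eq_top_iff.2 fun g _ => by
    have : i g ∈ U := h ▸ Subgroup.mem_top _
    exact this)
  have hAt : A ≠ ⊤ := fun h => hUt (top_le_iff.1 (h ▸ hAU))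
  have hnc : Subgroup.normalClosure (A : Set (SemidirectProduct G (Subgroup.zpowers α) (Subgroup.zpowers α).subtype)) = ⊤ := by
    rw [eq_top_iff]
    intro x _
    have ha : (SemidirectProduct.inr a : (SemidirectProduct G (Subgroup.zpowers α) (Subgroup.zpowers α).subtype)) ∈ Subgroup.normalClosure (A : Set (SemidirectProduct G (Subgroup.zpowers α) (Subgroup.zpowers α).subtype)) :=
      Subgroup.subset_normalClosure ⟨a, rfl⟩
    have hl : (⊤ : Subgroup G) ≤ (Subgroup.normalClosure (A : Set (SemidirectProduct G (Subgroup.zpowers α) (Subgroup.zpowers α).subtype))).comap i := by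
      rw [← hG, Subgroup.closure_le]
      rintro _ ⟨c, rfl⟩
      rw [SetLike.mem_coe, Subgroup.mem_comap]
      have := Subgroup.mul_mem _ (Subgroup.normalClosure_normal.conj_mem _ ha (i c))
        (Subgroup.inv_mem _ ha)
      rwa [hia, mul_inv_cancel_right] at this
    rw [← SemidirectProduct.inl_left_mul_inr_right x]
    exact Subgroup.mul_mem _ (hl (Subgroup.mem_top x.left))
      (Subgroup.subset_normalClosure ⟨x.right, rfl⟩)
  by_cases hY : FGS2.GenZipper.top' A = ⊤
  · refine hUt (top_le_iff.1 (hY ▸ sSup_le fun H hH => ?_))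
    obtain ⟨hAH, hHt, hgen⟩ := hH
    let K : Subgroup G := H.comap i
    have hKinv : ∀ b : Subgroup.zpowers α, ∀ c ∈ K, (b : MulAut G) c ∈ K := by
      intro b c hc
      show i ((b : MulAut G) c) ∈ H
      have := H.mul_mem (H.mul_mem (hAH ⟨b, rfl⟩) hc) (hAH ⟨b⁻¹, rfl⟩)
      convert this using 1
      apply SemidirectProduct.ext <;> simp [i]
    have hKt : K ≠ ⊤ := fun h => hHt (eq_top_iff.2 fun x _ => by
      rw [← SemidirectProduct.inl_left_mul_inr_right x]
      exact H.mul_mem (h ▸ Subgroup.mem_top x.left : x.left ∈ K) (hAH ⟨x.right, rfl⟩))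
    -- the commutator subgroup of `K` with `α` is `K`
    set N := Subgroup.closure (f '' (K : Set G)) with hN
    have hNK : N ≤ K := (Subgroup.closure_le _).2 (by
      rintro _ ⟨c, hc, rfl⟩
      exact K.mul_mem hc (K.inv_mem (hKinv a c hc)))
    have hNinv : ∀ b : Subgroup.zpowers α, ∀ c ∈ N, (b : MulAut G) c ∈ N := by
      intro b c hc
      have hle : N.map (b : MulAut G).toMonoidHom ≤ N := by
        rw [hN, MonoidHom.map_closure, Subgroup.closure_le]
        rintro _ ⟨_, ⟨d, hd, rfl⟩, rfl⟩
        refine Subgroup.subset_closure ⟨(b : MulAut G) d, hKinv b d hd, ?_⟩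
        obtain ⟨m, hm⟩ := Subgroup.mem_zpowers_iff.1 b.2
        have hc' : Commute α (b : MulAut G) := hm ▸ (Commute.refl α).zpow_right m
        have := congrArg (fun e : MulAut G => e d) hc'.eq
        simp only [MulAut.mul_apply] at this
        simp [hf, this]
      exact hle ⟨c, hc, rfl⟩
    have hNnorm : ∀ x ∈ K, ∀ c ∈ N, x * c * x⁻¹ ∈ N := by
      intro x hx c hc
      have hle : N.map (MulAut.conj x).toMonoidHom ≤ N := by
        rw [hN, MonoidHom.map_closure, Subgroup.closure_le]
        rintro _ ⟨_, ⟨y, hy, rfl⟩, rfl⟩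
        have e : MulAut.conj x (f y) = f (x * y) * (f x)⁻¹ := by simp [hf, mul_assoc]
        show MulAut.conj x (f y) ∈ N
        rw [e]
        exact N.mul_mem (Subgroup.subset_closure ⟨_, K.mul_mem hx hy, rfl⟩)
          (N.inv_mem (Subgroup.subset_closure ⟨x, hx, rfl⟩))
      exact hle ⟨c, hc, rfl⟩
    let H' : Subgroup (SemidirectProduct G (Subgroup.zpowers α) (Subgroup.zpowers α).subtype) :=
      { carrier := {x | x.left ∈ N}
        mul_mem' := fun {x y} hx hy => N.mul_mem hx (hNinv x.right _ hy)
        one_mem' := N.one_mem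
        inv_mem' := fun {x} hx => hNinv x.right⁻¹ _ (N.inv_mem hx) }
    have hmemH : ∀ x : (SemidirectProduct G (Subgroup.zpowers α) (Subgroup.zpowers α).subtype), x ∈ H ↔ x.left ∈ K := by
      intro x
      constructor
      · intro hx
        show i x.left ∈ H
        have := H.mul_mem hx (hAH ⟨x.right⁻¹, rfl⟩)
        convert this using 1
        apply SemidirectProduct.ext <;> simp [i]
      · intro hx
        rw [← SemidirectProduct.inl_left_mul_inr_right x]
        exact H.mul_mem hx (hAH ⟨x.right, rfl⟩)
    have hH' : H' = H := by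
      refine hgen.2 H' (by rintro _ ⟨b, rfl⟩; show (SemidirectProduct.inr b : (SemidirectProduct G (Subgroup.zpowers α) (Subgroup.zpowers α).subtype)).left ∈ N; simp)
        (fun x hx => (hmemH x).2 (hNK hx)) (fun x hx => ?_)
      rw [Subgroup.mem_normalizer_iff_map_conj_eq]
      refine Subgroup.eq_of_le_of_card_ge ?_ (Subgroup.card_map_of_injective (MulAut.conj x).injective).ge
      rintro _ ⟨y, hy, rfl⟩
      show (x * y * x⁻¹).left ∈ N
      have hxK := (hmemH x).1 hx
      set u := x.left with hu
      set b := x.right with hb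
      obtain ⟨m, hm⟩ := Subgroup.mem_zpowers_iff.1 y.right.2
      have e : (x * y * x⁻¹).left = u * ((b : MulAut G) y.left) * u⁻¹ * (u * (((y.right : MulAut G)) u)⁻¹) := by
        have hcm : (b : MulAut G) * (y.right : MulAut G) * (b : MulAut G)⁻¹ = (y.right : MulAut G) := by
          obtain ⟨l, hl⟩ := Subgroup.mem_zpowers_iff.1 b.2
          rw [← hl, ← hm, ← zpow_add, ← zpow_neg, ← zpow_add]
          congr 1
          omega
        have hcm' := congrArg (fun e : MulAut G => e u⁻¹) hcm
        simp only [MulAut.mul_apply] at hcm'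
        simp only [SemidirectProduct.mul_left, SemidirectProduct.mul_right,
          SemidirectProduct.inv_left, map_mul, MulAut.mul_apply, Subgroup.coe_subtype, map_inv,
          InvMemClass.coe_inv, ← hu, ← hb]
        rw [map_inv, map_inv, map_inv] at hcm'
        rw [hcm', map_inv]
        group
      rw [e]
      refine N.mul_mem (hNnorm u hxK _ (hNinv b _ hy)) ?_
      -- `u * β(u)⁻¹` lies in `N` for every power `β` of `α`
      have key : ∀ j : ℕ, ∀ c ∈ K, c * ((α ^ j) c)⁻¹ ∈ N := by
        intro j
        induction j with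
        | zero => intro c _; simp
        | succ j ihj =>
          intro c hc
          have h1 := ihj _ (hKinv a c hc)
          have h2 : f c ∈ N := Subgroup.subset_closure ⟨c, hc, rfl⟩
          have := N.mul_mem h2 h1
          simpa [hf, pow_succ, mul_assoc, a] using this
      obtain ⟨j, hj⟩ := (mem_powers_iff_mem_zpowers (x := α)).2 y.right.2
      exact hj ▸ key j u hxK
    have hNeq : N = K := le_antisymm hNK fun c hc => by
      have h1 : i c ∈ H' := hH'.symm ▸ hc
      exact h1
    let β : MulAut K :=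
      (α.subgroupMap K).trans (MulEquiv.subgroupCongr (Subgroup.eq_of_le_of_card_ge
        (by rintro _ ⟨c, hc, rfl⟩; exact hKinv a c hc)
        (Subgroup.card_map_of_injective α.injective).ge))
    have hβ : Subgroup.closure (Set.range (fun c : K => c * (β c)⁻¹)) = ⊤ := by
      apply Subgroup.map_injective K.subtype_injective
      rw [MonoidHom.map_closure, ← MonoidHom.range_eq_map, Subgroup.range_subtype,
        ← Set.range_comp]
      refine Eq.trans ?_ hNeq
      rw [hN]
      congr 1
      ext z
      simp only [Set.mem_range, Set.mem_image, Function.comp_apply, Subtype.exists]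
      exact ⟨fun ⟨c, hc, h⟩ => ⟨c, hc, h⟩, fun ⟨c, hc, h⟩ => ⟨c, hc, h⟩⟩
    have hlt : Nat.card K < n := by
      rw [← hn]
      exact Core.card_lt_of_ne_top hKt
    have hind := ih _ hlt β rfl hβ (k + 1)
    intro x hx
    show x.left ∈ W
    have hx' : (⟨x.left, (hmemH x).1 hx⟩ : K) ∈
        Subgroup.closure (Set.range ((fun c : K => c * (β c)⁻¹)^[k + 1 + 1])) := hind ▸ Subgroup.mem_top _
    have := Subgroup.mem_map_of_mem K.subtype hx'
    rw [MonoidHom.map_closure, ← Set.range_comp] at this
    refine (Subgroup.closure_le W).2 ?_ this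
    rintro _ ⟨c, rfl⟩
    refine Subgroup.subset_closure ⟨(c : G), ?_⟩
    exact (Function.Semiconj.iterate_right (f := ((↑) : K → G)) (gb := f) (fun _ => rfl) _ c).symm
  · obtain ⟨M, ⟨hM, hAM⟩, hu⟩ := FGS2.GenZipper.unique_coatom hnc hAt hY
    obtain ⟨M', hM', hUM'⟩ := (eq_top_or_exists_le_coatom U).resolve_left hUt
    obtain rfl : M' = M := hu M' ⟨hM', hAU.trans hUM'⟩
    have hmem : ∀ c ∈ Set.range (f^[k + 1]), i c ∈ M' := by
      rintro _ ⟨d, rfl⟩
      set c := f^[k + 1] d with hc
      have hfc : f c ∈ W := Subgroup.subset_closure ⟨d, Function.iterate_succ_apply' f (k + 1) d⟩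
      have hAc : A ≤ M'.map (MulAut.conj (i c)⁻¹).toMonoidHom := by
        rintro _ ⟨b, rfl⟩
        obtain ⟨j, hj⟩ := (mem_powers_iff_mem_zpowers (x := α)).2 b.2
        have hb : a ^ j = b := Subtype.ext (by simpa [a] using hj)
        rw [← hb, map_pow]
        refine Subgroup.pow_mem _ ?_ j
        refine ⟨i (f c) * SemidirectProduct.inr a, hUM' ?_, ?_⟩
        · show (i (f c) * SemidirectProduct.inr a).left ∈ W
          simpa [i] using hfc
        · simp [← hia, mul_assoc]
      have hco : IsCoatom (M'.map (MulAut.conj (i c)⁻¹).toMonoidHom) :=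
        FGS2.GenZipper.isCoatom_smul hM _
      have heq := hu _ ⟨hco, hAc⟩
      have hnorm : (i c)⁻¹ ∈ Subgroup.normalizer (M' : Set (SemidirectProduct G (Subgroup.zpowers α) (Subgroup.zpowers α).subtype)) :=
        Subgroup.mem_normalizer_iff_map_conj_eq.2 heq
      rcases hM.le_iff.1 (Subgroup.le_normalizer (H := M')) with h | h
      · exfalso
        haveI := Subgroup.normalizer_eq_top_iff.1 h
        refine hM.1 (top_le_iff.1 ?_)
        rw [← hnc]
        exact Subgroup.normalClosure_le_normal hAM
      · rw [h] at hnorm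
        exact inv_mem_iff.1 hnorm
    refine hM.1 (eq_top_iff.2 fun x _ => ?_)
    rw [← SemidirectProduct.inl_left_mul_inr_right x]
    refine M'.mul_mem ?_ (hAM ⟨x.right, rfl⟩)
    have hl : (⊤ : Subgroup G) ≤ M'.comap i := by
      rw [← ihk, Subgroup.closure_le]
      exact hmem
    exact hl (Subgroup.mem_top x.left)

/-- Let G be a finite group and α an automorphism of G with [G, α] = G, that is, the elements g·α(g)⁻¹ generate G. Then for every k ≥ 1 the iterated commutators [g, α, …, α] with k entries α — the values of the k-th iterate of the map c ↦ c·α(c)⁻¹ — also generate G. -/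
theorem result {G : Type*} [Group G] [Finite G] (α : MulAut G) (hG : Subgroup.closure (Set.range (fun c : G => c * (α c)⁻¹)) = ⊤) (k : ℕ) (hk : 1 ≤ k) :
    Subgroup.closure (Set.range ((fun c : G => c * (α c)⁻¹)^[k])) = ⊤ := by
  obtain ⟨k, rfl⟩ : ∃ j, k = j + 1 := ⟨k - 1, by omega⟩
  exact closure_iterate _ α rfl hG k

end Cfsg.Agent.S3927
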