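import Cfsg.Statements.S3941
-- import your own Cfsg.Agent.* helpers here

set_option autoImplicit false
open Cfsg

namespace Cfsg.Agent.S3941

abbrev Z5 := {x : Fin 5 // x ≠ 0}

theorem exists_threeCycles :
    ∃ a b : alternatingGroup Z5, orderOf (a * b) = 2 ∧ a ^ 3 = 1 ∧ b ^ 3 = 1 := by
  refine ⟨⟨Equiv.swap ⟨1, by decide⟩ ⟨2, by decide⟩ * Equiv.swap ⟨2, by decide⟩ ⟨3, by decide⟩, ?_⟩,
    ⟨Equiv.swap ⟨1, by decide⟩ ⟨2, by decide⟩ * Equiv.swap ⟨2, by decide⟩ ⟨4, by decide⟩, ?_⟩,
    orderOf_eq_prime (Subtype.ext ?_) ?_, Subtype.ext ?_, Subtype.ext ?_⟩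
  · exact Equiv.Perm.mem_alternatingGroup.mpr (by decide)
  · exact Equiv.Perm.mem_alternatingGroup.mpr (by decide)
  all_goals decide

/-- Let n ≥ 5 and p an odd prime with p ≤ n, and suppose that every proper subgroup of the alternating group of degree n whose order is divisible by p has a normal Sylow p-subgroup. Then n = p. -/
theorem result (n p : ℕ) (hn : 5 ≤ n) [Fact p.Prime] (hp : p ≠ 2) (hpn : p ≤ n)
    (h : ∀ H : Subgroup ↥(alternatingGroup (Fin n)), H ≠ ⊤ → p ∣ Nat.card ↥H → Cfsg.IsPClosed p ↥H) : n = p := by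
  by_contra hne
  have hlt : p < n := lt_of_le_of_ne hpn (Ne.symm hne)
  have hp3 : 3 ≤ p := by have := (Fact.out : p.Prime).two_le; omega
  let Z := {x : Fin n // x ≠ ⟨0, by omega⟩}
  have hZ : Nat.card Z = n - 1 := by
    rw [Nat.card_eq_fintype_card, Fintype.card_subtype_compl, Fintype.card_subtype_eq, Fintype.card_fin]
  have : Nontrivial Z := Finite.one_lt_card_iff_nontrivial.mp (by omega)
  let φ : alternatingGroup Z →* alternatingGroup (Fin n) :=
    ((Equiv.Perm.ofSubtype : Equiv.Perm Z →* Equiv.Perm (Fin n)).comp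
      (alternatingGroup Z).subtype).codRestrict _ (fun σ => by
        have := Equiv.Perm.mem_alternatingGroup.mp σ.2
        simpa [Equiv.Perm.mem_alternatingGroup, Equiv.Perm.sign_ofSubtype] using this)
  have hφ : Function.Injective φ := fun a b hab =>
    Subtype.ext (Equiv.Perm.ofSubtype_injective (congrArg Subtype.val hab))
  have : Nontrivial (Fin n) := Fin.nontrivial_iff_two_le.mpr (by omega)
  have hcardZ := two_mul_nat_card_alternatingGroup (α := Z)
  rw [Nat.card_perm, hZ] at hcardZ
  have hcardn := two_mul_nat_card_alternatingGroup (α := Fin n)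
  rw [Nat.card_perm, Nat.card_fin] at hcardn
  have hdvd : p ∣ Nat.card (alternatingGroup Z) := by
    have h1 : p ∣ (n - 1).factorial := Nat.dvd_factorial (by omega) (by omega)
    rw [← hcardZ] at h1
    exact (Nat.Coprime.dvd_mul_left ((Nat.coprime_primes Fact.out Nat.prime_two).mpr hp)).mp h1
  have hR : Nat.card φ.range = Nat.card (alternatingGroup Z) :=
    Nat.card_congr (MonoidHom.ofInjective hφ).toEquiv.symm
  have hproper : φ.range ≠ ⊤ := by
    intro htop
    rw [htop, Subgroup.card_top] at hR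
    have h1 : (n - 1).factorial < n.factorial := (Nat.factorial_lt (by omega)).mpr (by omega)
    omega
  have hclosed := h φ.range hproper (hR ▸ hdvd)
  have hnorm : ∀ P : Sylow p (alternatingGroup Z), (P : Subgroup (alternatingGroup Z)).Normal := by
    intro P
    let e := MonoidHom.ofInjective hφ
    have h1 : ((P : Subgroup (alternatingGroup Z)).map e.toMonoidHom).Normal :=
      hclosed (P.mapSurjective (f := e.toMonoidHom) e.surjective)
    have h2 := h1.comap e.toMonoidHom
    have h3 : ((P : Subgroup (alternatingGroup Z)).map e.toMonoidHom).comap e.toMonoidHom = P :=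
      Subgroup.comap_map_eq_self_of_injective e.injective _
    rwa [h3] at h2
  by_cases h5 : 5 ≤ n - 1
  · have : IsSimpleGroup (alternatingGroup Z) := alternatingGroup.isSimpleGroup (hZ ▸ h5)
    let P : Sylow p (alternatingGroup Z) := default
    rcases (hnorm P).eq_bot_or_eq_top with hb | ht
    · exact P.ne_bot_of_dvd_card hdvd hb
    · obtain ⟨k, hk⟩ := IsPGroup.iff_card.mp P.isPGroup'
      rw [ht, Subgroup.card_top] at hk
      have h4 : 4 ∣ (n - 1).factorial :=
        (Nat.dvd_factorial (by norm_num) le_rfl : 4 ∣ Nat.factorial 4).trans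
          (Nat.factorial_dvd_factorial (by omega))
      rw [← hcardZ, hk] at h4
      have h2 : 2 ∣ p ^ k := (Nat.mul_dvd_mul_iff_left two_pos).mp h4
      exact hp ((Nat.prime_dvd_prime_iff_eq Nat.prime_two Fact.out).mp
        (Nat.prime_two.dvd_of_dvd_pow h2)).symm
  · obtain rfl : n = 5 := by omega
    obtain rfl : p = 3 := by
      have := (Fact.out : p.Prime).eq_two_or_odd
      omega
    obtain ⟨a, b, hab, ha, hb⟩ : ∃ a b : alternatingGroup Z,
        orderOf (a * b) = 2 ∧ a ^ 3 = 1 ∧ b ^ 3 = 1 :=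
      exists_threeCycles
    let P : Sylow 3 (alternatingGroup Z) := default
    have hn' := hnorm P
    have hmem : ∀ x : alternatingGroup Z, x ^ 3 = 1 → x ∈ (P : Subgroup (alternatingGroup Z)) := by
      intro x hx
      have hxp : IsPGroup 3 (Subgroup.zpowers x) := by
        obtain ⟨k, -, hk⟩ := (Nat.dvd_prime_pow Nat.prime_three (m := 1) (i := orderOf x)).mp
          (by rw [pow_one]; exact orderOf_dvd_of_pow_eq_one hx)
        exact IsPGroup.of_card (n := k) (by rw [Nat.card_zpowers, hk])
      obtain ⟨Q, hQ⟩ := hxp.exists_le_sylow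
      have : Subsingleton (Sylow 3 (alternatingGroup Z)) :=
        (Sylow.unique_of_normal P hn').instSubsingleton
      rw [Subsingleton.elim Q P] at hQ
      exact hQ (Subgroup.mem_zpowers x)
    obtain ⟨k, hk⟩ := IsPGroup.iff_orderOf.mp P.isPGroup' ⟨a * b, mul_mem (hmem a ha) (hmem b hb)⟩
    rw [Subgroup.orderOf_mk, hab] at hk
    rcases k with _ | k
    · simp at hk
    · have : 3 ∣ 2 := hk ▸ dvd_pow_self 3 (Nat.succ_ne_zero k)
      omega

end Cfsg.Agent.S3941
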