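import Cfsg.Statements.S3947
import Cfsg.Agent.FGS2.GenZipper
-- import your own Cfsg.Agent.* helpers here

set_option autoImplicit false
open Cfsg

namespace Cfsg.Agent.S3947

open Cfsg.Agent

/-- Let G be a finite group and A a proper subgroup of G whose normal closure is G. Let Y be the join of all proper subgroups H of G that contain A and are generated by their own conjugates of A (the normal closure of A in H is H). Then either Y = G, or A is contained in exactly one maximal subgroup of G. -/
theorem result {G : Type*} [Group G] [Finite G] (A : Subgroup G) (hA : Subgroup.normalClosure (A : Set G) = ⊤) (hAG : A ≠ ⊤) :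
    sSup {H : Subgroup G | A ≤ H ∧ H ≠ ⊤ ∧ Subgroup.normalClosure ((A.subgroupOf H : Subgroup ↥H) : Set ↥H) = ⊤} = ⊤ ∨
      ∃! M : Subgroup G, IsCoatom M ∧ A ≤ M := by
  have heq : {H : Subgroup G | A ≤ H ∧ H ≠ ⊤ ∧ Subgroup.normalClosure ((A.subgroupOf H : Subgroup ↥H) : Set ↥H) = ⊤} =
      {H : Subgroup G | A ≤ H ∧ H ≠ ⊤ ∧ FGS2.GenZipper.Gen A H} := by
    ext H
    exact and_congr_right fun h => and_congr_right fun _ => FGS2.GenZipper.gen_iff h
  rw [heq]
  by_cases h : FGS2.GenZipper.top' A = ⊤
  · exact Or.inl h
  · exact Or.inr (FGS2.GenZipper.unique_coatom hA hAG h)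

end Cfsg.Agent.S3947
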