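import Cfsg.Statements.S3949
-- import your own Cfsg.Agent.* helpers here

set_option autoImplicit false
open Cfsg

namespace Cfsg.Agent.S3949

/-- Let G be a finite group and α an automorphism of G of order 2 such that the elements g·α(g)⁻¹ generate G. Let j be a positive integer such that 2^j divides the order of no element inverted by α. Then the set of values of the j-th iterate of the map c ↦ c·α(c)⁻¹ is exactly the set of elements of odd order inverted by α. -/
theorem result {G : Type*} [Group G] [Finite G] (α : MulAut G) (hα : orderOf α = 2) (hG : Subgroup.closure (Set.range (fun c : G => c * (α c)⁻¹)) = ⊤)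
    (j : ℕ) (hj : ∀ g : G, α g = g⁻¹ → ¬ 2 ^ j ∣ orderOf g) :
    Set.range ((fun c : G => c * (α c)⁻¹)^[j]) = {g : G | Odd (orderOf g) ∧ α g = g⁻¹} := by
  have hα2 : ∀ g : G, α (α g) = g := fun g => by
    have h2 : α ^ 2 = 1 := hα ▸ pow_orderOf_eq_one α
    rw [pow_two] at h2
    exact congrArg (fun β : MulAut G => β g) h2
  set f : G → G := fun c => c * (α c)⁻¹ with hf
  have hfinv : ∀ c, α (f c) = (f c)⁻¹ := fun c => by simp [hf, hα2]
  have hinvpow : ∀ (m : ℕ) (g : G), α g = g⁻¹ → f^[m] g = g ^ 2 ^ m := by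
    intro m g hg
    induction m with
    | zero => simp
    | succ m ih =>
      rw [Function.iterate_succ_apply', ih, hf]
      simp only [map_pow, hg, inv_pow, inv_inv]
      rw [← pow_add, pow_succ, mul_two]
  have hgpow : ∀ (m : ℕ) (g : G), α g = g⁻¹ → α (g ^ m) = (g ^ m)⁻¹ := fun m g hg => by
    rw [map_pow, hg, inv_pow]
  ext g
  constructor
  · rintro ⟨c, rfl⟩
    rcases j with _ | i
    · exact absurd (by simp) (hj 1 (by simp))
    rw [Function.iterate_succ_apply, hinvpow i _ (hfinv c)]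
    refine ⟨?_, hgpow _ _ (hfinv c)⟩
    rw [Nat.odd_iff, ← Nat.two_dvd_ne_zero, orderOf_pow' _ (by positivity)]
    intro hd
    refine hj _ (hfinv c) ?_
    obtain ⟨k, hk, hk'⟩ := (Nat.dvd_prime_pow Nat.prime_two).mp (Nat.gcd_dvd_right (orderOf (f c)) (2 ^ i))
    have he : orderOf (f c) = orderOf (f c) / Nat.gcd (orderOf (f c)) (2 ^ i) *
        Nat.gcd (orderOf (f c)) (2 ^ i) := (Nat.div_mul_cancel (Nat.gcd_dvd_left _ _)).symm
    rw [hk'] at he hd
    rcases eq_or_lt_of_le hk with rfl | hlt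
    · rw [he, pow_succ']
      exact mul_dvd_mul hd dvd_rfl
    · exfalso
      have h1 : 2 ^ (k + 1) ∣ Nat.gcd (orderOf (f c)) (2 ^ i) :=
        Nat.dvd_gcd (by rw [he, pow_succ']; exact mul_dvd_mul hd dvd_rfl) (pow_dvd_pow 2 hlt)
      rw [hk'] at h1
      have := Nat.le_of_dvd (by positivity) h1
      rw [pow_succ] at this
      have := Nat.two_pow_pos k
      omega
  · rintro ⟨hodd, hg⟩
    obtain ⟨m, hm⟩ := exists_pow_eq_self_of_coprime (n := 2 ^ j) (x := g)
      (Nat.Coprime.pow_left j hodd.coprime_two_left)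
    refine ⟨g ^ m, ?_⟩
    rw [hinvpow j _ (hgpow m g hg), ← pow_mul, mul_comm, pow_mul, hm]

end Cfsg.Agent.S3949
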