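import Cfsg.Statements.S3982
import Cfsg.Agent.Transfer.Complement
import Mathlib.GroupTheory.FixedPointFree
import Mathlib.Tactic
-- import your own Cfsg.Agent.* helpers here

set_option autoImplicit false
open Cfsg

namespace Cfsg.Agent.S3982

open scoped Pointwise
/-- Let p be an odd prime and G a finite group of even order divisible by p in which the centralizer of every non-identity p-element has odd order. If some nontrivial p-subgroup of G has a normalizer of even order, then the normalizer of every Sylow p-subgroup of G has even order. -/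
theorem result {G : Type*} [Group G] [Finite G] (p : ℕ) [Fact p.Prime] (hp2 : p ≠ 2) (hpG : p ∣ Nat.card G) (h2G : 2 ∣ Nat.card G) (hC : ∀ g : G, g ≠ 1 → (∃ k : ℕ, orderOf g = p ^ k) → Odd (Nat.card ↥(Subgroup.centralizer ({g} : Set G)))) (Q : Subgroup G) (hQ : IsPGroup p ↥Q) (hQ1 : Q ≠ ⊥) (hev : Even (Nat.card ↥(Subgroup.normalizer (Q : Set G)))) (P : Sylow p G) : Even (Nat.card ↥(Subgroup.normalizer ((P : Subgroup G) : Set G))) := by
  classical
  have hp : p.Prime := Fact.out
  have h2 : Fact (Nat.Prime 2) := ⟨Nat.prime_two⟩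
  obtain ⟨R, ⟨hR, hR1, hRev⟩, hmax⟩ := (Set.toFinite {R : Subgroup G | IsPGroup p R ∧ R ≠ ⊥ ∧
    Even (Nat.card ↥(Subgroup.normalizer (R : Set G)))}).exists_maximal ⟨Q, hQ, hQ1, hev⟩
  have hnofix : ∀ u g : G, orderOf u = 2 → g ≠ 1 → (∃ k, orderOf g = p ^ k) → u * g ≠ g * u := by
    intro u g hu hg hgk hcomm
    have hmem : u ∈ Subgroup.centralizer ({g} : Set G) := Subgroup.mem_centralizer_singleton_iff.2 hcomm
    have := Subgroup.orderOf_dvd_natCard _ hmem
    rw [hu] at this
    exact (hC g hg hgk).not_two_dvd_nat this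
  have hpel : ∀ g ∈ R, ∃ k, orderOf g = p ^ k := fun g hg => by
    obtain ⟨k, hk⟩ := IsPGroup.iff_orderOf.1 hR ⟨g, hg⟩
    exact ⟨k, by rwa [Subgroup.orderOf_mk] at hk⟩
  obtain ⟨⟨y, hyN⟩, hy⟩ := exists_prime_orderOf_dvd_card' (G := ↥(Subgroup.normalizer (R : Set G))) 2 hRev.two_dvd
  rw [Subgroup.orderOf_mk] at hy
  have hyy : y * y = 1 := by rw [← pow_two, ← hy, pow_orderOf_eq_one]
  have hinv : ∀ u, orderOf u = 2 → u ∈ Subgroup.normalizer (R : Set G) → ∀ r ∈ R, u * r * u⁻¹ = r⁻¹ := by
    intro u hu huN r hr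
    have huu : u * u = 1 := by rw [← pow_two, ← hu, pow_orderOf_eq_one]
    let φ := R.normalizerMonoidHom ⟨u, huN⟩
    have hf : MonoidHom.FixedPointFree φ.toMonoidHom := fun v hv => by
      by_contra hv1
      refine hnofix u v hu (fun e => hv1 (Subtype.ext e)) (hpel v v.2) ?_
      exact mul_inv_eq_iff_eq_mul.1 (congrArg Subtype.val hv)
    have hi : Function.Involutive φ.toMonoidHom := fun v => by
      apply Subtype.ext
      show u * (u * (v : G) * u⁻¹) * u⁻¹ = v
      rw [inv_eq_of_mul_eq_one_right huu, show u * (u * (v : G) * u) * u = (u * u) * v * (u * u) by group,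
        huu, one_mul, mul_one]
    have h3 := congrFun (hf.coe_eq_inv_of_involutive hi) ⟨r, hr⟩
    exact congrArg Subtype.val h3
  set C := Subgroup.centralizer (R : Set G)
  set N := Subgroup.normalizer (R : Set G) with hN
  have hCN : C ≤ N := Subgroup.centralizer_le_normalizer _
  have hRC : R ≤ C := fun a ha => Subgroup.mem_centralizer_iff.2 fun b hb => by
    have e : (a * b)⁻¹ = a⁻¹ * b⁻¹ := by
      rw [← hinv y hy hyN a ha, ← hinv y hy hyN b hb, ← hinv y hy hyN _ (mul_mem ha hb)]; group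
    rw [mul_inv_rev] at e
    calc b * a = (a⁻¹ * b⁻¹)⁻¹ := by group
      _ = (b⁻¹ * a⁻¹)⁻¹ := by rw [e]
      _ = a * b := by group
  have hRsyl : ∃ S : Sylow p G, (S : Subgroup G) = R := by
    obtain ⟨S, hS⟩ := hR.exists_le_sylow
    refine ⟨S, le_antisymm ?_ hS⟩
    by_contra hne
    -- a `p`-element of `N(R)` outside `R`
    have : Group.IsNilpotent (S : Subgroup G) := S.2.isNilpotent
    have hlt' : R.subgroupOf S < ⊤ := lt_top_iff_ne_top.2 fun h => hne (Subgroup.subgroupOf_eq_top.1 h)
    obtain ⟨⟨x, hxS⟩, hx, hxR⟩ := SetLike.exists_of_lt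
      ((Group.normalizerCondition_of_isNilpotent : NormalizerCondition (S : Subgroup G)) _ hlt')
    have hxR' : x ∉ R := fun h => hxR (Subgroup.mem_subgroupOf.2 h)
    have hxN : x ∈ N := by
      refine Subgroup.mem_normalizer_iff.2 fun z => ?_
      constructor
      · intro hz
        exact Subgroup.mem_subgroupOf.1 ((Subgroup.mem_normalizer_iff.1 hx ⟨z, hS hz⟩).1 (Subgroup.mem_subgroupOf.2 hz))
      · intro hz
        have hzS : z ∈ (S : Subgroup G) := by
          have := mul_mem (mul_mem (inv_mem hxS) (hS hz)) hxS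
          simpa [mul_assoc] using this
        exact Subgroup.mem_subgroupOf.1 ((Subgroup.mem_normalizer_iff.1 hx ⟨z, hzS⟩).2 (Subgroup.mem_subgroupOf.2 hz))
    obtain ⟨k, hk⟩ := IsPGroup.iff_orderOf.1 S.2 ⟨x, hxS⟩
    rw [Subgroup.orderOf_mk] at hk
    -- commutators of `y` with elements of `N` centralize `R`
    have hcom : ∀ n ∈ N, y * n * y⁻¹ * n⁻¹ ∈ C := by
      intro n hn
      have hu : orderOf (n * y * n⁻¹) = 2 := by rw [← MulAut.conj_apply, MulEquiv.orderOf_eq, hy]
      refine Subgroup.mem_centralizer_iff.2 fun r hr => ?_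
      have h1 := hinv _ hu (mul_mem (mul_mem hn hyN) (inv_mem hn)) r hr
      have h2 := hinv y hy hyN r⁻¹ (inv_mem hr)
      rw [inv_inv] at h2
      have h3 : y * (n * y * n⁻¹ * r * (n * y * n⁻¹)⁻¹) * y⁻¹ = r := by rw [h1, h2]
      have hyinv : y⁻¹ = y := inv_eq_of_mul_eq_one_right hyy
      have h4 : (y * n * y⁻¹ * n⁻¹) * r * (y * n * y⁻¹ * n⁻¹)⁻¹ = r := by
        have e1 : y * n * y⁻¹ * n⁻¹ = y * (n * y * n⁻¹) := by rw [hyinv]; group
        rw [e1]
        refine Eq.trans ?_ h3
        group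
      exact (mul_inv_eq_iff_eq_mul.1 h4).symm
    have hyinv : y⁻¹ = y := inv_eq_of_mul_eq_one_right hyy
    obtain ⟨r, hr, hr1⟩ := (Subgroup.bot_or_exists_ne_one R).resolve_left hR1
    have hoddC : ¬ 2 ∣ Nat.card C := fun hd => (hC r hr1 (hpel r hr)).not_two_dvd_nat
      (hd.trans (Subgroup.card_dvd_of_le (Subgroup.centralizer_le (Set.singleton_subset_iff.2 hr))))
    by_cases hxC : x ∈ C
    · -- grow inside `C`
      have hCn : (C.subgroupOf N).Normal := Cfsg.Agent.Transfer.centralizer_subgroupOf_normalizer_normal R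
      have hyC : y ∈ Subgroup.normalizer (C : Set G) :=
        (Subgroup.normal_subgroupOf_iff_le_normalizer hCN).1 hCn hyN
      let σ : MulAut C := C.normalizerMonoidHom ⟨y, hyC⟩
      have hσ2 : IsPGroup 2 (Subgroup.zpowers σ) := by
        have h1 : σ ^ 2 ^ 1 = 1 := by
          rw [pow_one, ← map_pow]
          have : (⟨y, hyC⟩ : Subgroup.normalizer (C : Set G)) ^ 2 = 1 := by
            rw [pow_two]; exact Subtype.ext hyy
          rw [this, map_one]
        obtain ⟨i, -, hi⟩ := (Nat.dvd_prime_pow Nat.prime_two).1 (orderOf_dvd_of_pow_eq_one h1)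
        exact IsPGroup.of_card (n := i) (by rw [Nat.card_zpowers, hi])
      have hns : ¬ 2 ∣ Nat.card (Sylow p C) := fun hd => hoddC (hd.trans (by
        let P0 : Sylow p C := default
        exact (Sylow.card_dvd_index P0).trans (P0 : Subgroup C).index_dvd_card))
      obtain ⟨P0, hP0⟩ := hσ2.nonempty_fixed_point_of_prime_not_dvd_card (Sylow p C) hns
      have hfix : σ • P0 = P0 := hP0 ⟨σ, Subgroup.mem_zpowers σ⟩
      set P1 := (P0 : Subgroup C).map C.subtype with hP1
      have hRP : R ≤ P1 := by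
        have hRn : (Subgroup.comap C.subtype R).Normal :=
          (Subgroup.normal_subgroupOf_iff_le_normalizer hRC).2 hCN
        have := (hR.comap_subtype (K := C) : IsPGroup p (R.subgroupOf C)).le_sylow_of_normal P0
        intro r hr
        exact ⟨⟨r, hRC hr⟩, this (Subgroup.mem_subgroupOf.2 hr), rfl⟩
      have hyP1 : y ∈ Subgroup.normalizer (P1 : Set G) := by
        have hgen : ∀ z ∈ P1, y * z * y⁻¹ ∈ P1 := by
          rintro _ ⟨z, hz, rfl⟩
          have h1 : σ • z ∈ ((σ • P0 : Sylow p C) : Subgroup C) := Subgroup.smul_mem_pointwise_smul z σ _ hz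
          rw [hfix] at h1
          exact ⟨σ • z, h1, rfl⟩
        refine Subgroup.mem_normalizer_iff.2 fun z => ⟨hgen z, fun hz => ?_⟩
        have := hgen _ hz
        rw [hyinv] at this
        rwa [show y * (y * z * y) * y = (y * y) * z * (y * y) by group, hyy, one_mul, mul_one] at this
      have hev1 : Even (Nat.card ↥(Subgroup.normalizer (P1 : Set G))) :=
        even_iff_two_dvd.2 (hy ▸ Subgroup.orderOf_dvd_natCard _ hyP1)
      have hle := hmax ⟨P0.2.map _, fun h => hR1 (le_bot_iff.1 (h ▸ hRP)), hev1⟩ hRP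
      have hsub : P1 = R := le_antisymm hle hRP
      -- `R` is then the normal Sylow subgroup of `C`
      obtain ⟨P', hxP'⟩ := (IsPGroup.of_card (G := Subgroup.zpowers (⟨x, hxC⟩ : C)) (p := p) (n := k)
        (by rw [Nat.card_zpowers, Subgroup.orderOf_mk, hk])).exists_le_sylow
      obtain ⟨g, hg⟩ := MulAction.exists_smul_eq C P0 P'
      have h1 := hxP' (Subgroup.mem_zpowers _)
      rw [← hg, Sylow.coe_subgroup_smul, Subgroup.mem_pointwise_smul_iff_inv_smul_mem,
        MulAut.smul_def, MulAut.conj_inv_apply] at h1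
      have h2 : ((g⁻¹ * ⟨x, hxC⟩ * g : C) : G) ∈ R := hsub ▸ Subgroup.mem_map_of_mem C.subtype h1
      apply hxR'
      have hgN : (g : G) ∈ N := hCN g.2
      have h3 := (Subgroup.mem_normalizer_iff.1 hgN _).1 h2
      simpa [mul_assoc] using h3
    · -- a conjugate of `x` modulo `C` centralizes `y`
      set u := x * y * x⁻¹ with hu
      have huu : u * u = 1 := by
        rw [hu, show x * y * x⁻¹ * (x * y * x⁻¹) = x * (y * y) * x⁻¹ by group, hyy, mul_one, mul_inv_cancel]
      have hyu : y * u ∈ C := by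
        have := hcom x hxN
        rw [hyinv] at this
        rw [hu]
        rwa [show y * (x * y * x⁻¹) = y * x * y * x⁻¹ by group]
      obtain ⟨m, hm⟩ : Odd (orderOf (y * u)) := by
        rcases Nat.even_or_odd (orderOf (y * u)) with he | ho
        · exact absurd (he.two_dvd.trans (Subgroup.orderOf_dvd_natCard C hyu)) hoddC
        · exact ho
      set c := (y * u) ^ (m + 1) with hcdef
      have hcC : c ∈ C := pow_mem hyu _
      have hrev : y * (y * u) * y⁻¹ = (y * u)⁻¹ := by
        rw [mul_inv_rev, hyinv, inv_eq_of_mul_eq_one_right huu, ← mul_assoc, hyy, one_mul]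
      have hcu : c * u * c⁻¹ = y := by
        have h2 : y * c * y⁻¹ = c⁻¹ := by rw [hcdef, ← conj_pow, hrev, inv_pow]
        have h1 : c⁻¹ * y = y * c := by rw [← h2, inv_mul_cancel_right]
        have hcc : c * c = y * u := by
          rw [hcdef, ← pow_add, show m + 1 + (m + 1) = (2 * m + 1) + 1 by omega, ← hm, pow_succ,
            pow_orderOf_eq_one, one_mul]
        have h3 : c⁻¹ * y * c = u := by
          rw [h1, mul_assoc, hcc, ← mul_assoc, hyy, one_mul]
        rw [← h3]; group
      set x' := c * x with hx'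
      have hx'y : Commute x' y := by
        have h1 : x' * y * x'⁻¹ = y := by
          rw [hx', show c * x * y * (c * x)⁻¹ = c * (x * y * x⁻¹) * c⁻¹ by group, ← hu, hcu]
        exact mul_inv_eq_iff_eq_mul.1 h1
      have : (C.subgroupOf N).Normal := Cfsg.Agent.Transfer.centralizer_subgroupOf_normalizer_normal R
      have hx'N : x' ∈ N := mul_mem (hCN hcC) hxN
      have hpo : p ∣ orderOf x' := by
        by_contra hnd
        apply hxC
        let xq : N ⧸ C.subgroupOf N := ((⟨x, hxN⟩ : N) : N ⧸ C.subgroupOf N)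
        have h1 : ((⟨x', hx'N⟩ : N) : N ⧸ C.subgroupOf N) = xq := by
          rw [show (⟨x', hx'N⟩ : N) = ⟨c, hCN hcC⟩ * ⟨x, hxN⟩ from rfl, QuotientGroup.mk_mul,
            (QuotientGroup.eq_one_iff (⟨c, hCN hcC⟩ : N)).2 (Subgroup.mem_subgroupOf.2 hcC), one_mul]
        have d1 : orderOf xq ∣ orderOf x' := by
          rw [← h1, ← Subgroup.orderOf_mk x' hx'N]
          exact orderOf_map_dvd (QuotientGroup.mk' _) _
        have d2 : orderOf xq ∣ p ^ k := by
          rw [← hk, ← Subgroup.orderOf_mk x hxN]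
          exact orderOf_map_dvd (QuotientGroup.mk' _) _
        have d3 := Nat.eq_one_of_dvd_coprimes (((Nat.Prime.coprime_iff_not_dvd hp).2 hnd).pow_left k) d2 d1
        rw [orderOf_eq_one_iff] at d3
        exact Subgroup.mem_subgroupOf.1 ((QuotientGroup.eq_one_iff _).1 d3)
      have hg : orderOf (x' ^ (orderOf x' / p)) = p := orderOf_pow_orderOf_div (orderOf_pos _).ne' hpo
      refine hnofix y (x' ^ (orderOf x' / p)) hy (fun e => ?_) ⟨1, by rw [hg, pow_one]⟩
        ((hx'y.pow_left _).symm).eq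
      rw [e, orderOf_one] at hg
      exact hp.ne_one hg.symm
  obtain ⟨S, hS⟩ := hRsyl
  obtain ⟨g, hg⟩ := MulAction.exists_smul_eq G S P
  rw [← hg, Sylow.coe_subgroup_smul, hS]
  have e : MulAut.conj g • R = R.map (MulAut.conj g).toMonoidHom := rfl
  rw [e]
  refine even_iff_two_dvd.2 (dvd_trans ?_ (Subgroup.card_dvd_of_le
    (Subgroup.le_normalizer_map (MulAut.conj g).toMonoidHom)))
  rw [Subgroup.card_map_of_injective (MulAut.conj g).injective]
  exact hRev.two_dvd

end Cfsg.Agent.S3982
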