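import Cfsg.Statements.S3983
import Cfsg.Agent.FGS2.Basic

set_option autoImplicit false
open scoped Pointwise
open Cfsg

namespace Cfsg.Agent.S3983

open scoped Pointwise

/-- Let P be a Sylow p-subgroup of the finite group G that meets each conjugate g P g⁻¹ with g outside N_G(P) trivially, and let U be a subgroup of G of order divisible by p. Then a Sylow p-subgroup Q of U has the same property inside U: Q meets each conjugate u Q u⁻¹ with u ∈ U outside N_U(Q) trivially. -/
theorem result {G : Type*} [Group G] [Finite G] (p : ℕ) [Fact p.Prime] (P : Sylow p G) (hTI : ∀ g : G, g ∉ Subgroup.normalizer ((P : Subgroup G) : Set G) → (P : Subgroup G) ⊓ (MulAut.conj g • (P : Subgroup G)) = ⊥) (U : Subgroup G) (hU : p ∣ Nat.card ↥U) (Q : Sylow p ↥U) : ∀ u : ↥U, u ∉ Subgroup.normalizer ((Q : Subgroup ↥U) : Set ↥U) → (Q : Subgroup ↥U) ⊓ (MulAut.conj u • (Q : Subgroup ↥U)) = ⊥ := by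
  refine Cfsg.Agent.FGS2.ti_of_sylow_eq Q fun Q' x hxQ hxQ' hx => ?_
  obtain ⟨R, hR⟩ := (Q.isPGroup'.map U.subtype).exists_le_sylow
  obtain ⟨R', hR'⟩ := (Q'.isPGroup'.map U.subtype).exists_le_sylow
  have hRR' : R = R' := Cfsg.Agent.FGS2.sylow_eq_of_ti P hTI R R' (x := (x : G))
    (hR (Subgroup.mem_map_of_mem U.subtype hxQ)) (hR' (Subgroup.mem_map_of_mem U.subtype hxQ'))
    (fun h => hx (Subtype.ext h))
  have hp : IsPGroup p ↥((R : Subgroup G).subgroupOf U) :=
    R.isPGroup'.comap_of_injective U.subtype U.subtype_injective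
  have h1 : (Q : Subgroup ↥U) ≤ (R : Subgroup G).subgroupOf U := fun y hy =>
    hR (Subgroup.mem_map_of_mem U.subtype hy)
  have h2 : (Q' : Subgroup ↥U) ≤ (R : Subgroup G).subgroupOf U := fun y hy =>
    hRR' ▸ hR' (Subgroup.mem_map_of_mem U.subtype hy)
  exact Sylow.ext ((Q'.3 hp h2).symm.trans (Q.3 hp h1))

end Cfsg.Agent.S3983
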