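import Cfsg.Statements.S3984
import Cfsg.Agent.FGS2.Basic
import Cfsg.Agent.FGS2.CoprimeLift

set_option autoImplicit false
open scoped Pointwise
open Cfsg

namespace Cfsg.Agent.S3984

open scoped Pointwise

/-- Let P be a Sylow p-subgroup of the finite group G that meets each conjugate g P g⁻¹ with g outside N_G(P) trivially, and let N be a normal subgroup of G of order prime to p. Then every Sylow p-subgroup Q of G ⧸ N meets each conjugate x Q x⁻¹ with x outside its normalizer trivially. -/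
theorem result {G : Type*} [Group G] [Finite G] (p : ℕ) [Fact p.Prime] (P : Sylow p G) (hTI : ∀ g : G, g ∉ Subgroup.normalizer ((P : Subgroup G) : Set G) → (P : Subgroup G) ⊓ (MulAut.conj g • (P : Subgroup G)) = ⊥) (N : Subgroup G) [N.Normal] (hN : (Nat.card ↥N).Coprime p) (Q : Sylow p (G ⧸ N)) : ∀ x : G ⧸ N, x ∉ Subgroup.normalizer ((Q : Subgroup (G ⧸ N)) : Set (G ⧸ N)) → (Q : Subgroup (G ⧸ N)) ⊓ (MulAut.conj x • (Q : Subgroup (G ⧸ N))) = ⊥ := by
  refine Cfsg.Agent.FGS2.ti_of_sylow_eq Q fun Q' z hzQ hzQ' hz => ?_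
  obtain ⟨R, rfl⟩ := Sylow.mapSurjective_surjective (QuotientGroup.mk'_surjective N) p Q
  obtain ⟨R', rfl⟩ := Sylow.mapSurjective_surjective (QuotientGroup.mk'_surjective N) p Q'
  have key : ∀ (S : Sylow p G), z ∈ (S.mapSurjective (QuotientGroup.mk'_surjective N) : Subgroup (G ⧸ N)) →
      ∃ r ∈ (S : Subgroup G), (r : G ⧸ N) = z ∧ orderOf r = orderOf z := by
    intro S hS
    rw [Sylow.coe_mapSurjective] at hS
    obtain ⟨r, hr, hrz⟩ := hS
    refine ⟨r, hr, hrz, Nat.dvd_antisymm ?_ (hrz ▸ orderOf_map_dvd (QuotientGroup.mk' N) r)⟩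
    obtain ⟨k, hk⟩ := IsPGroup.iff_orderOf.1 S.isPGroup' ⟨r, hr⟩
    rw [Subgroup.orderOf_mk] at hk
    have h1 : r ^ orderOf z ∈ N := by
      rw [← QuotientGroup.eq_one_iff, QuotientGroup.mk_pow, ← pow_orderOf_eq_one z]
      exact congrArg (· ^ orderOf z) hrz
    have h2 : orderOf r ∣ orderOf z * Nat.card ↥N := orderOf_dvd_of_pow_eq_one (by
      rw [pow_mul]; exact congrArg Subtype.val (pow_card_eq_one' (x := (⟨_, h1⟩ : ↥N))))
    rw [hk] at h2 ⊢
    exact (Nat.Coprime.pow_left k hN.symm).dvd_of_dvd_mul_right h2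
  obtain ⟨r, hr, hrz, hro⟩ := key R hzQ
  obtain ⟨r', hr', hrz', hro'⟩ := key R' hzQ'
  have hcop : (orderOf (r : G ⧸ N)).Coprime (Nat.card ↥N) := by
    obtain ⟨k, hk⟩ := IsPGroup.iff_orderOf.1 R.isPGroup' ⟨r, hr⟩
    rw [Subgroup.orderOf_mk] at hk
    rw [hrz, ← hro, hk]
    exact hN.symm.pow_left k
  obtain ⟨n, hn, hconj⟩ := Cfsg.Agent.FGS2.conj_lifts N hcop (by rw [hrz, hro]) (by rw [hrz, hro'])
    (by rw [hrz', hrz]; exact Subgroup.mem_zpowers z)
  have hle : MulAut.conj n • Subgroup.zpowers r ≤ ((n • R : Sylow p G) : Subgroup G) := by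
    rw [Sylow.coe_subgroup_smul]
    exact Subgroup.pointwise_smul_le_pointwise_smul_iff.2 (Subgroup.zpowers_le.2 hr)
  have hEq : n • R = R' := Cfsg.Agent.FGS2.sylow_eq_of_ti P hTI _ R' (x := r')
    (hle (hconj ▸ Subgroup.mem_zpowers r')) hr' (fun h => hz (by rw [← hrz', h]; rfl))
  subst hEq
  apply Sylow.ext
  rw [Sylow.coe_mapSurjective, Sylow.coe_mapSurjective, Sylow.coe_subgroup_smul,
    Cfsg.Agent.Core.conj_smul_eq_map, Subgroup.map_map]
  congr 1
  refine MonoidHom.ext fun g => ?_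
  show ((n * g * n⁻¹ : G) : G ⧸ N) = g
  rw [QuotientGroup.mk_mul, QuotientGroup.mk_mul, QuotientGroup.mk_inv, (QuotientGroup.eq_one_iff n).2 hn]
  simp

end Cfsg.Agent.S3984
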