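import Cfsg.Statements.S3985
import Cfsg.Agent.FGS2.Basic

set_option autoImplicit false
open scoped Pointwise
open Cfsg

namespace Cfsg.Agent.S3985

open scoped Pointwise

theorem centralizes {G : Type*} [Group G] [Finite G] {p : ℕ} [Fact p.Prime] (P : Sylow p G)
    [hcyc : IsCyclic ↥(P : Subgroup G)] {g x : G}
    (hgN : g ∈ Subgroup.normalizer ((P : Subgroup G) : Set G)) (hg : g * x = x * g)
    (hx : x ∈ (P : Subgroup G)) (hx1 : x ≠ 1) :
    g ∈ Subgroup.centralizer ((P : Subgroup G) : Set G) := by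
  have hp : p.Prime := Fact.out
  obtain ⟨a, o, hno, hoe⟩ := Nat.exists_eq_pow_mul_and_not_dvd (orderOf_pos g).ne' p hp.ne_one
  have ho0 : o ≠ 0 := fun h => hno (h.symm ▸ dvd_zero p)
  -- `g ^ o` lies in `P`
  have hgo : g ^ o ∈ (P : Subgroup G) := by
    have hpg : IsPGroup p ↥(Subgroup.zpowers (g ^ o)) := by
      have : orderOf (g ^ o) = p ^ a := by
        rw [orderOf_pow' _ ho0, hoe, Nat.gcd_eq_right (dvd_mul_left o _),
          Nat.mul_div_cancel _ (Nat.pos_of_ne_zero ho0)]
      exact IsPGroup.of_card (by rw [Nat.card_zpowers, this])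
    have hsup := IsPGroup.to_sup_of_normal_left' P.isPGroup' hpg (Subgroup.zpowers_le.2 (pow_mem hgN o))
    exact (P.3 hsup le_sup_left).le (Subgroup.mem_sup_right (Subgroup.mem_zpowers _))
  let ψ : MulAut ↥(P : Subgroup G) := (P : Subgroup G).normalizerMonoidHom ⟨g, hgN⟩
  have hψv : ∀ y, ((ψ y : ↥(P : Subgroup G)) : G) = g * y * g⁻¹ := fun y => rfl
  have h1 : ψ ^ o = 1 := by
    rw [← map_pow]
    refine MulEquiv.ext fun y => Subtype.ext ?_
    show g ^ o * (y : G) * (g ^ o)⁻¹ = y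
    rw [show g ^ o * (y : G) = y * g ^ o from
      congrArg Subtype.val ((IsCyclic.commGroup (α := ↥(P : Subgroup G))).mul_comm ⟨_, hgo⟩ y),
      mul_inv_cancel_right]
  obtain ⟨t, ht⟩ := IsCyclic.exists_generator (α := ↥(P : Subgroup G))
  obtain ⟨m, hm⟩ := IsPGroup.iff_card.1 P.isPGroup'
  have hot : orderOf t = p ^ m := by rw [orderOf_eq_card_of_forall_mem_zpowers ht, hm]
  obtain ⟨k, hk⟩ := Subgroup.mem_zpowers_iff.1 (ht (ψ t))
  obtain ⟨i, hi⟩ := Subgroup.mem_zpowers_iff.1 (ht ⟨x, hx⟩)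
  have hfix : ψ ⟨x, hx⟩ = ⟨x, hx⟩ := Subtype.ext (by rw [hψv]; simp [hg])
  -- `k ≡ 1 (mod p)`
  have hk1 : (p : ℤ) ∣ k - 1 := by
    have h2 : t ^ (k * i - i) = 1 := by
      rw [zpow_sub, zpow_mul, hk, ← map_zpow, hi, hfix, mul_inv_cancel]
    rw [← orderOf_dvd_iff_zpow_eq_one, hot, ← sub_one_mul] at h2
    by_contra hnd
    have hcop : IsCoprime ((p ^ m : ℕ) : ℤ) (k - 1) := by
      push_cast
      exact ((Nat.prime_iff_prime_int.1 hp).coprime_iff_not_dvd.2 hnd).pow_left
    have h3 := hcop.dvd_of_dvd_mul_left h2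
    rw [← hot, orderOf_dvd_iff_zpow_eq_one, hi] at h3
    exact hx1 (congrArg Subtype.val h3)
  have hpow : ∀ j : ℕ, (ψ ^ j) t = t ^ (k ^ j) := by
    intro j
    induction j with
    | zero => simp
    | succ j ih => rw [pow_succ, MulAut.mul_apply, ← hk, map_zpow, ih, ← zpow_mul, ← pow_succ]
  have h2 : ψ ^ (p ^ m) = 1 := by
    have h4 : (p : ℤ) ^ m ∣ k ^ (p ^ m) - 1 := by
      have h5 := dvd_sub_pow_of_dvd_sub (p := p) (a := k) (b := 1) hk1 m
      rw [one_pow] at h5
      exact (pow_dvd_pow _ (Nat.le_succ m)).trans h5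
    have h6 : (ψ ^ (p ^ m)) t = t := by
      rw [hpow]
      conv_rhs => rw [← zpow_one t]
      rw [zpow_eq_zpow_iff_modEq, hot]
      exact (Int.modEq_iff_dvd.2 (by push_cast; exact h4)).symm
    refine MulEquiv.ext fun y => ?_
    obtain ⟨j, rfl⟩ := Subgroup.mem_zpowers_iff.1 (ht y)
    rw [map_zpow, h6]; rfl
  have hψ1 : ψ = 1 := orderOf_eq_one_iff.1 (Nat.eq_one_of_dvd_coprimes
    (Nat.Coprime.pow_left m ((Nat.Prime.coprime_iff_not_dvd hp).2 hno))
    (orderOf_dvd_of_pow_eq_one h2) (orderOf_dvd_of_pow_eq_one h1))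
  intro y hy
  have h7 : g * y * g⁻¹ = y := by
    have := hψv ⟨y, hy⟩
    rw [hψ1] at this
    exact this.symm
  exact (mul_inv_eq_iff_eq_mul.1 h7).symm

/-- Let P be a cyclic Sylow p-subgroup of the finite group G. Then P meets each conjugate g P g⁻¹ with g outside N_G(P) trivially if and only if P is weakly self-centralizing: C_G(x) = C_G(P) for every non-identity x ∈ P. -/
theorem result {G : Type*} [Group G] [Finite G] (p : ℕ) [Fact p.Prime] (P : Sylow p G) (hcyc : IsCyclic ↥(P : Subgroup G)) : (∀ g : G, g ∉ Subgroup.normalizer ((P : Subgroup G) : Set G) → (P : Subgroup G) ⊓ (MulAut.conj g • (P : Subgroup G)) = ⊥) ↔ ∀ x : G, x ∈ (P : Subgroup G) → x ≠ 1 → Subgroup.centralizer ({x} : Set G) = Subgroup.centralizer ((P : Subgroup G) : Set G) := by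
  constructor
  · intro hTI x hx hx1
    refine le_antisymm (fun g hg => ?_) (fun g hg =>
      Subgroup.mem_centralizer_singleton_iff.2 (hg x hx).symm)
    rw [Subgroup.mem_centralizer_singleton_iff] at hg
    have hgN : g ∈ Subgroup.normalizer ((P : Subgroup G) : Set G) := by
      by_contra hgN
      have := hTI g hgN
      rw [Subgroup.eq_bot_iff_forall] at this
      refine hx1 (this x (Subgroup.mem_inf.2 ⟨hx, ?_⟩))
      rw [Subgroup.mem_pointwise_smul_iff_inv_smul_mem]
      have e : (MulAut.conj g)⁻¹ • x = x := by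
        show g⁻¹ * x * g = x
        rw [mul_assoc, ← hg, inv_mul_cancel_left]
      rw [e]; exact hx
    exact centralizes P hgN hg hx hx1
  · intro h
    refine Cfsg.Agent.FGS2.ti_of_sylow_eq P fun R x hxP hxR hx => ?_
    obtain ⟨a, rfl⟩ := MulAction.exists_smul_eq G P R
    have hax : a⁻¹ * x * a ∈ (P : Subgroup G) := by
      rw [Sylow.coe_subgroup_smul, Subgroup.mem_pointwise_smul_iff_inv_smul_mem] at hxR
      simpa using hxR
    have hc := h _ hax (fun h1 => hx (by
      calc x = a * (a⁻¹ * x * a) * a⁻¹ := by group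
        _ = 1 := by rw [h1]; group))
    -- elements of `P` centralize `a P a⁻¹`
    have hle : (P : Subgroup G) ≤ Subgroup.centralizer (((a • P : Sylow p G) : Subgroup G) : Set G) := by
      intro y hy z hz
      have hyx : y ∈ Subgroup.centralizer ({x} : Set G) := by
        rw [h x hxP hx]
        intro w hw
        exact congrArg Subtype.val ((IsCyclic.commGroup (α := ↥(P : Subgroup G))).mul_comm ⟨w, hw⟩ ⟨y, hy⟩)
      have hy' : a⁻¹ * y * a ∈ Subgroup.centralizer ({a⁻¹ * x * a} : Set G) := by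
        rw [Subgroup.mem_centralizer_singleton_iff] at hyx ⊢
        calc a⁻¹ * y * a * (a⁻¹ * x * a) = a⁻¹ * (y * x) * a := by group
          _ = a⁻¹ * (x * y) * a := by rw [hyx]
          _ = _ := by group
      rw [hc] at hy'
      have hz' : a⁻¹ * z * a ∈ (P : Subgroup G) := by
        rw [SetLike.mem_coe, Sylow.coe_subgroup_smul, Subgroup.mem_pointwise_smul_iff_inv_smul_mem] at hz
        simpa using hz
      have h2 := hy' _ hz'
      calc z * y = a * ((a⁻¹ * z * a) * (a⁻¹ * y * a)) * a⁻¹ := by group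
        _ = a * ((a⁻¹ * y * a) * (a⁻¹ * z * a)) * a⁻¹ := by rw [h2]
        _ = _ := by group
    have hsup : IsPGroup p ↥((P : Subgroup G) ⊔ ((a • P : Sylow p G) : Subgroup G)) :=
      IsPGroup.to_sup_of_normal_right' P.isPGroup' (a • P).isPGroup'
        (hle.trans (Subgroup.centralizer_le_normalizer _))
    exact Sylow.ext ((((a • P : Sylow p G)).3 hsup le_sup_right).symm.trans (P.3 hsup le_sup_left))

end Cfsg.Agent.S3985
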