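import Cfsg.Statements.S3987
import Cfsg.Agent.FGS2.DirectFactor

set_option autoImplicit false
open Cfsg

namespace Cfsg.Agent.S3987

open Cfsg.Agent.FGS2

/-- Let p be a prime and G a finite group. Then some Sylow p-subgroup of G is a direct factor of G (normal with a normal complement) if and only if for every element x of p-power order and every element y whose order is a power of a prime other than p, the conjugacy class of x y has as many elements as the product of the sizes of the classes of x and of y. -/
theorem result {G : Type*} [Group G] [Finite G] (p : ℕ) [Fact p.Prime] : (∃ (P : Sylow p G) (K : Subgroup G), (P : Subgroup G).Normal ∧ K.Normal ∧ (P : Subgroup G) ⊓ K = ⊥ ∧ (P : Subgroup G) ⊔ K = ⊤) ↔ ∀ x y : G, (∃ a : ℕ, orderOf x = p ^ a) → (∃ q b : ℕ, q.Prime ∧ q ≠ p ∧ orderOf y = q ^ b) → (Subgroup.centralizer ({x * y} : Set G)).index = (Subgroup.centralizer ({x} : Set G)).index * (Subgroup.centralizer ({y} : Set G)).index := by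
  constructor
  · rintro ⟨P, K, hPn, hKn, hinf, hsup⟩ x y hx hy
    exact index_mul_of_pair P K hPn hKn hinf hsup x y hx hy
  · intro h
    refine exists_direct_of_commute fun x y hx hy => ?_
    exact commute_of_index x y (h x y hx hy)

end Cfsg.Agent.S3987
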