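import Cfsg.Statements.S4013


set_option autoImplicit false
open Cfsg

namespace Cfsg.Agent.S4013

/-- Let G be a finite p-group (p prime) and N < M normal subgroups of G such that for some g ∈ M ∖ N the conjugacy class of g is exactly M ∖ N. Then p = 2 and N has index 2 in M. -/
theorem result {G : Type*} [Group G] [Finite G] (p : ℕ) [Fact p.Prime] (hG : IsPGroup p G) (N M : Subgroup G) [N.Normal] [M.Normal] (hNM : N < M) (g : G) (hgM : g ∈ M) (hgN : g ∉ N) (hcl : {h : G | IsConj g h} = (M : Set G) \ (N : Set G)) : p = 2 ∧ N.relIndex M = 2 := by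
  have hp : p.Prime := Fact.out
  have hle : N ≤ M := hNM.le
  obtain ⟨b, hb⟩ := IsPGroup.index (hG.to_subgroup M) (N.subgroupOf M)
  rw [show (N.subgroupOf M).index = N.relIndex M from rfl] at hb
  have hb1 : b ≠ 0 := fun h => (not_le_of_gt hNM) (Subgroup.relIndex_eq_one.1 (by simp [hb, h]))
  obtain ⟨n, hn⟩ := IsPGroup.iff_card.1 hG
  have hcl' : {h : G | IsConj g h}.ncard = Nat.card ↥M - Nat.card ↥N := by
    rw [hcl, Set.ncard_diff (SetLike.coe_subset_coe.2 hle) (Set.toFinite _)]
    rfl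
  have hdvd : {h : G | IsConj g h}.ncard ∣ Nat.card G := by
    have hset : {h : G | IsConj g h} = MulAction.orbit (ConjAct G) g := by
      ext h; rw [ConjAct.mem_orbit_conjAct, isConj_comm]; rfl
    rw [hset, ← Nat.card_coe_set_eq,
      Nat.card_congr (MulAction.orbitEquivQuotientStabilizer (ConjAct G) g), ← Subgroup.index_eq_card]
    exact (Subgroup.index_dvd_card _).trans (dvd_of_eq (Nat.card_congr ConjAct.ofConjAct.toEquiv))
  have hMN : Nat.card ↥M = Nat.card ↥N * p ^ b := by
    have h := Subgroup.card_mul_index (N.subgroupOf M)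
    rw [show (N.subgroupOf M).index = N.relIndex M from rfl, hb,
      Nat.card_congr (Subgroup.subgroupOfEquivOfLe hle).toEquiv] at h
    exact h.symm
  rw [hcl', hMN, hn] at hdvd
  have h1 : p ^ b - 1 ∣ p ^ n := by
    refine dvd_trans ⟨Nat.card ↥N, ?_⟩ hdvd
    rw [Nat.sub_mul, mul_comm (p ^ b), one_mul]
  obtain ⟨i, -, hi⟩ := (Nat.dvd_prime_pow hp).1 h1
  have hpb : p ∣ p ^ b := dvd_pow_self p hb1
  have hp1 : 1 ≤ p ^ b := Nat.one_le_pow _ _ hp.pos
  rcases Nat.eq_zero_or_pos i with rfl | hi0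
  · rw [pow_zero] at hi
    have h2 : p ^ b = 2 := by omega
    have hp2 : p = 2 := by
      have := Nat.le_of_dvd (by norm_num) (h2 ▸ hpb)
      have := hp.two_le
      omega
    exact ⟨hp2, hb.trans h2⟩
  · exfalso
    have h3 : p ∣ p ^ b - 1 := hi ▸ dvd_pow_self p hi0.ne'
    have h4 := Nat.dvd_sub hpb h3
    rw [Nat.sub_sub_self hp1] at h4
    exact hp.not_dvd_one h4

end Cfsg.Agent.S4013
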