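import Cfsg.Statements.S4020
import Cfsg.Agent.S0215
import Cfsg.Agent.OddLocal.UniqueSubgroup
import Cfsg.Agent.Coprime.Conjugacy
import Mathlib.GroupTheory.Sylow
import Mathlib.GroupTheory.Transfer

set_option autoImplicit false
set_option linter.all false
set_option maxHeartbeats 1000000
open Cfsg

namespace Cfsg.Agent.S4020

open Cfsg.Agent

variable {G : Type*} [Group G] [Finite G]

theorem comm_of_exponent_two {S : Subgroup G} (h : ∀ x ∈ S, x ^ 2 = 1) : IsMulCommutative S := by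
  refine ⟨⟨fun a b => ?_⟩⟩
  have key : ∀ z : S, z⁻¹ = z := fun z =>
    inv_eq_of_mul_eq_one_right (Subtype.ext (by simpa [pow_two] using h z z.2))
  rw [← key (a * b), mul_inv_rev, key, key]

/-- In such a group a `p`-subgroup has exponent `p` or a unique subgroup of order `p`. -/
theorem exponent_or_unique
    {p : ℕ} [hp : Fact p.Prime]
    (hB : ∀ A B : Subgroup G, IsPGroup p A → IsPGroup p B → Nat.card A = Nat.card B → ∃ g : G, B = A.map (MulAut.conj g).toMonoidHom)
    (P : Subgroup G) (hP : IsPGroup p P) :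
    (∀ x ∈ P, x ^ p = 1) ∨ OddLocal.UniqueOrderP p P := by
  by_contra hcon
  obtain ⟨hexp, huni⟩ := not_or.mp hcon
  push Not at hexp
  obtain ⟨x, hx, hxp⟩ := hexp
  -- a cyclic subgroup of order `p ^ 2`
  obtain ⟨i, hi⟩ := IsPGroup.iff_orderOf.mp hP ⟨x, hx⟩
  rw [Subgroup.orderOf_mk] at hi
  have hi2 : 2 ≤ i := by
    by_contra hlt
    refine hxp (orderOf_dvd_iff_pow_eq_one.mp ?_)
    rw [hi]
    exact (pow_dvd_pow p (show i ≤ 1 by omega)).trans (by rw [pow_one])
  obtain ⟨j, rfl⟩ : ∃ j, i = j + 2 := ⟨i - 2, by omega⟩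
  have hy : orderOf (x ^ p ^ j) = p ^ 2 := by
    rw [orderOf_pow' x (pow_ne_zero _ hp.out.ne_zero), hi, Nat.gcd_eq_right (pow_dvd_pow p (by omega)),
      pow_add, Nat.mul_div_cancel_left _ (pow_pos hp.out.pos _)]
  -- an elementary abelian subgroup of order `p ^ 2`
  haveI : Nontrivial P := Subgroup.nontrivial_iff_ne_bot P |>.mpr fun e => hxp (by
    rw [e] at hx; rw [Subgroup.mem_bot.mp hx, one_pow])
  obtain ⟨z, hz⟩ := exists_prime_orderOf_dvd_card' (G := Subgroup.center P) p (by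
    haveI := hP.center_nontrivial
    obtain ⟨k, hk⟩ := IsPGroup.iff_card.mp (hP.to_subgroup (Subgroup.center P))
    rw [hk]
    refine dvd_pow_self p fun e => ?_
    rw [e, pow_zero] at hk
    exact Finite.one_lt_card.ne' hk)
  set c : G := ((z : P) : G) with hcdef
  have hc : orderOf c = p := by rw [hcdef, Subgroup.orderOf_coe, Subgroup.orderOf_coe, hz]
  obtain ⟨b, hbp, hbn⟩ : ∃ b : P, b ^ p = 1 ∧ b ∉ Subgroup.zpowers (z : P) := by
    by_contra h
    push Not at h
    refine huni fun a d ha hd ha1 => ?_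
    have heq : Subgroup.zpowers a = Subgroup.zpowers (z : P) := by
      refine Subgroup.eq_of_le_of_card_ge (Subgroup.zpowers_le.mpr (h a ha)) ?_
      rw [Nat.card_zpowers, Nat.card_zpowers, Subgroup.orderOf_coe, hz, orderOf_eq_prime ha ha1]
    exact heq ▸ h d hd
  have hb1 : b ≠ 1 := fun e => hbn (e ▸ Subgroup.one_mem _)
  have hcb : Commute c (b : G) := by
    have := Subgroup.mem_center_iff.mp z.2 b
    exact (congrArg Subtype.val this).symm
  set E := Subgroup.zpowers c ⊔ Subgroup.zpowers (b : G) with hE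
  haveI hEc : IsMulCommutative E := by
    rw [hE, Subgroup.zpowers_eq_closure, Subgroup.zpowers_eq_closure,
      ← Subgroup.closure_union]
    refine Subgroup.isMulCommutative_closure ?_
    rintro u (rfl | rfl) v (rfl | rfl)
    · rfl
    · exact hcb.eq
    · exact hcb.eq.symm
    · rfl
  have hEexp : ∀ e ∈ E, e ^ p = 1 := by
    intro e he
    have hn : Subgroup.zpowers (b : G) ≤ Subgroup.normalizer (Subgroup.zpowers c : Set G) := by
      refine le_trans ?_ (Subgroup.centralizer_le_normalizer _)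
      rw [Subgroup.zpowers_le, Subgroup.mem_centralizer_iff]
      intro u hu
      obtain ⟨s, rfl⟩ := Subgroup.mem_zpowers_iff.mp hu
      exact (hcb.zpow_left s).eq
    rw [hE, ← SetLike.mem_coe, Subgroup.coe_mul_of_right_le_normalizer_left _ _ hn] at he
    obtain ⟨u, hu, v, hv, rfl⟩ := he
    obtain ⟨s, rfl⟩ := Subgroup.mem_zpowers_iff.mp hu
    obtain ⟨t, rfl⟩ := Subgroup.mem_zpowers_iff.mp hv
    show (c ^ s * (b : G) ^ t) ^ p = 1
    rw [(hcb.zpow_zpow s t).mul_pow]
    have e1 : c ^ p = 1 := by rw [← hc, pow_orderOf_eq_one]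
    have e2 : (b : G) ^ p = 1 := by simpa using congrArg Subtype.val hbp
    have e3 : (c ^ s) ^ p = 1 := by
      rw [← zpow_natCast, ← zpow_mul, mul_comm, zpow_mul, zpow_natCast, e1, one_zpow]
    have e4 : ((b : G) ^ t) ^ p = 1 := by
      rw [← zpow_natCast, ← zpow_mul, mul_comm, zpow_mul, zpow_natCast, e2, one_zpow]
    rw [e3, e4, one_mul]
  have hEcard : Nat.card E = p ^ 2 := by
    have hn : Subgroup.zpowers (b : G) ≤ Subgroup.normalizer (Subgroup.zpowers c : Set G) := by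
      refine le_trans ?_ (Subgroup.centralizer_le_normalizer _)
      rw [Subgroup.zpowers_le, Subgroup.mem_centralizer_iff]
      intro u hu
      obtain ⟨s, rfl⟩ := Subgroup.mem_zpowers_iff.mp hu
      exact (hcb.zpow_left s).eq
    rw [hE, Coprime.card_sup hn]
    · rw [Nat.card_zpowers, Nat.card_zpowers, hc, Subgroup.orderOf_coe, orderOf_eq_prime hbp hb1, pow_two]
    · rw [Subgroup.eq_bot_iff_forall]
      rintro u ⟨hu, hu'⟩
      by_contra hu1
      have h1 : Subgroup.zpowers u = Subgroup.zpowers (b : G) := by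
        refine Subgroup.eq_of_le_of_card_ge (Subgroup.zpowers_le.mpr hu') ?_
        rw [Nat.card_zpowers, Nat.card_zpowers, Subgroup.orderOf_coe, orderOf_eq_prime hbp hb1]
        refine le_of_eq (orderOf_eq_prime ?_ hu1).symm
        exact hEexp u (Subgroup.mem_sup_left hu)
      have h2 : (b : G) ∈ Subgroup.zpowers c := Subgroup.zpowers_le.mpr hu (h1 ▸ Subgroup.mem_zpowers (b : G))
      obtain ⟨s, hs⟩ := Subgroup.mem_zpowers_iff.mp h2
      exact hbn (Subgroup.mem_zpowers_iff.mpr ⟨s, Subtype.ext (by simpa [hcdef] using hs)⟩)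
  obtain ⟨g, hg⟩ := hB E (Subgroup.zpowers (x ^ p ^ j)) (IsPGroup.of_card hEcard)
    (IsPGroup.of_card (n := 2) (by rw [Nat.card_zpowers, hy]))
    (by rw [hEcard, Nat.card_zpowers, hy])
  have hmem : x ^ p ^ j ∈ E.map (MulAut.conj g).toMonoidHom := hg ▸ Subgroup.mem_zpowers _
  obtain ⟨e, he, hee⟩ := hmem
  have h3 : (x ^ p ^ j) ^ p = 1 := by rw [← hee, ← map_pow, hEexp e he, map_one]
  have h4 := orderOf_dvd_of_pow_eq_one h3
  rw [hy] at h4
  have := Nat.le_of_dvd hp.out.pos h4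
  have := hp.out.two_le
  nlinarith

/-- Adjoining a normalising element of prime order. -/
theorem card_adjoin {p : ℕ} [hp : Fact p.Prime] {H : Subgroup G} {w : G} (hwp : w ^ p = 1)
    (hw : w ∉ H) (hn : w ∈ Subgroup.normalizer (H : Set G)) :
    Nat.card ↥(H ⊔ Subgroup.zpowers w) = Nat.card H * p := by
  have hw1 : w ≠ 1 := fun e => hw (e ▸ H.one_mem)
  rw [Coprime.card_sup (Subgroup.zpowers_le.mpr hn), Nat.card_zpowers, orderOf_eq_prime hwp hw1]
  rw [Subgroup.eq_bot_iff_forall]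
  rintro u ⟨hu, hu'⟩
  by_contra hu1
  have hdvd := Subgroup.orderOf_dvd_natCard _ hu'
  rw [Nat.card_zpowers, orderOf_eq_prime hwp hw1, Nat.dvd_prime hp.out] at hdvd
  have hou : orderOf u = p := hdvd.resolve_left (fun e => hu1 (orderOf_eq_one_iff.mp e))
  have he : Subgroup.zpowers u = Subgroup.zpowers w := by
    refine Subgroup.eq_of_le_of_card_ge (Subgroup.zpowers_le.mpr hu') ?_
    rw [Nat.card_zpowers, Nat.card_zpowers, hou, orderOf_eq_prime hwp hw1]
  exact hw (Subgroup.zpowers_le.mpr hu (he ▸ Subgroup.mem_zpowers w))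

theorem sup_zpowers_comm {H : Subgroup G} {w : G} (hH : ∀ a ∈ H, ∀ b ∈ H, a * b = b * a)
    (hw : ∀ a ∈ H, a * w = w * a) :
    ∀ a ∈ H ⊔ Subgroup.zpowers w, ∀ b ∈ H ⊔ Subgroup.zpowers w, a * b = b * a := by
  intro a ha b hb
  have h1 : H ⊔ Subgroup.zpowers w ≤ Subgroup.centralizer (H : Set G) := by
    refine sup_le (fun x hx y hy => hH y hy x hx) (Subgroup.zpowers_le.mpr fun y hy => hw y hy)
  have h2 : H ⊔ Subgroup.zpowers w ≤ Subgroup.centralizer ({w} : Set G) := by
    refine sup_le (fun x hx => ?_) (Subgroup.zpowers_le.mpr ?_)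
    · rw [Subgroup.mem_centralizer_singleton_iff]; exact hw x hx
    · rw [Subgroup.mem_centralizer_singleton_iff]
  have h3 : H ⊔ Subgroup.zpowers w ≤ Subgroup.centralizer ({a} : Set G) := by
    refine sup_le (fun x hx => ?_) (Subgroup.zpowers_le.mpr ?_)
    · rw [Subgroup.mem_centralizer_singleton_iff]; exact Subgroup.mem_centralizer_iff.mp (h1 ha) x hx
    · rw [Subgroup.mem_centralizer_singleton_iff]
      exact (Subgroup.mem_centralizer_singleton_iff.mp (h2 ha)).symm
  exact (Subgroup.mem_centralizer_singleton_iff.mp (h3 hb)).symm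

/-- A nonabelian group of exponent `p` whose subgroups of order `p ^ 3` are all abelian or all
nonabelian has order `p ^ 3`. -/
theorem order_cube {Q : Type*} [Group Q] [Finite Q] {p : ℕ} [hp : Fact p.Prime] (hQ : IsPGroup p Q)
    (hexp : ∀ x : Q, x ^ p = 1) (hna : ¬ ∀ a b : Q, a * b = b * a)
    (hiso : ∀ H K : Subgroup Q, Nat.card H = p ^ 3 → Nat.card K = p ^ 3 →
      (∀ a ∈ H, ∀ b ∈ H, a * b = b * a) → ∀ a ∈ K, ∀ b ∈ K, a * b = b * a) :
    ∃ c x : Q, c ≠ 1 ∧ c ∈ Subgroup.center Q ∧ x ∉ Subgroup.center Q ∧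
      (∀ z ∈ Subgroup.center Q, z ∈ Subgroup.zpowers c) ∧
      ∀ a b : Q, a * b * a⁻¹ * b⁻¹ ∈ Subgroup.zpowers c := by
  classical
  set Z := Subgroup.center Q with hZ
  have hZtop : Z ≠ ⊤ := fun e => hna fun a b =>
    (Subgroup.mem_center_iff.mp (e ▸ Subgroup.mem_top b : b ∈ Z) a)
  haveI : Nontrivial (Q ⧸ Z) := QuotientGroup.nontrivial_iff.mpr hZtop
  haveI := (hQ.to_quotient Z).center_nontrivial
  obtain ⟨q, hq⟩ := exists_ne (1 : Subgroup.center (Q ⧸ Z))
  obtain ⟨x, hxq⟩ := QuotientGroup.mk'_surjective Z (q : Q ⧸ Z)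
  have hxZ : x ∉ Z := fun e => hq (Subtype.ext (by
    rw [← hxq]; exact (QuotientGroup.eq_one_iff x).mpr e))
  have hcomm : ∀ y : Q, y * x * y⁻¹ * x⁻¹ ∈ Z := fun y => by
    rw [← QuotientGroup.eq_one_iff]
    have h := Subgroup.mem_center_iff.mp q.2 (y : Q ⧸ Z)
    rw [← hxq] at h
    simp only [QuotientGroup.mk'_apply] at h
    rw [QuotientGroup.mk_mul, QuotientGroup.mk_mul, QuotientGroup.mk_mul, h]
    simp
  obtain ⟨y, hy⟩ : ∃ y, y * x ≠ x * y := by
    by_contra h; push Not at h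
    exact hxZ (Subgroup.mem_center_iff.mpr h)
  set d := y * x * y⁻¹ * x⁻¹ with hd
  have hdZ : d ∈ Z := hcomm y
  have hd1 : d ≠ 1 := fun e => hy (by
    have := mul_inv_eq_one.mp (hd ▸ e); rw [mul_inv_eq_iff_eq_mul] at this; exact this)
  have hdc : ∀ a : Q, a * d = d * a := Subgroup.mem_center_iff.mp hdZ
  have hod : orderOf d = p := orderOf_eq_prime (hexp d) hd1
  have hxd : x ∉ Subgroup.zpowers d := fun e => hxZ ((Subgroup.zpowers_le.mpr hdZ) e)
  set A := Subgroup.zpowers d ⊔ Subgroup.zpowers x with hA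
  have hdnorm : ∀ a : Q, a ∈ Subgroup.normalizer (Subgroup.zpowers d : Set Q) := fun a => by
    apply Subgroup.centralizer_le_normalizer
    rw [Subgroup.mem_centralizer_iff]
    intro u hu
    obtain ⟨s, rfl⟩ := Subgroup.mem_zpowers_iff.mp hu
    exact ((show Commute a d from hdc a).zpow_right s).eq.symm
  have hAc : Nat.card A = p ^ 2 := by
    rw [hA, card_adjoin (hexp x) hxd (hdnorm x), Nat.card_zpowers, hod, pow_two]
  have hzc : ∀ a ∈ Subgroup.zpowers d, ∀ b : Q, a * b = b * a := by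
    intro a ha b
    obtain ⟨s, rfl⟩ := Subgroup.mem_zpowers_iff.mp ha
    exact ((show Commute b d from hdc b).zpow_right s).eq.symm
  have hAcomm : ∀ a ∈ A, ∀ b ∈ A, a * b = b * a :=
    sup_zpowers_comm (fun a ha b _ => hzc a ha b) (fun a ha => hzc a ha x)
  have hyA : y ∉ A := fun e => hy (hAcomm y e x (Subgroup.mem_sup_right (Subgroup.mem_zpowers x)))
  have hmap : A.map (MulAut.conj y).toMonoidHom = A := by
    refine Subgroup.eq_of_le_of_card_ge ?_ (Subgroup.card_map_of_injective (MulEquiv.injective _)).ge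
    rw [hA, Subgroup.map_sup, MonoidHom.map_zpowers, MonoidHom.map_zpowers]
    refine sup_le (Subgroup.zpowers_le.mpr ?_) (Subgroup.zpowers_le.mpr ?_)
    · show y * d * y⁻¹ ∈ _
      rw [hdc y, mul_inv_cancel_right]
      exact Subgroup.mem_sup_left (Subgroup.mem_zpowers d)
    · show y * x * y⁻¹ ∈ _
      rw [show y * x * y⁻¹ = d * x by rw [hd, inv_mul_cancel_right]]
      exact Subgroup.mul_mem_sup (Subgroup.mem_zpowers d) (Subgroup.mem_zpowers x)
  have hyn : y ∈ Subgroup.normalizer (A : Set Q) := by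
    rw [Subgroup.mem_normalizer_iff]
    intro h
    constructor
    · intro hh; rw [← hmap]; exact Subgroup.mem_map_of_mem _ hh
    · intro hh
      rw [← hmap] at hh
      obtain ⟨h', hh', he⟩ := hh
      exact (MulEquiv.injective (MulAut.conj y) he) ▸ hh'
  set H := A ⊔ Subgroup.zpowers y with hH
  have hHc : Nat.card H = p ^ 3 := by
    rw [hH, card_adjoin (hexp y) hyA hyn, hAc]; ring
  obtain ⟨k, hk⟩ := IsPGroup.iff_card.mp hQ
  set C := Subgroup.centralizer ({x} : Set Q) with hC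
  have hZC : Z < C := lt_of_le_of_ne
    (fun z hz => by
      rw [hC, Subgroup.mem_centralizer_singleton_iff]; exact (Subgroup.mem_center_iff.mp hz x).symm)
    (fun e => hxZ (e ▸ Subgroup.mem_centralizer_singleton_iff.mpr rfl))
  have hCtop : C ≠ ⊤ := fun e => hy (Subgroup.mem_centralizer_singleton_iff.mp (e ▸ Subgroup.mem_top y : y ∈ C))
  have hidx : C.index ≤ Nat.card Z := by
    refine Nat.card_le_card_of_injective
      (fun q : Q ⧸ C => (⟨q.out * x * q.out⁻¹ * x⁻¹, hcomm _⟩ : Z)) ?_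
    intro q r hqr
    have h := congrArg Subtype.val hqr
    simp only at h
    have h' : q.out * x * q.out⁻¹ = r.out * x * r.out⁻¹ := mul_right_cancel h
    rw [← QuotientGroup.out_eq' q, ← QuotientGroup.out_eq' r, QuotientGroup.eq]
    apply Subgroup.mem_centralizer_singleton_iff.mpr
    calc q.out⁻¹ * r.out * x = q.out⁻¹ * (r.out * x * r.out⁻¹) * r.out := by group
      _ = q.out⁻¹ * (q.out * x * q.out⁻¹) * r.out := by rw [h']
      _ = x * (q.out⁻¹ * r.out) := by group
  obtain ⟨a, ha⟩ := IsPGroup.iff_card.mp (hQ.to_subgroup C)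
  obtain ⟨b, hb⟩ := IsPGroup.iff_card.mp (hQ.to_subgroup Z)
  have hba : b < a := by
    by_contra h; push Not at h
    exact hZC.ne (Subgroup.eq_of_le_of_card_ge hZC.le (by rw [ha, hb]; exact Nat.pow_le_pow_right hp.out.pos h))
  have hak : a < k := by
    by_contra h; push Not at h
    exact hCtop (Subgroup.eq_top_of_le_card _ (by rw [ha, hk]; exact Nat.pow_le_pow_right hp.out.pos h))
  have hkab : k ≤ a + b := by
    have h := C.card_mul_index
    rw [ha, hk] at h
    have h2 : p ^ k ≤ p ^ (a + b) := by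
      rw [pow_add, ← h, ← hb]; exact Nat.mul_le_mul_left _ hidx
    exact (Nat.pow_le_pow_iff_right hp.out.one_lt).mp h2
  have hk3 : 3 ≤ k := by
    have := Subgroup.card_subgroup_dvd_card H
    rw [hHc, hk] at this
    exact (Nat.pow_dvd_pow_iff_le_right hp.out.one_lt).mp this
  have ha3 : a ≤ 2 := by
    by_contra h; push Not at h
    have hAC : A ≤ C := fun u hu => by
      rw [hC, Subgroup.mem_centralizer_singleton_iff]
      exact hAcomm u hu x (Subgroup.mem_sup_right (Subgroup.mem_zpowers x))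
    obtain ⟨w, hwC, hwA⟩ : ∃ w ∈ C, w ∉ A := SetLike.exists_of_lt (lt_of_le_of_ne hAC fun e => by
      rw [← e, hAc] at ha
      have := Nat.pow_right_injective hp.out.two_le ha; omega)
    have hAw : ∀ u ∈ A, u * w = w * u := by
      intro u hu
      have : A ≤ Subgroup.centralizer ({w} : Set Q) := sup_le
        (Subgroup.zpowers_le.mpr (Subgroup.mem_centralizer_singleton_iff.mpr (hdc w).symm))
        (Subgroup.zpowers_le.mpr (Subgroup.mem_centralizer_singleton_iff.mpr
          (Subgroup.mem_centralizer_singleton_iff.mp hwC).symm))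
      exact Subgroup.mem_centralizer_singleton_iff.mp (this hu)
    have hwn : w ∈ Subgroup.normalizer (A : Set Q) := by
      apply Subgroup.centralizer_le_normalizer
      rw [Subgroup.mem_centralizer_iff]
      exact fun u hu => hAw u hu
    have hW : Nat.card ↥(A ⊔ Subgroup.zpowers w) = p ^ 3 := by
      rw [card_adjoin (hexp w) hwA hwn, hAc]; ring
    exact hy (hiso _ H hW hHc (sup_zpowers_comm hAcomm hAw) y
      (Subgroup.mem_sup_right (Subgroup.mem_zpowers y)) x
      (Subgroup.mem_sup_left (Subgroup.mem_sup_right (Subgroup.mem_zpowers x))))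
  have hb1 : b = 1 := by omega
  have hZd : Subgroup.zpowers d = Z := Subgroup.eq_of_le_of_card_ge (Subgroup.zpowers_le.mpr hdZ)
    (by rw [Nat.card_zpowers, hod, hb, hb1, pow_one])
  refine ⟨d, x, hd1, hdZ, hxZ, fun z hz => hZd ▸ hz, fun u v => ?_⟩
  rw [hZd]
  have hQZ : Nat.card (Q ⧸ Z) = p ^ 2 := by
    have h := Z.card_mul_index
    rw [hb, hb1, hk, show k = 1 + 2 by omega, pow_add] at h
    exact Nat.eq_of_mul_eq_mul_left (pow_pos hp.out.pos 1) h
  haveI := IsPGroup.isMulCommutative_of_card_eq_prime_sq hQZ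
  rw [← QuotientGroup.eq_one_iff]
  simp [mul_comm']

/-- A conjugation moving `w` inside its coset modulo a central cyclic group can be normalised. -/
theorem exists_shift {p : ℕ} [hp : Fact p.Prime] {P : Subgroup G} {c w d : G}
    (hc : orderOf c = p) (hcc : ∀ a ∈ P, a * c = c * a)
    (hcomm : ∀ a ∈ P, ∀ b ∈ P, a * b * a⁻¹ * b⁻¹ ∈ Subgroup.zpowers c)
    (hw : w ∈ P) (hwn : ∃ t ∈ P, t * w ≠ w * t) (hd : d ∈ Subgroup.zpowers c) :
    ∃ t ∈ P, t * w * t⁻¹ = d * w := by
  classical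
  obtain ⟨t, ht, htw⟩ := hwn
  set e := t * w * t⁻¹ * w⁻¹ with he
  have hec : e ∈ Subgroup.zpowers c := hcomm t ht w hw
  have he1 : e ≠ 1 := fun h => htw (by
    have := mul_inv_eq_one.mp (he ▸ h); rw [mul_inv_eq_iff_eq_mul] at this; exact this)
  have htop : Subgroup.zpowers e = Subgroup.zpowers c := by
    refine Subgroup.eq_of_le_of_card_ge (Subgroup.zpowers_le.mpr hec) ?_
    have hdvd := Subgroup.orderOf_dvd_natCard _ hec
    rw [Nat.card_zpowers, hc, Nat.dvd_prime hp.out] at hdvd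
    rw [Nat.card_zpowers, Nat.card_zpowers, hc, hdvd.resolve_left (fun h => he1 (orderOf_eq_one_iff.mp h))]
  rw [← htop, mem_zpowers_iff_mem_range_orderOf] at hd
  obtain ⟨i, -, rfl⟩ := Finset.mem_image.mp hd
  refine ⟨t ^ i, P.pow_mem ht i, ?_⟩
  clear htop hd
  induction i with
  | zero => simp
  | succ i ih =>
    have hte : t * e = e * t := by
      obtain ⟨s, hs⟩ := Subgroup.mem_zpowers_iff.mp hec
      rw [← hs]; exact ((show Commute t c from hcc t ht).zpow_right s).eq
    calc t ^ (i + 1) * w * (t ^ (i + 1))⁻¹ = t * (t ^ i * w * (t ^ i)⁻¹) * t⁻¹ := by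
          rw [pow_succ']; group
      _ = t * (e ^ i * w) * t⁻¹ := by rw [ih]
      _ = e ^ i * (t * w * t⁻¹) := by
          rw [← mul_assoc t, ((show Commute t e from hte).pow_right i).eq]; group
      _ = e ^ i * (e * w) := by rw [show t * w * t⁻¹ = e * w by rw [he, inv_mul_cancel_right]]
      _ = e ^ (i + 1) * w := by rw [pow_succ]; exact (mul_assoc (e ^ i) e w).symm

/-- Elements of odd order lie in every normal subgroup of two-power index. -/
theorem mem_of_odd_order {K : Subgroup G} [K.Normal] {n : ℕ} (hK : K.index = 2 ^ n) {u : G}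
    (hu : Odd (orderOf u)) : u ∈ K := by
  rw [← QuotientGroup.eq_one_iff, ← orderOf_eq_one_iff]
  have h1 : orderOf (u : G ⧸ K) ∣ orderOf u := orderOf_map_dvd (QuotientGroup.mk' K) u
  have h2 : orderOf (u : G ⧸ K) ∣ 2 ^ n := by
    rw [← hK]; exact orderOf_dvd_natCard _
  exact Nat.eq_one_of_dvd_coprimes ((Nat.coprime_two_right.mpr hu).pow_right n) h1 h2

theorem zmod2_neg : ∀ u : ZMod 2, -u = u := by decide

theorem zmod2_cases : ∀ v : ZMod 2, v = 0 ∨ v = 1 := by decide

/-- A Sylow subgroup that is generalized quaternion has order eight here. -/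
theorem quaternion_small
    (hB : ∀ A B : Subgroup G, IsPGroup 2 A → IsPGroup 2 B → Nat.card A = Nat.card B → ∃ g : G, B = A.map (MulAut.conj g).toMonoidHom)
    {P : Subgroup G} (hP : IsPGroup 2 P) {n : ℕ} (e : P ≃* QuaternionGroup (2 ^ n)) : n ≤ 1 := by
  by_contra hn
  push Not at hn
  haveI : Fact (Nat.Prime 2) := ⟨Nat.prime_two⟩
  set N := 2 ^ n with hN
  haveI : NeZero N := ⟨pow_ne_zero _ two_ne_zero⟩
  let φ : ZMod (2 * N) →+* ZMod 2 := ZMod.castHom (dvd_mul_right 2 N) (ZMod 2)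
  have hN0 : φ (N : ZMod (2 * N)) = 0 := by
    rw [map_natCast, ZMod.natCast_eq_zero_iff_even]
    exact (Nat.even_pow).mpr ⟨even_two, by omega⟩
  let par : QuaternionGroup N → ZMod 2 := fun q => match q with
    | .a i => φ i
    | .xa i => φ i
  have neg2 : ∀ u : ZMod 2, -u = u := zmod2_neg
  let f : QuaternionGroup N →* Multiplicative (ZMod 2) := MonoidHom.mk' (fun q => Multiplicative.ofAdd (par q))
    (by
      intro u v
      rcases u with i | i <;> rcases v with j | j <;>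
        simp [par, ← ofAdd_add, map_add, map_sub, hN0, sub_eq_add_neg, neg2, add_comm])
  have hsurj : Function.Surjective f := by
    intro u
    have : ∀ v : ZMod 2, ∃ q : QuaternionGroup N, par q = v := by
      intro v
      rcases zmod2_cases v with rfl | rfl
      · exact ⟨.a 0, map_zero φ⟩
      · exact ⟨.a 1, map_one φ⟩
    obtain ⟨q, hq⟩ := this (Multiplicative.toAdd u)
    exact ⟨q, by show Multiplicative.ofAdd (par q) = u; rw [hq]; rfl⟩
  set K := f.ker with hK
  set C := Subgroup.zpowers (QuaternionGroup.a 1 : QuaternionGroup N) with hC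
  have hKc : Nat.card K = 2 * N := by
    have h1 := K.card_mul_index
    rw [Subgroup.index_ker, MonoidHom.range_eq_top.mpr hsurj, Subgroup.card_top,
      Nat.card_eq_fintype_card (α := Multiplicative (ZMod 2)), Fintype.card_multiplicative, ZMod.card,
      Nat.card_eq_fintype_card (α := QuaternionGroup N), QuaternionGroup.card] at h1
    omega
  have hCc : Nat.card C = 2 * N := by rw [hC, Nat.card_zpowers, QuaternionGroup.orderOf_a_one]
  let ψ : QuaternionGroup N →* G := P.subtype.comp e.symm.toMonoidHom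
  have hψ : Function.Injective ψ := P.subtype_injective.comp e.symm.injective
  have hle : ∀ J : Subgroup (QuaternionGroup N), IsPGroup 2 (J.map ψ) := fun J =>
    hP.to_le (Subgroup.map_le_iff_le_comap.mpr fun u _ => (e.symm u).2)
  obtain ⟨g, hg⟩ := hB (C.map ψ) (K.map ψ) (hle C) (hle K) (by
    rw [Subgroup.card_map_of_injective hψ, Subgroup.card_map_of_injective hψ, hKc, hCc])
  have hKcomm : ∀ a ∈ K, ∀ b ∈ K, a * b = b * a := by
    intro a ha b hb
    have ha' := Subgroup.mem_map_of_mem ψ ha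
    have hb' := Subgroup.mem_map_of_mem ψ hb
    rw [hg] at ha' hb'
    obtain ⟨_, ⟨u, hu, rfl⟩, hu'⟩ := ha'
    obtain ⟨_, ⟨v, hv, rfl⟩, hv'⟩ := hb'
    obtain ⟨s, rfl⟩ := Subgroup.mem_zpowers_iff.mp hu
    obtain ⟨t, rfl⟩ := Subgroup.mem_zpowers_iff.mp hv
    apply hψ
    rw [map_mul, map_mul, ← hu', ← hv']
    simp only [← map_mul]
    rw [← zpow_add, ← zpow_add, add_comm]
  have h2K : (QuaternionGroup.a 2 : QuaternionGroup N) ∈ K := by
    show Multiplicative.ofAdd (φ 2) = 1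
    rw [show (2 : ZMod (2 * N)) = ((2 : ℕ) : ZMod (2 * N)) by simp, map_natCast]; rfl
  have h0K : (QuaternionGroup.xa 0 : QuaternionGroup N) ∈ K := by
    show Multiplicative.ofAdd (φ 0) = 1
    simp
  have h := hKcomm _ h2K _ h0K
  simp only [QuaternionGroup.a_mul_xa, QuaternionGroup.xa_mul_a] at h
  injection h with h
  have h4 : ((4 : ℕ) : ZMod (2 * N)) = 0 := by
    push_cast
    linear_combination -h
  rw [ZMod.natCast_eq_zero_iff] at h4
  have h5 : 2 ^ (n + 1) ∣ 2 ^ 2 := by rw [pow_succ, mul_comm]; exact h4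
  have := (Nat.pow_dvd_pow_iff_le_right (by norm_num)).mp h5
  omega

/-- A nonabelian Sylow subgroup of exponent `p` and odd `p` is impossible. -/
theorem core
    (hD : ∀ p : ℕ, p.Prime → ∀ H K : Subgroup G, IsPGroup p H → IsPGroup p K → Nat.card H = Nat.card K →
      ∃ g : G, K = H.map (MulAut.conj g).toMonoidHom)
    {p : ℕ} [hp : Fact p.Prime] (hp2 : p ≠ 2) (P : Sylow p G)
    (hexp : ∀ x ∈ (P : Subgroup G), x ^ p = 1)
    (hna : ¬ ∀ a ∈ (P : Subgroup G), ∀ b ∈ (P : Subgroup G), a * b = b * a) : False := by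
  classical
  haveI : Fact (Nat.Prime 2) := ⟨Nat.prime_two⟩
  obtain ⟨c₀, x₀, hc0, hcZ, hxZ, hZc, hcm⟩ := order_cube (Q := (P : Subgroup G)) P.2
    (fun u => Subtype.ext (by simpa using hexp u u.2))
    (fun h => hna fun a ha b hb => by simpa using congrArg Subtype.val (h ⟨a, ha⟩ ⟨b, hb⟩))
    (by
      intro H K hH hK hc a ha b hb
      obtain ⟨g, hg⟩ := hD p hp.out (H.map (P : Subgroup G).subtype) (K.map (P : Subgroup G).subtype)
        ((P.2.to_subgroup H).map _) ((P.2.to_subgroup K).map _)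
        (by rw [Subgroup.card_map_of_injective (Subgroup.subtype_injective _),
          Subgroup.card_map_of_injective (Subgroup.subtype_injective _), hH, hK])
      have ha' := Subgroup.mem_map_of_mem (P : Subgroup G).subtype ha
      have hb' := Subgroup.mem_map_of_mem (P : Subgroup G).subtype hb
      rw [hg] at ha' hb'
      obtain ⟨_, ⟨u, hu, rfl⟩, hu'⟩ := ha'
      obtain ⟨_, ⟨v, hv, rfl⟩, hv'⟩ := hb'
      apply Subgroup.subtype_injective
      rw [map_mul, map_mul, ← hu', ← hv']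
      simp only [← map_mul]
      rw [hc u hu v hv])
  set c : G := (c₀ : G) with hcdef
  set x : G := (x₀ : G) with hxdef
  have hcP : c ∈ (P : Subgroup G) := c₀.2
  have hxP : x ∈ (P : Subgroup G) := x₀.2
  have hc1 : c ≠ 1 := fun e => hc0 (Subtype.ext e)
  have hoc : orderOf c = p := orderOf_eq_prime (hexp c hcP) hc1
  have hcc : ∀ a ∈ (P : Subgroup G), a * c = c * a := fun a ha =>
    congrArg Subtype.val (Subgroup.mem_center_iff.mp hcZ ⟨a, ha⟩)
  have hcom : ∀ a ∈ (P : Subgroup G), ∀ b ∈ (P : Subgroup G),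
      a * b * a⁻¹ * b⁻¹ ∈ Subgroup.zpowers c := by
    intro a ha b hb
    obtain ⟨s, hs⟩ := Subgroup.mem_zpowers_iff.mp (hcm ⟨a, ha⟩ ⟨b, hb⟩)
    exact Subgroup.mem_zpowers_iff.mpr ⟨s, by simpa [hcdef] using congrArg Subtype.val hs⟩
  have hcent : ∀ z ∈ (P : Subgroup G), (∀ a ∈ (P : Subgroup G), a * z = z * a) → z ∈ Subgroup.zpowers c := by
    intro z hz h
    obtain ⟨s, hs⟩ := Subgroup.mem_zpowers_iff.mp (hZc ⟨z, hz⟩
      (Subgroup.mem_center_iff.mpr fun a => Subtype.ext (h a a.2)))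
    exact Subgroup.mem_zpowers_iff.mpr ⟨s, by simpa [hcdef] using congrArg Subtype.val hs⟩
  have hxc : x ∉ Subgroup.zpowers c := by
    intro h
    obtain ⟨s, hs⟩ := Subgroup.mem_zpowers_iff.mp h
    exact hxZ (Subgroup.mem_center_iff.mpr fun a => Subtype.ext (by
      show (a : G) * x = x * a
      rw [← hs]; exact ((show Commute (a : G) c from hcc a a.2).zpow_right s).eq))
  have hox : orderOf x = p := orderOf_eq_prime (hexp x hxP) fun e => hxc (e ▸ Subgroup.one_mem _)
  -- a subgroup of `P` containing `c` is normal in `P`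
  have hnormal : ∀ E : Subgroup G, E ≤ (P : Subgroup G) → c ∈ E →
      (P : Subgroup G) ≤ Subgroup.normalizer (E : Set G) := by
    intro E hE hcE
    have key : ∀ a ∈ (P : Subgroup G), ∀ e ∈ E, a * e * a⁻¹ ∈ E := fun a ha e he => by
      rw [show a * e * a⁻¹ = (a * e * a⁻¹ * e⁻¹) * e by group]
      exact E.mul_mem ((Subgroup.zpowers_le.mpr hcE) (hcom a ha e (hE he))) he
    intro a ha
    rw [Subgroup.mem_normalizer_iff]
    intro e
    refine ⟨fun he => key a ha e he, fun he => ?_⟩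
    have := key a⁻¹ (inv_mem ha) _ he
    simpa [mul_assoc] using this
  set E := Subgroup.zpowers c ⊔ Subgroup.zpowers x with hE
  have hcE : c ∈ E := Subgroup.mem_sup_left (Subgroup.mem_zpowers c)
  have hxE : x ∈ E := Subgroup.mem_sup_right (Subgroup.mem_zpowers x)
  have hEP : E ≤ (P : Subgroup G) := sup_le (Subgroup.zpowers_le.mpr hcP) (Subgroup.zpowers_le.mpr hxP)
  have hEcomm : ∀ a ∈ E, ∀ b ∈ E, a * b = b * a := sup_zpowers_comm
    (fun a ha b hb => by
      obtain ⟨s, rfl⟩ := Subgroup.mem_zpowers_iff.mp ha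
      obtain ⟨t, rfl⟩ := Subgroup.mem_zpowers_iff.mp hb
      rw [← zpow_add, ← zpow_add, add_comm])
    (fun a ha => by
      obtain ⟨s, rfl⟩ := Subgroup.mem_zpowers_iff.mp ha
      exact ((show Commute x c from hcc x hxP).zpow_right s).eq.symm)
  -- move `x` into `zpowers c`
  obtain ⟨g, hg⟩ := hD p hp.out (Subgroup.zpowers x) (Subgroup.zpowers c)
    (IsPGroup.of_card (n := 1) (by rw [Nat.card_zpowers, hox, pow_one]))
    (IsPGroup.of_card (n := 1) (by rw [Nat.card_zpowers, hoc, pow_one]))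
    (by rw [Nat.card_zpowers, Nat.card_zpowers, hox, hoc])
  rw [MonoidHom.map_zpowers] at hg
  have hgx : g * x * g⁻¹ ∈ Subgroup.zpowers c := hg ▸ Subgroup.mem_zpowers _
  have hcg : c ∈ E.map (MulAut.conj g).toMonoidHom := by
    have h : c ∈ Subgroup.zpowers c := Subgroup.mem_zpowers c
    rw [hg] at h
    refine (Subgroup.zpowers_le.mpr ?_) h
    exact Subgroup.mem_map_of_mem _ hxE
  set Cc := Subgroup.centralizer ({c} : Set G) with hCc
  have hPC : (P : Subgroup G) ≤ Cc := fun a ha => Subgroup.mem_centralizer_singleton_iff.mpr (hcc a ha)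
  set E' := E.map (MulAut.conj g).toMonoidHom with hE'
  have hE'C : E' ≤ Cc := by
    rintro _ ⟨e, he, rfl⟩
    obtain ⟨e₁, he1, he1'⟩ := hcg
    rw [hCc, Subgroup.mem_centralizer_singleton_iff, ← he1', ← map_mul, ← map_mul, hEcomm e he e₁ he1]
  obtain ⟨Q, hQ⟩ := (((P.2.to_le hEP).map (MulAut.conj g).toMonoidHom).comap_of_injective Cc.subtype
    Cc.subtype_injective).exists_le_sylow
  obtain ⟨h, hh⟩ := MulAction.exists_smul_eq (↥Cc) Q (P.subtype hPC)
  have hh' : ∀ e ∈ E', (h : G) * e * (h : G)⁻¹ ∈ (P : Subgroup G) := by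
    intro e he
    have h1 : (⟨e, hE'C he⟩ : ↥Cc) ∈ (Q : Subgroup ↥Cc) := hQ he
    have h2 : h * ⟨e, hE'C he⟩ * h⁻¹ ∈ ((h • Q : Sylow p ↥Cc) : Subgroup ↥Cc) := by
      rw [Sylow.coe_subgroup_smul, Subgroup.mem_pointwise_smul_iff_inv_smul_mem]
      simpa [MulAut.smul_def, mul_assoc] using h1
    rw [hh, Sylow.coe_subtype, Subgroup.mem_subgroupOf] at h2
    simpa using h2
  set g₁ := (h : G) * g with hg1
  have hhc : (h : G) * c * (h : G)⁻¹ = c := by
    rw [Subgroup.mem_centralizer_singleton_iff.mp h.2, mul_inv_cancel_right]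
  have hg1x : g₁ * x * g₁⁻¹ ∈ Subgroup.zpowers c := by
    obtain ⟨s, hs⟩ := Subgroup.mem_zpowers_iff.mp hgx
    refine Subgroup.mem_zpowers_iff.mpr ⟨s, ?_⟩
    conv_lhs => rw [← hhc]
    rw [conj_zpow, hs]
    rw [hg1]; group
  set E₁ := E.map (MulAut.conj g₁).toMonoidHom with hE1
  have hE1P : E₁ ≤ (P : Subgroup G) := by
    rintro _ ⟨e, he, rfl⟩
    have := hh' _ (Subgroup.mem_map_of_mem (MulAut.conj g).toMonoidHom he)
    simpa [hg1, mul_assoc] using this
  have hcE1 : c ∈ E₁ := by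
    obtain ⟨e, he, he'⟩ := hcg
    refine ⟨e, he, ?_⟩
    show g₁ * e * g₁⁻¹ = c
    conv_rhs => rw [← hhc, ← he']
    show _ = (h : G) * (g * e * g⁻¹) * (h : G)⁻¹
    rw [hg1]; group
  -- the two Sylow subgroups of `N(E)`
  set N := Subgroup.normalizer (E : Set G) with hN
  have hPN : (P : Subgroup G) ≤ N := hnormal E hEP hcE
  set P₂ : Sylow p G := g₁⁻¹ • P with hP2
  have hP2N : (P₂ : Subgroup G) ≤ N := by
    intro u hu
    rw [hP2, Sylow.coe_subgroup_smul, Subgroup.mem_pointwise_smul_iff_inv_smul_mem] at hu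
    have hu' : g₁ * u * g₁⁻¹ ∈ (P : Subgroup G) := by simpa [MulAut.smul_def] using hu
    have hn := hnormal E₁ hE1P hcE1 hu'
    rw [Subgroup.mem_normalizer_iff] at hn
    rw [hN, Subgroup.mem_normalizer_iff]
    intro e
    have hmem : ∀ z, z ∈ E ↔ g₁ * z * g₁⁻¹ ∈ E₁ := fun z =>
      ⟨fun hz => Subgroup.mem_map_of_mem (MulAut.conj g₁).toMonoidHom hz, fun hz => by
        obtain ⟨z', hz', he⟩ := hz
        exact (MulAut.conj g₁).injective he ▸ hz'⟩
    rw [hmem e, hmem (u * e * u⁻¹), hn]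
    simp [mul_assoc]
  obtain ⟨n, hn⟩ := MulAction.exists_smul_eq (↥N) (P.subtype hPN) (P₂.subtype hP2N)
  rw [Sylow.smul_subtype] at hn
  have hn' : ((n : G) • P : Sylow p G) = P₂ := Sylow.subtype_injective hn
  have hm : (g₁ * n) • P = P := by
    rw [mul_smul, hn', hP2, smul_inv_smul]
  have hmP : ∀ a ∈ (P : Subgroup G), (g₁ * n) * a * (g₁ * n)⁻¹ ∈ (P : Subgroup G) := by
    intro a ha
    have h2 : (g₁ * n) * a * (g₁ * n)⁻¹ ∈ (((g₁ * n) • P : Sylow p G) : Subgroup G) := by
      rw [Sylow.coe_subgroup_smul, Subgroup.mem_pointwise_smul_iff_inv_smul_mem]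
      simpa [MulAut.smul_def, mul_assoc] using ha
    rwa [hm] at h2
  have hmP' : ∀ a ∈ (P : Subgroup G), (g₁ * n)⁻¹ * a * (g₁ * n) ∈ (P : Subgroup G) := by
    intro a ha
    have h2 : a ∈ (((g₁ * n) • P : Sylow p G) : Subgroup G) := by rw [hm]; exact ha
    rw [Sylow.coe_subgroup_smul, Subgroup.mem_pointwise_smul_iff_inv_smul_mem] at h2
    simpa [MulAut.smul_def, mul_assoc] using h2
  have hmc : ∀ d ∈ Subgroup.zpowers c, (g₁ * n)⁻¹ * d * (g₁ * n) ∈ Subgroup.zpowers c := by
    intro d hd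
    refine hcent _ (hmP' d ((Subgroup.zpowers_le.mpr hcP) hd)) fun a ha => ?_
    obtain ⟨s, hs⟩ := Subgroup.mem_zpowers_iff.mp hd
    have h1 : ((g₁ * n) * a * (g₁ * n)⁻¹) * d = d * ((g₁ * n) * a * (g₁ * n)⁻¹) := by
      rw [← hs]; exact ((show Commute _ c from hcc _ (hmP a ha)).zpow_right s).eq
    calc a * ((g₁ * n)⁻¹ * d * (g₁ * n)) = (g₁ * n)⁻¹ * (((g₁ * n) * a * (g₁ * n)⁻¹) * d) * (g₁ * n) := by group
      _ = _ := by rw [h1]; group
  set k : G := ((n : G))⁻¹ with hk
  have hkN : k ∈ N := inv_mem n.2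
  have hkx : k * x * k⁻¹ ∈ Subgroup.zpowers c := by
    have := hmc _ hg1x
    convert this using 1
    rw [hk]; group
  have hkE : ∀ e ∈ E, k * e * k⁻¹ ∈ E := fun e he => (Subgroup.mem_normalizer_iff.mp hkN e).mp he
  set v : G := k⁻¹ * c * k with hv
  have hvE : v ∈ E := by
    have := (Subgroup.mem_normalizer_iff.mp (inv_mem hkN) c).mp hcE
    simpa [hv] using this
  have hvc : v ∉ Subgroup.zpowers c := by
    intro hvc
    obtain ⟨s, hs⟩ := Subgroup.mem_zpowers_iff.mp hkx
    refine hxc ?_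
    have : x = v ^ s := by
      rw [hv, show k⁻¹ * c * k = k⁻¹ * c * k⁻¹⁻¹ by rw [inv_inv], conj_zpow, hs]; group
    rw [this]
    exact Subgroup.zpow_mem _ hvc s
  have hnoncentral : ∀ w ∈ (P : Subgroup G), w ∉ Subgroup.zpowers c → ∃ t ∈ (P : Subgroup G), t * w ≠ w * t := by
    intro w hw hwc
    by_contra h; push Not at h
    exact hwc (hcent w hw h)
  obtain ⟨t, htP, ht⟩ := exists_shift hoc hcc hcom (hEP hvE) (hnoncentral v (hEP hvE) hvc)
    (Subgroup.mem_zpowers c)
  set u' := k * c * k⁻¹ with hu'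
  have hu'E : u' ∈ E := hkE c hcE
  have hu'c : u' ∉ Subgroup.zpowers c := by
    intro hh
    have hou : orderOf u' = p := by
      rw [hu', ← hoc, ← MulAut.conj_apply, MulEquiv.orderOf_eq]
    have he : Subgroup.zpowers u' = Subgroup.zpowers c := Subgroup.eq_of_le_of_card_ge
      (Subgroup.zpowers_le.mpr hh) (by rw [Nat.card_zpowers, Nat.card_zpowers, hou, hoc])
    obtain ⟨s, hs⟩ := Subgroup.mem_zpowers_iff.mp (he ▸ Subgroup.mem_zpowers c : c ∈ Subgroup.zpowers u')
    refine hvc (Subgroup.mem_zpowers_iff.mpr ⟨s, ?_⟩)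
    have hs' : k * c ^ s * k⁻¹ = c := by rw [← conj_zpow]; exact hs
    rw [hv]
    calc c ^ s = k⁻¹ * (k * c ^ s * k⁻¹) * k := by group
      _ = k⁻¹ * c * k := by rw [hs']
  obtain ⟨s₀, hsP, hs₀⟩ := exists_shift hoc hcc hcom (hEP hu'E) (hnoncentral u' (hEP hu'E) hu'c)
    (inv_mem (Subgroup.mem_zpowers c))
  set s := k⁻¹ * s₀ * k with hsdef
  have htc : t * c * t⁻¹ = c := by rw [hcc t htP, mul_inv_cancel_right]
  have hsv : s * v * s⁻¹ = v := by
    rw [hsdef, hv]
    calc _ = k⁻¹ * (s₀ * c * s₀⁻¹) * k := by group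
      _ = _ := by rw [hcc s₀ hsP, mul_inv_cancel_right]
  have hcv : c * v = v * c := hEcomm c hcE v hvE
  have hsc : s * c * s⁻¹ = c * v⁻¹ := by
    calc s * c * s⁻¹ = k⁻¹ * (s₀ * u' * s₀⁻¹) * k := by rw [hsdef, hu']; group
      _ = k⁻¹ * (c⁻¹ * u') * k := by rw [hs₀]
      _ = v⁻¹ * c := by rw [hu', hv]; group
      _ = c * v⁻¹ := ((show Commute c v from hcv).inv_right).eq.symm
  set w := t * s * t with hwdef
  let φ : G → G → G := fun a b => a * b * a⁻¹
  have hwc : w * c * w⁻¹ = v⁻¹ := by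
    calc w * c * w⁻¹ = t * (s * (t * c * t⁻¹) * s⁻¹) * t⁻¹ := by rw [hwdef]; group
      _ = (t * c * t⁻¹) * (t * v * t⁻¹)⁻¹ := by
        rw [show (t * c * t⁻¹) * (t * v * t⁻¹)⁻¹ = t * (c * v⁻¹) * t⁻¹ by group, htc, hsc]
      _ = c * (c * v)⁻¹ := by rw [htc, ht]
      _ = v⁻¹ := by rw [hcv]; group
  have hwv : w * v * w⁻¹ = c := by
    calc w * v * w⁻¹ = t * (s * (t * v * t⁻¹) * s⁻¹) * t⁻¹ := by rw [hwdef]; group
      _ = t * ((s * c * s⁻¹) * (s * v * s⁻¹)) * t⁻¹ := by rw [ht]; group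
      _ = t * c * t⁻¹ := by rw [hsc, hsv, inv_mul_cancel_right]
      _ = c := htc
  have hw2 : w ^ 2 * c * (w ^ 2)⁻¹ = c⁻¹ := by
    calc w ^ 2 * c * (w ^ 2)⁻¹ = w * (w * c * w⁻¹) * w⁻¹ := by rw [pow_two]; group
      _ = (w * v * w⁻¹)⁻¹ := by rw [hwc]; group
      _ = c⁻¹ := by rw [hwv]
  have hcinv : c ≠ c⁻¹ := by
    intro e
    have : c ^ 2 = 1 := by rw [pow_two]; nth_rewrite 2 [e]; exact mul_inv_cancel c
    have := Nat.le_of_dvd (by norm_num) (hoc ▸ orderOf_dvd_of_pow_eq_one this)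
    have := hp.out.two_le
    omega
  have hw4 : w ^ 4 * c = c * w ^ 4 := by
    have : w ^ 4 * c * (w ^ 4)⁻¹ = c := by
      calc w ^ 4 * c * (w ^ 4)⁻¹ = w ^ 2 * (w ^ 2 * c * (w ^ 2)⁻¹) * (w ^ 2)⁻¹ := by group
        _ = (w ^ 2 * c * (w ^ 2)⁻¹)⁻¹ := by
          rw [show (w ^ 2 * c * (w ^ 2)⁻¹)⁻¹ = w ^ 2 * c⁻¹ * (w ^ 2)⁻¹ by group, hw2]
        _ = c := by rw [hw2, inv_inv]
    exact mul_inv_eq_iff_eq_mul.mp this
  have hfour : 4 ∣ orderOf w := by
    have h1 := pow_orderOf_eq_one w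
    rw [← Nat.div_add_mod (orderOf w) 4, pow_add, pow_mul] at h1
    have hc4 : (w ^ 4) ^ (orderOf w / 4) * c = c * (w ^ 4) ^ (orderOf w / 4) :=
      ((show Commute (w ^ 4) c from hw4).pow_left _).eq
    have h2 : w ^ (orderOf w % 4) * c * (w ^ (orderOf w % 4))⁻¹ = c := by
      rw [eq_inv_of_mul_eq_one_right h1, inv_inv, mul_assoc, ← hc4, inv_mul_cancel_left]
    refine Nat.dvd_of_mod_eq_zero ?_
    rcases (show orderOf w % 4 = 0 ∨ orderOf w % 4 = 1 ∨ orderOf w % 4 = 2 ∨ orderOf w % 4 = 3 by omega) with hr | hr | hr | hr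
    · exact hr
    · rw [hr, pow_one, hwc] at h2
      exact absurd (by rw [← inv_inv v, h2]; exact inv_mem (Subgroup.mem_zpowers c)) hvc
    · rw [hr, hw2] at h2
      exact absurd h2.symm hcinv
    · rw [hr] at h2
      have : w ^ 3 * c * (w ^ 3)⁻¹ = v := by
        calc w ^ 3 * c * (w ^ 3)⁻¹ = w * (w ^ 2 * c * (w ^ 2)⁻¹) * w⁻¹ := by group
          _ = (w * c * w⁻¹)⁻¹ := by rw [hw2]; group
          _ = v := by rw [hwc, inv_inv]
      rw [this] at h2
      exact absurd (h2 ▸ Subgroup.mem_zpowers c) hvc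
  -- `t` and `s` lie in any odd normal subgroup containing all elements of order `p`
  have hkill : ∀ K : Subgroup G, K.Normal → Odd (Nat.card K) → t ∈ K → s₀ ∈ K → False := by
    intro K hK hodd htK hsK
    have hsK' : s ∈ K := by
      have := hK.conj_mem s₀ hsK k⁻¹
      simpa [hsdef] using this
    have hwK : w ∈ K := K.mul_mem (K.mul_mem htK hsK') htK
    have h1 : orderOf w ∣ Nat.card K := Subgroup.orderOf_dvd_natCard K hwK
    have h2 : 2 ∣ Nat.card K := (dvd_trans (by norm_num) hfour).trans h1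
    exact (Nat.not_even_iff_odd.mpr hodd) (even_iff_two_dvd.mpr h2)
  obtain ⟨S⟩ := (inferInstance : Nonempty (Sylow 2 G))
  -- two-part of `w`
  obtain ⟨a, m, hm2, hwo⟩ := Nat.exists_eq_pow_mul_and_not_dvd (orderOf_pos w).ne' 2 (by norm_num)
  have ha2 : 2 ≤ a := by
    by_contra hlt
    have h4 : 4 ∣ 2 ^ a * m := hwo ▸ hfour
    interval_cases a
    · exact hm2 ((dvd_trans (by norm_num) h4 : 2 ∣ 2 ^ 0 * m).trans (by simp))
    · exact hm2 (Nat.dvd_of_mul_dvd_mul_left (by norm_num : (0:ℕ) < 2) (by simpa using h4))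
  have hmodd : Odd m := Nat.not_even_iff_odd.mp fun h => hm2 (even_iff_two_dvd.mp h)
  have hmne : m ≠ 0 := fun e => hm2 (e ▸ dvd_zero 2)
  have how : orderOf (w ^ m) = 2 ^ a := by
    rw [orderOf_pow' w hmne, hwo, Nat.gcd_eq_right (dvd_mul_left m _),
      Nat.mul_div_cancel _ (Nat.pos_of_ne_zero hmne)]
  obtain ⟨Q₂, hQ2⟩ := (IsPGroup.of_card (p := 2) (n := a) (G := Subgroup.zpowers (w ^ m))
    (by rw [Nat.card_zpowers, how])).exists_le_sylow
  rcases exponent_or_unique (fun A B => hD 2 Nat.prime_two A B) (Q₂ : Subgroup G) Q₂.2 with h2 | h2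
  · have := h2 (w ^ m) (hQ2 (Subgroup.mem_zpowers _))
    have := orderOf_dvd_of_pow_eq_one this
    rw [how] at this
    have := (Nat.pow_dvd_pow_iff_le_right (show 1 < 2 by norm_num)).mp (this.trans (pow_one 2).symm.dvd)
    omega
  have hQne : (Q₂ : Subgroup G) ≠ ⊥ := by
    intro e
    have := hQ2 (Subgroup.mem_zpowers (w ^ m))
    rw [e, Subgroup.mem_bot] at this
    rw [this, orderOf_one] at how
    have : 2 ^ 2 ≤ 2 ^ a := Nat.pow_le_pow_right (by norm_num) ha2
    omega
  rcases OddLocal.isCyclic_or_quaternion Q₂.2 h2 with hcyc | ⟨-, nq, ⟨e⟩⟩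
  · -- cyclic Sylow 2-subgroup: normal 2-complement
    have heven : 2 ∣ Nat.card G := (dvd_trans (by norm_num) hfour).trans (orderOf_dvd_natCard w)
    have hmf : (Nat.card G).minFac = 2 := (Nat.minFac_eq_two_iff _).mpr heven
    have hK := IsCyclic.isComplement' hmf hcyc
    set K := (MonoidHom.transferSylow Q₂ (hcyc.normalizer_le_centralizer hmf)).ker
    obtain ⟨r, hr⟩ := IsPGroup.iff_card.mp Q₂.2
    have hidx : K.index = 2 ^ r := by rw [hK.symm.index_eq_card, hr]
    have hKodd : Odd (Nat.card K) := by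
      rw [← hK.index_eq_card]
      exact Nat.not_even_iff_odd.mp fun h => Q₂.not_dvd_index (even_iff_two_dvd.mp h)
    have hoddp : ∀ z ∈ (P : Subgroup G), Odd (orderOf z) := by
      intro z hz
      rcases (Nat.dvd_prime hp.out).mp (orderOf_dvd_of_pow_eq_one (hexp z hz)) with h | h <;> rw [h]
      · exact odd_one
      · exact hp.out.odd_of_ne_two hp2
    exact hkill K inferInstance hKodd (mem_of_odd_order hidx (hoddp t htP)) (mem_of_odd_order hidx (hoddp s₀ hsP))
  · -- quaternion: Glauberman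
    have hnq : nq ≤ 1 := quaternion_small (fun A B => hD 2 Nat.prime_two A B) Q₂.2 e
    have ha8 : a = 2 := by
      have hdvd : 2 ^ a ∣ Nat.card (Q₂ : Subgroup G) := how ▸ Subgroup.orderOf_dvd_natCard _ (hQ2 (Subgroup.mem_zpowers _))
      rw [Nat.card_congr e.toEquiv, Nat.card_eq_fintype_card, QuaternionGroup.card,
        show 4 * 2 ^ nq = 2 ^ (nq + 2) by ring, Nat.pow_dvd_pow_iff_le_right (by norm_num)] at hdvd
      by_contra hne
      have hne' : a = 3 ∧ nq = 1 := by omega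
      obtain ⟨rfl, rfl⟩ := hne'
      have h4 : ∀ q : QuaternionGroup (2 ^ 1), q ^ 4 = 1 := by decide
      have := h4 (e ⟨w ^ m, hQ2 (Subgroup.mem_zpowers _)⟩)
      rw [← map_pow, ← map_one e] at this
      have := orderOf_dvd_of_pow_eq_one (congrArg Subtype.val (e.injective this))
      rw [how] at this
      norm_num at this
    subst ha8
    set j := (w ^ m) ^ 2 with hj
    have hjo : orderOf j = 2 := by
      rw [hj, orderOf_pow' _ (by norm_num), how]; norm_num
    have hjQ : j ∈ (Q₂ : Subgroup G) := Subgroup.pow_mem _ (hQ2 (Subgroup.mem_zpowers _)) 2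
    obtain ⟨N₂, hN2n, hN2o, hN2⟩ := S0215.result Q₂ j hjo hjQ (by
      intro g hg
      have hj2 : j ^ 2 = 1 := hjo ▸ pow_orderOf_eq_one j
      have hj1 : j ≠ 1 := fun e => by rw [e, orderOf_one] at hjo; omega
      have h := h2 ⟨j, hjQ⟩ ⟨g * j * g⁻¹, hg⟩ (Subtype.ext (by simpa using hj2))
        (Subtype.ext (by show (g * j * g⁻¹) ^ 2 = 1; rw [conj_pow, hj2]; group))
        (fun e => hj1 (congrArg Subtype.val e))
      obtain ⟨i, hi⟩ := Subgroup.mem_zpowers_iff.mp h
      have hi' : j ^ i = g * j * g⁻¹ := by simpa using congrArg Subtype.val hi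
      rcases Int.emod_two_eq_zero_or_one i with hr | hr
      · rw [← zpow_mod_orderOf, hjo] at hi'
        norm_num [hr] at hi'
        exact absurd (by rw [eq_comm, mul_inv_eq_one] at hi'; simpa using hi') hj1
      · rw [← zpow_mod_orderOf, hjo] at hi'
        norm_num [hr] at hi'
        exact hi'.symm)
    have hjc : j * c * j⁻¹ = c⁻¹ := by
      obtain ⟨q, rfl⟩ := hmodd
      have : j = (w ^ 4) ^ q * w ^ 2 := by rw [hj, ← pow_mul, ← pow_mul, ← pow_add]; ring_nf
      rw [this]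
      calc (w ^ 4) ^ q * w ^ 2 * c * ((w ^ 4) ^ q * w ^ 2)⁻¹
          = (w ^ 4) ^ q * (w ^ 2 * c * (w ^ 2)⁻¹) * ((w ^ 4) ^ q)⁻¹ := by group
        _ = c⁻¹ := by
          rw [hw2, (((show Commute (w ^ 4) c from hw4).pow_left q).inv_right).eq, mul_inv_cancel_right]
    have hcN : c ∈ N₂ := by
      have h1 := hN2 c
      rw [hjc, ← mul_inv_rev] at h1
      have h2' : c * c ∈ N₂ := by simpa using N₂.inv_mem h1
      have : c = (c * c) ^ ((p + 1) / 2) := by
        obtain ⟨q, hq⟩ := hp.out.odd_of_ne_two hp2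
        rw [← pow_two, ← pow_mul, show 2 * ((p + 1) / 2) = p + 1 by omega, pow_succ, hexp c hcP, one_mul]
      rw [this]; exact N₂.pow_mem h2' _
    have hall : ∀ z ∈ (P : Subgroup G), z ∈ N₂ := by
      intro z hz
      by_cases hz1 : z = 1
      · exact hz1 ▸ N₂.one_mem
      obtain ⟨g', hg'⟩ := hD p hp.out (Subgroup.zpowers c) (Subgroup.zpowers z)
        (IsPGroup.of_card (n := 1) (by rw [Nat.card_zpowers, hoc, pow_one]))
        (IsPGroup.of_card (n := 1) (by rw [Nat.card_zpowers, orderOf_eq_prime (hexp z hz) hz1, pow_one]))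
        (by rw [Nat.card_zpowers, Nat.card_zpowers, hoc, orderOf_eq_prime (hexp z hz) hz1])
      have h := Subgroup.mem_zpowers z
      rw [hg', MonoidHom.map_zpowers] at h
      exact (Subgroup.zpowers_le.mpr (hN2n.conj_mem c hcN g')) h
    exact hkill N₂ hN2n hN2o (hall t htP) (hall s₀ hsP)

/-- Let G be a finite group in which, for every prime p, any two p-subgroups of the same order are conjugate. Then every Sylow subgroup of G is cyclic, elementary abelian, or a quaternion group of order 8. -/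
theorem result {G : Type*} [Group G] [Finite G]
    (hD : ∀ p : ℕ, p.Prime → ∀ H K : Subgroup G, IsPGroup p H → IsPGroup p K → Nat.card H = Nat.card K →
      ∃ g : G, K = H.map (MulAut.conj g).toMonoidHom) {p : ℕ} [Fact p.Prime] (P : Sylow p G) :
    IsCyclic P ∨ Cfsg.IsElementaryAbelian p (P : Subgroup G) ∨ Nonempty ((P : Subgroup G) ≃* QuaternionGroup 2) := by
  have hp : p.Prime := Fact.out
  rcases exponent_or_unique (fun A B => hD p hp A B) (P : Subgroup G) P.2 with h | h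
  · refine Or.inr (Or.inl ⟨?_, fun a ha => h a ha⟩)
    by_cases hp2 : p = 2
    · subst hp2; exact comm_of_exponent_two h
    · refine ⟨⟨fun a b => ?_⟩⟩
      by_contra hab
      exact core hD hp2 P h fun hc => hab (Subtype.ext (hc a a.2 b b.2))
  · rcases OddLocal.isCyclic_or_quaternion P.2 h with hc | ⟨rfl, n, ⟨e⟩⟩
    · exact Or.inl hc
    · have hn := quaternion_small (fun A B => hD 2 hp A B) P.2 e
      interval_cases n
      · refine Or.inl ?_
        haveI : IsCyclic (QuaternionGroup (2 ^ 0)) := QuaternionGroup.quaternionGroup_one_isCyclic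
        exact isCyclic_of_surjective e.symm.toMonoidHom e.symm.surjective
      · exact Or.inr (Or.inr ⟨e⟩)

end Cfsg.Agent.S4020
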