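import Cfsg.Statements.S4027
import Cfsg.Agent.FGS2.SylowTwoNormal
-- import your own Cfsg.Agent.* helpers here

set_option autoImplicit false
open Cfsg

namespace Cfsg.Agent.S4027

/-- Let G be a finite group in which every element x of odd order satisfies N_G(⟨x⟩) = C_G(x). Then the Sylow 2-subgroups of G are normal. -/
theorem result {G : Type*} [Group G] [Finite G]
    (hirr : ∀ x : G, (∀ r : ℕ, r.Prime → r ∣ orderOf x → r ≠ 2) →
      Subgroup.normalizer ((Subgroup.zpowers x : Subgroup G) : Set G) ≤ Subgroup.centralizer {x}) (P : Sylow 2 G) :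
    (P : Subgroup G).Normal := by
  refine Cfsg.Agent.FGS2.sylow_two_normal (fun x hx hx2 y hy => ?_) P
  have hmem : y ∈ Subgroup.normalizer ((Subgroup.zpowers x : Subgroup G) : Set G) := by
    rw [Subgroup.mem_normalizer_iff]
    intro z
    have key : ∀ i : ℤ, y * x ^ i * y⁻¹ = x ^ (-i) := fun i => by
      rw [← conj_zpow, hy, inv_zpow, zpow_neg]
    constructor
    · intro hz
      obtain ⟨i, rfl⟩ := Subgroup.mem_zpowers_iff.1 hz
      rw [key]; exact Subgroup.zpow_mem_zpowers x _
    · intro hz
      obtain ⟨i, hi⟩ := Subgroup.mem_zpowers_iff.1 hz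
      have hz' : z = x ^ (-i) := by
        have h := key (-i)
        rw [neg_neg, hi] at h
        exact (mul_left_cancel (mul_right_cancel h)).symm
      rw [hz']; exact Subgroup.zpow_mem_zpowers x _
  have hc := hirr x (fun r hr hrd => (Nat.prime_dvd_prime_iff_eq hr hx).1 hrd ▸ hx2) hmem
  rw [Subgroup.mem_centralizer_singleton_iff] at hc
  rw [hc, mul_inv_cancel_right] at hy
  apply hx2
  have h2 : x ^ 2 = 1 := by rw [pow_two]; exact mul_eq_one_iff_eq_inv.2 hy
  exact (Nat.prime_dvd_prime_iff_eq hx Nat.prime_two).1 (orderOf_dvd_of_pow_eq_one h2)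

end Cfsg.Agent.S4027
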