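import Cfsg.Statements.S4028


set_option autoImplicit false
open Cfsg

namespace Cfsg.Agent.S4028

theorem mem_normalizer_zpowers {G : Type*} [Group G] [Finite G] {g x : G}
    (h : g * x * g⁻¹ ∈ Subgroup.zpowers x) :
    g ∈ Subgroup.normalizer ((Subgroup.zpowers x : Subgroup G) : Set G) := by
  have hle : (Subgroup.zpowers x).map (MulAut.conj g).toMonoidHom ≤ Subgroup.zpowers x := by
    rw [MonoidHom.map_zpowers, Subgroup.zpowers_le]; exact h
  have heq := Subgroup.eq_of_le_of_card_ge hle (Subgroup.card_map_of_injective (MulAut.conj g).injective).ge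
  rw [Subgroup.mem_normalizer_iff]
  intro y
  constructor
  · intro hy
    exact heq ▸ Subgroup.mem_map_of_mem (MulAut.conj g).toMonoidHom hy
  · intro hy
    rw [← heq] at hy
    obtain ⟨z, hz, hzy⟩ := hy
    simpa [(MulAut.conj g).injective hzy] using hz

/-- Let G be a finite group with Sylow 2-subgroup P. Then N_G(⟨x⟩) = C_G(x) holds for every 2-element x of G if and only if N_P(⟨y⟩) = C_P(y) holds for every y ∈ P (computed inside P). -/
theorem result {G : Type*} [Group G] [Finite G] (P : Sylow 2 G) :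
    (∀ x : G, (∀ r : ℕ, r.Prime → r ∣ orderOf x → r = 2) →
      Subgroup.normalizer ((Subgroup.zpowers x : Subgroup G) : Set G) ≤ Subgroup.centralizer {x}) ↔
    (∀ y : ↥(P : Subgroup G), Subgroup.normalizer ((Subgroup.zpowers y : Subgroup ↥(P : Subgroup G)) : Set ↥(P : Subgroup G)) ≤
        Subgroup.centralizer {y}) := by
  constructor
  · intro h y
    intro n hn
    have hy : ∀ r : ℕ, r.Prime → r ∣ orderOf (y : G) → r = 2 := by
      intro r hr hdvd
      obtain ⟨k, hk⟩ := IsPGroup.iff_orderOf.1 P.isPGroup' y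
      rw [Subgroup.orderOf_coe, hk] at hdvd
      exact (Nat.prime_dvd_prime_iff_eq hr Nat.prime_two).1 (hr.dvd_of_dvd_pow hdvd)
    have hn' : (n : G) ∈ Subgroup.normalizer ((Subgroup.zpowers (y : G) : Subgroup G) : Set G) := by
      apply Cfsg.Agent.S4028.mem_normalizer_zpowers
      have := (Subgroup.mem_normalizer_iff.1 hn y).1 (Subgroup.mem_zpowers y)
      obtain ⟨k, hk⟩ := Subgroup.mem_zpowers_iff.1 this
      exact Subgroup.mem_zpowers_iff.2 ⟨k, congrArg Subtype.val hk⟩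
    have := h y hy hn'
    rw [Subgroup.mem_centralizer_singleton_iff] at this ⊢
    exact Subtype.ext this
  · intro h x hx n hn
    obtain ⟨k, hk⟩ : ∃ k, orderOf x = 2 ^ k :=
      ⟨_, Nat.eq_prime_pow_of_unique_prime_dvd (orderOf_pos x).ne' (fun {r} hr hd => hx r hr hd)⟩
    let X := Subgroup.zpowers x
    obtain ⟨ψ, hψ⟩ : ∃ ψ : MulAut ↥X, ψ = X.normalizerMonoidHom ⟨n, hn⟩ := ⟨_, rfl⟩
    have hcard : ∃ j, Nat.card (MulAut ↥X) = 2 ^ j := by
      rw [IsCyclic.card_mulAut, Nat.card_zpowers, hk]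
      rcases Nat.eq_zero_or_pos k with rfl | hk0
      · exact ⟨0, rfl⟩
      · exact ⟨k - 1, by rw [Nat.totient_prime_pow Nat.prime_two hk0]; ring⟩
    obtain ⟨j, hj⟩ := hcard
    obtain ⟨a, o, hno, hoe⟩ := Nat.exists_eq_pow_mul_and_not_dvd (orderOf_pos n).ne' 2 (by norm_num)
    have hψ1 : ψ ^ (2 ^ j) = 1 := hj ▸ pow_card_eq_one'
    have ho : n ^ o ∈ Subgroup.normalizer (X : Set G) := pow_mem hn o
    have hX : IsPGroup 2 ↥X := IsPGroup.of_card (by rw [Nat.card_zpowers, hk])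
    have hY : IsPGroup 2 ↥(Subgroup.zpowers (n ^ o)) := by
      have : orderOf (n ^ o) = 2 ^ a := by
        rw [orderOf_pow' _ (show o ≠ 0 from fun h => hno (h.symm ▸ dvd_zero 2)), hoe, Nat.gcd_eq_right (dvd_mul_left o _),
          Nat.mul_div_cancel _ (Nat.pos_of_ne_zero (show o ≠ 0 from fun h => hno (h.symm ▸ dvd_zero 2)))]
      exact IsPGroup.of_card (by rw [Nat.card_zpowers, this])
    have hsup : IsPGroup 2 ↥(X ⊔ Subgroup.zpowers (n ^ o)) :=
      IsPGroup.to_sup_of_normal_left' hX hY (Subgroup.zpowers_le.2 ho)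
    obtain ⟨R, hR⟩ := hsup.exists_le_sylow
    obtain ⟨g, hg⟩ := MulAction.exists_smul_eq G P R
    have hmemR : ∀ z ∈ (R : Subgroup G), g⁻¹ * z * g ∈ (P : Subgroup G) := by
      intro z hz
      rw [← hg, Sylow.coe_subgroup_smul, Subgroup.mem_pointwise_smul_iff_inv_smul_mem] at hz
      simpa using hz
    have hxP : g⁻¹ * x * g ∈ (P : Subgroup G) := hmemR _ (hR (Subgroup.mem_sup_left (Subgroup.mem_zpowers x)))
    have hnP : g⁻¹ * n ^ o * g ∈ (P : Subgroup G) := hmemR _ (hR (Subgroup.mem_sup_right (Subgroup.mem_zpowers _)))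
    have hcomm : n ^ o * x = x * n ^ o := by
      have hmem : (⟨_, hnP⟩ : ↥(P : Subgroup G)) ∈ Subgroup.normalizer
          ((Subgroup.zpowers (⟨_, hxP⟩ : ↥(P : Subgroup G)) : Subgroup _) : Set ↥(P : Subgroup G)) := by
        apply Cfsg.Agent.S4028.mem_normalizer_zpowers
        obtain ⟨l, hl⟩ := Subgroup.mem_zpowers_iff.1
          ((Subgroup.mem_normalizer_iff.1 ho x).1 (Subgroup.mem_zpowers x))
        refine Subgroup.mem_zpowers_iff.2 ⟨l, Subtype.ext ?_⟩
        rw [SubgroupClass.coe_zpow]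
        show (g⁻¹ * x * g) ^ l = g⁻¹ * n ^ o * g * (g⁻¹ * x * g) * (g⁻¹ * n ^ o * g)⁻¹
        have e : ∀ z : G, g⁻¹ * z * g = (MulAut.conj g⁻¹) z := fun z => by simp [MulAut.conj_apply]
        rw [e x, ← map_zpow, hl, e (n ^ o), ← map_mul, ← map_inv, ← map_mul]
      have h1 := congrArg Subtype.val (Subgroup.mem_centralizer_singleton_iff.1 (h ⟨_, hxP⟩ hmem))
      simp only [Subgroup.coe_mul] at h1
      have h2 := congrArg (fun z => g * z * g⁻¹) h1
      simp only [mul_assoc, mul_inv_cancel, mul_one, mul_inv_cancel_left] at h2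
      first | simpa [mul_assoc] using h2 | simpa [mul_assoc] using h2.symm
    have hψo : ψ ^ o = 1 := by
      rw [hψ, ← map_pow]
      ext ⟨y, hy⟩
      obtain ⟨l, rfl⟩ := Subgroup.mem_zpowers_iff.1 hy
      show n ^ o * x ^ l * (n ^ o)⁻¹ = x ^ l
      rw [← conj_zpow, hcomm, mul_inv_cancel_right]
    have hψ0 : ψ = 1 := orderOf_eq_one_iff.1 (Nat.eq_one_of_dvd_coprimes
      (Nat.Coprime.pow_left j ((Nat.Prime.coprime_iff_not_dvd Nat.prime_two).2 hno))
      (orderOf_dvd_of_pow_eq_one hψ1) (orderOf_dvd_of_pow_eq_one hψo))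
    rw [Subgroup.mem_centralizer_singleton_iff]
    rw [hψ] at hψ0
    have h3 : n * x * n⁻¹ = x :=
      congrArg Subtype.val (DFunLike.congr_fun hψ0 (⟨x, Subgroup.mem_zpowers x⟩ : ↥X))
    rw [mul_inv_eq_iff_eq_mul] at h3
    first | exact h3 | exact h3.symm

end Cfsg.Agent.S4028
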