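import Cfsg.Statements.S4032
import Cfsg.Agent.FGS2.CoprimeLift

set_option autoImplicit false
open Cfsg

namespace Cfsg.Agent.S4032

open scoped Pointwise

/-- Let π be a set of primes and G a finite group in which N_G(⟨x⟩) = C_G(x) for every π-element x. If N is a normal subgroup of G whose order is divisible by no prime of π, then G/N has the same property: N_{G/N}(⟨y⟩) = C_{G/N}(y) for every π-element y of G/N. -/
theorem result {G : Type*} [Group G] [Finite G] (π : Set ℕ)
    (hirr : ∀ x : G, (∀ r : ℕ, r.Prime → r ∣ orderOf x → r ∈ π) →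
      Subgroup.normalizer ((Subgroup.zpowers x : Subgroup G) : Set G) ≤ Subgroup.centralizer {x})
    (N : Subgroup G) [N.Normal] (hN : ∀ r : ℕ, r.Prime → r ∣ Nat.card N → r ∉ π) :
    ∀ y : G ⧸ N, (∀ r : ℕ, r.Prime → r ∣ orderOf y → r ∈ π) →
      Subgroup.normalizer ((Subgroup.zpowers y : Subgroup (G ⧸ N)) : Set (G ⧸ N)) ≤ Subgroup.centralizer {y} := by
  intro y hy m hm
  obtain ⟨m, rfl⟩ := QuotientGroup.mk_surjective m
  have hcop : (orderOf y).Coprime (Nat.card N) := by
    refine Nat.coprime_of_dvd fun r hr h1 h2 => hN r hr h2 (hy r hr h1)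
  obtain ⟨x, hxy, hxo⟩ := Cfsg.Agent.FGS2.exists_lift_orderOf N y hcop
  subst hxy
  have hxN : ∀ r : ℕ, r.Prime → r ∣ orderOf x → r ∈ π := fun r hr h => hy r hr (hxo ▸ h)
  have hmem : ((m * x * m⁻¹ : G) : G ⧸ N) ∈ Subgroup.zpowers (x : G ⧸ N) := by
    rw [QuotientGroup.mk_mul, QuotientGroup.mk_mul, QuotientGroup.mk_inv]
    exact (Subgroup.mem_normalizer_iff.1 hm _).1 (Subgroup.mem_zpowers _)
  obtain ⟨n, hn, hconj⟩ := Cfsg.Agent.FGS2.conj_lifts N hcop hxo
    (x' := m * x * m⁻¹) (by rw [← hxo]; exact orderOf_injective (MulAut.conj m).toMonoidHom (MulAut.conj m).injective x)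
    hmem
  have h1 : n⁻¹ * m ∈ Subgroup.normalizer ((Subgroup.zpowers x : Subgroup G) : Set G) := by
    rw [Cfsg.Agent.Core.conj_smul_eq_map, MonoidHom.map_zpowers] at hconj
    have h2 : Subgroup.zpowers ((MulAut.conj (n⁻¹ * m)).toMonoidHom x) = Subgroup.zpowers x := by
      have := congrArg (Subgroup.map (MulAut.conj n⁻¹).toMonoidHom) hconj
      rw [MonoidHom.map_zpowers, MonoidHom.map_zpowers] at this
      simpa [mul_assoc] using this.symm
    rw [Subgroup.mem_normalizer_iff]
    intro z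
    have hmap : (Subgroup.zpowers x).map (MulAut.conj (n⁻¹ * m)).toMonoidHom = Subgroup.zpowers x := by
      rw [MonoidHom.map_zpowers, h2]
    constructor
    · intro hz
      exact hmap ▸ Subgroup.mem_map_of_mem (MulAut.conj (n⁻¹ * m)).toMonoidHom hz
    · intro hz
      rw [← hmap] at hz
      obtain ⟨w, hw, hwz⟩ := hz
      exact (MulAut.conj (n⁻¹ * m)).injective hwz ▸ hw
  have h3 := hirr x hxN h1
  rw [Subgroup.mem_centralizer_singleton_iff] at h3 ⊢
  have h4 := congrArg (fun g : G => (g : G ⧸ N)) h3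
  simp only [QuotientGroup.mk_mul, QuotientGroup.mk_inv, (QuotientGroup.eq_one_iff n).2 hn, inv_one,
    one_mul] at h4
  exact h4

end Cfsg.Agent.S4032
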