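import Cfsg.Statements.S4036
import Mathlib.GroupTheory.PGroup
import Mathlib.GroupTheory.Sylow
import Mathlib.Tactic
-- import your own Cfsg.Agent.* helpers here

set_option autoImplicit false
open Cfsg

namespace Cfsg.Agent.S4036

/-- Let P be a finite abelian p-group and K a group of automorphisms of P (a subgroup of Aut P) whose order is divisible by p. If all non-identity elements of K have the same fixed-point subgroup on P, then K has no non-trivial normal subgroup of order prime to p. -/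
theorem result {P : Type*} [CommGroup P] [Finite P] {p : ℕ}
    [Fact p.Prime] (hP : IsPGroup p P) (K : Subgroup (MulAut P)) (hK : p ∣ Nat.card K)
    (hfix : ∀ x y : MulAut P, x ∈ K → y ∈ K → x ≠ 1 → y ≠ 1 → ∀ v : P, x v = v ↔ y v = v) :
    ∀ N : Subgroup ↥K, N.Normal → ¬ p ∣ Nat.card N → N = ⊥ := by
  classical
  have hp : p.Prime := Fact.out
  intro N hN hpN
  by_contra hne
  obtain ⟨n0, hn0, hn01⟩ := (Subgroup.bot_or_exists_ne_one N).resolve_left hne
  have : Finite (MulAut P) := Finite.of_injective (fun e : MulAut P => (e : P → P)) DFunLike.coe_injective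
  have : Fintype N := Fintype.ofFinite _
  obtain ⟨x, hx⟩ := exists_prime_orderOf_dvd_card' (G := K) p hK
  have hcoe : ∀ a : K, a ≠ 1 → (a : MulAut P) ≠ 1 := fun a ha h => ha (Subtype.ext h)
  have hfree : ∀ (a : K) (v : P), a ≠ 1 → (a : MulAut P) v = v → ∀ b : K, (b : MulAut P) v = v := by
    intro a v ha hav b
    rcases eq_or_ne b 1 with rfl | hb
    · rfl
    · exact (hfix a b a.2 b.2 (hcoe a ha) (hcoe b hb) v).1 hav
  let τ : P →* P :=
    { toFun := fun v => ∏ a : N, ((a : K) : MulAut P) v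
      map_one' := by simp
      map_mul' := fun u v => by simp [Finset.prod_mul_distrib] }
  have himg : ∀ v, ((n0 : K) : MulAut P) (τ v) = τ v := fun v => by
    show ((n0 : K) : MulAut P) (∏ a : N, ((a : K) : MulAut P) v) = _
    rw [map_prod]
    exact Fintype.prod_equiv (Equiv.mulLeft (⟨n0, hn0⟩ : N)) _ _ fun a => rfl
  have heqv : ∀ v, (x : MulAut P) (τ v) = τ ((x : MulAut P) v) := fun v => by
    show (x : MulAut P) (∏ a : N, ((a : K) : MulAut P) v) = ∏ a : N, ((a : K) : MulAut P) ((x : MulAut P) v)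
    rw [map_prod]
    refine Fintype.prod_equiv (MulEquiv.toEquiv (MulAut.conjNormal (H := N) x)) _ _ fun a => ?_
    simp
  have hnt : τ.ker ≠ ⊥ := by
    intro hb
    have hs := Finite.injective_iff_surjective.1 ((MonoidHom.ker_eq_bot_iff τ).1 hb)
    apply hcoe n0 hn01
    exact MulEquiv.ext fun v => by obtain ⟨w, rfl⟩ := hs v; exact himg w
  let φ : Subgroup.zpowers (x : MulAut P) →* MulAut P := Subgroup.subtype _
  have hinv : ∀ (g : Subgroup.zpowers (x : MulAut P)) (v : P), v ∈ τ.ker → (g : MulAut P) v ∈ τ.ker := by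
    rintro ⟨g, hg⟩ v hv
    obtain ⟨k, rfl⟩ : ∃ k : ℕ, (x : MulAut P) ^ k = g :=
      (Submonoid.mem_powers_iff _ _).1 ((isOfFinOrder_of_finite _).mem_powers_iff_mem_zpowers.2 hg)
    show ((x : MulAut P) ^ k) v ∈ τ.ker
    induction k with
    | zero => exact hv
    | succ k ih =>
      rw [pow_succ', MulAut.mul_apply, MonoidHom.mem_ker, ← heqv, MonoidHom.mem_ker.1 (ih (Subgroup.pow_mem _ (Subgroup.mem_zpowers _) k)), map_one]
  letI : MulAction (Subgroup.zpowers (x : MulAut P)) τ.ker :=
    { smul := fun g v => ⟨(g : MulAut P) v, hinv g v v.2⟩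
      one_smul := fun v => Subtype.ext rfl
      mul_smul := fun g h v => Subtype.ext rfl }
  have hX : IsPGroup p (Subgroup.zpowers (x : MulAut P)) :=
    IsPGroup.of_card (n := 1) (by rw [Nat.card_zpowers, Subgroup.orderOf_coe, hx, pow_one])
  obtain ⟨j, hj, hj'⟩ := (hP.to_subgroup τ.ker).nontrivial_iff_card.1 ((Subgroup.nontrivial_iff_ne_bot _).2 hnt)
  have hone : (1 : τ.ker) ∈ MulAction.fixedPoints (Subgroup.zpowers (x : MulAut P)) τ.ker :=
    fun g => Subtype.ext (map_one (g : MulAut P))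
  obtain ⟨v, hv, hv1⟩ := hX.exists_fixed_point_of_prime_dvd_card_of_fixed_point τ.ker
    (hj' ▸ dvd_pow_self p hj.ne') hone
  have hxv : (x : MulAut P) (v : P) = v := congrArg Subtype.val (hv ⟨_, Subgroup.mem_zpowers _⟩)
  have hx1 : x ≠ 1 := fun h => hp.ne_one (by rw [← hx, h, orderOf_one])
  have hall : τ (v : P) = (v : P) ^ Nat.card N := by
    show (∏ a : N, ((a : K) : MulAut P) (v : P)) = _
    rw [Finset.prod_congr rfl fun (a : N) _ => hfree x v hx1 hxv (a : K), Finset.prod_const,
      Finset.card_univ, Nat.card_eq_fintype_card]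
  rw [MonoidHom.mem_ker.1 v.2] at hall
  obtain ⟨i, hi⟩ := hP (v : P)
  apply hv1
  refine Subtype.ext ?_
  show (1 : P) = v
  rw [← pow_one (v : P), ← ((((Nat.Prime.coprime_iff_not_dvd hp).2 hpN).pow_left i)).gcd_eq_one]
  exact (pow_gcd_eq_one.2 ⟨hi, hall.symm⟩).symm

end Cfsg.Agent.S4036
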