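import Cfsg.Statements.S4043
import Cfsg.Agent.Core.CoprimeAction
import Cfsg.Agent.Transfer.Basic
-- import your own Cfsg.Agent.* helpers here

set_option autoImplicit false
open Cfsg

namespace Cfsg.Agent.S4043

open Cfsg.Agent

/-- The image of the `p`-residual of `A`, and the description of the elements of `G` of order prime to `p`. -/
theorem exists_complement_part {G : Type*} [Group G] [Finite G] {p : ℕ} [hp : Fact p.Prime] (N : Subgroup G)
    [N.Normal] (A : Subgroup G) (hA : A.IsComplement' N) (hAp : Cfsg.HasNormalPComplement p A) :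
    ∃ M Q : Subgroup G, M ≤ A ∧ Q ≤ A ∧ IsPGroup p Q ∧ (Nat.card M).Coprime p ∧ A ≤ M ⊔ Q ∧
      A ≤ Subgroup.normalizer (M : Set G) ∧ ∀ g : G, (orderOf g).Coprime p → g ∈ N ⊔ M := by
  obtain ⟨P⟩ := (inferInstance : Nonempty (Sylow p A))
  refine ⟨(pResidual p A).map A.subtype, (P : Subgroup A).map A.subtype, Subgroup.map_subtype_le _,
    Subgroup.map_subtype_le _, P.isPGroup'.map _, ?_, ?_, ?_, ?_⟩
  · rw [Subgroup.card_map_of_injective A.subtype_injective]
    exact Transfer.hasNormalPComplement_iff_coprime_pResidual.1 hAp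
  · rw [← Subgroup.map_sup, sup_comm, Transfer.sylow_sup_pResidual P, ← MonoidHom.range_eq_map, A.range_subtype]
  · intro g hg
    rw [Subgroup.mem_normalizer_iff]
    intro b
    constructor
    · rintro ⟨c, hc, rfl⟩
      exact ⟨⟨g, hg⟩ * c * ⟨g, hg⟩⁻¹, Transfer.pResidual_normal.conj_mem c hc _, rfl⟩
    · rintro ⟨c, hc, he⟩
      refine ⟨⟨g, hg⟩⁻¹ * c * ⟨g, hg⟩, Transfer.pResidual_normal.conj_mem' c hc _, ?_⟩
      simp only [Subgroup.coe_subtype, Subgroup.coe_mul, Subgroup.coe_inv] at he ⊢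
      rw [he]; group
  · intro g hg
    obtain ⟨⟨a, n⟩, han⟩ := hA.2 g
    simp only at han
    let f : A →* G ⧸ N := (QuotientGroup.mk' N).comp A.subtype
    have hf : Function.Injective f := by
      rw [injective_iff_map_eq_one]
      intro b hb
      have : (b : G) ∈ (⊥ : Subgroup G) := hA.disjoint.le_bot ⟨b.2, (QuotientGroup.eq_one_iff _).1 hb⟩
      exact Subtype.ext (Subgroup.mem_bot.1 this)
    have e : f a = QuotientGroup.mk' N g := by
      rw [← han, map_mul, show QuotientGroup.mk' N (n : G) = 1 from (QuotientGroup.eq_one_iff _).2 n.2, mul_one]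
      rfl
    have ho : orderOf a ∣ orderOf g := by
      rw [← orderOf_injective f hf a, e]
      exact orderOf_map_dvd _ g
    rw [← han]
    refine mul_mem (Subgroup.mem_sup_right ⟨a, (Transfer.mem_pResidual_iff hAp).2 (hg.coprime_dvd_left ho), rfl⟩)
      (Subgroup.mem_sup_left n.2)

/-- Let G be a finite group that is the semidirect product of a normal p-subgroup N by a subgroup A, and also of N by a subgroup A₁, where p is a prime and A and A₁ both have normal p-complements. If C_N(A) = C_N(A₁) = 1, then A₁ is conjugate to A by an element of N. -/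
theorem result {G : Type*} [Group G] [Finite G] {p : ℕ}
    [Fact p.Prime] (N : Subgroup G) [N.Normal] (hN : IsPGroup p N) (A A₁ : Subgroup G)
    (hA : A.IsComplement' N) (hA₁ : A₁.IsComplement' N)
    (hAp : Cfsg.HasNormalPComplement p A) (hA₁p : Cfsg.HasNormalPComplement p A₁)
    (hC : ∀ n : G, n ∈ N → (∀ a : G, a ∈ A → a * n * a⁻¹ = n) → n = 1)
    (hC₁ : ∀ n : G, n ∈ N → (∀ a : G, a ∈ A₁ → a * n * a⁻¹ = n) → n = 1) :
    ∃ n : G, n ∈ N ∧ A₁ = A.map (MulAut.conj n).toMonoidHom := by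
  have hp : p.Prime := Fact.out
  obtain ⟨M, Q, hMA, hQA, hQ, hMc, hAMQ, hAM, hMmem⟩ := exists_complement_part N A hA hAp
  obtain ⟨M₁, -, hMA₁, -, -, hM₁c, -, hAM₁, hM₁mem⟩ := exists_complement_part N A₁ hA₁ hA₁p
  obtain ⟨k, hk⟩ := IsPGroup.iff_card.1 hN
  have hcN : ∀ X : Subgroup G, (Nat.card X).Coprime p → (Nat.card X).Coprime (Nat.card N) := fun X h =>
    hk ▸ h.pow_right k
  have hmemc : ∀ X : Subgroup G, (Nat.card X).Coprime p → ∀ g ∈ X, (orderOf g).Coprime p := fun X h g hg =>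
    h.coprime_dvd_left (Subgroup.orderOf_dvd_natCard _ hg)
  have hle : M₁ ≤ N ⊔ M := fun g hg => hMmem g (hmemc M₁ hM₁c g hg)
  have hsup : N ⊔ M₁ = N ⊔ M :=
    le_antisymm (sup_le le_sup_left hle) (sup_le le_sup_left fun g hg => hM₁mem g (hmemc M hMc g hg))
  have hnorm : ∀ X : Subgroup G, X ≤ Subgroup.normalizer (N : Set G) := fun X =>
    le_top.trans (Subgroup.normalizer_eq_top N).ge
  have hcard : Nat.card M₁ = Nat.card M := by
    have h1 := Core.card_sup_of_disjoint (Subgroup.inf_eq_bot_of_coprime (hcN M₁ hM₁c))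
    have h2 := Core.card_sup_of_disjoint (Subgroup.inf_eq_bot_of_coprime (hcN M hMc))
    rw [sup_comm, hsup, sup_comm, h2] at h1
    exact (Nat.eq_of_mul_eq_mul_right Nat.card_pos h1).symm
  obtain ⟨x, hx, hxM⟩ := Core.exists_conj_complement_general N M M₁ (Or.inr (by
    haveI := hN.isNilpotent; infer_instance)) (hnorm M) hle hcard (hcN M hMc)
  refine ⟨x, hx, ?_⟩
  -- the fixed point argument
  have hD : N ⊓ Subgroup.normalizer (M : Set G) = ⊥ := by
    set D := N ⊓ Subgroup.normalizer (M : Set G) with hD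
    letI : MulAction Q D :=
      { smul := fun q d => ⟨(q : G) * d * (q : G)⁻¹, (inferInstance : N.Normal).conj_mem _ d.2.1 _,
          mul_mem (mul_mem (hAM (hQA q.2)) d.2.2) ((Subgroup.normalizer (M : Set G)).inv_mem (hAM (hQA q.2)))⟩
        one_smul := fun d => Subtype.ext (show ((1 : Q) : G) * d * ((1 : Q) : G)⁻¹ = d by simp)
        mul_smul := fun q q' d => Subtype.ext (show ((q * q' : Q) : G) * d * ((q * q' : Q) : G)⁻¹ =
          (q : G) * ((q' : G) * d * (q' : G)⁻¹) * (q : G)⁻¹ by rw [Subgroup.coe_mul]; group) }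
    have hfix : ∀ d : D, d ∈ MulAction.fixedPoints Q D → (d : G) = 1 := by
      intro d hd
      refine hC d d.2.1 fun a ha => mul_inv_eq_iff_eq_mul.2 ?_
      have hle : M ⊔ Q ≤ Subgroup.centralizer ({(d : G)} : Set G) := by
        refine sup_le (fun m hm => Subgroup.mem_centralizer_singleton_iff.2 ?_) fun q hq =>
          Subgroup.mem_centralizer_singleton_iff.2 (mul_inv_eq_iff_eq_mul.1 (congrArg Subtype.val (hd ⟨q, hq⟩)))
        have h1 : m * d * m⁻¹ * (d : G)⁻¹ ∈ M ⊓ N := by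
          refine ⟨?_, mul_mem ((inferInstance : N.Normal).conj_mem _ d.2.1 m) (N.inv_mem d.2.1)⟩
          rw [show m * d * m⁻¹ * (d : G)⁻¹ = m * ((d : G) * m⁻¹ * (d : G)⁻¹) by group]
          exact mul_mem hm ((Subgroup.mem_normalizer_iff.1 d.2.2 _).1 (inv_mem hm))
        rw [Subgroup.inf_eq_bot_of_coprime (hcN M hMc), Subgroup.mem_bot, mul_inv_eq_one] at h1
        exact mul_inv_eq_iff_eq_mul.1 h1
      exact Subgroup.mem_centralizer_singleton_iff.1 (hle (hAMQ ha))
    obtain ⟨j, hj⟩ := IsPGroup.iff_card.1 (hN.to_le (inf_le_left : D ≤ N))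
    have hmod := hQ.card_modEq_card_fixedPoints D
    have h1 : Nat.card (MulAction.fixedPoints Q D) = 1 :=
      Nat.card_eq_one_iff_unique.2 ⟨⟨fun a b => Subtype.ext (Subtype.ext ((hfix a a.2).trans (hfix b b.2).symm))⟩,
        ⟨⟨1, fun q => Subtype.ext (show (q : G) * 1 * (q : G)⁻¹ = 1 by group)⟩⟩⟩
    rw [h1, hj] at hmod
    rcases Nat.eq_zero_or_pos j with rfl | hj0
    · exact Subgroup.eq_bot_of_card_eq _ (by rw [hj, pow_zero])
    · exfalso
      have h2 := (Nat.ModEq.dvd_iff hmod dvd_rfl).1 (dvd_pow_self p hj0.ne')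
      exact hp.ne_one (Nat.dvd_one.1 h2)
  have hmap : A.map (MulAut.conj x).toMonoidHom ≤ Subgroup.normalizer (M₁ : Set G) := by
    rw [hxM]
    exact (Subgroup.map_mono hAM).trans (Subgroup.le_normalizer_map _)
  refine Subgroup.eq_of_le_of_card_ge (fun g hg => ?_) ?_
  · obtain ⟨⟨a, n⟩, han⟩ := hA.2 (x⁻¹ * g * x)
    simp only at han
    have hgN : x⁻¹ * g * x ∈ Subgroup.normalizer (M : Set G) := by
      have h := hAM₁ hg
      rw [hxM, Subgroup.mem_normalizer_iff] at h
      rw [Subgroup.mem_normalizer_iff]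
      intro m
      rw [show (m ∈ M) ↔ MulAut.conj x m ∈ M.map (MulAut.conj x).toMonoidHom from
        ⟨fun hm => ⟨m, hm, rfl⟩, fun ⟨b, hb, e⟩ => (MulAut.conj x).injective e ▸ hb⟩, h]
      have e : g * MulAut.conj x m * g⁻¹ = MulAut.conj x (x⁻¹ * g * x * m * (x⁻¹ * g * x)⁻¹) := by
        simp only [MulAut.conj_apply]; group
      rw [e]
      exact ⟨fun ⟨b, hb, hbe⟩ => (MulAut.conj x).injective hbe ▸ hb, fun hm => ⟨_, hm, rfl⟩⟩
    have hn : (n : G) ∈ N ⊓ Subgroup.normalizer (M : Set G) := ⟨n.2, by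
      rw [← han] at hgN
      exact (Subgroup.mul_mem_cancel_left _ (hAM a.2)).1 hgN⟩
    rw [hD, Subgroup.mem_bot] at hn
    refine ⟨a, a.2, ?_⟩
    show x * a * x⁻¹ = g
    rw [hn, mul_one] at han
    rw [han]; group
  · rw [Subgroup.card_map_of_injective (MulAut.conj x).injective, ← hA.index_eq_card, hA₁.index_eq_card]

end Cfsg.Agent.S4043
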