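import Cfsg.Statements.S4049
import Cfsg.Agent.FGS2.SylowTwoNormal
import Cfsg.Agent.Transfer.Complement
-- import your own Cfsg.Agent.* helpers here

set_option autoImplicit false
open Cfsg

namespace Cfsg.Agent.S4049

/-- Let G be a finite group such that N_G(H)/C_G(H) has odd order for every nontrivial subgroup H of odd order. Then the Sylow 2-subgroups of G are normal. -/
theorem result {G : Type*} [Group G] [Finite G]
    (hhom : ∀ H : Subgroup G, H ≠ ⊥ → ¬ 2 ∣ Nat.card ↥H →
        ¬ 2 ∣ (Subgroup.centralizer (H : Set G)).relIndex (Subgroup.normalizer (H : Set G))) (P : Sylow 2 G) :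
    (P : Subgroup G).Normal := by
  refine Cfsg.Agent.FGS2.sylow_two_normal (fun x hx hx2 y hy => ?_) P
  set H := Subgroup.zpowers x with hH
  set N := Subgroup.normalizer (H : Set G)
  have key : ∀ i : ℤ, y * x ^ i * y⁻¹ = x ^ (-i) := fun i => by
    rw [← conj_zpow, hy, inv_zpow, zpow_neg]
  have hmem : y ∈ N := by
    rw [Subgroup.mem_normalizer_iff]
    intro z
    constructor
    · intro hz
      obtain ⟨i, rfl⟩ := Subgroup.mem_zpowers_iff.1 hz
      rw [key]; exact Subgroup.zpow_mem_zpowers x _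
    · intro hz
      obtain ⟨i, hi⟩ := Subgroup.mem_zpowers_iff.1 hz
      have hz' : z = x ^ (-i) := by
        have h := key (-i)
        rw [neg_neg, hi] at h
        exact (mul_left_cancel (mul_right_cancel h)).symm
      rw [hz']; exact Subgroup.zpow_mem_zpowers x _
  have hne : H ≠ ⊥ := by
    rw [hH, Ne, Subgroup.zpowers_eq_bot]
    intro h1
    rw [h1, orderOf_one] at hx
    exact Nat.not_prime_one hx
  refine hhom H hne (by
    rw [Nat.card_zpowers]
    exact fun hd => hx2 ((Nat.prime_dvd_prime_iff_eq Nat.prime_two hx).1 hd).symm) ?_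
  have := Cfsg.Agent.Transfer.centralizer_subgroupOf_normalizer_normal H
  set C := (Subgroup.centralizer (H : Set G)).subgroupOf N
  show 2 ∣ C.index
  rw [Subgroup.index_eq_card]
  have hyC : (⟨y, hmem⟩ : N) ∉ C := by
    intro hc
    rw [Subgroup.mem_subgroupOf, Subgroup.mem_centralizer_iff] at hc
    have h1 := hc x (Subgroup.mem_zpowers x)
    simp only at h1
    rw [← h1, mul_inv_cancel_right] at hy
    apply hx2
    have h2 : x ^ 2 = 1 := by rw [pow_two]; exact mul_eq_one_iff_eq_inv.2 hy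
    exact (Nat.prime_dvd_prime_iff_eq hx Nat.prime_two).1 (orderOf_dvd_of_pow_eq_one h2)
  have hy2 : ((⟨y, hmem⟩ : N) : N ⧸ C) ^ 2 = 1 := by
    rw [← QuotientGroup.mk_pow, QuotientGroup.eq_one_iff, Subgroup.mem_subgroupOf,
      Subgroup.mem_centralizer_iff]
    intro z hz
    obtain ⟨i, rfl⟩ := Subgroup.mem_zpowers_iff.1 hz
    show x ^ i * (y ^ 2) = y ^ 2 * x ^ i
    have h1 : y * (y * x ^ i * y⁻¹) * y⁻¹ = x ^ i := by rw [key, key, neg_neg]
    calc x ^ i * y ^ 2 = (y * (y * x ^ i * y⁻¹) * y⁻¹) * y ^ 2 := by rw [h1]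
      _ = y ^ 2 * x ^ i := by rw [pow_two]; group
  have hord : orderOf ((⟨y, hmem⟩ : N) : N ⧸ C) = 2 :=
    orderOf_eq_prime hy2 (fun e => hyC ((QuotientGroup.eq_one_iff _).1 e))
  exact hord ▸ orderOf_dvd_natCard _

end Cfsg.Agent.S4049
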