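import Cfsg.Statements.S4050
import Cfsg.Agent.FGS2.PiClosed
-- import your own Cfsg.Agent.* helpers here

set_option autoImplicit false
open Cfsg

namespace Cfsg.Agent.S4050

/-- Let π be a set of primes and G a finite group. The π-elements of G (elements whose order is divisible only by primes of π) form a subgroup if and only if G is π-separable (it has a chain of normal subgroups from 1 to G with each successive index divisible only by primes in π or only by primes outside π) and N_G(H)/C_G(H) is a π'-group for every nontrivial π'-subgroup H of G. -/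
theorem result {G : Type*} [Group G] [Finite G] (π : Set ℕ)
    (hπ : ∀ p ∈ π, p.Prime) :
    (∃ K : Subgroup G, ∀ x : G, x ∈ K ↔ ∀ p : ℕ, p.Prime → p ∣ orderOf x → p ∈ π) ↔
    ((∃ (n : ℕ) (H : Fin (n + 1) → Subgroup G), H 0 = ⊥ ∧ H (Fin.last n) = ⊤ ∧ Monotone H ∧ (∀ i, (H i).Normal) ∧
      ∀ i : Fin n, (∀ q : ℕ, q.Prime → q ∣ (H i.castSucc).relIndex (H i.succ) → q ∈ π) ∨
        (∀ q : ℕ, q.Prime → q ∣ (H i.castSucc).relIndex (H i.succ) → q ∉ π)) ∧
     (∀ H : Subgroup G, H ≠ ⊥ → (∀ p : ℕ, p.Prime → p ∣ Nat.card ↥H → p ∉ π) →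
        ∀ p : ℕ, p.Prime → p ∣ (Subgroup.centralizer (H : Set G)).relIndex (Subgroup.normalizer (H : Set G)) → p ∉ π)) := by
  constructor
  · intro h
    obtain ⟨L, hL⟩ := h
    refine ⟨⟨2, ![⊥, L, ⊤], rfl, rfl, ?_, ?_, ?_⟩, FGS2.PiClosed.auto_of_closed ⟨L, hL⟩⟩
    · refine Fin.monotone_iff_le_succ.2 fun i => ?_
      fin_cases i <;> simp
    · intro i
      fin_cases i
      · exact (inferInstance : (⊥ : Subgroup G).Normal)
      · refine ⟨fun a ha g => (hL _).2 ?_⟩
        rw [show g * a * g⁻¹ = MulAut.conj g a from rfl, MulEquiv.orderOf_eq]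
        exact (hL a).1 ha
      · exact (inferInstance : (⊤ : Subgroup G).Normal)
    · intro i
      fin_cases i
      · left
        intro q hq hd
        refine FGS2.PiClosed.pi_card_of_forall (fun x hx => (hL x).1 hx) q hq ?_
        simpa using hd
      · right
        intro q hq hd hqπ
        haveI := Fact.mk hq
        obtain ⟨Q⟩ := (inferInstance : Nonempty (Sylow q G))
        have hd' : q ∣ L.index := by simpa using hd
        exact Q.not_dvd_index (hd'.trans (Subgroup.index_dvd_of_le (FGS2.PiClosed.sylow_le_of_mem_iff hL hqπ Q)))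
  · rintro ⟨⟨n, H, h0, hlast, hmono, hnorm, hstep⟩, hauto⟩
    have key : ∀ i : Fin (n + 1), FGS2.PiClosed.Closed π (H i) := by
      intro i
      induction i using Fin.induction with
      | zero =>
        refine FGS2.PiClosed.closed_of_pi_or (Or.inl fun q hq hd => ?_)
        rw [h0, Subgroup.card_bot] at hd
        exact absurd (Nat.dvd_one.1 hd) hq.ne_one
      | succ i ih =>
        have hle : H i.castSucc ≤ H i.succ := hmono (Fin.castSucc_le_succ i)
        haveI : ((H i.castSucc).subgroupOf (H i.succ)).Normal := by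
          have := hnorm i.castSucc
          infer_instance
        refine FGS2.PiClosed.closed_of_extension (FGS2.PiClosed.auto_subgroup hauto _)
          ((H i.castSucc).subgroupOf (H i.succ)) ?_ ?_
        · exact FGS2.PiClosed.closed_of_equiv (Subgroup.subgroupOfEquivOfLe hle).symm ih
        · exact FGS2.PiClosed.closed_of_pi_or (hstep i)
    have := key (Fin.last n)
    rw [hlast] at this
    exact FGS2.PiClosed.closed_of_equiv Subgroup.topEquiv this

end Cfsg.Agent.S4050
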