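import Cfsg.Statements.S4056
import Cfsg.Agent.FGS3.PGroupFrattini
import Cfsg.Agent.FGS3.ClassTwo

set_option autoImplicit false
open Cfsg

namespace Cfsg.Agent.S4056

open scoped commutatorElement

/-- In a finite 2-group of nilpotency class at most 2 and exponent dividing 4, the Frattini subgroup lies in the centre and is elementary abelian. -/
theorem result {P : Type*} [Group P] [Finite P] (hP : IsPGroup 2 P)
    (hcl : Group.nilpotencyClass P ≤ 2) (hexp : Monoid.exponent P ∣ 4) :
    frattini P ≤ Subgroup.center P ∧ Cfsg.IsElementaryAbelian 2 (frattini P) := by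
  have : Fact (Nat.Prime 2) := ⟨Nat.prime_two⟩
  have : Group.IsNilpotent P := hP.isNilpotent
  have hc : commutator P ≤ Subgroup.center P := by
    have h3 : (⊤ : Subgroup P).lowerCentralSeries 2 = ⊥ :=
      Subgroup.lowerCentralSeries_eq_bot_iff_nilpotencyClass_le.2 hcl
    rw [commutator_def, Subgroup.commutator_le]
    intro a _ b _
    rw [Subgroup.mem_center_iff]
    intro c
    have hmem : ⁅⁅a, b⁆, c⁆ ∈ (⊤ : Subgroup P).lowerCentralSeries 2 := by
      rw [show (2 : ℕ) = 1 + 1 from rfl, Subgroup.lowerCentralSeries_succ]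
      refine Subgroup.commutator_mem_commutator ?_ (Subgroup.mem_top c)
      rw [Subgroup.lowerCentralSeries_succ, Subgroup.lowerCentralSeries_zero]
      exact Subgroup.commutator_mem_commutator (Subgroup.mem_top a) (Subgroup.mem_top b)
    rw [h3, Subgroup.mem_bot, commutatorElement_eq_one_iff_mul_comm] at hmem
    exact hmem.symm
  have h4 : ∀ x : P, x ^ 4 = 1 := fun x =>
    orderOf_dvd_iff_pow_eq_one.1 ((Monoid.order_dvd_exponent x).trans hexp)
  have hsq : ∀ x y : P, ⁅x, y⁆ ^ 2 = 1 := by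
    intro x y
    have h := Cfsg.Agent.FGS3.mul_pow_of_center hc y x 4
    rw [h4, h4, h4, one_mul, one_mul, show Nat.choose 4 2 = 4 + 2 from rfl, pow_add, h4, one_mul] at h
    exact h.symm
  have hsqc : ∀ x : P, x ^ 2 ∈ Subgroup.center P := fun x => by
    rw [Subgroup.mem_center_iff]
    intro y
    have h := Cfsg.Agent.FGS3.commutatorElement_pow_left hc x y 2
    rw [hsq] at h
    exact (commutatorElement_eq_one_iff_mul_comm.1 h).symm
  have hle : frattini P ≤ Subgroup.center P := by
    rw [Cfsg.Agent.FGS3.frattini_eq_sup (p := 2) hP]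
    exact sup_le hc ((Subgroup.closure_le _).2 (by rintro _ ⟨x, rfl⟩; exact hsqc x))
  have hmc : IsMulCommutative ↥(frattini P) :=
    ⟨⟨fun a b => Subtype.ext (Subgroup.mem_center_iff.1 (hle b.2) a)⟩⟩
  refine ⟨hle, hmc, ?_⟩
  intro a ha
  let T : Subgroup P :=
    { carrier := {z | z ∈ Subgroup.center P ∧ z ^ 2 = 1}
      one_mem' := ⟨Subgroup.one_mem _, one_pow 2⟩
      mul_mem' := fun {a b} ha hb => ⟨Subgroup.mul_mem _ ha.1 hb.1, by
        rw [(show Commute a b from (Subgroup.mem_center_iff.1 ha.1 b).symm).mul_pow, ha.2, hb.2, one_mul]⟩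
      inv_mem' := fun {a} ha => ⟨Subgroup.inv_mem _ ha.1, by rw [inv_pow, ha.2, inv_one]⟩ }
  have : frattini P ≤ T := by
    rw [Cfsg.Agent.FGS3.frattini_eq_sup (p := 2) hP]
    refine sup_le ?_ ((Subgroup.closure_le _).2 ?_)
    · rw [commutator_eq_closure, Subgroup.closure_le]
      rintro _ ⟨x, y, rfl⟩
      exact ⟨Cfsg.Agent.FGS3.commutatorElement_mem_center hc x y, hsq x y⟩
    · rintro _ ⟨x, rfl⟩
      exact ⟨hsqc x, by rw [← pow_mul]; exact h4 x⟩
  exact (this ha).2

end Cfsg.Agent.S4056
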