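import Cfsg.Statements.S4058
import Cfsg.Agent.FGS3.PGroupFrattini
import Cfsg.Agent.DegreeGraph.Indicator
import Cfsg.Agent.Chars.Eigen
import Cfsg.Agent.S0159
import Mathlib
-- import your own Cfsg.Agent.* helpers here

set_option autoImplicit false
open Cfsg

namespace Cfsg.Agent.S4058

/-- Let G be a finite 2-group with #(G/Φ(G)) ≥ 2^(2k+1). Then the number of elements x of G with x² = 1 is divisible by 2^(k+1). -/
theorem result {G : Type*} [Group G] [Finite G] (hG : IsPGroup 2 G) (k : ℕ)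
    (hgen : 2 ^ (2 * k + 1) ≤ Nat.card (G ⧸ frattini G)) :
    2 ^ (k + 1) ∣ Nat.card {x : G // x ^ 2 = 1} := by
  classical
  have : Fact (Nat.Prime 2) := ⟨Nat.prime_two⟩
  have := Fintype.ofFinite G
  let Q := G ⧸ frattini G
  let _ : CommGroup Q := { (inferInstance : Group Q) with mul_comm := FGS3.quotient_frattini_comm hG }
  let π : G →* Q := QuotientGroup.mk' (frattini G)
  let A := Q →* ℂˣ
  let lift : A → (G →* ℂˣ) := fun φ => φ.comp π
  have hlift_inj : Function.Injective lift := fun a b hab => MonoidHom.ext fun q => by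
    obtain ⟨g, rfl⟩ := QuotientGroup.mk'_surjective (frattini G) q
    exact DFunLike.congr_fun hab g
  have hsq : ∀ (φ : A) (s : G), lift φ (s * s) = 1 := fun φ s => by
    show φ (π (s * s)) = 1
    rw [map_mul π, ← pow_two, FGS3.quotient_frattini_pow hG, map_one]
  let _ : MulAction A (IrrCharacter G) :=
    { smul := fun φ χ => ⟨fun g => (lift φ g : ℂ) * (χ : G → ℂ) g, Chars.isIrrCharacter_mul_hom χ.2 (lift φ)⟩
      one_smul := fun χ => Subtype.ext (funext fun g => by
        show ((lift 1 g : ℂˣ) : ℂ) * (χ : G → ℂ) g = _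
        simp [lift])
      mul_smul := fun φ ψ χ => Subtype.ext (funext fun g => by
        show ((lift (φ * ψ) g : ℂˣ) : ℂ) * (χ : G → ℂ) g =
          (lift φ g : ℂ) * ((lift ψ g : ℂ) * (χ : G → ℂ) g)
        show (((φ * ψ) (π g) : ℂˣ) : ℂ) * _ = ((φ (π g) : ℂˣ) : ℂ) * (((ψ (π g) : ℂˣ) : ℂ) * _)
        rw [MonoidHom.mul_apply, Units.val_mul, mul_assoc]) }
  have hval : ∀ (φ : A) (χ : IrrCharacter G) (g : G),
      ((φ • χ : IrrCharacter G) : G → ℂ) g = (lift φ g : ℂ) * (χ : G → ℂ) g := fun _ _ _ => rfl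
  let ν : IrrCharacter G → ℂ := fun χ => (Nat.card G : ℂ)⁻¹ * ∑ s : G, (χ : G → ℂ) (s * s)
  have hνinv : ∀ (φ : A) (χ : IrrCharacter G), ν (φ • χ) = ν χ := fun φ χ => by
    simp only [ν, hval, hsq, Units.val_one, one_mul]
  have hdeginv : ∀ (φ : A) (χ : IrrCharacter G),
      ((φ • χ : IrrCharacter G) : G → ℂ) 1 = (χ : G → ℂ) 1 := fun φ χ => by simp [hval]
  have hνint : ∀ χ, ∃ z : ℤ, ν χ = z := fun χ => by
    by_cases h0 : ∑ s : G, (χ : G → ℂ) (s * s) = 0
    · exact ⟨0, by simp [ν, h0]⟩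
    · rcases DegreeGraph.indicator_of_real χ.2 (DegreeGraph.real_of_indicator_ne_zero χ.2 h0) with h1 | h1
      · exact ⟨1, by rw [Int.cast_one]; exact h1⟩
      · exact ⟨-1, by rw [Int.cast_neg, Int.cast_one]; exact h1⟩
  choose z hz using hνint
  obtain ⟨m, hm⟩ := IsPGroup.iff_card.mp hG
  have hdeg : ∀ χ : IrrCharacter G, ∃ e : ℕ, (χ : G → ℂ) 1 = ((2 ^ e : ℕ) : ℂ) := fun χ => by
    obtain ⟨d, -, hd, hd'⟩ := Chars.irr_degree_dvd_card χ.2
    rw [hm] at hd'
    obtain ⟨e, -, rfl⟩ := (Nat.dvd_prime_pow Nat.prime_two).mp hd'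
    exact ⟨e, hd⟩
  choose e he using hdeg
  have hAcard : Nat.card A = Nat.card Q :=
    CommGroup.card_monoidHom_of_hasEnoughRootsOfUnity Q ℂ
  have : Finite A := Nat.finite_of_card_ne_zero (by rw [hAcard]; exact Nat.card_pos.ne')
  have := Fintype.ofFinite A
  obtain ⟨d, hd⟩ := IsPGroup.iff_card.mp (hG.to_quotient (frattini G))
  have hkd : 2 * k + 1 ≤ d := (Nat.pow_le_pow_iff_right (by norm_num)).mp (hgen.trans hd.le)
  -- stabilisers are small
  have hstab : ∀ χ : IrrCharacter G, Nat.card (MulAction.stabilizer A χ) ≤ (2 ^ e χ) ^ 2 := by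
    intro χ
    set St := MulAction.stabilizer A χ
    let S : G → ℂ := fun g => ∑ φ : St, (lift (φ : A) g : ℂ)
    have h1 : ∀ g, S g = 0 ∨ S g = (Fintype.card St : ℂ) := by
      intro g
      by_cases hg : ∀ φ : St, lift (φ : A) g = 1
      · exact Or.inr (by simp [S, hg])
      · push Not at hg
        obtain ⟨ψ, hψ⟩ := hg
        refine Or.inl ?_
        have h2 : (lift (ψ : A) g : ℂ) * S g = S g := by
          rw [Finset.mul_sum]
          exact Fintype.sum_equiv (Equiv.mulLeft ψ) _ _ fun φ => by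
            show _ = ((((ψ : A) * (φ : A)) (π g) : ℂˣ) : ℂ)
            rw [MonoidHom.mul_apply, Units.val_mul]; rfl
        by_contra h3
        exact hψ (Units.ext ((mul_eq_right₀ h3).mp h2))
    have h4 : ∀ g, (χ : G → ℂ) g * S g = (Fintype.card St : ℂ) * (χ : G → ℂ) g := by
      intro g
      have h5 : ∀ φ : St, (χ : G → ℂ) g * (lift (φ : A) g : ℂ) = (χ : G → ℂ) g := fun φ => by
        rw [mul_comm, ← hval]
        exact congrFun (congrArg Subtype.val φ.2) g
      simp only [S, Finset.mul_sum, h5, Finset.sum_const, Finset.card_univ, nsmul_eq_mul]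
    have hsupp : ∀ g, (χ : G → ℂ) g ≠ 0 → S g = (Fintype.card St : ℂ) := fun g hg => by
      have := h4 g; rw [mul_comm (Fintype.card St : ℂ)] at this
      exact mul_left_cancel₀ hg this
    let T : Finset G := Finset.univ.filter fun g => S g = (Fintype.card St : ℂ)
    have hSt : (Fintype.card St : ℂ) ≠ 0 := Nat.cast_ne_zero.mpr Fintype.card_ne_zero
    have hT : T.card * Fintype.card St = Fintype.card G := by
      have hlin : ∀ φ : St, ∑ g : G, (lift (φ : A) g : ℂ) = if φ = 1 then (Fintype.card G : ℂ) else 0 := by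
        intro φ
        have hf := sum_hom_units ((Units.coeHom ℂ).comp (lift (φ : A)))
        simp only [MonoidHom.coe_comp, Units.coeHom_apply, Function.comp_apply] at hf
        by_cases hφ : φ = 1
        · simp [hφ, lift]
        · rw [if_neg hφ, hf, if_neg, Nat.cast_zero]
          intro h6
          exact hφ (Subtype.ext (hlift_inj (MonoidHom.ext fun x => Units.ext (by
            have h8 := DFunLike.congr_fun h6 x
            simpa [lift] using h8))))
      have h6 : ∑ g : G, S g = (Fintype.card G : ℂ) := by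
        rw [Finset.sum_comm]
        change ∑ φ : St, ∑ g : G, (lift (φ : A) g : ℂ) = _
        rw [Finset.sum_congr rfl (fun φ _ => hlin φ), Finset.sum_eq_single (1 : St) (fun b _ hb => if_neg hb) (fun h => absurd (Finset.mem_univ _) h), if_pos rfl]
      have h7 : ∑ g : G, S g = (T.card : ℂ) * (Fintype.card St : ℂ) := by
        have : ∀ g, S g = if S g = (Fintype.card St : ℂ) then (Fintype.card St : ℂ) else 0 := fun g => by
          rcases h1 g with h8 | h8
          · rw [if_neg (by rw [h8]; exact hSt.symm), h8]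
          · rw [if_pos h8, h8]
        rw [Finset.sum_congr rfl (fun g _ => this g), ← Finset.sum_filter, Finset.sum_const, nsmul_eq_mul]
      exact_mod_cast h7.symm.trans h6
    have hnorm := Chars.classInner_self_irr χ.2
    rw [classInner, inv_mul_eq_one₀ Chars.card_ne_zero] at hnorm
    have hbound : ∀ g, ‖(χ : G → ℂ) g‖ ≤ (2 ^ e χ : ℕ) := fun g => by
      have := Chars.norm_le_of_isCharacter (Chars.irr_isCharacter χ) g
      rwa [he χ, Complex.natCast_re] at this
    have h9 : (Fintype.card G : ℝ) ≤ (T.card : ℝ) * ((2 ^ e χ : ℕ) : ℝ) ^ 2 := by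
      have h10 : (Fintype.card G : ℝ) = ∑ g : G, ‖(χ : G → ℂ) g‖ ^ 2 := by
        have h11 := congrArg Complex.re hnorm
        rw [Nat.card_eq_fintype_card, Complex.natCast_re, Complex.re_sum] at h11
        rw [h11]
        refine Finset.sum_congr rfl fun g _ => ?_
        rw [Complex.mul_conj, Complex.ofReal_re, Complex.normSq_eq_norm_sq]
      have h12 : ∀ g ∉ T, ‖(χ : G → ℂ) g‖ ^ 2 = 0 := fun g hg => by
        by_contra h13
        refine hg (Finset.mem_filter.mpr ⟨Finset.mem_univ g, hsupp g fun h14 => h13 ?_⟩)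
        rw [h14, norm_zero, zero_pow two_ne_zero]
      rw [h10, ← Finset.sum_subset (Finset.subset_univ T) (fun g _ hg => h12 g hg)]
      refine (Finset.sum_le_card_nsmul T _ _ fun g _ => ?_).trans (le_of_eq (nsmul_eq_mul _ _))
      exact pow_le_pow_left₀ (norm_nonneg _) (hbound g) 2
    have h15 : Fintype.card G ≤ T.card * (2 ^ e χ) ^ 2 := by exact_mod_cast h9
    rw [← hT] at h15
    rw [Nat.card_eq_fintype_card]
    exact Nat.le_of_mul_le_mul_left h15 (Finset.card_pos.mpr ⟨1, Finset.mem_filter.mpr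
      ⟨Finset.mem_univ 1, hsupp 1 (Chars.irr_apply_one_ne_zero χ.2)⟩⟩)
  -- each orbit contributes a multiple of `2 ^ (k + 1)`
  let t : IrrCharacter G → ℤ := fun χ => z χ * 2 ^ e χ
  have hcount : (Nat.card {x : G // x ^ 2 = 1} : ℤ) = ∑ χ, t χ := by
    have h := S0159.result (G := G)
    rw [finsum_eq_sum_of_fintype] at h
    have h2 : Nat.card {x : G // x ^ 2 = 1} = Nat.card {s : G // s * s = 1} :=
      Nat.card_congr (Equiv.subtypeEquivRight fun x => by rw [pow_two])
    apply Int.cast_injective (α := ℂ)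
    rw [h2, Int.cast_natCast, h, Int.cast_sum]
    refine Finset.sum_congr rfl fun χ _ => ?_
    simp only [t, Int.cast_mul, Int.cast_pow, Int.cast_ofNat, ← hz, he χ, Nat.cast_pow,
      Nat.cast_ofNat, ν]
  have htinv : ∀ (φ : A) (χ : IrrCharacter G), t (φ • χ) = t χ := by
    intro φ χ
    have h1 : e (φ • χ) = e χ := by
      have := (he (φ • χ)).symm.trans ((hdeginv φ χ).trans (he χ))
      exact Nat.pow_right_injective le_rfl (Nat.cast_injective this)
    have h2 : z (φ • χ) = z χ :=
      Int.cast_injective (α := ℂ) ((hz _).symm.trans ((hνinv φ χ).trans (hz χ)))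
    simp only [t, h1, h2]
  rw [← Int.natCast_dvd_natCast, hcount,
    Fintype.sum_equiv (MulAction.selfEquivSigmaOrbits A (IrrCharacter G)) t
      (fun x => t (x.2 : IrrCharacter G)) (fun χ => rfl), Fintype.sum_sigma]
  refine Finset.dvd_sum fun ω _ => ?_
  set χ₀ := ω.out
  have hconst : ∀ y : MulAction.orbit A χ₀, t (y : IrrCharacter G) = t χ₀ := by
    rintro ⟨y, φ, rfl⟩
    exact htinv φ χ₀
  rw [Finset.sum_congr rfl (fun y _ => hconst y), Finset.sum_const, Finset.card_univ, nsmul_eq_mul]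
  have horb : Fintype.card (MulAction.orbit A χ₀) * Nat.card (MulAction.stabilizer A χ₀) = 2 ^ d := by
    rw [← hd, ← hAcard, ← Nat.card_eq_fintype_card, Nat.card_coe_set_eq, ← MulAction.index_stabilizer]
    exact Subgroup.index_mul_card _
  obtain ⟨a, -, ha⟩ := (Nat.dvd_prime_pow Nat.prime_two).mp (Dvd.intro _ horb)
  obtain ⟨s, -, hs⟩ := (Nat.dvd_prime_pow Nat.prime_two).mp (Dvd.intro_left _ horb)
  rw [ha, hs, ← pow_add] at horb
  have had := Nat.pow_right_injective le_rfl horb
  have hse : s ≤ 2 * e χ₀ := by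
    have := hstab χ₀
    rw [hs, ← pow_mul] at this
    have := (Nat.pow_le_pow_iff_right (by norm_num : 1 < 2)).mp this
    omega
  have h3 : (2 : ℤ) ^ (k + 1) ∣ (2 : ℤ) ^ (a + e χ₀) := pow_dvd_pow 2 (by omega)
  rw [ha]
  push_cast
  refine h3.trans ?_
  simp only [t, pow_add]
  exact ⟨z χ₀, by ring⟩

end Cfsg.Agent.S4058
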