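import Cfsg.Statements.S4066
import Cfsg.Agent.FGS2.Engel
import Mathlib.GroupTheory.Sylow
-- import your own Cfsg.Agent.* helpers here

set_option autoImplicit false
open Cfsg

namespace Cfsg.Agent.S4066

/-- Let G be a finite group in which the centralizer of every element meets each of its conjugates by elements outside its normalizer trivially. Then any two distinct Sylow p-subgroups of G, for any prime p, intersect trivially. -/
theorem result {G : Type*} [Group G] [Finite G] (hTI : ∀ x : G, Cfsg.IsTISubset (Subgroup.centralizer ({x} : Set G) : Set G))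
    {p : ℕ} [Fact p.Prime] (P Q : Sylow p G) (hPQ : P ≠ Q) : (P : Subgroup G) ⊓ (Q : Subgroup G) = ⊥ := by
  classical
  by_contra hne
  obtain ⟨z, hz, hz1⟩ := (Subgroup.bot_or_exists_ne_one _).resolve_left hne
  -- commuting nontrivial elements have centralizers with the same normalizer
  let C : G → Subgroup G := fun a => Subgroup.centralizer ({a} : Set G)
  let N : G → Subgroup G := fun a => Subgroup.normalizer (C a : Set G)
  have hmemC : ∀ a b : G, b ∈ C a ↔ b * a = a * b := fun a b => Subgroup.mem_centralizer_singleton_iff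
  have key : ∀ a g w : G, w ≠ 1 → w ∈ C a → g⁻¹ * w * g ∈ C a → g ∈ N a := by
    intro a g w hw h1 h2
    by_contra hg
    have hgn : g ∉ Subgroup.normalizer ((C a : Subgroup G) : Set G) := hg
    have h3 : g⁻¹ * w * g = 1 := hTI a g hgn _ h2 (by
      show g * (g⁻¹ * w * g) * g⁻¹ ∈ C a
      simpa [mul_assoc] using h1)
    exact hw (by simpa [mul_assoc] using congrArg (fun t => g * t * g⁻¹) h3)
  have hnc : ∀ a b : G, a ≠ 1 → b * a = a * b → C a ≤ N b := by
    intro a b ha hab n hn
    refine key b n a ha ((hmemC b a).2 hab.symm) ((hmemC b _).2 ?_)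
    have hn' : n⁻¹ * a * n = a := by rw [mul_assoc, ← (hmemC a n).1 hn, inv_mul_cancel_left]
    rw [hn', hab]
  have hN : ∀ a b : G, a ≠ 1 → b * a = a * b → N a ≤ N b := by
    intro a b ha hab n hn
    have hn' : n ∈ Subgroup.normalizer ((C a : Subgroup G) : Set G) := hn
    refine key b n a ha ((hmemC b a).2 hab.symm) ((hmemC b _).2 ?_)
    -- `n⁻¹ a n` is central in `C a`
    have hb : b ∈ C a := (hmemC a b).2 hab
    have hb' : n * b * n⁻¹ ∈ C a := (Subgroup.mem_normalizer_iff.1 hn' b).1 hb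
    have h1 := (hmemC a _).1 hb'
    calc n⁻¹ * a * n * b = n⁻¹ * (a * (n * b * n⁻¹)) * n := by group
      _ = n⁻¹ * ((n * b * n⁻¹) * a) * n := by rw [h1]
      _ = b * (n⁻¹ * a * n) := by group
  -- every Sylow subgroup containing `z` is the Sylow subgroup of `N z`
  have main : ∀ P : Sylow p G, z ∈ (P : Subgroup G) → ∀ x ∈ (P : Subgroup G),
      ∃ h : x ∈ N z, (⟨x, h⟩ : N z) ∈ Cfsg.fittingSubgroup (N z) := by
    intro P hzP x hx
    have : Nontrivial (P : Subgroup G) := ⟨⟨⟨z, hzP⟩, 1, fun e => hz1 (congrArg Subtype.val e)⟩⟩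
    have : Nontrivial (Subgroup.center (P : Subgroup G)) := P.2.center_nontrivial
    obtain ⟨⟨⟨c, hcP⟩, hc⟩, hc1⟩ := exists_ne (1 : Subgroup.center (P : Subgroup G))
    have hc1' : c ≠ 1 := fun e => hc1 (Subtype.ext (Subtype.ext e))
    have hcomm : ∀ w ∈ (P : Subgroup G), w * c = c * w := fun w hw =>
      congrArg Subtype.val (Subgroup.mem_center_iff.1 hc ⟨w, hw⟩)
    have hNc : N c = N z := le_antisymm (hN c z hc1' (hcomm z hzP)) (hN z c hz1 (hcomm z hzP).symm)
    have hxN : x ∈ N z := hnc c z hc1' (hcomm z hzP) ((hmemC c x).2 (hcomm x hx))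
    refine ⟨hxN, ?_⟩
    rcases eq_or_ne x 1 with rfl | hx1
    · exact one_mem _
    have hNx : N x = N z := le_antisymm
      ((hN x c hx1 (hcomm x hx).symm).trans hNc.le)
      (hNc.ge.trans (hN c x hc1' (hcomm x hx)))
    rw [Cfsg.Agent.FGS2.mem_fitting_iff_engel]
    intro n
    refine ⟨2, Subtype.ext ?_⟩
    rw [Cfsg.Agent.FGS2.engelSeq_succ, Cfsg.Agent.FGS2.engelSeq_succ]
    show ((n : G) * x * (n : G)⁻¹ * x⁻¹) * x * ((n : G) * x * (n : G)⁻¹ * x⁻¹)⁻¹ * x⁻¹ = 1
    have hn : (n : G) ∈ Subgroup.normalizer ((C x : Subgroup G) : Set G) := hNx.ge n.2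
    have h1 : (n : G) * x * (n : G)⁻¹ * x = x * ((n : G) * x * (n : G)⁻¹) :=
      (hmemC x _).1 ((Subgroup.mem_normalizer_iff.1 hn x).1 ((hmemC x x).2 rfl))
    rw [inv_mul_cancel_right, mul_inv_rev, inv_inv, ← mul_assoc, h1]
    group
  apply hPQ
  have hPle : (P : Subgroup G) ≤ N z := fun x hx => (main P hz.1 x hx).1
  have hQle : (Q : Subgroup G) ≤ N z := fun x hx => (main Q hz.2 x hx).1
  let F := Cfsg.fittingSubgroup (N z)
  have : Group.IsNilpotent F := Cfsg.Agent.Core.isNilpotent_fittingSubgroup _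
  let O := Cfsg.pCore p (N z)
  have hle : ∀ R : Sylow p G, ∀ hR : (R : Subgroup G) ≤ N z, z ∈ (R : Subgroup G) →
      (R.subtype hR : Subgroup (N z)) = O := by
    intro R hR hzR
    have hRF : (R.subtype hR : Subgroup (N z)) ≤ F := fun x hx => by
      obtain ⟨h, h'⟩ := main R hzR (x : G) (Subgroup.mem_subgroupOf.1 hx)
      exact h'
    refine le_antisymm ?_ (Cfsg.Agent.Core.pCore_le_sylow _)
    obtain ⟨S, hS⟩ := ((R.subtype hR).2.comap_subtype (K := F)).exists_le_sylow
    have h1 : (S : Subgroup F).map F.subtype = O := Cfsg.Agent.Core.sylow_fittingSubgroup_map S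
    rw [← h1]
    exact fun x hx => ⟨⟨x, hRF hx⟩, hS (Subgroup.mem_comap.2 hx), rfl⟩
  apply Sylow.ext
  have h1 := (hle P hPle hz.1).trans (hle Q hQle hz.2).symm
  rw [Sylow.coe_subtype, Sylow.coe_subtype, Subgroup.subgroupOf_inj, inf_of_le_left hPle, inf_of_le_left hQle] at h1
  exact h1

end Cfsg.Agent.S4066
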