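import Cfsg.Statements.S4071
import Cfsg.Agent.Core.Fitting
import Cfsg.Agent.Core.Frattini
import Mathlib.GroupTheory.Sylow
import Mathlib.GroupTheory.Nilpotent
-- import your own Cfsg.Agent.* helpers here

set_option autoImplicit false
open Cfsg

namespace Cfsg.Agent.S4071

open Cfsg.Agent Subgroup
open scoped Pointwise

theorem backward {G : Type*} [Group G] [Finite G] (x : G) (A : Subgroup G) {p k : ℕ} (hp : p.Prime)
    (hAn : A.Normal) (hAc : IsMulCommutative A) (hk : orderOf x = p ^ k)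
    (hcompl : (zpowers x).IsComplement' A) (hxp : x ^ p ∈ center G)
    (hfpf : ∀ a : G, a ∈ A → a ≠ 1 → x * a * x⁻¹ ≠ a) (H : Subgroup G) (hH : ¬ IsMulCommutative H) :
    normalizer (H : Set G) = H := by
  classical
  have hdec : ∀ g : G, ∃ (i : ℕ) (a : G), a ∈ A ∧ g = x ^ i * a := fun g => by
    obtain ⟨⟨⟨y, hy⟩, ⟨a, ha⟩⟩, hga⟩ := hcompl.2 g
    obtain ⟨i, rfl⟩ := (mem_powers_iff_mem_zpowers (x := x)).2 hy
    exact ⟨i, a, ha, hga.symm⟩
  have hcom : ∀ a ∈ A, ∀ b ∈ A, Commute a b := fun a ha b hb =>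
    congrArg Subtype.val (hAc.1.1 ⟨a, ha⟩ ⟨b, hb⟩)
  -- an element of `H` outside the abelian group generated by `A` and `x ^ p`
  obtain ⟨g, hgH, i, a, ha, rfl, hi⟩ :
      ∃ g ∈ H, ∃ (i : ℕ) (a : G), a ∈ A ∧ g = x ^ i * a ∧ ¬ p ∣ i := by
    by_contra hcon
    refine hH ⟨⟨fun u v => Subtype.ext ?_⟩⟩
    obtain ⟨i, a, ha, hu⟩ := hdec u
    obtain ⟨j, b, hb, hv⟩ := hdec v
    obtain ⟨i', rfl⟩ : p ∣ i := by_contra fun hi => hcon ⟨u, u.2, i, a, ha, hu, hi⟩
    obtain ⟨j', rfl⟩ : p ∣ j := by_contra fun hj => hcon ⟨v, v.2, j, b, hb, hv, hj⟩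
    show (u : G) * v = v * u
    have hcp : ∀ (m : ℕ) (g : G), Commute (x ^ (p * m)) g := fun m g => by
      rw [pow_mul]; exact (Commute.pow_left (mem_center_iff.1 hxp g).symm m)
    rw [hu, hv]
    exact ((Commute.mul_right (hcp i' _) (hcp i' b)).mul_left
      (Commute.mul_right (hcp j' a).symm (hcom a ha b hb))).eq
  set y := x ^ i with hy
  have hxy : x ∈ zpowers y := by
    obtain ⟨m, hm⟩ := exists_pow_eq_self_of_coprime (x := x) (n := i)
      (by rw [hk]; exact ((Nat.coprime_comm.1 (hp.coprime_iff_not_dvd.2 hi))).pow_right k)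
    exact (mem_powers_iff_mem_zpowers.1 ⟨m, hm⟩)
  have hfy : ∀ b ∈ A, y * b * y⁻¹ = b → b = 1 := by
    intro b hb hbe
    by_contra hb1
    refine hfpf b hb hb1 ?_
    have hc : Commute y b := mul_inv_eq_iff_eq_mul.1 hbe
    obtain ⟨m, hm⟩ := mem_zpowers_iff.1 hxy
    rw [← hm]
    exact mul_inv_eq_iff_eq_mul.2 (hc.zpow_left m).eq
  let ψ : ∀ (B : Subgroup G), (∀ b ∈ B, y * b * y⁻¹ ∈ B) → B → B := fun B hB b =>
    ⟨(b : G) * (y * (b : G)⁻¹ * y⁻¹), B.mul_mem b.2 (hB _ (B.inv_mem b.2))⟩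
  have hψ : ∀ (B : Subgroup G) (hB : ∀ b ∈ B, y * b * y⁻¹ ∈ B), B ≤ A → Function.Surjective (ψ B hB) := by
    intro B hB hBA
    refine Finite.injective_iff_surjective.1 fun b c hbc => Subtype.ext ?_
    have h1 : (b : G) * (y * (b : G)⁻¹ * y⁻¹) = (c : G) * (y * (c : G)⁻¹ * y⁻¹) := congrArg Subtype.val hbc
    have h2 : y * ((c : G)⁻¹ * b) * y⁻¹ = (c : G)⁻¹ * b := by
      have h3 : (c : G)⁻¹ * b = (y * (c : G)⁻¹ * y⁻¹) * (y * (b : G)⁻¹ * y⁻¹)⁻¹ := by
        rw [eq_mul_inv_iff_mul_eq, mul_assoc, h1, inv_mul_cancel_left]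
      conv_rhs => rw [h3]
      group
    exact ((inv_mul_eq_one).1 (hfy _ (hBA (B.mul_mem (B.inv_mem c.2) b.2)) h2)).symm
  -- conjugate so that `H` contains `y`
  have hyA : ∀ b ∈ A, y * b * y⁻¹ ∈ A := fun b hb => hAn.conj_mem b hb y
  obtain ⟨⟨c, hc⟩, hce⟩ := hψ A hyA le_rfl ⟨y * a * y⁻¹, hyA a ha⟩
  have hce' : c * (y * c⁻¹ * y⁻¹) = y * a * y⁻¹ := congrArg Subtype.val hce
  have hcy : c * y * c⁻¹ = y * a := by
    calc c * y * c⁻¹ = c * (y * c⁻¹ * y⁻¹) * y := by group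
      _ = _ := by rw [hce']; group
  -- the conjugate subgroup
  set H' := H.map (MulAut.conj c⁻¹).toMonoidHom with hH'
  have hyH : y ∈ H' := ⟨y * a, hgH, by
    show c⁻¹ * (y * a) * c⁻¹⁻¹ = y
    rw [← hcy]; group⟩
  have hN' : normalizer (H' : Set G) = H' := by
    refine le_antisymm (fun g hg => ?_) le_normalizer
    obtain ⟨j, b, hb, rfl⟩ := hdec g
    have hxH : x ∈ H' := zpowers_le.2 hyH hxy
    have hb' : b ∈ normalizer (H' : Set G) := by
      have := mul_mem (inv_mem (le_normalizer (H'.pow_mem hxH j))) hg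
      rwa [inv_mul_cancel_left] at this
    set B := H' ⊓ A with hB
    have hyB : ∀ b ∈ B, y * b * y⁻¹ ∈ B := fun b hb =>
      ⟨H'.mul_mem (H'.mul_mem hyH hb.1) (H'.inv_mem hyH), hyA b hb.2⟩
    have hbB : b * (y * b⁻¹ * y⁻¹) ∈ B := by
      refine ⟨?_, A.mul_mem hb (hyA _ (A.inv_mem hb))⟩
      have := H'.mul_mem ((mem_normalizer_iff.1 hb' y).1 hyH) (H'.inv_mem hyH)
      show b * (y * b⁻¹ * y⁻¹) ∈ H'
      simpa [mul_assoc] using this
    obtain ⟨⟨d, hd⟩, hde⟩ := hψ B hyB inf_le_right ⟨_, hbB⟩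
    have hde' : d * (y * d⁻¹ * y⁻¹) = b * (y * b⁻¹ * y⁻¹) := congrArg Subtype.val hde
    have h2 : y * (b⁻¹ * d) * y⁻¹ = b⁻¹ * d := by
      have h3 : b⁻¹ * d = (y * b⁻¹ * y⁻¹) * (y * d⁻¹ * y⁻¹)⁻¹ := by
        rw [eq_mul_inv_iff_mul_eq, mul_assoc, hde', inv_mul_cancel_left]
      conv_rhs => rw [h3]
      group
    have hbd : b = d := (inv_mul_eq_one).1 (hfy _ (A.mul_mem (A.inv_mem hb) hd.2) h2)
    exact H'.mul_mem (H'.pow_mem hxH j) (hbd ▸ hd.1)
  apply map_injective (f := (MulAut.conj c⁻¹).toMonoidHom) (MulAut.conj c⁻¹).injective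
  rw [map_equiv_normalizer_eq H (MulAut.conj c⁻¹), ← hH', hN']

theorem forward {G : Type*} [Group G] [Finite G] [Group.IsSolvable G] (hnn : ¬ Group.IsNilpotent G)
    (h : ∀ H : Subgroup G, ¬ IsMulCommutative H → normalizer (H : Set G) = H) :
    ∃ (x : G) (A : Subgroup G) (p : ℕ), p.Prime ∧ A.Normal ∧ IsMulCommutative A ∧ (∃ k : ℕ, orderOf x = p ^ k) ∧
      ¬ p ∣ Nat.card A ∧ (zpowers x).IsComplement' A ∧ x ^ p ∈ center G ∧
      ∀ a : G, a ∈ A → a ≠ 1 → x * a * x⁻¹ ≠ a := by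
  classical
  have hab : ∀ N : Subgroup G, N.Normal → N ≠ ⊤ → IsMulCommutative N := by
    intro N hN hne
    by_contra hc
    exact hne ((h N hc).symm.trans (normalizer_eq_top_iff.2 hN))
  have : Nontrivial G := by
    by_contra h1
    rw [not_nontrivial_iff_subsingleton] at h1
    exact hnn inferInstance
  have hG' : commutator G ≠ ⊤ := (Group.IsSolvable.commutator_lt_top_of_nontrivial (G := G)).ne
  obtain ⟨M, ⟨hM1, hMn, hMt⟩, hMmax⟩ := (Set.toFinite
    {N : Subgroup G | commutator G ≤ N ∧ N.Normal ∧ N ≠ ⊤}).exists_maximal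
    ⟨commutator G, le_rfl, inferInstance, hG'⟩
  have hnormal : ∀ N : Subgroup G, commutator G ≤ N → N.Normal := fun N hN => ⟨fun n hn g => by
    have h1 := N.mul_mem (hN (show g * n * g⁻¹ * n⁻¹ ∈ commutator G from by
      rw [← commutatorElement_def, _root_.commutator_def]
      exact Subgroup.commutator_mem_commutator (mem_top g) (mem_top n))) hn
    rwa [inv_mul_cancel_right] at h1⟩
  have hMuniq : ∀ N : Subgroup G, commutator G ≤ N → N ≠ ⊤ → N ≤ M := by
    intro N hN hne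
    by_contra hle
    have hsup : M ⊔ N = ⊤ := by
      by_contra hs
      exact hle (le_sup_right.trans (hMmax (show M ⊔ N ∈ _ from
        ⟨hM1.trans le_sup_left, hnormal _ (hM1.trans le_sup_left), hs⟩) le_sup_left))
    refine hnn ?_
    have hF : fittingSubgroup G = ⊤ := top_le_iff.1 (hsup ▸ sup_le
      (Core.le_fittingSubgroup hMn (by
        letI : CommGroup M := { (inferInstance : Group M) with mul_comm := (hab M hMn hMt).1.1 }
        exact CommGroup.isNilpotent))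
      (Core.le_fittingSubgroup (hnormal N hN) (by
        letI : CommGroup N := { (inferInstance : Group N) with mul_comm := (hab N (hnormal N hN) hne).1.1 }
        exact CommGroup.isNilpotent)))
    have hnil := Core.isNilpotent_fittingSubgroup G
    rw [hF] at hnil
    exact Group.nilpotent_of_mulEquiv topEquiv
  have hgen : ∀ x : G, x ∉ M → zpowers x ⊔ commutator G = ⊤ := fun x hx => by
    by_contra hne
    exact hx (hMuniq _ le_sup_right hne (mem_sup_left (mem_zpowers x)))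
  -- an element of prime power order outside `M`
  obtain ⟨p, hp, x, k, hk, hxM⟩ : ∃ (p : ℕ) (_ : p.Prime) (x : G) (k : ℕ), orderOf x = p ^ k ∧ x ∉ M := by
    by_contra hcon
    refine hMt (eq_top_of_le_card _ (Nat.le_of_dvd Nat.card_pos ?_))
    refine Nat.dvd_iff_prime_pow_dvd_dvd _ _ |>.2 fun q n hq hdvd => ?_
    have := Fact.mk hq
    obtain ⟨Q, hQ⟩ := Sylow.exists_subgroup_card_pow_prime (G := G) q hdvd
    rw [← hQ]
    refine card_dvd_of_le fun g hg => by_contra fun hgM => hcon ?_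
    obtain ⟨j, hj⟩ := (IsPGroup.iff_orderOf (p := q)).1 (IsPGroup.of_card hQ) ⟨g, hg⟩
    exact ⟨q, hq, g, j, by rwa [Subgroup.orderOf_mk] at hj, hgM⟩
  have := Fact.mk hp
  have htop := hgen x hxM
  -- `x ^ p ∈ M`
  have hxp : x ^ p ∈ M := by
    by_contra hxp
    have hx : x ∈ zpowers (x ^ p) ⊔ commutator G := (hgen _ hxp).symm ▸ mem_top x
    obtain ⟨y, hy, c, hc, hyc⟩ := mem_sup_of_normal_right.1 hx
    obtain ⟨m, rfl⟩ := mem_zpowers_iff.1 hy
    set q := QuotientGroup.mk' (commutator G) with hq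
    have h1 : q x = q x ^ ((p : ℤ) * m) := by
      conv_lhs => rw [← hyc, map_mul, show q c = 1 from (QuotientGroup.eq_one_iff c).2 hc, mul_one]
      rw [map_zpow, map_pow, ← zpow_natCast, ← zpow_mul]
    have h2 : q x ^ ((p : ℤ) * m - 1) = 1 := by
      rw [zpow_sub, zpow_one, ← h1, mul_inv_cancel]
    have h3 := orderOf_dvd_iff_zpow_eq_one.2 h2
    obtain ⟨j, -, hj⟩ := (Nat.dvd_prime_pow hp).1 (hk ▸ orderOf_map_dvd q x)
    rcases Nat.eq_zero_or_pos j with rfl | hj0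
    · rw [pow_zero, orderOf_eq_one_iff] at hj
      exact hxM (hM1 ((QuotientGroup.eq_one_iff x).1 hj))
    · rw [hj] at h3
      have h4 : (p : ℤ) ∣ (p : ℤ) * m - 1 :=
        (Int.natCast_dvd_natCast.2 (dvd_pow_self p hj0.ne')).trans h3
      have h5 : (p : ℤ) ∣ 1 := by simpa using dvd_sub (dvd_mul_right (p : ℤ) m) h4
      exact hp.ne_one (Nat.dvd_one.1 (Int.natCast_dvd_natCast.1 h5))
  have hMc := hab M hMn hMt
  have hcomM : ∀ a ∈ M, ∀ b ∈ M, Commute a b := fun a ha b hb =>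
    congrArg Subtype.val (hMc.1.1 ⟨a, ha⟩ ⟨b, hb⟩)
  have hdec : ∀ g : G, ∃ (i : ℕ) (m : G), m ∈ M ∧ g = x ^ i * m := fun g => by
    obtain ⟨y, hy, c, hc, rfl⟩ := mem_sup_of_normal_right.1 (htop.symm ▸ mem_top g : g ∈ zpowers x ⊔ commutator G)
    obtain ⟨i, rfl⟩ := (mem_powers_iff_mem_zpowers (x := x)).2 hy
    exact ⟨i, c, hM1 hc, rfl⟩
  have hcen : x ^ p ∈ center G := mem_center_iff.2 fun g => by
    obtain ⟨i, m, hm, rfl⟩ := hdec g
    exact ((Commute.pow_pow_self x p i).mul_right (hcomM _ hxp m hm)).eq.symm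
  let A : Subgroup G :=
    { carrier := {a | a ∈ M ∧ (orderOf a).Coprime p}
      mul_mem' := fun {a b} ha hb => ⟨M.mul_mem ha.1 hb.1,
        (Nat.Coprime.mul_left ha.2 hb.2).coprime_dvd_left
          ((hcomM a ha.1 b hb.1).orderOf_mul_dvd_mul_orderOf)⟩
      one_mem' := ⟨M.one_mem, by rw [orderOf_one]; exact Nat.coprime_one_left p⟩
      inv_mem' := fun {a} ha => ⟨M.inv_mem ha.1, by rw [orderOf_inv]; exact ha.2⟩ }
  have hAn : A.Normal := ⟨fun a ha g => ⟨hMn.conj_mem a ha.1 g, by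
    rw [← MulAut.conj_apply, MulEquiv.orderOf_eq]; exact ha.2⟩⟩
  have hpA : ¬ p ∣ Nat.card A := fun hd => by
    obtain ⟨a, ha⟩ := exists_prime_orderOf_dvd_card' (G := A) p hd
    rw [← Subgroup.orderOf_coe] at ha
    have := a.2.2
    rw [ha] at this
    exact hp.ne_one (Nat.eq_one_of_dvd_coprimes this dvd_rfl dvd_rfl)
  -- the quotient by `A` is a cyclic `p`-group
  have hQp : IsPGroup p (G ⧸ A) := by
    intro q
    obtain ⟨g, rfl⟩ := QuotientGroup.mk'_surjective A q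
    obtain ⟨i, m, hm, hg⟩ := hdec g
    have hgp : g ^ p ∈ M := by
      rw [← QuotientGroup.eq_one_iff (N := M), QuotientGroup.mk_pow, hg, QuotientGroup.mk_mul,
        (QuotientGroup.eq_one_iff m).2 hm, mul_one, QuotientGroup.mk_pow, ← pow_mul, mul_comm, pow_mul,
        ← QuotientGroup.mk_pow, (QuotientGroup.eq_one_iff _).2 hxp, one_pow]
    obtain ⟨a, r, hr, ho⟩ := Nat.exists_eq_pow_mul_and_not_dvd (orderOf_pos (g ^ p)).ne' p hp.ne_one
    refine ⟨1 + a, ?_⟩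
    rw [← map_pow, QuotientGroup.mk'_apply, QuotientGroup.eq_one_iff, pow_add, pow_one, pow_mul]
    refine ⟨M.pow_mem hgp _, ?_⟩
    refine (Nat.coprime_comm.1 (hp.coprime_iff_not_dvd.2 hr)).coprime_dvd_left (orderOf_dvd_of_pow_eq_one ?_)
    rw [← pow_mul, ← ho, pow_orderOf_eq_one]
  have : Group.IsNilpotent (G ⧸ A) := hQp.isNilpotent
  have hQtop : zpowers (QuotientGroup.mk' A x) = ⊤ := by
    refine frattini_nongenerating (top_le_iff.1 ?_)
    refine le_trans ?_ (sup_le_sup_left (Core.commutator_le_frattini_of_isNilpotent) _)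
    have h1 := congrArg (Subgroup.map (QuotientGroup.mk' A)) htop
    rw [Subgroup.map_sup, MonoidHom.map_zpowers, Subgroup.map_top_of_surjective _ (QuotientGroup.mk'_surjective A),
      _root_.commutator_def, Subgroup.map_commutator, Subgroup.map_top_of_surjective _ (QuotientGroup.mk'_surjective A)] at h1
    rw [_root_.commutator_def]
    exact h1.ge
  have hsup : zpowers x ⊔ A = ⊤ := by
    refine eq_top_iff.2 fun g _ => ?_
    obtain ⟨i, hi⟩ := mem_zpowers_iff.1 (hQtop.symm ▸ mem_top (QuotientGroup.mk' A g) :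
      QuotientGroup.mk' A g ∈ zpowers (QuotientGroup.mk' A x))
    rw [← map_zpow] at hi
    rw [show g = x ^ i * ((x ^ i)⁻¹ * g) by group]
    exact mul_mem (mem_sup_left (zpow_mem_zpowers x i)) (mem_sup_right (QuotientGroup.eq.1 hi))
  have hdisj : zpowers x ⊓ A = ⊥ := inf_eq_bot_of_coprime (by
    rw [Nat.card_zpowers, hk]
    exact (hp.coprime_iff_not_dvd.2 hpA).pow_left k)
  have hAc : IsMulCommutative A := ⟨⟨fun a b => Subtype.ext (hcomM a a.2.1 b b.2.1).eq⟩⟩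
  refine ⟨x, A, p, hp, hAn, hAc, ⟨k, hk⟩, hpA, ?_, hcen, ?_⟩
  · refine isComplement'_of_disjoint_and_mul_eq_univ (disjoint_iff.2 hdisj) ?_
    rw [← mul_normal (zpowers x) A, hsup, coe_top]
  -- the commutator map with `x` is onto `A`
  let φ : A →* A :=
    { toFun := fun a => ⟨x * a * x⁻¹ * (a : G)⁻¹, A.mul_mem (hAn.conj_mem a a.2 x) (A.inv_mem a.2)⟩
      map_one' := Subtype.ext (by simp)
      map_mul' := fun a b => Subtype.ext (by
        show x * ((a : G) * b) * x⁻¹ * ((a : G) * b)⁻¹ = x * a * x⁻¹ * (a : G)⁻¹ * (x * b * x⁻¹ * (b : G)⁻¹)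
        have h1 : Commute ((a : G)⁻¹) (x * b * x⁻¹) :=
          hcomM _ (M.inv_mem a.2.1) _ (hMn.conj_mem _ b.2.1 x)
        have h2 : Commute ((b : G)⁻¹) ((a : G)⁻¹) := hcomM _ (M.inv_mem b.2.1) _ (M.inv_mem a.2.1)
        calc x * ((a : G) * b) * x⁻¹ * ((a : G) * b)⁻¹
            = x * a * x⁻¹ * (x * b * x⁻¹) * ((b : G)⁻¹ * (a : G)⁻¹) := by group
          _ = x * a * x⁻¹ * ((a : G)⁻¹ * (x * b * x⁻¹)) * (b : G)⁻¹ := by
              rw [h2.eq, h1.eq]; group
          _ = _ := by group) }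
  set R := φ.range.map A.subtype with hR
  have hRA : R ≤ A := map_subtype_le _
  have hconj : ∀ r ∈ R, x * r * x⁻¹ ∈ R := by
    rintro _ ⟨_, ⟨a, rfl⟩, rfl⟩
    refine ⟨φ ⟨x * a * x⁻¹, hAn.conj_mem a a.2 x⟩, ⟨_, rfl⟩, ?_⟩
    show x * (x * (a : G) * x⁻¹) * x⁻¹ * (x * (a : G) * x⁻¹)⁻¹ = x * (x * (a : G) * x⁻¹ * (a : G)⁻¹) * x⁻¹
    group
  have hxN : x ∈ normalizer (R : Set G) := by
    rw [mem_normalizer_iff_map_conj_eq]
    refine eq_of_le_of_card_ge ?_ (card_map_of_injective (MulAut.conj x).injective).ge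
    rintro _ ⟨r, hr, rfl⟩
    exact hconj r hr
  have hAN : A ≤ normalizer ((zpowers x ⊔ R : Subgroup G) : Set G) := by
    intro a ha
    rw [mem_normalizer_iff_map_conj_eq]
    refine eq_of_le_of_card_ge ?_ (card_map_of_injective (MulAut.conj a).injective).ge
    rw [Subgroup.map_sup, MonoidHom.map_zpowers, sup_le_iff, zpowers_le]
    refine ⟨?_, fun _ hr => ?_⟩
    · show a * x * a⁻¹ ∈ zpowers x ⊔ R
      rw [show a * x * a⁻¹ = (x * a * x⁻¹ * a⁻¹)⁻¹ * x by group]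
      exact mul_mem (inv_mem (mem_sup_right ⟨φ ⟨a, ha⟩, ⟨_, rfl⟩, rfl⟩)) (mem_sup_left (mem_zpowers x))
    · obtain ⟨r, hr, rfl⟩ := hr
      show a * r * a⁻¹ ∈ zpowers x ⊔ R
      rw [(hcomM a ha.1 r (hRA hr).1).eq, mul_inv_cancel_right]
      exact mem_sup_right hr
  haveI hSn : (zpowers x ⊔ R).Normal := normalizer_eq_top_iff.1 (top_le_iff.1 (hsup ▸ sup_le
    ((zpowers_le.2 (mem_sup_left (mem_zpowers x))).trans le_normalizer) hAN))
  have hS : zpowers x ⊔ R = ⊤ := by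
    by_contra hne
    have h2 : zpowers x ⊔ R ⊔ commutator G = ⊤ := top_le_iff.1 (htop ▸ sup_le_sup_right le_sup_left _)
    have h3 : commutator G ≤ zpowers x ⊔ R := by
      refine Subgroup.Normal.quotient_commutative_iff_commutator_le.1 ⟨⟨fun u v => ?_⟩⟩
      have hc : ∀ w : G ⧸ (zpowers x ⊔ R), ∃ a ∈ A, QuotientGroup.mk a = w := fun w => by
        obtain ⟨g, rfl⟩ := QuotientGroup.mk_surjective w
        obtain ⟨y, hy, a, ha, rfl⟩ := mem_sup_of_normal_right.1 (hsup.symm ▸ mem_top g : g ∈ zpowers x ⊔ A)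
        exact ⟨a, ha, by rw [QuotientGroup.mk_mul, (QuotientGroup.eq_one_iff y).2 (mem_sup_left hy), one_mul]⟩
      obtain ⟨a, ha, rfl⟩ := hc u
      obtain ⟨b, hb, rfl⟩ := hc v
      rw [← QuotientGroup.mk_mul, ← QuotientGroup.mk_mul, (hcomM a ha.1 b hb.1).eq]
    exact hne (top_le_iff.1 (h2 ▸ sup_le le_rfl h3))
  have hsurj : Function.Surjective φ := by
    intro a
    obtain ⟨y, hy, r, hr, hyr⟩ : ∃ y ∈ zpowers x, ∃ r ∈ R, y * r = (a : G) := by
      have h1 : ((zpowers x ⊔ R : Subgroup G) : Set G) = (zpowers x : Set G) * (R : Set G) :=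
        coe_mul_of_left_le_normalizer_right _ _ (zpowers_le.2 hxN)
      have h2 : (a : G) ∈ ((zpowers x ⊔ R : Subgroup G) : Set G) := by rw [hS]; trivial
      rw [h1] at h2
      exact h2
    have hy1 : y = 1 := by
      rw [← mem_bot, ← hdisj]
      exact ⟨hy, by rw [eq_mul_inv_of_mul_eq hyr]; exact A.mul_mem a.2 (A.inv_mem (hRA hr))⟩
    obtain ⟨_, ⟨c, rfl⟩, rfl⟩ := hr
    exact ⟨c, Subtype.ext (by rw [← hyr, hy1, one_mul]; rfl)⟩
  intro a ha ha1 he
  have hinj := Finite.injective_iff_surjective.2 hsurj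
  have : (⟨a, ha⟩ : A) = 1 := hinj (by
    rw [map_one]
    exact Subtype.ext (by show x * a * x⁻¹ * a⁻¹ = 1; rw [he, mul_inv_cancel]))
  exact ha1 (congrArg Subtype.val this)

/-- Let G be a finite solvable non-nilpotent group. Every non-abelian subgroup of G is self-normalizing if and only if G is a semidirect product ⟨x⟩ ⋉ A in which ⟨x⟩ is a p-group for some prime p, A is a normal abelian subgroup of order prime to p, x^p is central in G, and x acts fixed-point-freely on A (no non-identity element of A commutes with x). -/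
theorem result {G : Type*} [Group G] [Finite G]
    [Group.IsSolvable G] (hnn : ¬ Group.IsNilpotent G) :
    (∀ H : Subgroup G, ¬ IsMulCommutative H → Subgroup.normalizer (H : Set G) = H) ↔
    ∃ (x : G) (A : Subgroup G) (p : ℕ), p.Prime ∧ A.Normal ∧ IsMulCommutative A ∧ (∃ k : ℕ, orderOf x = p ^ k) ∧
      ¬ p ∣ Nat.card A ∧ (Subgroup.zpowers x).IsComplement' A ∧ x ^ p ∈ Subgroup.center G ∧
      ∀ a : G, a ∈ A → a ≠ 1 → x * a * x⁻¹ ≠ a := by
  constructor
  · intro h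
    exact forward hnn h
  · rintro ⟨x, A, p, hp, hAn, hAc, ⟨k, hk⟩, -, hcompl, hxp, hfpf⟩ H hH
    exact backward x A hp hAn hAc hk hcompl hxp hfpf H hH

end Cfsg.Agent.S4071
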