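import Cfsg.Statements.S4072
import Cfsg.Agent.Transfer.Burnside
import Cfsg.Agent.Core.Cores
import Cfsg.Agent.FGS2.SchurTransfer
import Cfsg.Agent.FGS3.PGroupFrattini
-- import your own Cfsg.Agent.* helpers here

set_option autoImplicit false
open Cfsg

namespace Cfsg.Agent.S4072

open scoped commutatorElement

theorem exists_commutator_le_zpowers {P : Type*} [Group P] [Finite P] {p : ℕ} [Fact p.Prime]
    (hP : IsPGroup p P) (hna : ¬ IsMulCommutative P)
    (hsub : ∀ H : Subgroup P, H ≠ ⊤ → IsMulCommutative H) :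
    ∃ c : P, c ^ p = 1 ∧ commutator P ≤ Subgroup.zpowers c := by
  obtain ⟨a, b, hab⟩ : ∃ a b : P, a * b ≠ b * a := by
    by_contra hc
    push Not at hc
    exact hna ⟨⟨hc⟩⟩
  have hgen : ∀ H : Subgroup P, a ∈ H → b ∈ H → H = ⊤ := by
    intro H ha hb
    by_contra hne
    exact hab (congrArg Subtype.val ((hsub H hne).is_comm.comm ⟨a, ha⟩ ⟨b, hb⟩))
  have hmax : ∀ x y : P, x * y ≠ y * x → ∃ M : Subgroup P, IsCoatom M ∧ x ∈ M := by
    intro x y hxy
    have hne : Subgroup.zpowers x ≠ ⊤ := fun h => by
      obtain ⟨k, hk⟩ := Subgroup.mem_zpowers_iff.mp (h ▸ Subgroup.mem_top y)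
      exact hxy (hk ▸ (Commute.refl x).zpow_right k)
    obtain ⟨M, hM, hle⟩ := (eq_top_or_exists_le_coatom _).resolve_left hne
    exact ⟨M, hM, hle (Subgroup.mem_zpowers x)⟩
  obtain ⟨M, hM, haM⟩ := hmax a b hab
  obtain ⟨N, hN, hbN⟩ := hmax b a (Ne.symm hab)
  have hMn := FGS3.normal_of_coatom hP hM
  have hNn := FGS3.normal_of_coatom hP hN
  have hcomm : ∀ (K : Subgroup P), IsCoatom K → ∀ x ∈ K, ∀ y ∈ K, x * y = y * x :=
    fun K hK x hx y hy => congrArg Subtype.val ((hsub K hK.1).is_comm.comm ⟨x, hx⟩ ⟨y, hy⟩)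
  set c := a * b * a⁻¹ * b⁻¹ with hc
  have hcM : c ∈ M := by
    have := mul_mem haM (hMn.conj_mem a⁻¹ (inv_mem haM) b)
    simpa [hc, mul_assoc] using this
  have hcN : c ∈ N := mul_mem (hNn.conj_mem b hbN a) (inv_mem hbN)
  have hcc : c ∈ Subgroup.center P := by
    have h1 : Subgroup.centralizer {c} = ⊤ := hgen _
      (Subgroup.mem_centralizer_singleton_iff.mpr (hcomm M hM a haM c hcM))
      (Subgroup.mem_centralizer_singleton_iff.mpr (hcomm N hN b hbN c hcN))
    exact Subgroup.mem_center_iff.mpr fun x =>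
      Subgroup.mem_centralizer_singleton_iff.mp (h1 ▸ Subgroup.mem_top x)
  refine ⟨c, ?_, ?_⟩
  · have hk : ∀ k : ℕ, a ^ k * b = c ^ k * b * a ^ k := by
      intro k
      induction k with
      | zero => simp
      | succ k ih =>
        have hca := Subgroup.mem_center_iff.mp (pow_mem hcc k) a
        calc a ^ (k + 1) * b = a * (a ^ k * b) := by rw [pow_succ', mul_assoc]
          _ = a * c ^ k * (b * a ^ k) := by rw [ih]; simp only [mul_assoc]
          _ = c ^ k * (a * b) * a ^ k := by rw [hca]; simp only [mul_assoc]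
          _ = c ^ k * (c * b * a) * a ^ k := by
              rw [show c * b * a = a * b by rw [hc]; group]
          _ = c ^ (k + 1) * b * a ^ (k + 1) := by
              rw [pow_succ, pow_succ']; simp only [mul_assoc]
    have hap : a ^ p ∈ N := by
      rw [← QuotientGroup.eq_one_iff, QuotientGroup.mk_pow]
      have h := FGS3.index_of_coatom hP hN
      rw [Subgroup.index_eq_card] at h
      rw [← h]; exact pow_card_eq_one'
    have h2 := hk p
    rw [hcomm N hN _ hap b hbN, mul_assoc, eq_comm, mul_eq_right] at h2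
    exact h2
  · have hn : (Subgroup.zpowers c).Normal := ⟨fun y hy g => by
      obtain ⟨k, rfl⟩ := Subgroup.mem_zpowers_iff.mp hy
      rw [Subgroup.mem_center_iff.mp (zpow_mem hcc k) g, mul_inv_cancel_right]
      exact zpow_mem (Subgroup.mem_zpowers c) k⟩
    let π := QuotientGroup.mk' (Subgroup.zpowers c)
    have h0 : π a * π b = π b * π a := by
      have : π c = 1 := (QuotientGroup.eq_one_iff c).mpr (Subgroup.mem_zpowers c)
      replace this : π (a * b * a⁻¹ * b⁻¹) = 1 := this
      rw [map_mul, map_mul, map_mul, map_inv, map_inv, mul_inv_eq_one, mul_inv_eq_iff_eq_mul]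
        at this
      exact this
    have h1 : ∀ x, π a * π x = π x * π a := fun x => by
      have h : (Subgroup.centralizer {π a}).comap π = ⊤ := hgen _
        (Subgroup.mem_comap.mpr (Subgroup.mem_centralizer_singleton_iff.mpr rfl))
        (Subgroup.mem_comap.mpr (Subgroup.mem_centralizer_singleton_iff.mpr h0.symm))
      exact (Subgroup.mem_centralizer_singleton_iff.mp
        (Subgroup.mem_comap.mp (h ▸ Subgroup.mem_top x : x ∈ Subgroup.comap π _))).symm
    have h2 : ∀ x, π b * π x = π x * π b := fun x => by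
      have h : (Subgroup.centralizer {π b}).comap π = ⊤ := hgen _
        (Subgroup.mem_comap.mpr (Subgroup.mem_centralizer_singleton_iff.mpr h0))
        (Subgroup.mem_comap.mpr (Subgroup.mem_centralizer_singleton_iff.mpr rfl))
      exact (Subgroup.mem_centralizer_singleton_iff.mp
        (Subgroup.mem_comap.mp (h ▸ Subgroup.mem_top x : x ∈ Subgroup.comap π _))).symm
    rw [commutator_def, Subgroup.commutator_le]
    intro x _ y _
    rw [← QuotientGroup.eq_one_iff]
    show π ⁅x, y⁆ = 1
    rw [map_commutatorElement, commutatorElement_eq_one_iff_mul_comm]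
    have h3 : (Subgroup.center (P ⧸ Subgroup.zpowers c)).comap π = ⊤ := by
      refine hgen _ ?_ ?_ <;> refine Subgroup.mem_comap.mpr (Subgroup.mem_center_iff.mpr fun q => ?_)
      · obtain ⟨z, rfl⟩ := QuotientGroup.mk'_surjective (Subgroup.zpowers c) q
        exact (h1 z).symm
      · obtain ⟨z, rfl⟩ := QuotientGroup.mk'_surjective (Subgroup.zpowers c) q
        exact (h2 z).symm
    exact Subgroup.mem_center_iff.mp
      (Subgroup.mem_comap.mp (h3 ▸ Subgroup.mem_top y : y ∈ Subgroup.comap π _)) (π x)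

/-- A finite group in which every non-abelian subgroup is self-normalizing is solvable or simple. -/
theorem result {G : Type*} [Group G] [Finite G] (hS : ∀ H : Subgroup G, ¬ IsMulCommutative H → Subgroup.normalizer (H : Set G) = H) :
    Group.IsSolvable G ∨ IsSimpleGroup G := by
  classical
  by_cases hs : IsSimpleGroup G
  · exact Or.inr hs
  by_cases hsol : Group.IsSolvable G
  · exact Or.inl hsol
  exfalso
  have : Nontrivial G := by
    by_contra hn
    rw [not_nontrivial_iff_subsingleton] at hn
    exact hsol inferInstance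
  -- proper normal subgroups are abelian
  have hab : ∀ N : Subgroup G, N.Normal → N ≠ ⊤ → IsMulCommutative N := by
    intro N hN hne
    by_contra hn
    exact hne (top_le_iff.mp ((hS N hn) ▸ Subgroup.le_normalizer_of_normal))
  have hperf : commutator G = ⊤ := by
    by_contra hne
    refine hsol ?_
    have := hab _ inferInstance hne
    have : Group.IsSolvable (commutator G) := Group.isSolvable_of_comm fun a b => mul_comm' a b
    exact Group.isSolvable_of_ker_le_range (commutator G).subtype Abelianization.of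
      (by rw [Abelianization.ker_of, Subgroup.range_subtype])
  have hnormal : ∀ N : Subgroup G, N.Normal → N ≠ ⊤ → N ≠ ⊥ → ∀ M : Subgroup G, M.Normal → M ≠ ⊤ →
      N ⊔ M ≠ ⊤ := by
    intro N hN hNt _ M hM hMt htop
    refine hsol ?_
    have := hab N hN hNt
    have := hab M hM hMt
    have : Group.IsSolvable N := Group.isSolvable_of_comm fun a b => mul_comm' a b
    have : Group.IsSolvable M := Group.isSolvable_of_comm fun a b => mul_comm' a b
    have h1 : Group.IsSolvable (G ⧸ N) := by
      have hsurj : Function.Surjective ((QuotientGroup.mk' N).comp M.subtype) := by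
        intro q
        obtain ⟨g, rfl⟩ := QuotientGroup.mk'_surjective N q
        obtain ⟨a, ha, b, hb, rfl⟩ := Subgroup.mem_sup_of_normal_left.mp (htop ▸ Subgroup.mem_top g)
        refine ⟨⟨b, hb⟩, ?_⟩
        have : QuotientGroup.mk' N a = 1 := (QuotientGroup.eq_one_iff a).mpr ha
        rw [map_mul, this, one_mul]; rfl
      exact Group.isSolvable_of_surjective hsurj
    exact Group.isSolvable_of_ker_le_range N.subtype (QuotientGroup.mk' N)
      (by rw [QuotientGroup.ker_mk', Subgroup.range_subtype])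
  obtain ⟨N₀, hN₀, hN₀b, hN₀t⟩ : ∃ N : Subgroup G, N.Normal ∧ N ≠ ⊥ ∧ N ≠ ⊤ := by
    by_contra hc
    push Not at hc
    exact hs ⟨fun N hN => or_iff_not_imp_left.mpr (hc N hN)⟩
  obtain ⟨R, ⟨hRn, hRb, hRt⟩, hRmax⟩ := (Set.toFinite
    {N : Subgroup G | N.Normal ∧ N ≠ ⊥ ∧ N ≠ ⊤}).exists_maximal ⟨N₀, hN₀, hN₀b, hN₀t⟩
  have hle : ∀ N : Subgroup G, N.Normal → N ≠ ⊤ → N ≤ R := by
    intro N hN hNt
    have h1 : (R ⊔ N).Normal := Subgroup.sup_normal R N
    exact le_sup_right.trans (hRmax ⟨h1, fun h => hRb (le_bot_iff.mp (h ▸ le_sup_left)),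
      hnormal R hRn hRt hRb N hN hNt⟩ le_sup_left)
  have hRab := hab R hRn hRt
  -- the quotient
  let π := QuotientGroup.mk' R
  have hπ : Function.Surjective π := QuotientGroup.mk'_surjective R
  have hQnt : Nontrivial (G ⧸ R) := QuotientGroup.nontrivial_iff.mpr hRt
  have hQs : IsSimpleGroup (G ⧸ R) := by
    refine ⟨fun K hK => ?_⟩
    by_cases h : K.comap π = ⊤
    · refine Or.inr (top_le_iff.mp fun x _ => ?_)
      obtain ⟨g, rfl⟩ := hπ x
      exact Subgroup.mem_comap.mp (h ▸ Subgroup.mem_top g : g ∈ K.comap π)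
    · refine Or.inl (le_bot_iff.mp fun x hx => ?_)
      obtain ⟨g, rfl⟩ := hπ x
      exact (QuotientGroup.eq_one_iff g).mpr (hle _ (hK.comap π) h hx)
  have hQna : ¬ IsMulCommutative (G ⧸ R) := by
    intro h
    refine hsol ?_
    have : Group.IsSolvable (G ⧸ R) := Group.isSolvable_of_comm fun a b => mul_comm' a b
    have : Group.IsSolvable R := Group.isSolvable_of_comm fun a b => mul_comm' a b
    exact Group.isSolvable_of_ker_le_range R.subtype π
      (by rw [QuotientGroup.ker_mk', Subgroup.range_subtype])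
  have hfin : ∀ (p : ℕ), p.Prime → p ∣ Nat.card (G ⧸ R) → ∀ S : Sylow p (G ⧸ R),
      IsMulCommutative (S : Subgroup (G ⧸ R)) →
      Subgroup.normalizer ((S : Subgroup (G ⧸ R)) : Set (G ⧸ R)) = (S : Subgroup (G ⧸ R)) → False := by
    intro p hp hpd S hSab hSN
    have := Fact.mk hp
    have hle' : Subgroup.normalizer ((S : Subgroup (G ⧸ R)) : Set (G ⧸ R)) ≤
        Subgroup.centralizer ((S : Subgroup (G ⧸ R)) : Set (G ⧸ R)) := by
      rw [hSN]
      intro x hx
      exact Subgroup.mem_centralizer_iff.mpr fun y hy =>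
        congrArg Subtype.val (hSab.is_comm.comm ⟨y, hy⟩ ⟨x, hx⟩)
    obtain ⟨P, N, hN, hc⟩ := Transfer.hasNormalPComplement_of_normalizer_le_centralizer S hle'
    rcases hN.eq_bot_or_eq_top with rfl | rfl
    · have hP : (P : Subgroup (G ⧸ R)) = ⊤ := Subgroup.isComplement'_bot_left.mp hc
      have hpg : IsPGroup p (G ⧸ R) := by
        have := P.isPGroup'
        rw [hP] at this
        exact this.of_equiv Subgroup.topEquiv
      refine hQna ⟨⟨fun a b => ?_⟩⟩
      have := hpg.center_nontrivial
      have h1 : Subgroup.center (G ⧸ R) = ⊤ := by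
        refine (Subgroup.Normal.eq_bot_or_eq_top inferInstance).resolve_left ?_
        exact (Subgroup.nontrivial_iff_ne_bot _).mp this
      exact (Subgroup.mem_center_iff.mp (h1 ▸ Subgroup.mem_top b) a)
    · have hP : (P : Subgroup (G ⧸ R)) = ⊥ := Subgroup.isComplement'_top_left.mp hc
      exact P.ne_bot_of_dvd_card hpd hP
  by_cases hRc : R ≤ Subgroup.center G
  · -- central case
    obtain ⟨p, hp, hpd⟩ := Nat.exists_prime_and_dvd (n := Nat.card R)
      (fun h => hRb (Subgroup.eq_bot_of_card_eq R h))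
    have := Fact.mk hp
    obtain ⟨⟨z, hzR⟩, hz⟩ := exists_prime_orderOf_dvd_card' p hpd
    rw [Subgroup.orderOf_mk] at hz
    have hzc := hRc hzR
    let P : Sylow p G := default
    have hzP : z ∈ (P : Subgroup G) := by
      have hn : (Subgroup.zpowers z).Normal := ⟨fun y hy g => by
        obtain ⟨k, rfl⟩ := Subgroup.mem_zpowers_iff.mp hy
        rw [Subgroup.mem_center_iff.mp (zpow_mem hzc k) g, mul_inv_cancel_right]
        exact zpow_mem (Subgroup.mem_zpowers z) k⟩
      exact Core.pCore_le_sylow P (Core.le_pCore hn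
        (IsPGroup.of_card (n := 1) (by rw [Nat.card_zpowers, hz, pow_one]))
        (Subgroup.mem_zpowers z))
    obtain ⟨hzi, hzi'⟩ := FGS2.pow_index_mem_commutator (P : Subgroup G) hzc
      (hperf ▸ Subgroup.mem_top z)
    have hzi1 : z ^ (P : Subgroup G).index ≠ 1 := by
      intro h
      have hd := orderOf_dvd_of_pow_eq_one h
      rw [hz] at hd
      exact P.not_dvd_index hd
    have hPna : ¬ IsMulCommutative (P : Subgroup G) := by
      intro h
      have h0 : commutator (P : Subgroup G) = ⊥ := by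
        rw [commutator_def, Subgroup.commutator_eq_bot_iff_le_centralizer]
        intro x _
        exact Subgroup.mem_centralizer_iff.mpr fun y _ => h.is_comm.comm y x
      rw [h0, Subgroup.mem_bot] at hzi'
      exact hzi1 (congrArg Subtype.val hzi')
    have hPp := P.isPGroup'
    have hsub : ∀ H : Subgroup (P : Subgroup G), H ≠ ⊤ → IsMulCommutative H := by
      intro H hH
      by_contra hn
      have hn' : ¬ IsMulCommutative (H.map (P : Subgroup G).subtype) := fun h => by
        refine hn ⟨⟨fun a b => ?_⟩⟩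
        have := congrArg Subtype.val (h.is_comm.comm
          ⟨_, Subgroup.mem_map_of_mem (P : Subgroup G).subtype a.2⟩
          ⟨_, Subgroup.mem_map_of_mem (P : Subgroup G).subtype b.2⟩)
        exact Subtype.ext (Subtype.ext this)
      have h1 := hS _ hn'
      have : Group.IsNilpotent (P : Subgroup G) := hPp.isNilpotent
      refine ne_of_gt ((Group.normalizerCondition_of_isNilpotent :
        NormalizerCondition (P : Subgroup G)) H (lt_top_iff_ne_top.2 hH)) ?_
      refine le_antisymm (fun x hx => ?_) Subgroup.le_normalizer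
      have h2 : ((x : G)) ∈ Subgroup.normalizer
          ((H.map (P : Subgroup G).subtype : Subgroup G) : Set G) :=
        Subgroup.le_normalizer_map _ (Subgroup.mem_map_of_mem (P : Subgroup G).subtype hx)
      rw [h1] at h2
      exact (Subgroup.mem_map_iff_mem (P : Subgroup G).subtype_injective).mp h2
    obtain ⟨c, hc1, hcle⟩ := exists_commutator_le_zpowers hPp hPna hsub
    have hcR : commutator (P : Subgroup G) ≤ R.comap (P : Subgroup G).subtype := by
      refine hcle.trans (Subgroup.zpowers_le.mpr ?_)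
      obtain ⟨k, hk⟩ := Subgroup.mem_zpowers_iff.mp (hcle hzi')
      have hne : ¬ (p : ℤ) ∣ k := by
        rintro ⟨m, rfl⟩
        rw [zpow_mul, zpow_natCast, hc1, one_zpow] at hk
        exact hzi1 (congrArg Subtype.val hk).symm
      obtain ⟨u, v, huv⟩ := (Nat.prime_iff_prime_int.mp hp).coprime_iff_not_dvd.mpr hne
      have : c = (c ^ k) ^ v := by
        conv_lhs => rw [← zpow_one c, ← huv]
        rw [zpow_add, mul_comm u, zpow_mul, zpow_natCast, hc1, one_zpow, one_mul, mul_comm v,
          zpow_mul]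
      rw [this, hk]
      exact zpow_mem (Subgroup.mem_comap.mpr (pow_mem hzR _)) v
    let S : Sylow p (G ⧸ R) := P.mapSurjective hπ
    have hSab : IsMulCommutative (S : Subgroup (G ⧸ R)) := by
      refine ⟨⟨?_⟩⟩
      rintro ⟨_, a, ha, rfl⟩ ⟨_, b, hb, rfl⟩
      apply Subtype.ext
      show π a * π b = π b * π a
      have h1 : ⁅(⟨a, ha⟩ : (P : Subgroup G)), ⟨b, hb⟩⁆ ∈ commutator (P : Subgroup G) :=
        Subgroup.commutator_mem_commutator (Subgroup.mem_top _) (Subgroup.mem_top _)
      have h2 : π ⁅a, b⁆ = 1 := (QuotientGroup.eq_one_iff _).mpr (hcR h1)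
      rw [map_commutatorElement, commutatorElement_eq_one_iff_mul_comm] at h2
      exact h2
    have hPR : (P : Subgroup G) ≤ (S : Subgroup (G ⧸ R)).comap π :=
      fun x hx => Subgroup.mem_map_of_mem π hx
    have hH : ¬ IsMulCommutative ((S : Subgroup (G ⧸ R)).comap π) := fun h => hPna ⟨⟨fun a b =>
      Subtype.ext (congrArg Subtype.val (h.is_comm.comm ⟨a, hPR a.2⟩ ⟨b, hPR b.2⟩) : _)⟩⟩
    refine hfin p hp ?_ S hSab ?_
    · by_contra hnd
      have hSb : (S : Subgroup (G ⧸ R)) = ⊥ := Subgroup.eq_bot_of_card_eq _ (by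
        rw [S.card_eq_multiplicity, Nat.factorization_eq_zero_of_not_dvd hnd, pow_zero])
      refine hH ?_
      rw [hSb, MonoidHom.comap_bot, QuotientGroup.ker_mk']
      exact hRab
    · apply Subgroup.comap_injective hπ
      rw [Subgroup.comap_normalizer_eq_of_surjective _ hπ, hS _ hH]
  · -- non-central case
    have hcent : ∀ g : G, g ∉ R → ∃ r ∈ R, r * g ≠ g * r := by
      intro g hg
      by_contra hc
      push Not at hc
      have hne : Subgroup.centralizer (R : Set G) ≠ ⊤ := by
        intro h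
        refine hRc fun r hr => Subgroup.mem_center_iff.mpr fun x => ?_
        exact (Subgroup.mem_centralizer_iff.mp (h ▸ Subgroup.mem_top x) r hr).symm
      exact hg (hle _ inferInstance hne (Subgroup.mem_centralizer_iff.mpr hc))
    obtain ⟨p, hp, hpd⟩ := Nat.exists_prime_and_dvd (n := Nat.card (G ⧸ R))
      Finite.one_lt_card.ne'
    have := Fact.mk hp
    let S : Sylow p (G ⧸ R) := default
    have : Nontrivial (S : Subgroup (G ⧸ R)) :=
      (Subgroup.nontrivial_iff_ne_bot _).mpr (S.ne_bot_of_dvd_card hpd)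
    have := S.isPGroup'.center_nontrivial
    obtain ⟨⟨⟨z, hzS⟩, hzc⟩, hz1⟩ := exists_ne (1 : Subgroup.center (S : Subgroup (G ⧸ R)))
    have hz1' : z ≠ 1 := fun h1 => hz1 (Subtype.ext (Subtype.ext h1))
    have hH : ¬ IsMulCommutative ((Subgroup.zpowers z).comap π) := by
      intro h
      obtain ⟨g, rfl⟩ := hπ z
      obtain ⟨r, hr, hne⟩ := hcent g fun hg => hz1' ((QuotientGroup.eq_one_iff g).mpr hg)
      refine hne (congrArg Subtype.val (h.is_comm.comm ⟨r, ?_⟩ ⟨g, Subgroup.mem_zpowers _⟩) : _)
      rw [Subgroup.mem_comap, show π r = 1 from (QuotientGroup.eq_one_iff r).mpr hr]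
      exact one_mem _
    have hN : Subgroup.normalizer ((Subgroup.zpowers z : Subgroup (G ⧸ R)) : Set (G ⧸ R)) =
        Subgroup.zpowers z := by
      apply Subgroup.comap_injective hπ
      rw [Subgroup.comap_normalizer_eq_of_surjective _ hπ, hS _ hH]
    have hSz : (S : Subgroup (G ⧸ R)) = Subgroup.zpowers z := by
      refine le_antisymm (fun s hs => hN ▸ ?_) (Subgroup.zpowers_le.mpr hzS)
      have hsz : Commute s z := congrArg Subtype.val (Subgroup.mem_center_iff.mp hzc ⟨s, hs⟩)
      refine Subgroup.mem_normalizer_iff.mpr fun y => ?_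
      have hk : ∀ k : ℤ, s * z ^ k * s⁻¹ = z ^ k := fun k => by
        rw [(hsz.zpow_right k).eq, mul_inv_cancel_right]
      constructor
      · intro hy
        obtain ⟨k, rfl⟩ := Subgroup.mem_zpowers_iff.mp hy
        rw [hk]; exact hy
      · intro hy
        obtain ⟨k, hk'⟩ := Subgroup.mem_zpowers_iff.mp hy
        have : y = z ^ k := mul_left_cancel (mul_right_cancel (hk'.symm.trans (hk k).symm))
        rw [this]; exact Subgroup.zpow_mem _ (Subgroup.mem_zpowers z) k
    refine hfin p hp hpd S ?_ (by rw [hSz]; exact hN)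
    rw [hSz]; infer_instance

end Cfsg.Agent.S4072
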