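import Cfsg.Statements.S4074
import Cfsg.Agent.FGS2.DihedralSub
-- import your own Cfsg.Agent.* helpers here

set_option autoImplicit false
open Cfsg

namespace Cfsg.Agent.S4074

/-- For n > 2, every non-abelian subgroup of the dihedral group of order 2n is self-normalizing if and only if n = 4 or n is odd. -/
theorem result (n : ℕ) (hn : 2 < n) :
    (∀ H : Subgroup (DihedralGroup n), ¬ IsMulCommutative H → Subgroup.normalizer (H : Set (DihedralGroup n)) = H) ↔
    (n = 4 ∨ Odd n) := by
  constructor
  · intro h
    by_contra hc
    push Not at hc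
    obtain ⟨h4, hodd⟩ := hc
    rw [Nat.not_odd_iff_even, even_iff_two_dvd] at hodd
    have hna : ¬ IsMulCommutative (FGS2.dihedralSub 2 hodd) := by
      refine FGS2.not_isMulCommutative_dihedralSub hodd fun hd => ?_
      rcases (Nat.dvd_prime_pow Nat.prime_two (m := 2)).mp hd with ⟨k, hk, rfl⟩
      interval_cases k <;> simp_all
    have hN := h _ hna
    have h1 : DihedralGroup.r (1 : ZMod n) ∈ Subgroup.normalizer
        ((FGS2.dihedralSub 2 hodd : Subgroup (DihedralGroup n)) : Set (DihedralGroup n)) := by
      refine Subgroup.mem_normalizer_iff.mpr ?_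
      have h20 : (2 : ZMod 2) = 0 := by decide
      rintro (a | a) <;>
        simp [DihedralGroup.inv_r, FGS2.r_mem_dihedralSub, FGS2.sr_mem_dihedralSub, sub_eq_add_neg,
          add_assoc, ← two_mul, h20, map_ofNat, map_add, map_neg, -ZMod.castHom_apply]
    rw [hN, FGS2.r_mem_dihedralSub, map_one] at h1
    exact one_ne_zero h1
  · intro hn' H hH
    refine le_antisymm ?_ Subgroup.le_normalizer
    obtain ⟨i, hi⟩ := FGS2.exists_sr_mem hH
    rcases hn' with rfl | hodd
    · obtain ⟨k, hk, hk2⟩ : ∃ k : ZMod 4, DihedralGroup.r k ∈ H ∧ k + k ≠ 0 := by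
        by_contra hc
        push Not at hc
        refine hH ⟨⟨?_⟩⟩
        rintro ⟨a | a, ha⟩ ⟨b | b, hb⟩ <;> refine Subtype.ext ?_
        · simp [add_comm]
        · have := hc a ha
          simp only [Subgroup.coe_mul, DihedralGroup.r_mul_sr, DihedralGroup.sr_mul_r]
          rw [sub_eq_add_neg, neg_eq_of_add_eq_zero_right this]
        · have := hc b hb
          simp only [Subgroup.coe_mul, DihedralGroup.r_mul_sr, DihedralGroup.sr_mul_r]
          rw [sub_eq_add_neg, neg_eq_of_add_eq_zero_right this]
        · have h1 : DihedralGroup.r (b - a) ∈ H := by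
            simpa using mul_mem ha hb
          have := hc _ h1
          simp only [Subgroup.coe_mul, DihedralGroup.sr_mul_sr]
          rw [← neg_sub b a, neg_eq_of_add_eq_zero_right this]
      have hall : ∀ x : ZMod 4, ∃ m : ℕ, x = (m : ZMod 4) * k := by
        have key : ∀ k x : ZMod 4, k + k ≠ 0 → ∃ m : Fin 4, x = ((m : ℕ) : ZMod 4) * k := by decide
        intro x
        obtain ⟨m, hm⟩ := key k x hk2
        exact ⟨m, hm⟩
      have hr : ∀ x : ZMod 4, DihedralGroup.r x ∈ H := fun x => by
        obtain ⟨m, rfl⟩ := hall x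
        have := pow_mem hk m
        rwa [DihedralGroup.r_pow, mul_comm] at this
      rintro (a | a) -
      · exact hr a
      · have := mul_mem hi (hr (a - i))
        rwa [DihedralGroup.sr_mul_r, add_sub_cancel] at this
    · intro g hg
      have key : ∀ a, DihedralGroup.r a ∈ Subgroup.normalizer (H : Set (DihedralGroup n)) →
          DihedralGroup.r a ∈ H := by
        intro a ha
        have h1 := mul_mem ((Subgroup.mem_normalizer_iff.mp ha (DihedralGroup.sr i)).mp hi) hi
        simp only [DihedralGroup.inv_r, DihedralGroup.r_mul_sr, DihedralGroup.sr_mul_r,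
          DihedralGroup.sr_mul_sr] at h1
        obtain ⟨m, hm⟩ := hodd
        have h2 := pow_mem h1 (m + 1)
        rw [DihedralGroup.r_pow] at h2
        convert h2 using 2
        have h3 : ((2 * m + 1 : ℕ) : ZMod n) = 0 := by rw [← hm]; exact ZMod.natCast_self n
        push_cast at h3 ⊢
        linear_combination -a * h3
      rcases g with a | a
      · exact key a hg
      · have h1 := mul_mem (Subgroup.le_normalizer hi) hg
        rw [DihedralGroup.sr_mul_sr] at h1
        have := mul_mem hi (key _ h1)
        rwa [DihedralGroup.sr_mul_r, add_sub_cancel] at this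

end Cfsg.Agent.S4074
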