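import Cfsg.Statements.S4075
import Cfsg.Agent.OddLocal.Basic
import Cfsg.Agent.Core.Fitting
-- import your own Cfsg.Agent.* helpers here

set_option autoImplicit false
open Cfsg

namespace Cfsg.Agent.S4075

/-- Let G be a finite nilpotent group. Every non-abelian subgroup of G is self-normalizing if and only if G is abelian or G is a minimal non-abelian p-group for some prime p (non-abelian of prime-power order with every proper subgroup abelian). -/
theorem result {G : Type*} [Group G] [Finite G]
    [Group.IsNilpotent G] :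
    (∀ H : Subgroup G, ¬ IsMulCommutative H → Subgroup.normalizer (H : Set G) = H) ↔
    (IsMulCommutative G ∨ (IsPrimePow (Nat.card G) ∧ ¬ IsMulCommutative G ∧ ∀ H : Subgroup G, H ≠ ⊤ → IsMulCommutative H)) := by
  classical
  constructor
  · intro h
    by_cases hG : IsMulCommutative G
    · exact Or.inl hG
    have hab : ∀ H : Subgroup G, H ≠ ⊤ → IsMulCommutative H := by
      intro H hH
      by_contra hn
      exact ne_of_gt ((Group.normalizerCondition_of_isNilpotent : NormalizerCondition G) H (lt_top_iff_ne_top.2 hH)) (h H hn)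
    refine Or.inr ⟨?_, hG, hab⟩
    by_contra hpp
    apply hG
    refine ⟨⟨fun a b => ?_⟩⟩
    have key : ∀ (q : ℕ) [Fact q.Prime] (Q : Sylow q G), ∀ x ∈ (Q : Subgroup G),
        Subgroup.centralizer ({x} : Set G) = ⊤ := by
      intro q _ Q x hx
      refine Cfsg.Agent.Core.eq_top_of_forall_exists_sylow_le fun r hr => ?_
      have := Fact.mk hr
      rcases eq_or_ne r q with rfl | hne
      · refine ⟨Q, fun y hy => Subgroup.mem_centralizer_singleton_iff.2 ?_⟩
        have hQne : (Q : Subgroup G) ≠ ⊤ := by
          intro htop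
          apply hpp
          obtain ⟨k, hk⟩ := IsPGroup.iff_card.1 Q.2
          rw [htop, Subgroup.card_top] at hk
          have hk0 : k ≠ 0 := by
            rintro rfl
            rw [pow_zero] at hk
            have := (Nat.card_eq_one_iff_unique.1 hk).1
            exact hG ⟨⟨fun a b => Subsingleton.elim _ _⟩⟩
          rw [hk]
          exact ⟨r, k, Nat.prime_iff.1 Fact.out, Nat.pos_of_ne_zero hk0, rfl⟩
        exact congrArg Subtype.val ((hab _ hQne).is_comm.comm ⟨y, hy⟩ ⟨x, hx⟩)
      · obtain ⟨R⟩ : Nonempty (Sylow r G) := inferInstance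
        refine ⟨R, fun y hy => Subgroup.mem_centralizer_singleton_iff.2 ?_⟩
        refine (Cfsg.Agent.OddLocal.commute_of_coprime_orderOf ?_).eq
        obtain ⟨i, hi⟩ := IsPGroup.iff_orderOf.1 R.2 ⟨y, hy⟩
        obtain ⟨j, hj⟩ := IsPGroup.iff_orderOf.1 Q.2 ⟨x, hx⟩
        rw [Subgroup.orderOf_mk] at hi hj
        rw [hi, hj]
        exact ((Nat.coprime_primes hr Fact.out).2 hne).pow i j
    have h2 : Subgroup.centralizer ({b} : Set G) = ⊤ := by
      refine Cfsg.Agent.Core.eq_top_of_forall_exists_sylow_le fun q hq => ?_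
      have := Fact.mk hq
      obtain ⟨Q⟩ : Nonempty (Sylow q G) := inferInstance
      refine ⟨Q, fun y hy => Subgroup.mem_centralizer_singleton_iff.2 ?_⟩
      exact (Subgroup.mem_centralizer_singleton_iff.1 (key q Q y hy ▸ Subgroup.mem_top b)).symm
    exact Subgroup.mem_centralizer_singleton_iff.1 (h2 ▸ Subgroup.mem_top a)
  · rintro (hG | ⟨-, -, hab⟩) H hH
    · exact absurd ⟨⟨fun a b => Subtype.ext (hG.is_comm.comm (a : G) b)⟩⟩ hH
    · have : H = ⊤ := by
        by_contra hne
        exact hH (hab H hne)
      subst this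
      exact top_le_iff.1 Subgroup.le_normalizer

end Cfsg.Agent.S4075
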