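import Cfsg.Statements.S4080
-- import your own Cfsg.Agent.* helpers here

set_option autoImplicit false
open Cfsg

namespace Cfsg.Agent.S4080

theorem fix_torsion {V : Type*} [AddCommGroup V] [Finite V] {p : ℕ} [hp' : Fact p.Prime] (hp : 4 ≤ p)
    (hsq : ∀ v : V, p • p • v = 0) (htor : ∀ v : V, p • v = 0 → ∃ w, v = p • w)
    (hV : Nat.card V = p ^ 4) (φ : AddMonoid.End V) (hφ : φ ^ p = 1) (v : V) (hv : p • v = 0) :
    φ v = v := by
  set N : AddMonoid.End V := φ - 1 with hN
  have hNφ : φ = N + 1 := by rw [hN]; abel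
  have hbin : ∀ u, u = ∑ m ∈ Finset.range (p + 1), p.choose m • (N ^ m) u := by
    intro u
    have h : (1 : AddMonoid.End V) = ∑ m ∈ Finset.range (p + 1), p.choose m • N ^ m := by
      rw [← hφ, hNφ, (Commute.one_right N).add_pow]
      refine Finset.sum_congr rfl fun m _ => ?_
      rw [one_pow, mul_one, nsmul_eq_mul, (Nat.cast_commute _ _).eq]
    let ev : AddMonoid.End V →+ V := AddMonoidHom.mk' (fun g => g u) fun a b => rfl
    exact (congrArg ev h).trans (by rw [map_sum]; exact Finset.sum_congr rfl fun m _ => map_nsmul ev _ _)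
  have hNp : ∀ u, (N ^ p) (p • u) = 0 := by
    intro u
    have h := hbin (p • u)
    rw [Finset.sum_range_succ, Finset.sum_eq_single 0] at h
    · simpa using h
    · intro m hm hm0
      obtain ⟨c, hc⟩ := hp'.out.dvd_choose_self hm0 (Finset.mem_range.1 hm)
      rw [hc, mul_comm, mul_smul, ← map_nsmul, hsq, map_zero, smul_zero]
    · intro h0; exact absurd (Finset.mem_range.2 hp'.out.pos) h0
  let W := (nsmulAddMonoidHom p : V →+ V).range
  have hWk : W = (nsmulAddMonoidHom p : V →+ V).ker := by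
    refine le_antisymm ?_ ?_
    · rintro _ ⟨u, rfl⟩; exact hsq u
    · intro u hu
      obtain ⟨w, hw⟩ := htor u hu
      exact ⟨w, hw.symm⟩
  have hW : Nat.card W = p ^ 2 := by
    have h1 := AddSubgroup.card_eq_card_quotient_mul_card_addSubgroup (nsmulAddMonoidHom p : V →+ V).ker
    rw [Nat.card_congr (QuotientAddGroup.quotientKerEquivRange _).toEquiv, hV, ← hWk, ← sq] at h1
    exact (Nat.pow_left_injective two_ne_zero (show (p ^ 2) ^ 2 = Nat.card W ^ 2 by rw [← h1]; ring)).symm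
  have hWN : ∀ w ∈ W, N w ∈ W := by
    rintro _ ⟨u, rfl⟩
    exact ⟨N u, (map_nsmul N p u).symm⟩
  let f : W →+ W := (AddMonoidHom.comp (N : V →+ V) W.subtype).codRestrict W fun w => hWN w w.2
  have hf : ∀ (n : ℕ) (w : W), ((f^[n] w : W) : V) = (N ^ n) w := by
    intro n
    induction n with
    | zero => intro w; rfl
    | succ n ih => intro w; rw [Function.iterate_succ_apply, ih, pow_succ]; rfl
  have hfp : ∀ w : W, f^[p] w = 0 := by
    rintro ⟨_, u, rfl⟩
    exact Subtype.ext ((hf p _).trans (hNp u))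
  have hlt : ∀ S : AddSubgroup W, S.map f = S → S = ⊥ := by
    intro S hS
    have key : ∀ n, ∀ w ∈ S, ∃ u ∈ S, f^[n] u = w := by
      intro n
      induction n with
      | zero => exact fun w hw => ⟨w, hw, rfl⟩
      | succ n ih =>
        intro w hw
        obtain ⟨u, hu, rfl⟩ := ih w hw
        rw [← hS] at hu
        obtain ⟨t, ht, rfl⟩ := hu
        exact ⟨t, ht, Function.iterate_succ_apply f n t⟩
    rw [eq_bot_iff]
    intro w hw
    obtain ⟨u, -, rfl⟩ := key p w hw
    exact AddSubgroup.mem_bot.2 (hfp u)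
  have hN2 : ∀ u, (N ^ 2) (p • u) = 0 := by
    intro u
    let S1 := (⊤ : AddSubgroup W).map f
    let S2 := S1.map f
    have hS2 : S2 = ⊥ := by
      by_contra hne
      have h1ne : S1 ≠ ⊤ := fun h => hne (by
        have := hlt ⊤ h
        exact eq_bot_iff.2 (le_top.trans this.le))
      have h2ne : S2 ≠ S1 := fun h => hne (h.trans (hlt S1 h))
      have h21 : S2 ≤ S1 := AddSubgroup.map_mono le_top
      obtain ⟨i, hi, hci⟩ := (Nat.dvd_prime_pow hp'.out).1 (hW ▸ S1.card_addSubgroup_dvd_card)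
      obtain ⟨j, hj, hcj⟩ := (Nat.dvd_prime_pow hp'.out).1 (hW ▸ S2.card_addSubgroup_dvd_card)
      have hi2 : i ≠ 2 := fun h => h1ne (AddSubgroup.eq_top_of_card_eq _ (by rw [hci, h, hW]))
      have hj0 : j ≠ 0 := fun h => hne (AddSubgroup.card_eq_one.1 (by simpa [h] using hcj))
      have hji : p ^ j < p ^ i := by
        rw [← hci, ← hcj]
        exact Set.ncard_lt_ncard (SetLike.coe_ssubset_coe.2 (lt_of_le_of_ne h21 h2ne)) (Set.toFinite _)
      have := (Nat.pow_lt_pow_iff_right hp'.out.one_lt).1 hji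
      omega
    have hm : f (f ⟨p • u, u, rfl⟩) ∈ S2 := ⟨_, ⟨_, trivial, rfl⟩, rfl⟩
    rw [hS2, AddSubgroup.mem_bot] at hm
    exact (hf 2 ⟨p • u, u, rfl⟩).symm.trans (congrArg Subtype.val hm)
  have hN2' : ∀ m, 2 ≤ m → ∀ u, p • (N ^ m) u = 0 := by
    intro m hm u
    obtain ⟨k, rfl⟩ := Nat.exists_eq_add_of_le hm
    rw [add_comm, pow_add, ← map_nsmul, AddMonoid.End.coe_mul, Function.comp_apply, hN2, map_zero]
  have hN4 : ∀ u, (N ^ p) u = 0 := by
    intro u
    obtain ⟨w, hw⟩ := htor _ (hN2' 2 le_rfl u)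
    obtain ⟨k, hk⟩ := Nat.exists_eq_add_of_le hp
    rw [hk, show 4 + k = k + 2 + 2 by omega, pow_add, pow_add, AddMonoid.End.coe_mul, Function.comp_apply,
      AddMonoid.End.coe_mul, Function.comp_apply, hw, hN2, map_zero]
  have hpN : ∀ u, p • N u = 0 := by
    intro u
    have h := hbin u
    rw [Finset.sum_range_succ, hN4, smul_zero, add_zero,
      ← Finset.sum_subset (Finset.range_subset_range.2 (by omega : 2 ≤ p)),
      Finset.sum_range_succ, Finset.sum_range_one] at h
    · simpa using h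
    · intro m hm hm2
      have hm2' : 2 ≤ m := by rw [Finset.mem_range] at hm2; omega
      obtain ⟨c, hc⟩ := hp'.out.dvd_choose_self (by omega) (Finset.mem_range.1 hm)
      rw [hc, mul_comm, mul_smul, hN2' m hm2', smul_zero]
  obtain ⟨w, hw⟩ := htor v hv
  have h0 : N v = 0 := by rw [hw, map_nsmul]; exact hpN w
  rw [hNφ]
  show N v + v = v
  rw [h0, zero_add]


/-- Let p > 3 be a prime and L the direct product of two cyclic groups of order p². Every automorphism of L of order p fixes every element of order p of L. -/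
theorem result {p : ℕ} [Fact p.Prime] (hp : 3 < p)
    (a : MulAut (Multiplicative (ZMod (p ^ 2) × ZMod (p ^ 2)))) (ha : orderOf a = p)
    (x : Multiplicative (ZMod (p ^ 2) × ZMod (p ^ 2))) (hx : orderOf x = p) : a x = x := by
  have hp' : p.Prime := Fact.out
  haveI : NeZero (p ^ 2) := ⟨pow_ne_zero _ hp'.ne_zero⟩
  let φ : AddMonoid.End (ZMod (p ^ 2) × ZMod (p ^ 2)) :=
    AddMonoidHom.mk' (fun v => Multiplicative.toAdd (a (Multiplicative.ofAdd v))) fun u v => by simp
  have hpow : ∀ (n : ℕ) v, (φ ^ n) v = Multiplicative.toAdd ((a ^ n) (Multiplicative.ofAdd v)) := by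
    intro n
    induction n with
    | zero => intro v; rfl
    | succ n ih => intro v; exact ih (φ v)
  have hφp : φ ^ p = 1 := by
    refine AddMonoidHom.ext fun v => (hpow p v).trans ?_
    have : a ^ p = 1 := orderOf_dvd_iff_pow_eq_one.1 (dvd_of_eq ha)
    rw [this]
    rfl
  have hp2 : ((p : ZMod (p ^ 2)) * p) = 0 := by
    rw [← Nat.cast_mul, ← pow_two, ZMod.natCast_self]
  have htor : ∀ c : ZMod (p ^ 2), p • c = 0 → ∃ d, c = p • d := by
    intro c hc
    have hc' : ((p * c.val : ℕ) : ZMod (p ^ 2)) = 0 := by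
      rw [Nat.cast_mul, ZMod.natCast_zmod_val, ← nsmul_eq_mul, hc]
    rw [ZMod.natCast_eq_zero_iff] at hc'
    obtain ⟨d, hd⟩ : p ∣ c.val := (mul_dvd_mul_iff_left hp'.ne_zero).1 ((dvd_of_eq (sq p).symm).trans hc')
    exact ⟨(d : ZMod (p ^ 2)), by rw [nsmul_eq_mul, ← Nat.cast_mul, ← hd, ZMod.natCast_zmod_val]⟩
  have hxp : p • Multiplicative.toAdd x = 0 := by
    have : x ^ p = 1 := orderOf_dvd_iff_pow_eq_one.1 (dvd_of_eq hx)
    rw [← toAdd_pow, this]; rfl
  refine Multiplicative.toAdd.injective (fix_torsion (by omega) ?_ ?_ ?_ φ hφp _ hxp)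
  · intro v
    rw [smul_smul]
    exact Prod.ext (by simp [nsmul_eq_mul, hp2]) (by simp [nsmul_eq_mul, hp2])
  · intro v hv
    obtain ⟨d1, h1⟩ := htor v.1 (congrArg Prod.fst hv)
    obtain ⟨d2, h2⟩ := htor v.2 (congrArg Prod.snd hv)
    exact ⟨(d1, d2), Prod.ext h1 h2⟩
  · rw [Nat.card_prod, Nat.card_zmod]; ring

end Cfsg.Agent.S4080
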