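import Cfsg.Statements.S4081
import Cfsg.Agent.FGS3.ThreeOrbits
-- import your own Cfsg.Agent.* helpers here

set_option autoImplicit false
open Cfsg

namespace Cfsg.Agent.S4081


private theorem orbit_eq_iff {G : Type*} [Group G] (x y : G) :
    (Quotient.mk'' x : MulAction.orbitRel.Quotient (MulAut G) G) = Quotient.mk'' y ↔
      ∃ α : MulAut G, α y = x := by
  rw [Quotient.eq'', MulAction.orbitRel_apply, MulAction.mem_orbit_iff]
  rfl

/-- Let G be a finite group whose order is not a prime power. Then the automorphism group of G has exactly three orbits on G if and only if there are distinct primes p, q with #G = pⁿ·q (n ≥ 1) such that G has a normal elementary abelian Sylow p-subgroup P, p is a primitive root modulo q (the multiplicative order of p mod q is q − 1), and every element of order q of G acts on P without non-identity fixed points. -/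
theorem result {G : Type*} [Group G] [Finite G] (hnpp : ¬ IsPrimePow (Nat.card G)) (hnt : Nat.card G ≠ 1) :
    Nat.card (MulAction.orbitRel.Quotient (MulAut G) G) = 3 ↔
    ∃ (p q n : ℕ) (_ : Fact p.Prime) (_ : Fact q.Prime), p ≠ q ∧ 1 ≤ n ∧ Nat.card G = p ^ n * q ∧
      (∀ P : Sylow p G, (P : Subgroup G).Normal ∧ Cfsg.IsElementaryAbelian p (P : Subgroup G)) ∧
      orderOf (p : ZMod q) = q - 1 ∧
      ∀ x y : G, orderOf x = q → orderOf y = p → x * y * x⁻¹ ≠ y := by
  classical
  obtain ⟨p, hp, hpG⟩ := Nat.exists_prime_and_dvd hnt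
  obtain ⟨q, hq, hqG, hqp⟩ : ∃ q, q.Prime ∧ q ∣ Nat.card G ∧ q ≠ p := by
    by_contra hne
    push Not at hne
    refine hnpp ⟨p, (Nat.card G).primeFactorsList.length, hp.prime,
      Nat.pos_of_ne_zero fun h0 => ?_,
      (Nat.eq_prime_pow_of_unique_prime_dvd Nat.card_pos.ne' fun {d} hd hdG => hne d hd hdG).symm⟩
    rw [List.length_eq_zero_iff, Nat.primeFactorsList_eq_nil] at h0
    rcases h0 with h0 | h0
    · exact Nat.card_pos.ne' h0
    · exact hnt h0
  haveI := Fact.mk hp
  haveI := Fact.mk hq
  obtain ⟨a, ha⟩ := exists_prime_orderOf_dvd_card' p hpG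
  obtain ⟨b, hb⟩ := exists_prime_orderOf_dvd_card' q hqG
  constructor
  · intro h3
    let o : MulAction.orbitRel.Quotient (MulAut G) G → ℕ := fun c =>
      Quotient.liftOn' c (fun g => orderOf g) fun x y hxy => by
        obtain ⟨α, hα⟩ := (orbit_eq_iff x y).1 (Quotient.sound' hxy)
        rw [← hα, MulEquiv.orderOf_eq]
    have hf : Function.Bijective (![Quotient.mk'' 1, Quotient.mk'' a, Quotient.mk'' b] :
        Fin 3 → MulAction.orbitRel.Quotient (MulAut G) G) := by
      refine (Nat.bijective_iff_injective_and_card _).2 ⟨fun i j e => ?_, by rw [Nat.card_fin, h3]⟩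
      have e' := congrArg o e
      fin_cases i <;> fin_cases j <;>
        first
          | rfl
          | (exfalso
             simp [o, ha, hb, hp.ne_one, hp.ne_one.symm, hq.ne_one, hq.ne_one.symm, hqp, hqp.symm]
               at e')
    have hcase : ∀ g : G, (∃ α : MulAut G, α 1 = g) ∨ (∃ α : MulAut G, α a = g) ∨
        ∃ α : MulAut G, α b = g := by
      intro g
      obtain ⟨i, hi⟩ := hf.2 (Quotient.mk'' g)
      fin_cases i
      · exact Or.inl ((orbit_eq_iff g 1).1 hi.symm)
      · exact Or.inr (Or.inl ((orbit_eq_iff g a).1 hi.symm))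
      · exact Or.inr (Or.inr ((orbit_eq_iff g b).1 hi.symm))
    have hom : Cfsg.Agent.FGS3.ThreeOrbits.Homog G p q := by
      refine ⟨fun g => ?_, fun x y hxy => ?_⟩
      · rcases hcase g with ⟨α, rfl⟩ | ⟨α, rfl⟩ | ⟨α, rfl⟩
        · exact Or.inl (map_one α)
        · exact Or.inr (Or.inl (by rw [MulEquiv.orderOf_eq, ha]))
        · exact Or.inr (Or.inr (by rw [MulEquiv.orderOf_eq, hb]))
      · rcases hcase x with ⟨α, rfl⟩ | ⟨α, rfl⟩ | ⟨α, rfl⟩ <;>
          rcases hcase y with ⟨β, rfl⟩ | ⟨β, rfl⟩ | ⟨β, rfl⟩ <;>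
          rw [MulEquiv.orderOf_eq, MulEquiv.orderOf_eq] at hxy <;>
          first
            | (exfalso
               simp [ha, hb, hp.ne_one, hp.ne_one.symm, hq.ne_one, hq.ne_one.symm, hqp, hqp.symm]
                 at hxy
               done)
            | exact ⟨β * α⁻¹, by simp [MulAut.mul_apply]⟩
    rcases hom.exists_normal hqp.symm hpG hqG with ⟨P, hP⟩ | ⟨Q, hQ⟩
    · obtain ⟨n, hn, hc, hcm, he, hpr, hfix⟩ := hom.forward hqp.symm hpG hqG P hP
      refine ⟨p, q, n, inferInstance, inferInstance, hqp.symm, hn, hc, fun R => ?_, hpr, hfix⟩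
      haveI := Sylow.unique_of_normal P hP
      rw [Subsingleton.elim R P]
      exact ⟨hP, hcm, he⟩
    · obtain ⟨n, hn, hc, hcm, he, hpr, hfix⟩ := hom.swap.forward hqp hqG hpG Q hQ
      refine ⟨q, p, n, inferInstance, inferInstance, hqp, hn, hc, fun R => ?_, hpr, hfix⟩
      haveI := Sylow.unique_of_normal Q hQ
      rw [Subsingleton.elim R Q]
      exact ⟨hQ, hcm, he⟩
  · rintro ⟨p', q', n, hp', hq', hne, hn, hc, hS, hpr, hfix⟩
    clear ha hb a b hqG hqp hpG
    let P : Sylow p' G := default
    obtain ⟨hPn, hcm, he⟩ := hS P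
    haveI := hPn
    haveI := hcm
    have hcardP : Nat.card (P : Subgroup G) = p' ^ n := by
      rw [Sylow.card_eq_multiplicity, hc,
        Nat.factorization_mul (pow_ne_zero _ hp'.out.ne_zero) hq'.out.ne_zero,
        hp'.out.factorization_pow, hq'.out.factorization]
      simp [hne.symm]
    have hidx : (P : Subgroup G).index = q' := by
      have h1 := (P : Subgroup G).card_mul_index
      rw [hcardP, hc] at h1
      exact mul_left_cancel₀ (pow_ne_zero _ hp'.out.ne_zero) h1
    have hcop : (Nat.card (P : Subgroup G)).Coprime q' :=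
      hcardP ▸ ((Nat.coprime_primes hp'.out hq'.out).2 hne).pow_left n
    obtain ⟨b, hb⟩ := exists_prime_orderOf_dvd_card' q' (G := G) (hc ▸ dvd_mul_left q' _)
    obtain ⟨a, ha⟩ := exists_prime_orderOf_dvd_card' p' (G := G)
      (hc ▸ dvd_mul_of_dvd_left (dvd_pow_self p' (by omega)) q')
    have haP : a ∈ (P : Subgroup G) := by
      rcases Cfsg.Agent.FGS3.ThreeOrbits.orderOf_eq_or hne (P : Subgroup G) hidx he hfix a with h | h
      · exact h
      · exact absurd (ha.symm.trans h) hne
    have ha1 : a ≠ 1 := fun e => hp'.out.ne_one (by rw [← ha, e, orderOf_one])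
    let f : Fin 3 → MulAction.orbitRel.Quotient (MulAut G) G :=
      ![Quotient.mk'' 1, Quotient.mk'' a, Quotient.mk'' b]
    have hf : Function.Bijective f := by
      constructor
      · intro i j e
        have key : ∀ x y : G, (Quotient.mk'' x : MulAction.orbitRel.Quotient (MulAut G) G) =
            Quotient.mk'' y → orderOf x = orderOf y := fun x y hxy => by
          obtain ⟨α, hα⟩ := (orbit_eq_iff x y).1 hxy
          rw [← hα, MulEquiv.orderOf_eq]
        fin_cases i <;> fin_cases j <;>
          first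
            | rfl
            | (exfalso
               have e' := key _ _ e
               simp [ha, hb, hp'.out.ne_one, hp'.out.ne_one.symm, hq'.out.ne_one,
                 hq'.out.ne_one.symm, hne, hne.symm] at e')
      · intro c
        induction c using Quotient.inductionOn' with
        | h g =>
          rcases Cfsg.Agent.FGS3.ThreeOrbits.orderOf_eq_or hne (P : Subgroup G) hidx he hfix g with
            h | h
          · rcases eq_or_ne g 1 with rfl | hg1
            · exact ⟨0, rfl⟩
            · obtain ⟨α, -, hα⟩ := Cfsg.Agent.FGS3.ThreeOrbits.converse hne (P : Subgroup G) hcop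
                hidx he hpr hfix hb hb haP h ha1 hg1
              exact ⟨1, ((orbit_eq_iff g a).2 ⟨α, hα⟩).symm⟩
          · obtain ⟨α, hα, -⟩ := Cfsg.Agent.FGS3.ThreeOrbits.converse hne (P : Subgroup G) hcop
              hidx he hpr hfix hb h haP haP ha1 ha1
            exact ⟨2, ((orbit_eq_iff g b).2 ⟨α, hα⟩).symm⟩
    rw [← Nat.card_eq_of_bijective f hf, Nat.card_fin]

end Cfsg.Agent.S4081
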