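import Cfsg.Statements.S4084
import Mathlib
-- import your own Cfsg.Agent.* helpers here

set_option autoImplicit false
open Cfsg

namespace Cfsg.Agent.S4084

theorem key {G : Type*} [Group G] [Finite G] {p q : ℕ} (hp : p.Prime) (hq : q.Prime) (hpq : p ≠ q) :
    (∃ g : G, orderOf g = p * q) ↔
      ∃ x : G, p * q ∣ Nat.card {y : G // Commute y x ∧ ∀ z, Commute z x → Commute y z} := by
  constructor
  · rintro ⟨g, hg⟩
    refine ⟨g, ?_⟩
    let W : Subgroup G :=
      { carrier := {y | Commute y g ∧ ∀ z, Commute z g → Commute y z}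
        mul_mem' := fun ha hb => ⟨ha.1.mul_left hb.1, fun z hz => (ha.2 z hz).mul_left (hb.2 z hz)⟩
        one_mem' := ⟨Commute.one_left _, fun z _ => Commute.one_left _⟩
        inv_mem' := fun ha => ⟨ha.1.inv_left, fun z hz => (ha.2 z hz).inv_left⟩ }
    rw [← hg]
    exact Subgroup.orderOf_dvd_natCard W (x := g) ⟨Commute.refl g, fun z hz => hz.symm⟩
  · rintro ⟨x, hx⟩
    let W : Subgroup G :=
      { carrier := {y | Commute y x ∧ ∀ z, Commute z x → Commute y z}
        mul_mem' := fun ha hb => ⟨ha.1.mul_left hb.1, fun z hz => (ha.2 z hz).mul_left (hb.2 z hz)⟩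
        one_mem' := ⟨Commute.one_left _, fun z _ => Commute.one_left _⟩
        inv_mem' := fun ha => ⟨ha.1.inv_left, fun z hz => (ha.2 z hz).inv_left⟩ }
    haveI : Fact p.Prime := ⟨hp⟩
    haveI : Fact q.Prime := ⟨hq⟩
    obtain ⟨a, ha⟩ := exists_prime_orderOf_dvd_card' (G := W) p ((dvd_mul_right p q).trans hx)
    obtain ⟨b, hb⟩ := exists_prime_orderOf_dvd_card' (G := W) q ((dvd_mul_left q p).trans hx)
    have hab : Commute a b := Subtype.ext ((a.2.2 b.1 b.2.1).eq)
    refine ⟨((a * b : W) : G), ?_⟩
    rw [Subgroup.orderOf_coe, hab.orderOf_mul_eq_mul_orderOf_of_coprime, ha, hb]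
    rw [ha, hb]
    exact (Nat.coprime_primes hp hq).2 hpq


/-- Let G and H be finite groups whose commuting graphs are isomorphic: there is a bijection e : G → H with x, y commuting exactly when e(x), e(y) commute. Then G and H have the same prime graph: for distinct primes p, q, G has an element of order pq if and only if H does (and #G = #H, so the prime divisors agree). -/
theorem result {G H : Type*} [Group G] [Finite G] [Group H] [Finite H] (e : G ≃ H)
    (he : ∀ x y : G, Commute x y ↔ Commute (e x) (e y))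
    {p q : ℕ} (hp : p.Prime) (hq : q.Prime) (hpq : p ≠ q) :
    (∃ g : G, orderOf g = p * q) ↔ (∃ h : H, orderOf h = p * q) := by
  rw [key hp hq hpq, key hp hq hpq]
  have h : ∀ x : G, Nat.card {y : G // Commute y x ∧ ∀ z, Commute z x → Commute y z} =
      Nat.card {y : H // Commute y (e x) ∧ ∀ z, Commute z (e x) → Commute y z} := fun x =>
    Nat.card_congr (e.subtypeEquiv fun y => by
      rw [← he y x]
      refine and_congr_right fun _ => ⟨fun h z hz => ?_, fun h z hz => ?_⟩
      · obtain ⟨w, rfl⟩ := e.surjective z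
        exact (he y w).1 (h w ((he w x).2 hz))
      · exact (he y z).2 (h _ ((he z x).1 hz)))
  constructor
  · rintro ⟨x, hx⟩; exact ⟨e x, h x ▸ hx⟩
  · rintro ⟨x, hx⟩
    obtain ⟨w, rfl⟩ := e.surjective x
    exact ⟨w, (h w).symm ▸ hx⟩

end Cfsg.Agent.S4084
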