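import Cfsg.Statements.S4085
import Cfsg.Agent.FGS3.PowerGraph
-- import your own Cfsg.Agent.* helpers here

set_option autoImplicit false
open Cfsg

namespace Cfsg.Agent.S4085

/-- Let G and H be finite groups whose power graphs are isomorphic: there is a bijection e : G → H such that, for all x, y, one of x, y is a power of the other exactly when one of e(x), e(y) is a power of the other. Then G and H have the same prime graph: for distinct primes p, q, G has an element of order pq if and only if H does. -/
theorem result {G H : Type*} [Group G] [Finite G] [Group H] [Finite H] (e : G ≃ H)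
    (he : ∀ x y : G, (x ∈ Subgroup.zpowers y ∨ y ∈ Subgroup.zpowers x) ↔
      (e x ∈ Subgroup.zpowers (e y) ∨ e y ∈ Subgroup.zpowers (e x)))
    {p q : ℕ} (hp : p.Prime) (hq : q.Prime) (hpq : p ≠ q) :
    (∃ g : G, orderOf g = p * q) ↔ (∃ h : H, orderOf h = p * q) := by
  refine ⟨fun h => Cfsg.Agent.FGS3.PowerGraph.exists_orderOf_eq_mul e he hp hq hpq h,
    fun h => Cfsg.Agent.FGS3.PowerGraph.exists_orderOf_eq_mul e.symm ?_ hp hq hpq h⟩
  intro x y
  rw [he (e.symm x) (e.symm y), e.apply_symm_apply, e.apply_symm_apply]

end Cfsg.Agent.S4085
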