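import Cfsg.Statements.S4086
-- import your own Cfsg.Agent.* helpers here

set_option autoImplicit false
open Cfsg

namespace Cfsg.Agent.S4086

theorem mem_zpowers_of_orderOf_dvd {G : Type*} [Group G] [Finite G] {H : Subgroup G} [IsCyclic H]
    {x y : G} (hx : x ∈ H) (hy : y ∈ H) (h : orderOf x ∣ orderOf y) : x ∈ Subgroup.zpowers y := by
  classical
  haveI := Fintype.ofFinite H
  let S : Finset H := Finset.univ.filter fun z => z ^ orderOf y = 1
  let T : Finset H := Finset.univ.filter fun z => z ∈ Subgroup.zpowers (⟨y, hy⟩ : H)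
  have hTS : T ⊆ S := by
    intro z hz
    simp only [T, S, Finset.mem_filter, Finset.mem_univ, true_and] at hz ⊢
    obtain ⟨k, rfl⟩ := hz
    simp only
    rw [← zpow_natCast, ← zpow_mul, mul_comm, zpow_mul, zpow_natCast, ← Subgroup.orderOf_mk y hy,
      pow_orderOf_eq_one, one_zpow]
  have hT : orderOf y = T.card := by
    rw [← Subgroup.orderOf_mk y hy, ← Nat.card_zpowers, Nat.card_eq_fintype_card]
    exact Fintype.card_subtype _
  have hS : S.card ≤ orderOf y := IsCyclic.card_pow_eq_one_le (orderOf_pos y)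
  have hEq : T = S := Finset.eq_of_subset_of_card_le hTS (hS.trans_eq hT)
  have : (⟨x, hx⟩ : H) ∈ S := by
    simp only [S, Finset.mem_filter, Finset.mem_univ, true_and]
    rw [← orderOf_dvd_iff_pow_eq_one]
    rwa [Subgroup.orderOf_mk]
  rw [← hEq] at this
  simp only [T, Finset.mem_filter, Finset.mem_univ, true_and] at this
  obtain ⟨k, hk⟩ := this
  exact ⟨k, congrArg Subtype.val hk⟩


/-- For a finite group G the following are equivalent: every non-identity element has prime-power order; whenever two elements generate a cyclic subgroup, one of them is a power of the other (the enhanced power graph of G coincides with its power graph). -/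
theorem result {G : Type*} [Group G] [Finite G] :
    (∀ g : G, g ≠ 1 → IsPrimePow (orderOf g)) ↔
    (∀ x y : G, IsCyclic ↥(Subgroup.closure ({x, y} : Set G)) → (x ∈ Subgroup.zpowers y ∨ y ∈ Subgroup.zpowers x)) := by
  constructor
  · intro h x y hc
    obtain ⟨g, hg⟩ := hc.exists_generator
    have hx : x ∈ Subgroup.closure ({x, y} : Set G) := Subgroup.subset_closure (by simp)
    have hy : y ∈ Subgroup.closure ({x, y} : Set G) := Subgroup.subset_closure (by simp)
    by_cases hg1 : (g : G) = 1
    · left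
      obtain ⟨k, hk⟩ := hg ⟨x, hx⟩
      have : x = 1 := by
        rw [← show ((g ^ k : Subgroup.closure ({x, y} : Set G)) : G) = x from congrArg Subtype.val hk]
        simp [hg1]
      simp [this]
    obtain ⟨r, n, hr, hn, hord⟩ := h g hg1
    rw [← Nat.prime_iff] at hr
    have hdiv : ∀ z, ∀ hz : z ∈ Subgroup.closure ({x, y} : Set G), orderOf z ∣ r ^ n := by
      intro z hz
      obtain ⟨k, hk⟩ := hg ⟨z, hz⟩
      rw [hord, orderOf_dvd_iff_pow_eq_one,
        ← show ((g ^ k : Subgroup.closure ({x, y} : Set G)) : G) = z from congrArg Subtype.val hk,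
        Subgroup.coe_zpow, ← zpow_natCast, ← zpow_mul, mul_comm, zpow_mul, zpow_natCast,
        pow_orderOf_eq_one, one_zpow]
    obtain ⟨i, -, hi⟩ := (Nat.dvd_prime_pow hr).1 (hdiv x hx)
    obtain ⟨j, -, hj⟩ := (Nat.dvd_prime_pow hr).1 (hdiv y hy)
    rcases le_total i j with hij | hij
    · exact Or.inl (mem_zpowers_of_orderOf_dvd hx hy (by rw [hi, hj]; exact pow_dvd_pow r hij))
    · exact Or.inr (mem_zpowers_of_orderOf_dvd hy hx (by rw [hi, hj]; exact pow_dvd_pow r hij))
  · intro h g hg
    have hn : orderOf g ≠ 1 := fun hh => hg (orderOf_eq_one_iff.1 hh)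
    set r := (orderOf g).minFac
    have hr : r.Prime := Nat.minFac_prime hn
    obtain ⟨a, m, hm, hgm⟩ := Nat.exists_eq_pow_mul_and_not_dvd (orderOf_pos g).ne' r hr.ne_one
    have ha : 0 < a := Nat.pos_of_ne_zero fun ha => hm (by
      simp [ha] at hgm; exact hgm ▸ Nat.minFac_dvd _)
    by_cases hm1 : m = 1
    · exact ⟨r, a, Nat.prime_iff.1 hr, ha, by rw [hgm, hm1, mul_one]⟩
    exfalso
    have hcop : (r ^ a).Coprime m := ((hr.coprime_iff_not_dvd).2 hm).pow_left a
    have hm0 : m ≠ 0 := fun h0 => hm (h0 ▸ dvd_zero r)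
    have hox : orderOf (g ^ r ^ a) = m := by
      rw [orderOf_pow_of_dvd (pow_ne_zero _ hr.ne_zero) (hgm ▸ dvd_mul_right _ _), hgm,
        Nat.mul_div_cancel_left _ (pow_pos hr.pos a)]
    have hoy : orderOf (g ^ m) = r ^ a := by
      rw [orderOf_pow_of_dvd hm0 (hgm ▸ dvd_mul_left _ _), hgm,
        Nat.mul_div_cancel _ (Nat.pos_of_ne_zero hm0)]
    have hc : IsCyclic ↥(Subgroup.closure ({g ^ r ^ a, g ^ m} : Set G)) := by
      have hle : Subgroup.closure ({g ^ r ^ a, g ^ m} : Set G) ≤ Subgroup.zpowers g := by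
        rw [Subgroup.closure_le]
        rintro z (rfl | rfl) <;> exact pow_mem (Subgroup.mem_zpowers g) _
      exact isCyclic_of_injective (Subgroup.inclusion hle) (Subgroup.inclusion_injective hle)
    rcases h _ _ hc with h1 | h1
    · have := orderOf_dvd_of_mem_zpowers h1
      rw [hox, hoy] at this
      exact hm1 (Nat.Coprime.eq_one_of_dvd hcop.symm this)
    · have := orderOf_dvd_of_mem_zpowers h1
      rw [hox, hoy] at this
      exact (Nat.one_lt_pow ha.ne' hr.one_lt).ne' (Nat.Coprime.eq_one_of_dvd hcop this)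

end Cfsg.Agent.S4086
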