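import Cfsg.Statements.S4089
import Cfsg.Agent.Core.Cores
import Cfsg.Agent.FGS4.Subnormal
-- import your own Cfsg.Agent.* helpers here

set_option autoImplicit false
open Cfsg

namespace Cfsg.Agent.S4089

open scoped Pointwise

theorem subnormal_iff_exists {G : Type*} [Group G] [Finite G] {p : ℕ} [Fact p.Prime]
    {H : Subgroup G} (hH : IsPGroup p H) (g : G) :
    (H.subgroupOf (H ⊔ Subgroup.zpowers g)).IsSubnormal ↔
      ∃ R : Subgroup G, H ≤ R ∧ IsPGroup p R ∧ g ∈ Subgroup.normalizer (R : Set G) := by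
  constructor
  · intro hs
    set K := H ⊔ Subgroup.zpowers g
    have hle := Cfsg.Agent.Core.le_pCore_of_isSubnormal (p := p) hs hH.comap_subtype
    refine ⟨(Cfsg.pCore p K).map K.subtype, ?_, (Cfsg.Agent.Core.isPGroup_pCore p K).map K.subtype, ?_⟩
    · intro x hx
      exact ⟨⟨x, Subgroup.mem_sup_left hx⟩, hle (show (⟨x, Subgroup.mem_sup_left hx⟩ : K) ∈ H.subgroupOf K from hx), rfl⟩
    · refine Subgroup.mem_normalizer_fintype fun n hn => ?_
      obtain ⟨y, hy, rfl⟩ := hn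
      exact ⟨_, (inferInstance : (Cfsg.pCore p K).Normal).conj_mem y hy
        ⟨g, Subgroup.mem_sup_right (Subgroup.mem_zpowers g)⟩, rfl⟩
  · rintro ⟨R, hHR, hR, hg⟩
    set K := H ⊔ Subgroup.zpowers g
    have hKN : K ≤ Subgroup.normalizer (R : Set G) :=
      sup_le (hHR.trans Subgroup.le_normalizer) (Subgroup.zpowers_le.2 hg)
    haveI : (R.subgroupOf K).Normal := Subgroup.normal_subgroupOf_iff_le_normalizer_inf.2 (by
      intro x hx
      refine Subgroup.mem_normalizer_fintype fun n hn => ⟨?_, K.mul_mem (K.mul_mem hx hn.2) (K.inv_mem hx)⟩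
      exact (Subgroup.mem_normalizer_iff.1 (hKN hx) n).1 hn.1)
    haveI : Group.IsNilpotent (R.subgroupOf K) := (hR.comap_subtype (K := K)).isNilpotent
    refine Subgroup.IsSubnormal.trans (K := R.subgroupOf K) (fun x hx => hHR hx) ?_ (Subgroup.Normal.isSubnormal inferInstance)
    exact Cfsg.Agent.FGS4.isSubnormal_of_isNilpotent _

theorem exists_radical {G : Type*} [Group G] [Finite G] {p : ℕ} [Fact p.Prime]
    {H R : Subgroup G} (hHR : H ≤ R) (hR : IsPGroup p R) {g : G} (hg : g ∈ Subgroup.normalizer (R : Set G)) :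
    ∃ R' : Subgroup G, H ≤ R' ∧ IsPGroup p R' ∧ g ∈ Subgroup.normalizer (R' : Set G) ∧
      (Cfsg.pCore p (Subgroup.normalizer (R' : Set G))).map (Subgroup.normalizer (R' : Set G)).subtype = R' ∧
      sInf {K : Subgroup G | ∃ Q : Sylow p G, H ≤ (Q : Subgroup G) ∧ K = (Q : Subgroup G)} ≤ R' := by
  obtain ⟨R', ⟨h1, h2, h3⟩, hmax⟩ := (Set.toFinite {S : Subgroup G | H ≤ S ∧ IsPGroup p S ∧ g ∈ Subgroup.normalizer (S : Set G)}).exists_maximal ⟨R, hHR, hR, hg⟩
  set N := Subgroup.normalizer (R' : Set G)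
  refine ⟨R', h1, h2, h3, ?_, ?_⟩
  · have hle : R' ≤ (Cfsg.pCore p N).map N.subtype := fun x hx => by
      have : (R'.subgroupOf N) ≤ Cfsg.pCore p N :=
        Cfsg.Agent.Core.le_pCore Subgroup.normal_in_normalizer h2.comap_subtype
      exact ⟨⟨x, Subgroup.le_normalizer hx⟩, this hx, rfl⟩
    refine le_antisymm (hmax ⟨h1.trans hle, (Cfsg.Agent.Core.isPGroup_pCore p N).map _, ?_⟩ hle) hle
    refine Subgroup.mem_normalizer_fintype fun n hn => ?_
    obtain ⟨y, hy, rfl⟩ := hn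
    exact ⟨_, (inferInstance : (Cfsg.pCore p N).Normal).conj_mem y hy ⟨g, h3⟩, rfl⟩
  · set J := sInf {K : Subgroup G | ∃ Q : Sylow p G, R' ≤ (Q : Subgroup G) ∧ K = (Q : Subgroup G)}
    have hJ : R' ≤ J := le_sInf (by rintro _ ⟨Q, hQ, rfl⟩; exact hQ)
    obtain ⟨Q0, hQ0⟩ := h2.exists_le_sylow
    have hJp : IsPGroup p J := Q0.isPGroup'.to_le (sInf_le ⟨Q0, hQ0, rfl⟩)
    have hJg : g ∈ Subgroup.normalizer (J : Set G) := by
      refine Subgroup.mem_normalizer_fintype fun n hn => ?_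
      rw [SetLike.mem_coe, Subgroup.mem_sInf] at hn ⊢
      rintro _ ⟨Q, hQ, rfl⟩
      have h4 := hn ((g⁻¹ • Q : Sylow p G) : Subgroup G) ⟨g⁻¹ • Q, fun x hx => by
        rw [Sylow.coe_subgroup_smul, Subgroup.mem_pointwise_smul_iff_inv_smul_mem]
        simpa using hQ ((Subgroup.mem_normalizer_iff.1 h3 x).1 hx), rfl⟩
      rw [Sylow.coe_subgroup_smul, Subgroup.mem_pointwise_smul_iff_inv_smul_mem] at h4
      simpa using h4
    exact le_trans (sInf_le_sInf (by rintro _ ⟨Q, hQ, rfl⟩; exact ⟨Q, h1.trans hQ, rfl⟩))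
      (hmax ⟨h1.trans hJ, hJp, hJg⟩ hJ)


/-- Let G be a finite group, p a prime and H a p-subgroup of G. Then the set of elements g of G such that H is subnormal in the subgroup generated by H and g is the union of the normalizers N_G(R) over the subgroups R of G containing H with R = O_p(N_G(R)); and this set does not change when H is replaced by the intersection of all Sylow p-subgroups of G containing H. -/
theorem result {G : Type*} [Group G] [Finite G] (p : ℕ) [Fact p.Prime]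
    (H : Subgroup G) (hH : IsPGroup p H) :
    {g : G | ((H).subgroupOf (H ⊔ Subgroup.zpowers g)).IsSubnormal} =
      {g : G | ∃ R : Subgroup G, H ≤ R ∧ (Cfsg.pCore p (Subgroup.normalizer (R : Set G))).map (Subgroup.normalizer (R : Set G)).subtype = R ∧ g ∈ Subgroup.normalizer (R : Set G)} ∧
    ∀ g : G, (((H).subgroupOf (H ⊔ Subgroup.zpowers g)).IsSubnormal ↔
      (((sInf {K : Subgroup G | ∃ Q : Sylow p G, H ≤ (Q : Subgroup G) ∧ K = (Q : Subgroup G)})).subgroupOf ((sInf {K : Subgroup G | ∃ Q : Sylow p G, H ≤ (Q : Subgroup G) ∧ K = (Q : Subgroup G)}) ⊔ Subgroup.zpowers g)).IsSubnormal) := by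
  constructor
  · ext g
    simp only [Set.mem_setOf_eq]
    constructor
    · intro h
      obtain ⟨R, h1, h2, h3⟩ := (subnormal_iff_exists hH g).1 h
      obtain ⟨R', a, b, c, d, -⟩ := exists_radical h1 h2 h3
      exact ⟨R', a, d, c⟩
    · rintro ⟨R, h1, h2, h3⟩
      refine (subnormal_iff_exists hH g).2 ⟨R, h1, ?_, h3⟩
      rw [← h2]
      exact (Cfsg.Agent.Core.isPGroup_pCore p _).map _
  · intro g
    have hI : IsPGroup p ↥(sInf {K : Subgroup G | ∃ Q : Sylow p G, H ≤ (Q : Subgroup G) ∧ K = (Q : Subgroup G)}) := by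
      obtain ⟨Q, hQ⟩ := hH.exists_le_sylow
      exact Q.isPGroup'.to_le (sInf_le ⟨Q, hQ, rfl⟩)
    rw [subnormal_iff_exists hH g, subnormal_iff_exists hI g]
    constructor
    · rintro ⟨R, h1, h2, h3⟩
      obtain ⟨R', -, b, c, -, e⟩ := exists_radical h1 h2 h3
      exact ⟨R', e, b, c⟩
    · rintro ⟨R, h1, h2, h3⟩
      exact ⟨R, (le_sInf (by rintro _ ⟨Q, hQ, rfl⟩; exact hQ)).trans h1, h2, h3⟩

end Cfsg.Agent.S4089
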