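import Cfsg.Statements.S4092
import Cfsg.Agent.FGS3.PGroupBasic
-- import your own Cfsg.Agent.* helpers here

set_option autoImplicit false
open Cfsg

namespace Cfsg.Agent.S4092

/-- Let G be a finite group, p a prime and P a Sylow p-subgroup of G that is not normal in G. Then G has at least p·#P elements of p-power order (the identity included). -/
theorem result {G : Type*} [Group G] [Finite G] (p : ℕ) [Fact p.Prime]
    (P : Sylow p G) (hP : ¬ (P : Subgroup G).Normal) :
    p * Nat.card (P : Subgroup G) ≤ Nat.card {g : G // ∃ k : ℕ, orderOf g = p ^ k} := by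
  classical
  have hp : p.Prime := Fact.out
  have hex : ∃ Q : Sylow p G, Q ≠ P := by
    by_contra h
    push Not at h
    haveI : Subsingleton (Sylow p G) := ⟨fun a b => (h a).trans (h b).symm⟩
    exact hP P.normal_of_subsingleton
  obtain ⟨Q0, hQ0⟩ := hex
  haveI := Fintype.ofFinite (Sylow p G)
  obtain ⟨⟨P1, P2⟩, h12, hmax⟩ := (Finset.univ.filter fun a : Sylow p G × Sylow p G => a.1 ≠ a.2).exists_max_image
    (fun a => Nat.card ↥((a.1 : Subgroup G) ⊓ (a.2 : Subgroup G))) ⟨(Q0, P), by simp [hQ0]⟩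
  simp only [Finset.mem_filter, Finset.mem_univ, true_and] at h12 hmax
  set D : Subgroup G := (P1 : Subgroup G) ⊓ (P2 : Subgroup G) with hD
  have huniq : ∀ S S' : Sylow p G, D < (S : Subgroup G) ⊓ (S' : Subgroup G) → S = S' := by
    intro S S' h
    by_contra hne
    exact absurd (hmax (S, S') hne) (Nat.not_le.2 (Set.ncard_lt_ncard (SetLike.coe_ssubset_coe.2 h) (Set.toFinite _)))
  have hproper : ∀ S : Sylow p G, D ≠ (S : Subgroup G) := by
    intro S hS
    have e1 := S.is_maximal' P1.isPGroup' (hS.ge.trans inf_le_left)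
    have e2 := S.is_maximal' P2.isPGroup' (hS.ge.trans inf_le_right)
    exact h12 (Sylow.ext (e1.trans e2.symm))
  set K := Subgroup.normalizer (D : Set G)
  have hDK : D ≤ K := Subgroup.le_normalizer
  haveI : (D.subgroupOf K).Normal := Subgroup.normal_in_normalizer
  have hext : ∀ R : Sylow p K, ∃ S : Sylow p G, (R : Subgroup K).map K.subtype ≤ (S : Subgroup G) :=
    fun R => (R.isPGroup'.map K.subtype).exists_le_sylow
  choose S hS using hext
  have hDR : ∀ R : Sylow p K, D.subgroupOf K ≤ (R : Subgroup K) := fun R => by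
    have hDp : IsPGroup p (D.subgroupOf K) :=
      (P1.isPGroup'.to_le (inf_le_left (b := (P2 : Subgroup G)))).comap_subtype
    rw [← R.is_maximal' (R.isPGroup'.to_sup_of_normal_right hDp) le_sup_left]
    exact le_sup_right
  have hDS : ∀ R, D ≤ (S R : Subgroup G) := fun R => le_trans (fun x hx =>
    Subgroup.mem_map_of_mem K.subtype (hDR R (show (⟨x, hDK hx⟩ : K) ∈ D.subgroupOf K from hx))) (hS R)
  have hinj : Function.Injective S := by
    intro R R' h
    have key : ∀ T : Sylow p K, (T : Subgroup K) = (S T : Subgroup G).subgroupOf K := fun T =>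
      (T.is_maximal' (S T).isPGroup'.comap_subtype fun x hx => hS T (Subgroup.mem_map_of_mem K.subtype hx)).symm
    exact Sylow.ext ((key R).trans (h ▸ (key R').symm))
  have hnR : p + 1 ≤ Nat.card (Sylow p K) := by
    have hmod := card_sylow_modEq_one p K
    have hne : Nat.card (Sylow p K) ≠ 1 := by
      intro h1
      haveI : Subsingleton (Sylow p K) := (Nat.card_eq_one_iff_unique.1 h1).1
      have hi : ∀ T : Sylow p G, D ≤ (T : Subgroup G) → ∀ R, S R = T := by
        intro T hT R
        have hlt := lt_of_le_of_ne hT (hproper T)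
        have hgrow := Cfsg.Agent.FGS3.lt_inf_normalizer T.isPGroup' hlt
        obtain ⟨R', hR'⟩ := (T.isPGroup'.comap_subtype (K := K)).exists_le_sylow
        have hle : (T : Subgroup G) ⊓ K ≤ (S R : Subgroup G) := fun x hx => by
          have := hS R' (Subgroup.mem_map_of_mem K.subtype (hR' (show (⟨x, hx.2⟩ : K) ∈ (T : Subgroup G).subgroupOf K from hx.1)))
          rwa [Subsingleton.elim R' R] at this
        exact huniq _ _ (hgrow.trans_le (le_inf hle inf_le_left))
      obtain ⟨R⟩ := (inferInstance : Nonempty (Sylow p K))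
      exact h12 ((hi P1 inf_le_left R).symm.trans (hi P2 inf_le_right R))
    have hpos : 0 < Nat.card (Sylow p K) := Nat.card_pos
    by_contra hlt
    rcases Nat.lt_or_eq_of_le (Nat.le_of_lt_succ (Nat.not_le.1 hlt)) with h | h
    · exact hne (Nat.ModEq.eq_of_lt_of_lt hmod h hp.one_lt)
    · rw [h] at hmod
      have := (Nat.modEq_zero_iff_dvd.2 (dvd_refl p)).symm.trans hmod
      exact hp.one_lt.ne' (Nat.dvd_one.1 (Nat.modEq_zero_iff_dvd.1 this.symm))
  have hcardS : ∀ T : Sylow p G, Nat.card (T : Subgroup G) = Nat.card (P : Subgroup G) := fun T =>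
    Nat.card_congr (Sylow.equiv T P).toEquiv
  have hDT : ∀ R, (((S R : Subgroup G) : Set G) \ D).ncard = Nat.card (P : Subgroup G) - Nat.card D := by
    intro R
    rw [Set.ncard_sdiff' (hDS R) (Set.toFinite _), ← Nat.card_coe_set_eq, ← Nat.card_coe_set_eq]
    exact congrArg (· - _) (hcardS (S R))
  haveI := Fintype.ofFinite (Sylow p K)
  let U : Set G := (D : Set G) ∪ ⋃ R, (((S R : Subgroup G) : Set G) \ D)
  have hU : Nat.card D + Nat.card (Sylow p K) * (Nat.card (P : Subgroup G) - Nat.card D) = U.ncard := by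
    rw [Set.ncard_union_eq (by
      rw [Set.disjoint_iUnion_right]
      exact fun R => Set.disjoint_sdiff_right), Set.ncard_iUnion_of_finite (fun R => Set.toFinite _) (by
      intro R R' hne
      rw [Function.onFun, Set.disjoint_left]
      rintro x ⟨hx, hxD⟩ ⟨hx', -⟩
      refine hne (hinj (huniq _ _ (lt_of_le_of_ne (le_inf (hDS R) (hDS R')) fun h => hxD ?_)))
      rw [h]; exact ⟨hx, hx'⟩)]
    · simp only [hDT, finsum_eq_sum_of_fintype, Finset.sum_const, Finset.card_univ, smul_eq_mul,
        Nat.card_eq_fintype_card (α := Sylow p K)]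
      rw [← Nat.card_coe_set_eq]; rfl
  have hsub : U ⊆ {g : G | ∃ k : ℕ, orderOf g = p ^ k} := by
    rintro x (hx | hx)
    · exact Cfsg.Agent.FGS3.exists_orderOf_eq_pow P1.isPGroup' hx.1
    · obtain ⟨R, hR, -⟩ := Set.mem_iUnion.1 hx
      exact Cfsg.Agent.FGS3.exists_orderOf_eq_pow (S R).isPGroup' hR
  have hUle : U.ncard ≤ Nat.card {g : G // ∃ k : ℕ, orderOf g = p ^ k} :=
    (Set.ncard_le_ncard hsub (Set.toFinite _)).trans_eq (Nat.card_coe_set_eq _).symm
  have hp2 : Nat.card D * p ≤ Nat.card (P : Subgroup G) := by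
    have hlt : Nat.card D < Nat.card (P : Subgroup G) := by
      rw [← hcardS P1]
      exact Set.ncard_lt_ncard (SetLike.coe_ssubset_coe.2 (lt_of_le_of_ne inf_le_left (hproper P1))) (Set.toFinite _)
    obtain ⟨a, ha⟩ := IsPGroup.iff_card.1 (P1.isPGroup'.to_le (inf_le_left (b := (P2 : Subgroup G))))
    obtain ⟨b, hb⟩ := IsPGroup.iff_card.1 P.isPGroup'
    rw [ha, hb] at hlt ⊢
    rw [← pow_succ]
    exact Nat.pow_le_pow_right hp.pos ((Nat.pow_lt_pow_iff_right hp.one_lt).1 hlt)
  have hDP : Nat.card D ≤ Nat.card (P : Subgroup G) := le_trans (Nat.le_mul_of_pos_right _ hp.pos) hp2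
  obtain ⟨e, he⟩ := Nat.exists_eq_add_of_le hDP
  have h3 : (p + 1) * e ≤ Nat.card (Sylow p K) * e := Nat.mul_le_mul_right _ hnR
  rw [he, Nat.add_sub_cancel_left] at hU
  rw [he] at hp2 ⊢
  nlinarith

end Cfsg.Agent.S4092
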