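import Cfsg.Statements.S4093
-- import your own Cfsg.Agent.* helpers here

set_option autoImplicit false
open scoped BigOperators
open Cfsg

namespace Cfsg.Agent.S4093

/-- Let G be a finite group with a normal subgroup N complementing a Sylow p-subgroup P (a normal p-complement). Then the number of elements of G of p-power order equals the sum over x ∈ P of the index of C_N(x) in N. -/
theorem result {G : Type*} [Group G] [Finite G] (p : ℕ) [Fact p.Prime]
    (P : Sylow p G) (N : Subgroup G) [N.Normal] (hNP : N.IsComplement' (P : Subgroup G)) :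
    Nat.card {g : G // ∃ k : ℕ, orderOf g = p ^ k} =
      ∑ᶠ x : (P : Subgroup G), Nat.card N / Nat.card ↥(N ⊓ Subgroup.centralizer ({(x : G)} : Set G)) := by
  classical
  have hp := (Fact.out : p.Prime)
  let S : ↥(P : Subgroup G) → Set G := fun x => Set.range fun n : N => (n : G) * x * (n : G)⁻¹
  have hS : ∀ x : (P : Subgroup G), Nat.card N / Nat.card ↥(N ⊓ Subgroup.centralizer ({(x : G)} : Set G)) = Nat.card (S x) := by
    intro x
    set C := Subgroup.centralizer ({(x : G)} : Set G)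
    have h1 : Nat.card (S x) = C.relIndex N := by
      rw [Subgroup.relIndex, Subgroup.index_eq_card]
      refine (Nat.card_congr (Equiv.ofBijective (fun q => ⟨(q.out : N) * x * ((q.out : N) : G)⁻¹, q.out, rfl⟩) ⟨?_, ?_⟩)).symm
      · intro a b h
        have h' := congrArg Subtype.val h
        simp only at h'
        rw [← QuotientGroup.out_eq' a, ← QuotientGroup.out_eq' b, QuotientGroup.eq, Subgroup.mem_subgroupOf,
          Subgroup.mem_centralizer_singleton_iff]
        push_cast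
        calc ((a.out : N) : G)⁻¹ * (b.out : N) * x
            = ((a.out : N) : G)⁻¹ * ((b.out : N) * x * ((b.out : N) : G)⁻¹) * (b.out : N) := by group
          _ = x * (((a.out : N) : G)⁻¹ * (b.out : N)) := by rw [← h']; group
      · rintro ⟨_, m, rfl⟩
        refine ⟨(m : ↥N ⧸ C.subgroupOf N), Subtype.ext ?_⟩
        obtain ⟨z, hz⟩ := QuotientGroup.mk_out_eq_mul (C.subgroupOf N) m
        have hzx := Subgroup.mem_centralizer_singleton_iff.1 (Subgroup.mem_subgroupOf.1 z.2)
        simp only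
        rw [hz]
        push_cast
        calc (m : G) * (z : N) * x * ((m : G) * (z : N))⁻¹ = (m : G) * (((z : N) : G) * x) * ((z : N) : G)⁻¹ * (m : G)⁻¹ := by group
          _ = (m : G) * x * (m : G)⁻¹ := by rw [hzx]; group
    rw [h1, ← Subgroup.inf_relIndex_left N C]
    refine Nat.div_eq_of_eq_mul_left Nat.card_pos ?_
    have := Subgroup.relIndex_mul_relIndex (⊥ : Subgroup G) (N ⊓ C) N bot_le inf_le_left
    rw [Subgroup.relIndex_bot_left, Subgroup.relIndex_bot_left] at this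
    rw [← this, mul_comm]
  haveI := Fintype.ofFinite (P : Subgroup G)
  rw [finsum_eq_sum_of_fintype, Finset.sum_congr rfl fun x _ => hS x, ← Nat.card_sigma]
  have hT : ∀ z : (Σ x : ↥(P : Subgroup G), ↥(S x)), ∃ k : ℕ, orderOf (z.2.1) = p ^ k := by
    intro z
    obtain ⟨n, hn⟩ := z.2.2
    obtain ⟨k, hk⟩ := IsPGroup.iff_orderOf.1 P.isPGroup' z.1
    exact ⟨k, by rw [← hn, ← hk]; simp only [← MulAut.conj_apply, MulEquiv.orderOf_eq]; exact Subgroup.orderOf_coe z.1⟩
  refine (Nat.card_congr (Equiv.ofBijective (fun z => ⟨z.2.1, hT z⟩) ⟨?_, ?_⟩)).symm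
  · rintro ⟨x, ⟨g, n, hn⟩⟩ ⟨x', ⟨g', n', hn'⟩⟩ h
    obtain rfl : g = g' := congrArg Subtype.val h
    have hxx : (x : G)⁻¹ * x' ∈ N := by
      rw [← QuotientGroup.eq]
      have e1 : ((g : G) : G ⧸ N) = (x : G) := by
        rw [← hn]; simp [(QuotientGroup.eq_one_iff (N := N) _).2 n.2]
      have e2 : ((g : G) : G ⧸ N) = (x' : G) := by
        rw [← hn']; simp [(QuotientGroup.eq_one_iff (N := N) _).2 n'.2]
      exact e1.symm.trans e2
    have h1 : (x : G)⁻¹ * x' = 1 := Subgroup.disjoint_def.1 hNP.disjoint hxx ((x⁻¹ * x').2)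
    obtain rfl : x = x' := Subtype.ext (inv_mul_eq_one.1 h1)
    rfl
  · rintro ⟨g, k, hk⟩
    obtain ⟨Q, hQ⟩ := (IsPGroup.of_card (n := k) (show Nat.card (Subgroup.zpowers g) = p ^ k by
      rw [Nat.card_zpowers, hk])).exists_le_sylow
    obtain ⟨c, hc⟩ := MulAction.exists_smul_eq G P Q
    have hg : g ∈ (Q : Subgroup G) := hQ (Subgroup.mem_zpowers g)
    rw [← hc, ← SetLike.mem_coe, Sylow.coe_subgroup_smul, Subgroup.coe_pointwise_smul] at hg
    obtain ⟨y, hy, hyg⟩ := hg
    obtain ⟨n, hn, h, hh, rfl⟩ : ∃ n ∈ N, ∃ h ∈ (P : Subgroup G), c = n * h := by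
      obtain ⟨⟨n, h⟩, hnh⟩ := hNP.2 c
      exact ⟨n, n.2, h, h.2, hnh.symm⟩
    refine ⟨⟨⟨h * y * h⁻¹, mul_mem (mul_mem hh hy) (inv_mem hh)⟩, ⟨g, ⟨⟨n, hn⟩, ?_⟩⟩⟩, rfl⟩
    rw [← hyg]
    simp [mul_assoc]

end Cfsg.Agent.S4093
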