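import Cfsg.Statements.S4106
-- import your own Cfsg.Agent.* helpers here

set_option autoImplicit false
open Cfsg
universe u

namespace Cfsg.Agent.S4106

theorem classes_bound : ∀ (T : Finset ℕ), (∀ q ∈ T, q.Prime) → ∀ (G : Type u) [Group G] [Finite G],
    Nat.card {C : ConjClasses G // ∀ q : ℕ, q.Prime → (∃ g : G, ConjClasses.mk g = C ∧ q ∣ orderOf g) → q ∈ T}
      ≤ ∏ q ∈ T, q ^ (Nat.card G).factorization q := by
  intro T
  induction T using Finset.induction with
  | empty =>
    intro _ G _ _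
    rw [Finset.prod_empty]
    have h1 : ∀ C : {C : ConjClasses G // ∀ q : ℕ, q.Prime → (∃ g : G, ConjClasses.mk g = C ∧ q ∣ orderOf g) → q ∈ (∅ : Finset ℕ)},
        C.1 = ConjClasses.mk 1 := by
      rintro ⟨C, hC⟩
      obtain ⟨g, rfl⟩ := ConjClasses.mk_surjective C
      by_contra hne
      have hg : orderOf g ≠ 1 := fun h => hne (congrArg ConjClasses.mk (orderOf_eq_one_iff.1 h))
      obtain ⟨q, hq, hqg⟩ := Nat.exists_prime_and_dvd hg
      exact absurd (hC q hq ⟨g, rfl, hqg⟩) (Finset.notMem_empty q)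
    haveI : Subsingleton {C : ConjClasses G // ∀ q : ℕ, q.Prime → (∃ g : G, ConjClasses.mk g = C ∧ q ∣ orderOf g) → q ∈ (∅ : Finset ℕ)} :=
      ⟨fun a b => Subtype.ext ((h1 a).trans (h1 b).symm)⟩
    exact Finite.card_le_one_iff_subsingleton.2 inferInstance
  | insert p T hpT ih =>
    intro hT G _ _
    have hp : p.Prime := hT p (Finset.mem_insert_self p T)
    haveI : Fact p.Prime := ⟨hp⟩
    have hT' : ∀ q ∈ T, q.Prime := fun q hq => hT q (Finset.mem_insert_of_mem hq)
    obtain ⟨P⟩ := (inferInstance : Nonempty (Sylow p G))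
    rw [Finset.prod_insert hpT, ← P.card_eq_multiplicity]
    haveI := Fintype.ofFinite (P : Subgroup G)
    let D : ↥(P : Subgroup G) → Type u := fun x =>
      {C : ConjClasses (Subgroup.centralizer ({(x : G)} : Set G)) // ∀ q : ℕ, q.Prime →
        (∃ g : Subgroup.centralizer ({(x : G)} : Set G), ConjClasses.mk g = C ∧ q ∣ orderOf g) → q ∈ T}
    have hD : ∀ x, Nat.card (D x) ≤ ∏ q ∈ T, q ^ (Nat.card G).factorization q := by
      intro x
      refine (ih hT' _).trans (Finset.prod_le_prod' fun q hq => ?_)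
      exact Nat.pow_le_pow_right (hT' q hq).pos
        ((Nat.factorization_le_iff_dvd Nat.card_pos.ne' Nat.card_pos.ne').2 (Subgroup.card_subgroup_dvd_card _) q)
    have hsum : Nat.card (Σ x, D x) ≤ Nat.card (P : Subgroup G) * ∏ q ∈ T, q ^ (Nat.card G).factorization q := by
      rw [Nat.card_sigma]
      refine (Finset.sum_le_sum fun x _ => hD x).trans ?_
      rw [Finset.sum_const, Finset.card_univ, smul_eq_mul, Nat.card_eq_fintype_card (α := (P : Subgroup G))]
    refine le_trans ?_ hsum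
    let φ : (Σ x, D x) → ConjClasses G := fun z =>
      Quotient.liftOn z.2.1 (fun y => ConjClasses.mk ((z.1 : G) * y.1)) (by
        intro y y' h
        obtain ⟨c, hc⟩ := isConj_iff.1 h
        refine ConjClasses.mk_eq_mk_iff_isConj.2 (isConj_iff.2 ⟨c.1, ?_⟩)
        rw [← hc]
        have := Subgroup.mem_centralizer_singleton_iff.1 c.2
        push_cast
        calc (c : G) * ((z.1 : G) * y) * (c : G)⁻¹ = ((c : G) * z.1) * y * (c : G)⁻¹ := by group
          _ = (z.1 : G) * ((c : G) * y * (c : G)⁻¹) := by rw [this]; group)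
    have hsurj : ∀ C : {C : ConjClasses G // ∀ q : ℕ, q.Prime → (∃ g : G, ConjClasses.mk g = C ∧ q ∣ orderOf g) → q ∈ insert p T},
        ∃ z, φ z = C.1 := by
      rintro ⟨C, hC⟩
      obtain ⟨g, rfl⟩ := ConjClasses.mk_surjective C
      obtain ⟨k, m, hm, hgm⟩ := Nat.exists_eq_pow_mul_and_not_dvd (orderOf_pos g).ne' p hp.ne_one
      have hcop : (p ^ k).Coprime m := ((hp.coprime_iff_not_dvd).2 hm).pow_left k
      obtain ⟨a, ha1, ha2⟩ := Nat.chineseRemainder hcop 1 0
      set u := g ^ a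
      set v := u⁻¹ * g
      have hu : u ^ p ^ k = 1 := by
        rw [← pow_mul, ← orderOf_dvd_iff_pow_eq_one, hgm, mul_comm a]
        exact Nat.mul_dvd_mul_left _ (Nat.modEq_zero_iff_dvd.1 ha2)
      have hv : v ^ m = 1 := by
        have hcm : Commute u⁻¹ g := ((Commute.refl g).pow_left a).inv_left
        rw [hcm.mul_pow, inv_pow, inv_mul_eq_one, ← pow_mul, pow_eq_pow_iff_modEq, hgm]
        refine (Nat.modEq_and_modEq_iff_modEq_mul hcop).1 ⟨?_, ?_⟩
        · simpa using Nat.ModEq.mul_right m ha1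
        · exact (Nat.modEq_zero_iff_dvd.2 (dvd_mul_left m a)).trans (Nat.modEq_zero_iff_dvd.2 (dvd_refl m)).symm
      obtain ⟨i, -, hi⟩ := (Nat.dvd_prime_pow hp).1 (orderOf_dvd_of_pow_eq_one hu)
      obtain ⟨Q, hQ⟩ := (IsPGroup.of_card (n := i) (show Nat.card (Subgroup.zpowers u) = p ^ i by
        rw [Nat.card_zpowers, hi])).exists_le_sylow
      obtain ⟨c, hc⟩ := MulAction.exists_smul_eq G Q P
      have hx : c * u * c⁻¹ ∈ (P : Subgroup G) := by
        rw [← hc]
        exact Subgroup.smul_mem_pointwise_smul u (MulAut.conj c) _ (hQ (Subgroup.mem_zpowers u))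
      have hy : c * v * c⁻¹ ∈ Subgroup.centralizer ({c * u * c⁻¹} : Set G) := by
        rw [Subgroup.mem_centralizer_singleton_iff]
        have : v * u = u * v := by
          have : Commute v u := ((Commute.refl u).inv_left).mul_left ((Commute.refl g).pow_right a)
          exact this
        simp [mul_assoc]
        rw [← mul_assoc v, this, mul_assoc]
      refine ⟨⟨⟨_, hx⟩, ⟨ConjClasses.mk ⟨_, hy⟩, ?_⟩⟩, ?_⟩
      · rintro q hq ⟨w, hw, hqw⟩
        obtain ⟨d, hd⟩ := isConj_iff.1 (ConjClasses.mk_eq_mk_iff_isConj.1 hw.symm)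
        have hwm : orderOf w ∣ m := by
          apply orderOf_dvd_of_pow_eq_one
          rw [← hd, conj_pow, show (⟨c * v * c⁻¹, hy⟩ : Subgroup.centralizer ({c * u * c⁻¹} : Set G)) ^ m = 1 from
            Subtype.ext (by show (c * v * c⁻¹) ^ m = 1; rw [conj_pow, hv]; group)]
          group
        have hqm : q ∣ m := hqw.trans hwm
        have hmem := hC q hq ⟨g, rfl, hgm ▸ dvd_mul_of_dvd_right hqm _⟩
        exact (Finset.mem_insert.1 hmem).resolve_left fun h => hm (h ▸ hqm)
      · show ConjClasses.mk _ = ConjClasses.mk g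
        refine ConjClasses.mk_eq_mk_iff_isConj.2 (isConj_iff.2 ⟨c⁻¹, ?_⟩)
        simp [v, mul_assoc]
    choose f hf using hsurj
    exact Nat.card_le_card_of_injective f fun a b h => Subtype.ext (by rw [← hf a, ← hf b, h])


/-- Let G be a finite group, π a set of primes and m the π-part of the order of G. Then the number of conjugacy classes of G consisting of π-elements (elements whose order is divisible only by primes in π) is at most m. -/
theorem result {G : Type*} [Group G] [Finite G]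
    (π : Set ℕ) (hπ : ∀ q ∈ π, q.Prime)
    (m : ℕ) (hm : m ∣ Nat.card G) (hmπ : ∀ q : ℕ, q.Prime → q ∣ m → q ∈ π)
    (hm' : ∀ q ∈ π, ¬ q ∣ Nat.card G / m) :
    Nat.card {C : ConjClasses G // ∀ q : ℕ, q.Prime → (∃ g : G, ConjClasses.mk g = C ∧ q ∣ orderOf g) → q ∈ π} ≤ m := by
  classical
  have hm0 : m ≠ 0 := fun h => Nat.card_pos.ne' (Nat.eq_zero_of_zero_dvd (h ▸ hm) : Nat.card G = 0)
  let T := (Nat.card G).primeFactors.filter (· ∈ π)
  have hTm : T = m.primeFactors := by
    ext q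
    simp only [T, Finset.mem_filter, Nat.mem_primeFactors]
    constructor
    · rintro ⟨⟨hq, hqG, -⟩, hqπ⟩
      refine ⟨hq, ?_, hm0⟩
      rw [← Nat.mul_div_cancel' hm] at hqG
      exact (hq.dvd_mul.1 hqG).resolve_right (hm' q hqπ)
    · rintro ⟨hq, hqm, -⟩
      exact ⟨⟨hq, hqm.trans hm, Nat.card_pos.ne'⟩, hmπ q hq hqm⟩
  have hprod : ∏ q ∈ T, q ^ (Nat.card G).factorization q = m := by
    conv_rhs => rw [← Nat.prod_factorization_pow_eq_self hm0]
    rw [hTm, Nat.prod_factorization_eq_prod_primeFactors]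
    refine Finset.prod_congr rfl fun q hq => ?_
    obtain ⟨hq', hqm, -⟩ := Nat.mem_primeFactors.1 hq
    have hd0 : Nat.card G / m ≠ 0 := (Nat.div_pos (Nat.le_of_dvd Nat.card_pos hm) (Nat.pos_of_ne_zero hm0)).ne'
    conv_lhs => rw [← Nat.mul_div_cancel' hm]
    rw [Nat.factorization_mul hm0 hd0, Finsupp.add_apply,
      Nat.factorization_eq_zero_of_not_dvd (hm' q (hmπ q hq' hqm)), add_zero]
  refine le_trans ?_ ((classes_bound T (fun q hq => (Nat.mem_primeFactors.1 (Finset.mem_filter.1 hq).1).1) G).trans_eq hprod)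
  refine Nat.card_le_card_of_injective (fun C => ⟨C.1, fun q hq hg => ?_⟩) fun a b h => Subtype.ext (congrArg (fun z => z.1) h)
  obtain ⟨g, hgC, hqg⟩ := hg
  exact Finset.mem_filter.2 ⟨Nat.mem_primeFactors.2 ⟨hq, hqg.trans (orderOf_dvd_natCard g), Nat.card_pos.ne'⟩,
    C.2 q hq ⟨g, hgC, hqg⟩⟩

end Cfsg.Agent.S4106
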