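import Cfsg.Statements.S4107
import Cfsg.Agent.Core.Fitting
import Cfsg.Agent.OddLocal.Basic
-- import your own Cfsg.Agent.* helpers here

set_option autoImplicit false
open Cfsg

namespace Cfsg.Agent.S4107

theorem fixed_in_coset {G : Type*} [Group G] [Finite G] {p q : ℕ} [Fact p.Prime] [Fact q.Prime] (hpq : p ≠ q)
    (Y : Subgroup G) [hYn : Y.Normal] (hY : IsPGroup p Y) (n x : G) (hn : orderOf n = q)
    (hx : n * x * n⁻¹ * x⁻¹ ∈ Y) : ∃ y ∈ Y, Commute n (y * x) := by
  let S := {s : G // s * x⁻¹ ∈ Y}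
  letI : MulAction (Subgroup.zpowers n) S :=
    { smul := fun m s => ⟨(m : G) * s.1 * (m : G)⁻¹, by
        have hgen : n ∈ Subgroup.comap (QuotientGroup.mk' Y) (Subgroup.centralizer ({(x : G ⧸ Y)} : Set (G ⧸ Y))) := by
          rw [Subgroup.mem_comap, Subgroup.mem_centralizer_singleton_iff]
          have hx' := (QuotientGroup.eq_one_iff _).2 hx
          simp only [QuotientGroup.mk_mul, QuotientGroup.mk_inv] at hx'
          rw [mul_inv_eq_one, mul_inv_eq_iff_eq_mul] at hx'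
          exact hx'
        have hm := Subgroup.zpowers_le.2 hgen m.2
        rw [Subgroup.mem_comap, Subgroup.mem_centralizer_singleton_iff, QuotientGroup.mk'_apply] at hm
        have hs : ((s.1 : G) : G ⧸ Y) = x := by
          have := (QuotientGroup.eq_one_iff _).2 s.2
          simpa [mul_inv_eq_one] using this
        rw [← QuotientGroup.eq_one_iff]
        simp [hs, hm]⟩
      one_smul := fun s => Subtype.ext (by show ((1 : Subgroup.zpowers n) : G) * s.1 * ((1 : Subgroup.zpowers n) : G)⁻¹ = s.1; simp)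
      mul_smul := fun a b s => Subtype.ext (by
        show ((a * b : Subgroup.zpowers n) : G) * s.1 * ((a * b : Subgroup.zpowers n) : G)⁻¹ =
          (a : G) * ((b : G) * s.1 * (b : G)⁻¹) * (a : G)⁻¹
        simp [mul_assoc]) }
  have hS : Nat.card S = Nat.card Y := Nat.card_congr
    ((Equiv.mulRight x⁻¹).subtypeEquiv fun s => Iff.rfl)
  have hq : IsPGroup q (Subgroup.zpowers n) := IsPGroup.of_card (n := 1) (by rw [Nat.card_zpowers, hn, pow_one])
  obtain ⟨k, hk⟩ := IsPGroup.iff_card.1 hY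
  obtain ⟨s, hs⟩ := hq.nonempty_fixed_point_of_prime_not_dvd_card S (by
    rw [hS, hk]
    intro h
    exact hpq ((Nat.prime_dvd_prime_iff_eq Fact.out Fact.out).1 ((Fact.out : q.Prime).dvd_of_dvd_pow h)).symm)
  refine ⟨s.1 * x⁻¹, s.2, ?_⟩
  rw [inv_mul_cancel_right]
  have h2 : n * s.1 * n⁻¹ = s.1 := congrArg Subtype.val (hs ⟨n, Subgroup.mem_zpowers n⟩)
  exact mul_inv_eq_iff_eq_mul.1 h2


/-- Let G be a finite group and N a proper non-trivial normal subgroup such that for every x outside N all elements of the coset xN have the same order as x. Then N ≤ F(G) or F(G) ≤ N, where F(G) is the Fitting subgroup; and if N is properly contained in F(G) then F(G) has prime-power order. -/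
theorem result {G : Type*} [Group G] [Finite G] (N : Subgroup G) [N.Normal] (hN1 : N ≠ ⊥) (hN2 : N ≠ ⊤)
    (heq : ∀ x : G, x ∉ N → ∀ n ∈ N, orderOf (x * n) = orderOf x) :
    (N ≤ Cfsg.fittingSubgroup G ∨ Cfsg.fittingSubgroup G ≤ N) ∧
    (N < Cfsg.fittingSubgroup G → IsPrimePow (Nat.card (Cfsg.fittingSubgroup G))) := by
  have hFn : Group.IsNilpotent (Cfsg.fittingSubgroup G) := Cfsg.Agent.Core.isNilpotent_fittingSubgroup G
  have claimA : ∀ (x : G) (p k : ℕ), orderOf x = p ^ k → x ∉ N → ∀ n ∈ N, Commute x n → n ^ p ^ k = 1 := by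
    intro x p k hk hxN n hn hc
    have h1 := pow_orderOf_eq_one (x * n)
    rw [heq x hxN n hn, hc.mul_pow, pow_orderOf_eq_one, one_mul, hk] at h1
    exact h1
  by_cases hle : Cfsg.fittingSubgroup G ≤ N
  · exact ⟨Or.inr hle, fun h => absurd hle h.not_ge⟩
  rw [Cfsg.Agent.Core.fittingSubgroup_eq_iSup] at hle
  simp only [iSup_le_iff, not_forall] at hle
  obtain ⟨p, hp⟩ := hle
  have hpp : p.val.Prime := p.2
  haveI : Fact p.val.Prime := ⟨hpp⟩
  obtain ⟨x, hxO, hxN⟩ := SetLike.not_le_iff_exists.1 hp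
  haveI hOn : (Cfsg.pCore p.val G).Normal := inferInstance
  have hO : IsPGroup p.val (Cfsg.pCore p.val G) := Cfsg.Agent.Core.isPGroup_pCore p.val G
  obtain ⟨k, hk⟩ := IsPGroup.iff_orderOf.1 hO ⟨x, hxO⟩
  have hxk : orderOf x = p.val ^ k := by rw [← hk]; exact Subgroup.orderOf_coe (⟨x, hxO⟩ : Cfsg.pCore p.val G)
  -- N is a p-group
  have hNp : IsPGroup p.val N := by
    by_contra hNot
    obtain ⟨q, hq, hqN, hqp⟩ : ∃ q, q.Prime ∧ q ∣ Nat.card N ∧ q ≠ p.val := by
      by_contra h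
      push Not at h
      exact hNot (Cfsg.Agent.Core.isPGroup_iff_isPiNat.2 fun r hr hrd => h r hr hrd)
    haveI : Fact q.Prime := ⟨hq⟩
    obtain ⟨n, hn⟩ := exists_prime_orderOf_dvd_card' (G := N) q hqN
    have hno : orderOf (n : G) = q := by rw [← hn]; exact Subgroup.orderOf_coe n
    obtain ⟨y, hy, hc⟩ := fixed_in_coset hqp.symm (Cfsg.pCore p.val G ⊓ N) (hO.to_le inf_le_left) (n : G) x hno (by
      refine Subgroup.mem_inf.2 ⟨mul_mem (hOn.conj_mem x hxO n) ((Cfsg.pCore p.val G).inv_mem hxO), ?_⟩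
      rw [mul_assoc, mul_assoc, ← mul_assoc x]
      exact N.mul_mem n.2 ((inferInstance : N.Normal).conj_mem _ (N.inv_mem n.2) x))
    have hyx : y * x ∉ N := fun h => hxN (by simpa using N.mul_mem (N.inv_mem hy.2) h)
    obtain ⟨j, hj⟩ := IsPGroup.iff_orderOf.1 hO ⟨y * x, mul_mem hy.1 hxO⟩
    have hjo : orderOf (y * x) = p.val ^ j := by
      rw [← hj]; exact Subgroup.orderOf_coe (⟨y * x, mul_mem hy.1 hxO⟩ : Cfsg.pCore p.val G)
    have := orderOf_dvd_of_pow_eq_one (claimA _ _ j hjo hyx n n.2 hc.symm)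
    rw [hno] at this
    exact hqp ((Nat.prime_dvd_prime_iff_eq hq hpp).1 (hq.dvd_of_dvd_pow this))
  have hNF : N ≤ Cfsg.fittingSubgroup G :=
    (Cfsg.Agent.Core.le_pCore inferInstance hNp).trans (Cfsg.Agent.Core.pCore_le_fittingSubgroup p.val G)
  refine ⟨Or.inl hNF, fun _ => ?_⟩
  have hOF := Cfsg.Agent.Core.pCore_le_fittingSubgroup p.val G
  have hF : IsPGroup p.val (Cfsg.fittingSubgroup G) := by
    by_contra hNot
    obtain ⟨q, hq, hqF, hqp⟩ : ∃ q, q.Prime ∧ q ∣ Nat.card (Cfsg.fittingSubgroup G) ∧ q ≠ p.val := by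
      by_contra h
      push Not at h
      exact hNot (Cfsg.Agent.Core.isPGroup_iff_isPiNat.2 fun r hr hrd => h r hr hrd)
    haveI : Fact q.Prime := ⟨hq⟩
    obtain ⟨z, hz⟩ := exists_prime_orderOf_dvd_card' (G := Cfsg.fittingSubgroup G) q hqF
    have hzo : orderOf (z : G) = q ^ 1 := by rw [pow_one, ← hz]; exact Subgroup.orderOf_coe z
    have hzN : (z : G) ∉ N := by
      intro h
      obtain ⟨j, hj⟩ := IsPGroup.iff_orderOf.1 hNp ⟨(z : G), h⟩
      have hj' : orderOf (z : G) = p.val ^ j := by rw [← hj]; exact Subgroup.orderOf_coe (⟨(z : G), h⟩ : N)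
      rw [hzo, pow_one] at hj'
      exact hqp ((Nat.prime_dvd_prime_iff_eq hq hpp).1 (hq.dvd_of_dvd_pow (dvd_of_eq hj')))
    obtain ⟨n, hn, hn1⟩ := SetLike.exists_of_lt (bot_lt_iff_ne_bot.2 hN1)
    rw [Subgroup.mem_bot] at hn1
    obtain ⟨j, hj⟩ := IsPGroup.iff_orderOf.1 hNp ⟨n, hn⟩
    have hj' : orderOf n = p.val ^ j := by rw [← hj]; exact Subgroup.orderOf_coe (⟨n, hn⟩ : N)
    have hcop : (orderOf z).Coprime (orderOf (⟨n, hNF hn⟩ : Cfsg.fittingSubgroup G)) := by
      rw [hz, show orderOf (⟨n, hNF hn⟩ : Cfsg.fittingSubgroup G) = orderOf n from (Subgroup.orderOf_coe _).symm, hj']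
      exact ((Nat.coprime_primes hq hpp).2 hqp).pow_right j
    have hc : Commute (z : G) n := by
      have := Cfsg.Agent.OddLocal.commute_of_coprime_orderOf (G := Cfsg.fittingSubgroup G) hcop
      exact congrArg Subtype.val this.eq
    have h1 := orderOf_dvd_of_pow_eq_one (claimA _ _ 1 hzo hzN n hn hc)
    rw [hj', pow_one] at h1
    rcases Nat.eq_zero_or_pos j with hj0 | hjpos
    · exact hn1 (orderOf_eq_one_iff.1 (by rw [hj', hj0, pow_zero]))
    · exact hqp.symm ((Nat.prime_dvd_prime_iff_eq hpp hq).1 ((dvd_pow_self p.val hjpos.ne').trans h1))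
  obtain ⟨j, hj⟩ := IsPGroup.iff_card.1 hF
  refine ⟨p.val, j, Nat.prime_iff.1 hpp, Nat.pos_of_ne_zero fun h0 => ?_, hj.symm⟩
  rw [h0, pow_zero, Subgroup.card_eq_one] at hj
  exact hxN ((Subgroup.mem_bot.1 (hj ▸ hOF hxO)) ▸ N.one_mem)

end Cfsg.Agent.S4107
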