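import Cfsg.Statements.S4108
import Cfsg.Agent.FGS3.PGroupBasic
-- import your own Cfsg.Agent.* helpers here

set_option autoImplicit false
open Cfsg

namespace Cfsg.Agent.S4108

open scoped Pointwise


/-- Let G be a finite group, p a prime and N a proper non-trivial normal p-subgroup such that for every x outside N all elements of the coset xN have the same order as x. Then every non-trivial subgroup H of G of order prime to p acts fixed-point-freely on N: NH is a Frobenius group with complement H and kernel N. -/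
theorem result {G : Type*} [Group G] [Finite G] (N : Subgroup G) [N.Normal] (hN1 : N ≠ ⊥) (hN2 : N ≠ ⊤)
    (heq : ∀ x : G, x ∉ N → ∀ n ∈ N, orderOf (x * n) = orderOf x)
    (p : ℕ) [Fact p.Prime] (hNp : IsPGroup p N) :
    ∀ H : Subgroup G, H ≠ ⊥ → (Nat.card H).Coprime p →
      Cfsg.IsFrobeniusComplement (H.subgroupOf (N ⊔ H)) ∧ Cfsg.frobeniusKernel (H.subgroupOf (N ⊔ H)) = (N.subgroupOf (N ⊔ H) : Set ↥(N ⊔ H)) := by
  intro H hH hcop
  have hp : p.Prime := Fact.out
  have hfpf : ∀ h ∈ H, h ≠ 1 → ∀ n ∈ N, Commute h n → n = 1 := by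
    intro h hh h1 n hn hc
    have hoh : (orderOf h).Coprime p := Nat.Coprime.coprime_dvd_left (Subgroup.orderOf_dvd_natCard H hh) hcop
    obtain ⟨k, hk⟩ := Cfsg.Agent.FGS3.exists_orderOf_eq_pow hNp hn
    have hhN : h ∉ N := fun hN => h1 (orderOf_eq_one_iff.1 (by
      obtain ⟨j, hj⟩ := Cfsg.Agent.FGS3.exists_orderOf_eq_pow hNp hN
      exact Nat.Coprime.eq_one_of_dvd (hoh.pow_right j) (dvd_of_eq hj)))
    have h2 := heq h hhN n hn
    rw [hc.orderOf_mul_eq_mul_orderOf_of_coprime (by rw [hk]; exact hoh.pow_right k)] at h2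
    exact orderOf_eq_one_iff.1 ((Nat.mul_eq_left (orderOf_pos h).ne').1 h2)
  have hdis : ∀ x ∈ N, x ∈ H → x = 1 := fun x hx hxH => by
    by_contra h
    exact h (hfpf x hxH h x hx (Commute.refl x))
  obtain ⟨k, hk⟩ := IsPGroup.iff_card.1 hNp
  have hNH : ∀ z : ↥(N ⊔ H), ∃ n ∈ N, ∃ h ∈ H, (z : G) = n * h := fun z => by
    obtain ⟨n, hn, h, hh, hz⟩ := Subgroup.mem_sup_of_normal_left.1 z.2
    exact ⟨n, hn, h, hh, hz.symm⟩
  have hconjmem : ∀ (g : ↥(N ⊔ H)) (x : ↥(N ⊔ H)), x ∈ MulAut.conj g • H.subgroupOf (N ⊔ H) ↔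
      (g : G)⁻¹ * x * g ∈ H := by
    intro g x
    rw [Subgroup.mem_pointwise_smul_iff_inv_smul_mem, ← map_inv, MulAut.smul_def, MulAut.conj_apply, Subgroup.mem_subgroupOf]
    simp
  constructor
  · refine ⟨?_, ?_, ?_⟩
    · intro h
      rw [Subgroup.subgroupOf_eq_bot, disjoint_iff, inf_eq_left.2 le_sup_right] at h
      exact hH h
    · intro h
      rw [Subgroup.subgroupOf_eq_top] at h
      obtain ⟨n, hn, hn1⟩ := SetLike.exists_of_lt (bot_lt_iff_ne_bot.2 hN1)
      exact hn1 (Subgroup.mem_bot.2 (hdis n hn (h (le_sup_left (b := H) hn))))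
    · intro g hg
      rw [eq_bot_iff]
      rintro x ⟨hx1, hx2⟩
      rw [Subgroup.mem_bot]
      replace hx2 := (hconjmem g x).1 hx2
      obtain ⟨n, hn, h, hh, hgn⟩ := hNH g
      rw [hgn] at hx2
      have hx3 : n⁻¹ * (x : G) * n ∈ H := by
        have := mul_mem (mul_mem hh hx2) (inv_mem hh)
        simpa [mul_assoc] using this
      have hc : n⁻¹ * (x : G) * n = x := by
        have h1 : n⁻¹ * (x : G) * n * (x : G)⁻¹ ∈ N := by
          have := mul_mem (inv_mem hn) ((inferInstance : N.Normal).conj_mem n hn (x : G))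
          simpa [mul_assoc] using this
        exact mul_inv_eq_one.1 (hdis _ h1 (mul_mem hx3 (inv_mem (Subgroup.mem_subgroupOf.1 hx1))))
      by_contra hne
      have hn1 : n = 1 := hfpf (x : G) (Subgroup.mem_subgroupOf.1 hx1) (fun h => hne (Subtype.ext h)) n hn (by
        show (x : G) * n = n * x
        calc (x : G) * n = n * (n⁻¹ * x * n) := by group
          _ = n * x := by rw [hc])
      exact hg (Subgroup.mem_subgroupOf.2 (by rw [hgn, hn1, one_mul]; exact hh))
  · ext z
    simp only [Cfsg.frobeniusKernel, Set.mem_setOf_eq, SetLike.mem_coe, Subgroup.mem_subgroupOf]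
    constructor
    · rintro (rfl | hz)
      · exact N.one_mem
      · obtain ⟨n, hn, h, hh, hzn⟩ := hNH z
        by_cases h1 : h = 1
        · rw [hzn, h1, mul_one]; exact hn
        exfalso
        let f : N → N := fun m => ⟨m * h * (m : G)⁻¹ * h⁻¹, by
          rw [mul_assoc, mul_assoc, ← mul_assoc h]
          exact mul_mem m.2 ((inferInstance : N.Normal).conj_mem _ (inv_mem m.2) h)⟩
        have hinj : Function.Injective f := fun a b hab => by
          have h' : (a : G) * h * (a : G)⁻¹ = b * h * (b : G)⁻¹ := mul_right_cancel (congrArg Subtype.val hab)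
          have : (b : G)⁻¹ * a = 1 := hfpf h hh h1 _ (mul_mem (inv_mem b.2) a.2) (by
            show h * ((b : G)⁻¹ * a) = (b : G)⁻¹ * a * h
            calc h * ((b : G)⁻¹ * a) = (b : G)⁻¹ * (b * h * (b : G)⁻¹) * a := by group
              _ = (b : G)⁻¹ * a * h := by rw [← h']; group)
          exact Subtype.ext (inv_mul_eq_one.1 this).symm
        obtain ⟨m, hm⟩ := (Finite.injective_iff_surjective.1 hinj) ⟨n, hn⟩
        have hm' : (m : G) * h * (m : G)⁻¹ * h⁻¹ = n := congrArg Subtype.val hm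
        refine hz ⟨(m : G), Subgroup.mem_sup_left m.2⟩ ((hconjmem _ z).2 ?_)
        rw [hzn, ← hm']
        simpa [mul_assoc] using hh
    · intro hz
      by_cases h1 : z = 1
      · exact Or.inl h1
      refine Or.inr fun g hg => h1 (Subtype.ext ?_)
      have := hdis _ (by simpa using (inferInstance : N.Normal).conj_mem _ hz (g : G)⁻¹) ((hconjmem g z).1 hg)
      calc (z : G) = (g : G) * ((g : G)⁻¹ * z * g) * (g : G)⁻¹ := by group
        _ = 1 := by rw [this]; group

end Cfsg.Agent.S4108
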