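import Cfsg.Statements.S4112
import Cfsg.Agent.OddLocal.NilBasics
import Mathlib.GroupTheory.SchurZassenhaus
import Mathlib.GroupTheory.Frattini
-- import your own Cfsg.Agent.* helpers here

set_option autoImplicit false
open Cfsg

namespace Cfsg.Agent.S4112

/-- A minimal supplement of a normal subgroup involves only the primes of the index. -/
theorem exists_supplement_primes {G : Type*} [Group G] [Finite G] (N : Subgroup G) [N.Normal] :
    ∃ H : Subgroup G, H ⊔ N = ⊤ ∧ ∀ r : ℕ, r.Prime → r ∣ Nat.card H → r ∣ N.index := by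
  obtain ⟨H, hH, hmin⟩ := Finite.exists_le_maximal (α := (Subgroup G)ᵒᵈ) (p := fun H => (OrderDual.ofDual H) ⊔ N = ⊤)
    (a := OrderDual.toDual ⊤) (by simp)
  let H' : Subgroup G := OrderDual.ofDual H
  have hsup : H' ⊔ N = ⊤ := hmin.prop
  have hmin' : ∀ K : Subgroup H', K.map H'.subtype ⊔ N = ⊤ → K = ⊤ := by
    intro K hK
    have hle : K.map H'.subtype ≤ H' := Subgroup.map_subtype_le K
    have := hmin.le_of_ge (y := OrderDual.toDual (K.map H'.subtype)) hK hle
    have heq : K.map H'.subtype = H' := le_antisymm hle this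
    apply Subgroup.map_injective H'.subtype_injective
    rw [heq, ← MonoidHom.range_eq_map, Subgroup.range_subtype]
  refine ⟨H', hsup, fun r hr hrH => by_contra fun hrN => ?_⟩
  have := Fact.mk hr
  obtain ⟨R⟩ : Nonempty (Sylow r H') := inferInstance
  set N' : Subgroup H' := N.subgroupOf H'
  have hRN : (R : Subgroup H') ≤ N' := by
    intro x hx
    rw [Subgroup.mem_subgroupOf, ← QuotientGroup.eq_one_iff]
    obtain ⟨a, ha⟩ := IsPGroup.iff_orderOf.mp R.2 ⟨x, hx⟩
    rw [Subgroup.orderOf_mk, ← Subgroup.orderOf_coe] at ha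
    refine orderOf_eq_one_iff.mp (Nat.eq_one_of_dvd_coprimes (k := orderOf ((x : G) : G ⧸ N))
      (Nat.Coprime.pow_left a (hr.coprime_iff_not_dvd.mpr hrN))
      (ha ▸ orderOf_map_dvd (QuotientGroup.mk' N) (x : G)) ?_)
    rw [Subgroup.index_eq_card]
    exact orderOf_dvd_natCard _
  have hfr := Sylow.normalizer_sup_eq_top' R hRN
  have hnorm : Subgroup.normalizer (R : Set H') = ⊤ := by
    refine hmin' _ ?_
    rw [eq_top_iff, ← hsup]
    refine sup_le ?_ le_sup_right
    calc H' = (⊤ : Subgroup H').map H'.subtype := by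
          rw [← MonoidHom.range_eq_map, Subgroup.range_subtype]
      _ ≤ _ := by
          rw [← hfr, Subgroup.map_sup]
          exact sup_le_sup le_rfl (Subgroup.map_le_iff_le_comap.mpr le_rfl)
  have hn : (R : Subgroup H').Normal := Subgroup.normalizer_eq_top_iff.mp hnorm
  obtain ⟨K, hK⟩ := Subgroup.exists_right_complement'_of_coprime R.card_coprime_index
  have hKtop : K = ⊤ := by
    refine hmin' K ?_
    rw [eq_top_iff, ← hsup]
    refine sup_le ?_ le_sup_right
    calc H' = (⊤ : Subgroup H').map H'.subtype := by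
          rw [← MonoidHom.range_eq_map, Subgroup.range_subtype]
      _ ≤ _ := by
          rw [← hK.sup_eq_top, Subgroup.map_sup]
          exact sup_le ((Subgroup.map_mono hRN).trans
            ((Subgroup.map_le_iff_le_comap.mpr le_rfl).trans le_sup_right)) le_sup_left
  have hd := hK.symm.index_eq_card
  rw [hKtop, Subgroup.card_top] at hd
  exact R.not_dvd_index (hd ▸ hrH)


/-- Let G be a finite group and M ≤ N non-trivial proper normal subgroups such that for every g outside N the conjugacy class of g is a union of cosets of M (equivalently gm is conjugate to g for every m ∈ M). Then (1) and (2) below are equivalent, and they imply (3): (1) every g outside N acts fixed-point-freely on M, that is C_G(x) ≤ N for every x ∈ M, x ≠ 1; (2) the index of N in G is coprime to the order of M; (3) there is a subgroup H of G with HN = G and H ∩ M = 1. -/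
theorem result {G : Type*} [Group G] [Finite G] (N M : Subgroup G) [N.Normal] [M.Normal] (hMN : M ≤ N) (hM1 : M ≠ ⊥) (hN2 : N ≠ ⊤)
    (hcam : ∀ g : G, g ∉ N → ∀ m ∈ M, ∃ x : G, x * g * x⁻¹ = g * m) :
    ((∀ x ∈ M, x ≠ 1 → Subgroup.centralizer ({x} : Set G) ≤ N) ↔ N.index.Coprime (Nat.card M)) ∧
    ((∀ x ∈ M, x ≠ 1 → Subgroup.centralizer ({x} : Set G) ≤ N) → ∃ H : Subgroup G, H ⊔ N = ⊤ ∧ H ⊓ M = ⊥) := by
  have h21 : N.index.Coprime (Nat.card M) →
      ∀ x ∈ M, x ≠ 1 → Subgroup.centralizer ({x} : Set G) ≤ N := by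
    intro hcop x₀ hx₀ hx₀1 g hg
    by_contra hgN
    obtain ⟨r, hr, hrd⟩ := Nat.exists_prime_and_dvd (fun h => hx₀1 (orderOf_eq_one_iff.mp h))
    set x := x₀ ^ (orderOf x₀ / r) with hx
    have hxr : orderOf x = r := orderOf_pow_orderOf_div (orderOf_pos x₀).ne' hrd
    have hxM : x ∈ M := M.pow_mem hx₀ _
    have hrn : ¬ r ∣ N.index := fun h => hr.ne_one
      (Nat.eq_one_of_dvd_coprimes hcop h (hrd.trans (Subgroup.orderOf_dvd_natCard M hx₀)))
    set k := r ^ (orderOf g).factorization r with hk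
    have hko : k ∣ orderOf g := Nat.ordProj_dvd _ _
    have hor : (orderOf (g ^ k)).Coprime r := by
      rw [orderOf_pow' g (pow_ne_zero _ hr.ne_zero), Nat.gcd_eq_right hko, Nat.coprime_comm,
        hr.coprime_iff_not_dvd]
      exact Nat.not_dvd_ordCompl hr (orderOf_pos g).ne'
    have hkN : g ^ k ∉ N := by
      intro hkN
      have h0 : g ^ N.index ∈ N := by
        rw [← QuotientGroup.eq_one_iff, QuotientGroup.mk_pow, Subgroup.index_eq_card]
        exact pow_card_eq_one'
      obtain ⟨u, v, huv⟩ := Nat.Coprime.isCoprime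
        ((hr.coprime_iff_not_dvd.mpr hrn).pow_left ((orderOf g).factorization r) : k.Coprime N.index)
      have e : g = (g ^ k) ^ u * (g ^ N.index) ^ v := by
        rw [← zpow_natCast g k, ← zpow_natCast g N.index, ← zpow_mul, ← zpow_mul, ← zpow_add,
          mul_comm (k : ℤ), mul_comm (N.index : ℤ), huv, zpow_one]
      apply hgN
      rw [e]
      exact N.mul_mem (N.zpow_mem hkN u) (N.zpow_mem h0 v)
    have hjx : Commute (g ^ k) x := by
      have hg' : Commute g x₀ := Subgroup.mem_centralizer_singleton_iff.mp hg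
      exact hg'.pow_pow _ _
    obtain ⟨y, hy⟩ := hcam (g ^ k) hkN x hxM
    have ho : orderOf (g ^ k * x) = orderOf (g ^ k) := by
      rw [← hy]; exact (MulEquiv.orderOf_eq (MulAut.conj y) (g ^ k))
    rw [hjx.orderOf_mul_eq_mul_orderOf_of_coprime (by rw [hxr]; exact hor), hxr] at ho
    exact hr.ne_one ((Nat.mul_eq_left (orderOf_pos (g ^ k)).ne').mp ho)
  have h12 : (∀ x ∈ M, x ≠ 1 → Subgroup.centralizer ({x} : Set G) ≤ N) →
      N.index.Coprime (Nat.card M) := by
    intro h1
    refine Nat.coprime_of_dvd fun r hr hrN hrM => ?_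
    have := Fact.mk hr
    obtain ⟨R⟩ : Nonempty (Sylow r G) := inferInstance
    obtain ⟨x, hx, hxC, hx1⟩ : ∃ x ∈ M, x ∈ Subgroup.centralizer ((R : Subgroup G) : Set G) ∧ x ≠ 1 := by
      set I := M.subgroupOf (R : Subgroup G) with hI
      have hIne : Nontrivial I := by
        rw [Subgroup.nontrivial_iff_ne_bot, ne_eq, hI, Subgroup.subgroupOf_eq_bot, disjoint_iff]
        intro hbot
        obtain ⟨z, hz⟩ := exists_prime_orderOf_dvd_card' r hrM
        have hzG : orderOf (z : G) = r := by rw [Subgroup.orderOf_coe, hz]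
        have hzp : IsPGroup r (Subgroup.zpowers (z : G)) :=
          IsPGroup.of_card (n := 1) (by rw [Nat.card_zpowers, hzG, pow_one])
        obtain ⟨S, hS⟩ := hzp.exists_le_sylow
        obtain ⟨c, hc⟩ := MulAction.exists_smul_eq G S R
        have h1R : c * (z : G) * c⁻¹ ∈ (R : Subgroup G) := by
          rw [← hc]
          exact Subgroup.smul_mem_pointwise_smul _ (MulAut.conj c) _ (hS (Subgroup.mem_zpowers _))
        have : c * (z : G) * c⁻¹ ∈ M ⊓ (R : Subgroup G) := ⟨‹M.Normal›.conj_mem _ z.2 c, h1R⟩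
        rw [hbot, Subgroup.mem_bot, conj_eq_one_iff] at this
        rw [this, orderOf_one] at hzG
        exact hr.ne_one hzG.symm
      have : Group.IsNilpotent (R : Subgroup G) := R.2.isNilpotent
      obtain ⟨w, hw, hw1, hwc⟩ := Cfsg.Agent.OddLocal.exists_ne_one_mem_center_of_normal I
        (Subgroup.nontrivial_iff_ne_bot I |>.mp hIne)
      refine ⟨(w : G), Subgroup.mem_subgroupOf.mp hw, ?_, fun e => hw1 (Subtype.ext e)⟩
      rw [Subgroup.mem_centralizer_iff]
      intro y hy
      exact congrArg Subtype.val (Subgroup.mem_center_iff.mp hwc ⟨y, hy⟩)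
    have hRN : (R : Subgroup G) ≤ N := fun y hy => h1 x hx hx1
      (Subgroup.mem_centralizer_singleton_iff.mpr ((Subgroup.mem_centralizer_iff.mp hxC) y hy))
    exact R.not_dvd_index (hrN.trans (Subgroup.index_dvd_of_le hRN))
  refine ⟨⟨h12, h21⟩, fun h1 => ?_⟩
  obtain ⟨H, hH, hp⟩ := exists_supplement_primes N
  refine ⟨H, hH, ?_⟩
  rw [← Subgroup.card_eq_one, ← Nat.dvd_one]
  have hcop : (Nat.card H).Coprime (Nat.card M) := by
    refine Nat.coprime_of_dvd fun r hr hrH hrM => ?_
    exact hr.ne_one (Nat.eq_one_of_dvd_coprimes (h12 h1) (hp r hr hrH) hrM)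
  exact (Nat.eq_one_of_dvd_coprimes hcop (Subgroup.card_dvd_of_le inf_le_left)
    (Subgroup.card_dvd_of_le inf_le_right)).symm ▸ dvd_rfl

end Cfsg.Agent.S4112
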