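import Cfsg.Statements.S4115
import Cfsg.Agent.FGS3.TIHall
import Cfsg.Agent.Chars2.BSTransfer
import Cfsg.Agent.FGS4.FrobeniusFPF
import Cfsg.Agent.Core.ThompsonFPF
-- import your own Cfsg.Agent.* helpers here

set_option autoImplicit false
universe u
open Cfsg

namespace Cfsg.Agent.S4115

open scoped commutatorElement
open Cfsg.Agent.FGS3 in
/-- A normal complement in the normalizer yields one in the group. -/
theorem exists_normal_complement {G : Type*} [Group G] [Finite G] {H : Subgroup G}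
    (hTI : Cfsg.IsTISubset (H : Set G))
    (hHall : (Nat.card H).Coprime (H.subgroupOf (Subgroup.normalizer (H : Set G))).index)
    (hKex : ∃ K : Subgroup (Subgroup.normalizer (H : Set G)),
      K.Normal ∧ K.IsComplement' (H.subgroupOf (Subgroup.normalizer (H : Set G)))) :
    ∃ M : Subgroup G, M.Normal ∧ M.IsComplement' H := by
  classical
  set N := Subgroup.normalizer (H : Set G) with hN
  obtain ⟨K, hKn, hK⟩ := hKex
  haveI := hKn
  have hHH := TIHall.coprime_index hTI hHall
  have hdis : K ⊓ H.subgroupOf N = ⊥ := hK.disjoint.eq_bot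
  haveI : (H.subgroupOf N).Normal := Subgroup.normal_in_normalizer
  have hfus : ∀ x ∈ H, ∀ y ∈ H, IsConj x y → ∃ h ∈ H, h * x * h⁻¹ = y := by
    intro x hx y hy hxy
    by_cases hx1 : x = 1
    · exact ⟨1, H.one_mem, by rw [hx1] at hxy ⊢; rw [isConj_one_right.mp hxy]; simp⟩
    obtain ⟨g, hg⟩ := isConj_iff.mp hxy
    have hgN : g ∈ N := TIHall.mem_normalizer_of_conj hTI hx hx1 (by rw [hg]; exact hy)
    have hmem : (⟨g, hgN⟩ : N) ∈ K ⊔ H.subgroupOf N := hK.sup_eq_top ▸ Subgroup.mem_top _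
    obtain ⟨k, hk, h, hh, hkh⟩ := Subgroup.mem_sup_of_normal_left.mp hmem
    refine ⟨h, hh, ?_⟩
    have hw : (h : G) * x * (h : G)⁻¹ ∈ H := H.mul_mem (H.mul_mem hh hx) (H.inv_mem hh)
    set w : N := ⟨_, Subgroup.le_normalizer hw⟩ with hwdef
    have hwH : w ∈ H.subgroupOf N := hw
    have hcomm : k * w * k⁻¹ * w⁻¹ ∈ K ⊓ H.subgroupOf N := by
      refine ⟨?_, Subgroup.mul_mem _ (Subgroup.Normal.conj_mem inferInstance w hwH k) (Subgroup.inv_mem _ hwH)⟩
      have := K.mul_mem hk (hKn.conj_mem _ (K.inv_mem hk) w)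
      simpa [mul_assoc] using this
    rw [hdis, Subgroup.mem_bot, mul_inv_eq_one] at hcomm
    have h2 : (k : G) * ((h : G) * x * (h : G)⁻¹) * (k : G)⁻¹ = (h : G) * x * (h : G)⁻¹ :=
      congrArg Subtype.val hcomm
    have h3 : g = (k : G) * (h : G) := congrArg Subtype.val hkh.symm
    rw [← h2, ← hg, h3]
    group
  have helem : ∀ (E : Subgroup G) (p : ℕ), p.Prime → Cfsg.IsElementary p E → Nat.card E ∣ Nat.card H →
      ∃ g : G, E.map (MulAut.conj g).toMonoidHom ≤ H := by
    intro E p hp hE hEH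
    by_cases hE1 : E = ⊥
    · exact ⟨1, by simp [hE1]⟩
    haveI := Fact.mk hp
    haveI : Nontrivial E := (Subgroup.nontrivial_iff_ne_bot E).mpr hE1
    haveI : Nontrivial (Subgroup.center E) := by
      obtain ⟨x, hx, -, k, hk⟩ := hE
      by_cases hx1 : x = 1
      · subst hx1
        rw [Subgroup.zpowers_one_eq_bot, Subgroup.index_bot] at hk
        exact (IsPGroup.of_card hk).center_nontrivial
      · exact ⟨⟨⟨x, hx⟩, 1, fun e => hx1 (congrArg Subtype.val e)⟩⟩
    obtain ⟨r, hr, hrd⟩ := Nat.exists_prime_and_dvd (Finite.one_lt_card (α := Subgroup.center E)).ne'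
    haveI := Fact.mk hr
    obtain ⟨⟨⟨z, hzE⟩, hzc⟩, hzo⟩ := exists_prime_orderOf_dvd_card' (G := Subgroup.center E) r hrd
    rw [← Subgroup.orderOf_coe, ← Subgroup.orderOf_coe] at hzo
    change orderOf z = r at hzo
    have hz1 : z ≠ 1 := fun e => by rw [e, orderOf_one] at hzo; exact hr.ne_one hzo.symm
    obtain ⟨R₀⟩ : Nonempty (Sylow r H) := inferInstance
    obtain ⟨P, hP⟩ := (R₀.isPGroup'.map H.subtype).exists_le_sylow
    have hrH : r ∣ Nat.card H :=
      (hrd.trans (Subgroup.card_subgroup_dvd_card _)).trans hEH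
    have hPeq : (R₀ : Subgroup H).map H.subtype = (P : Subgroup G) := by
      refine Subgroup.eq_of_le_of_card_ge hP (le_of_eq ?_)
      rw [Subgroup.card_map_of_injective H.subtype_injective, R₀.card_eq_multiplicity, P.card_eq_multiplicity]
      congr 1
      conv_lhs => rw [← Subgroup.card_mul_index H,
        Nat.factorization_mul Nat.card_pos.ne' Subgroup.index_ne_zero_of_finite]
      simp [Nat.factorization_eq_zero_of_not_dvd (fun h => Nat.not_coprime_of_dvd_of_dvd hr.one_lt hrH h hHH)]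
    have hzp : IsPGroup r (Subgroup.zpowers z) := IsPGroup.of_card (n := 1) (by rw [Nat.card_zpowers, hzo, pow_one])
    obtain ⟨S, hS⟩ := hzp.exists_le_sylow
    obtain ⟨g, hg⟩ := MulAction.exists_smul_eq G S P
    refine ⟨g, ?_⟩
    have hzH : g * z * g⁻¹ ∈ H := by
      refine (Subgroup.map_subtype_le _) (hPeq ▸ ?_ : g * z * g⁻¹ ∈ (R₀ : Subgroup H).map H.subtype)
      rw [← hg, Sylow.coe_subgroup_smul]
      exact Subgroup.smul_mem_pointwise_smul z (MulAut.conj g) (S : Subgroup G) (hS (Subgroup.mem_zpowers z))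
    set E' := E.map (MulAut.conj g).toMonoidHom with hE'
    have hE'N : E' ≤ N := by
      rintro _ ⟨e, he, rfl⟩
      refine TIHall.mem_normalizer_of_conj hTI hzH (fun h => hz1 ?_) ?_
      · simpa using h
      · have hc : e * z = z * e :=
          congrArg Subtype.val (Subgroup.mem_center_iff.mp hzc ⟨e, he⟩)
        show g * e * g⁻¹ * (g * z * g⁻¹) * (g * e * g⁻¹)⁻¹ ∈ H
        have : g * e * g⁻¹ * (g * z * g⁻¹) * (g * e * g⁻¹)⁻¹ = g * (e * z * e⁻¹) * g⁻¹ := by group
        rw [this, hc, mul_inv_cancel_right]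
        exact hzH
    intro y hy
    have hcard : Nat.card E' = Nat.card E := Subgroup.card_map_of_injective (MulAut.conj g).injective
    have h1 : orderOf (QuotientGroup.mk' (H.subgroupOf N) ⟨y, hE'N hy⟩) = 1 := by
      refine Nat.eq_one_of_dvd_coprimes hHall ?_ ?_
      · refine (orderOf_map_dvd _ _).trans ((dvd_of_eq (Subgroup.orderOf_coe _).symm).trans ?_)
        refine dvd_trans ?_ (hcard ▸ hEH : Nat.card E' ∣ Nat.card H)
        exact (dvd_of_eq (Subgroup.orderOf_coe (⟨y, hy⟩ : E'))).trans (orderOf_dvd_natCard _)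
      · rw [Subgroup.index_eq_card]; exact orderOf_dvd_natCard _
    exact (QuotientGroup.eq_one_iff (N := H.subgroupOf N) (⟨y, hE'N hy⟩ : N)).mp (orderOf_eq_one_iff.mp h1)
  haveI := Fintype.ofFinite G
  obtain ⟨M, hM, hsup, hinf⟩ := Cfsg.Agent.Chars2.brauer_suzuki_transfer H hHH hfus helem
  haveI := hM
  exact ⟨M, hM, Subgroup.isComplement'_of_disjoint_and_mul_eq_univ (disjoint_iff.mpr hinf)
    (by rw [← Subgroup.normal_mul, hsup, Subgroup.coe_top])⟩

open Cfsg.Agent.FGS3 in
theorem exists_complement {G : Type*} [Group G] [Finite G] {H : Subgroup G}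
    (hTI : Cfsg.IsTISubset (H : Set G)) (hnn : ¬ H.Normal)
    {M : Subgroup G} (hMn : M.Normal) (hM : M.IsComplement' H) (hcop : (Nat.card M).Coprime (Nat.card H)) :
    ∃ (L : Type) (_ : Group L) (_ : Finite L) (C : Subgroup L),
      Cfsg.IsFrobeniusComplement C ∧ Nonempty (H ≃* C) := by
  classical
  haveI := hMn
  haveI : Nontrivial H := (Subgroup.nontrivial_iff_ne_bot H).mpr fun e => hnn (e ▸ inferInstance)
  set N := Subgroup.normalizer (H : Set G) with hN
  set C := M ⊓ N with hC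
  have hdis : M ⊓ H = ⊥ := hM.disjoint.eq_bot
  have hCH : ∀ c ∈ C, ∀ h ∈ H, c * h = h * c := by
    intro c hc h hh
    have h1 : c * h * c⁻¹ * h⁻¹ ∈ M ⊓ H := by
      refine ⟨?_, H.mul_mem ((Subgroup.mem_normalizer_iff.mp hc.2 h).mp hh) (H.inv_mem hh)⟩
      have := M.mul_mem hc.1 (hMn.conj_mem _ (M.inv_mem hc.1) h)
      simpa [mul_assoc] using this
    rw [hdis, Subgroup.mem_bot, mul_inv_eq_one, mul_inv_eq_iff_eq_mul] at h1
    exact h1
  have hfix : ∀ h ∈ H, h ≠ 1 → ∀ m ∈ M, m * h = h * m → m ∈ C := by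
    intro h hh h1 m hm hmh
    refine ⟨hm, TIHall.mem_normalizer_of_conj hTI hh h1 ?_⟩
    rw [hmh, mul_inv_cancel_right]; exact hh
  have hMC : ¬ M ≤ C := by
    intro hle
    apply hnn
    rw [← Subgroup.normalizer_eq_top_iff, eq_top_iff, ← hM.sup_eq_top]
    exact sup_le (hle.trans inf_le_right) Subgroup.le_normalizer
  obtain ⟨r, hr, hrd⟩ := Nat.exists_prime_and_dvd (show C.relIndex M ≠ 1 from
    fun e => hMC (Subgroup.relIndex_eq_one.mp e))
  haveI := Fact.mk hr
  obtain ⟨R₁₀⟩ : Nonempty (Sylow r C) := inferInstance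
  set R₁ := (R₁₀ : Subgroup C).map C.subtype with hR₁
  have hR₁p : IsPGroup r R₁ := R₁₀.isPGroup'.map _
  have hR₁C : R₁ ≤ C := Subgroup.map_subtype_le _
  have hR₁i : ¬ r ∣ R₁.relIndex C := by
    rw [Subgroup.relIndex, show R₁.subgroupOf C = (R₁₀ : Subgroup C) from
      Subgroup.comap_map_eq_self_of_injective C.subtype_injective _]
    exact R₁₀.not_dvd_index
  set M₁ := M ⊓ Subgroup.normalizer (R₁ : Set G) with hM₁
  have hHR₁ : H ≤ Subgroup.normalizer (R₁ : Set G) := fun h hh =>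
    Coprime.mem_normalizer_of_conj_mem fun y hy => by
      rw [← hCH y (hR₁C hy) h hh, mul_inv_cancel_right]; exact hy
  have hR₁M₁ : R₁ ≤ M₁ := le_inf (hR₁C.trans inf_le_left) Subgroup.le_normalizer
  -- the Sylow subgroup of `M` grows beyond `R₁`
  obtain ⟨P₀, hP₀⟩ := (hR₁p.comap_subtype (K := M)).exists_le_sylow
  set P := (P₀ : Subgroup M).map M.subtype with hP
  have hR₁P : R₁ ≤ P := fun y hy => ⟨⟨y, (hR₁C hy).1⟩, hP₀ hy, rfl⟩
  have hlt : R₁ < P := by
    refine lt_of_le_of_ne hR₁P fun e => ?_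
    have h1 : ¬ r ∣ R₁.relIndex M := by
      rw [e, Subgroup.relIndex, show P.subgroupOf M = (P₀ : Subgroup M) from
        Subgroup.comap_map_eq_self_of_injective M.subtype_injective _]
      exact P₀.not_dvd_index
    rw [← Subgroup.relIndex_mul_relIndex R₁ C M hR₁C inf_le_left] at h1
    exact h1 (dvd_mul_of_dvd_right hrd _)
  have hgrow := lt_inf_normalizer (P₀.isPGroup'.map M.subtype) hlt
  obtain ⟨R₀, hR₀⟩ := (((P₀.isPGroup'.map M.subtype).to_le
    (inf_le_left : P ⊓ Subgroup.normalizer (R₁ : Set G) ≤ P)).comap_subtype (K := M₁)).exists_le_sylow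
  set R := (R₀ : Subgroup M₁).map M₁.subtype with hR
  have hPR : P ⊓ Subgroup.normalizer (R₁ : Set G) ≤ R := fun y hy =>
    ⟨⟨y, Subgroup.map_subtype_le _ hy.1, hy.2⟩, hR₀ hy, rfl⟩
  have hRM₁ : R ≤ M₁ := Subgroup.map_subtype_le _
  have hRp : IsPGroup r R := R₀.isPGroup'.map _
  have hR₁R : R₁ < R := lt_of_lt_of_le hgrow hPR
  -- a complement normalizing R
  set G₁ := M₁ ⊔ H with hG₁
  have hHM₁ : H ≤ Subgroup.normalizer (M₁ : Set G) :=
    (le_inf (le_top.trans (Subgroup.normalizer_eq_top M).ge) (hHR₁.trans Subgroup.le_normalizer)).trans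
      Subgroup.inf_normalizer_le_normalizer_inf
  have hM₁G₁ : M₁ ≤ G₁ := le_sup_left
  haveI hM₁n : (M₁.subgroupOf G₁).Normal := Subgroup.normal_subgroupOf_of_le_normalizer
    (sup_le Subgroup.le_normalizer hHM₁)
  have hG₁M : G₁ ⊓ M = M₁ := by
    refine le_antisymm (fun y hy => ?_) (le_inf le_sup_left inf_le_left)
    obtain ⟨m, hm, h, hh, rfl⟩ := Coprime.exists_mul_of_mem_sup hHM₁ hy.1
    have : h ∈ M ⊓ H := ⟨by simpa using M.mul_mem (M.inv_mem hm.1) hy.2, hh⟩
    rw [hdis, Subgroup.mem_bot] at this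
    simpa [this] using hm
  set X := G₁ ⊓ Subgroup.normalizer (R : Set G) with hX
  have hfr : ∀ y ∈ G₁, ∃ m ∈ M₁, m * y ∈ Subgroup.normalizer (R : Set G) := by
    intro y hy
    have hyM₁ : y ∈ Subgroup.normalizer (M₁ : Set G) := sup_le Subgroup.le_normalizer hHM₁ hy
    have hmap : M₁.map (MulAut.conj y).toMonoidHom = M₁ :=
      Subgroup.mem_normalizer_iff_map_conj_eq.mp hyM₁
    have hi : ¬ r ∣ R.relIndex M₁ := by
      rw [Subgroup.relIndex, show R.subgroupOf M₁ = (R₀ : Subgroup M₁) from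
        Subgroup.comap_map_eq_self_of_injective M₁.subtype_injective _]
      exact R₀.not_dvd_index
    have hi' : ¬ r ∣ (R.map (MulAut.conj y).toMonoidHom).relIndex M₁ := by
      have := Subgroup.relIndex_map_map_of_injective R M₁ (f := (MulAut.conj y).toMonoidHom)
        (MulAut.conj y).injective
      rw [hmap] at this
      rwa [this]
    obtain ⟨m, hm, hm'⟩ := Coprime.exists_conj_of_sylow (q := r) (hP := hRp.map (MulAut.conj y).toMonoidHom)
      (hQ := hRp) (hmap ▸ Subgroup.map_mono hRM₁) hRM₁ hi' hi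
    refine ⟨m, hm, ?_⟩
    rw [Subgroup.mem_normalizer_iff_map_conj_eq]
    refine Eq.trans ?_ hm'
    show R.map (MulAut.conj (m * y)).toMonoidHom = _
    rw [show (MulAut.conj (m * y)).toMonoidHom =
      (MulAut.conj m).toMonoidHom.comp (MulAut.conj y).toMonoidHom from
      MonoidHom.ext fun w => by simp [mul_assoc], ← Subgroup.map_map]
  have hidx : (M₁.subgroupOf X).index = Nat.card H := by
    change M₁.relIndex X = _
    have e : M₁.relIndex X = M₁.relIndex G₁ := by
      have hsub : G₁ = M₁ ⊔ X := by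
        refine le_antisymm (fun y hy => ?_) (sup_le le_sup_left inf_le_left)
        obtain ⟨m, hm, hmy⟩ := hfr y hy
        have := Subgroup.mul_mem_sup (M₁.inv_mem hm)
          (Subgroup.mem_inf.mpr ⟨Subgroup.mul_mem _ (hM₁G₁ hm) hy, hmy⟩ : m * y ∈ X)
        simpa using this
      conv_rhs => rw [hsub]
      rw [← Subgroup.relIndex_subgroupOf (inf_le_left : X ≤ G₁),
        ← Subgroup.relIndex_subgroupOf (sup_le hM₁G₁ inf_le_left : M₁ ⊔ X ≤ G₁),
        Subgroup.subgroupOf_sup hM₁G₁ inf_le_left,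
        sup_comm, Subgroup.relIndex_sup_right]
    rw [e, hG₁, ← Subgroup.relIndex_subgroupOf (le_rfl : M₁ ⊔ H ≤ M₁ ⊔ H),
      Subgroup.subgroupOf_sup le_sup_left le_sup_right, sup_comm (M₁.subgroupOf (M₁ ⊔ H)),
      Subgroup.relIndex_sup_right,
      Subgroup.relIndex_subgroupOf le_sup_right, ← Subgroup.inf_relIndex_right,
      show M₁ ⊓ H = ⊥ from le_bot_iff.mp (hdis ▸ inf_le_inf_right H inf_le_left),
      Subgroup.relIndex_bot_left]
  haveI : (M₁.subgroupOf X).Normal :=
    Subgroup.normal_subgroupOf_of_le_normalizer (inf_le_left.trans (sup_le Subgroup.le_normalizer hHM₁))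
  have hXcop : (Nat.card (M₁.subgroupOf X)).Coprime (M₁.subgroupOf X).index := by
    rw [hidx]
    refine hcop.coprime_dvd_left ?_
    rw [← Subgroup.card_map_of_injective X.subtype_injective, Subgroup.subgroupOf_map_subtype]
    exact Subgroup.card_dvd_of_le (inf_le_left.trans inf_le_left)
  obtain ⟨H₁₀, hH₁₀⟩ := Subgroup.exists_right_complement'_of_coprime hXcop
  set H₁ := H₁₀.map X.subtype with hH₁
  have hH₁X : H₁ ≤ X := Subgroup.map_subtype_le _
  have hH₁card : Nat.card H₁ = Nat.card H := by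
    rw [hH₁, Subgroup.card_map_of_injective X.subtype_injective, ← hH₁₀.symm.index_eq_card, hidx]
  haveI : Nontrivial H₁ := by
    rw [← Finite.one_lt_card_iff_nontrivial, hH₁card]; exact Finite.one_lt_card
  -- the isomorphism H₁ ≅ H
  have hiso : Nonempty (H ≃* H₁) := by
    let f : H₁ →* G ⧸ M := (QuotientGroup.mk' M).comp H₁.subtype
    have hf : Function.Injective f := (injective_iff_map_eq_one f).mpr fun y hy => by
      have hyM : (y : G) ∈ M := (QuotientGroup.eq_one_iff (y : G)).mp hy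
      refine orderOf_eq_one_iff.mp (Nat.eq_one_of_dvd_coprimes hcop ?_ (hH₁card ▸ orderOf_dvd_natCard y))
      rw [← Subgroup.orderOf_coe, ← Subgroup.orderOf_mk (y : G) hyM]
      exact orderOf_dvd_natCard _
    have hb : Function.Bijective f := hf.bijective_of_nat_card_le (le_of_eq (by
      rw [hH₁card, Nat.card_congr hM.symm.QuotientMulEquiv.toEquiv]))
    exact ⟨hM.symm.QuotientMulEquiv.symm.trans (MulEquiv.ofBijective f hb).symm⟩
  obtain ⟨eH⟩ := hiso
  -- fixed points of elements of H₁ in R lie in R₁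
  have hkey : ∀ x ∈ H₁, x ≠ 1 → ∀ y ∈ R, y * x = x * y → y ∈ R₁ := by
    intro x hx hx1 y hy hyx
    obtain ⟨t, ht, htx⟩ := Nat.exists_prime_and_dvd (mt orderOf_eq_one_iff.mp hx1)
    haveI := Fact.mk ht
    set x' := x ^ (orderOf x / t) with hx'
    have hx'o : orderOf x' = t := orderOf_pow_orderOf_div (orderOf_pos x).ne' htx
    have hx'H₁ : x' ∈ H₁ := H₁.pow_mem hx _
    have hyx' : y * x' = x' * y := ((show Commute y x from hyx).pow_right _).eq
    have hxt : x' ∈ G₁ := (hH₁X.trans inf_le_left) hx'H₁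
    -- conjugate x' into H
    obtain ⟨T₀⟩ : Nonempty (Sylow t H) := inferInstance
    set T := (T₀ : Subgroup H).map H.subtype with hT
    obtain ⟨S₀, hS₀⟩ := ((IsPGroup.of_card (n := 1) (p := t) (show Nat.card (Subgroup.zpowers x') = t ^ 1 by
      rw [Nat.card_zpowers, hx'o, pow_one])).comap_subtype (K := G₁)).exists_le_sylow
    set S := (S₀ : Subgroup G₁).map G₁.subtype with hS
    have hTi : ¬ t ∣ T.relIndex G₁ := by
      rw [← Subgroup.relIndex_mul_relIndex T H G₁ (Subgroup.map_subtype_le _) le_sup_right]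
      intro h
      rcases ht.dvd_mul.mp h with h | h
      · rw [Subgroup.relIndex, show T.subgroupOf H = (T₀ : Subgroup H) from
          Subgroup.comap_map_eq_self_of_injective H.subtype_injective _] at h
        exact T₀.not_dvd_index h
      · have h1 : H.relIndex G₁ ∣ Nat.card M := by
          have h2 := Subgroup.relIndex_mul_index (H := H) (K := G₁) le_sup_right
          rw [hM.index_eq_card] at h2
          exact Dvd.intro _ h2
        exact Nat.not_coprime_of_dvd_of_dvd ht.one_lt (h.trans h1)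
          (hH₁card ▸ (htx.trans (Subgroup.orderOf_mk x hx ▸ orderOf_dvd_natCard _))) hcop
    have hSi : ¬ t ∣ S.relIndex G₁ := by
      rw [Subgroup.relIndex, show S.subgroupOf G₁ = (S₀ : Subgroup G₁) from
        Subgroup.comap_map_eq_self_of_injective G₁.subtype_injective _]
      exact S₀.not_dvd_index
    obtain ⟨g, hg, hg'⟩ := Coprime.exists_conj_of_sylow (q := t) (hP := S₀.2.map G₁.subtype)
      (hQ := T₀.2.map H.subtype) (Subgroup.map_subtype_le _)
      ((Subgroup.map_subtype_le _).trans le_sup_right) hSi hTi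
    have hgx : g * x' * g⁻¹ ∈ H := by
      refine Subgroup.map_subtype_le (T₀ : Subgroup H) (hg'.le ?_)
      exact Subgroup.mem_map_of_mem _ ⟨⟨x', hxt⟩, hS₀ (Subgroup.mem_zpowers x'), rfl⟩
    obtain ⟨m, hm, h, hh, rfl⟩ := Coprime.exists_mul_of_mem_sup hHM₁ hg
    -- move by the M₁-part only
    set m' := h⁻¹ * m * h with hm'
    have hm'M₁ : m' ∈ M₁ := by
      simpa using (Subgroup.mem_normalizer_iff.mp (hHM₁ (H.inv_mem hh)) m).mp hm
    have hm'x : m' * x' * m'⁻¹ ∈ H := by
      have := H.mul_mem (H.mul_mem (H.inv_mem hh) hgx) hh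
      convert this using 1
      rw [hm']; group
    have hne : m' * x' * m'⁻¹ ≠ 1 := by
      rw [Ne, conj_eq_one_iff]; intro e; rw [e, orderOf_one] at hx'o; exact ht.ne_one hx'o.symm
    have hyC : m' * y * m'⁻¹ ∈ C := by
      refine hfix _ hm'x hne _ (M.mul_mem (M.mul_mem hm'M₁.1 (hRM₁ hy).1) (M.inv_mem hm'M₁.1)) ?_
      calc m' * y * m'⁻¹ * (m' * x' * m'⁻¹) = m' * (y * x') * m'⁻¹ := by group
        _ = _ := by rw [hyx']; group
    -- an r-element of C normalizing R₁ lies in R₁
    have hz : m' * y * m'⁻¹ ∈ R₁ := by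
      set z := m' * y * m'⁻¹ with hz
      have hzp : IsPGroup r (Subgroup.zpowers z) := by
        obtain ⟨i, hi⟩ := IsPGroup.iff_orderOf.mp hRp ⟨y, hy⟩
        refine IsPGroup.of_card (n := i) ?_
        rw [Nat.card_zpowers, ← hi, ← Subgroup.orderOf_coe]
        exact orderOf_injective (MulAut.conj m').toMonoidHom (MulAut.conj m').injective y
      have hzN : z ∈ Subgroup.normalizer (R₁ : Set G) :=
        Subgroup.mul_mem _ (Subgroup.mul_mem _ hm'M₁.2 (hRM₁ hy).2) (Subgroup.inv_mem _ hm'M₁.2)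
      have hp2 : IsPGroup r (R₁ ⊔ Subgroup.zpowers z : Subgroup G) :=
        sup_comm (Subgroup.zpowers z) R₁ ▸
          hzp.to_sup_of_normal_right' hR₁p (Subgroup.zpowers_le.mpr hzN)
      have hle : R₁ ⊔ Subgroup.zpowers z ≤ C := sup_le hR₁C (Subgroup.zpowers_le.mpr hyC)
      have hp2' : IsPGroup r ((R₁ ⊔ Subgroup.zpowers z).subgroupOf C) := hp2.comap_subtype
      have := R₁₀.is_maximal' hp2' (fun w hw => by
        have : (w : G) ∈ R₁ := ⟨w, hw, rfl⟩
        exact (le_sup_left : R₁ ≤ R₁ ⊔ _) this)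
      have hzin : (⟨z, hyC⟩ : C) ∈ (R₁₀ : Subgroup C) :=
        this ▸ (le_sup_right : _ ≤ R₁ ⊔ _) (Subgroup.mem_zpowers z)
      exact ⟨_, hzin, rfl⟩
    have := (Subgroup.mem_normalizer_iff.mp (Subgroup.inv_mem _ hm'M₁.2) _).mp hz
    simpa [mul_assoc] using this
  -- the action on R / R₁
  set W := R₁.subgroupOf R with hW
  haveI hWn : W.Normal := Subgroup.normal_subgroupOf_of_le_normalizer (hRM₁.trans inf_le_right)
  haveI : Nontrivial (R ⧸ W) := by
    rw [← Finite.one_lt_card_iff_nontrivial, ← Subgroup.index_eq_card]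
    exact Subgroup.one_lt_index_of_ne_top fun e =>
      hR₁R.not_ge fun y hy => (show (⟨y, hy⟩ : R) ∈ W from e ▸ Subgroup.mem_top _)
  have hxR : ∀ (x : H₁) (y : R), (x : G) * y * (x : G)⁻¹ ∈ R := fun x y =>
    (Subgroup.mem_normalizer_iff.mp (hH₁X x.2).2 y).mp y.2
  have hxR₁ : ∀ (x : H₁) (y : G), y ∈ R₁ → (x : G) * y * (x : G)⁻¹ ∈ R₁ := fun x y hy => by
    have hn : (x : G) ∈ Subgroup.normalizer (R₁ : Set G) :=
      sup_le (inf_le_right) hHR₁ ((hH₁X.trans inf_le_left) x.2)
    exact (Subgroup.mem_normalizer_iff.mp hn y).mp hy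
  let ψ : H₁ →* MulAut R :=
    (Subgroup.normalizerMonoidHom R).comp (Subgroup.inclusion (hH₁X.trans inf_le_right))
  have hmapW : ∀ x : H₁, W.map (ψ x).toMonoidHom = W := fun x => by
    refine Cfsg.Agent.Core.ThompsonFPF.map_eq_of_le ?_
    rintro _ ⟨w, hw, rfl⟩
    exact hxR₁ x w hw
  let φ : H₁ →* MulAut (R ⧸ W) :=
    { toFun := fun x => QuotientGroup.congr W W (ψ x) (hmapW x)
      map_one' := by
        refine MulEquiv.ext fun b => ?_
        induction b using QuotientGroup.induction_on with | H y =>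
        show ((ψ 1 y : R) : R ⧸ W) = y
        rw [map_one, MulAut.one_apply]
      map_mul' := fun s t => by
        refine MulEquiv.ext fun b => ?_
        induction b using QuotientGroup.induction_on with | H y =>
        show ((ψ (s * t) y : R) : R ⧸ W) = ((ψ s (ψ t y) : R) : R ⧸ W)
        rw [map_mul, MulAut.mul_apply] }
  obtain ⟨L, i1, i2, D, hD, ⟨eD⟩⟩ := Cfsg.Agent.FGS4.exists_complement_of_fpf φ fun x hx v hv => by
    induction v using QuotientGroup.induction_on with | H y =>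
    rw [QuotientGroup.eq_one_iff]
    show (y : G) ∈ R₁
    set A := Subgroup.zpowers (x : G) with hA
    haveI : Group.IsSolvable A := Group.isSolvable_of_comm fun a b => mul_comm' a b
    have hAH : A ≤ H₁ := Subgroup.zpowers_le.mpr x.2
    have hfixA : ∀ a ∈ A, ⁅(y : G), a⁆ ∈ R₁ := by
      intro a ha
      obtain ⟨k, rfl⟩ := Subgroup.mem_zpowers_iff.mp ha
      have hk : φ (x ^ k) (y : R ⧸ W) = (y : R ⧸ W) := by
        have : φ x ∈ MulAction.stabilizer (MulAut (R ⧸ W)) (y : R ⧸ W) := hv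
        have := Subgroup.zpow_mem _ this k
        rw [map_zpow]
        exact this
      have h1 := QuotientGroup.eq.mp (show ((ψ (x ^ k) y : R) : R ⧸ W) = (y : R ⧸ W) from hk)
      have h1' : ((((x ^ k : H₁) : G) * y * ((x ^ k : H₁) : G)⁻¹))⁻¹ * y ∈ R₁ := h1
      rw [Subgroup.coe_zpow] at h1'
      have h2 : (y : G) * ((((x : G) ^ k) * y * ((x : G) ^ k)⁻¹)⁻¹ * y) * (y : G)⁻¹ ∈ R₁ :=
        (Subgroup.mem_normalizer_iff.mp ((hRM₁ y.2).2) _).mp h1'
      have e : (y : G) * (((x : G) ^ k) * y * ((x : G) ^ k)⁻¹)⁻¹ = ⁅(y : G), (x : G) ^ k⁆ := by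
        rw [commutatorElement_def]; group
      simpa [mul_assoc, commutatorElement_def] using h2
    obtain ⟨m, hm, c, hc, hye⟩ := Coprime.exists_mul_centralizer (N := R) (M := R₁) (A := A)
      (hAH.trans (hH₁X.trans inf_le_right))
      ((hcop.symm.coprime_dvd_left (hH₁card ▸ Subgroup.card_dvd_of_le hAH)).coprime_dvd_right
        (Subgroup.card_dvd_of_le (hRM₁.trans inf_le_left)))
      hR₁R.le
      (fun a ha => Coprime.mem_normalizer_of_conj_mem fun w hw => hxR₁ ⟨a, hAH ha⟩ w hw)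
      y.2 hfixA
    rw [hye]
    exact R₁.mul_mem hm (hkey x x.2 (fun e => hx (Subtype.ext e)) c hc.1
      (Subgroup.mem_centralizer_iff.mp hc.2 x (Subgroup.mem_zpowers _)).symm)
  exact ⟨L, i1, i2, D, hD, ⟨eH.trans eD⟩⟩


/-- Let G be a finite group and H a subgroup that meets each of its conjugates by elements outside N_G(H) trivially and whose order is coprime to its index in N_G(H). Then H has a normal complement in N_G(H) if and only if H has a normal complement in G. Moreover, if H is not normal in G and has a normal complement in N_G(H), then H is isomorphic to a Frobenius complement of some finite Frobenius group. -/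
theorem result {G : Type u} [Group G] [Finite G] (H : Subgroup G)
    (hTI : Cfsg.IsTISubset (H : Set G)) (hHall : (Nat.card H).Coprime (H.subgroupOf (Subgroup.normalizer (H : Set G))).index) :
    ((∃ K : Subgroup (Subgroup.normalizer (H : Set G)), K.Normal ∧ K.IsComplement' (H.subgroupOf (Subgroup.normalizer (H : Set G)))) ↔
      (∃ N : Subgroup G, N.Normal ∧ N.IsComplement' H)) ∧
    (¬ H.Normal → (∃ K : Subgroup (Subgroup.normalizer (H : Set G)), K.Normal ∧ K.IsComplement' (H.subgroupOf (Subgroup.normalizer (H : Set G)))) →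
      ∃ (F : Type u) (_ : Group F) (_ : Finite F) (C : Subgroup F), Cfsg.IsFrobeniusComplement C ∧ Nonempty (H ≃* C)) := by
  classical
  set N := Subgroup.normalizer (H : Set G) with hN
  have hiff : (∃ K : Subgroup N, K.Normal ∧ K.IsComplement' (H.subgroupOf N)) →
      ∃ M : Subgroup G, M.Normal ∧ M.IsComplement' H :=
    fun hKex => exists_normal_complement hTI hHall hKex
  refine ⟨⟨hiff, fun ⟨M, hMn, hM⟩ => ?_⟩, fun hnn hK => ?_⟩
  · haveI := hMn
    refine ⟨M.subgroupOf N, Subgroup.Normal.comap hMn N.subtype,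
      Subgroup.isComplement'_of_disjoint_and_mul_eq_univ ?_ ?_⟩
    · rw [disjoint_iff, eq_bot_iff]
      intro y hy
      have : (y : G) ∈ M ⊓ H := hy
      rw [hM.disjoint.eq_bot, Subgroup.mem_bot] at this
      exact Subgroup.mem_bot.mpr (Subtype.ext this)
    · haveI : (M.subgroupOf N).Normal := Subgroup.Normal.comap hMn N.subtype
      rw [← Subgroup.normal_mul, ← Subgroup.coe_top, SetLike.coe_set_eq, eq_top_iff]
      intro y _
      obtain ⟨m, hm, h, hh, hy⟩ := Subgroup.mem_sup_of_normal_left.mp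
        (hM.sup_eq_top.symm ▸ Subgroup.mem_top (y : G))
      have hhN : h ∈ N := Subgroup.le_normalizer hh
      have hmN : m ∈ N := by simpa [← hy] using N.mul_mem y.2 (N.inv_mem hhN)
      exact Subgroup.mem_sup_of_normal_left.mpr ⟨⟨m, hmN⟩, hm, ⟨h, hhN⟩, hh, Subtype.ext hy⟩
  · obtain ⟨M, hMn, hM⟩ := hiff hK
    haveI := hMn
    have hcop : (Nat.card M).Coprime (Nat.card H) := by
      rw [← hM.index_eq_card]
      exact (Cfsg.Agent.FGS3.TIHall.coprime_index hTI hHall).symm
    obtain ⟨L, i1, i2, C, hC, ⟨e⟩⟩ := exists_complement hTI hnn hMn hM hcop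
    let f : L ≃* ULift.{u} L := MulEquiv.ulift.symm
    exact ⟨ULift.{u} L, inferInstance, inferInstance, C.map f.toMonoidHom,
      Cfsg.Agent.FGS4.isFrobeniusComplement_map f hC, ⟨e.trans (f.subgroupMap C)⟩⟩

end Cfsg.Agent.S4115
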