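import Cfsg.Statements.S4116
-- import your own Cfsg.Agent.* helpers here

set_option autoImplicit false
open Cfsg

namespace Cfsg.Agent.S4116

open scoped Pointwise

theorem hall_sylow_le {G : Type*} [Group G] [Finite G] {H : Subgroup G} (hHall : (Nat.card H).Coprime H.index)
    {q : ℕ} [Fact q.Prime] (hq : q ∣ Nat.card H) {Q : Subgroup G} (hQ : IsPGroup q Q) :
    ∃ g : G, Q ≤ H.map (MulAut.conj g).toMonoidHom := by
  obtain ⟨S⟩ := (inferInstance : Nonempty (Sylow q H))
  have hnd : ¬ q ∣ ((S : Subgroup H).map H.subtype).index := by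
    rw [Subgroup.index_map_of_injective _ H.subtype_injective, Subgroup.range_subtype]
    intro h
    rcases (Fact.out : q.Prime).dvd_mul.1 h with h | h
    · exact S.not_dvd_index h
    · exact (Fact.out : q.Prime).ne_one (Nat.Coprime.eq_one_of_dvd (Nat.Coprime.coprime_dvd_left hq hHall) h)
  let T : Sylow q G := (S.isPGroup'.map H.subtype).toSylow hnd
  obtain ⟨U, hU⟩ := hQ.exists_le_sylow
  obtain ⟨g, hg⟩ := MulAction.exists_smul_eq G T U
  refine ⟨g, hU.trans ?_⟩
  rw [← hg, Sylow.coe_subgroup_smul]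
  intro x hx
  rw [Subgroup.mem_pointwise_smul_iff_inv_smul_mem] at hx
  obtain ⟨y, -, hy⟩ := hx
  refine ⟨(y : G), y.2, ?_⟩
  show MulAut.conj g (y : G) = x
  rw [show (y : G) = (MulAut.conj g)⁻¹ • x from hy]
  exact smul_inv_smul (MulAut.conj g) x

/-- A proper TI self-normalizing subgroup together with a second family gives too many elements. -/
theorem families_meet {G : Type*} [Group G] [Finite G] (L L' : Subgroup G)
    (hL : L ≠ ⊥) (hL' : L' ≠ ⊥)
    (hLn : ∀ k, k ∉ L → ∀ x ∈ L, k * x * k⁻¹ ∈ L → x = 1)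
    (hLn' : ∀ k, k ∉ L' → ∀ x ∈ L', k * x * k⁻¹ ∈ L' → x = 1) :
    ∃ k x, x ≠ 1 ∧ x ∈ L ∧ k * x * k⁻¹ ∈ L' := by
  by_contra hcon
  push Not at hcon
  let T (L : Subgroup G) := (G ⧸ L) × {x : L // x ≠ 1}
  let f : T L ⊕ T L' → {x : G // x ≠ 1} := fun t => match t with
    | Sum.inl t => ⟨t.1.out * t.2.1.1 * t.1.out⁻¹, fun h => t.2.2 (Subtype.ext (conj_eq_one_iff.1 h))⟩
    | Sum.inr t => ⟨t.1.out * t.2.1.1 * t.1.out⁻¹, fun h => t.2.2 (Subtype.ext (conj_eq_one_iff.1 h))⟩
  have inj1 : ∀ (L : Subgroup G), (∀ k, k ∉ L → ∀ x ∈ L, k * x * k⁻¹ ∈ L → x = 1) → ∀ s t : T L,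
      s.1.out * s.2.1.1 * s.1.out⁻¹ = t.1.out * t.2.1.1 * t.1.out⁻¹ → s = t := by
    intro L hL s t h
    have h2 : (t.1.out⁻¹ * s.1.out) * s.2.1.1 * (t.1.out⁻¹ * s.1.out)⁻¹ = t.2.1.1 := by
      calc (t.1.out⁻¹ * s.1.out) * s.2.1.1 * (t.1.out⁻¹ * s.1.out)⁻¹
          = t.1.out⁻¹ * (s.1.out * s.2.1.1 * s.1.out⁻¹) * t.1.out := by group
        _ = t.2.1.1 := by rw [h]; group
    have hmem : t.1.out⁻¹ * s.1.out ∈ L := by
      by_contra hn
      exact s.2.2 (Subtype.ext (hL _ hn _ s.2.1.2 (by rw [h2]; exact t.2.1.2)))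
    have hc : t.1 = s.1 := by
      rw [← QuotientGroup.out_eq' t.1, ← QuotientGroup.out_eq' s.1]
      exact QuotientGroup.eq.2 hmem
    rw [hc, inv_mul_cancel, one_mul, inv_one, mul_one] at h2
    exact Prod.ext hc.symm (Subtype.ext (Subtype.ext h2))
  have cross : ∀ (s : T L) (t : T L'), s.1.out * s.2.1.1 * s.1.out⁻¹ ≠ t.1.out * t.2.1.1 * t.1.out⁻¹ := by
    intro s t h
    refine hcon (t.1.out⁻¹ * s.1.out) s.2.1.1 (fun h1 => s.2.2 (Subtype.ext h1)) s.2.1.2 ?_
    have : (t.1.out⁻¹ * s.1.out) * s.2.1.1 * (t.1.out⁻¹ * s.1.out)⁻¹ = t.2.1.1 := by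
      calc (t.1.out⁻¹ * s.1.out) * s.2.1.1 * (t.1.out⁻¹ * s.1.out)⁻¹
          = t.1.out⁻¹ * (s.1.out * s.2.1.1 * s.1.out⁻¹) * t.1.out := by group
        _ = t.2.1.1 := by rw [h]; group
    rw [this]; exact t.2.1.2
  have hinj : Function.Injective f := by
    rintro (s | s) (t | t) h <;> replace h := congrArg Subtype.val h
    · rw [inj1 L hLn s t h]
    · exact absurd h (cross s t)
    · exact absurd h.symm (cross t s)
    · rw [inj1 L' hLn' s t h]
  have hT : ∀ L : Subgroup G, L ≠ ⊥ → Nat.card G ≤ 2 * Nat.card (T L) := by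
    intro L hL
    have h2 : 2 ≤ Nat.card L := by
      rcases Nat.lt_or_ge (Nat.card L) 2 with h | h
      · have := Nat.card_pos (α := L)
        exact absurd (Subgroup.card_eq_one.1 (by omega)) hL
      · exact h
    have hx : Nat.card {x : L // x ≠ 1} = Nat.card L - 1 := by
      show Nat.card ↥({1}ᶜ : Set L) = _
      rw [Nat.card_coe_set_eq, Set.ncard_compl, Set.ncard_singleton]
    rw [Nat.card_prod, hx, ← Subgroup.index_eq_card, ← Subgroup.index_mul_card L, mul_left_comm]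
    exact Nat.mul_le_mul_left _ (by omega)
  have h1 := Nat.card_le_card_of_injective f hinj
  have hx : Nat.card {x : G // x ≠ 1} = Nat.card G - 1 := by
    show Nat.card ↥({1}ᶜ : Set G) = _
    rw [Nat.card_coe_set_eq, Set.ncard_compl, Set.ncard_singleton]
  rw [Nat.card_sum, hx] at h1
  have := hT L hL
  have := hT L' hL'
  have := Nat.card_pos (α := G)
  omega


/-- Let G be a finite group with a subgroup H whose order is coprime to its index (a Hall subgroup) and which meets each of its conjugates by elements outside N_G(H) trivially. Then every subgroup of G whose order is divisible only by primes dividing the order of H lies in a conjugate of H. -/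
theorem result {G : Type*} [Group G] [Finite G] (H : Subgroup G)
    (hHall : (Nat.card H).Coprime H.index) (hTI : Cfsg.IsTISubset (H : Set G))
    (K : Subgroup G) (hK : ∀ q : ℕ, q.Prime → q ∣ Nat.card K → q ∣ Nat.card H) :
    ∃ g : G, K ≤ H.map (MulAut.conj g).toMonoidHom := by
  set N := Subgroup.normalizer (H : Set G)
  -- π-elements normalizing H lie in H
  have hN : ∀ x ∈ N, (orderOf x).Coprime H.index → x ∈ H := by
    intro x hxN hx
    haveI : (H.subgroupOf N).Normal := Subgroup.normal_in_normalizer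
    have h1 := Subgroup.pow_index_mem (H.subgroupOf N) ⟨x, hxN⟩
    rw [Subgroup.mem_subgroupOf, SubmonoidClass.coe_pow] at h1
    have h2 : (H.subgroupOf N).index ∣ H.index := Subgroup.relIndex_dvd_index_of_le Subgroup.le_normalizer
    have h3 : (orderOf x).Coprime (H.subgroupOf N).index := Nat.Coprime.coprime_dvd_right h2 hx
    obtain ⟨m, hm⟩ := exists_pow_eq_self_of_coprime h3.symm
    rw [← hm]
    exact pow_mem h1 m
  have hKcop : ∀ k ∈ K, (orderOf k).Coprime H.index := by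
    intro k hk
    refine Nat.Coprime.coprime_dvd_left (Subgroup.orderOf_dvd_natCard K hk) ?_
    refine Nat.coprime_of_dvd fun q hq hqK hqi => ?_
    exact hq.ne_one (Nat.Coprime.eq_one_of_dvd (Nat.Coprime.coprime_dvd_left (hK q hq hqK) hHall) hqi)
  let L : G → Subgroup K := fun g => (H.map (MulAut.conj g).toMonoidHom).subgroupOf K
  have hLmem : ∀ g (x : K), x ∈ L g ↔ g⁻¹ * (x : G) * g ∈ H := by
    intro g x
    rw [Subgroup.mem_subgroupOf, Subgroup.mem_map_equiv]
    simp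
  have key : ∀ a b : G, ∀ x ∈ H, x ≠ 1 → a * x * a⁻¹ ∈ H.map (MulAut.conj b).toMonoidHom → b⁻¹ * a ∈ N := by
    intro a b x hx hx1 hb
    by_contra hn
    refine hx1 (hTI _ hn x hx ?_)
    rw [Subgroup.mem_map_equiv] at hb
    simpa [mul_assoc] using hb
  have hTIL : ∀ g, ∀ k, k ∉ L g → ∀ x ∈ L g, k * x * k⁻¹ ∈ L g → x = 1 := by
    intro g k hk x hx hkx
    by_contra hx1
    rw [hLmem] at hx hkx
    have h1 : g⁻¹ * (k : G) * g ∈ N := by
      have := key ((k : G) * g) g (g⁻¹ * x * g) hx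
        (fun h => hx1 (Subtype.ext (show (x : G) = 1 by calc (x : G) = g * (g⁻¹ * x * g) * g⁻¹ := by group
                                                          _ = 1 := by rw [h]; group))) (by
          rw [Subgroup.mem_map_equiv]
          simpa [mul_assoc] using hkx)
      simpa [mul_assoc] using this
    refine hk ((hLmem g k).2 (hN _ h1 ?_))
    have : g⁻¹ * (k : G) * g = MulAut.conj g⁻¹ (k : G) := by simp
    rw [this, MulEquiv.orderOf_eq]
    exact hKcop k k.2
  by_cases hKb : K = ⊥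
  · exact ⟨1, by simp [hKb]⟩
  have hsyl : ∀ q : ℕ, q.Prime → q ∣ Nat.card K → ∀ Q : Sylow q K, ∃ g, (Q : Subgroup K) ≤ L g := by
    intro q hq hqK Q
    haveI : Fact q.Prime := ⟨hq⟩
    obtain ⟨g, hg⟩ := hall_sylow_le hHall (hK q hq hqK) (Q.isPGroup'.map K.subtype)
    exact ⟨g, fun x hx => hg ⟨x, hx, rfl⟩⟩
  obtain ⟨q0, hq0, hq0K⟩ := Nat.exists_prime_and_dvd (n := Nat.card K) (fun h => hKb (Subgroup.card_eq_one.1 h))
  haveI : Fact q0.Prime := ⟨hq0⟩
  obtain ⟨Q0⟩ := (inferInstance : Nonempty (Sylow q0 K))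
  obtain ⟨g0, hg0⟩ := hsyl q0 hq0 hq0K Q0
  have hne : L g0 ≠ ⊥ := fun h => Q0.ne_bot_of_dvd_card hq0K (eq_bot_iff.2 (hg0.trans h.le))
  refine ⟨g0, ?_⟩
  rw [← Subgroup.subgroupOf_eq_top]
  show L g0 = ⊤
  apply Subgroup.eq_top_of_card_eq
  refine Nat.dvd_antisymm (Subgroup.card_subgroup_dvd_card _) ?_
  rw [← Nat.factorization_prime_le_iff_dvd Nat.card_pos.ne' Nat.card_pos.ne']
  intro q hq
  by_cases hqK : q ∣ Nat.card K
  swap
  · rw [Nat.factorization_eq_zero_of_not_dvd hqK]; exact Nat.zero_le _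
  haveI : Fact q.Prime := ⟨hq⟩
  obtain ⟨Q⟩ := (inferInstance : Nonempty (Sylow q K))
  obtain ⟨g, hg⟩ := hsyl q hq hqK Q
  have hne' : L g ≠ ⊥ := fun h => Q.ne_bot_of_dvd_card hqK (eq_bot_iff.2 (hg.trans h.le))
  obtain ⟨k, x, hx1, hx, hkx⟩ := families_meet (L g) (L g0) hne' hne (hTIL g) (hTIL g0)
  rw [hLmem] at hx hkx
  have hN1 : g0⁻¹ * ((k : G) * g) ∈ N := by
    refine key ((k : G) * g) g0 _ hx (fun h => hx1 (Subtype.ext (show (x : G) = 1 by
      calc (x : G) = g * (g⁻¹ * x * g) * g⁻¹ := by group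
        _ = 1 := by rw [h]; group))) ?_
    rw [Subgroup.mem_map_equiv]
    simpa [mul_assoc] using hkx
  have hmap : (L g).map (MulAut.conj k).toMonoidHom ≤ L g0 := by
    rintro _ ⟨y, hy, rfl⟩
    rw [SetLike.mem_coe, hLmem] at hy
    rw [hLmem]
    have := (Subgroup.mem_normalizer_iff.1 hN1 _).1 hy
    simpa [mul_assoc] using this
  have hdvd : Nat.card (Q : Subgroup K) ∣ Nat.card (L g0) :=
    (Subgroup.card_dvd_of_le hg).trans ((dvd_of_eq (Subgroup.card_map_of_injective (MulAut.conj k).injective).symm).trans (Subgroup.card_dvd_of_le hmap))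
  rw [Q.card_eq_multiplicity] at hdvd
  exact (hq.pow_dvd_iff_le_factorization Nat.card_pos.ne').1 hdvd

end Cfsg.Agent.S4116
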