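import Cfsg.Statements.S4151
import Cfsg.Agent.FGS3.TIHall
import Cfsg.Agent.Transfer.PGroupNormal
-- import your own Cfsg.Agent.* helpers here

set_option autoImplicit false
open Cfsg

namespace Cfsg.Agent.S4151

theorem eq_of_card_eq {B : Type*} [CommGroup B] [IsCyclic B] [Finite B] {S T : Subgroup B}
    (h : Nat.card S = Nat.card T) : S = T := by
  have key : ∀ U : Subgroup B, U = (powMonoidHom (Nat.card U) : B →* B).ker := by
    intro U
    refine Subgroup.eq_of_le_of_card_ge (fun x hx => ?_) ?_
    · exact congrArg Subtype.val (pow_card_eq_one' (x := (⟨x, hx⟩ : U)))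
    · rw [IsCyclic.card_powMonoidHom_ker,
        Nat.gcd_eq_right (Subgroup.card_subgroup_dvd_card U)]
  rw [key S, key T, h]

theorem card_eq_of_split {B Q : Type*} [CommGroup B] [IsCyclic B] [Finite B] [Group Q] [Fintype Q]
    (hcop : (Nat.card B).Coprime (Fintype.card Q)) (ψ : Q →* MulAut B) :
    ∃ C W : Subgroup B, (∀ b, b ∈ C ↔ ∀ q, ψ q b = b) ∧ (∀ b, b ∈ W ↔ ∏ q, ψ q b = 1) ∧
      (∀ q, ∀ b ∈ W, ψ q b ∈ W) ∧
      Nat.card C * Nat.card W = Nat.card B ∧ (Nat.card C).Coprime (Nat.card W) := by
  classical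
  let N : B →* B := MonoidHom.mk' (fun b => ∏ q, ψ q b) fun a b => by
    simp only [map_mul, Finset.prod_mul_distrib]
  let C : Subgroup B :=
    { carrier := {b | ∀ q, ψ q b = b}
      one_mem' := fun q => map_one _
      mul_mem' := fun {a b} ha hb q => by rw [map_mul, ha q, hb q]
      inv_mem' := fun {a} ha q => by rw [map_inv, ha q] }
  have hNinv : ∀ q b, ψ q (N b) = N b := fun q b => by
    show ψ q (∏ r, ψ r b) = _
    rw [map_prod]
    refine Fintype.prod_equiv (Equiv.mulLeft q) _ _ fun r => ?_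
    simp [map_mul]
  have hNC : ∀ c ∈ C, N c = c ^ Fintype.card Q := fun c hc => by
    show ∏ r, ψ r c = _
    rw [Finset.prod_congr rfl (fun r _ => hc r), Finset.prod_const, Finset.card_univ]
  have hcc : (Nat.card C).Coprime (Fintype.card Q) :=
    hcop.coprime_dvd_left (Subgroup.card_subgroup_dvd_card C)
  have hr : N.range = C := by
    refine le_antisymm ?_ fun c hc => ?_
    · rintro _ ⟨b, rfl⟩
      exact fun q => hNinv q b
    · obtain ⟨⟨d, hd⟩, he⟩ := (powCoprime hcc).surjective ⟨c, hc⟩
      exact ⟨d, (hNC d hd).trans (congrArg Subtype.val he)⟩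
  have hcard : Nat.card C * Nat.card N.ker = Nat.card B := by
    rw [← hr, ← Subgroup.index_ker N, Subgroup.index_mul_card]
  have hdis : C ⊓ N.ker = ⊥ := by
    rw [eq_bot_iff]
    intro c hc
    have h1 : (⟨c, hc.1⟩ : C) ^ Fintype.card Q = 1 :=
      Subtype.ext (by
        rw [SubmonoidClass.coe_pow, ← hNC c hc.1]
        exact hc.2)
    have h2 := (powCoprime hcc).injective (a₁ := (⟨c, hc.1⟩ : C)) (a₂ := 1)
      (by rw [powCoprime_apply, powCoprime_apply, h1, one_pow])
    exact Subgroup.mem_bot.mpr (congrArg Subtype.val h2)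
  refine ⟨C, N.ker, fun b => Iff.rfl, fun b => Iff.rfl, fun q b hb => ?_, hcard, ?_⟩
  · rw [MonoidHom.mem_ker] at hb ⊢
    show ∏ r, ψ r (ψ q b) = 1
    rw [← hb]
    refine Fintype.prod_equiv (Equiv.mulRight q) _ _ fun r => ?_
    simp [map_mul]
  · refine Nat.coprime_of_dvd fun r hr' h1 h2 => ?_
    haveI := Fact.mk hr'
    obtain ⟨x, hx⟩ := exists_prime_orderOf_dvd_card' (G := C) r h1
    obtain ⟨y, hy⟩ := exists_prime_orderOf_dvd_card' (G := N.ker) r h2
    rw [← Subgroup.orderOf_coe, ← Nat.card_zpowers] at hx hy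
    have e := eq_of_card_eq (hx.trans hy.symm)
    have hle : Subgroup.zpowers (x : B) ≤ ⊥ :=
      hdis ▸ le_inf (Subgroup.zpowers_le.mpr x.2) (e ▸ Subgroup.zpowers_le.mpr y.2)
    rw [le_bot_iff.mp hle, Subgroup.card_bot] at hx
    exact hr'.ne_one hx.symm

theorem zgroup_fixed_complement {H Q : Type*} [Group H] [Finite H] [IsZGroup H] [Group Q] [Fintype Q]
    (hcop : (Nat.card H).Coprime (Fintype.card Q)) (φ : Q →* MulAut H) :
    ∃ D K : Subgroup H, (∀ x, x ∈ D ↔ ∀ q, φ q x = x) ∧ K.Normal ∧
      (∀ q, ∀ x ∈ K, φ q x ∈ K) ∧ K ⊔ D = ⊤ ∧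
      Nat.card D * Nat.card K = Nat.card H ∧ (Nat.card D).Coprime (Nat.card K) := by
  classical
  haveI hAc : IsCyclic (commutator H) := IsZGroup.isCyclic_commutator H
  set A := commutator H with hA
  have hAm : ∀ q, ∀ a ∈ A, φ q a ∈ A := fun q a ha => by
    have h := Subgroup.characteristic_iff_map_eq.mp (inferInstance : A.Characteristic) (φ q)
    rw [← h]
    exact Subgroup.mem_map_of_mem _ ha
  letI : CommGroup (H ⧸ A) := { (inferInstance : Group (H ⧸ A)) with
    mul_comm := by
      intro a b
      induction a using QuotientGroup.induction_on with | H x =>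
      induction b using QuotientGroup.induction_on with | H y =>
      rw [← QuotientGroup.mk_mul, ← QuotientGroup.mk_mul, QuotientGroup.eq]
      have := Subgroup.commutator_mem_commutator (H₁ := (⊤ : Subgroup H)) (H₂ := ⊤)
        (Subgroup.mem_top y⁻¹) (Subgroup.mem_top x⁻¹)
      rw [← commutator_def] at this
      simpa [commutatorElement_def, mul_assoc] using this }
  haveI : IsZGroup (H ⧸ A) := IsZGroup.of_surjective (f := QuotientGroup.mk' A)
    (QuotientGroup.mk'_surjective A)
  haveI : IsCyclic (H ⧸ A) := inferInstance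
  letI : CommGroup A := IsCyclic.commGroup
  have hcopA : (Nat.card A).Coprime (Fintype.card Q) :=
    hcop.coprime_dvd_left (Subgroup.card_subgroup_dvd_card A)
  have hcopB : (Nat.card (H ⧸ A)).Coprime (Fintype.card Q) :=
    hcop.coprime_dvd_left (Subgroup.card_quotient_dvd_card A)
  have hAB : (Nat.card A).Coprime (Nat.card (H ⧸ A)) := IsZGroup.coprime_commutator_index H
  have hinvA : ∀ q (a : A), φ q⁻¹ (φ q a) = a := fun q a => by
    rw [← MulAut.mul_apply, ← map_mul, inv_mul_cancel, map_one, MulAut.one_apply]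
  let ψA : Q →* MulAut A :=
    { toFun := fun q =>
        { toFun := fun a => ⟨φ q a, hAm q a a.2⟩
          invFun := fun a => ⟨φ q⁻¹ a, hAm q⁻¹ a a.2⟩
          left_inv := fun a => Subtype.ext (hinvA q a)
          right_inv := fun a => Subtype.ext (by simpa using hinvA q⁻¹ a)
          map_mul' := fun a b => Subtype.ext (map_mul _ _ _) }
      map_one' := by ext a; simp
      map_mul' := fun p q => by ext a; simp [map_mul] }
  have hmapA : ∀ q, A.map (φ q).toMonoidHom = A := fun q =>
    Subgroup.characteristic_iff_map_eq.mp inferInstance (φ q)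
  let ψB : Q →* MulAut (H ⧸ A) :=
    { toFun := fun q => QuotientGroup.congr A A (φ q) (hmapA q)
      map_one' := by
        ext b; induction b using QuotientGroup.induction_on with | H x => simp
      map_mul' := fun p q => by
        refine MulEquiv.ext fun b => ?_
        induction b using QuotientGroup.induction_on with | H x =>
        show ((φ (p * q) x : H) : H ⧸ A) = ((φ p (φ q x) : H) : H ⧸ A)
        rw [map_mul, MulAut.mul_apply] }
  obtain ⟨CA, WA, hCA, -, -, hcardA, hcA⟩ := card_eq_of_split hcopA ψA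
  obtain ⟨CB, WB, hCB, hWB, hWBinv, hcardB, hcB⟩ := card_eq_of_split hcopB ψB
  let D : Subgroup H :=
    { carrier := {x | ∀ q, φ q x = x}
      one_mem' := fun q => map_one _
      mul_mem' := fun {a b} ha hb q => by rw [map_mul, ha q, hb q]
      inv_mem' := fun {a} ha q => by rw [map_inv, ha q] }
  have hDA : D ⊓ A = CA.map A.subtype := by
    ext x
    constructor
    · intro hx
      exact ⟨⟨x, hx.2⟩, (hCA _).mpr fun q => Subtype.ext (hx.1 q), rfl⟩
    · rintro ⟨a, ha, rfl⟩
      exact ⟨fun q => congrArg Subtype.val ((hCA a).mp ha q), a.2⟩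
  have hDB : D.map (QuotientGroup.mk' A) = CB := by
    refine le_antisymm ?_ fun b hb => ?_
    · rintro _ ⟨x, hx, rfl⟩
      rw [hCB]
      intro q
      show ((φ q x : H) : H ⧸ A) = x
      rw [hx q]
    · induction b using QuotientGroup.induction_on with | H x =>
      rw [hCB] at hb
      let f : Q → A := fun q => ⟨x⁻¹ * φ q x, QuotientGroup.eq.mp (hb q).symm⟩
      have hf : ∀ p q, f (p * q) = f p * ψA p (f q) := fun p q => Subtype.ext (by
        show x⁻¹ * φ (p * q) x = x⁻¹ * φ p x * φ p (x⁻¹ * φ q x)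
        rw [map_mul φ, MulAut.mul_apply, map_mul (φ p), map_inv (φ p)]
        group)
      set P : A := ∏ q, f q with hP
      obtain ⟨a, ha⟩ := (powCoprime hcopA).surjective P
      rw [powCoprime_apply] at ha
      have hfa : ∀ p, f p = a * (ψA p a)⁻¹ := by
        intro p
        refine (powCoprime hcopA).injective ?_
        rw [powCoprime_apply, powCoprime_apply, mul_pow, inv_pow, ← map_pow, ha,
          eq_mul_inv_iff_mul_eq]
        have e : ∏ q, f (p * q) = P := Fintype.prod_equiv (Equiv.mulLeft p) _ _ fun q => rfl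
        simp only [hf, Finset.prod_mul_distrib, Finset.prod_const, Finset.card_univ] at e
        rw [← map_prod] at e
        exact e
      refine ⟨x * (a : H), fun q => ?_, ?_⟩
      · have h1 := congrArg Subtype.val (hfa q)
        simp only [f, Subgroup.coe_mul, Subgroup.coe_inv] at h1
        have h2 : ((ψA q a : A) : H) = φ q a := rfl
        rw [h2] at h1
        rw [map_mul]
        calc φ q x * φ q a = x * (x⁻¹ * φ q x) * φ q a := by group
          _ = x * ((a : H) * (φ q a)⁻¹) * φ q a := by rw [h1]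
          _ = _ := by group
      · exact QuotientGroup.mk_mul_of_mem x a.2
  have hDcard : Nat.card D = Nat.card CA * Nat.card CB := by
    have e := Subgroup.card_mul_index ((QuotientGroup.mk' A).comp D.subtype).ker
    rw [Subgroup.index_ker, MonoidHom.range_comp, Subgroup.range_subtype, hDB] at e
    have hk : ((QuotientGroup.mk' A).comp D.subtype).ker = (D ⊓ A).subgroupOf D := by
      ext x
      simp [Subgroup.mem_subgroupOf, QuotientGroup.eq_one_iff]
    rw [hk, Nat.card_congr (Subgroup.subgroupOfEquivOfLe inf_le_left).toEquiv, hDA,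
      Subgroup.card_map_of_injective A.subtype_injective] at e
    exact e.symm
  set M := WB.comap (QuotientGroup.mk' A) with hM
  haveI : WB.Normal := inferInstance
  haveI hMn : M.Normal := Subgroup.Normal.comap inferInstance _
  have hMcard : Nat.card M = Nat.card A * Nat.card WB := by
    have h1 := Subgroup.card_mul_index M
    rw [hM, Subgroup.index_comap_of_surjective _ (QuotientGroup.mk'_surjective A), ← hM,
      Subgroup.card_eq_card_quotient_mul_card_subgroup A, ← Subgroup.card_mul_index WB] at h1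
    have h2 : 0 < WB.index := Nat.pos_of_ne_zero Subgroup.index_ne_zero_of_finite
    refine Nat.eq_of_mul_eq_mul_right h2 ?_
    rw [h1]; ring
  -- fixed elements of `A` are central in `M`
  have hcentral : ∀ m ∈ M, ∀ c ∈ CA, m * (c : H) = (c : H) * m := by
    let Z := Subgroup.centralizer ((CA.map A.subtype : Subgroup H) : Set H)
    haveI : IsCyclic A := hAc
    have hcomm : ∀ y, ∀ c ∈ CA, ∀ q, y⁻¹ * φ q y * (c : H) = (c : H) * (y⁻¹ * φ q y) := by
      intro y c hc q
      let c' : A := ⟨y * c * y⁻¹, (inferInstance : A.Normal).conj_mem _ c.2 y⟩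
      have hc' : c' ∈ CA := by
        have hsub : Subgroup.zpowers c' = Subgroup.zpowers c := eq_of_card_eq (by
          rw [Nat.card_zpowers, Nat.card_zpowers, ← Subgroup.orderOf_coe, ← Subgroup.orderOf_coe c]
          exact orderOf_injective (MulAut.conj y).toMonoidHom (MulAut.conj y).injective (c : H))
        exact Subgroup.zpowers_le.mpr hc (hsub ▸ Subgroup.mem_zpowers c')
      have h1 : φ q (y * c * y⁻¹) = y * c * y⁻¹ := congrArg Subtype.val ((hCA c').mp hc' q)
      have h2 : φ q (c : H) = c := congrArg Subtype.val ((hCA c).mp hc q)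
      rw [map_mul, map_mul, map_inv, h2] at h1
      calc y⁻¹ * φ q y * c = y⁻¹ * (φ q y * c * (φ q y)⁻¹) * φ q y := by group
        _ = _ := by rw [h1]; group
    have hAZ : A ≤ Z := fun a ha => Subgroup.mem_centralizer_iff.mpr (by
      rintro _ ⟨c, _, rfl⟩
      exact congrArg Subtype.val (mul_comm c ⟨a, ha⟩))
    intro m hm
    obtain ⟨b, hb⟩ := (powCoprime hcopB).surjective (m : H ⧸ A)
    rw [powCoprime_apply] at hb
    have hbW : b ∈ WB := by
      obtain ⟨j, hj⟩ : ∃ j, (b ^ Fintype.card Q) ^ j = b :=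
        exists_pow_eq_self_of_coprime (hcopB.symm.coprime_dvd_right (orderOf_dvd_natCard b))
      rw [← hj, hb]
      exact WB.pow_mem hm j
    obtain ⟨y, rfl⟩ := QuotientGroup.mk'_surjective A b
    have hyn : ((m : H ⧸ A)) ∈ Z.map (QuotientGroup.mk' A) := by
      rw [← hb]
      have e : (QuotientGroup.mk' A y) ^ Fintype.card Q =
          (∏ q, QuotientGroup.mk' A (y⁻¹ * φ q y))⁻¹ := by
        simp only [map_mul, map_inv, Finset.prod_mul_distrib, Finset.prod_const, Finset.card_univ]
        have h1 : ∏ q, QuotientGroup.mk' A (φ q y) = 1 := (hWB _).mp hbW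
        rw [h1, mul_one, inv_pow, inv_inv]
      rw [e]
      refine Subgroup.inv_mem _ (Subgroup.prod_mem _ fun q _ => Subgroup.mem_map_of_mem _ ?_)
      rw [Subgroup.mem_centralizer_iff]
      rintro _ ⟨c, hc, rfl⟩
      exact (hcomm y c hc q).symm
    obtain ⟨z, hz, hze⟩ := hyn
    have hmz : m ∈ Z := by
      have h1 : z⁻¹ * m ∈ A := QuotientGroup.eq.mp hze
      simpa using Z.mul_mem hz (hAZ h1)
    intro c hc
    exact (Subgroup.mem_centralizer_iff.mp hmz (c : H) ⟨c, hc, rfl⟩).symm
  -- the complement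
  set w := Nat.card WA * Nat.card WB with hw
  have hwC : (Nat.card CA).Coprime w := by
    refine hcA.mul_right ?_
    exact (hAB.coprime_dvd_left (Subgroup.card_subgroup_dvd_card CA)).coprime_dvd_right
      (Subgroup.card_subgroup_dvd_card WB)
  set CM : Subgroup M := (CA.map A.subtype).subgroupOf M with hCM
  have hCAM : CA.map A.subtype ≤ M := by
    rintro _ ⟨c, _, rfl⟩
    show QuotientGroup.mk' A (c : H) ∈ WB
    rw [show QuotientGroup.mk' A (c : H) = 1 from (QuotientGroup.eq_one_iff (c : H)).mpr c.2]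
    exact WB.one_mem
  have hCMcard : Nat.card CM = Nat.card CA := by
    rw [hCM, Nat.card_congr (Subgroup.subgroupOfEquivOfLe hCAM).toEquiv,
      Subgroup.card_map_of_injective A.subtype_injective]
  have hCMcen : CM ≤ Subgroup.center M := by
    rintro ⟨x, hxM⟩ ⟨c, hc, hce⟩
    rw [Subgroup.mem_center_iff]
    intro m
    exact Subtype.ext (by
      show (m : H) * x = x * m
      have := hcentral m m.2 c hc
      rwa [show (c : H) = x from hce] at this)
  haveI : CM.Normal := ⟨fun n hn g => by
    rw [Subgroup.mem_center_iff.mp (hCMcen hn) g, mul_inv_cancel_right]; exact hn⟩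
  have hCMidx : CM.index = w := by
    have h1 := Subgroup.card_mul_index CM
    rw [hCMcard, hMcard, ← hcardA] at h1
    refine Nat.eq_of_mul_eq_mul_left (Nat.card_pos : 0 < Nat.card CA) ?_
    rw [h1, hw]; ring
  obtain ⟨L, hL⟩ := Subgroup.exists_right_complement'_of_coprime
    (show (Nat.card CM).Coprime CM.index by rw [hCMcard, hCMidx]; exact hwC)
  haveI : L.Normal := ⟨fun l hl g => by
    have hg : g ∈ CM ⊔ L := hL.sup_eq_top ▸ Subgroup.mem_top g
    obtain ⟨c, hc, k, hk, rfl⟩ := Subgroup.mem_sup_of_normal_left.mp hg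
    have e : c * k * l * (c * k)⁻¹ = c * (k * l * k⁻¹) * c⁻¹ := by group
    rw [e, ← Subgroup.mem_center_iff.mp (hCMcen hc), mul_inv_cancel_right]
    exact L.mul_mem (L.mul_mem hk hl) (L.inv_mem hk)⟩
  have hLcard : Nat.card L = w := by rw [← hL.symm.index_eq_card, hCMidx]
  set K := L.map M.subtype with hK
  have hKiff : ∀ x, x ∈ K ↔ x ∈ M ∧ x ^ w = 1 := by
    intro x
    constructor
    · rintro ⟨l, hl, rfl⟩
      refine ⟨l.2, ?_⟩
      have := pow_card_eq_one' (G := L) (x := ⟨l, hl⟩)
      rw [hLcard] at this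
      exact congrArg (fun z : L => ((z : M) : H)) this
    · rintro ⟨hxM, hxw⟩
      refine ⟨⟨x, hxM⟩, ?_, rfl⟩
      refine (QuotientGroup.eq_one_iff _).mp (orderOf_eq_one_iff.mp
        (Nat.eq_one_of_dvd_coprimes (hwC.symm) (orderOf_dvd_of_pow_eq_one ?_) ?_))
      · show QuotientGroup.mk' L ⟨x, hxM⟩ ^ w = 1
        rw [← map_pow, show (⟨x, hxM⟩ : M) ^ w = 1 from Subtype.ext hxw, map_one]
      · have := orderOf_dvd_natCard (((⟨x, hxM⟩ : M)) : M ⧸ L)
        rwa [← Subgroup.index_eq_card, hL.index_eq_card, hCMcard] at this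
  have hKcard : Nat.card K = w := by
    rw [hK, Subgroup.card_map_of_injective M.subtype_injective, hLcard]
  have hKn : K.Normal := ⟨fun x hx g => by
    rw [hKiff] at hx ⊢
    exact ⟨hMn.conj_mem _ hx.1 g, by rw [conj_pow, hx.2, mul_one, mul_inv_cancel]⟩⟩
  have hKQ : ∀ q, ∀ x ∈ K, φ q x ∈ K := fun q x hx => by
    rw [hKiff] at hx ⊢
    exact ⟨hWBinv q _ hx.1, by rw [← map_pow, hx.2, map_one]⟩
  have hcardDK : Nat.card D * Nat.card K = Nat.card H := by
    rw [hDcard, hKcard, Subgroup.card_eq_card_quotient_mul_card_subgroup A, ← hcardB, ← hcardA, hw]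
    ring
  have hcopDK : (Nat.card D).Coprime (Nat.card K) := by
    rw [hDcard, hKcard, hw]
    refine Nat.Coprime.mul_left hwC (Nat.Coprime.mul_right ?_ hcB)
    exact (hAB.symm.coprime_dvd_left (Subgroup.card_subgroup_dvd_card CB)).coprime_dvd_right
      (Subgroup.card_subgroup_dvd_card WA)
  refine ⟨D, K, fun x => Iff.rfl, hKn, hKQ, ?_, hcardDK, hcopDK⟩
  haveI := hKn
  refine Subgroup.eq_top_of_card_eq _ (Nat.dvd_antisymm (Subgroup.card_subgroup_dvd_card _) ?_)
  rw [← hcardDK]
  exact hcopDK.mul_dvd_of_dvd_of_dvd (Subgroup.card_dvd_of_le le_sup_right)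
    (Subgroup.card_dvd_of_le le_sup_left)


/-- Let G be a finite group and H a non-normal subgroup meeting each of its conjugates by elements outside N_G(H) trivially, with the order of H coprime to its index in N_G(H), such that G is π-separable for π the set of primes dividing the order of H (G has a chain of normal subgroups from 1 to G each of whose factors has order divisible only by primes dividing the order of H or coprime to it). Suppose a Sylow 2-subgroup of H is abelian and Q is a complement of H in N_G(H). Then C_H(Q), the subgroup of elements of H commuting with Q, has order coprime to its index in G and has a normal complement in G. -/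
theorem result {G : Type*} [Group G] [Finite G] (H : Subgroup G)
    (hTI : Cfsg.IsTISubset (H : Set G)) (hnn : ¬ H.Normal)
    (hHall : (Nat.card H).Coprime (H.subgroupOf (Subgroup.normalizer (H : Set G))).index)
    (hsep : ∃ (n : ℕ) (M : Fin (n + 1) → Subgroup G), M 0 = ⊥ ∧ M (Fin.last n) = ⊤ ∧ Monotone M ∧ (∀ i, (M i).Normal) ∧
      ∀ i : Fin n, (∀ q : ℕ, q.Prime → q ∣ (M i.castSucc).relIndex (M i.succ) → q ∣ Nat.card H) ∨
        ((M i.castSucc).relIndex (M i.succ)).Coprime (Nat.card H))
    (h2 : ∀ P : Sylow 2 H, IsMulCommutative (P : Subgroup H))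
    (Q : Subgroup G) (hQ : Q ≤ Subgroup.normalizer (H : Set G)) (hQH : Q ⊓ H = ⊥) (hQH' : Q ⊔ H = Subgroup.normalizer (H : Set G)) :
    (Nat.card ↥(H ⊓ Subgroup.centralizer (Q : Set G))).Coprime (H ⊓ Subgroup.centralizer (Q : Set G)).index ∧
    ∃ N : Subgroup G, N.Normal ∧ N.IsComplement' (H ⊓ Subgroup.centralizer (Q : Set G)) := by
  classical
  set N := Subgroup.normalizer (H : Set G) with hN
  set O := sSup {K : Subgroup G | K.Normal ∧ (Nat.card K).Coprime (Nat.card H)} with hOd
  obtain ⟨hsup, -, hcen, hfix, hnot⟩ := Cfsg.Agent.FGS3.TIHall.struct hTI hnn hHall hsep hOd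
  obtain ⟨hOn, hOc⟩ := Cfsg.Agent.FGS3.TIHall.coprime_sSup hOd
  haveI := hOn
  haveI : IsZGroup H := ⟨fun r hr R => by
    haveI := Fact.mk hr
    have habel : ∀ S : Subgroup H, IsMulCommutative S → IsCyclic S := fun S hS => by
      haveI : IsMulCommutative (S.map H.subtype) := inferInstance
      haveI := Cfsg.Agent.FGS3.TIHall.abelian_isCyclic hOc hfix hnot (Subgroup.map_subtype_le S)
      exact isCyclic_of_injective (S.equivMapOfInjective _ H.subtype_injective).toMonoidHom
        (S.equivMapOfInjective _ H.subtype_injective).injective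
    by_contra hc
    rcases eq_or_ne r 2 with rfl | hr2
    · exact hc (habel _ (h2 R))
    · obtain ⟨E, -, hE, hEc⟩ :=
        Cfsg.Agent.Transfer.PNormal.exists_normal_ea_sq hr2 R.isPGroup' hc
      haveI hEcomm : IsMulCommutative E := hE.1
      haveI hcy : IsCyclic E := by
        haveI := habel (E.map (R : Subgroup H).subtype) inferInstance
        exact isCyclic_of_injective (E.equivMapOfInjective _ (R : Subgroup H).subtype_injective).toMonoidHom
          (E.equivMapOfInjective _ (R : Subgroup H).subtype_injective).injective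
      obtain ⟨g, hg⟩ := IsCyclic.exists_ofOrder_eq_natCard (α := E)
      have h4 := orderOf_dvd_of_pow_eq_one (show g ^ r = 1 from Subtype.ext (hE.2 g g.2))
      rw [hg, hEc] at h4
      have h5 := Nat.le_of_dvd hr.pos h4
      nlinarith [hr.two_le]⟩
  haveI : (H.subgroupOf N).Normal := Subgroup.normal_in_normalizer
  have hQN : Q ≤ N := hQ
  have hHN : H ≤ N := Subgroup.le_normalizer
  -- orders
  have hNcard : Nat.card N = Nat.card H * Nat.card Q := by
    have h1 := Subgroup.relIndex_mul_relIndex ⊥ H N bot_le hHN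
    rw [Subgroup.relIndex_bot_left, Subgroup.relIndex_bot_left] at h1
    have e : H.relIndex N = Nat.card Q := by
      rw [← Subgroup.relIndex_bot_left Q, ← hQH, inf_comm, Subgroup.inf_relIndex_right]
      have : H.relIndex (Q ⊔ H) = H.relIndex Q := by
        rw [← Subgroup.relIndex_subgroupOf (sup_le hQN hHN),
          ← Subgroup.relIndex_subgroupOf hQN,
          Subgroup.subgroupOf_sup hQN hHN, Subgroup.relIndex_sup_right]
      rw [← this, hQH']
    rw [← h1, e]
  have hcopHQ : (Nat.card H).Coprime (Nat.card Q) := by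
    have h1 := Subgroup.card_mul_index (H.subgroupOf N)
    rw [Nat.card_congr (Subgroup.subgroupOfEquivOfLe hHN).toEquiv, hNcard] at h1
    rw [← Nat.eq_of_mul_eq_mul_left Nat.card_pos h1]
    exact hHall
  have hCQ : O ⊓ N ≤ Q := by
    set C := O ⊓ N with hC
    haveI : (C.subgroupOf N).Normal := by
      rw [hC, Subgroup.inf_subgroupOf_right]
      exact Subgroup.Normal.comap hOn N.subtype
    have hle : C ⊔ Q ≤ N := sup_le inf_le_right hQN
    have hdvd : Nat.card ↥(C ⊔ Q) ∣ Nat.card Q := by
      have h2 := Subgroup.card_dvd_of_le hle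
      rw [hNcard] at h2
      refine Nat.Coprime.dvd_of_dvd_mul_left ?_ h2
      rw [← Nat.card_congr (Subgroup.subgroupOfEquivOfLe hle).toEquiv,
        Subgroup.subgroupOf_sup inf_le_right hQN]
      refine Nat.Coprime.coprime_dvd_left (Cfsg.Agent.FGS3.TIHall.card_sup_dvd_mul _ _) ?_
      rw [Nat.card_congr (Subgroup.subgroupOfEquivOfLe inf_le_right).toEquiv,
        Nat.card_congr (Subgroup.subgroupOfEquivOfLe hQN).toEquiv]
      exact (hOc.coprime_dvd_left (Subgroup.card_dvd_of_le inf_le_left)).mul_left hcopHQ.symm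
    calc C ≤ C ⊔ Q := le_sup_left
      _ = Q := (Subgroup.eq_of_le_of_card_ge le_sup_right (Nat.le_of_dvd Nat.card_pos hdvd)).symm
  haveI := Fintype.ofFinite Q
  obtain ⟨D, K, hD, hKn, hKQ, hKD, hcardDK, hcopDK⟩ := zgroup_fixed_complement
    (by rw [← Nat.card_eq_fintype_card]; exact hcopHQ) ((H.normalizerMonoidHom).comp (Subgroup.inclusion hQN))
  have hDeq : H ⊓ Subgroup.centralizer (Q : Set G) = D.map H.subtype := by
    ext x
    constructor
    · intro hx
      refine ⟨⟨x, hx.1⟩, (hD _).mpr fun q => Subtype.ext ?_, rfl⟩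
      show (q : G) * x * (q : G)⁻¹ = x
      rw [Subgroup.mem_centralizer_iff.mp hx.2 q q.2, mul_inv_cancel_right]
    · rintro ⟨d, hd, rfl⟩
      refine ⟨d.2, Subgroup.mem_centralizer_iff.mpr fun q hq => ?_⟩
      have := congrArg Subtype.val ((hD d).mp hd ⟨q, hq⟩)
      exact mul_inv_eq_iff_eq_mul.mp this
  rw [hDeq]
  have hDcard : Nat.card (D.map H.subtype) = Nat.card D :=
    Subgroup.card_map_of_injective H.subtype_injective
  have hHH := Cfsg.Agent.FGS3.TIHall.coprime_index hTI hHall
  set K' := K.map H.subtype with hK'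
  have hK'card : Nat.card K' = Nat.card K := Subgroup.card_map_of_injective H.subtype_injective
  have hDdvd : Nat.card D ∣ Nat.card H := Subgroup.card_subgroup_dvd_card D
  have hidx : (Nat.card (D.map H.subtype)).Coprime (D.map H.subtype).index := by
    rw [hDcard, ← Subgroup.relIndex_mul_index (Subgroup.map_subtype_le D)]
    refine Nat.Coprime.mul_right ?_ (hHH.coprime_dvd_left hDdvd)
    have h1 := Subgroup.relIndex_mul_relIndex ⊥ (D.map H.subtype) H bot_le (Subgroup.map_subtype_le D)
    rw [Subgroup.relIndex_bot_left, Subgroup.relIndex_bot_left, hDcard, ← hcardDK] at h1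
    rw [Nat.eq_of_mul_eq_mul_left Nat.card_pos h1]
    exact hcopDK
  refine ⟨hidx, ?_⟩
  -- normalizers
  have hK'Q : Q ≤ Subgroup.normalizer (K' : Set G) := fun q hq => by
    refine Cfsg.Agent.Coprime.mem_normalizer_of_conj_mem ?_
    rintro _ ⟨k, hk, rfl⟩
    exact ⟨_, hKQ ⟨q, hq⟩ k hk, rfl⟩
  have hK'H : H ≤ Subgroup.normalizer (K' : Set G) := fun x hx => by
    refine Cfsg.Agent.Coprime.mem_normalizer_of_conj_mem ?_
    rintro _ ⟨k, hk, rfl⟩
    exact ⟨_, hKn.conj_mem k hk ⟨x, hx⟩, rfl⟩
  set P := O ⊔ (K' ⊔ Q) with hP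
  have hOP : O ≤ P := le_sup_left
  have hKP : K' ≤ P := le_sup_left.trans le_sup_right
  have hQP : Q ≤ P := le_sup_right.trans le_sup_right
  have hDn : ∀ d ∈ D.map H.subtype, d ∈ Subgroup.normalizer (P : Set G) := by
    intro d hd
    have hd' : d ∈ H ⊓ Subgroup.centralizer (Q : Set G) := hDeq ▸ hd
    refine Cfsg.Agent.Coprime.mem_normalizer_of_conj_mem fun y hy => ?_
    have hle : P ≤ P.comap (MulAut.conj d).toMonoidHom := by
      refine sup_le (fun o ho => hOP (hOn.conj_mem o ho d)) (sup_le (fun k hk => hKP ?_) fun q hq => ?_)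
      · exact (Subgroup.mem_normalizer_iff.mp (hK'H hd'.1) k).mp hk
      · show d * q * d⁻¹ ∈ P
        rw [← Subgroup.mem_centralizer_iff.mp hd'.2 q hq, mul_inv_cancel_right]
        exact hQP hq
    exact hle hy
  have hgen : P ⊔ D.map H.subtype = ⊤ := by
    rw [eq_top_iff, ← hsup]
    refine sup_le (hOP.trans le_sup_left) ?_
    refine (le_of_eq hQH'.symm).trans (sup_le (hQP.trans le_sup_left) ?_)
    have : (K ⊔ D).map H.subtype = H := by
      rw [hKD, ← MonoidHom.range_eq_map, Subgroup.range_subtype]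
    refine (le_of_eq this.symm).trans ?_
    rw [Subgroup.map_sup]
    exact sup_le (hKP.trans le_sup_left) le_sup_right
  have hPn : P.Normal := by
    rw [← Subgroup.normalizer_eq_top_iff, eq_top_iff, ← hgen]
    exact sup_le Subgroup.le_normalizer hDn
  haveI := hPn
  refine ⟨P, hPn, ?_⟩
  have hPcop : (Nat.card P).Coprime (Nat.card D) := by
    refine Nat.Coprime.coprime_dvd_left (Cfsg.Agent.FGS3.TIHall.card_sup_dvd_mul O _) ?_
    refine (hOc.coprime_dvd_right hDdvd).mul_left ?_
    have hle : K' ⊔ Q ≤ Subgroup.normalizer (K' : Set G) := sup_le Subgroup.le_normalizer hK'Q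
    haveI : (K'.subgroupOf (Subgroup.normalizer (K' : Set G))).Normal := Subgroup.normal_in_normalizer
    rw [← Nat.card_congr (Subgroup.subgroupOfEquivOfLe hle).toEquiv,
      Subgroup.subgroupOf_sup Subgroup.le_normalizer hK'Q]
    refine Nat.Coprime.coprime_dvd_left (Cfsg.Agent.FGS3.TIHall.card_sup_dvd_mul _ _) ?_
    rw [Nat.card_congr (Subgroup.subgroupOfEquivOfLe Subgroup.le_normalizer).toEquiv,
      Nat.card_congr (Subgroup.subgroupOfEquivOfLe hK'Q).toEquiv, hK'card]
    exact hcopDK.symm.mul_left (hcopHQ.symm.coprime_dvd_right hDdvd)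
  refine Subgroup.isComplement'_of_disjoint_and_mul_eq_univ ?_ ?_
  · rw [disjoint_iff]
    refine Subgroup.eq_bot_of_card_eq _ (Nat.eq_one_of_dvd_coprimes hPcop
      (Subgroup.card_dvd_of_le inf_le_left) (hDcard ▸ Subgroup.card_dvd_of_le inf_le_right))
  · rw [← Subgroup.normal_mul, hgen, Subgroup.coe_top]

end Cfsg.Agent.S4151
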