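import Cfsg.Statements.S4117
import Cfsg.Agent.S4151
-- import your own Cfsg.Agent.* helpers here

set_option autoImplicit false
open Cfsg

namespace Cfsg.Agent.S4117

theorem cyclic_of_fixed_trivial {K Q : Type*} [Group K] [Finite K] [IsZGroup K] [Group Q] [Fintype Q]
    (hcop : (Nat.card K).Coprime (Fintype.card Q)) (φ : Q →* MulAut K)
    (hfix : ∀ x : K, (∀ q, φ q x = x) → x = 1) :
    IsCyclic K ∧ Subgroup.closure {y : K | ∃ q x, y = x⁻¹ * φ q x} = ⊤ := by
  classical
  set R := Subgroup.closure {y : K | ∃ q x, y = x⁻¹ * φ q x} with hR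
  obtain ⟨D, L, hD, -, -, -, -, -⟩ := Cfsg.Agent.S4151.zgroup_fixed_complement hcop φ
  haveI hAc : IsCyclic (commutator K) := IsZGroup.isCyclic_commutator K
  -- the generators centralize the derived subgroup
  have hcent : R ≤ Subgroup.centralizer (commutator K : Set K) := by
    rw [hR, Subgroup.closure_le]
    rintro _ ⟨q, x, rfl⟩
    refine Subgroup.mem_centralizer_iff.mpr fun c hc => ?_
    letI : CommGroup (commutator K) := IsCyclic.commGroup
    have hqc : ∀ (w : K) (z : commutator K), (φ q w) * (φ q (z : K)) * (φ q w)⁻¹ = φ q (w * z * w⁻¹) :=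
      fun w z => by rw [map_mul, map_mul, map_inv]
    let θ : MulAut (commutator K) :=
      ⟨⟨fun z => ⟨φ q z, by
          have h := Subgroup.characteristic_iff_map_eq.mp (inferInstance : (commutator K).Characteristic) (φ q)
          exact h.le (Subgroup.mem_map_of_mem _ z.2)⟩,
        fun z => ⟨(φ q).symm z, by
          have h := Subgroup.characteristic_iff_map_eq.mp (inferInstance : (commutator K).Characteristic) (φ q).symm
          exact h.le (Subgroup.mem_map_of_mem _ z.2)⟩,
        fun z => Subtype.ext ((φ q).symm_apply_apply _),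
        fun z => Subtype.ext ((φ q).apply_symm_apply _)⟩,
        fun a b => Subtype.ext (map_mul _ _ _)⟩
    let cx : MulAut (commutator K) := MulAut.conjNormal x
    have hcomm : θ * cx = cx * θ := by
      apply (IsCyclic.mulAutMulEquiv (commutator K)).injective
      rw [map_mul, map_mul, mul_comm]
    have h := DFunLike.congr_fun hcomm ⟨c, hc⟩
    rw [MulAut.mul_apply, MulAut.mul_apply] at h
    obtain ⟨c', hc'⟩ : ∃ c' : commutator K, θ c' = ⟨c, hc⟩ := θ.surjective _
    have h2 := DFunLike.congr_fun hcomm c'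
    rw [MulAut.mul_apply, MulAut.mul_apply, hc'] at h2
    have h3 : φ q x * c * (φ q x)⁻¹ = x * c * x⁻¹ := by
      have h4 := congrArg (fun z : commutator K => (z : K)) h2
      have h5 : φ q (x * c' * x⁻¹) = x * c * x⁻¹ := h4
      rw [← hqc] at h5
      have h6 : φ q (c' : K) = c := congrArg (fun z : commutator K => (z : K)) hc'
      rwa [h6] at h5
    calc c * (x⁻¹ * φ q x) = x⁻¹ * (x * c * x⁻¹) * φ q x := by group
      _ = _ := by rw [← h3]; group
  -- powers lie in R modulo the derived subgroup
  have hpow : ∀ (A : Subgroup K) [A.Normal], (∀ q, A.map (φ q).toMonoidHom = A) →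
      (∀ a b : K ⧸ A, a * b = b * a) →
      ∀ x : K, ∃ r ∈ R, ∃ f : K, (∀ q, f⁻¹ * φ q f ∈ A) ∧
        r⁻¹ * x ^ Fintype.card Q * f⁻¹ ∈ A := by
    intro A _ hA hab x
    letI : CommGroup (K ⧸ A) := { (inferInstance : Group (K ⧸ A)) with mul_comm := hab }
    obtain ⟨f, hf⟩ := QuotientGroup.mk_surjective (∏ q, ((φ q x : K) : K ⧸ A))
    have hr : (∏ q, ((x * (φ q x)⁻¹ : K) : K ⧸ A)) ∈ R.map (QuotientGroup.mk' A) := by
      refine Subgroup.prod_mem _ fun q _ => Subgroup.mem_map_of_mem _ ?_
      refine Subgroup.subset_closure ⟨q, x⁻¹, ?_⟩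
      rw [inv_inv, map_inv]
    obtain ⟨r, hrR, hr⟩ := hr
    refine ⟨r, hrR, f, fun q => ?_, ?_⟩
    · refine QuotientGroup.eq.mp ?_
      let ψ : (K ⧸ A) ≃* (K ⧸ A) := QuotientGroup.congr A A (φ q) (hA q)
      show _ = ψ (f : K ⧸ A)
      rw [hf, map_prod]
      refine (Fintype.prod_equiv (Equiv.mulLeft q) _ _ fun p => ?_).symm
      show ((φ q (φ p x) : K) : K ⧸ A) = ((φ (q * p) x : K) : K ⧸ A)
      rw [map_mul, MulAut.mul_apply]
    · rw [← QuotientGroup.eq_one_iff]
      simp only [QuotientGroup.mk_mul, QuotientGroup.mk_inv, QuotientGroup.mk_pow]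
      rw [show (r : K ⧸ A) = QuotientGroup.mk' A r from rfl, hr, hf]
      simp only [QuotientGroup.mk_mul, QuotientGroup.mk_inv, Finset.prod_mul_distrib, Finset.prod_inv_distrib,
        Finset.prod_const, Finset.card_univ]
      rw [mul_inv_rev, inv_inv, mul_assoc, mul_assoc, ← mul_assoc ((x : K ⧸ A) ^ Fintype.card Q)⁻¹]
      group
  have hAinv : ∀ q, (commutator K).map (φ q).toMonoidHom = commutator K := fun q =>
    Subgroup.characteristic_iff_map_eq.mp inferInstance (φ q)
  have hab : ∀ a b : K ⧸ commutator K, a * b = b * a := by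
    intro a b
    induction a using QuotientGroup.induction_on with | H x =>
    induction b using QuotientGroup.induction_on with | H y =>
    rw [← QuotientGroup.mk_mul, ← QuotientGroup.mk_mul, QuotientGroup.eq]
    have := Subgroup.commutator_mem_commutator (H₁ := (⊤ : Subgroup K)) (H₂ := ⊤)
      (Subgroup.mem_top y⁻¹) (Subgroup.mem_top x⁻¹)
    rw [← commutator_def] at this
    simpa [commutatorElement_def, mul_assoc] using this
  -- a fixed coset contains a fixed point
  have hlift : ∀ (A : Subgroup K) (f : K), IsMulCommutative A → (∀ q, ∀ a ∈ A, φ q a ∈ A) →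
      (∀ q, f⁻¹ * φ q f ∈ A) → f ∈ A := by
    intro A f hAc hAinv hf
    letI : CommGroup A := { (inferInstance : Group A) with mul_comm := hAc.1.1 }
    let ff : Q → A := fun q => ⟨f⁻¹ * φ q f, hf q⟩
    let ψ : Q → A →* A := fun q => MonoidHom.mk' (fun a => ⟨φ q a, hAinv q a a.2⟩)
      fun a b => Subtype.ext (map_mul _ _ _)
    have hff : ∀ p q, ff (p * q) = ff p * ψ p (ff q) := fun p q => Subtype.ext (by
      show f⁻¹ * φ (p * q) f = f⁻¹ * φ p f * φ p (f⁻¹ * φ q f)
      rw [map_mul φ, MulAut.mul_apply, map_mul (φ p), map_inv (φ p)]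
      group)
    have hcA : (Nat.card A).Coprime (Fintype.card Q) :=
      hcop.coprime_dvd_left (Subgroup.card_subgroup_dvd_card A)
    set P : A := ∏ q, ff q with hP
    obtain ⟨a, ha⟩ := (powCoprime hcA).surjective P
    rw [powCoprime_apply] at ha
    have hfa : ∀ p, ff p = a * (ψ p a)⁻¹ := by
      intro p
      refine (powCoprime hcA).injective ?_
      rw [powCoprime_apply, powCoprime_apply, mul_pow, inv_pow, ← map_pow, ha, eq_mul_inv_iff_mul_eq]
      have e : ∏ q, ff (p * q) = P := Fintype.prod_equiv (Equiv.mulLeft p) _ _ fun q => rfl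
      simp only [hff, Finset.prod_mul_distrib, Finset.prod_const, Finset.card_univ] at e
      rw [← map_prod] at e
      exact e
    have h1 : f * (a : K) = 1 := hfix _ fun q => by
      have h1 := congrArg Subtype.val (hfa q)
      simp only [ff, Subgroup.coe_mul, Subgroup.coe_inv] at h1
      have h2 : ((ψ q a : A) : K) = φ q a := rfl
      rw [h2] at h1
      rw [map_mul]
      calc φ q f * φ q a = f * (f⁻¹ * φ q f) * φ q a := by group
        _ = f * ((a : K) * (φ q a)⁻¹) * φ q a := by rw [h1]
        _ = _ := by group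
    rw [mul_eq_one_iff_eq_inv] at h1
    exact h1 ▸ A.inv_mem a.2
  have hcyc' : IsMulCommutative (commutator K) := ⟨⟨fun a b => IsCyclic.commGroup.mul_comm a b⟩⟩
  have hroot : ∀ (S : Subgroup K) (x : K), x ^ Fintype.card Q ∈ S → x ∈ S := by
    intro S x hx
    obtain ⟨j, hj⟩ := exists_pow_eq_self_of_coprime (n := Fintype.card Q) (x := x)
      (hcop.symm.coprime_dvd_right (orderOf_dvd_natCard x))
    rw [← hj]; exact S.pow_mem hx j
  have hsup : R ⊔ commutator K = ⊤ := by
    rw [eq_top_iff]
    intro x _
    obtain ⟨r, hr, f, hf, hrx⟩ := hpow (commutator K) hAinv hab x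
    have hfA := hlift (commutator K) f hcyc' (fun q a ha => hAinv q ▸ Subgroup.mem_map_of_mem _ ha) hf
    refine hroot _ x ?_
    have h := Subgroup.mul_mem _ (Subgroup.mul_mem _ ((le_sup_left : R ≤ R ⊔ commutator K) hr)
      ((le_sup_right : commutator K ≤ R ⊔ _) hrx)) ((le_sup_right : commutator K ≤ R ⊔ _) hfA)
    simpa [mul_assoc] using h
  haveI : Group.IsNilpotent K := by
    have hle : commutator K ≤ Subgroup.center K := by
      intro c hc
      rw [Subgroup.mem_center_iff]
      intro g
      have hg : g ∈ R ⊔ commutator K := hsup ▸ Subgroup.mem_top g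
      have h2 : R ⊔ commutator K ≤ Subgroup.centralizer (commutator K : Set K) := sup_le hcent
        fun a ha => Subgroup.mem_centralizer_iff.mpr fun b hb =>
          congrArg Subtype.val (hcyc'.1.1 ⟨b, hb⟩ ⟨a, ha⟩)
      exact (Subgroup.mem_centralizer_iff.mp (h2 hg) c hc).symm
    haveI : Group.IsNilpotent (K ⧸ Subgroup.center K) := by
      letI : CommGroup (K ⧸ Subgroup.center K) :=
        { (inferInstance : Group (K ⧸ Subgroup.center K)) with
          mul_comm := fun a b => by
            induction a using QuotientGroup.induction_on with | H x =>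
            induction b using QuotientGroup.induction_on with | H y =>
            rw [← QuotientGroup.mk_mul, ← QuotientGroup.mk_mul, QuotientGroup.eq]
            have := Subgroup.commutator_mem_commutator (H₁ := (⊤ : Subgroup K)) (H₂ := ⊤)
              (Subgroup.mem_top y⁻¹) (Subgroup.mem_top x⁻¹)
            rw [← commutator_def] at this
            exact hle (by simpa [commutatorElement_def, mul_assoc] using this) }
      infer_instance
    exact Group.of_quotient_center_nilpotent inferInstance
  haveI hK : IsCyclic K := inferInstance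
  refine ⟨hK, ?_⟩
  letI : CommGroup K := IsCyclic.commGroup
  rw [eq_top_iff]
  intro x _
  obtain ⟨r, hr, f, hf, hrx⟩ := hpow ⊥ (fun q => Subgroup.map_bot _)
    (fun a b => by
      induction a using QuotientGroup.induction_on with | H x =>
      induction b using QuotientGroup.induction_on with | H y =>
      rw [← QuotientGroup.mk_mul, ← QuotientGroup.mk_mul, mul_comm]) x
  have hf1 : f = 1 := hfix f fun q => by
    have := hf q
    rw [Subgroup.mem_bot, inv_mul_eq_one] at this
    exact this.symm
  rw [Subgroup.mem_bot, hf1, inv_one, mul_one, inv_mul_eq_one] at hrx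
  exact hroot R x (hrx ▸ hr)


/-- Let A be a finite group acting on the finite group G by automorphisms with the orders of A and G coprime, and suppose every Sylow subgroup of G is cyclic. Then the fixed-point subgroup C_G(A) is a Hall subgroup of G (its order is coprime to its index), the subgroup [G, A] generated by the elements g⁻¹·a(g) is cyclic and normal with [G, A] ∩ C_G(A) = 1 and [G, A]·C_G(A) = G. -/
theorem result {G A : Type*} [Group G] [Finite G] [Group A] [Finite A]
    [MulDistribMulAction A G] (hcop : (Nat.card A).Coprime (Nat.card G))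
    (hcyc : ∀ (p : ℕ) [Fact p.Prime] (P : Sylow p G), IsCyclic (P : Subgroup G)) :
    (Nat.card (MulAction.fixedPoints A G : Set G)).Coprime (Nat.card G / Nat.card (MulAction.fixedPoints A G : Set G)) ∧
    IsCyclic (Subgroup.closure {y : G | ∃ (a : A) (g : G), y = g⁻¹ * a • g}) ∧
    (Subgroup.closure {y : G | ∃ (a : A) (g : G), y = g⁻¹ * a • g}).Normal ∧
    (Subgroup.closure {y : G | ∃ (a : A) (g : G), y = g⁻¹ * a • g} : Set G) ∩ MulAction.fixedPoints A G = {1} ∧
    Subgroup.closure {y : G | ∃ (a : A) (g : G), y = g⁻¹ * a • g} ⊔ Subgroup.closure (MulAction.fixedPoints A G) = ⊤ := by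
  classical
  haveI : IsZGroup G := ⟨fun p hp P => by haveI := Fact.mk hp; exact hcyc p P⟩
  haveI := Fintype.ofFinite A
  have hc : (Nat.card G).Coprime (Fintype.card A) := by
    rw [← Nat.card_eq_fintype_card]; exact hcop.symm
  let φ : A →* MulAut G := MulDistribMulAction.toMulAut A G
  obtain ⟨D, K, hD, hKn, hKQ, hKD, hcard, hcopDK⟩ := Cfsg.Agent.S4151.zgroup_fixed_complement hc φ
  haveI := hKn
  have hfx : (MulAction.fixedPoints A G : Set G) = (D : Set G) := by
    ext x
    exact ⟨fun h => (hD x).mpr fun a => h a, fun h a => (hD x).mp h a⟩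
  have hDK : D ⊓ K = ⊥ := Subgroup.eq_bot_of_card_eq _ (Nat.eq_one_of_dvd_coprimes hcopDK
    (Subgroup.card_dvd_of_le inf_le_left) (Subgroup.card_dvd_of_le inf_le_right))
  let ψ : A →* MulAut K :=
    { toFun := fun a =>
        { toFun := fun y => ⟨φ a y, hKQ a y y.2⟩
          invFun := fun y => ⟨φ a⁻¹ y, hKQ a⁻¹ y y.2⟩
          left_inv := fun y => Subtype.ext (by
            show φ a⁻¹ (φ a y) = y
            rw [← MulAut.mul_apply, ← map_mul, inv_mul_cancel, map_one, MulAut.one_apply])
          right_inv := fun y => Subtype.ext (by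
            show φ a (φ a⁻¹ y) = y
            rw [← MulAut.mul_apply, ← map_mul, mul_inv_cancel, map_one, MulAut.one_apply])
          map_mul' := fun u v => Subtype.ext (map_mul _ _ _) }
      map_one' := by ext y; simp
      map_mul' := fun s t => by ext y; simp [mul_smul] }
  haveI : IsZGroup K := IsZGroup.of_injective (f := K.subtype) K.subtype_injective
  obtain ⟨hKc, hKR⟩ := cyclic_of_fixed_trivial
    (hc.coprime_dvd_left (Subgroup.card_subgroup_dvd_card K)) ψ fun x hx => by
      have : (x : G) ∈ D ⊓ K := ⟨(hD _).mpr fun a => congrArg Subtype.val (hx a), x.2⟩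
      rw [hDK, Subgroup.mem_bot] at this
      exact Subtype.ext this
  have hRK : Subgroup.closure {y : G | ∃ (a : A) (g : G), y = g⁻¹ * a • g} = K := by
    refine le_antisymm ((Subgroup.closure_le _).mpr ?_) ?_
    · rintro _ ⟨a, g, rfl⟩
      obtain ⟨k, hk, d, hd, rfl⟩ := Subgroup.mem_sup_of_normal_left.mp (hKD ▸ Subgroup.mem_top g)
      have e : (k * d)⁻¹ * a • (k * d) = d⁻¹ * (k⁻¹ * φ a k) * d := by
        show (k * d)⁻¹ * φ a (k * d) = _
        rw [map_mul, (hD d).mp hd a]
        group
      rw [e]
      simpa using hKn.conj_mem _ (K.mul_mem (K.inv_mem hk) (hKQ a k hk)) d⁻¹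
    · have h1 := congrArg (Subgroup.map K.subtype) hKR
      rw [← MonoidHom.range_eq_map, Subgroup.range_subtype, MonoidHom.map_closure] at h1
      rw [← h1, Subgroup.closure_le]
      rintro _ ⟨_, ⟨a, x, rfl⟩, rfl⟩
      exact Subgroup.subset_closure ⟨a, x, rfl⟩
  rw [hRK, hfx, Subgroup.closure_eq]
  refine ⟨?_, hKc, hKn, ?_, hKD⟩
  · show (Nat.card D).Coprime (Nat.card G / Nat.card D)
    rw [← hcard, Nat.mul_div_cancel_left _ Nat.card_pos]
    exact hcopDK
  · rw [← Subgroup.coe_inf, inf_comm, hDK, Subgroup.coe_bot]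

end Cfsg.Agent.S4117
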