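import Cfsg.Statements.S4118
import Cfsg.Agent.FGS3.TIHall
import Cfsg.Agent.FGS3.ComplementAut
import Cfsg.Agent.S3359
import Cfsg.Agent.FGS4.FrobeniusFPF
import Cfsg.Agent.Core.ThompsonFPF
-- import your own Cfsg.Agent.* helpers here

set_option autoImplicit false
open Cfsg

namespace Cfsg.Agent.S4118

open scoped commutatorElement
open Cfsg.Agent.FGS4.Zass in
theorem not_isSolvable_T5 : ¬ Group.IsSolvable T5 := by
  intro h
  let x1 : T5 := ⟨!![0, 2; 2, 0], by simp [Matrix.det_fin_two]; decide⟩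
  let y1 : T5 := ⟨!![0, 1; 4, 1], by simp [Matrix.det_fin_two]; decide⟩
  let x2 : T5 := ⟨!![0, 1; 4, 4], by simp [Matrix.det_fin_two]; decide⟩
  let y2 : T5 := ⟨!![0, 2; 2, 0], by simp [Matrix.det_fin_two]; decide⟩
  have e1 : x1 * y1 = A5 * (y1 * x1) := key_injective (by
    simp only [key_mul]; simp [key, x1, y1, A5, ofKey, kA, kmul]; decide)
  have e2 : x2 * y2 = B5 * (y2 * x2) := key_injective (by
    simp only [key_mul]; simp [key, x2, y2, B5, ofKey, kB, kmul]; decide)
  have h1 : A5 = ⁅x1, y1⁆ := by rw [commutatorElement_def, e1]; group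
  have h2 : B5 = ⁅x2, y2⁆ := by rw [commutatorElement_def, e2]; group
  haveI : Nontrivial T5 := (Finite.one_lt_card_iff_nontrivial).mp (by rw [card_T5]; norm_num)
  refine (Group.IsSolvable.commutator_lt_top_of_nontrivial T5).ne ?_
  rw [eq_top_iff, ← closure_AB, Subgroup.closure_le]
  rintro g (rfl | rfl)
  · rw [h1, commutator_def]
    exact Subgroup.commutator_mem_commutator (Subgroup.mem_top _) (Subgroup.mem_top _)
  · rw [h2, commutator_def]
    exact Subgroup.commutator_mem_commutator (Subgroup.mem_top _) (Subgroup.mem_top _)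

theorem isFC_of_struct {G : Type*} [Group G] [Finite G] {H O : Subgroup G} [O.Normal]
    (hne : H ≠ ⊥) (hOsol : Group.IsSolvable O) (hOc : (Nat.card O).Coprime (Nat.card H))
    (hfix : ∀ h ∈ H, h ≠ 1 → O ⊓ Subgroup.centralizer {h} ≤ Subgroup.normalizer (H : Set G))
    (hnot : ¬ O ≤ Subgroup.normalizer (H : Set G)) : Cfsg.Agent.FGS4.Zass.IsFC H := by
  classical
  set N := Subgroup.normalizer (H : Set G) with hN
  obtain ⟨n, hn⟩ := hOsol.solvable
  let Ds : ℕ → Subgroup G := fun j => (derivedSeries O j).map O.subtype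
  have hex : ∃ j, Ds j ≤ N := ⟨n, by simp [Ds, hn]⟩
  obtain ⟨i, hi, hi'⟩ : ∃ i, ¬ Ds i ≤ N ∧ Ds (i + 1) ≤ N := by
    have h0 : Nat.find hex ≠ 0 := fun e => by
      have := Nat.find_spec hex
      rw [e] at this
      exact hnot (by simpa [Ds, derivedSeries_zero, ← MonoidHom.range_eq_map] using this)
    exact ⟨Nat.find hex - 1, Nat.find_min hex (by omega),
      by rw [Nat.sub_add_cancel (Nat.one_le_iff_ne_zero.mpr h0)]; exact Nat.find_spec hex⟩
  set D := Ds i with hD
  haveI hDn : D.Normal := by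
    haveI : (derivedSeries O i).Characteristic := inferInstance
    rw [hD]; infer_instance
  have hDO : D ≤ O := Subgroup.map_subtype_le _
  have hsucc : ⁅D, D⁆ ≤ N := by
    refine le_trans ?_ hi'
    rw [hD]
    simp only [Ds, derivedSeries_succ, Subgroup.map_commutator]
    exact le_rfl
  set W : Subgroup D := N.subgroupOf D with hW
  haveI hWn : W.Normal := by
    refine ⟨fun w hw g => ?_⟩
    have h1 : (g : G) * w * (g : G)⁻¹ * (w : G)⁻¹ ∈ N :=
      hsucc (Subgroup.commutator_mem_commutator g.2 w.2)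
    have := N.mul_mem h1 hw
    simpa [hW, Subgroup.mem_subgroupOf] using this
  haveI : Nontrivial (D ⧸ W) := by
    rw [← Finite.one_lt_card_iff_nontrivial, ← Subgroup.index_eq_card]
    refine Subgroup.one_lt_index_of_ne_top fun e => hi ?_
    intro x hx
    have := Subgroup.mem_top (⟨x, hx⟩ : D)
    rw [← e] at this
    exact this
  haveI : Nontrivial H := (Subgroup.nontrivial_iff_ne_bot H).mpr hne
  have hmapW : ∀ h : H, W.map (MulAut.conjNormal (h : G) : MulAut D).toMonoidHom = W := by
    intro h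
    refine Cfsg.Agent.Core.ThompsonFPF.map_eq_of_le ?_
    rintro _ ⟨w, hw, rfl⟩
    show ((MulAut.conjNormal (h : G) : MulAut D) w : G) ∈ N
    rw [MulAut.conjNormal_apply]
    exact N.mul_mem (N.mul_mem (Subgroup.le_normalizer h.2) hw) (N.inv_mem (Subgroup.le_normalizer h.2))
  let φ : H →* MulAut (D ⧸ W) :=
    { toFun := fun h => QuotientGroup.congr W W (MulAut.conjNormal (h : G)) (hmapW h)
      map_one' := by
        refine MulEquiv.ext fun b => ?_
        induction b using QuotientGroup.induction_on with | H x =>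
        show (((MulAut.conjNormal ((1 : H) : G) : MulAut D) x : D) : D ⧸ W) = x
        rw [OneMemClass.coe_one, map_one, MulAut.one_apply]
      map_mul' := fun s t => by
        refine MulEquiv.ext fun b => ?_
        induction b using QuotientGroup.induction_on with | H x =>
        show (((MulAut.conjNormal ((s * t : H) : G) : MulAut D) x : D) : D ⧸ W) =
          (((MulAut.conjNormal (s : G) : MulAut D) ((MulAut.conjNormal (t : G) : MulAut D) x) : D) : D ⧸ W)
        rw [Subgroup.coe_mul, map_mul, MulAut.mul_apply] }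
  refine Cfsg.Agent.FGS4.exists_complement_of_fpf φ fun h hh v hv => ?_
  induction v using QuotientGroup.induction_on with | H x =>
  rw [QuotientGroup.eq_one_iff]
  show (x : G) ∈ N
  set A := Subgroup.zpowers (h : G) with hA
  haveI : Group.IsSolvable A := Group.isSolvable_of_comm fun a b => mul_comm' a b
  have hAH : A ≤ H := Subgroup.zpowers_le.mpr h.2
  let e : MulAut (D ⧸ W) := φ h
  have hfixA : ∀ a ∈ A, ⁅(x : G), a⁆ ∈ D ⊓ N := by
    intro a ha
    obtain ⟨k, rfl⟩ := Subgroup.mem_zpowers_iff.mp ha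
    have hk : φ (h ^ k) (x : D ⧸ W) = (x : D ⧸ W) := by
      have : φ h ∈ MulAction.stabilizer (MulAut (D ⧸ W)) (x : D ⧸ W) := hv
      have := Subgroup.zpow_mem _ this k
      rw [map_zpow]
      exact this
    have h1 := QuotientGroup.eq.mp (show (((MulAut.conjNormal ((h ^ k : H) : G) : MulAut D) x : D) : D ⧸ W)
      = (x : D ⧸ W) from hk)
    have h1N : ((h : G) ^ k * x * ((h : G) ^ k)⁻¹)⁻¹ * x ∈ N := by
      have h1' : ((((MulAut.conjNormal ((h ^ k : H) : G) : MulAut D) x : D) : G))⁻¹ * x ∈ N := h1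
      rwa [MulAut.conjNormal_apply, Subgroup.coe_zpow] at h1'
    refine ⟨?_, ?_⟩
    · rw [commutatorElement_def]
      have := D.mul_mem x.2 (hDn.conj_mem _ (D.inv_mem x.2) ((h : G) ^ k))
      simpa [mul_assoc] using this
    · have hkN : (h : G) ^ k ∈ N := Subgroup.le_normalizer (hAH ha)
      rw [commutatorElement_def]
      have hxy : (x : G) * ((h : G) ^ k * x * ((h : G) ^ k)⁻¹)⁻¹ ∈ N := by
        have h2 := hWn.conj_mem _ h1 x
        have h3 : (x : G) * ((((MulAut.conjNormal ((h ^ k : H) : G) : MulAut D) x : D) : G)⁻¹ * x) * (x : G)⁻¹ ∈ N := h2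
        rw [MulAut.conjNormal_apply, Subgroup.coe_zpow] at h3
        simpa [mul_assoc] using h3
      have e : (x : G) * (h : G) ^ k * (x : G)⁻¹ * ((h : G) ^ k)⁻¹ =
          (x : G) * ((h : G) ^ k * x * ((h : G) ^ k)⁻¹)⁻¹ := by group
      rw [e]
      exact hxy
  obtain ⟨m, hm, c, hc, hxe⟩ := Cfsg.Agent.Coprime.exists_mul_centralizer (N := D) (M := D ⊓ N) (A := A)
    (le_top.trans (Subgroup.normalizer_eq_top D).ge)
    ((hOc.symm.coprime_dvd_left (Subgroup.card_dvd_of_le hAH)).coprime_dvd_right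
      (Subgroup.card_dvd_of_le hDO))
    inf_le_left
    ((le_inf (le_top.trans (Subgroup.normalizer_eq_top D).ge)
      ((hAH.trans Subgroup.le_normalizer).trans Subgroup.le_normalizer)).trans
        Subgroup.inf_normalizer_le_normalizer_inf)
    x.2 hfixA
  rw [hxe]
  refine N.mul_mem hm.2 (hfix h h.2 (fun e => hh (Subtype.ext e)) ⟨hDO hc.1, ?_⟩)
  exact Subgroup.mem_centralizer_singleton_iff.mpr
    (Subgroup.mem_centralizer_iff.mp hc.2 h (Subgroup.mem_zpowers _)).symm


/-- Let G be a finite group and H a non-normal subgroup meeting each of its conjugates by elements outside N_G(H) trivially, with the order of H coprime to its index in N_G(H); let π be the set of primes dividing the order of H and suppose G is π-separable (it has a chain of normal subgroups from 1 to G each of whose factors has order divisible only by primes in π or coprime to the order of H). Let O be the largest normal subgroup of G of order coprime to the order of H. Then G = O·N_G(H), O·H is normal in G, and G is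 solvable if and only if O is solvable and H has no subgroup isomorphic to SL₂(5). -/
theorem result {G : Type*} [Group G] [Finite G] (H : Subgroup G)
    (hTI : Cfsg.IsTISubset (H : Set G)) (hnn : ¬ H.Normal)
    (hHall : (Nat.card H).Coprime (H.subgroupOf (Subgroup.normalizer (H : Set G))).index)
    (hsep : ∃ (n : ℕ) (M : Fin (n + 1) → Subgroup G), M 0 = ⊥ ∧ M (Fin.last n) = ⊤ ∧ Monotone M ∧ (∀ i, (M i).Normal) ∧
      ∀ i : Fin n, (∀ q : ℕ, q.Prime → q ∣ (M i.castSucc).relIndex (M i.succ) → q ∣ Nat.card H) ∨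
        ((M i.castSucc).relIndex (M i.succ)).Coprime (Nat.card H))
    (O : Subgroup G) (hO : O = sSup {K : Subgroup G | K.Normal ∧ (Nat.card K).Coprime (Nat.card H)}) :
    O ⊔ Subgroup.normalizer (H : Set G) = ⊤ ∧ (O ⊔ H).Normal ∧
    (Group.IsSolvable G ↔ Group.IsSolvable O ∧
      ∀ K : Subgroup G, K ≤ H → ¬ Nonempty (K ≃* Matrix.SpecialLinearGroup (Fin 2) (ZMod 5))) := by
  classical
  obtain ⟨hsup, hOHn, -, hfix, hnot⟩ := Cfsg.Agent.FGS3.TIHall.struct hTI hnn hHall hsep hO
  refine ⟨hsup, hOHn, fun hsol => ⟨inferInstance, fun K hK ⟨e⟩ => ?_⟩, fun ⟨hOsol, hno⟩ => ?_⟩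
  · haveI := hsol
    exact not_isSolvable_T5
      (Group.isSolvable_of_surjective (f := e.toMonoidHom) e.surjective)
  obtain ⟨hOn, hOc⟩ := Cfsg.Agent.FGS3.TIHall.coprime_sSup hO
  haveI := hOn
  haveI := hOHn
  set N := Subgroup.normalizer (H : Set G) with hN
  have hHN : H ≤ N := Subgroup.le_normalizer
  have hne : H ≠ ⊥ := fun e => hnn (e ▸ inferInstance)
  have hFC := isFC_of_struct hne hOsol hOc hfix hnot
  haveI hHsol : Group.IsSolvable H := by
    by_contra hns
    obtain ⟨G₀, -, -, S, M, -, -, -, ⟨e⟩, -, -⟩ := Cfsg.Agent.S3359.result hns hFC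
    exact hno (S.map H.subtype) (Subgroup.map_subtype_le S)
      ⟨(S.equivMapOfInjective _ H.subtype_injective).symm.trans e⟩
  haveI hOHsol : Group.IsSolvable (O ⊔ H : Subgroup G) := by
    haveI := hOsol
    let f : H →* (O ⊔ H : Subgroup G) ⧸ O.subgroupOf (O ⊔ H) :=
      (QuotientGroup.mk' _).comp (Subgroup.inclusion le_sup_right)
    have hf : Function.Surjective f := by
      intro b
      induction b using QuotientGroup.induction_on with | H x =>
      obtain ⟨o, ho, h, hh, hx⟩ := Subgroup.mem_sup_of_normal_left.mp x.2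
      refine ⟨⟨h, hh⟩, QuotientGroup.eq.mpr ?_⟩
      show h⁻¹ * (x : G) ∈ O
      rw [← hx]
      simpa [mul_assoc] using hOn.conj_mem o ho h⁻¹
    haveI : Group.IsSolvable ((O ⊔ H : Subgroup G) ⧸ O.subgroupOf (O ⊔ H)) :=
      Group.isSolvable_of_surjective hf
    haveI : Group.IsSolvable (O.subgroupOf (O ⊔ H)) :=
      Group.isSolvable_of_surjective (f := (Subgroup.subgroupOfEquivOfLe (le_sup_left : O ≤ O ⊔ H)).symm.toMonoidHom)
        (Subgroup.subgroupOfEquivOfLe (le_sup_left : O ≤ O ⊔ H)).symm.surjective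
    exact (Group.isSolvable_iff_subgroup_quotient (O.subgroupOf (O ⊔ H))).mpr ⟨inferInstance, inferInstance⟩
  haveI : (H.subgroupOf N).Normal := Subgroup.normal_in_normalizer
  obtain ⟨Q₀, hQ₀⟩ := Subgroup.exists_right_complement'_of_coprime (N := H.subgroupOf N)
    (by rw [Nat.card_congr (Subgroup.subgroupOfEquivOfLe hHN).toEquiv]; exact hHall)
  set Q := Q₀.map N.subtype with hQd
  have hQN : Q ≤ N := Subgroup.map_subtype_le _
  have hHQ : H ⊔ Q = N := by
    have h1 := congrArg (Subgroup.map N.subtype) hQ₀.sup_eq_top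
    rwa [Subgroup.map_sup, Subgroup.map_subgroupOf_eq_of_le hHN, ← MonoidHom.range_eq_map,
      Subgroup.range_subtype] at h1
  have hQc : (Nat.card H).Coprime (Nat.card Q) := by
    rw [hQd, Subgroup.card_map_of_injective N.subtype_injective, ← hQ₀.symm.index_eq_card]
    exact hHall
  obtain ⟨m, hm, ⟨F⟩⟩ := Cfsg.Agent.FGS4.Zass.exists_fpfRep hFC
  haveI : Nonempty (Fin m) := ⟨⟨0, hm⟩⟩
  set CQ := Q ⊓ Subgroup.centralizer (H : Set G) with hCQ
  have hcomm : ∀ q ∈ commutator Q, (q : G) ∈ CQ := by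
    intro q hq
    refine ⟨q.2, Subgroup.mem_centralizer_iff.mpr fun h hh => ?_⟩
    have h1 := Cfsg.Agent.FGS3.ComplementAut.eq_one_of_mem_commutator F hQc
      ((H.normalizerMonoidHom).comp (Subgroup.inclusion hQN)) hq
    have h2 := congrArg Subtype.val (DFunLike.congr_fun h1 ⟨h, hh⟩)
    exact (mul_inv_eq_iff_eq_mul.mp h2).symm
  have hCQO : CQ ≤ O := by
    have hn1 : N ≤ Subgroup.normalizer (CQ : Set G) := by
      rw [← hHQ]
      refine sup_le (fun h hh => ?_) (fun q hq => ?_)
      · refine Cfsg.Agent.Coprime.mem_normalizer_of_conj_mem fun c hc => ?_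
        rw [show h * c = c * h from Subgroup.mem_centralizer_iff.mp hc.2 h hh, mul_inv_cancel_right]
        exact hc
      · refine Cfsg.Agent.Coprime.mem_normalizer_of_conj_mem fun c hc => ?_
        refine ⟨Q.mul_mem (Q.mul_mem hq hc.1) (Q.inv_mem hq), Subgroup.mem_centralizer_iff.mpr fun h hh => ?_⟩
        have hh' : q⁻¹ * h * q ∈ H := by
          simpa using (Subgroup.mem_normalizer_iff.mp (N.inv_mem (hQN hq)) h).mp hh
        have := Subgroup.mem_centralizer_iff.mp hc.2 _ hh'
        calc h * (q * c * q⁻¹) = q * ((q⁻¹ * h * q) * c) * q⁻¹ := by group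
          _ = _ := by rw [this]; group
    have hn : (O ⊔ CQ).Normal := by
      rw [← Subgroup.normalizer_eq_top_iff, eq_top_iff, ← hsup]
      refine sup_le (le_sup_left.trans Subgroup.le_normalizer) ?_
      exact (le_inf (le_top.trans (Subgroup.normalizer_eq_top O).ge) hn1).trans
        (Subgroup.normalizer_inf_normalizer_le_normalizer_sup _ _)
    refine le_trans (le_sup_right : CQ ≤ O ⊔ CQ) ?_
    conv_rhs => rw [hO]
    exact le_sSup ⟨hn, Nat.Coprime.coprime_dvd_left (Cfsg.Agent.FGS3.TIHall.card_sup_dvd_mul O CQ)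
      (hOc.mul_left (hQc.symm.coprime_dvd_left (Subgroup.card_dvd_of_le inf_le_left)))⟩
  let f : Q →* G ⧸ (O ⊔ H) := (QuotientGroup.mk' _).comp Q.subtype
  have hf : Function.Surjective f := by
    intro b
    induction b using QuotientGroup.induction_on with | H x =>
    have hx : x ∈ O ⊔ (H ⊔ Q) := by rw [hHQ, hsup]; trivial
    rw [← sup_assoc] at hx
    obtain ⟨o, ho, q, hq, rfl⟩ := Subgroup.mem_sup_of_normal_left.mp hx
    refine ⟨⟨q, hq⟩, QuotientGroup.eq.mpr ?_⟩
    simpa [mul_assoc] using hOHn.conj_mem o ho q⁻¹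
  haveI : Group.IsSolvable (G ⧸ (O ⊔ H)) := by
    letI : CommGroup (G ⧸ (O ⊔ H)) := { (inferInstance : Group (G ⧸ (O ⊔ H))) with
      mul_comm := fun a b => by
        obtain ⟨a, rfl⟩ := hf a
        obtain ⟨b, rfl⟩ := hf b
        have hab : ⁅a, b⁆ ∈ commutator Q := by
          rw [commutator_def]
          exact Subgroup.commutator_mem_commutator (Subgroup.mem_top _) (Subgroup.mem_top _)
        have h1 : f ⁅a, b⁆ = 1 :=
          (QuotientGroup.eq_one_iff _).mpr ((le_sup_left : O ≤ O ⊔ H) (hCQO (hcomm _ hab)))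
        rw [map_commutatorElement] at h1
        exact commutatorElement_eq_one_iff_mul_comm.mp h1 }
    exact Group.isSolvable_of_comm mul_comm
  exact (Group.isSolvable_iff_subgroup_quotient (O ⊔ H)).mpr ⟨hOHsol, inferInstance⟩

end Cfsg.Agent.S4118
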