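import Cfsg.Statements.S4126
import Cfsg.Agent.FGS3.FixOrderFour
import Cfsg.Agent.Transfer.Complement
-- import your own Cfsg.Agent.* helpers here

set_option autoImplicit false
open Cfsg

namespace Cfsg.Agent.S4126


open Subgroup in
open scoped commutatorElement in
private theorem commute_of_class {G : Type*} [Group G] [Finite G] {p : ℕ} [hp : Fact p.Prime]
    (h : ∀ x : G, (orderOf x = p ∨ (p = 2 ∧ orderOf x = 4)) →
      ∃ a : ℕ, (centralizer ({x} : Set G)).index = p ^ a) :
    ∀ (n : ℕ) (x : G), Nat.card (normalClosure ({x} : Set G)) ≤ n →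
      (orderOf x = p ∨ (p = 2 ∧ orderOf x = 4)) → ∀ g : G, (orderOf g).Coprime p →
      g * x * g⁻¹ = x := by
  intro n
  induction n with
  | zero => intro x hn; exact absurd (Nat.le_zero.1 hn) Nat.card_pos.ne'
  | succ n ih =>
    intro x hn hx g hg
    obtain ⟨e, he⟩ : ∃ e, orderOf x = p ^ e := by
      rcases hx with hx | ⟨rfl, hx⟩
      · exact ⟨1, by rw [hx, pow_one]⟩
      · exact ⟨2, hx⟩
    obtain ⟨P, hP⟩ := IsPGroup.exists_le_sylow (p := p) (P := zpowers x)
      (IsPGroup.of_card (n := e) (by rw [Nat.card_zpowers, he]))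
    have hxP : x ∈ (P : Subgroup G) := hP (mem_zpowers x)
    set C := centralizer ({x} : Set G)
    obtain ⟨a, ha⟩ := h x hx
    -- G = P C(x)
    have hdec : ∀ t : G, ∃ u ∈ (P : Subgroup G), ∃ c ∈ C, u * c = t := by
      have hidx : C.relIndex (P : Subgroup G) = C.index := by
        have e1 := relIndex_mul_index (inf_le_left : C ⊓ (P : Subgroup G) ≤ C)
        have e2 := relIndex_mul_index (inf_le_right : C ⊓ (P : Subgroup G) ≤ P)
        rw [inf_relIndex_left] at e1
        rw [inf_relIndex_right] at e2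
        have h1 : C.index ∣ C.relIndex (P : Subgroup G) * (P : Subgroup G).index :=
          ⟨_, (e2.trans e1.symm).trans (mul_comm _ _)⟩
        have h2 : C.index ∣ C.relIndex (P : Subgroup G) := by
          refine Nat.Coprime.dvd_of_dvd_mul_right ?_ h1
          rw [ha]
          exact ((hp.out.coprime_iff_not_dvd).2 P.not_dvd_index).pow_left a
        have h3 : C.relIndex (P : Subgroup G) ≤ C.index := by
          rw [← relIndex_top_right (H := C)]
          exact relIndex_le_of_le_right le_top
            (by rw [relIndex_top_right]; exact index_ne_zero_of_finite)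
        have h4 : 0 < C.relIndex (P : Subgroup G) := Nat.pos_of_ne_zero fun h0 => by
          rw [h0, zero_mul] at e2
          exact Subgroup.index_ne_zero_of_finite e2.symm
        exact le_antisymm h3 (Nat.le_of_dvd h4 h2)
      intro t
      let f : (P : Subgroup G) ⧸ C.subgroupOf P → G ⧸ C :=
        Quotient.map' (fun u => (u : G)) fun u v huv => by
          rw [QuotientGroup.leftRel_apply] at huv ⊢
          exact mem_subgroupOf.1 huv
      have hf : Function.Injective f := by
        rintro ⟨u⟩ ⟨v⟩ huv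
        have h1 := QuotientGroup.eq.1 (show ((u : G) : G ⧸ C) = ((v : G) : G ⧸ C) from huv)
        exact QuotientGroup.eq.2 (mem_subgroupOf.2 h1)
      have hb : Function.Bijective f := (Nat.bijective_iff_injective_and_card _).2 ⟨hf, by
        rw [← index_eq_card, ← index_eq_card]; exact hidx⟩
      obtain ⟨⟨u⟩, hu⟩ := hb.2 (t : G ⧸ C)
      exact ⟨u, u.2, (u : G)⁻¹ * t, QuotientGroup.eq.1 (show ((u : G) : G ⧸ C) = t from hu),
        mul_inv_cancel_left _ _⟩
    set N := normalClosure ({x} : Set G)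
    haveI hNn : N.Normal := normalClosure_normal
    have hxN : x ∈ N := subset_normalClosure rfl
    set D := ⁅N, (P : Subgroup G)⁆
    have hconj : ∀ t : G, t * x * t⁻¹ ∈ (P : Subgroup G) ∧ t * x * t⁻¹ * x⁻¹ ∈ D := by
      intro t
      obtain ⟨u, hu, c, hc, rfl⟩ := hdec t
      have hcx := mem_centralizer_singleton_iff.1 hc
      rw [show u * c * x * (u * c)⁻¹ = u * (c * x * c⁻¹) * u⁻¹ by group, hcx, mul_inv_cancel_right]
      refine ⟨mul_mem (mul_mem hu hxP) (inv_mem hu), ?_⟩
      rw [show u * x * u⁻¹ * x⁻¹ = ⁅x, u⁆⁻¹ by rw [commutatorElement_def]; group]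
      exact inv_mem (commutator_mem_commutator hxN hu)
    have hNP : N ≤ P := (closure_le _).2 fun w hw => by
      rw [Group.mem_conjugatesOfSet_iff] at hw
      obtain ⟨s, hs, hc⟩ := hw
      rw [Set.mem_singleton_iff] at hs
      obtain ⟨t, rfl⟩ := isConj_iff.1 hc
      rw [hs]
      exact (hconj t).1
    have hDP : D ≤ P := (Subgroup.commutator_mono hNP le_rfl).trans (Subgroup.commutator_le_self _)
    have hDn : ∀ u ∈ (P : Subgroup G), ∀ d ∈ D, u * d * u⁻¹ ∈ D := fun u hu d hd => by
      have hn1 : ((P : Subgroup G)) ≤ normalizer (D : Set G) := normalizer_commutator_ge_right _ _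
      exact (mem_normalizer_iff.1 (hn1 hu) d).1 hd
    have hlt : ⁅N, (⊤ : Subgroup G)⁆ < N := by
      refine lt_of_le_of_ne (commutator_le_left _ _) fun e1 => ?_
      have hle : ⁅N, (⊤ : Subgroup G)⁆ ≤ D := by
        rw [commutator_le]
        intro w hw t _
        have key : w ∈ (P : Subgroup G) ∧ t * w * t⁻¹ * w⁻¹ ∈ D := by
          induction hw using closure_induction with
          | mem y hy =>
            rw [Group.mem_conjugatesOfSet_iff] at hy
            obtain ⟨s, hs, hc⟩ := hy
            rw [Set.mem_singleton_iff] at hs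
            obtain ⟨r, rfl⟩ := isConj_iff.1 hc
            rw [hs]
            refine ⟨(hconj r).1, ?_⟩
            rw [show t * (r * x * r⁻¹) * t⁻¹ * (r * x * r⁻¹)⁻¹ =
              (t * r * x * (t * r)⁻¹ * x⁻¹) * (r * x * r⁻¹ * x⁻¹)⁻¹ by group]
            exact mul_mem (hconj _).2 (inv_mem (hconj r).2)
          | one => simp
          | mul u v _ _ hu hv =>
            refine ⟨mul_mem hu.1 hv.1, ?_⟩
            rw [show t * (u * v) * t⁻¹ * (u * v)⁻¹ =
              (t * u * t⁻¹ * u⁻¹) * (u * (t * v * t⁻¹ * v⁻¹) * u⁻¹) by group]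
            exact mul_mem hu.2 (hDn u hu.1 _ hv.2)
          | inv u _ hu =>
            refine ⟨inv_mem hu.1, ?_⟩
            rw [show t * u⁻¹ * t⁻¹ * u⁻¹⁻¹ = u⁻¹ * (t * u * t⁻¹ * u⁻¹)⁻¹ * u⁻¹⁻¹ by group]
            exact hDn _ (inv_mem hu.1) _ (inv_mem hu.2)
        rw [show ⁅w, t⁆ = (t * w * t⁻¹ * w⁻¹)⁻¹ by rw [commutatorElement_def]; group]
        exact inv_mem key.2
      haveI : Group.IsNilpotent (P : Subgroup G) := P.2.isNilpotent
      have hbot := Cfsg.Agent.Transfer.eq_bot_of_le_commutator hNP (e1.ge.trans hle)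
      rw [hbot, mem_bot] at hxN
      rw [hxN, orderOf_one] at hx
      rcases hx with hx | ⟨-, hx⟩
      · exact hp.out.ne_one hx.symm
      · exact absurd hx (by norm_num)
    haveI hN1n : (⁅N, (⊤ : Subgroup G)⁆).Normal := commutator_normal _ _
    have hfix : ∀ z ∈ ⁅N, (⊤ : Subgroup G)⁆, g * z * g⁻¹ = z := by
      refine Cfsg.Agent.FGS3.fixed_of_fixed_order_p_four g hg _ _ le_rfl
        (P.2.to_le (hlt.le.trans hNP)) (fun z hz => hN1n.conj_mem z hz g) fun z hz hzp => ?_
      by_cases hord : orderOf z = p ∨ (p = 2 ∧ orderOf z = 4)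
      · refine ih z ?_ hord g hg
        have h1 : normalClosure ({z} : Set G) ≤ ⁅N, (⊤ : Subgroup G)⁆ :=
          normalClosure_le_normal (Set.singleton_subset_iff.2 hz)
        have h2 : Nat.card ↥⁅N, (⊤ : Subgroup G)⁆ < Nat.card N :=
          Set.ncard_lt_ncard (SetLike.coe_ssubset_coe.2 hlt) (Set.toFinite _)
        have h3 := Subgroup.card_le_of_le h1
        omega
      · have hz1 : z = 1 := by
          by_contra hne
          apply hord
          rcases hzp with hzp | ⟨rfl, hz4⟩
          · exact Or.inl (orderOf_eq_prime hzp hne)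
          · by_cases h2 : z ^ 2 = 1
            · exact Or.inl (orderOf_eq_prime h2 hne)
            · exact Or.inr ⟨rfl, orderOf_eq_prime_pow (p := 2) (n := 1) (by simpa using h2) hz4⟩
        rw [hz1]; group
    have hd : x⁻¹ * (g * x * g⁻¹) ∈ ⁅N, (⊤ : Subgroup G)⁆ := by
      rw [show x⁻¹ * (g * x * g⁻¹) = ⁅x⁻¹, g⁆ by rw [commutatorElement_def]; group]
      exact commutator_mem_commutator (inv_mem hxN) (mem_top g)
    have h1 := Cfsg.Agent.OddLocal.eq_one_of_conj_eq_mul (a := g) (n := x)
      (d := x⁻¹ * (g * x * g⁻¹)) (by group) (hfix _ hd) (by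
        obtain ⟨k, hk⟩ := IsPGroup.iff_orderOf.1 P.2 ⟨_, hNP (hlt.le hd)⟩
        rw [orderOf_mk] at hk
        rw [hk]
        exact hg.pow_right k)
    exact (inv_mul_eq_one.1 h1).symm

/-- Let G be a finite group and p a prime. Suppose every element of order p, and when p = 2 also every element of order 4, has a conjugacy class of p-power size. Then G has a normal p-complement. -/
theorem result {G : Type*} [Group G] [Finite G] (p : ℕ) [Fact p.Prime]
    (h : ∀ x : G, (orderOf x = p ∨ (p = 2 ∧ orderOf x = 4)) → ∃ a : ℕ, (Subgroup.centralizer ({x} : Set G)).index = p ^ a) :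
    Cfsg.HasNormalPComplement p G := by
  classical
  obtain ⟨P⟩ : Nonempty (Sylow p G) := inferInstance
  refine Cfsg.Agent.Transfer.hasNormalPComplement_of_frobenius P fun Q hQ _ g hgN hg => ?_
  have hfix := Cfsg.Agent.FGS3.fixed_of_fixed_order_p_four g hg _ Q le_rfl (P.2.to_le hQ)
    (fun z hz => (Subgroup.mem_normalizer_iff.1 hgN z).1 hz) fun z hz hzp => by
      by_cases hz1 : z = 1
      · rw [hz1]; group
      refine commute_of_class h _ z le_rfl ?_ g hg
      rcases hzp with hzp | ⟨rfl, hz4⟩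
      · exact Or.inl (orderOf_eq_prime hzp hz1)
      · by_cases h2 : z ^ 2 = 1
        · exact Or.inl (orderOf_eq_prime h2 hz1)
        · exact Or.inr ⟨rfl, orderOf_eq_prime_pow (p := 2) (n := 1) (by simpa using h2) hz4⟩
  exact Subgroup.mem_centralizer_iff.2 fun z hz => (mul_inv_eq_iff_eq_mul.1 (hfix z hz)).symm

end Cfsg.Agent.S4126
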