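import Cfsg.Statements.S4127
import Cfsg.Agent.FGS2.Basic
import Cfsg.Agent.Transfer.Basic
import Cfsg.Agent.Coprime.PxQ
import Cfsg.Agent.OddChar.Elem
-- import your own Cfsg.Agent.* helpers here

set_option autoImplicit false
open Cfsg

namespace Cfsg.Agent.S4127


open Subgroup in
/-- If the centralizer of every p'-element has index prime to p, the group is P × K. -/
private theorem split_of_class {H : Type*} [Group H] [Finite H] {p : ℕ} [hp : Fact p.Prime]
    (h : ∀ y : H, (orderOf y).Coprime p → ¬ p ∣ (centralizer ({y} : Set H)).index) (P : Sylow p H) :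
    (P : Subgroup H).Normal ∧ ∃ K : Subgroup H, K.Normal ∧ K.IsComplement' (P : Subgroup H) ∧
      K ≤ centralizer (P : Set H) := by
  set C := centralizer (P : Set H)
  have hgen : ∀ g : H, ∃ x : H, x⁻¹ * g * x ∈ (P : Subgroup H) ⊔ C := by
    intro g
    set b := (orderOf g).factorization p
    set m := orderOf g / p ^ b
    have hn : orderOf g ≠ 0 := (orderOf_pos g).ne'
    have hbm : p ^ b * m = orderOf g := Nat.ordProj_mul_ordCompl_eq_self _ p
    have hcop : Nat.Coprime (p ^ b) m := (Nat.coprime_ordCompl hp.out hn).pow_left b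
    set y := g ^ p ^ b
    have hy : (orderOf y).Coprime p := by
      show (orderOf (g ^ p ^ b)).Coprime p
      rw [orderOf_pow, Nat.gcd_eq_right ⟨m, hbm.symm⟩, ← hbm,
        Nat.mul_div_cancel_left _ (pow_pos hp.out.pos b)]
      exact (Nat.coprime_ordCompl hp.out hn).symm
    set z := g ^ m
    have hzC : z ∈ centralizer ({y} : Set H) := mem_centralizer_singleton_iff.2
      ((Commute.refl g).pow_pow m (p ^ b)).eq
    have hz : IsPGroup p (zpowers (⟨z, hzC⟩ : centralizer ({y} : Set H))) := by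
      have h1 : (⟨z, hzC⟩ : centralizer ({y} : Set H)) ^ p ^ b = 1 := Subtype.ext (by
        show (g ^ m) ^ p ^ b = 1
        rw [← pow_mul, mul_comm, hbm, pow_orderOf_eq_one])
      obtain ⟨i, -, hi⟩ := (Nat.dvd_prime_pow hp.out).1 (orderOf_dvd_of_pow_eq_one h1)
      exact IsPGroup.of_card (n := i) (by rw [Nat.card_zpowers, hi])
    obtain ⟨T, hT⟩ := hz.exists_le_sylow
    set T' := (T : Subgroup (centralizer ({y} : Set H))).map (centralizer ({y} : Set H)).subtype
    have hTi : ¬ p ∣ T'.index := by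
      rw [Subgroup.index_map_subtype]
      exact fun hd => (hp.out.dvd_mul.1 hd).elim T.not_dvd_index (h y hy)
    let S : Sylow p H := IsPGroup.toSylow (P := T') (T.2.map _) hTi
    obtain ⟨x, hx⟩ := MulAction.exists_smul_eq H S P
    have hP : (P : Subgroup H) = T'.map (MulAut.conj x).toMonoidHom := by rw [← hx]; rfl
    refine ⟨x⁻¹, ?_⟩
    rw [inv_inv]
    have hxz : x * z * x⁻¹ ∈ (P : Subgroup H) := by
      rw [hP]; exact mem_map_of_mem _ (mem_map_of_mem _ (hT (mem_zpowers _)))
    have hxy : x * y * x⁻¹ ∈ C := by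
      refine mem_centralizer_iff.2 fun u hu => ?_
      change u ∈ (P : Subgroup H) at hu
      rw [hP] at hu
      obtain ⟨_, ⟨w, -, rfl⟩, rfl⟩ := hu
      have hw := mem_centralizer_singleton_iff.1 w.2
      show x * (w : H) * x⁻¹ * (x * y * x⁻¹) = x * y * x⁻¹ * (x * (w : H) * x⁻¹)
      calc x * (w : H) * x⁻¹ * (x * y * x⁻¹) = x * ((w : H) * y) * x⁻¹ := by group
        _ = x * (y * (w : H)) * x⁻¹ := by rw [hw]
        _ = _ := by group
    obtain ⟨u, v, huv⟩ : ∃ u v : ℤ, (p ^ b : ℕ) * u + (m : ℕ) * v = (1 : ℤ) :=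
      ⟨Nat.gcdA (p ^ b) m, Nat.gcdB (p ^ b) m, by
        rw [← Nat.gcd_eq_gcd_ab, hcop.gcd_eq_one]; rfl⟩
    have hg : g = y ^ u * z ^ v := by
      show g = (g ^ p ^ b) ^ u * (g ^ m) ^ v
      rw [← zpow_natCast g (p ^ b), ← zpow_natCast g m, ← zpow_mul, ← zpow_mul, ← zpow_add, huv,
        zpow_one]
    rw [hg, show x * (y ^ u * z ^ v) * x⁻¹ = (x * y ^ u * x⁻¹) * (x * z ^ v * x⁻¹) by group,
      ← conj_zpow, ← conj_zpow]
    exact mul_mem (zpow_mem ((le_sup_right : C ≤ _) hxy) u) (zpow_mem ((le_sup_left : _ ≤ (P : Subgroup H) ⊔ C) hxz) v)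
  have htop : (P : Subgroup H) ⊔ C = ⊤ := Cfsg.Agent.FGS2.eq_top_of_forall_conj_mem _ hgen
  have hPn : (P : Subgroup H).Normal := by
    rw [← normalizer_eq_top_iff, eq_top_iff, ← htop]
    exact sup_le le_normalizer (centralizer_le_normalizer _)
  refine ⟨hPn, ?_⟩
  haveI := hPn
  obtain ⟨K, hK⟩ := exists_right_complement'_of_coprime (N := (P : Subgroup H)) P.card_coprime_index
  have hKc : Nat.card K = (P : Subgroup H).index := hK.symm.index_eq_card.symm
  haveI hCn : C.Normal := Subgroup.normal_centralizer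
  have hKC : K ≤ C := by
    intro k hk
    have hq : IsPGroup p (H ⧸ C) := by
      refine P.2.of_surjective ((QuotientGroup.mk' C).comp (P : Subgroup H).subtype) fun q => ?_
      obtain ⟨g, rfl⟩ := QuotientGroup.mk'_surjective C q
      obtain ⟨u, hu, w, hw, rfl⟩ := mem_sup_of_normal_right.1 (show g ∈ (P : Subgroup H) ⊔ C from htop ▸ mem_top g)
      refine ⟨⟨u, hu⟩, ?_⟩
      show QuotientGroup.mk' C u = QuotientGroup.mk' C (u * w)
      rw [map_mul, show QuotientGroup.mk' C w = 1 from (QuotientGroup.eq_one_iff w).2 hw, mul_one]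
    have hcop : (orderOf k).Coprime p := by
      refine Nat.Coprime.coprime_dvd_left (Subgroup.orderOf_dvd_natCard K hk) ?_
      rw [hKc]
      exact ((hp.out.coprime_iff_not_dvd).2 P.not_dvd_index).symm
    exact (QuotientGroup.eq_one_iff k).1 (Cfsg.Agent.Transfer.eq_one_of_coprime_orderOf hq
      (hcop.coprime_dvd_left (orderOf_map_dvd (QuotientGroup.mk' C) k)))
  refine ⟨K, ⟨fun k hk g => ?_⟩, hK.symm, hKC⟩
  obtain ⟨⟨⟨u, hu⟩, ⟨w, hw⟩⟩, rfl⟩ := hK.2 g
  show u * w * k * (u * w)⁻¹ ∈ K
  have hwk : w * k * w⁻¹ ∈ K := mul_mem (mul_mem hw hk) (inv_mem hw)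
  have h2 := mem_centralizer_iff.1 (hKC hwk) u hu
  rw [show u * w * k * (u * w)⁻¹ = u * (w * k * w⁻¹) * u⁻¹ by group, h2, mul_inv_cancel_right]
  exact hwk

/-- Let G be a finite group, p a prime and p^a the largest power of p dividing the size of any conjugacy class of G. If some element of p-power order has a conjugacy class of size exactly p^a, then G has a normal p-complement. -/
theorem result {G : Type*} [Group G] [Finite G] (p : ℕ) [Fact p.Prime]
    (a : ℕ) (hmax : ∀ y : G, ¬ p ^ (a + 1) ∣ (Subgroup.centralizer ({y} : Set G)).index)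
    (hx : ∃ x : G, (∃ k : ℕ, orderOf x = p ^ k) ∧ (Subgroup.centralizer ({x} : Set G)).index = p ^ a) :
    Cfsg.HasNormalPComplement p G := by
  classical
  obtain ⟨x, ⟨k, hk⟩, hxi⟩ := hx
  have hp : p.Prime := Fact.out
  set H := Subgroup.centralizer ({x} : Set G) with hH
  have hxH : x ∈ H := Subgroup.mem_centralizer_singleton_iff.2 rfl
  have hsplit : ∀ y : H, (orderOf y).Coprime p → ¬ p ∣ (Subgroup.centralizer ({y} : Set H)).index := by
    intro y hy hd
    apply hmax (x * y)
    have hle : Subgroup.centralizer ({x * (y : G)} : Set G) ≤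
        (Subgroup.centralizer ({y} : Set H)).map H.subtype := by
      intro w hw
      have hc : Commute x (y : G) := (Subgroup.mem_centralizer_singleton_iff.1 y.2).symm
      have hcop : (orderOf x).Coprime (orderOf (y : G)) := by
        rw [hk, Subgroup.orderOf_coe]
        exact hy.symm.pow_left k
      obtain ⟨m, hm⟩ := Cfsg.Agent.OddChar.exists_split_exponent hcop
      have hxy : (x * y) ^ m = x := hm x y hc.eq (pow_orderOf_eq_one x) (pow_orderOf_eq_one _)
      have hw' := Subgroup.mem_centralizer_singleton_iff.1 hw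
      have hwx : w * x = x * w := by
        rw [← hxy]
        exact (Commute.pow_right (show Commute w (x * y) from hw') m).eq
      refine ⟨⟨w, Subgroup.mem_centralizer_singleton_iff.2 hwx⟩,
        Subgroup.mem_centralizer_singleton_iff.2 (Subtype.ext ?_), rfl⟩
      show w * (y : G) = (y : G) * w
      apply mul_left_cancel (a := x)
      rw [← mul_assoc, ← hwx, mul_assoc, hw', mul_assoc]
    refine Dvd.dvd.trans ?_ (Subgroup.index_dvd_of_le hle)
    rw [Subgroup.index_map_subtype, hxi, pow_succ, mul_comm ((Subgroup.centralizer ({y} : Set H)).index)]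
    exact mul_dvd_mul_left _ hd
  obtain ⟨Px⟩ : Nonempty (Sylow p H) := inferInstance
  obtain ⟨hPxn, K, hKn, hKc, hKP⟩ := split_of_class hsplit Px
  haveI := hPxn
  haveI := hKn
  have hPxuniq : ∀ w : H, IsPGroup p (Subgroup.zpowers w) → w ∈ (Px : Subgroup H) := by
    intro w hw
    obtain ⟨Q, hQ⟩ := hw.exists_le_sylow
    haveI := Sylow.unique_of_normal Px hPxn
    rw [Subsingleton.elim Q Px] at hQ
    exact hQ (Subgroup.mem_zpowers w)
  set K' := K.map H.subtype with hK'
  set Px' := (Px : Subgroup H).map H.subtype with hPx'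
  obtain ⟨P, hP⟩ := (Px.2.map H.subtype).exists_le_sylow
  have hxPx : (⟨x, hxH⟩ : H) ∈ (Px : Subgroup H) :=
    hPxuniq _ (IsPGroup.of_card (n := k) (by rw [Nat.card_zpowers, Subgroup.orderOf_mk, hk]))
  have hxP : x ∈ (P : Subgroup G) := hP (Subgroup.mem_map_of_mem H.subtype hxPx)
  -- orders
  have hKcard : Nat.card K' = Nat.card K :=
    Subgroup.card_map_of_injective H.subtype_injective
  have hKcop : (Nat.card K').Coprime p := by
    rw [hKcard, ← hKc.index_eq_card]
    exact ((hp.coprime_iff_not_dvd).2 Px.not_dvd_index).symm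
  have hcompl : K'.IsComplement' (P : Subgroup G) := by
    obtain ⟨n, hn⟩ := IsPGroup.iff_card.1 P.2
    refine Subgroup.isComplement'_of_coprime ?_ (by rw [hn]; exact hKcop.pow_right n)
    obtain ⟨e, he⟩ := IsPGroup.iff_card.1 Px.2
    have h1 : Nat.card H = Nat.card K * p ^ e := by rw [← he, hKc.card_mul]
    have h2 : Nat.card G = Nat.card K' * p ^ (e + a) := by
      rw [← H.card_mul_index, h1, hxi, hKcard, pow_add, mul_assoc]
    rw [h2]
    congr 1
    rw [Sylow.card_eq_multiplicity, h2]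
    rw [Nat.factorization_mul Nat.card_pos.ne' (pow_ne_zero _ hp.ne_zero), Finsupp.add_apply,
      Nat.factorization_eq_zero_of_not_dvd (hp.coprime_iff_not_dvd.1 hKcop.symm),
      hp.factorization_pow, Finsupp.single_eq_same, zero_add]
  -- the normal closure of x is a p-group
  set X := Subgroup.normalClosure ({x} : Set G)
  have hXP : X ≤ P := by
    refine (Subgroup.closure_le _).2 fun w hw => ?_
    rw [Group.mem_conjugatesOfSet_iff] at hw
    obtain ⟨s, hs, hc⟩ := hw
    rw [Set.mem_singleton_iff] at hs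
    subst hs
    obtain ⟨g, rfl⟩ := isConj_iff.1 hc
    obtain ⟨⟨⟨u, hu⟩, ⟨v, hv⟩⟩, huv⟩ := hcompl.symm.2 g
    have huv' : u * v = g := huv
    rw [← huv']
    obtain ⟨v', hv', rfl⟩ := hv
    have hvx : (v' : G) * s = s * (v' : G) := Subgroup.mem_centralizer_singleton_iff.1 v'.2
    rw [show u * (H.subtype v') * s * (u * H.subtype v')⁻¹ = u * ((v' : G) * s * (v' : G)⁻¹) * u⁻¹ by
      simp [mul_assoc], hvx, mul_inv_cancel_right]
    exact mul_mem (mul_mem hu hxP) (inv_mem hu)
  haveI hXn : X.Normal := Subgroup.normalClosure_normal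
  have hXp : IsPGroup p X := P.2.to_le hXP
  have hKX : K' ≤ Subgroup.centralizer (X : Set G) := by
    rintro _ ⟨u, hu, rfl⟩
    haveI : Group.IsSolvable (Subgroup.zpowers (u : G)) := Group.isSolvable_of_comm fun a b => mul_comm' a b
    have hux : (u : G) * x = x * u := Subgroup.mem_centralizer_singleton_iff.1 u.2
    have hPQ : ⁅Subgroup.zpowers x, Subgroup.zpowers (u : G)⁆ = ⊥ := by
      rw [Subgroup.commutator_eq_bot_iff_le_centralizer, Subgroup.zpowers_le,
        Subgroup.zpowers_eq_closure, Subgroup.centralizer_closure]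
      exact Subgroup.mem_centralizer_singleton_iff.2 hux.symm
    have hQ : (Nat.card (Subgroup.zpowers (u : G))).Coprime p :=
      hKcop.coprime_dvd_left (Subgroup.card_dvd_of_le (Subgroup.zpowers_le.2 (show (u : G) ∈ K' from ⟨u, hu, rfl⟩)))
    have hA : IsPGroup p (Subgroup.zpowers x) :=
      IsPGroup.of_card (n := k) (by rw [Nat.card_zpowers, hk])
    have hbot : ⁅X, Subgroup.zpowers (u : G)⁆ = ⊥ := by
      refine Cfsg.Agent.Coprime.commutator_eq_bot_of_PxQ hA hQ hPQ _ X rfl hXp
        (Subgroup.normalizer_eq_top X ▸ le_top) (Subgroup.normalizer_eq_top X ▸ le_top) ?_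
      rw [Subgroup.commutator_eq_bot_iff_le_centralizer, Subgroup.zpowers_eq_closure (u : G),
        Subgroup.centralizer_closure]
      rintro w ⟨hwX, hwc⟩
      have hwH : w ∈ H := Subgroup.mem_centralizer_singleton_iff.2
        (Subgroup.mem_centralizer_iff.1 hwc x (Subgroup.mem_zpowers x)).symm
      have hwp : (⟨w, hwH⟩ : H) ∈ (Px : Subgroup H) := by
        refine hPxuniq _ ?_
        obtain ⟨i, hi⟩ := IsPGroup.iff_orderOf.1 hXp ⟨w, hwX⟩
        rw [Subgroup.orderOf_mk] at hi
        exact IsPGroup.of_card (n := i) (by rw [Nat.card_zpowers, Subgroup.orderOf_mk, hi])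
      exact Subgroup.mem_centralizer_singleton_iff.2
        (congrArg Subtype.val (Subgroup.mem_centralizer_iff.1 (hKP hu) _ hwp))
    exact Subgroup.mem_centralizer_iff.2 fun w hw =>
      (Subgroup.mem_centralizer_iff.1 (Subgroup.commutator_eq_bot_iff_le_centralizer.1 hbot hw) _
        (Subgroup.mem_zpowers (u : G))).symm
  have hcop : ∀ u : H, (orderOf u).Coprime p → u ∈ K := by
    intro u hu
    have hq : IsPGroup p (H ⧸ K) := IsPGroup.of_card (n := (Nat.card H).factorization p) (by
      rw [← Subgroup.index_eq_card, hKc.symm.index_eq_card, Sylow.card_eq_multiplicity])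
    exact (QuotientGroup.eq_one_iff u).1 (Cfsg.Agent.Transfer.eq_one_of_coprime_orderOf hq
      (hu.coprime_dvd_left (orderOf_map_dvd (QuotientGroup.mk' K) u)))
  haveI hK'n : K'.Normal := ⟨fun w hw g => by
    have h1 : g * w * g⁻¹ ∈ Subgroup.centralizer (X : Set G) :=
      (Subgroup.normal_centralizer (H := X)).conj_mem w (hKX hw) g
    have h2 : g * w * g⁻¹ ∈ H := Subgroup.mem_centralizer_singleton_iff.2
      (Subgroup.mem_centralizer_iff.1 h1 x (Subgroup.subset_normalClosure rfl)).symm
    refine ⟨⟨_, h2⟩, hcop _ ?_, rfl⟩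
    rw [Subgroup.orderOf_mk, ← MulAut.conj_apply, MulEquiv.orderOf_eq]
    exact hKcop.coprime_dvd_left (Subgroup.orderOf_dvd_natCard K' hw)⟩
  exact Cfsg.Agent.Transfer.hasNormalPComplement_of_isComplement' P hcompl

end Cfsg.Agent.S4127
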