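import Cfsg.Statements.S4139
import Mathlib

set_option autoImplicit false
open Cfsg

namespace Cfsg.Agent.S4139

variable {G : Type*} [Group G]

/-- The size of the conjugacy class, as the index of the centralizer. -/
noncomputable def cls (x : G) : ℕ := (Subgroup.centralizer ({x} : Set G)).index

theorem mem_cent {x g : G} :
    g ∈ Subgroup.centralizer ({x} : Set G) ↔ g * x * g⁻¹ = x := by
  rw [Subgroup.mem_centralizer_singleton_iff, mul_inv_eq_iff_eq_mul]

theorem card_carrier_eq (x : G) :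
    Nat.card (ConjClasses.mk x).carrier = cls x := by
  have hmem : ∀ g : G, g * x * g⁻¹ ∈ (ConjClasses.mk x).carrier := fun g => by
    rw [ConjClasses.mem_carrier_iff_mk_eq, ConjClasses.mk_eq_mk_iff_isConj, isConj_comm, isConj_iff]
    exact ⟨g, rfl⟩
  let f : G ⧸ Subgroup.centralizer ({x} : Set G) → (ConjClasses.mk x).carrier :=
    Quotient.lift (fun g => ⟨g * x * g⁻¹, hmem g⟩) (by
      intro a b hab
      have h := mem_cent.mp (QuotientGroup.leftRel_apply.mp hab)
      apply Subtype.ext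
      show a * x * a⁻¹ = b * x * b⁻¹
      calc a * x * a⁻¹ = a * ((a⁻¹ * b) * x * (a⁻¹ * b)⁻¹) * a⁻¹ := by rw [h]
        _ = b * x * b⁻¹ := by group)
  refine (Nat.card_eq_of_bijective f ⟨?_, ?_⟩).symm
  · intro q r hqr
    induction q using QuotientGroup.induction_on with
    | _ a => induction r using QuotientGroup.induction_on with
      | _ b =>
        have h : a * x * a⁻¹ = b * x * b⁻¹ := congrArg Subtype.val hqr
        rw [QuotientGroup.eq, mem_cent]
        calc a⁻¹ * b * x * (a⁻¹ * b)⁻¹ = a⁻¹ * (b * x * b⁻¹) * a := by group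
          _ = x := by rw [← h]; group
  · rintro ⟨z, hz⟩
    rw [ConjClasses.mem_carrier_iff_mk_eq, ConjClasses.mk_eq_mk_iff_isConj, isConj_comm, isConj_iff] at hz
    obtain ⟨g, hg⟩ := hz
    exact ⟨QuotientGroup.mk g, Subtype.ext hg⟩

theorem cls_conj (g x : G) : cls (g * x * g⁻¹) = cls x := by
  rw [← card_carrier_eq, ← card_carrier_eq,
    ConjClasses.mk_eq_mk_iff_isConj.mpr ((isConj_iff.mpr ⟨g, rfl⟩).symm : IsConj (g * x * g⁻¹) x)]

theorem cls_one_of_mem_center {x : G} (hx : x ∈ Subgroup.center G) : cls x = 1 := by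
  rw [cls, Subgroup.index_eq_one, eq_top_iff]
  intro g _
  rw [Subgroup.mem_centralizer_singleton_iff]
  exact Subgroup.mem_center_iff.mp hx g

theorem mem_center_of_cls_eq_one {x : G} (hx : cls x = 1) : x ∈ Subgroup.center G := by
  rw [cls, Subgroup.index_eq_one] at hx
  rw [Subgroup.mem_center_iff]
  intro g
  have : g ∈ Subgroup.centralizer ({x} : Set G) := hx ▸ Subgroup.mem_top g
  exact Subgroup.mem_centralizer_singleton_iff.mp this

theorem cls_dvd_of_mem_zpowers {x u : G} (hu : u ∈ Subgroup.zpowers x) : cls u ∣ cls x := by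
  apply Subgroup.index_dvd_of_le
  intro g hg
  rw [Subgroup.mem_centralizer_singleton_iff] at hg ⊢
  obtain ⟨k, rfl⟩ := hu
  exact (Commute.zpow_right (show Commute g x from hg) k).eq

/-- The class size is a power of `p`. -/
def IsPP (p : ℕ) (x : G) : Prop := ∃ i : ℕ, cls x = p ^ i

theorem IsPP.of_mem_zpowers {p : ℕ} (hp : p.Prime) {x u : G} (hx : IsPP p x)
    (hu : u ∈ Subgroup.zpowers x) : IsPP p u := by
  obtain ⟨i, hi⟩ := hx
  have h := cls_dvd_of_mem_zpowers hu
  rw [hi] at h
  obtain ⟨j, -, hj⟩ := (Nat.dvd_prime_pow hp).mp h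
  exact ⟨j, hj⟩

theorem exists_decomp [Finite G] (p : ℕ) [hp : Fact p.Prime] (x : G) :
    ∃ u y : G, x = u * y ∧ u ∈ Subgroup.zpowers x ∧ y ∈ Subgroup.zpowers x ∧
      (∃ k : ℕ, orderOf u = p ^ k) ∧ (orderOf y).Coprime p := by
  set n := orderOf x with hn
  set a := n.factorization p with ha
  set m := n / p ^ a with hm
  have hn0 : n ≠ 0 := (orderOf_pos x).ne'
  have hsplit : p ^ a * m = n := Nat.ordProj_mul_ordCompl_eq_self n p
  have hcop : p.Coprime m := Nat.coprime_ordCompl hp.out hn0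
  obtain ⟨s, t, hst⟩ : ∃ s t : ℤ, s * (p ^ a : ℕ) + t * (m : ℤ) = 1 :=
    Int.isCoprime_iff_gcd_eq_one.mpr (by exact_mod_cast (Nat.Coprime.pow_left a hcop))
  refine ⟨x ^ (t * (m : ℤ)), x ^ (s * ((p ^ a : ℕ) : ℤ)), ?_, ⟨_, rfl⟩, ⟨_, rfl⟩, ?_, ?_⟩
  · rw [← zpow_add, add_comm, hst, zpow_one]
  · have h1 : (x ^ (t * (m : ℤ))) ^ (p ^ a) = 1 := by
      rw [← zpow_natCast, ← zpow_mul, mul_assoc, mul_comm t, zpow_mul, ← Nat.cast_mul,
        mul_comm m, hsplit, zpow_natCast, hn, pow_orderOf_eq_one, one_zpow]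
    obtain ⟨k, -, hk⟩ := (Nat.dvd_prime_pow hp.out).mp (orderOf_dvd_of_pow_eq_one h1)
    exact ⟨k, hk⟩
  · have h1 : (x ^ (s * ((p ^ a : ℕ) : ℤ))) ^ m = 1 := by
      rw [← zpow_natCast, ← zpow_mul, mul_assoc, mul_comm s, zpow_mul, ← Nat.cast_mul,
        hsplit, zpow_natCast, hn, pow_orderOf_eq_one, one_zpow]
    exact Nat.Coprime.coprime_dvd_left (orderOf_dvd_of_pow_eq_one h1) hcop.symm

/-- `O_p(G)` intersected with the centralizer of all `p'`-elements. -/
def coreB (p : ℕ) (P : Sylow p G) : Subgroup G :=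
  (P : Subgroup G).normalCore ⊓ Subgroup.centralizer {g : G | (orderOf g).Coprime p}

instance coreB_normal (p : ℕ) (P : Sylow p G) : (coreB p P).Normal := by
  constructor
  intro b hb g
  refine ⟨(Subgroup.normalCore_normal (P : Subgroup G)).conj_mem b hb.1 g, ?_⟩
  intro y hy
  have h1 := hb.2 (g⁻¹ * y * g) (by
    show (orderOf (g⁻¹ * y * g)).Coprime p
    have := (MulAut.conj g⁻¹).orderOf_eq y
    simp only [MulAut.conj_apply, inv_inv] at this
    rw [this]; exact hy)
  calc y * (g * b * g⁻¹) = g * ((g⁻¹ * y * g) * b) * g⁻¹ := by group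
    _ = g * (b * (g⁻¹ * y * g)) * g⁻¹ := by rw [h1]
    _ = g * b * g⁻¹ * y := by group

theorem coreB_le (p : ℕ) (P : Sylow p G) : coreB p P ≤ (P : Subgroup G) :=
  inf_le_left.trans (Subgroup.normalCore_le _)

theorem coreB_comm {p : ℕ} {P : Sylow p G} {b g : G} (hb : b ∈ coreB p P)
    (hg : (orderOf g).Coprime p) : Commute g b := hb.2 g hg

theorem exists_pow_card (p : ℕ) [Fact p.Prime] (P : Sylow p G) {b : G} (hb : b ∈ coreB p P) :
    ∃ k : ℕ, b ^ p ^ k = 1 := by
  obtain ⟨k, hk⟩ := P.2 ⟨b, coreB_le p P hb⟩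
  exact ⟨k, congrArg Subtype.val hk⟩

variable [Finite G]

/-- Conjugacy by a Sylow subgroup suffices for elements of `p`-power class size. -/
theorem conj_by_sylow {p : ℕ} [hp : Fact p.Prime] (P : Sylow p G) {x : G} (hx : IsPP p x)
    (g : G) : ∃ w ∈ (P : Subgroup G), w * x * w⁻¹ = g * x * g⁻¹ := by
  obtain ⟨i, hi⟩ := hx
  set C := Subgroup.centralizer ({x} : Set G) with hC
  let f : (P : Subgroup G) ⧸ C.subgroupOf (P : Subgroup G) → G ⧸ C :=
    Quotient.map' (fun w : (P : Subgroup G) => (w : G)) (by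
      intro a b hab
      rw [QuotientGroup.leftRel_apply] at hab ⊢
      exact hab)
  have hf : Function.Injective f := by
    intro q r hqr
    induction q using QuotientGroup.induction_on with
    | _ a => induction r using QuotientGroup.induction_on with
      | _ b =>
        have h : (QuotientGroup.mk (a : G) : G ⧸ C) = QuotientGroup.mk (b : G) := hqr
        rw [QuotientGroup.eq] at h ⊢
        exact h
  have hle : C.relIndex (P : Subgroup G) ≤ C.index := Nat.card_le_card_of_injective f hf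
  have hdvd : C.index ∣ C.relIndex (P : Subgroup G) * (P : Subgroup G).index := by
    have h1 := Subgroup.relIndex_mul_index (inf_le_right : C ⊓ (P : Subgroup G) ≤ (P : Subgroup G))
    rw [Subgroup.inf_relIndex_right] at h1
    rw [h1]
    exact Subgroup.index_dvd_of_le inf_le_left
  have hcop : (C.index).Coprime (P : Subgroup G).index := by
    rw [show C.index = p ^ i from hi]
    exact Nat.Coprime.pow_left i (hp.out.coprime_iff_not_dvd.mpr P.not_dvd_index)
  have hge : C.index ≤ C.relIndex (P : Subgroup G) :=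
    Nat.le_of_dvd (Nat.pos_of_ne_zero Subgroup.index_ne_zero_of_finite) (hcop.dvd_of_dvd_mul_right hdvd)
  obtain ⟨q, hq⟩ := (hf.bijective_of_nat_card_le (le_of_eq (le_antisymm hge hle))).2
    (QuotientGroup.mk g)
  induction q using QuotientGroup.induction_on with
  | _ w =>
    have h : (QuotientGroup.mk (w : G) : G ⧸ C) = QuotientGroup.mk g := hq
    rw [QuotientGroup.eq, hC, mem_cent] at h
    refine ⟨w, w.2, ?_⟩
    calc (w : G) * x * (w : G)⁻¹
        = (w : G) * ((w : G)⁻¹ * g * x * ((w : G)⁻¹ * g)⁻¹) * (w : G)⁻¹ := by rw [h]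
      _ = g * x * g⁻¹ := by group

theorem pElem_mem_core {p : ℕ} [hp : Fact p.Prime] (P : Sylow p G) {u : G} (hu : IsPP p u)
    (hord : ∃ k : ℕ, orderOf u = p ^ k) : u ∈ (P : Subgroup G).normalCore := by
  obtain ⟨k, hk⟩ := hord
  have hz : IsPGroup p (Subgroup.zpowers u) := IsPGroup.of_card (by rw [Nat.card_zpowers, hk])
  obtain ⟨Q, hQ⟩ := hz.exists_le_sylow
  have huQ : u ∈ (Q : Subgroup G) := hQ (Subgroup.mem_zpowers u)
  obtain ⟨h, rfl⟩ := MulAction.exists_smul_eq G Q P
  intro b
  obtain ⟨w, hw, hwe⟩ := conj_by_sylow Q hu (h⁻¹ * b)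
  rw [Sylow.coe_subgroup_smul, Subgroup.mem_pointwise_smul_iff_inv_smul_mem]
  have e : (MulAut.conj h)⁻¹ • (b * u * b⁻¹) = h⁻¹ * b * u * (h⁻¹ * b)⁻¹ := by
    rw [← map_inv, MulAut.smul_def, MulAut.conj_apply]; group
  rw [e, ← hwe]
  exact mul_mem (mul_mem hw huQ) (inv_mem hw)

theorem isPP_mul_core {p : ℕ} [hp : Fact p.Prime] (P : Sylow p G) {x b : G} (hx : IsPP p x)
    (hb : b ∈ coreB p P) : IsPP p (x * b) := by
  obtain ⟨i, hi⟩ := hx
  refine ⟨_, Nat.eq_prime_pow_of_unique_prime_dvd Subgroup.index_ne_zero_of_finite ?_⟩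
  intro q hq hqd
  by_contra hne
  haveI := Fact.mk hq
  set C := Subgroup.centralizer ({x} : Set G) with hC
  obtain ⟨Q₀⟩ : Nonempty (Sylow q C) := inferInstance
  set Q : Subgroup G := (Q₀ : Subgroup C).map C.subtype with hQdef
  have hle : Q ≤ Subgroup.centralizer ({x * b} : Set G) := by
    rintro g ⟨c, hc, rfl⟩
    rw [Subgroup.mem_centralizer_singleton_iff]
    have h1 : Commute (c : G) x := Subgroup.mem_centralizer_singleton_iff.mp c.2
    obtain ⟨k, hk⟩ := IsPGroup.iff_orderOf.mp Q₀.2 ⟨c, hc⟩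
    rw [Subgroup.orderOf_mk] at hk
    have hcop : (orderOf (c : G)).Coprime p := by
      rw [← Subgroup.orderOf_coe] at hk
      rw [hk]
      exact Nat.Coprime.pow_left k ((Nat.coprime_primes hq hp.out).mpr hne)
    exact (h1.mul_right (coreB_comm hb hcop)).eq
  have hidx : ¬ q ∣ Q.index := by
    rw [hQdef, Subgroup.index_map_subtype]
    intro hd
    rcases hq.dvd_mul.mp hd with h1 | h1
    · exact Q₀.not_dvd_index h1
    · rw [show C.index = p ^ i from hi] at h1
      exact hne ((Nat.prime_dvd_prime_iff_eq hq hp.out).mp (hq.dvd_of_dvd_pow h1))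
  exact hidx (hqd.trans (Subgroup.index_dvd_of_le hle))

/-- A `p`-element `b` produced as a commutator with a `p'`-element must be trivial. -/
theorem eq_one_of_pow {p : ℕ} {b : G} {n : ℕ} (hn : n.Coprime p) (h1 : b ^ n = 1)
    (h2 : ∃ k : ℕ, b ^ p ^ k = 1) : b = 1 := by
  obtain ⟨k, hk⟩ := h2
  have h := Nat.dvd_gcd (orderOf_dvd_of_pow_eq_one h1) (orderOf_dvd_of_pow_eq_one hk)
  rw [Nat.Coprime.pow_right k hn, Nat.dvd_one] at h
  exact orderOf_eq_one_iff.mp h

theorem center_image_of_central {p : ℕ} [hp : Fact p.Prime] (P : Sylow p G) {x : G}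
    (hx : IsPP p x) (hc : ∀ g : G, x * g * x⁻¹ * g⁻¹ ∈ coreB p P) :
    ∃ z ∈ Subgroup.center G, z⁻¹ * x ∈ coreB p P := by
  obtain ⟨u, y, hxy, hu, hy, huo, hyo⟩ := exists_decomp p x
  set π := QuotientGroup.mk' (coreB p P) with hπ
  have hxc : ∀ g : G, Commute (π x) (π g) := fun g => by
    have h1 : π (x * g * x⁻¹ * g⁻¹) = 1 := (QuotientGroup.eq_one_iff _).mpr (hc g)
    rw [map_mul, map_mul, map_mul, map_inv, map_inv, mul_inv_eq_one, mul_inv_eq_iff_eq_mul] at h1
    exact h1
  have hpow : ∀ a ∈ Subgroup.zpowers x, ∀ g : G, a * g * a⁻¹ * g⁻¹ ∈ coreB p P := by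
    rintro a ⟨k, rfl⟩ g
    apply (QuotientGroup.eq_one_iff _).mp
    show π (x ^ k * g * (x ^ k)⁻¹ * g⁻¹) = 1
    rw [map_mul, map_mul, map_mul, map_inv, map_inv, map_zpow, ((hxc g).zpow_left k).eq]
    group
  have hyc : y ∈ Subgroup.center G := by
    rw [Subgroup.mem_center_iff]
    intro g
    set b := y * g * y⁻¹ * g⁻¹ with hb
    have hbB : b ∈ coreB p P := hpow y hy g
    have hyb : Commute y b := coreB_comm hbB hyo
    have hit : ∀ n : ℕ, y ^ n * g * (y ^ n)⁻¹ = b ^ n * g := by
      intro n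
      induction n with
      | zero => simp
      | succ n ih =>
        calc y ^ (n + 1) * g * (y ^ (n + 1))⁻¹ = y * (y ^ n * g * (y ^ n)⁻¹) * y⁻¹ := by group
          _ = (y * b ^ n) * g * y⁻¹ := by rw [ih]; group
          _ = b ^ n * (y * g * y⁻¹) := by rw [(hyb.pow_right n).eq]; group
          _ = b ^ n * (b * g) := by rw [hb]; group
          _ = b ^ (n + 1) * g := by group
    have h1 : b ^ orderOf y = 1 := by
      have := hit (orderOf y)
      rw [pow_orderOf_eq_one] at this
      simpa using this.symm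
    have hb1 : b = 1 := eq_one_of_pow hyo h1 (exists_pow_card p P hbB)
    rw [hb, mul_inv_eq_one, mul_inv_eq_iff_eq_mul] at hb1
    exact hb1.symm
  have huB : u ∈ coreB p P := by
    refine ⟨pElem_mem_core P (hx.of_mem_zpowers hp.out hu) huo, ?_⟩
    intro g hg
    set b := u * g * u⁻¹ * g⁻¹ with hb
    have hbB : b ∈ coreB p P := hpow u hu g
    have hgb : Commute g b := coreB_comm hbB hg
    have h1 : b ^ orderOf g = 1 := by
      have h2 : b * g = u * g * u⁻¹ := by rw [hb]; group
      have h3 : (b * g) ^ orderOf g = 1 := by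
        rw [h2, conj_pow, pow_orderOf_eq_one]; group
      rwa [hgb.symm.mul_pow, pow_orderOf_eq_one, mul_one] at h3
    have hb1 : b = 1 := eq_one_of_pow hg h1 (exists_pow_card p P hbB)
    rw [hb, mul_inv_eq_one, mul_inv_eq_iff_eq_mul] at hb1
    exact hb1.symm
  refine ⟨y, hyc, ?_⟩
  rw [hxy, ← Subgroup.mem_center_iff.mp (inv_mem hyc) (u * y), mul_inv_cancel_right]
  exact huB

theorem isPP_center {p : ℕ} {z : G} (hz : z ∈ Subgroup.center G) : IsPP p z :=
  ⟨0, by rw [cls_one_of_mem_center hz, pow_zero]⟩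

/-- The image of the elements of `p`-power class size modulo `coreB`. -/
def ppImage (p : ℕ) (P : Sylow p G) : Set (G ⧸ coreB p P) :=
  QuotientGroup.mk '' {x : G | IsPP p x}

theorem card_pp {p : ℕ} [Fact p.Prime] (P : Sylow p G) :
    Nat.card {x : G // IsPP p x} = Nat.card (coreB p P) * Nat.card (ppImage p P) := by
  rw [← Nat.card_prod, ← Nat.card_congr (QuotientGroup.preimageMkEquivSubgroupProdSet _ (ppImage p P))]
  apply Nat.card_congr
  refine Equiv.subtypeEquivRight fun x => ⟨fun hx => ⟨x, hx, rfl⟩, ?_⟩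
  rintro ⟨y, hy, hxy⟩
  have h := isPP_mul_core P hy (QuotientGroup.eq.mp hxy)
  rwa [mul_inv_cancel_left] at h

theorem pp_modEq {p : ℕ} [hp : Fact p.Prime] (P : Sylow p G) :
    Nat.card (ppImage p P) ≡
      (coreB p P).relIndex (Subgroup.center G) [MOD p] := by
  set π := QuotientGroup.mk' (coreB p P) with hπ
  letI : MulAction (P : Subgroup G) (ppImage p P) :=
  { smul := fun w t => ⟨π w * t.1 * (π w)⁻¹, by
      obtain ⟨x, hx, hxt⟩ := t.2
      refine ⟨(w : G) * x * (w : G)⁻¹, ?_, ?_⟩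
      · show IsPP p _
        rw [IsPP, cls_conj]; exact hx
      · rw [← hxt]; rfl⟩
    one_smul := fun t => Subtype.ext (by
      show π ((1 : (P : Subgroup G)) : G) * t.1 * (π ((1 : (P : Subgroup G)) : G))⁻¹ = t.1
      simp)
    mul_smul := fun a b t => Subtype.ext (by
      show π ((a * b : (P : Subgroup G)) : G) * t.1 * (π ((a * b : (P : Subgroup G)) : G))⁻¹
        = π (a : G) * (π (b : G) * t.1 * (π (b : G))⁻¹) * (π (a : G))⁻¹
      rw [Subgroup.coe_mul, map_mul]; group) }
  have hsmul : ∀ (w : (P : Subgroup G)) (t : ppImage p P),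
      ((w • t : ppImage p P) : G ⧸ coreB p P) = π w * t.1 * (π w)⁻¹ := fun _ _ => rfl
  refine (P.2.card_modEq_card_fixedPoints (ppImage p P)).trans ?_
  have key : Nat.card (MulAction.fixedPoints (P : Subgroup G) (ppImage p P)) =
      Nat.card ((Subgroup.center G).map π) := by
    refine Nat.card_congr (Equiv.ofBijective (fun t => ⟨t.1.1, ?_⟩) ⟨?_, ?_⟩)
    · obtain ⟨x, hx, hxt⟩ := t.1.2
      have hc : ∀ g : G, x * g * x⁻¹ * g⁻¹ ∈ coreB p P := by
        intro g
        obtain ⟨w, hw, hwe⟩ := conj_by_sylow P hx g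
        have hfix := congrArg Subtype.val (t.2 ⟨w, hw⟩)
        rw [hsmul, ← hxt] at hfix
        have h1 : π (g * x * g⁻¹) = π x := by
          rw [← hwe, map_mul, map_mul, map_inv]; exact hfix
        apply (QuotientGroup.eq_one_iff _).mp
        show π (x * g * x⁻¹ * g⁻¹) = 1
        calc π (x * g * x⁻¹ * g⁻¹) = π x * (π (g * x * g⁻¹))⁻¹ := by
              simp only [map_mul, map_inv, mul_inv_rev, inv_inv]; group
          _ = 1 := by rw [h1, mul_inv_cancel]
      obtain ⟨z, hz, hzx⟩ := center_image_of_central P hx hc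
      exact ⟨z, hz, by rw [← hxt]; exact QuotientGroup.eq.mpr hzx⟩
    · intro a b hab
      have h1 : a.1.1 = b.1.1 := congrArg (fun s : ↥((Subgroup.center G).map π) => s.1) hab
      exact Subtype.ext (Subtype.ext h1)
    · rintro ⟨q, z, hz, rfl⟩
      refine ⟨⟨⟨π z, z, isPP_center hz, rfl⟩, ?_⟩, rfl⟩
      intro w
      apply Subtype.ext
      rw [hsmul]
      show π (w : G) * π z * (π (w : G))⁻¹ = π z
      rw [← map_mul, Subgroup.mem_center_iff.mp hz (w : G), map_mul, mul_inv_cancel_right]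
  rw [key]
  have hk := Subgroup.relIndex_ker π (K := Subgroup.center G)
  rw [hπ, QuotientGroup.ker_mk'] at hk
  rw [hk, hπ]

theorem center_index_facts {p : ℕ} [hp : Fact p.Prime] (P : Sylow p G) :
    ∃ k : ℕ, Nat.card (Subgroup.center G) = p ^ k * (coreB p P).relIndex (Subgroup.center G) ∧
      ¬ p ∣ (coreB p P).relIndex (Subgroup.center G) := by
  obtain ⟨Q⟩ : Nonempty (Sylow p (Subgroup.center G)) := inferInstance
  set Z := Subgroup.center G with hZ
  have hQB : (Q : Subgroup Z) ≤ (coreB p P).subgroupOf Z := by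
    intro z hz
    rw [Subgroup.mem_subgroupOf]
    obtain ⟨k, hk⟩ := IsPGroup.iff_orderOf.mp Q.2 ⟨z, hz⟩
    rw [Subgroup.orderOf_mk, ← Subgroup.orderOf_coe] at hk
    exact ⟨pElem_mem_core P (isPP_center z.2) ⟨k, hk⟩,
      fun g _ => Subgroup.mem_center_iff.mp z.2 g⟩
  have hpg : IsPGroup p ((coreB p P).subgroupOf Z) :=
    ((P.2.to_le (coreB_le p P)).comap_subtype)
  obtain ⟨k, hk⟩ := IsPGroup.iff_card.mp hpg
  refine ⟨k, ?_, fun hd => Q.not_dvd_index (hd.trans (Subgroup.index_dvd_of_le hQB))⟩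
  rw [← hk]
  exact (Subgroup.card_mul_index _).symm

/-- In a nilpotent group the count is exactly `|P|` times the `p'`-part of the center. -/
theorem nilpotent_count [hG : Group.IsNilpotent G] {p : ℕ} [hp : Fact p.Prime] (P : Sylow p G) :
    Nat.card {x : G // IsPP p x} =
      Nat.card P * (coreB p P).relIndex (Subgroup.center G) := by
  have hn : ∀ (r : ℕ) (_ : Fact r.Prime) (Q : Sylow r G), (Q : Subgroup G).Normal :=
    ((Group.isNilpotent_of_finite_tfae (G := G)).out 0 3).mp hG
  haveI hPn : (P : Subgroup G).Normal := hn p hp P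
  have hPC : ∀ u ∈ (P : Subgroup G), ∀ g : G, (orderOf g).Coprime p → g * u = u * g := by
    intro u hu g hg
    set C := Subgroup.centralizer ((P : Subgroup G) : Set G) with hC
    haveI : C.Normal := Subgroup.normal_centralizer
    have hidx : ∀ {q : ℕ}, q.Prime → q ∣ C.index → q = p := by
      intro q hq hqd
      by_contra hne
      haveI := Fact.mk hq
      obtain ⟨Q⟩ : Nonempty (Sylow q G) := inferInstance
      haveI := hn q inferInstance Q
      have hQC : (Q : Subgroup G) ≤ C := by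
        intro a ha b hb
        exact ((Subgroup.commute_of_normal_of_disjoint (P : Subgroup G) (Q : Subgroup G) hPn
          inferInstance (IsPGroup.disjoint_of_ne p q (Ne.symm hne) _ _ P.2 Q.2)) b a hb ha).eq
      exact Q.not_dvd_index (hqd.trans (Subgroup.index_dvd_of_le hQC))
    have hCi : C.index = p ^ C.index.primeFactorsList.length :=
      Nat.eq_prime_pow_of_unique_prime_dvd Subgroup.index_ne_zero_of_finite hidx
    have h1 : (QuotientGroup.mk' C g) = 1 := by
      have hd1 : orderOf (QuotientGroup.mk' C g) ∣ orderOf g := orderOf_map_dvd _ g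
      have hd2 : orderOf (QuotientGroup.mk' C g) ∣ p ^ C.index.primeFactorsList.length := by
        rw [← hCi]; exact orderOf_dvd_natCard _
      have h := Nat.dvd_gcd hd1 hd2
      rw [Nat.Coprime.pow_right _ hg, Nat.dvd_one] at h
      exact orderOf_eq_one_iff.mp h
    exact ((QuotientGroup.eq_one_iff g).mp h1 u hu).symm
  have hB : coreB p P = (P : Subgroup G) := by
    refine le_antisymm (coreB_le p P) fun u hu => ⟨?_, fun g hg => hPC u hu g hg⟩
    rwa [Subgroup.normalCore_eq_self]
  have hBc : Nat.card (coreB p P) = Nat.card P := by rw [hB]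
  rw [card_pp P, hBc]
  congr 1
  have hset : ppImage p P = (((Subgroup.center G).map (QuotientGroup.mk' (coreB p P))) :
      Set (G ⧸ coreB p P)) := by
    apply Set.Subset.antisymm
    · rintro _ ⟨x, hx, rfl⟩
      obtain ⟨u, y, hxy, hu, hy, ⟨k, huo⟩, hyo⟩ := exists_decomp p x
      have huP : u ∈ (P : Subgroup G) := by
        obtain ⟨Q, hQ⟩ := (IsPGroup.of_card (p := p) (n := k)
          (by rw [Nat.card_zpowers, huo] : Nat.card (Subgroup.zpowers u) = p ^ k)).exists_le_sylow
        haveI := Sylow.unique_of_normal P hPn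
        rw [Subsingleton.elim P Q]
        exact hQ (Subgroup.mem_zpowers u)
      obtain ⟨j, hj⟩ := hx.of_mem_zpowers hp.out hy
      have hPy : (P : Subgroup G) ≤ Subgroup.centralizer ({y} : Set G) := fun w hw =>
        Subgroup.mem_centralizer_singleton_iff.mpr (hPC w hw y hyo).symm
      have hj0 : j = 0 := by
        by_contra hj0
        exact P.not_dvd_index ((hj ▸ dvd_pow_self p hj0 : p ∣ cls y).trans
          (Subgroup.index_dvd_of_le hPy))
      have hyc : y ∈ Subgroup.center G := mem_center_of_cls_eq_one (by rw [hj, hj0, pow_zero])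
      refine ⟨y, hyc, QuotientGroup.eq.mpr ?_⟩
      rw [hxy, ← Subgroup.mem_center_iff.mp (inv_mem hyc) (u * y), mul_inv_cancel_right, hB]
      exact huP
    · rintro _ ⟨z, hz, rfl⟩
      exact ⟨z, isPP_center hz, rfl⟩
  have hk := Subgroup.relIndex_ker (QuotientGroup.mk' (coreB p P)) (K := Subgroup.center G)
  rw [QuotientGroup.ker_mk'] at hk
  rw [hset, hk]
  rfl

theorem nat_part_unique {p : ℕ} (hp : p.Prime) {i j m n : ℕ} (hm : ¬ p ∣ m) (hn : ¬ p ∣ n)
    (h : p ^ i * m = p ^ j * n) : m = n := by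
  apply Nat.dvd_antisymm
  · exact Nat.Coprime.dvd_of_dvd_mul_left
      (Nat.Coprime.pow_right j (hp.coprime_iff_not_dvd.mpr hm).symm) ⟨p ^ i, by rw [← h]; ring⟩
  · exact Nat.Coprime.dvd_of_dvd_mul_left
      (Nat.Coprime.pow_right i (hp.coprime_iff_not_dvd.mpr hn).symm) ⟨p ^ j, by rw [h]; ring⟩

/-- A bijection `G ≃ H` preserving class sizes. -/
theorem exists_equiv {H : Type*} [Group H] [Finite H]
    (h : ∀ k : ℕ, Nat.card {C : ConjClasses G // Nat.card C.carrier = k} =
      Nat.card {C : ConjClasses H // Nat.card C.carrier = k}) :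
    ∃ φ : G ≃ H, ∀ x, cls (φ x) = cls x := by
  have he : ∀ k, Nonempty ({C : ConjClasses G // Nat.card C.carrier = k} ≃
      {C : ConjClasses H // Nat.card C.carrier = k}) := fun k => Finite.card_eq.mp (h k)
  let e : ConjClasses G ≃ ConjClasses H := Equiv.ofFiberEquiv
    (f := fun C : ConjClasses G => Nat.card C.carrier)
    (g := fun C : ConjClasses H => Nat.card C.carrier) fun k => (he k).some
  have he' : ∀ C, Nat.card (e C).carrier = Nat.card C.carrier := fun C =>
    Equiv.ofFiberEquiv_map (f := fun C : ConjClasses G => Nat.card C.carrier)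
      (g := fun C : ConjClasses H => Nat.card C.carrier) (fun k => (he k).some) C
  have hc : ∀ C : ConjClasses G,
      Nonempty ({x : G // ConjClasses.mk x = C} ≃ {y : H // ConjClasses.mk y = e C}) := by
    intro C
    apply Finite.card_eq.mp
    have h1 : Nat.card {x : G // ConjClasses.mk x = C} = Nat.card C.carrier :=
      Nat.card_congr (Equiv.subtypeEquivRight fun x => ConjClasses.mem_carrier_iff_mk_eq.symm)
    have h2 : Nat.card {y : H // ConjClasses.mk y = e C} = Nat.card (e C).carrier :=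
      Nat.card_congr (Equiv.subtypeEquivRight fun x => ConjClasses.mem_carrier_iff_mk_eq.symm)
    rw [h1, h2, he']
  let φ : G ≃ H :=
    ((Equiv.sigmaFiberEquiv (fun x : G => ConjClasses.mk x)).symm.trans
      (Equiv.sigmaCongr e fun C => (hc C).some)).trans
      (Equiv.sigmaFiberEquiv (fun y : H => ConjClasses.mk y))
  refine ⟨φ, fun x => ?_⟩
  have hmk : ConjClasses.mk (φ x) = e (ConjClasses.mk x) :=
    ((hc (ConjClasses.mk x)).some ⟨x, rfl⟩).2
  rw [← card_carrier_eq, ← card_carrier_eq, hmk, he']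

/-- Let G and H be finite groups such that for every natural number k, G and H have the same number of conjugacy classes of size k. If H is nilpotent then G is nilpotent. -/
theorem result {G H : Type*} [Group G] [Finite G] [Group H] [Finite H]
    (hH : Group.IsNilpotent H)
    (h : ∀ k : ℕ, Nat.card {C : ConjClasses G // Nat.card C.carrier = k} = Nat.card {C : ConjClasses H // Nat.card C.carrier = k}) :
    Group.IsNilpotent G := by
  obtain ⟨φ, hφ⟩ := exists_equiv h
  refine ((Group.isNilpotent_of_finite_tfae (G := G)).out 0 3).mpr ?_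
  intro p hp P
  haveI : Fact p.Prime := hp
  obtain ⟨Q⟩ : Nonempty (Sylow p H) := inferInstance
  have hS : Nat.card {x : G // IsPP p x} = Nat.card {y : H // IsPP p y} :=
    Nat.card_congr (Equiv.subtypeEquiv φ fun x => by rw [IsPP, IsPP, hφ])
  have hZ : Nat.card (Subgroup.center G) = Nat.card (Subgroup.center H) := by
    apply Nat.card_congr
    refine Equiv.subtypeEquiv φ fun x => ⟨fun hx => ?_, fun hx => ?_⟩
    · exact mem_center_of_cls_eq_one (by rw [hφ, cls_one_of_mem_center hx])
    · exact mem_center_of_cls_eq_one (by rw [← hφ, cls_one_of_mem_center hx])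
  have hPQ : Nat.card P = Nat.card Q := by
    rw [Sylow.card_eq_multiplicity, Sylow.card_eq_multiplicity, Nat.card_congr φ]
  obtain ⟨i, hi, hi'⟩ := center_index_facts P
  obtain ⟨j, hj, hj'⟩ := center_index_facts Q
  have hc : (coreB p Q).relIndex (Subgroup.center H) = (coreB p P).relIndex (Subgroup.center G) :=
    nat_part_unique hp.out hj' hi' (hj.symm.trans (hZ.symm.trans hi))
  haveI := hH
  have heq : Nat.card (coreB p P) * Nat.card (ppImage p P) =
      Nat.card P * (coreB p P).relIndex (Subgroup.center G) := by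
    rw [← card_pp, hS, nilpotent_count Q, hc, hPQ]
  have hle : (coreB p P) ≤ (P : Subgroup G) := coreB_le p P
  have hmul : Nat.card (coreB p P) * (coreB p P).relIndex (P : Subgroup G) = Nat.card P := by
    have h1 := Subgroup.card_mul_index ((coreB p P).subgroupOf (P : Subgroup G))
    rw [Nat.card_congr (Subgroup.subgroupOfEquivOfLe hle).toEquiv] at h1
    exact h1
  rw [← hmul, mul_assoc] at heq
  have hm := Nat.eq_of_mul_eq_mul_left Nat.card_pos heq
  obtain ⟨k, hk⟩ := IsPGroup.iff_card.mp P.2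
  obtain ⟨r, -, hr⟩ := (Nat.dvd_prime_pow hp.out).mp
    (show (coreB p P).relIndex (P : Subgroup G) ∣ p ^ k from hk ▸ Dvd.intro_left _ hmul)
  have hr0 : r = 0 := by
    by_contra hr0
    have h1 := pp_modEq P
    rw [hm, hr] at h1
    have h2 : p ∣ p ^ r * (coreB p P).relIndex (Subgroup.center G) :=
      dvd_mul_of_dvd_left (dvd_pow_self p hr0) _
    exact hi' ((Nat.ModEq.dvd_iff h1 dvd_rfl).mp h2)
  have hPB : (P : Subgroup G) ≤ coreB p P :=
    Subgroup.relIndex_eq_one.mp (by rw [hr, hr0, pow_zero])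
  rw [le_antisymm hPB hle]
  infer_instance

end Cfsg.Agent.S4139
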