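import Cfsg.Statements.S4142
import Cfsg.Agent.FGS3.ClassSize
-- import your own Cfsg.Agent.* helpers here

set_option autoImplicit false
open Cfsg

namespace Cfsg.Agent.S4142

theorem card_class_preimage {G : Type*} [Group G] [Finite G] (N : Subgroup G) [N.Normal] (q : G ⧸ N) :
    Nat.card {y : G // IsConj q (y : G ⧸ N)} = Nat.card {z : G ⧸ N // IsConj q z} * Nat.card N := by
  classical
  haveI := Fintype.ofFinite {z : G ⧸ N // IsConj q z}
  rw [← Nat.card_congr (Equiv.sigmaSubtypeFiberEquivSubtype (fun y : G => (y : G ⧸ N))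
    (p := fun y => IsConj q (y : G ⧸ N)) (q := fun z => IsConj q z) (fun y => Iff.rfl)), Nat.card_sigma]
  have : ∀ z : {z : G ⧸ N // IsConj q z}, Nat.card {y : G // (y : G ⧸ N) = z} = Nat.card N := by
    rintro ⟨z, hz⟩
    obtain ⟨a, rfl⟩ := QuotientGroup.mk_surjective z
    exact Nat.card_congr ((Equiv.mulLeft a⁻¹).subtypeEquiv fun x => eq_comm.trans QuotientGroup.eq)
  rw [Finset.sum_congr rfl fun z _ => this z, Finset.sum_const, Finset.card_univ, smul_eq_mul,
    Nat.card_eq_fintype_card (α := {z : G ⧸ N // IsConj q z})]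


/-- Let G be a finite group and N a normal subgroup. Then the conjugacy class of every element g outside N is a union of cosets of N (gn is conjugate to g for all n ∈ N) if and only if for every g outside N the centralizer of g in G has the same order as the centralizer of gN in G/N. -/
theorem result {G : Type*} [Group G] [Finite G] (N : Subgroup G) [N.Normal] :
    (∀ g : G, g ∉ N → ∀ n ∈ N, ∃ x : G, x * g * x⁻¹ = g * n) ↔
      ∀ g : G, g ∉ N → Nat.card (Subgroup.centralizer ({g} : Set G)) =
        Nat.card (Subgroup.centralizer ({(QuotientGroup.mk g : G ⧸ N)} : Set (G ⧸ N))) := by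
  have hsub : ∀ g : G, {y : G | IsConj g y} ⊆ {y : G | IsConj (g : G ⧸ N) (y : G ⧸ N)} :=
    fun g y hy => (QuotientGroup.mk' N).map_isConj hy
  have hG : Nat.card G = Nat.card (G ⧸ N) * Nat.card N := Subgroup.card_eq_card_quotient_mul_card_subgroup N
  have key : ∀ g : G, (Nat.card (Subgroup.centralizer ({g} : Set G)) =
        Nat.card (Subgroup.centralizer ({(QuotientGroup.mk g : G ⧸ N)} : Set (G ⧸ N)))) ↔
      {y : G | IsConj g y} = {y : G | IsConj (g : G ⧸ N) (y : G ⧸ N)} := by
    intro g
    have h1 := Cfsg.Agent.FGS3.card_isConj_mul_card_centralizer g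
    have h2 := Cfsg.Agent.FGS3.card_isConj_mul_card_centralizer (g : G ⧸ N)
    have h3 := card_class_preimage N (g : G ⧸ N)
    have h0 : 0 < Nat.card (Subgroup.centralizer ({g} : Set G)) := Nat.card_pos
    have h0' : 0 < Nat.card {y : G // IsConj g y} := Nat.card_pos_iff.2 ⟨⟨⟨g, IsConj.refl g⟩⟩, inferInstance⟩
    constructor
    · intro h
      refine Set.eq_of_subset_of_ncard_le (hsub g) ?_ (Set.toFinite _)
      rw [← Nat.card_coe_set_eq, ← Nat.card_coe_set_eq]
      refine le_of_eq (h3.trans (Nat.eq_of_mul_eq_mul_right h0 ?_))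
      exact ((mul_right_comm _ _ _).trans ((congrArg (· * Nat.card N) (by rw [h]; exact h2)).trans hG.symm)).trans h1.symm
    · intro h
      have h4 : Nat.card {y : G // IsConj g y} = Nat.card {z : G ⧸ N // IsConj (g : G ⧸ N) z} * Nat.card N :=
        (Nat.card_congr (Equiv.setCongr h)).trans h3
      apply Nat.eq_of_mul_eq_mul_left h0'
      rw [h1, h4, mul_right_comm, h2, ← hG]
  constructor
  · intro h g hg
    rw [key g]
    refine Set.Subset.antisymm (hsub g) fun y hy => ?_
    obtain ⟨c, hc⟩ := isConj_iff.1 hy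
    obtain ⟨a, rfl⟩ := QuotientGroup.mk_surjective c
    rw [← QuotientGroup.mk_inv, ← QuotientGroup.mk_mul, ← QuotientGroup.mk_mul, QuotientGroup.eq] at hc
    have hm := Subgroup.Normal.conj_mem inferInstance _ hc a⁻¹
    obtain ⟨x, hx⟩ := h g hg _ hm
    exact isConj_iff.2 ⟨a * x, by rw [mul_inv_rev]; calc a * x * g * (x⁻¹ * a⁻¹) = a * (x * g * x⁻¹) * a⁻¹ := by group
      _ = y := by rw [hx]; group⟩
  · intro h g hg n hn
    have : g * n ∈ {y : G | IsConj g y} := by
      rw [(key g).1 (h g hg)]
      show IsConj (g : G ⧸ N) ((g * n : G) : G ⧸ N)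
      rw [QuotientGroup.mk_mul, (QuotientGroup.eq_one_iff n).2 hn, mul_one]
    exact isConj_iff.1 this

end Cfsg.Agent.S4142
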