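import Cfsg.Statements.S4144
import Cfsg.Agent.Fusion.MaxClassPower

set_option autoImplicit false
open Cfsg Cfsg.Agent.Fusion Cfsg.FusionSystem

namespace Cfsg.Agent.S4144

/-- Let X be a finite p-group of order p^n, n ≥ 2, of nilpotency class n − 1 (maximal class), and H any subgroup of X. Then the index in H of the subgroup generated by the p-th powers of elements of H is at most p^p. -/
theorem result {X : Type*} [Group X] [Finite X] {p : ℕ} [Fact p.Prime] (n : ℕ) (hn : 2 ≤ n) (hX : Nat.card X = p ^ n)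
    (hmax : Group.nilpotencyClass X = n - 1) (H : Subgroup X) :
    (Subgroup.closure {y : X | ∃ h ∈ H, y = h ^ p}).relIndex H ≤ p ^ p := by
  have hp : p.Prime := Fact.out
  set W := Subgroup.closure {y : X | ∃ h ∈ H, y = h ^ p}
  have hWH : W ≤ H := (Subgroup.closure_le H).2 fun y ⟨h, hh, e⟩ => e ▸ pow_mem hh p
  have hmul := Subgroup.relIndex_mul_relIndex ⊥ W H bot_le hWH
  rw [Subgroup.relIndex_bot_left, Subgroup.relIndex_bot_left] at hmul
  by_cases hnp : n ≤ p
  · refine le_trans ?_ (Nat.pow_le_pow_right hp.pos hnp)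
    calc W.relIndex H ≤ Nat.card W * W.relIndex H := Nat.le_mul_of_pos_left _ Nat.card_pos
      _ = Nat.card H := hmul
      _ ≤ p ^ n := hX ▸ Subgroup.card_le_card_group H
  · have hM : Cfsg.Agent.Fusion.MaxPow.Mx p n X := ⟨hX, by have := hp.two_le; omega, hmax⟩
    have h1 := hM.card_le_pow (by omega) (H := H) (W := W) fun x hx => Subgroup.subset_closure ⟨x, hx, rfl⟩
    rw [← hmul, mul_comm] at h1
    exact Nat.le_of_mul_le_mul_right h1 Nat.card_pos

end Cfsg.Agent.S4144
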