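import Cfsg.Statements.S4149
import Mathlib

set_option autoImplicit false
open Cfsg

namespace Cfsg.Agent.S4149

open scoped Classical in
/-- Elements centralising some Sylow `p`-subgroup. -/
theorem two_mul_card_le {G : Type*} [Group G] [Finite G] {p : ℕ} (hp : p.Prime)
    (hnc : ¬ Cfsg.HasNormalPComplement p G) :
    2 * Nat.card {x : G // ¬ p ∣ (Subgroup.centralizer ({x} : Set G)).index} ≤ Nat.card G := by
  haveI : Fact p.Prime := ⟨hp⟩
  obtain ⟨P⟩ : Nonempty (Sylow p G) := inferInstance
  set C := Subgroup.centralizer ((P : Subgroup G) : Set G) with hC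
  set N := Subgroup.normalizer ((P : Subgroup G) : Set G) with hN
  have hCN : C ≤ N := Subgroup.centralizer_le_normalizer _
  have hne : C ≠ N := by
    intro h
    apply hnc
    have hle : N ≤ Subgroup.centralizer ((P : Subgroup G) : Set G) := h.symm.le
    exact ⟨P, (MonoidHom.transferSylow P hle).ker, inferInstance,
      MonoidHom.ker_transferSylow_isComplement' P hle⟩
  have h2 : 2 * Nat.card C ≤ Nat.card N := by
    obtain ⟨k, hk⟩ := Subgroup.card_dvd_of_le hCN
    have h0 : 0 < Nat.card N := Nat.card_pos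
    rcases k with _ | _ | k
    · rw [hk] at h0; simp at h0
    · exact absurd (Subgroup.eq_of_le_of_card_ge hCN (by rw [hk]; simp)) hne
    · rw [hk]; nlinarith
  have hcov : ∀ x : {x : G // ¬ p ∣ (Subgroup.centralizer ({x} : Set G)).index},
      ∃ Q : Sylow p G, (x : G) ∈ Subgroup.centralizer ((Q : Subgroup G) : Set G) := by
    intro x
    set K := Subgroup.centralizer ({(x : G)} : Set G) with hK
    obtain ⟨R⟩ : Nonempty (Sylow p K) := inferInstance
    have hR : ¬ p ∣ (((R : Subgroup K)).map K.subtype).index := by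
      rw [Subgroup.index_map_subtype]
      intro hd
      rcases (Nat.Prime.dvd_mul hp).1 hd with hd | hd
      · exact R.not_dvd_index hd
      · exact x.2 hd
    have hRp : IsPGroup p ((R : Subgroup K).map K.subtype) := R.2.map _
    refine ⟨hRp.toSylow hR, ?_⟩
    rw [Subgroup.mem_centralizer_iff]
    intro y hy
    obtain ⟨z, -, rfl⟩ := Subgroup.mem_map.1 hy
    have hz := Subgroup.mem_centralizer_iff.1 z.2 (x : G) rfl
    exact hz.symm
  choose Q hQ using hcov
  have hconj : ∀ Q' : Sylow p G,
      Nat.card (Subgroup.centralizer ((Q' : Subgroup G) : Set G)) = Nat.card C := by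
    intro Q'
    obtain ⟨g, hg⟩ := MulAction.exists_smul_eq G P Q'
    subst hg
    refine (Nat.card_congr ?_).symm
    refine (MulAut.conj g).toEquiv.subtypeEquiv ?_
    intro a
    simp only [hC, Subgroup.mem_centralizer_iff, MulEquiv.toEquiv_eq_coe, MulEquiv.coe_toEquiv,
      MulAut.conj_apply, SetLike.mem_coe, Sylow.coe_subgroup_smul]
    constructor
    · intro h y hy
      obtain ⟨z, hz, rfl⟩ := Subgroup.mem_smul_pointwise_iff_exists _ _ _ |>.1 hy
      have hz' := h z hz
      simp only [MulAut.smul_def, MulAut.conj_apply]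
      calc g * z * g⁻¹ * (g * a * g⁻¹) = g * (z * a) * g⁻¹ := by group
        _ = g * (a * z) * g⁻¹ := by rw [hz']
        _ = _ := by group
    · intro h z hz
      have hy := h (MulAut.conj g z) (Subgroup.smul_mem_pointwise_smul _ (MulAut.conj g) _ hz)
      simp only [MulAut.conj_apply] at hy
      calc z * a = g⁻¹ * (g * z * g⁻¹ * (g * a * g⁻¹)) * g := by group
        _ = g⁻¹ * (g * a * g⁻¹ * (g * z * g⁻¹)) * g := by rw [hy]
        _ = a * z := by group
  haveI : Fintype (Sylow p G) := Fintype.ofFinite _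
  have hle : Nat.card {x : G // ¬ p ∣ (Subgroup.centralizer ({x} : Set G)).index} ≤
      Nat.card (Sylow p G) * Nat.card C := by
    refine le_trans (Nat.card_le_card_of_injective
      (fun x => (⟨Q x, ⟨(x : G), hQ x⟩⟩ : Σ Q' : Sylow p G,
        Subgroup.centralizer ((Q' : Subgroup G) : Set G))) ?_) ?_
    · intro a b h
      exact Subtype.ext (congrArg (fun s : Σ Q' : Sylow p G,
        Subgroup.centralizer ((Q' : Subgroup G) : Set G) => (s.2 : G)) h)
    · rw [Nat.card_sigma, Finset.sum_congr rfl (fun Q' _ => hconj Q'), Finset.sum_const,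
        Finset.card_univ, smul_eq_mul, Nat.card_eq_fintype_card (α := Sylow p G)]
  have hidx : Nat.card (Sylow p G) * Nat.card N = Nat.card G := by
    rw [Sylow.card_eq_index_normalizer P]
    exact Subgroup.index_mul_card _
  calc 2 * Nat.card {x : G // ¬ p ∣ (Subgroup.centralizer ({x} : Set G)).index}
      ≤ Nat.card (Sylow p G) * (2 * Nat.card C) := by rw [Nat.mul_left_comm]; omega
    _ ≤ Nat.card (Sylow p G) * Nat.card N := Nat.mul_le_mul_left _ h2
    _ = Nat.card G := hidx

/-- Let G be a finite group that has a normal p-complement for at most one prime p dividing its order, and let σ be a natural number such that every conjugacy class size of G has at most σ distinct prime divisors. Then the number of primes dividing at least one conjugacy class size of G is at most 2σ. -/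
theorem result {G : Type*} [Group G] [Finite G] (σ : ℕ)
    (hσ : ∀ x : G, ((Subgroup.centralizer ({x} : Set G)).index).primeFactors.card ≤ σ)
    (hnil : ∀ p q : ℕ, p.Prime → q.Prime → p ∣ Nat.card G → q ∣ Nat.card G →
      Cfsg.HasNormalPComplement p G → Cfsg.HasNormalPComplement q G → p = q) :
    Nat.card {p : ℕ | p.Prime ∧ ∃ x : G, p ∣ (Subgroup.centralizer ({x} : Set G)).index} ≤ 2 * σ := by
  classical
  haveI : Fintype G := Fintype.ofFinite G
  set f : G → ℕ := fun x => (Subgroup.centralizer ({x} : Set G)).index with hf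
  have hcard : ∀ x : G, f x ∣ Nat.card G := fun x => Subgroup.index_dvd_card _
  set R : Finset ℕ := (Nat.card G).primeFactors.filter (fun p => ∃ x : G, p ∣ f x) with hR
  have hset : {p : ℕ | p.Prime ∧ ∃ x : G, p ∣ f x} = (R : Set ℕ) := by
    ext p
    simp only [hR, Set.mem_setOf_eq, Finset.coe_filter, Nat.mem_primeFactors]
    constructor
    · rintro ⟨hp, x, hx⟩
      exact ⟨⟨hp, hx.trans (hcard x), Nat.card_pos.ne'⟩, x, hx⟩
    · rintro ⟨⟨hp, -, -⟩, hx⟩
      exact ⟨hp, hx⟩
  change Nat.card {p : ℕ | p.Prime ∧ ∃ x : G, p ∣ f x} ≤ 2 * σ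
  rw [hset, Nat.card_coe_set_eq, Set.ncard_coe_finset]
  by_contra hcon
  push Not at hcon
  -- every element sees at most σ of the primes
  have hsee : ∀ x : G, (R.filter (fun p => p ∣ f x)).card ≤ σ := by
    intro x
    refine le_trans (Finset.card_le_card ?_) (hσ x)
    intro p hp
    simp only [hR, Finset.mem_filter, Nat.mem_primeFactors] at hp ⊢
    exact ⟨hp.1.1.1, hp.2, Subgroup.index_ne_zero_of_finite⟩
  have hswap : ∑ x : G, (R.filter (fun p => p ∣ f x)).card =
      ∑ p ∈ R, (Finset.univ.filter (fun x : G => p ∣ f x)).card := by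
    simp only [Finset.card_filter]
    exact Finset.sum_comm
  have hpr : ∀ p ∈ R, p.Prime ∧ p ∣ Nat.card G ∧ ∃ x : G, p ∣ f x := by
    intro p hp
    simp only [hR, Finset.mem_filter, Nat.mem_primeFactors] at hp
    exact ⟨hp.1.1, hp.1.2.1, hp.2⟩
  have hgood : ∀ p ∈ R, ¬ Cfsg.HasNormalPComplement p G →
      Fintype.card G ≤ 2 * (Finset.univ.filter (fun x : G => p ∣ f x)).card := by
    intro p hp hnc
    have h := two_mul_card_le (hpr p hp).1 hnc
    rw [Nat.card_eq_fintype_card, Fintype.card_subtype, Nat.card_eq_fintype_card] at h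
    have hs := Finset.card_filter_add_card_filter_not (s := (Finset.univ : Finset G))
      (fun x : G => p ∣ f x)
    rw [Finset.card_univ] at hs
    simp only [hf] at hs ⊢
    omega
  set B := R.filter (fun p => Cfsg.HasNormalPComplement p G) with hB
  have hB1 : B.card ≤ 1 := by
    rw [Finset.card_le_one]
    intro a ha b hb
    simp only [hB, Finset.mem_filter] at ha hb
    exact hnil a b (hpr a ha.1).1 (hpr b hb.1).1 (hpr a ha.1).2.1 (hpr b hb.1).2.1 ha.2 hb.2
  set D := R.filter (fun p => ¬ Cfsg.HasNormalPComplement p G) with hD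
  have hsplit : B.card + D.card = R.card := Finset.card_filter_add_card_filter_not _
  have hDsum : D.card * Fintype.card G ≤
      ∑ p ∈ D, 2 * (Finset.univ.filter (fun x : G => p ∣ f x)).card := by
    rw [← smul_eq_mul, ← Finset.sum_const]
    exact Finset.sum_le_sum (fun p hp => hgood p (Finset.mem_filter.1 hp).1 (Finset.mem_filter.1 hp).2)
  have hBsum : B.card ≤ ∑ p ∈ B, 2 * (Finset.univ.filter (fun x : G => p ∣ f x)).card := by
    rw [Finset.card_eq_sum_ones]
    refine Finset.sum_le_sum (fun p hp => ?_)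
    obtain ⟨x, hx⟩ := (hpr p (Finset.mem_filter.1 hp).1).2.2
    have : 0 < (Finset.univ.filter (fun x : G => p ∣ f x)).card :=
      Finset.card_pos.2 ⟨x, Finset.mem_filter.2 ⟨Finset.mem_univ _, hx⟩⟩
    omega
  have htot : ∑ p ∈ R, 2 * (Finset.univ.filter (fun x : G => p ∣ f x)).card =
      ∑ p ∈ B, 2 * (Finset.univ.filter (fun x : G => p ∣ f x)).card +
      ∑ p ∈ D, 2 * (Finset.univ.filter (fun x : G => p ∣ f x)).card :=
    (Finset.sum_filter_add_sum_filter_not R _ _).symm
  have hup : ∑ p ∈ R, 2 * (Finset.univ.filter (fun x : G => p ∣ f x)).card ≤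
      2 * σ * Fintype.card G := by
    rw [← Finset.mul_sum, ← hswap, mul_assoc]
    refine Nat.mul_le_mul_left 2 ?_
    refine le_trans (Finset.sum_le_sum (fun x _ => hsee x)) ?_
    simp [mul_comm]
  rcases Nat.eq_zero_or_pos B.card with h0 | h0
  · have : (2 * σ + 1) * Fintype.card G ≤ D.card * Fintype.card G :=
      Nat.mul_le_mul_right _ (by omega)
    have hG : 0 < Fintype.card G := Fintype.card_pos
    nlinarith
  · have : (2 * σ) * Fintype.card G ≤ D.card * Fintype.card G :=
      Nat.mul_le_mul_right _ (by omega)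
    omega

end Cfsg.Agent.S4149
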