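import Cfsg.Statements.S4150
import Cfsg.Agent.Transfer.AltGenMain

set_option autoImplicit false
open Cfsg

namespace Cfsg.Agent.S4150

/-- Let m ≥ 5. Then there are primes p < q with m/2 ≤ p and q ≤ m such that any two elements x, y of the alternating group of degree m with x of order p and y of order q generate a subgroup isomorphic to an alternating group of some degree d ≥ 5. -/
theorem result (m : ℕ) (hm : 5 ≤ m) :
    ∃ p q : ℕ, p.Prime ∧ q.Prime ∧ m ≤ 2 * p ∧ p < q ∧ q ≤ m ∧
      ∀ x y : alternatingGroup (Fin m), orderOf x = p → orderOf y = q →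
        ∃ d : ℕ, 5 ≤ d ∧ Nonempty (Subgroup.closure ({x, y} : Set (alternatingGroup (Fin m))) ≃* alternatingGroup (Fin d)) := by
  obtain ⟨p, q, hp, hq, h1, h2, h3, h4, h5, h6, h7⟩ := Transfer.AltGen.choose_primes m hm
  exact ⟨p, q, hp, hq, h1, h2, h3, fun x y hx hy =>
    Transfer.AltGen.main m p q hp hq h2 h3 h1 h4 h5 h6 h7 x y hx hy⟩

end Cfsg.Agent.S4150
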