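import Cfsg.Statements.S4153
-- import your own Cfsg.Agent.* helpers here

set_option autoImplicit false
open Cfsg

namespace Cfsg.Agent.S4153

theorem card_fiber_le {G : Type*} [Group G] [Finite G] {p : ℕ} [Fact p.Prime] (N : Subgroup G) [N.Normal]
    (P : Sylow p G) (q : G ⧸ N) (hq : ∃ k, orderOf q = p ^ k) :
    Nat.card ↥((P : Subgroup G) ⊓ N) ≤
        Nat.card {g : {g : G // ∃ k : ℕ, orderOf g = p ^ k} // ((g : G) : G ⧸ N) = q} ∧
      (N ≤ Subgroup.center G → Nat.card {g : {g : G // ∃ k : ℕ, orderOf g = p ^ k} // ((g : G) : G ⧸ N) = q} ≤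
        Nat.card ↥((P : Subgroup G) ⊓ N)) := by
  obtain ⟨k, hk⟩ := hq
  obtain ⟨Qb, hQb⟩ := (IsPGroup.of_card (n := k) (show Nat.card (Subgroup.zpowers q) = p ^ k by
    rw [Nat.card_zpowers, hk])).exists_le_sylow
  obtain ⟨c, hc⟩ := MulAction.exists_smul_eq (G ⧸ N) (P.mapSurjective (QuotientGroup.mk'_surjective N)) Qb
  obtain ⟨a, rfl⟩ := QuotientGroup.mk_surjective c
  have hq2 : q ∈ (Qb : Subgroup (G ⧸ N)) := hQb (Subgroup.mem_zpowers q)
  rw [← hc, ← SetLike.mem_coe, Sylow.coe_subgroup_smul, Subgroup.coe_pointwise_smul] at hq2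
  obtain ⟨w, ⟨y, hy, rfl⟩, hw⟩ := hq2
  subst q
  have hpe : ∀ z ∈ (P : Subgroup G), ∃ k, orderOf (a * z * a⁻¹) = p ^ k := by
    intro z hz
    obtain ⟨k, hk⟩ := IsPGroup.iff_orderOf.1 P.isPGroup' ⟨z, hz⟩
    exact ⟨k, by rw [← hk, ← MulAut.conj_apply, MulEquiv.orderOf_eq]; exact Subgroup.orderOf_coe (⟨z, hz⟩ : (P : Subgroup G))⟩
  refine ⟨?_, fun hN => ?_⟩
  · refine Nat.card_le_card_of_injective
      (fun n => ⟨⟨a * (y * n.1) * a⁻¹, hpe _ (mul_mem hy n.2.1)⟩, ?_⟩) ?_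
    · have h1 : ((n.1 : G) : G ⧸ N) = 1 := (QuotientGroup.eq_one_iff _).2 n.2.2
      show ((a * (y * n.1) * a⁻¹ : G) : G ⧸ N) = _
      simp [h1, MulAut.conj_apply]
    · intro n m h
      have h' := congrArg (fun z => z.1.1) h
      exact Subtype.ext (mul_left_cancel (mul_left_cancel (mul_right_cancel h')))
  · refine Nat.card_le_card_of_injective (fun g => ⟨(a * y * a⁻¹)⁻¹ * g.1.1, ?_⟩) ?_
    · have hmem : (a * y * a⁻¹)⁻¹ * g.1.1 ∈ N := by
        rw [← QuotientGroup.eq, g.2]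
        simp [MulAut.conj_apply]
      refine ⟨?_, hmem⟩
      set n := (a * y * a⁻¹)⁻¹ * g.1.1 with hn
      have hcom : ∀ z, Commute z n := fun z => (Subgroup.mem_center_iff.1 (hN hmem) z)
      obtain ⟨i, hi⟩ := g.1.2
      obtain ⟨j, hj⟩ := hpe y hy
      have hnp : n ^ p ^ (i + j) = 1 := by
        have h1 : (g.1.1) ^ p ^ (i + j) = 1 := orderOf_dvd_iff_pow_eq_one.1 (hi ▸ pow_dvd_pow p (Nat.le_add_right i j))
        have h2 : (a * y * a⁻¹) ^ p ^ (i + j) = 1 := orderOf_dvd_iff_pow_eq_one.1 (hj ▸ pow_dvd_pow p (Nat.le_add_left j i))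
        rw [show g.1.1 = (a * y * a⁻¹) * n by simp only [hn]; group, (hcom _).mul_pow, h2, one_mul] at h1
        exact h1
      obtain ⟨l, -, hl⟩ := (Nat.dvd_prime_pow Fact.out).1 (orderOf_dvd_of_pow_eq_one hnp)
      obtain ⟨R, hR⟩ := (IsPGroup.of_card (n := l) (show Nat.card (Subgroup.zpowers n) = p ^ l by
        rw [Nat.card_zpowers, hl])).exists_le_sylow
      obtain ⟨d, hd⟩ := MulAction.exists_smul_eq G R P
      rw [← hd]
      have h3 := Subgroup.smul_mem_pointwise_smul n (MulAut.conj d) _ (hR (Subgroup.mem_zpowers n))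
      rwa [MulAut.smul_def, MulAut.conj_apply, (hcom d).eq, mul_inv_cancel_right, ← Sylow.coe_subgroup_smul] at h3
    · intro g g' h
      exact Subtype.ext (Subtype.ext (mul_left_cancel (congrArg Subtype.val h)))


/-- Let G be a finite group, p a prime, N a normal subgroup, P a Sylow p-subgroup of G and P̄ a Sylow p-subgroup of G/N. Count the elements of p-power order, the identity included. Then (number of such elements of G/N)/#P̄ ≤ (number of such elements of G)/#P, stated as a cross-multiplied inequality, with equality when N is central. -/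
theorem result {G : Type*} [Group G] [Finite G] (p : ℕ) [Fact p.Prime] (N : Subgroup G) [N.Normal]
    (P : Sylow p G) (Pbar : Sylow p (G ⧸ N)) :
    Nat.card {g : (G ⧸ N) // ∃ k : ℕ, orderOf g = p ^ k} * Nat.card (P : Subgroup G) ≤ Nat.card {g : G // ∃ k : ℕ, orderOf g = p ^ k} * Nat.card (Pbar : Subgroup (G ⧸ N)) ∧
    (N ≤ Subgroup.center G → Nat.card {g : (G ⧸ N) // ∃ k : ℕ, orderOf g = p ^ k} * Nat.card (P : Subgroup G) = Nat.card {g : G // ∃ k : ℕ, orderOf g = p ^ k} * Nat.card (Pbar : Subgroup (G ⧸ N))) := by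
  classical
  let E := {g : G // ∃ k : ℕ, orderOf g = p ^ k}
  let Eb := {g : (G ⧸ N) // ∃ k : ℕ, orderOf g = p ^ k}
  haveI := Fintype.ofFinite Eb
  let π : E → Eb := fun g => ⟨((g.1 : G) : G ⧸ N), by
    obtain ⟨k, hk⟩ := g.2
    obtain ⟨j, -, hj⟩ := (Nat.dvd_prime_pow Fact.out).1 (hk ▸ orderOf_map_dvd (QuotientGroup.mk' N) g.1)
    exact ⟨j, hj⟩⟩
  have hfib : ∀ q : Eb, Nat.card {g : E // π g = q} = Nat.card {g : E // ((g : G) : G ⧸ N) = q.1} := fun q =>
    Nat.card_congr (Equiv.subtypeEquivRight fun g => Subtype.ext_iff)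
  have hE : Nat.card E = ∑ q : Eb, Nat.card {g : E // π g = q} := by
    rw [← Nat.card_congr (Equiv.sigmaFiberEquiv π), Nat.card_sigma]
  have hP : Nat.card (P : Subgroup G) = Nat.card ↥((P : Subgroup G) ⊓ N) * Nat.card (Pbar : Subgroup (G ⧸ N)) := by
    rw [Nat.card_congr (Sylow.equiv Pbar (P.mapSurjective (QuotientGroup.mk'_surjective N))).toEquiv,
      Sylow.coe_mapSurjective]
    have h := Subgroup.relIndex_mul_relIndex (⊥ : Subgroup G) ((P : Subgroup G) ⊓ N) P bot_le inf_le_left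
    rw [Subgroup.inf_relIndex_left, Subgroup.relIndex_bot_left, Subgroup.relIndex_bot_left] at h
    rw [← h]
    congr 1
    conv_lhs => rw [← QuotientGroup.ker_mk' N]
    exact Subgroup.relIndex_ker _ _
  have hEb : Nat.card Eb * Nat.card ↥((P : Subgroup G) ⊓ N) = ∑ _q : Eb, Nat.card ↥((P : Subgroup G) ⊓ N) := by
    rw [Finset.sum_const, Finset.card_univ, smul_eq_mul, Nat.card_eq_fintype_card (α := Eb)]
  have hle : Nat.card Eb * Nat.card ↥((P : Subgroup G) ⊓ N) ≤ Nat.card E := by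
    rw [hEb, hE]
    exact Finset.sum_le_sum fun q _ => (card_fiber_le N P q.1 q.2).1.trans_eq (hfib q).symm
  rw [hP, ← mul_assoc]
  refine ⟨Nat.mul_le_mul_right _ hle, fun hN => congrArg (· * _) (le_antisymm hle ?_)⟩
  rw [hEb, hE]
  exact Finset.sum_le_sum fun q _ => (hfib q).trans_le ((card_fiber_le N P q.1 q.2).2 hN)

end Cfsg.Agent.S4153
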