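import Cfsg.Statements.S4154
-- import your own Cfsg.Agent.* helpers here

set_option autoImplicit false
open Cfsg

namespace Cfsg.Agent.S4154

/-- Let G be a finite group and α an automorphism of G such that every element of G is the product of an element fixed by α and an element of the form g⁻¹α(g). If N is a normal α-invariant subgroup, then the automorphism ᾱ induced on G/N has the same property, and every coset fixed by ᾱ contains an element fixed by α (so the fixed points of ᾱ are the images of the fixed points of α). -/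
theorem result {G : Type*} [Group G] [Finite G] (α : MulAut G)
    (hccp : ∀ x : G, ∃ c g : G, α c = c ∧ x = c * (g⁻¹ * α g))
    (N : Subgroup G) [N.Normal] (hN : ∀ n ∈ N, α n ∈ N) :
    (∀ x : G, ∃ c g : G, c⁻¹ * α c ∈ N ∧ x⁻¹ * (c * (g⁻¹ * α g)) ∈ N) ∧
    (∀ x : G, x⁻¹ * α x ∈ N → ∃ c : G, α c = c ∧ c⁻¹ * x ∈ N) := by
  refine ⟨fun x => ?_, fun x hx => ?_⟩
  · obtain ⟨c, g, hc, hx⟩ := hccp x
    exact ⟨c, g, by rw [hc]; simp, by rw [← hx]; simp⟩
  classical
  let f : G ⧸ N →* G ⧸ N := QuotientGroup.map N N α.toMonoidHom fun n hn => hN n hn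
  have hf : ∀ g : G, f (g : G ⧸ N) = ((α g : G) : G ⧸ N) := fun g => rfl
  let Cb : Subgroup (G ⧸ N) := f.eqLocus (MonoidHom.id _)
  let S : Set (G ⧸ N) := (QuotientGroup.mk : G → G ⧸ N) '' {c : G | α c = c}
  let I : Set (G ⧸ N) := Set.range fun q : G ⧸ N => q⁻¹ * f q
  have hSC : S ⊆ (Cb : Set (G ⧸ N)) := by
    rintro _ ⟨c, hc, rfl⟩
    show f _ = _
    rw [hf, show α c = c from hc]
    rfl
  have hmem : ∀ q, q ∈ Cb ↔ f q = q := fun q => Iff.rfl
  have h1 : Nat.card (G ⧸ N) ≤ Nat.card (S × I) := by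
    refine Nat.card_le_card_of_surjective (fun a => a.1.1 * a.2.1) fun q => ?_
    obtain ⟨y, rfl⟩ := QuotientGroup.mk_surjective q
    obtain ⟨c, g, hc, rfl⟩ := hccp y
    exact ⟨(⟨(c : G ⧸ N), c, hc, rfl⟩, ⟨((g⁻¹ * α g : G) : G ⧸ N), (g : G ⧸ N), by simp [hf]⟩), by simp⟩
  choose s hs using fun i : I => i.2
  have h2 : Nat.card (Cb × I) ≤ Nat.card (G ⧸ N) := by
    refine Nat.card_le_card_of_injective (fun a => a.1.1 * s a.2) ?_
    rintro ⟨⟨a, ha⟩, i⟩ ⟨⟨b, hb⟩, j⟩ h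
    rw [hmem] at ha hb
    have hi : (a * s i)⁻¹ * f (a * s i) = i.1 := by rw [map_mul, ha, mul_inv_rev]; simp only [← hs i]; group
    have hj : (b * s j)⁻¹ * f (b * s j) = j.1 := by rw [map_mul, hb, mul_inv_rev]; simp only [← hs j]; group
    simp only at h
    rw [h, hj] at hi
    obtain rfl : i = j := Subtype.ext hi.symm
    simp [mul_right_cancel h]
  rw [Nat.card_prod] at h1 h2
  haveI : Nonempty I := ⟨⟨_, 1, rfl⟩⟩
  have h3 : Nat.card Cb ≤ Nat.card S := Nat.le_of_mul_le_mul_right (h2.trans h1) Nat.card_pos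
  have hEq : S = (Cb : Set (G ⧸ N)) := Set.eq_of_subset_of_ncard_le hSC (by rw [← Nat.card_coe_set_eq, ← Nat.card_coe_set_eq]; exact h3) (Set.toFinite _)
  have hxC : (x : G ⧸ N) ∈ Cb := by
    rw [hmem, hf, QuotientGroup.eq]
    have h := inv_mem hx
    rwa [mul_inv_rev, inv_inv] at h
  rw [← SetLike.mem_coe, ← hEq] at hxC
  obtain ⟨c, hc, hcx⟩ := hxC
  exact ⟨c, hc, QuotientGroup.eq.1 hcx⟩

end Cfsg.Agent.S4154
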