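import Cfsg.Statements.S4155
import Cfsg.Agent.OddLocal.FPF
import Cfsg.Agent.OddLocal.Basic
import Cfsg.Agent.Core.Cores
-- import your own Cfsg.Agent.* helpers here

set_option autoImplicit false
open Cfsg Cfsg.Agent

namespace Cfsg.Agent.S4155

/-- Let G be a finite group and N a proper non-trivial normal nilpotent subgroup whose order is not a prime power, such that for every x outside N all elements of the coset xN have the same order as x. Then N is the Fitting subgroup of G, and for every prime q every Sylow q-subgroup of G/N is cyclic or generalized quaternion. -/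
theorem result {G : Type*} [Group G] [Finite G] (N : Subgroup G) [N.Normal] (hN1 : N ≠ ⊥) (hN2 : N ≠ ⊤)
    (heq : ∀ x : G, x ∉ N → ∀ n ∈ N, orderOf (x * n) = orderOf x)
    (hnil : Group.IsNilpotent N) (hnpp : ¬ IsPrimePow (Nat.card N)) :
    N = Cfsg.fittingSubgroup G ∧
    ∀ (q : ℕ) [Fact q.Prime] (Q : Sylow q (G ⧸ N)), IsCyclic (Q : Subgroup (G ⧸ N)) ∨ ∃ n : ℕ, Nonempty ((Q : Subgroup (G ⧸ N)) ≃* QuaternionGroup (2 ^ n)) := by
  haveI := hnil
  have two : ∀ q : ℕ, q.Prime → ∃ r, r.Prime ∧ r ≠ q ∧ r ∣ Nat.card N := by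
    intro q hq
    by_contra hcon
    push Not at hcon
    have h1 : Nat.card N ≠ 1 := fun h => hN1 (Subgroup.card_eq_one.1 h)
    have e := Nat.eq_prime_pow_of_unique_prime_dvd (n := Nat.card N) (p := q) Nat.card_pos.ne'
      fun {r} hr hrd => by_contra fun h => hcon r hr h hrd
    refine hnpp ((isPrimePow_nat_iff _).2 ⟨q, _, hq, Nat.pos_of_ne_zero fun h => h1 ?_, e.symm⟩)
    rw [e, h, pow_zero]
  -- an element outside `N` centralizes no nontrivial element of `N` of coprime order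
  have key : ∀ x : G, x ∉ N → ∀ k ∈ N, (orderOf x).Coprime (orderOf k) → Commute x k → k = 1 := by
    intro x hx k hk hcop hc
    have h := heq x hx k hk
    rw [hc.orderOf_mul_eq_mul_orderOf_of_coprime hcop] at h
    rw [← orderOf_eq_one_iff]
    have h' : orderOf x * orderOf k = orderOf x * 1 := by rw [h, mul_one]
    exact Nat.eq_of_mul_eq_mul_left (orderOf_pos x) h'
  refine ⟨le_antisymm (Core.le_fittingSubgroup inferInstance hnil) ?_, ?_⟩
  · have hFn : Group.IsNilpotent (fittingSubgroup G) := Core.isNilpotent_fittingSubgroup G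
    have hNF : N ≤ fittingSubgroup G := Core.le_fittingSubgroup inferInstance hnil
    refine Core.le_of_forall_exists_sylow_le fun q hq => ?_
    haveI := Fact.mk hq
    refine ⟨default, ?_⟩
    rintro _ ⟨x, hx, rfl⟩
    by_contra hxN
    obtain ⟨r, hr, hrq, hrN⟩ := two q hq
    haveI := Fact.mk hr
    obtain ⟨k, hk⟩ := exists_prime_orderOf_dvd_card' (G := N) r hrN
    obtain ⟨a, ha⟩ := IsPGroup.iff_orderOf.1 (default : Sylow q (fittingSubgroup G)).isPGroup' ⟨x, hx⟩
    rw [Subgroup.orderOf_mk] at ha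
    have hkF : (⟨(k : G), hNF k.2⟩ : fittingSubgroup G) = ⟨k, hNF k.2⟩ := rfl
    have hcop : (orderOf (x : G)).Coprime (orderOf (k : G)) := by
      rw [Subgroup.orderOf_coe, Subgroup.orderOf_coe, ha, hk]
      exact Nat.Coprime.pow_left a ((Nat.coprime_primes hq hr).2 hrq.symm)
    have hc : Commute x ⟨k, hNF k.2⟩ := by
      haveI := hFn
      refine OddLocal.commute_of_coprime_orderOf ?_
      rw [← Subgroup.orderOf_coe, ← Subgroup.orderOf_coe (⟨k, _⟩ : fittingSubgroup G)]
      exact hcop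
    have h1 := key x hxN k k.2 hcop (congrArg Subtype.val hc.eq)
    rw [← Subgroup.orderOf_coe, h1, orderOf_one] at hk
    exact hr.ne_one hk.symm
  intro q hq Qb
  obtain ⟨Q, hQ⟩ := Sylow.mapSurjective_surjective (QuotientGroup.mk'_surjective N) q Qb
  obtain ⟨r, hr, hrq, hrN⟩ := two q hq.out
  haveI := Fact.mk hr
  set M := (pCore q N).map N.subtype with hMdef
  set R := (pCore r N).map N.subtype with hRdef
  haveI hMn : M.Normal := Core.normal_map_subtype_of_characteristic _
  haveI hRn : R.Normal := Core.normal_map_subtype_of_characteristic _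
  have hMp : IsPGroup q M := (Core.isPGroup_pCore q N).map _
  have hRp : IsPGroup r R := (Core.isPGroup_pCore r N).map _
  have hMR : ∀ g, g ∈ M → g ∈ R → g = 1 := by
    intro g hgM hgR
    exact Subgroup.mem_bot.1 ((disjoint_iff.1 (IsPGroup.disjoint_of_ne q r hrq.symm M R hMp hRp)) ▸ ⟨hgM, hgR⟩)
  let π := QuotientGroup.mk' M
  have hRne : R.map π ≠ ⊥ := by
    intro h
    rw [Subgroup.map_eq_bot_iff, QuotientGroup.ker_mk'] at h
    have hR : R = ⊥ := (Subgroup.eq_bot_iff_forall _).2 fun g hg => hMR g (h hg) hg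
    rw [hRdef, Subgroup.map_eq_bot_iff_of_injective _ N.subtype_injective,
      Core.pCore_eq_sylow (default : Sylow r N)] at hR
    exact (default : Sylow r N).ne_bot_of_dvd_card hrN hR
  have hfpf : OddLocal.FPF (R.map π) ((Q : Subgroup G).map π) := by
    rintro _ ⟨x, hx, rfl⟩ hx1 _ ⟨k, hk, rfl⟩ hc
    obtain ⟨a, ha⟩ := IsPGroup.iff_orderOf.1 Q.isPGroup' ⟨x, hx⟩
    obtain ⟨b, hb⟩ := IsPGroup.iff_orderOf.1 hRp ⟨k, hk⟩
    rw [Subgroup.orderOf_mk] at ha hb
    have hxN : x ∉ N := by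
      intro hxN
      apply hx1
      refine (QuotientGroup.eq_one_iff x).2 ⟨⟨x, hxN⟩, ?_, rfl⟩
      obtain ⟨S, hS⟩ := IsPGroup.exists_le_sylow (P := Subgroup.zpowers (⟨x, hxN⟩ : N)) (p := q)
        (IsPGroup.of_card (n := a) (by rw [Nat.card_zpowers, Subgroup.orderOf_mk, ha]))
      exact Core.pCore_eq_sylow S ▸ hS (Subgroup.mem_zpowers _)
    have hm : x * k * x⁻¹ * k⁻¹ = 1 := by
      refine hMR _ ?_ (mul_mem (hRn.conj_mem k hk x) (inv_mem hk))
      rw [← QuotientGroup.eq_one_iff]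
      show π (x * k * x⁻¹ * k⁻¹) = 1
      rw [map_mul, map_mul, map_mul, map_inv, map_inv, hc]
      group
    have h1 := key x hxN k (Subgroup.map_subtype_le _ hk)
      (by rw [ha, hb]; exact Nat.Coprime.pow a b ((Nat.coprime_primes hq.out hr).2 hrq.symm))
      (mul_inv_eq_iff_eq_mul.1 (mul_inv_eq_one.1 hm))
    rw [h1, map_one]
  have hu := hfpf.uniqueOrderP hRne (by
    haveI : (R.map π).Normal := hRn.map π (QuotientGroup.mk'_surjective M)
    rw [Subgroup.normalizer_eq_top]; exact le_top) ((Q : Subgroup G).map π) le_rfl (Q.isPGroup'.map π)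
  obtain ⟨e⟩ : Nonempty (((Q : Subgroup G).map π) ≃* (Qb : Subgroup (G ⧸ N))) := by
    have hMN : M ≤ N := Subgroup.map_subtype_le _
    let f : (G ⧸ M) →* G ⧸ N := QuotientGroup.map M N (MonoidHom.id G) hMN
    have hmap : ((Q : Subgroup G).map π).map f = (Qb : Subgroup (G ⧸ N)) := by
      rw [← hQ, Subgroup.map_map, Sylow.coe_mapSurjective]
      rfl
    have hinj : Set.InjOn f ((Q : Subgroup G).map π : Set (G ⧸ M)) := by
      rintro _ ⟨x, hx, rfl⟩ _ ⟨y, hy, rfl⟩ h
      change (x : G ⧸ N) = (y : G ⧸ N) at h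
      rw [QuotientGroup.eq] at h
      show (x : G ⧸ M) = (y : G ⧸ M)
      rw [QuotientGroup.eq]
      refine ⟨⟨_, h⟩, ?_, rfl⟩
      have hz : x⁻¹ * y ∈ (Q : Subgroup G) := mul_mem (inv_mem hx) hy
      obtain ⟨a, ha⟩ := IsPGroup.iff_orderOf.1 Q.isPGroup' ⟨_, hz⟩
      rw [Subgroup.orderOf_mk] at ha
      obtain ⟨S, hS⟩ := IsPGroup.exists_le_sylow (P := Subgroup.zpowers (⟨_, h⟩ : N)) (p := q)
        (IsPGroup.of_card (n := a) (by rw [Nat.card_zpowers, Subgroup.orderOf_mk, ha]))
      exact Core.pCore_eq_sylow S ▸ hS (Subgroup.mem_zpowers _)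
    let g := f.comp ((Q : Subgroup G).map π).subtype
    have hg : Function.Injective g := fun u v h => Subtype.ext (hinj u.2 v.2 h)
    exact ⟨(MonoidHom.ofInjective hg).trans (MulEquiv.subgroupCongr (by
      rw [MonoidHom.range_comp, Subgroup.range_subtype, hmap]))⟩
  rcases OddLocal.isCyclic_or_quaternion (Q.isPGroup'.map π) hu with h | ⟨-, n, ⟨e'⟩⟩
  · exact Or.inl (e.isCyclic.1 h)
  · exact Or.inr ⟨n, ⟨e.symm.trans e'⟩⟩

end Cfsg.Agent.S4155
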