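import Cfsg.Statements.S4156
-- import your own Cfsg.Agent.* helpers here

set_option autoImplicit false
open Cfsg

namespace Cfsg.Agent.S4156

theorem deleted_module {m : ℕ} (hm : 5 ≤ m) (F : Type*) [Field F] [Finite F] (k : ℕ)
    (hk : k + 1 = m) :
    ∃ f : alternatingGroup (Fin m) →* Matrix.ProjectiveSpecialLinearGroup (Fin k) F, Function.Injective f := by
  classical
  haveI : IsSimpleGroup (alternatingGroup (Fin m)) := alternatingGroup.isSimpleGroup (by simpa using hm)
  let s : (Fin m → F) →ₗ[F] F := ∑ i, LinearMap.proj i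
  have hs : ∀ v, s v = ∑ i, v i := fun v => by simp [s]
  let W := LinearMap.ker s
  have hmem : ∀ v, v ∈ W ↔ ∑ i, v i = 0 := fun v => by rw [LinearMap.mem_ker, hs]
  have hW : Module.finrank F W = k := by
    have hsurj : LinearMap.range s = ⊤ := LinearMap.range_eq_top.2 fun c =>
      ⟨Pi.single ⟨0, by omega⟩ c, by simp [hs, Pi.single_apply]⟩
    have h := LinearMap.finrank_range_add_finrank_ker s
    rw [hsurj, finrank_top, Module.finrank_self, Module.finrank_fin_fun] at h
    have hWe : Module.finrank F W = Module.finrank F (LinearMap.ker s) := rfl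
    omega
  let b := Module.finBasisOfFinrankEq F W hW
  let act : Equiv.Perm (Fin m) → (W →ₗ[F] W) := fun σ =>
    ((LinearMap.funLeft F F ⇑σ⁻¹).comp W.subtype).codRestrict W fun w => by
      rw [hmem]
      exact (Equiv.sum_comp (σ⁻¹ : Equiv.Perm (Fin m)) (fun i => (w : Fin m → F) i)).trans ((hmem _).1 w.2)
  have hact : ∀ (σ : Equiv.Perm (Fin m)) (w : W) i, (act σ w : Fin m → F) i = (w : Fin m → F) (σ⁻¹ i) :=
    fun σ w i => rfl
  let M : alternatingGroup (Fin m) →* Matrix (Fin k) (Fin k) F :=
    { toFun := fun σ => LinearMap.toMatrix b b (act σ)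
      map_one' := by
        rw [show act ((1 : alternatingGroup (Fin m)) : Equiv.Perm (Fin m)) = LinearMap.id from LinearMap.ext fun w => Subtype.ext (funext fun i => by rw [hact]; simp)]
        exact LinearMap.toMatrix_id b
      map_mul' := fun σ τ => by
        rw [← LinearMap.toMatrix_comp b b b]
        rfl }
  have h01 : (⟨0, by omega⟩ : Fin m) ≠ ⟨1, by omega⟩ := by simp
  have h02 : (⟨0, by omega⟩ : Fin m) ≠ ⟨2, by omega⟩ := by simp
  have h12 : (⟨1, by omega⟩ : Fin m) ≠ ⟨2, by omega⟩ := by simp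
  let c : alternatingGroup (Fin m) := ⟨Equiv.swap ⟨0, by omega⟩ ⟨1, by omega⟩ * Equiv.swap ⟨1, by omega⟩ ⟨2, by omega⟩, by
    rw [Equiv.Perm.mem_alternatingGroup]; simp [Equiv.Perm.sign_swap h01, Equiv.Perm.sign_swap h12]⟩
  have hnc : ∃ σ τ : alternatingGroup (Fin m), σ * τ ≠ τ * σ := by
    by_contra h
    push Not at h
    letI : CommGroup (alternatingGroup (Fin m)) :=
      { (inferInstance : Group (alternatingGroup (Fin m))) with mul_comm := h }
    haveI := IsSimpleGroup.isCyclic (α := alternatingGroup (Fin m))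
    have hp := IsSimpleGroup.prime_card (α := alternatingGroup (Fin m))
    have h2 : 2 * Nat.card (alternatingGroup (Fin m)) = m.factorial := by
      haveI : Nontrivial (Fin m) := Fin.nontrivial_iff_two_le.2 (by omega)
      rw [Nat.card_eq_fintype_card, two_mul_card_alternatingGroup, Fintype.card_perm, Fintype.card_fin]
    have h3 : 3 ∣ 2 * Nat.card (alternatingGroup (Fin m)) := h2 ▸ Nat.dvd_factorial (by norm_num) (by omega)
    have h4 : 8 ∣ 2 * Nat.card (alternatingGroup (Fin m)) := h2 ▸ (Dvd.dvd.trans (by norm_num [Nat.factorial]) (Nat.factorial_dvd_factorial hm))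
    have h4' : 2 ∣ Nat.card (alternatingGroup (Fin m)) :=
      dvd_trans ⟨2, rfl⟩ ((Nat.mul_dvd_mul_iff_left (by norm_num : 0 < 2)).1 (show 2 * 4 ∣ 2 * Nat.card (alternatingGroup (Fin m)) from h4))
    have h3' : 3 ∣ Nat.card (alternatingGroup (Fin m)) := (Nat.Coprime.dvd_mul_left (by norm_num : Nat.Coprime 3 2)).1 h3
    have := (Nat.prime_dvd_prime_iff_eq Nat.prime_two hp).1 h4'
    have := (Nat.prime_dvd_prime_iff_eq Nat.prime_three hp).1 h3'
    omega
  have hdet : ∀ σ, (M σ).det = 1 := by
    intro σ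
    let d : alternatingGroup (Fin m) →* Fˣ := (Matrix.GeneralLinearGroup.det.comp (M.toHomUnits :))
    have hd : ∀ τ, (d τ : F) = (M τ).det := fun τ => rfl
    rcases (inferInstance : d.ker.Normal).eq_bot_or_eq_top with h | h
    · obtain ⟨σ1, τ1, hne⟩ := hnc
      exact absurd ((MonoidHom.ker_eq_bot_iff d).1 h (by rw [map_mul, map_mul, mul_comm])) hne
    · have hσ : σ ∈ d.ker := h ▸ Subgroup.mem_top σ
      rw [MonoidHom.mem_ker] at hσ
      rw [← hd, hσ, Units.val_one]
  let φ : alternatingGroup (Fin m) →* Matrix.SpecialLinearGroup (Fin k) F :=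
    { toFun := fun σ => ⟨M σ, hdet σ⟩
      map_one' := Subtype.ext M.map_one
      map_mul' := fun σ τ => Subtype.ext (M.map_mul σ τ) }
  refine ⟨(QuotientGroup.mk' (Subgroup.center (Matrix.SpecialLinearGroup (Fin k) F))).comp φ, ?_⟩
  rw [← MonoidHom.ker_eq_bot_iff]
  refine ((MonoidHom.normal_ker _).eq_bot_or_eq_top).resolve_right fun h => ?_
  have hc : φ c ∈ Subgroup.center (Matrix.SpecialLinearGroup (Fin k) F) := by
    rw [← QuotientGroup.ker_mk' (Subgroup.center _), MonoidHom.mem_ker]
    exact MonoidHom.mem_ker.1 (h ▸ Subgroup.mem_top c :)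
  obtain ⟨r, -, hr⟩ := Matrix.SpecialLinearGroup.mem_center_iff.1 hc
  have hr' : act c = r • LinearMap.id := (LinearMap.toMatrix b b).injective (by
    rw [map_smul, LinearMap.toMatrix_id]
    have : M c = Matrix.scalar (Fin k) r := hr.symm
    rw [Matrix.smul_one_eq_diagonal]
    exact this.trans (Matrix.scalar_apply r))
  have hv0 : (Pi.single ⟨2, by omega⟩ 1 - Pi.single ⟨3, by omega⟩ 1 : Fin m → F) ∈ W := by
    rw [hmem]; simp [Finset.sum_sub_distrib, Pi.single_apply]
  have key := congrArg (fun w : W => (w : Fin m → F) ⟨0, by omega⟩) (LinearMap.congr_fun hr' ⟨_, hv0⟩)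
  simp only [hact, LinearMap.smul_apply, LinearMap.id_apply, Submodule.coe_smul, Pi.smul_apply, c] at key
  simp [Equiv.swap_apply_def] at key


/-- Let n ≥ 5 and F a finite field. Then the projective special linear group PSL_n(F) contains a subgroup isomorphic to the alternating group of degree n + 1. -/
theorem result (n : ℕ) (hn : 5 ≤ n) (F : Type*) [Field F] [Finite F] :
    ∃ f : alternatingGroup (Fin (n + 1)) →* Matrix.ProjectiveSpecialLinearGroup (Fin n) F, Function.Injective f := by
  exact deleted_module (m := n + 1) (by omega) F n rfl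

end Cfsg.Agent.S4156
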