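import Cfsg.Statements.S4160
import Cfsg.Agent.Transfer.Burnside
-- import your own Cfsg.Agent.* helpers here

set_option autoImplicit false
open Cfsg

namespace Cfsg.Agent.S4160

open Cfsg.Agent

/-- the union of the conjugates of `C ≤ M` has at most `[G : M] (|C| - 1) + 1` elements -/
theorem union_card_le {G : Type*} [Group G] [Finite G] (C M : Subgroup G)
    (hM : M ≤ Subgroup.normalizer (C : Set G)) :
    {x : G | x ≠ 1 ∧ ∃ g : G, g⁻¹ * x * g ∈ C}.ncard * Nat.card M ≤ Nat.card G * (Nat.card C - 1) := by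
  classical
  haveI := Fintype.ofFinite (G ⧸ M)
  set U : G ⧸ M → Set G := fun q => (fun c => q.out * c * q.out⁻¹) '' ((C : Set G) \ {1})
  have hsub : {x : G | x ≠ 1 ∧ ∃ g : G, g⁻¹ * x * g ∈ C} ⊆ ⋃ q, U q := by
    rintro x ⟨hx, g, hg⟩
    refine Set.mem_iUnion.2 ⟨(g : G ⧸ M), (g : G ⧸ M).out⁻¹ * x * (g : G ⧸ M).out, ⟨?_, ?_⟩, by group⟩
    · obtain ⟨⟨m, hm⟩, e⟩ := QuotientGroup.mk_out_eq_mul M g
      rw [SetLike.mem_coe, e]
      have h := (Subgroup.mem_normalizer_iff.1 (hM (inv_mem hm)) (g⁻¹ * x * g)).1 hg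
      simpa [mul_assoc] using h
    · intro h
      apply hx
      rw [Set.mem_singleton_iff] at h
      calc x = (g : G ⧸ M).out * ((g : G ⧸ M).out⁻¹ * x * (g : G ⧸ M).out) * (g : G ⧸ M).out⁻¹ := by group
        _ = 1 := by rw [h]; group
  have h1 : {x : G | x ≠ 1 ∧ ∃ g : G, g⁻¹ * x * g ∈ C}.ncard ≤ Nat.card (G ⧸ M) * (Nat.card C - 1) := by
    refine (Set.ncard_le_ncard hsub (Set.toFinite _)).trans ?_
    refine (Set.ncard_iUnion_le_of_fintype U).trans ?_
    refine (Finset.sum_le_card_nsmul _ _ (Nat.card C - 1) fun q _ => ?_).trans ?_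
    · refine (Set.ncard_image_le (Set.toFinite _)).trans ?_
      rw [Set.ncard_diff_singleton_of_mem (one_mem C), ← Nat.card_coe_set_eq]
      rfl
    · rw [smul_eq_mul, Finset.card_univ, ← Nat.card_eq_fintype_card]
  calc _ ≤ Nat.card (G ⧸ M) * (Nat.card C - 1) * Nat.card M := Nat.mul_le_mul_right _ h1
    _ = _ := by rw [Subgroup.card_eq_card_quotient_mul_card_subgroup M]; ring

theorem exists_sylow_le {G : Type*} [Group G] [Finite G] {p : ℕ} [Fact p.Prime] {C : Subgroup G}
    (h : ¬ p ∣ C.index) (P : Sylow p G) : ∃ g : G, ∀ y ∈ (P : Subgroup G), g * y * g⁻¹ ∈ C := by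
  obtain ⟨Q⟩ : Nonempty (Sylow p C) := inferInstance
  obtain ⟨P', hP'⟩ := (Q.isPGroup'.map C.subtype).exists_le_sylow
  have hP'C : (P' : Subgroup G) ≤ C := by
    have he : (Q : Subgroup C).map C.subtype = (P' : Subgroup G) := by
      refine Subgroup.eq_of_le_of_card_ge hP' ?_
      rw [Subgroup.card_map_of_injective C.subtype_injective, P'.card_eq_multiplicity,
        Q.card_eq_multiplicity, ← C.card_mul_index,
        Nat.factorization_mul Nat.card_pos.ne' Subgroup.FiniteIndex.index_ne_zero]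
      simp [Nat.factorization_eq_zero_of_not_dvd h]
    exact he ▸ Subgroup.map_subtype_le _
  obtain ⟨g, hg⟩ := MulAction.exists_smul_eq G P P'
  refine ⟨g, fun y hy => hP'C ?_⟩
  rw [← hg]
  exact ⟨y, hy, rfl⟩

/-- Let G be a finite group and p ≠ q primes each dividing the size of some conjugacy class of G, such that no conjugacy class size is divisible by pq. Then G has a normal p-complement or a normal q-complement. -/
theorem result {G : Type*} [Group G] [Finite G] (p q : ℕ) (hp : p.Prime) (hq : q.Prime) (hpq : p ≠ q)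
    (hp' : ∃ x : G, p ∣ (Subgroup.centralizer ({x} : Set G)).index) (hq' : ∃ x : G, q ∣ (Subgroup.centralizer ({x} : Set G)).index) (h : ∀ x : G, ¬ p * q ∣ (Subgroup.centralizer ({x} : Set G)).index) :
    Cfsg.HasNormalPComplement p G ∨ Cfsg.HasNormalPComplement q G := by
  haveI := Fact.mk hp
  haveI := Fact.mk hq
  obtain ⟨P⟩ : Nonempty (Sylow p G) := inferInstance
  obtain ⟨Q⟩ : Nonempty (Sylow q G) := inferInstance
  set CP := Subgroup.centralizer ((P : Subgroup G) : Set G)
  set CQ := Subgroup.centralizer ((Q : Subgroup G) : Set G)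
  set NP := Subgroup.normalizer ((P : Subgroup G) : Set G)
  set NQ := Subgroup.normalizer ((Q : Subgroup G) : Set G)
  by_cases h1 : NP ≤ CP
  · exact Or.inl (Transfer.hasNormalPComplement_of_normalizer_le_centralizer P h1)
  by_cases h2 : NQ ≤ CQ
  · exact Or.inr (Transfer.hasNormalPComplement_of_normalizer_le_centralizer Q h2)
  exfalso
  have half : ∀ {r : ℕ} [Fact r.Prime] (R : Sylow r G),
      ¬ Subgroup.normalizer ((R : Subgroup G) : Set G) ≤ Subgroup.centralizer ((R : Subgroup G) : Set G) →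
      2 * {x : G | x ≠ 1 ∧ ∃ g : G, g⁻¹ * x * g ∈ Subgroup.centralizer ((R : Subgroup G) : Set G)}.ncard + 2
        ≤ Nat.card G := by
    intro r _ R hR
    set C := Subgroup.centralizer ((R : Subgroup G) : Set G)
    set N := Subgroup.normalizer ((R : Subgroup G) : Set G)
    have hCN : C ≤ N := Subgroup.centralizer_le_normalizer _
    have hnorm : N ≤ Subgroup.normalizer (C : Set G) := by
      intro n hn
      rw [Subgroup.mem_normalizer_iff]
      intro c
      have hn' := Subgroup.mem_normalizer_iff.1 hn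
      simp only [C, SetLike.mem_coe, Subgroup.mem_centralizer_iff]
      constructor
      · intro hc y hy
        have h' := hc (n⁻¹ * y * n) ((hn' _).2 (by simpa [mul_assoc] using hy))
        calc y * (n * c * n⁻¹) = n * ((n⁻¹ * y * n) * c) * n⁻¹ := by group
          _ = _ := by rw [h']; group
      · intro hc y hy
        have h' := hc (n * y * n⁻¹) ((hn' y).1 hy)
        calc y * c = n⁻¹ * ((n * y * n⁻¹) * (n * c * n⁻¹)) * n := by group
          _ = c * y := by rw [h']; group
    have hle := union_card_le C N hnorm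
    obtain ⟨k, hk⟩ := Subgroup.card_dvd_of_le hCN
    have hk2 : 2 ≤ k := by
      rcases k with _ | _ | k
      · exact absurd (hk.trans (mul_zero _)) Nat.card_pos.ne'
      · exact absurd (Subgroup.eq_of_le_of_card_ge hCN (by rw [hk]; simp)).ge hR
      · omega
    have hC : 0 < Nat.card C := Nat.card_pos
    have hG : 0 < Nat.card G := Nat.card_pos
    set U := {x : G | x ≠ 1 ∧ ∃ g : G, g⁻¹ * x * g ∈ C}.ncard
    rw [hk] at hle
    obtain ⟨i, hi⟩ := C.card_subgroup_dvd_card
    have hi2 : 2 ≤ i := by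
      have h1 : Nat.card N ≤ Nat.card G := Subgroup.card_le_card_group N
      rw [hk, hi] at h1
      exact hk2.trans (Nat.le_of_mul_le_mul_left h1 hC)
    obtain ⟨c, hc⟩ : ∃ c, Nat.card C = c + 1 := ⟨Nat.card C - 1, by omega⟩
    rw [hc, Nat.add_sub_cancel] at hle
    rw [hc] at hi
    have h4 : 2 * U * (c + 1) ≤ i * c * (c + 1) :=
      calc 2 * U * (c + 1) = U * ((c + 1) * 2) := by ring
        _ ≤ U * ((c + 1) * k) := Nat.mul_le_mul_left U (Nat.mul_le_mul_left _ hk2)
        _ ≤ Nat.card G * c := hle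
        _ = i * c * (c + 1) := by rw [hi]; ring
    have h5 : 2 * U ≤ i * c := Nat.le_of_mul_le_mul_right h4 (Nat.succ_pos c)
    have h6 : Nat.card G = i * c + i := by rw [hi]; ring
    omega
  set A := {x : G | x ≠ 1 ∧ ∃ g : G, g⁻¹ * x * g ∈ CP}
  set B := {x : G | x ≠ 1 ∧ ∃ g : G, g⁻¹ * x * g ∈ CQ}
  have hA := half P h1
  have hB := half Q h2
  have hcov : (Set.univ : Set G) ⊆ insert 1 (A ∪ B) := by
    intro x _
    rcases eq_or_ne x 1 with rfl | hx
    · exact Set.mem_insert _ _
    refine Set.mem_insert_of_mem _ ?_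
    have key : ∀ {r : ℕ} [Fact r.Prime] (R : Sylow r G), ¬ r ∣ (Subgroup.centralizer ({x} : Set G)).index →
        ∃ g : G, g⁻¹ * x * g ∈ Subgroup.centralizer ((R : Subgroup G) : Set G) := by
      intro r _ R hr
      obtain ⟨g, hg⟩ := exists_sylow_le hr R
      refine ⟨g, Subgroup.mem_centralizer_iff.2 fun y hy => ?_⟩
      have h' := Subgroup.mem_centralizer_singleton_iff.1 (hg y hy)
      calc y * (g⁻¹ * x * g) = g⁻¹ * ((g * y * g⁻¹) * x) * g := by group
        _ = _ := by rw [h']; group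
    by_cases hpx : p ∣ (Subgroup.centralizer ({x} : Set G)).index
    · refine Or.inr ⟨hx, key Q fun hqx => h x ?_⟩
      exact ((Nat.coprime_primes hp hq).2 hpq).mul_dvd_of_dvd_of_dvd hpx hqx
    · exact Or.inl ⟨hx, key P hpx⟩
  have h3 : Nat.card G ≤ A.ncard + B.ncard + 1 := by
    rw [← Set.ncard_univ]
    refine (Set.ncard_le_ncard hcov (Set.toFinite _)).trans ((Set.ncard_insert_le _ _).trans ?_)
    exact Nat.add_le_add_right (Set.ncard_union_le A B) 1
  change 2 * A.ncard + 2 ≤ _ at hA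
  change 2 * B.ncard + 2 ≤ _ at hB
  omega

end Cfsg.Agent.S4160
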