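import Cfsg.Statements.S4163
-- import your own Cfsg.Agent.* helpers here

set_option autoImplicit false
open Cfsg

namespace Cfsg.Agent.S4163

variable {G : Type*} [Group G]

theorem relIndex_centralizer_eq_ncard (H : Subgroup G) (z : G) :
    (Subgroup.centralizer ({z} : Set G)).relIndex H =
      (Set.range fun h : H => (h : G) * z * (h : G)⁻¹).ncard := by
  set C := (Subgroup.centralizer ({z} : Set G)).subgroupOf H
  have hiff : ∀ a b : H, (a : H ⧸ C) = b ↔ (a : G) * z * (a : G)⁻¹ = (b : G) * z * (b : G)⁻¹ := by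
    intro a b
    rw [QuotientGroup.eq, Subgroup.mem_subgroupOf, Subgroup.mem_centralizer_singleton_iff,
      Subgroup.coe_mul, Subgroup.coe_inv]
    constructor
    · intro e
      calc (a : G) * z * (a : G)⁻¹
          = (a : G) * (z * ((a : G)⁻¹ * b)) * (b : G)⁻¹ := by group
        _ = (a : G) * (((a : G)⁻¹ * b) * z) * (b : G)⁻¹ := by rw [e]
        _ = _ := by group
    · intro e
      calc (a : G)⁻¹ * b * z = (a : G)⁻¹ * ((b : G) * z * (b : G)⁻¹) * b := by group
        _ = z * ((a : G)⁻¹ * b) := by rw [← e]; group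
  rw [← Nat.card_coe_set_eq, Subgroup.relIndex, Subgroup.index_eq_card]
  refine Nat.card_congr (Equiv.ofBijective (Quotient.lift
    (fun h : H => (⟨(h : G) * z * (h : G)⁻¹, h, rfl⟩ : Set.range fun h : H => (h : G) * z * (h : G)⁻¹))
    (fun a b hab => Subtype.ext ((hiff a b).mp (Quotient.sound hab)))) ⟨?_, ?_⟩)
  · rintro ⟨a⟩ ⟨b⟩ e
    exact (hiff a b).mpr (congrArg Subtype.val e)
  · rintro ⟨_, h, rfl⟩
    exact ⟨Quotient.mk'' h, rfl⟩

/-- the commutators of `A` with an element of minimal class are central -/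
theorem commutator_mem_center [Finite G] (A : Subgroup G) [hAn : A.Normal] (hA : IsMulCommutative A)
    (m : ℕ)
    (hmin : ∀ x : G, 1 < (Subgroup.centralizer ({x} : Set G)).index →
      m ≤ (Subgroup.centralizer ({x} : Set G)).index)
    {x : G} (hx : (Subgroup.centralizer ({x} : Set G)).index = m) {a : G} (ha : a ∈ A) :
    a * x * a⁻¹ * x⁻¹ ∈ Subgroup.center G := by
  classical
  set D := Subgroup.centralizer ({x} : Set G) with hD
  set H := A ⊔ D with hH
  have hcomm : ∀ u ∈ A, ∀ v ∈ A, u * v = v * u := fun u hu v hv =>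
    congrArg Subtype.val (hA.is_comm.comm (⟨u, hu⟩ : A) ⟨v, hv⟩)
  have hcA : ∀ u ∈ A, u * x * u⁻¹ * x⁻¹ ∈ A := fun u hu => by
    have := A.mul_mem hu (hAn.conj_mem _ (A.inv_mem hu) x)
    simpa [mul_assoc] using this
  set y := a * x * a⁻¹ * x⁻¹ with hy
  by_cases hy1 : y = 1
  · rw [hy1]; exact one_mem _
  set I : Set G := (fun u => u * x * u⁻¹ * x⁻¹) '' (A : Set G) with hI
  have hI1 : (1 : G) ∈ I := ⟨1, A.one_mem, by simp⟩
  have horb : (Set.range fun h : H => (h : G) * y * (h : G)⁻¹) ⊆ I \ {1} := by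
    rintro _ ⟨⟨h, hh⟩, rfl⟩
    refine ⟨?_, fun e => hy1 (conj_eq_one_iff.mp (Set.mem_singleton_iff.mp e))⟩
    obtain ⟨u, hu, d, hd, rfl⟩ := Subgroup.mem_sup_of_normal_left.mp hh
    refine ⟨d * a * d⁻¹, hAn.conj_mem a ha d, ?_⟩
    have hdx : d * x = x * d := Subgroup.mem_centralizer_singleton_iff.mp hd
    have h1 : d * y * d⁻¹ = d * a * d⁻¹ * x * (d * a * d⁻¹)⁻¹ * x⁻¹ := by
      have hdx' : d⁻¹ * x = x * d⁻¹ := Commute.inv_left hdx
      calc d * y * d⁻¹ = d * a * x * a⁻¹ * (x⁻¹ * d⁻¹) := by rw [hy]; group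
        _ = d * a * (d⁻¹ * (d * x)) * a⁻¹ * (d * x)⁻¹ := by group
        _ = d * a * (d⁻¹ * (x * d)) * a⁻¹ * (x * d)⁻¹ := by rw [hdx]
        _ = _ := by group
    have h2 : d * y * d⁻¹ ∈ A := h1 ▸ hcA _ (hAn.conj_mem a ha d)
    show d * a * d⁻¹ * x * (d * a * d⁻¹)⁻¹ * x⁻¹ = (u * d) * y * (u * d)⁻¹
    rw [← h1, show (u * d) * y * (u * d)⁻¹ = u * (d * y * d⁻¹) * u⁻¹ by group, hcomm u hu _ h2,
      mul_inv_cancel_right]
  have hIle : I.ncard ≤ D.relIndex H := by
    rw [relIndex_centralizer_eq_ncard]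
    refine Set.ncard_le_ncard_of_injOn (fun z => z * x) ?_ (fun z _ w _ e => mul_right_cancel e)
      (Set.toFinite _)
    rintro _ ⟨u, hu, rfl⟩
    exact ⟨⟨u, Subgroup.mem_sup_left hu⟩, by simp [mul_assoc]⟩
  set C := Subgroup.centralizer ({y} : Set G) with hC
  have hlt : C.relIndex H < D.relIndex H := by
    rw [relIndex_centralizer_eq_ncard]
    refine lt_of_le_of_lt (Set.ncard_le_ncard horb (Set.toFinite _)) (lt_of_lt_of_le ?_ hIle)
    exact Set.ncard_diff_singleton_lt_of_mem hI1 (Set.toFinite _)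
  have hidxD : D.index = D.relIndex H * H.index :=
    (Subgroup.relIndex_mul_index (le_sup_right : D ≤ H)).symm
  have hidxC : C.index ≤ C.relIndex H * H.index := by
    rw [← Subgroup.inf_relIndex_right, Subgroup.relIndex_mul_index inf_le_right]
    exact Subgroup.index_antitone inf_le_left
  have hCone : C.index = 1 := by
    by_contra hne
    have h1 : 1 < C.index := by
      have : C.index ≠ 0 := Subgroup.index_ne_zero_of_finite
      omega
    have h2 := hmin y h1
    have h3 : C.relIndex H * H.index < D.relIndex H * H.index :=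
      Nat.mul_lt_mul_of_pos_right hlt (Nat.pos_of_ne_zero Subgroup.index_ne_zero_of_finite)
    rw [← hC, ← hx, hidxD] at h2
    exact absurd (lt_of_le_of_lt (h2.trans hidxC) h3) (lt_irrefl _)
  rw [Subgroup.mem_center_iff]
  intro g
  refine Subgroup.mem_centralizer_singleton_iff.mp ?_
  rw [← hC, Subgroup.index_eq_one.mp hCone]
  exact Subgroup.mem_top g


/-- Let G be a finite group with a normal abelian subgroup A satisfying C_G(A) = A. Suppose some conjugacy class of G has size greater than 1, let m be the smallest such size, and let M be the subgroup generated by the elements whose class has size 1 or m. Then M is nilpotent of class at most 3. -/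
theorem result {G : Type*} [Group G] [Finite G]
    (A : Subgroup G) [A.Normal] (hA : IsMulCommutative A) (hCA : Subgroup.centralizer (A : Set G) = A)
    (m : ℕ) (hm1 : 1 < m) (hm : ∃ x : G, (Subgroup.centralizer ({x} : Set G)).index = m) (hmin : ∀ x : G, 1 < (Subgroup.centralizer ({x} : Set G)).index → m ≤ (Subgroup.centralizer ({x} : Set G)).index) :
    Subgroup.upperCentralSeries ↥(Subgroup.closure {x : G | (Subgroup.centralizer ({x} : Set G)).index = 1 ∨ (Subgroup.centralizer ({x} : Set G)).index = m}) 3 = ⊤ := by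
  set S := {x : G | (Subgroup.centralizer ({x} : Set G)).index = 1 ∨
    (Subgroup.centralizer ({x} : Set G)).index = m}
  set M := Subgroup.closure S with hM
  have hP : ∀ g ∈ M, ∀ a ∈ A, a * g * a⁻¹ * g⁻¹ ∈ Subgroup.center G := by
    intro g hg
    induction hg using Subgroup.closure_induction with
    | mem x hx =>
      intro a ha
      rcases hx with h1 | h1
      · have hc : a * x = x * a :=
          Subgroup.mem_centralizer_singleton_iff.mp ((Subgroup.index_eq_one.mp h1) ▸ Subgroup.mem_top a)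
        rw [hc, mul_inv_cancel_right, mul_inv_cancel]
        exact one_mem _
      · exact commutator_mem_center A hA m hmin h1 ha
    | one => intro a _; simp
    | mul g h _ _ hg hh =>
      intro a ha
      have h1 := Subgroup.mem_center_iff.mp (hh a ha) g
      have := mul_mem (hg a ha) (hh a ha)
      convert this using 1
      calc a * (g * h) * a⁻¹ * (g * h)⁻¹
          = (a * g * a⁻¹ * g⁻¹) * (g * (a * h * a⁻¹ * h⁻¹)) * g⁻¹ := by group
        _ = _ := by rw [h1]; group
    | inv g _ hg =>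
      intro a ha
      have h1 := Subgroup.mem_center_iff.mp (inv_mem (hg a ha)) g⁻¹
      have := inv_mem (hg a ha)
      convert this using 1
      calc a * g⁻¹ * a⁻¹ * (g⁻¹)⁻¹ = (g⁻¹ * (a * g * a⁻¹ * g⁻¹)⁻¹) * g := by group
        _ = _ := by rw [h1]; group
  have hcomm : ∀ u ∈ M, ∀ v ∈ M, u * v * u⁻¹ * v⁻¹ ∈ A := by
    intro u hu v hv
    rw [← hCA, Subgroup.mem_centralizer_iff]
    intro a ha
    have hz : ∀ g ∈ M, ∀ b ∈ A, ∀ k : G, g * b * g⁻¹ * b⁻¹ * k = k * (g * b * g⁻¹ * b⁻¹) := by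
      intro g hg b hb k
      have := inv_mem (hP g hg b hb)
      rw [show (b * g * b⁻¹ * g⁻¹)⁻¹ = g * b * g⁻¹ * b⁻¹ by group] at this
      exact (Subgroup.mem_center_iff.mp this k).symm
    have e : ∀ b ∈ A, (u * v) * b * (u * v)⁻¹ = (v * u) * b * (v * u)⁻¹ := by
      intro b hb
      obtain ⟨zu, hzu, eu⟩ : ∃ z, (∀ k, z * k = k * z) ∧ u * b * u⁻¹ = z * b :=
        ⟨u * b * u⁻¹ * b⁻¹, hz u hu b hb, by group⟩
      obtain ⟨zv, hzv, ev⟩ : ∃ z, (∀ k, z * k = k * z) ∧ v * b * v⁻¹ = z * b :=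
        ⟨v * b * v⁻¹ * b⁻¹, hz v hv b hb, by group⟩
      calc (u * v) * b * (u * v)⁻¹ = u * (v * b * v⁻¹) * u⁻¹ := by group
        _ = zv * (u * b * u⁻¹) := by rw [ev, ← mul_assoc, ← hzv u]; simp only [mul_assoc]
        _ = zu * (zv * b) := by rw [eu, ← mul_assoc, hzv zu, mul_assoc]
        _ = zu * (v * b * v⁻¹) := by rw [ev]
        _ = v * (zu * b) * v⁻¹ := by
          conv_rhs => rw [← mul_assoc, ← hzu v]
          simp only [mul_assoc]
        _ = _ := by rw [← eu]; group
    have hb : (v * u)⁻¹ * a * (v * u) ∈ A := by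
      simpa using ‹A.Normal›.conj_mem a ha (v * u)⁻¹
    have h1 := e _ hb
    rw [show v * u * ((v * u)⁻¹ * a * (v * u)) * (v * u)⁻¹ = a by group] at h1
    calc a * (u * v * u⁻¹ * v⁻¹)
        = ((u * v) * ((v * u)⁻¹ * a * (v * u)) * (u * v)⁻¹) * (u * v * u⁻¹ * v⁻¹) := by rw [h1]
      _ = _ := by group
  have hc3 : ∀ u v w : M, u * v * u⁻¹ * v⁻¹ * w * (u * v * u⁻¹ * v⁻¹)⁻¹ * w⁻¹ ∈ Subgroup.center M := by
    intro u v w
    rw [Subgroup.mem_center_iff]
    intro t
    apply Subtype.ext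
    exact Subgroup.mem_center_iff.mp (hP w w.2 _ (hcomm u u.2 v v.2)) t
  rw [eq_top_iff]
  intro u _
  rw [Subgroup.mem_upperCentralSeries_succ_iff]
  intro v
  rw [Subgroup.mem_upperCentralSeries_succ_iff]
  intro w
  rw [Subgroup.upperCentralSeries_one]
  exact hc3 u v w

end Cfsg.Agent.S4163
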