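import Cfsg.Statements.S4168
-- import your own Cfsg.Agent.* helpers here

set_option autoImplicit false
open Cfsg

namespace Cfsg.Agent.S4168

/-- Let L be a finite quasisimple group (perfect with L/Z(L) simple). Then every prime dividing the order of the centre Z(L) also divides the order of L/Z(L). -/
theorem result {L : Type*} [Group L] [Finite L] (hL : Cfsg.IsQuasisimple L)
    (p : ℕ) (hp : p.Prime) (hdiv : p ∣ Nat.card (Subgroup.center L)) : p ∣ (Subgroup.center L).index := by
  haveI : Fact p.Prime := ⟨hp⟩
  obtain ⟨z, hz⟩ := exists_prime_orderOf_dvd_card' (G := Subgroup.center L) p hdiv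
  have hperf : commutator L = ⊤ := Group.isPerfect_def.1 hL.1
  have h1 : (MonoidHom.transferCenterPow L) (z : L) = 1 := by
    have hle : commutator L ≤ (MonoidHom.transferCenterPow L).ker := by
      rw [commutator_eq_closure, Subgroup.closure_le]
      rintro _ ⟨a, b, rfl⟩
      rw [SetLike.mem_coe, MonoidHom.mem_ker, map_commutatorElement,
        commutatorElement_eq_one_iff_mul_comm]
      exact Subtype.ext (Subgroup.mem_center_iff.1 ((MonoidHom.transferCenterPow L) b).2 _)
    exact hle (by rw [hperf]; exact Subgroup.mem_top _)
  have h2 : (z : L) ^ (Subgroup.center L).index = 1 := by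
    simpa [MonoidHom.transferCenterPow_apply] using congrArg Subtype.val h1
  rw [← hz, ← Subgroup.orderOf_coe]
  exact orderOf_dvd_of_pow_eq_one h2

end Cfsg.Agent.S4168
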