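import Cfsg.Statements.S4169
import Cfsg.Agent.S4163
import Cfsg.Agent.S0015
-- import your own Cfsg.Agent.* helpers here

set_option autoImplicit false
open Cfsg

namespace Cfsg.Agent.S4169

/-- Let P be a finite p-group whose conjugacy classes have exactly two sizes (1 and one other value). Then P has nilpotency class at most 3. -/
theorem result {P : Type*} [Group P] [Finite P] {p : ℕ} [Fact p.Prime] (hP : IsPGroup p P)
    (m : ℕ) (hm : 1 < m) (h : ∀ x : P, (Subgroup.centralizer ({x} : Set P)).index = 1 ∨ (Subgroup.centralizer ({x} : Set P)).index = m) :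
    upperCentralSeries P 3 = ⊤ := by
  classical
  have : Group.IsNilpotent P := hP.isNilpotent
  obtain ⟨N, -, hN⟩ := Finite.exists_le_maximal (α := Subgroup P)
    (p := fun N => N.Normal ∧ IsMulCommutative N) (a := ⊥) ⟨inferInstance, inferInstance⟩
  have := hN.prop.1
  have := hN.prop.2
  have hC : Subgroup.centralizer (N : Set P) = N :=
    Cfsg.Agent.S0015.result N fun M hM1 hM2 hle => le_antisymm (hN.le_of_ge ⟨hM1, hM2⟩ hle) hle
  by_cases hex : ∃ x : P, (Subgroup.centralizer ({x} : Set P)).index = m
  · have hmin : ∀ x : P, 1 < (Subgroup.centralizer ({x} : Set P)).index →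
        m ≤ (Subgroup.centralizer ({x} : Set P)).index := by
      intro x hx
      rcases h x with h1 | h1 <;> omega
    have key := Cfsg.Agent.S4163.result N hN.prop.2 hC m hm hex hmin
    set M := Subgroup.closure {x : P | (Subgroup.centralizer ({x} : Set P)).index = 1 ∨
      (Subgroup.centralizer ({x} : Set P)).index = m} with hM
    have hMtop : M = ⊤ := eq_top_iff.mpr fun x _ => Subgroup.subset_closure (h x)
    have : Group.IsNilpotent M := ⟨⟨3, key⟩⟩
    have hcl := Subgroup.upperCentralSeries_eq_top_iff_nilpotencyClass_le.mp key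
    refine Subgroup.upperCentralSeries_eq_top_iff_nilpotencyClass_le.mpr ((le_trans ?_ hcl))
    refine Group.nilpotencyClass_le_of_surjective (M.subtype) ?_
    intro x
    exact ⟨⟨x, hMtop ▸ Subgroup.mem_top x⟩, rfl⟩
  · rw [eq_top_iff]
    refine le_trans (fun x _ => ?_) (Subgroup.upperCentralSeries_mono P (by norm_num : 1 ≤ 3))
    rw [Subgroup.upperCentralSeries_one, Subgroup.mem_center_iff]
    intro y
    have h1 := (h x).resolve_right fun e => hex ⟨x, e⟩
    refine Subgroup.mem_centralizer_singleton_iff.mp ?_
    rw [Subgroup.index_eq_one.mp h1]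
    exact Subgroup.mem_top y

end Cfsg.Agent.S4169
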