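import Cfsg.Statements.S4176
import Cfsg.Agent.FGS3.SpanningOrbit
import Cfsg.Agent.Core.PiSeparable
-- import your own Cfsg.Agent.* helpers here

set_option autoImplicit false
open Cfsg

namespace Cfsg.Agent.S4176

/-- Let k be a field of prime characteristic p, H a finite p-soluble group and ρ a k-linear representation of H on V. Let a be a vector that is fixed by some Sylow p-subgroup of H and whose H-orbit spans V. Then the space of H-fixed vectors has dimension at most 1, and every vector b whose H-orbit has size coprime to the size of the orbit of a is fixed by H. -/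
theorem result {k V H : Type*} [Field k] (p : ℕ) [Fact p.Prime] [CharP k p] [AddCommGroup V] [Module k V]
    [Group H] [Finite H] (hsol : Cfsg.IsPSolvable p H) (ρ : Representation k H V) (a : V)
    (hfix : ∃ P : Sylow p H, ∀ x : H, x ∈ (P : Subgroup H) → ρ x a = a)
    (hspan : Submodule.span k {u : V | ∃ h : H, ρ h a = u} = ⊤) :
    Module.finrank k ρ.invariants ≤ 1 ∧
    ∀ b : V, (Nat.card {u : V | ∃ h : H, ρ h a = u}).Coprime (Nat.card {u : V | ∃ h : H, ρ h b = u}) → ∀ h : H, ρ h b = b := by
  classical
  haveI : Fintype H := Fintype.ofFinite H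
  obtain ⟨P, hP⟩ := hfix
  set O : Set V := {u : V | ∃ h : H, ρ h a = u} with hO
  have hOfin : O.Finite := (Set.finite_range fun h : H => ρ h a).subset (by rintro u ⟨h, rfl⟩; exact ⟨h, rfl⟩)
  let T : Subgroup H :=
    { carrier := {h | ρ h a = a}
      one_mem' := by show ρ 1 a = a; rw [map_one]; rfl
      mul_mem' := fun {x y} hx hy => by
        show ρ (x * y) a = a
        rw [map_mul, Module.End.mul_apply, hy, hx]
      inv_mem' := fun {x} hx => by
        show ρ x⁻¹ a = a
        conv_lhs => rw [← (show ρ x a = a from hx), ← Module.End.mul_apply, ← map_mul, inv_mul_cancel, map_one]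
        rfl }
  have hcardO : ∀ (b : V) (T : Subgroup H), (∀ h, h ∈ T ↔ ρ h b = b) →
      Nat.card {u : V | ∃ h : H, ρ h b = u} = T.index := by
    intro b T hT
    have hwd : ∀ x y : H, QuotientGroup.leftRel T x y → ρ x b = ρ y b := by
      intro x y hxy
      have h1 := (hT _).mp (QuotientGroup.leftRel_apply.mp hxy)
      have h2 := congrArg (ρ x) h1
      rw [← Module.End.mul_apply, ← map_mul, mul_inv_cancel_left] at h2
      exact h2.symm
    refine (Nat.card_eq_of_bijective (fun q : H ⧸ T => (⟨Quotient.lift (fun h => ρ h b) hwd q, ?_⟩ :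
      {u : V | ∃ h : H, ρ h b = u})) ⟨?_, ?_⟩).symm
    · induction q using Quotient.inductionOn with
      | h x => exact ⟨x, rfl⟩
    · intro x y hxy
      induction x using Quotient.inductionOn with
      | h x =>
        induction y using Quotient.inductionOn with
        | h y =>
          have h1 : ρ x b = ρ y b := congrArg Subtype.val hxy
          refine Quotient.sound (QuotientGroup.leftRel_apply.mpr ((hT _).mpr ?_))
          rw [map_mul, Module.End.mul_apply, ← h1, ← Module.End.mul_apply, ← map_mul, inv_mul_cancel,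
            map_one]
          rfl
    · rintro ⟨_, h, rfl⟩
      exact ⟨QuotientGroup.mk h, rfl⟩
  have hOT : Nat.card O = T.index := hcardO a T fun h => Iff.rfl
  have hpn : ¬ p ∣ Nat.card O := by
    rw [hOT]
    exact fun hd => P.not_dvd_index (hd.trans (Subgroup.index_dvd_of_le hP))
  -- every invariant vector is a multiple of the orbit sum
  set s : V := ∑ x ∈ hOfin.toFinset, x with hs
  have hsinv : ∀ h, ρ h s = s := by
    intro h
    rw [hs, map_sum]
    refine Finset.sum_nbij' (fun x => ρ h x) (fun x => ρ h⁻¹ x) ?_ ?_ ?_ ?_ (fun x _ => rfl)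
    · intro x hx
      rw [Set.Finite.mem_toFinset] at hx ⊢
      obtain ⟨g, rfl⟩ := hx
      exact ⟨h * g, by rw [map_mul, Module.End.mul_apply]⟩
    · intro x hx
      rw [Set.Finite.mem_toFinset] at hx ⊢
      obtain ⟨g, rfl⟩ := hx
      exact ⟨h⁻¹ * g, by rw [map_mul, Module.End.mul_apply]⟩
    · intro x _
      show ρ h⁻¹ (ρ h x) = x
      rw [← Module.End.mul_apply, ← map_mul, inv_mul_cancel, map_one]
      rfl
    · intro x _
      show ρ h (ρ h⁻¹ x) = x
      rw [← Module.End.mul_apply, ← map_mul, mul_inv_cancel, map_one]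
      rfl
  have key : ∀ (L : Subgroup H), (∃ Q : Sylow p L, ∀ x : L, x ∈ (Q : Subgroup L) → ρ (x : H) a = a) →
      (∀ u ∈ O, ∃ l : L, ρ (l : H) a = u) → ∀ v, (∀ l : L, ρ (l : H) v = v) →
      v ∈ Submodule.span k ({s} : Set V) := by
    intro L hQ htr v hv
    set W := Submodule.span k {u : V | ∃ l : L, (ρ.comp L.subtype) l a - a = u} with hW
    have hOW : ∀ u ∈ O, u - a ∈ W := fun u hu => by
      obtain ⟨l, hl⟩ := htr u hu
      exact Submodule.subset_span ⟨l, by rw [← hl]; rfl⟩
    have hvm : v ∈ Submodule.span k ({a} : Set V) ⊔ W := by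
      have h1 : (⊤ : Submodule k V) ≤ Submodule.span k ({a} : Set V) ⊔ W := by
        rw [← hspan, Submodule.span_le]
        intro u hu
        have h2 := Submodule.add_mem_sup (Submodule.mem_span_singleton_self (R := k) a) (hOW u hu)
        rwa [add_sub_cancel] at h2
      exact h1 Submodule.mem_top
    obtain ⟨y, hy, w, hw, rfl⟩ := Submodule.mem_sup.mp hvm
    obtain ⟨c, rfl⟩ := Submodule.mem_span_singleton.mp hy
    set nO := hOfin.toFinset.card
    have hn : (nO : k) ≠ 0 := by
      intro h0
      rw [CharP.cast_eq_zero_iff k p] at h0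
      exact hpn (by rwa [Nat.card_eq_card_finite_toFinset hOfin])
    have hsW : s - (nO : k) • a ∈ W := by
      have h2 : s - (nO : k) • a = ∑ x ∈ hOfin.toFinset, (x - a) := by
        rw [Finset.sum_sub_distrib, Finset.sum_const, Nat.cast_smul_eq_nsmul]
      rw [h2]
      exact sum_mem fun x hx => hOW x ((Set.Finite.mem_toFinset _).mp hx)
    have hmem : c • a + w - (c * (nO : k)⁻¹) • s ∈ W := by
      have h3 := W.sub_mem hw (W.smul_mem (c * (nO : k)⁻¹) hsW)
      have h4 : c • a + w - (c * (nO : k)⁻¹) • s = w - (c * (nO : k)⁻¹) • (s - (nO : k) • a) := by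
        rw [smul_sub, smul_smul, mul_assoc, inv_mul_cancel₀ hn, mul_one]
        abel
      rwa [h4]
    have h0 := Cfsg.Agent.FGS3.SpanningOrbit.eq_zero_of_invariant (p := p) (ρ.comp L.subtype)
      (Cfsg.Agent.Core.isPSolvable_subgroup hsol L) a hQ (by
        refine le_antisymm le_top (hspan ▸ Submodule.span_mono fun u hu => ?_)
        exact htr u hu) hmem (fun l => by
        show ρ (l : H) _ = _
        rw [map_sub, hv l, map_smul, hsinv])
    exact Submodule.mem_span_singleton.mpr ⟨_, (sub_eq_zero.mp h0).symm⟩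
  have hinv : ρ.invariants ≤ Submodule.span k ({s} : Set V) := fun v hv =>
    key ⊤ (by
      refine ⟨P.subtype le_top, fun x hx => hP x hx⟩) (fun u ⟨h, hh⟩ => ⟨⟨h, Subgroup.mem_top h⟩, hh⟩)
      v fun l => hv l
  constructor
  · refine (Submodule.finrank_mono hinv).trans ?_
    refine (finrank_span_le_card ({s} : Set V)).trans ?_
    simp
  intro b hcop h
  let B : Subgroup H :=
    { carrier := {h | ρ h b = b}
      one_mem' := by show ρ 1 b = b; rw [map_one]; rfl
      mul_mem' := fun {x y} hx hy => by
        show ρ (x * y) b = b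
        rw [map_mul, Module.End.mul_apply, hy, hx]
      inv_mem' := fun {x} hx => by
        show ρ x⁻¹ b = b
        conv_lhs => rw [← (show ρ x b = b from hx), ← Module.End.mul_apply, ← map_mul, inv_mul_cancel, map_one]
        rfl }
  rw [hcardO a T fun h => Iff.rfl, hcardO b B fun h => Iff.rfl] at hcop
  -- `B` is transitive on the orbit of `a`
  have hrel : T.relIndex B = T.index := by
    refine le_antisymm ?_ (Nat.le_of_dvd (Nat.pos_of_ne_zero Subgroup.index_ne_zero_of_finite) ?_)
    · rw [← Subgroup.relIndex_top_right T]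
      exact Subgroup.relIndex_le_of_le_right le_top
        (by rw [Subgroup.relIndex_top_right]; exact Subgroup.index_ne_zero_of_finite)
    · have h1 := Subgroup.relIndex_mul_index (inf_le_right : T ⊓ B ≤ B)
      have h2 := Subgroup.relIndex_mul_index (inf_le_left : T ⊓ B ≤ T)
      rw [Subgroup.inf_relIndex_right] at h1
      exact hcop.dvd_of_dvd_mul_right ⟨_, (h1.trans h2.symm).trans (mul_comm _ _)⟩
  have htr : ∀ u ∈ O, ∃ l : B, ρ (l : H) a = u := by
    have hOB : Nat.card {u : V | ∃ l : B, ρ (l : H) a = u} = T.relIndex B := by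
      refine (Nat.card_eq_of_bijective (fun q : B ⧸ T.subgroupOf B =>
        (⟨ρ ((Quotient.out q : B) : H) a, _, rfl⟩ : {u : V | ∃ l : B, ρ (l : H) a = u})) ⟨?_, ?_⟩).symm
      · intro x y hxy
        have h1 : ρ ((Quotient.out x : B) : H) a = ρ ((Quotient.out y : B) : H) a :=
          congrArg Subtype.val hxy
        rw [← QuotientGroup.out_eq' x, ← QuotientGroup.out_eq' y]
        refine QuotientGroup.eq.mpr ?_
        show ρ (((Quotient.out x : B) : H)⁻¹ * ((Quotient.out y : B) : H)) a = a
        rw [map_mul, Module.End.mul_apply, ← h1, ← Module.End.mul_apply, ← map_mul, inv_mul_cancel,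
          map_one]
        rfl
      · rintro ⟨_, l, rfl⟩
        refine ⟨QuotientGroup.mk l, Subtype.ext ?_⟩
        obtain ⟨z, hz⟩ := QuotientGroup.mk_out_eq_mul (T.subgroupOf B) l
        show ρ ((Quotient.out (l : B ⧸ T.subgroupOf B) : B) : H) a = ρ (l : H) a
        rw [hz, Subgroup.coe_mul, map_mul, Module.End.mul_apply]
        congr 1
        exact z.2
    intro u hu
    have hsub : {u : V | ∃ l : B, ρ (l : H) a = u} ⊆ O := by rintro u ⟨l, rfl⟩; exact ⟨l, rfl⟩
    have heq := Set.eq_of_subset_of_ncard_le hsub (by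
      rw [← Nat.card_coe_set_eq, ← Nat.card_coe_set_eq, hOB, hrel, hOT]) hOfin
    exact heq.symm.le hu
  have hQ : ∃ Q : Sylow p B, ∀ x : B, x ∈ (Q : Subgroup B) → ρ (x : H) a = a := by
    obtain ⟨Q⟩ : Nonempty (Sylow p (T.subgroupOf B)) := inferInstance
    have hQ' : IsPGroup p ((Q : Subgroup (T.subgroupOf B)).map (T.subgroupOf B).subtype) := Q.isPGroup'.map _
    refine ⟨hQ'.toSylow ?_, fun x hx => ?_⟩
    · have h1 : ((Q : Subgroup (T.subgroupOf B)).map (T.subgroupOf B).subtype).index =
          (Q : Subgroup (T.subgroupOf B)).index * (T.subgroupOf B).index :=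
        Subgroup.index_map_subtype _
      rw [h1]
      intro hd
      rcases (Nat.Prime.dvd_mul Fact.out).mp hd with hd' | hd'
      · exact Q.not_dvd_index hd'
      · change p ∣ T.relIndex B at hd'
        rw [hrel, ← hOT] at hd'
        exact hpn hd'
    · obtain ⟨y, -, rfl⟩ := hx
      exact y.2
  have hb := key B hQ htr b fun l => l.2
  obtain ⟨c, rfl⟩ := Submodule.mem_span_singleton.mp hb
  rw [map_smul, hsinv]

end Cfsg.Agent.S4176
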