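import Cfsg.Statements.S4177
-- import your own Cfsg.Agent.* helpers here

set_option autoImplicit false
open Cfsg

namespace Cfsg.Agent.S4177

/-- Let k be a field whose characteristic does not divide the order of the finite group H (for instance a field of characteristic zero), and ρ a k-linear representation of H on V. Let a be a vector whose H-orbit spans V. Then the space of H-fixed vectors has dimension at most 1, and every vector b whose H-orbit has size coprime to the size of the orbit of a is fixed by H. -/
theorem result {k V H : Type*} [Field k] [AddCommGroup V] [Module k V] [Group H] [Finite H]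
    (hchar : ¬ ringChar k ∣ Nat.card H) (ρ : Representation k H V) (a : V)
    (hspan : Submodule.span k {u : V | ∃ h : H, ρ h a = u} = ⊤) :
    Module.finrank k ρ.invariants ≤ 1 ∧
    ∀ b : V, (Nat.card {u : V | ∃ h : H, ρ h a = u}).Coprime (Nat.card {u : V | ∃ h : H, ρ h b = u}) → ∀ h : H, ρ h b = b := by
  classical
  letI : MulAction H V :=
    { smul := fun h v => ρ h v
      one_smul := fun v => by show ρ 1 v = v; simp
      mul_smul := fun g h v => by show ρ (g * h) v = ρ g (ρ h v); simp }
  have hsm : ∀ (h : H) (v : V), h • v = ρ h v := fun h v => rfl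
  have horb : ∀ v, {u : V | ∃ h : H, ρ h v = u} = MulAction.orbit H v := fun v => rfl
  have hidx : ∀ v, Nat.card {u : V | ∃ h : H, ρ h v = u} = (MulAction.stabilizer H v).index := fun v => by
    rw [horb, MulAction.index_stabilizer, Nat.card_coe_set_eq]
  haveI := Fintype.ofFinite H
  let t : V := ∑ h : H, ρ h a
  -- a vector fixed by a subgroup transitive on the orbit is a multiple of the orbit sum
  have key : ∀ (K : Subgroup H), (∀ g : H, ∃ k ∈ K, ρ k a = ρ g a) →
      ∀ v : V, (∀ k ∈ K, ρ k v = v) → v ∈ Submodule.span k {t} := by
    intro K htr v hv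
    haveI := Fintype.ofFinite K
    let A : V →ₗ[k] V := ∑ x : K, ρ (x : H)
    have hA : ∀ w, A w = ∑ x : K, ρ (x : H) w := fun w => LinearMap.sum_apply _ _ _
    have hAv : A v = (Fintype.card K : k) • v := by
      rw [hA, Finset.sum_congr rfl fun (x : K) _ => hv x x.2, Finset.sum_const, Finset.card_univ, ← Nat.cast_smul_eq_nsmul k]
    have hAu : ∀ g : H, A (ρ g a) = A a := by
      intro g
      obtain ⟨c, hc, hca⟩ := htr g
      rw [← hca, hA, hA]
      exact Fintype.sum_equiv (Equiv.mulRight (⟨c, hc⟩ : K)) _ _ fun x => by simp
    have hsum : (Fintype.card H : k) • A a = (Fintype.card K : k) • t := by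
      have h1 : A t = (Fintype.card H : k) • A a := by
        rw [map_sum, Finset.sum_congr rfl fun g _ => hAu g, Finset.sum_const, Finset.card_univ, ← Nat.cast_smul_eq_nsmul k]
      have h2 : A t = (Fintype.card K : k) • t := by
        rw [hA]
        have : ∀ x : K, ρ (x : H) t = t := fun x => by
          rw [map_sum]
          exact Fintype.sum_equiv (Equiv.mulLeft (x : H)) _ _ fun h => by simp
        rw [Finset.sum_congr rfl fun x _ => this x, Finset.sum_const, Finset.card_univ, ← Nat.cast_smul_eq_nsmul k]
      rw [← h1, h2]
    have hG0 : (Fintype.card H : k) ≠ 0 := fun h => hchar (by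
      rw [Nat.card_eq_fintype_card]
      exact (ringChar.spec k _).1 h)
    have hK0 : (Fintype.card K : k) ≠ 0 := fun h => hchar (by
      refine ((ringChar.spec k _).1 h).trans ?_
      rw [← Nat.card_eq_fintype_card]
      exact Subgroup.card_subgroup_dvd_card K)
    have hmem : A v ∈ Submodule.span k {t} := by
      have hle : Submodule.span k {u : V | ∃ h : H, ρ h a = u} ≤ (Submodule.span k {t}).comap A := by
        rw [Submodule.span_le]
        rintro _ ⟨g, rfl⟩
        show A (ρ g a) ∈ Submodule.span k {t}
        rw [hAu, ← inv_smul_smul₀ hG0 (A a), hsum]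
        exact Submodule.smul_mem _ _ (Submodule.smul_mem _ _ (Submodule.mem_span_singleton_self t))
      rw [hspan] at hle
      exact hle Submodule.mem_top
    rw [hAv] at hmem
    rw [← inv_smul_smul₀ hK0 v]
    exact Submodule.smul_mem _ _ hmem
  constructor
  · have hle : ρ.invariants ≤ Submodule.span k {t} := fun v hv =>
      key ⊤ (fun g => ⟨g, Subgroup.mem_top g, rfl⟩) v fun g _ => hv g
    exact (Submodule.finrank_mono hle).trans ((finrank_span_le_card ({t} : Set V)).trans (by simp))
  · intro b hcop h
    rw [hidx, hidx] at hcop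
    set A := MulAction.stabilizer H a
    set B := MulAction.stabilizer H b
    have h1 : A.index ∣ (A.subgroupOf B).index * B.index := by
      show A.index ∣ A.relIndex B * B.index
      rw [← Subgroup.inf_relIndex_right, Subgroup.relIndex_mul_index inf_le_right,
        ← Subgroup.relIndex_mul_index (inf_le_left : A ⊓ B ≤ A)]
      exact dvd_mul_left _ _
    have h2 : A.index ∣ (A.subgroupOf B).index := hcop.dvd_of_dvd_mul_right h1
    have h3 : A.subgroupOf B = MulAction.stabilizer B a := by
      ext x
      simp [Subgroup.mem_subgroupOf, A, MulAction.mem_stabilizer_iff, Subgroup.smul_def]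
    rw [h3, MulAction.index_stabilizer, MulAction.index_stabilizer] at h2
    have hfin : (MulAction.orbit H a).Finite := Set.finite_range _
    have hsub : MulAction.orbit B a ⊆ MulAction.orbit H a := by
      rintro _ ⟨x, rfl⟩; exact ⟨(x : H), rfl⟩
    have heq := Set.eq_of_subset_of_ncard_le hsub (Nat.le_of_dvd ((Set.ncard_pos (hfin.subset hsub)).2 (MulAction.nonempty_orbit a)) h2) hfin
    have hb : b ∈ Submodule.span k {t} := key B (fun g => by
      have : ρ g a ∈ MulAction.orbit B a := heq ▸ ⟨g, rfl⟩
      obtain ⟨x, hx⟩ := this
      exact ⟨x, x.2, hx⟩) b fun x hx => hx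
    obtain ⟨c, rfl⟩ := Submodule.mem_span_singleton.1 hb
    rw [map_smul]
    congr 1
    rw [map_sum]
    exact Fintype.sum_equiv (Equiv.mulLeft h) _ _ fun g => by simp

end Cfsg.Agent.S4177
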