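import Cfsg.Statements.S4178
-- import your own Cfsg.Agent.* helpers here

set_option autoImplicit false
open Cfsg

namespace Cfsg.Agent.S4178

theorem index_le_of_stab {G X : Type*} [Group G] [Finite G] (R : Subgroup G) (S : Subgroup G) (hS : S ≤ R)
    (f : G → X) (hf : ∀ g g' : G, f g = f g' → g⁻¹ * g' ∈ S) (Y : Set X) (hY : Y.Finite) (hfY : ∀ g, f g ∈ Y) :
    R.index ≤ Y.ncard := by
  haveI := hY.to_subtype
  refine le_trans (Nat.le_of_dvd (Nat.pos_of_ne_zero Subgroup.index_ne_zero_of_finite) (Subgroup.index_dvd_of_le hS)) ?_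
  rw [Subgroup.index_eq_card, ← Nat.card_coe_set_eq]
  refine Nat.card_le_card_of_injective (fun q => (⟨f q.out, hfY _⟩ : Y)) fun q q' h => ?_
  rw [← QuotientGroup.out_eq' q, ← QuotientGroup.out_eq' q', QuotientGroup.eq]
  exact hf _ _ (congrArg Subtype.val h)


/-- Let F be a finite field with q elements, V a non-zero finite-dimensional F-space of dimension d, H a group of invertible linear maps of V, and R the subgroup of H generated by the elements of H that fix some non-zero vector (have eigenvalue 1). Then the index of R in H is at most q^d − 1; and if H leaves invariant some proper non-zero subspace, the index is at most q^(d/2) − 1. -/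
theorem result {F V : Type*} [Field F] [Fintype F] [AddCommGroup V] [Module F V] [FiniteDimensional F V] [Nontrivial V]
    (H : Subgroup (V ≃ₗ[F] V)) :
    (Subgroup.closure {h : ↥H | ∃ v : V, v ≠ 0 ∧ (h : V ≃ₗ[F] V) v = v}).index ≤ Fintype.card F ^ Module.finrank F V - 1 ∧
    ((∃ W : Submodule F V, W ≠ ⊥ ∧ W ≠ ⊤ ∧ ∀ h ∈ H, ∀ w ∈ W, h w ∈ W) →
      ((Subgroup.closure {h : ↥H | ∃ v : V, v ≠ 0 ∧ (h : V ≃ₗ[F] V) v = v}).index : ℝ) ≤ Real.sqrt ((Fintype.card F : ℝ) ^ Module.finrank F V) - 1) := by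
  classical
  haveI : Finite V := Module.finite_of_finite F
  set R := Subgroup.closure {h : ↥H | ∃ v : V, v ≠ 0 ∧ (h : V ≃ₗ[F] V) v = v}
  haveI : Finite (V ≃ₗ[F] V) := Finite.of_injective (fun e => (e : V → V)) DFunLike.coe_injective
  have hmul : ∀ (g g' : H) (v : V), ((g⁻¹ * g' : H) : V ≃ₗ[F] V) v = (g : V ≃ₗ[F] V).symm ((g' : V ≃ₗ[F] V) v) :=
    fun g g' v => rfl
  have hqV : Nat.card V = Fintype.card F ^ Module.finrank F V := by
    rw [Module.natCard_eq_pow_finrank (K := F), Nat.card_eq_fintype_card]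
  -- orbit bound inside an invariant subspace
  have bound1 : ∀ W : Submodule F V, W ≠ ⊥ → (∀ h ∈ H, ∀ w ∈ W, h w ∈ W) →
      R.index ≤ Nat.card W - 1 := by
    intro W hW hinv
    obtain ⟨v, hv, hv0⟩ := Submodule.exists_mem_ne_zero_of_ne_bot hW
    let S : Subgroup H :=
      { carrier := {h | (h : V ≃ₗ[F] V) v = v}
        one_mem' := rfl
        mul_mem' := fun {a b} ha hb => by
          show (a : V ≃ₗ[F] V) ((b : V ≃ₗ[F] V) v) = v
          rw [hb, ha]
        inv_mem' := fun {a} ha => by
          show (a : V ≃ₗ[F] V).symm v = v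
          rw [LinearEquiv.symm_apply_eq, ha] }
    refine (index_le_of_stab R S (fun h hh => Subgroup.subset_closure ⟨v, hv0, hh⟩)
      (fun h : H => (h : V ≃ₗ[F] V) v) (fun g g' h => ?_) ((W : Set V) \ {0}) (Set.toFinite _) fun g => ⟨hinv _ g.2 v hv, ?_⟩).trans_eq ?_
    · show ((g⁻¹ * g' : H) : V ≃ₗ[F] V) v = v
      rw [hmul, ← h]
      exact LinearEquiv.symm_apply_apply _ _
    · simpa using hv0
    · rw [Set.ncard_sdiff' (by simp) (Set.toFinite _), Set.ncard_singleton, ← Nat.card_coe_set_eq]; rfl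
  -- orbit bound in the quotient
  have bound2 : ∀ W : Submodule F V, W ≠ ⊤ → (∀ h ∈ H, ∀ w ∈ W, h w ∈ W) →
      R.index ≤ Nat.card (V ⧸ W) - 1 := by
    intro W hW hinv
    obtain ⟨v, -, hv⟩ := SetLike.exists_of_lt (lt_top_iff_ne_top.2 hW : W < ⊤)
    have hinv' : ∀ (g : H), ∀ w ∈ W, (g : V ≃ₗ[F] V).symm w ∈ W := fun g w hw => hinv _ (H.inv_mem g.2) w hw
    let S : Subgroup H :=
      { carrier := {h | (h : V ≃ₗ[F] V) v - v ∈ W}
        one_mem' := by simp
        mul_mem' := fun {a b} ha hb => by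
          show (a : V ≃ₗ[F] V) ((b : V ≃ₗ[F] V) v) - v ∈ W
          have := W.add_mem (hinv _ a.2 _ hb) ha
          simpa [map_sub] using this
        inv_mem' := fun {a} ha => by
          show (a : V ≃ₗ[F] V).symm v - v ∈ W
          have := W.neg_mem (hinv' a _ ha)
          simpa [map_sub] using this }
    haveI : Finite (V ⧸ W) := Finite.of_surjective _ (Submodule.mkQ_surjective W)
    have hSR : S ≤ R := by
      intro h hh
      apply Subgroup.subset_closure
      by_contra hcon
      simp only [Set.mem_setOf_eq, not_exists, not_and] at hcon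
      let φ : W →ₗ[F] W := LinearMap.codRestrict W (((h : V ≃ₗ[F] V).toLinearMap - LinearMap.id).comp W.subtype)
        fun w => W.sub_mem (hinv _ h.2 w w.2) w.2
      have hinj : Function.Injective φ := by
        rw [← LinearMap.ker_eq_bot, LinearMap.ker_eq_bot']
        intro w hw
        have hw' : (h : V ≃ₗ[F] V) (w : V) - w = 0 := congrArg Subtype.val hw
        by_contra h0
        exact hcon w (by simpa using h0) (sub_eq_zero.1 hw')
      obtain ⟨w, hw⟩ := LinearMap.surjective_of_injective hinj ⟨_, hh⟩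
      have hw' : (h : V ≃ₗ[F] V) (w : V) - w = (h : V ≃ₗ[F] V) v - v := congrArg Subtype.val hw
      refine hcon (v - w) (fun h0 => hv (sub_eq_zero.1 h0 ▸ w.2)) ?_
      rw [map_sub]
      exact sub_eq_zero.1 (by rw [← sub_eq_zero.2 hw'.symm]; abel)
    refine (index_le_of_stab R S hSR (fun h : H => (Submodule.Quotient.mk ((h : V ≃ₗ[F] V) v) : V ⧸ W))
      (fun g g' h => ?_) (Set.univ \ {0}) (Set.toFinite _) fun g => ⟨trivial, ?_⟩).trans_eq ?_
    · show ((g⁻¹ * g' : H) : V ≃ₗ[F] V) v - v ∈ W
      rw [hmul]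
      have := W.neg_mem (hinv' g _ ((Submodule.Quotient.eq W).1 h))
      simpa [map_sub] using this
    · intro h0
      have := hinv' g _ ((Submodule.Quotient.mk_eq_zero W).1 h0)
      exact hv (by simpa using this)
    · rw [Set.ncard_sdiff' (by simp) (Set.toFinite _), Set.ncard_singleton, Set.ncard_univ]
  constructor
  · refine (bound1 ⊤ (bot_ne_top.symm) fun _ _ _ _ => Submodule.mem_top).trans_eq ?_
    rw [Nat.card_congr (Submodule.topEquiv.toEquiv), hqV]
  · rintro ⟨W, hb, ht, hinv⟩
    have h1 := bound1 W hb hinv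
    have h2 := bound2 W ht hinv
    have hprod : Nat.card W * Nat.card (V ⧸ W) = Fintype.card F ^ Module.finrank F V := by
      rw [← hqV, Submodule.card_eq_card_quotient_mul_card W, mul_comm]
    haveI : Finite (V ⧸ W) := Finite.of_surjective _ (Submodule.mkQ_surjective W)
    have hWpos : 0 < Nat.card W := Nat.card_pos
    have hQpos : 0 < Nat.card (V ⧸ W) := Nat.card_pos
    have hsq : (R.index + 1) ^ 2 ≤ Fintype.card F ^ Module.finrank F V := by
      rw [sq, ← hprod]
      exact Nat.mul_le_mul (by omega) (by omega)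
    have hsq' : ((R.index : ℝ) + 1) ^ 2 ≤ (Fintype.card F : ℝ) ^ Module.finrank F V := by exact_mod_cast hsq
    have := Real.sqrt_le_sqrt hsq'
    rw [Real.sqrt_sq (by positivity)] at this
    linarith

end Cfsg.Agent.S4178
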