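import Cfsg.Statements.S4184
import Mathlib
-- import your own Cfsg.Agent.* helpers here

set_option autoImplicit false
open Cfsg

namespace Cfsg.Agent.S4184

set_option maxHeartbeats 1000000

/-- The index of the centralizer. -/
noncomputable def cs {G : Type*} [Group G] (x : G) : ℕ := (Subgroup.centralizer ({x} : Set G)).index

theorem mem_cent {G : Type*} [Group G] {x g : G} :
    g ∈ Subgroup.centralizer ({x} : Set G) ↔ g * x = x * g := Subgroup.mem_centralizer_singleton_iff

theorem cs_dvd_cs_mul {G : Type*} [Group G] {u v : G} (huv : u * v = v * u)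
    (hc : (orderOf u).Coprime (orderOf v)) : cs u ∣ cs (u * v) := by
  refine Subgroup.index_dvd_of_le fun g hg => mem_cent.mpr ?_
  obtain ⟨m, hm⟩ := exists_pow_eq_self_of_coprime (n := orderOf v) (x := u) hc.symm
  have h1 : (u * v) ^ orderOf v = u ^ orderOf v := by
    rw [(show Commute u v from huv).mul_pow, pow_orderOf_eq_one, mul_one]
  have h2 : Commute g u := by
    rw [← hm, ← h1]
    exact ((show Commute g (u * v) from mem_cent.mp hg).pow_right _).pow_right _
  exact h2

theorem cs_conj {G : Type*} [Group G] (c z : G) : cs (c * z * c⁻¹) = cs z := by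
  have hconj : Subgroup.centralizer ({c * z * c⁻¹} : Set G) =
      (Subgroup.centralizer ({z} : Set G)).map (MulAut.conj c).toMonoidHom := by
    ext g
    rw [Subgroup.mem_map_equiv]
    simp only [mem_cent, MulAut.conj_symm_apply]
    constructor
    · intro hg
      calc c⁻¹ * g * c * z = c⁻¹ * (g * (c * z * c⁻¹)) * c := by group
        _ = _ := by rw [hg]; group
    · intro hg
      calc g * (c * z * c⁻¹) = c * (c⁻¹ * g * c * z) * c⁻¹ := by group
        _ = _ := by rw [hg]; group
  show (Subgroup.centralizer ({c * z * c⁻¹} : Set G)).index = (Subgroup.centralizer ({z} : Set G)).index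
  rw [hconj]
  exact Subgroup.index_map_equiv (H := Subgroup.centralizer ({z} : Set G)) (MulAut.conj c)


/-- Let G and M be finite groups with trivial centres and the same set of conjugacy class sizes, and suppose the prime graph of M is disconnected: the prime divisors of #M split into two non-empty parts such that M has no element of order pq with p in one part and q in the other. Then #G = #M. -/
theorem result {G M : Type*}
    [Group G] [Finite G] [Group M] [Finite M] (hZG : Subgroup.center G = ⊥) (hZM : Subgroup.center M = ⊥)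
    (h : Set.range (fun g : G => (Subgroup.centralizer ({g} : Set G)).index) = Set.range (fun g : M => (Subgroup.centralizer ({g} : Set M)).index))
    (hdisc : ∃ A : Set ℕ, (∃ a ∈ A, a.Prime ∧ a ∣ Nat.card M) ∧ (∃ b ∉ A, b.Prime ∧ b ∣ Nat.card M) ∧
      ∀ a ∈ A, ∀ b ∉ A, a.Prime → b.Prime → a ∣ Nat.card M → b ∣ Nat.card M → ¬ ∃ x : M, orderOf x = a * b) :
    Nat.card G = Nat.card M := by
  classical
  obtain ⟨A, ⟨a, haA, ha, had⟩, ⟨b, hbA, hb, hbd⟩, hnoedge⟩ := hdisc
  have hM1 : 1 < Nat.card M := lt_of_lt_of_le ha.one_lt (Nat.le_of_dvd Nat.card_pos had)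
  have htoM : ∀ x : G, ∃ w : M, cs w = cs x := fun x => by
    have : cs x ∈ Set.range (fun g : M => (Subgroup.centralizer ({g} : Set M)).index) := h ▸ ⟨x, rfl⟩
    exact this
  have htoG : ∀ w : M, ∃ x : G, cs x = cs w := fun w => by
    have : cs w ∈ Set.range (fun g : G => (Subgroup.centralizer ({g} : Set G)).index) := h.symm ▸ ⟨w, rfl⟩
    exact this
  have hcs1 : ∀ x : G, cs x = 1 → x = 1 := fun x hx => by
    have : x ∈ Subgroup.center G := Subgroup.mem_center_iff.mpr fun g =>
      mem_cent.mp ((Subgroup.index_eq_one.mp hx).symm ▸ Subgroup.mem_top g)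
    rwa [hZG, Subgroup.mem_bot] at this
  have hcsM : ∀ w : M, cs w < Nat.card M := by
    intro w
    refine lt_of_le_of_ne (Nat.le_of_dvd Nat.card_pos (Subgroup.index_dvd_card _)) fun e => ?_
    have h1 := Subgroup.card_mul_index (Subgroup.centralizer ({w} : Set M))
    change _ * cs w = _ at h1
    rw [e] at h1
    have hb' : Subgroup.centralizer ({w} : Set M) = ⊥ :=
      Subgroup.eq_bot_of_card_eq _ (Nat.eq_of_mul_eq_mul_right Nat.card_pos (h1.trans (one_mul _).symm))
    have hw : w ∈ Subgroup.centralizer ({w} : Set M) := mem_cent.mpr rfl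
    rw [hb', Subgroup.mem_bot] at hw
    subst hw
    have hc : cs (1 : M) = 1 := Subgroup.index_eq_one.mpr (eq_top_iff.mpr fun g _ => mem_cent.mpr (by simp))
    omega
  -- the full parts of a class size
  let Full : ℕ → Prop → ℕ → Prop := fun n _ q => ∀ k, q ^ k ∣ Nat.card M → q ^ k ∣ n
  have hcent : ∀ w : M, w ≠ 1 →
      (∀ q, q.Prime → q ∈ A → Full (cs w) True q) ∨ (∀ q, q.Prime → q ∉ A → Full (cs w) True q) := by
    intro w hw1
    set C := Subgroup.centralizer ({w} : Set M) with hC
    have hfull : ∀ q, q.Prime → ¬ q ∣ Nat.card C → Full (cs w) True q := by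
      intro q hq hqC k hk
      rw [← Subgroup.card_mul_index C] at hk
      exact (Nat.Coprime.pow_left k (hq.coprime_iff_not_dvd.mpr hqC)).dvd_of_dvd_mul_left hk
    obtain ⟨t, ht, htw⟩ := Nat.exists_prime_and_dvd (mt orderOf_eq_one_iff.mp hw1)
    haveI := Fact.mk ht
    have hwM : orderOf w ∣ Nat.card M := orderOf_dvd_natCard w
    set w' := w ^ (orderOf w / t) with hw'
    have hw'o : orderOf w' = t := orderOf_pow_orderOf_div (orderOf_pos w).ne' htw
    have key : ∀ q, q.Prime → q ∣ Nat.card C → q ≠ t → ∃ x : M, orderOf x = t * q := by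
      intro q hq hqC hqt
      haveI := Fact.mk hq
      obtain ⟨⟨y, hy⟩, hyo⟩ := exists_prime_orderOf_dvd_card' (G := C) q hqC
      rw [← Subgroup.orderOf_coe] at hyo
      have hcomm : Commute w' y :=
        (show Commute w y from (mem_cent.mp hy : y * w = w * y).symm).pow_left _
      exact ⟨w' * y, by rw [hcomm.orderOf_mul_eq_mul_orderOf_of_coprime (by
        rw [hw'o, hyo]; exact (Nat.coprime_primes ht hq).mpr (Ne.symm hqt)), hw'o, hyo]⟩
    by_cases htA : t ∈ A
    · refine Or.inr fun q hq hqA => hfull q hq fun hqC => ?_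
      exact hnoedge t htA q hqA ht hq (htw.trans hwM) (hqC.trans (Subgroup.card_subgroup_dvd_card C))
        (key q hq hqC (fun e => hqA (e ▸ htA)))
    · refine Or.inl fun q hq hqA => hfull q hq fun hqC => ?_
      obtain ⟨x, hx⟩ := key q hq hqC (fun e => htA (e ▸ hqA))
      exact hnoedge q hqA t htA hq ht (hqC.trans (Subgroup.card_subgroup_dvd_card C)) (htw.trans hwM)
        ⟨x, by rw [hx, mul_comm]⟩
  -- the order of M divides the order of G
  have hMG : Nat.card M ∣ Nat.card G := by
    rw [Nat.dvd_iff_prime_pow_dvd_dvd]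
    intro q k hq hk
    obtain ⟨t, ht, htd, hside⟩ : ∃ t : ℕ, t.Prime ∧ t ∣ Nat.card M ∧ (q ∈ A ↔ t ∉ A) := by
      by_cases hqA : q ∈ A
      · exact ⟨b, hb, hbd, by simp [hqA, hbA]⟩
      · exact ⟨a, ha, had, by simp [hqA, haA]⟩
    haveI := Fact.mk ht
    obtain ⟨w, hw⟩ := exists_prime_orderOf_dvd_card' (G := M) t htd
    obtain ⟨x, hx⟩ := htoG w
    refine dvd_trans ?_ (Subgroup.index_dvd_card (Subgroup.centralizer ({x} : Set G)))
    show q ^ k ∣ cs x
    rw [hx]
    by_cases hqC : q ∣ Nat.card (Subgroup.centralizer ({w} : Set M))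
    · exfalso
      haveI := Fact.mk hq
      obtain ⟨⟨y, hy⟩, hyo⟩ := exists_prime_orderOf_dvd_card' (G := Subgroup.centralizer ({w} : Set M)) q hqC
      rw [← Subgroup.orderOf_coe] at hyo
      have hcomm : Commute w y := (mem_cent.mp hy).symm
      have hne : t ≠ q := fun e => by subst e; exact iff_not_self hside
      have ho : orderOf (w * y) = t * q := by
        rw [hcomm.orderOf_mul_eq_mul_orderOf_of_coprime (by
          rw [hw, hyo]; exact (Nat.coprime_primes ht hq).mpr hne), hw, hyo]
      have hqd : q ∣ Nat.card M := hyo ▸ orderOf_dvd_natCard _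
      by_cases hqA : q ∈ A
      · exact hnoedge q hqA t (hside.mp hqA) hq ht hqd htd ⟨w * y, by rw [ho, mul_comm]⟩
      · exact hnoedge t (not_not.mp (fun h' => hqA (hside.mpr h'))) q hqA ht hq htd hqd ⟨w * y, ho⟩
    · have hk' := hk
      rw [← Subgroup.card_mul_index (Subgroup.centralizer ({w} : Set M))] at hk'
      exact (Nat.Coprime.pow_left k (hq.coprime_iff_not_dvd.mpr hqC)).dvd_of_dvd_mul_left hk'
  refine Nat.dvd_antisymm ?_ hMG
  rw [Nat.dvd_iff_prime_pow_dvd_dvd]
  intro q k hq hk
  haveI := Fact.mk hq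
  by_contra hkM
  have hlt : (Nat.card M).factorization q < (Nat.card G).factorization q := by
    have h1 : k ≤ (Nat.card G).factorization q := (hq.pow_dvd_iff_le_factorization Nat.card_pos.ne').mp hk
    have h2 : ¬ k ≤ (Nat.card M).factorization q := fun hc =>
      hkM ((hq.pow_dvd_iff_le_factorization Nat.card_pos.ne').mpr hc)
    omega
  have hne0 : ∀ x : G, cs x ≠ 0 := fun x => Subgroup.index_ne_zero_of_finite
  have hsum : ∀ x : G, (Nat.card (Subgroup.centralizer ({x} : Set G))).factorization q +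
      (cs x).factorization q = (Nat.card G).factorization q := fun x => by
    rw [← Finsupp.add_apply, ← Nat.factorization_mul Nat.card_pos.ne' (hne0 x)]
    exact congrArg (fun n : ℕ => n.factorization q) (Subgroup.card_mul_index _)
  have hbound : ∀ x : G, cs x ∣ Nat.card M := fun x => by
    obtain ⟨w, hw⟩ := htoM x
    exact hw ▸ Subgroup.index_dvd_card _
  have hle : ∀ x : G, (cs x).factorization q ≤ (Nat.card M).factorization q := fun x =>
    (Nat.factorization_le_iff_dvd (hne0 x) Nat.card_pos.ne').mpr (hbound x) q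
  have hqG : q ∣ Nat.card G := Nat.dvd_of_factorization_pos (by omega)
  obtain ⟨Q₀⟩ : Nonempty (Sylow q G) := inferInstance
  have hexz : ∀ (s : ℕ) [Fact s.Prime] (S : Sylow s G), s ∣ Nat.card G →
      ∃ z ∈ (S : Subgroup G), z ≠ 1 ∧ (∀ y ∈ (S : Subgroup G), y * z = z * y) ∧ ¬ s ∣ cs z ∧
        ∃ j, orderOf z = s ^ j := by
    intro s _ S hs
    haveI : Nontrivial (S : Subgroup G) :=
      (Subgroup.nontrivial_iff_ne_bot _).mpr (S.ne_bot_of_dvd_card hs)
    have := S.isPGroup'.center_nontrivial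
    obtain ⟨⟨z, hz⟩, hz1⟩ := exists_ne (1 : Subgroup.center (S : Subgroup G))
    have hzc : ∀ y ∈ (S : Subgroup G), y * (z : G) = (z : G) * y :=
      fun y hy => congrArg Subtype.val (Subgroup.mem_center_iff.mp hz ⟨y, hy⟩)
    refine ⟨z, z.2, fun e => hz1 (Subtype.ext (Subtype.ext e)), hzc, fun hd => ?_, ?_⟩
    · exact S.not_dvd_index (hd.trans (Subgroup.index_dvd_of_le fun y hy => mem_cent.mpr (hzc y hy)))
    · obtain ⟨j, hj⟩ := IsPGroup.iff_orderOf.mp S.isPGroup' z
      exact ⟨j, (Subgroup.orderOf_coe z).trans hj⟩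
  obtain ⟨z, hzQ, hz1, hzc, hzq, -⟩ := hexz q Q₀ hqG
  have hside : ∀ x : G, x ≠ 1 →
      (∀ t, t.Prime → t ∈ A → Full (cs x) True t) ∨ (∀ t, t.Prime → t ∉ A → Full (cs x) True t) := by
    intro x hx
    obtain ⟨w, hw⟩ := htoM x
    have hw1 : w ≠ 1 := fun e => hx (hcs1 x (by
      rw [← hw, e]; exact Subgroup.index_eq_one.mpr (eq_top_iff.mpr fun g _ => mem_cent.mpr (by simp))))
    rw [← hw]
    exact hcent w hw1
  -- `Y` is a side on which the class size of `z` is full
  obtain ⟨Y, hYz, hcov, r, hr, hrY, hrd⟩ : ∃ Y : Set ℕ, (∀ t, t.Prime → t ∈ Y → Full (cs z) True t) ∧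
      (∀ x : G, x ≠ 1 → (∀ t, t.Prime → t ∈ Y → Full (cs x) True t) ∨
        (∀ t, t.Prime → t ∉ Y → Full (cs x) True t)) ∧
      ∃ r : ℕ, r.Prime ∧ r ∈ Y ∧ r ∣ Nat.card M := by
    rcases hside z hz1 with hzA | hzB
    · exact ⟨A, hzA, hside, a, ha, haA, had⟩
    · refine ⟨Aᶜ, hzB, fun x hx => ?_, b, hb, hbA, hbd⟩
      rcases hside x hx with h1 | h1
      · exact Or.inr fun t ht htY => h1 t ht (not_not.mp htY)
      · exact Or.inl h1
  haveI := Fact.mk hr
  have hqY : q ∈ Y → ¬ q ∣ Nat.card M := fun hqY hd => hzq (by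
    have := hYz q hq hqY 1 (by simpa using hd)
    simpa using this)
  have hmax : ∀ x : G, (∀ t, t.Prime → t ∉ Y → Full (cs x) True t) →
      (cs x).factorization q = (Nat.card M).factorization q := by
    intro x hx
    refine le_antisymm (hle x) ?_
    by_cases hqY' : q ∈ Y
    · rw [Nat.factorization_eq_zero_of_not_dvd (hqY hqY')]; exact Nat.zero_le _
    · exact (hq.pow_dvd_iff_le_factorization (hne0 x)).mp (hx q hq hqY' _ (Nat.ordProj_dvd _ q))
  obtain ⟨R⟩ : Nonempty (Sylow r G) := inferInstance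
  obtain ⟨u, huR, hu1, huc, hur, ju, hju⟩ := hexz r R (hrd.trans hMG)
  have hrq : r ≠ q := fun e => by subst e; exact hqY hrY hrd
  have huX : ∀ t, t.Prime → t ∉ Y → Full (cs u) True t := by
    refine (hcov u hu1).resolve_left fun h1 => hur ?_
    have := h1 r hr hrY 1 (by simpa using hrd)
    simpa using this
  -- an element with full class size does not exist
  have hnofull : ∀ v : G, u * v = v * u → (∃ j, orderOf v = q ^ j) →
      ¬ ∀ t, t.Prime → t ∈ Y → Full (cs v) True t := by
    rintro v huv ⟨j, hj⟩ hv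
    have hco : (orderOf u).Coprime (orderOf v) := by
      rw [hju, hj]; exact Nat.coprime_pow_primes _ _ hr hq hrq
    have h1 := cs_dvd_cs_mul huv hco
    have h2 : cs v ∣ cs (u * v) := by
      have h3 : v * u = u * v := huv.symm
      have := cs_dvd_cs_mul h3 hco.symm
      rwa [h3] at this
    obtain ⟨w, hw⟩ := htoM (u * v)
    have hdvd : Nat.card M ∣ cs (u * v) := by
      rw [Nat.dvd_iff_prime_pow_dvd_dvd]
      intro t i ht hi
      by_cases htY : t ∈ Y
      · exact (hv t ht htY i hi).trans h2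
      · exact (huX t ht htY i hi).trans h1
    have := Nat.le_of_dvd (Nat.pos_of_ne_zero (hne0 _)) hdvd
    have := hcsM w
    omega
  have hqC : q ∣ Nat.card (Subgroup.centralizer ({u} : Set G)) := by
    refine Nat.dvd_of_factorization_pos ?_
    have := hsum u; have := hle u; omega
  obtain ⟨⟨v, hv⟩, hvo⟩ := exists_prime_orderOf_dvd_card' (G := Subgroup.centralizer ({u} : Set G)) q hqC
  rw [← Subgroup.orderOf_coe] at hvo
  change orderOf v = q at hvo
  have huv : u * v = v * u := (mem_cent.mp hv).symm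
  have hv1 : v ≠ 1 := fun e => by rw [e, orderOf_one] at hvo; exact hq.ne_one hvo.symm
  have hvX : ∀ t, t.Prime → t ∉ Y → Full (cs v) True t :=
    (hcov v hv1).resolve_left (hnofull v huv ⟨1, by simpa using hvo⟩)
  have hco : (orderOf u).Coprime (orderOf v) := by
    rw [hju, hvo]; exact ((Nat.coprime_primes hr hq).mpr hrq).pow_left _
  set D := Subgroup.centralizer ({u * v} : Set G) with hD
  have hDu : D ≤ Subgroup.centralizer ({u} : Set G) ∧ D ≤ Subgroup.centralizer ({v} : Set G) := by
    obtain ⟨m, hm⟩ := exists_pow_eq_self_of_coprime (n := orderOf v) (x := u) hco.symm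
    have h1 : (u * v) ^ orderOf v = u ^ orderOf v := by
      rw [(show Commute u v from huv).mul_pow, pow_orderOf_eq_one, mul_one]
    have hgu : ∀ g ∈ D, Commute g u := fun g hg => by
      rw [← hm, ← h1]
      exact ((show Commute g (u * v) from mem_cent.mp hg).pow_right _).pow_right _
    refine ⟨fun g hg => mem_cent.mpr (hgu g hg), fun g hg => mem_cent.mpr ?_⟩
    have h2 : Commute g (u⁻¹ * (u * v)) := (hgu g hg).inv_right.mul_right (mem_cent.mp hg)
    rwa [inv_mul_cancel_left] at h2
  have hDq : (Nat.card D).factorization q =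
      (Nat.card (Subgroup.centralizer ({v} : Set G))).factorization q := by
    have h1 : (cs u).factorization q ≤ (cs (u * v)).factorization q :=
      (Nat.factorization_le_iff_dvd (hne0 u) (hne0 _)).mpr (cs_dvd_cs_mul huv hco) q
    have := hmax u huX
    have := hmax v hvX
    have := hle (u * v)
    have := hsum v
    have h2 := hsum (u * v)
    rw [← hD] at h2
    omega
  obtain ⟨W₀⟩ : Nonempty (Sylow q D) := inferInstance
  set W := (W₀ : Subgroup D).map D.subtype with hW
  have hvD : v ∈ D := mem_cent.mpr (by rw [← mul_assoc, ← huv])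
  have hvW : v ∈ W := by
    refine ⟨⟨v, hvD⟩, ?_, rfl⟩
    set Z := Subgroup.zpowers (⟨v, hvD⟩ : D) with hZd
    haveI : Z.Normal := ⟨fun n hn g => by
      obtain ⟨i, rfl⟩ := Subgroup.mem_zpowers_iff.mp hn
      have hc : Commute g (⟨v, hvD⟩ : D) := Subtype.ext (mem_cent.mp (hDu.2 g.2))
      rw [(hc.zpow_right i).eq, mul_inv_cancel_right]
      exact hn⟩
    have hZp : IsPGroup q Z := IsPGroup.of_card (n := 1) (by
      rw [Nat.card_zpowers, pow_one, ← Subgroup.orderOf_coe]; exact hvo)
    exact hZp.le_sylow_of_normal W₀ (Subgroup.mem_zpowers _)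
  have hWp : IsPGroup q W := W₀.isPGroup'.map _
  obtain ⟨S, hWS⟩ := hWp.exists_le_sylow
  obtain ⟨c, hc⟩ := MulAction.exists_smul_eq G Q₀ S
  set z' := c * z * c⁻¹ with hz'
  have hz'S : z' ∈ (S : Subgroup G) := by
    rw [← hc, Sylow.coe_subgroup_smul]
    exact Subgroup.smul_mem_pointwise_smul z (MulAut.conj c) (Q₀ : Subgroup G) hzQ
  have hz'c : ∀ y ∈ (S : Subgroup G), y * z' = z' * y := by
    intro y hy
    rw [← hc, Sylow.coe_subgroup_smul, Subgroup.mem_pointwise_smul_iff_inv_smul_mem] at hy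
    have h1 : c⁻¹ * y * c ∈ (Q₀ : Subgroup G) := by simpa [MulAut.smul_def] using hy
    calc y * z' = c * ((c⁻¹ * y * c) * z) * c⁻¹ := by rw [hz']; group
      _ = c * (z * (c⁻¹ * y * c)) * c⁻¹ := by rw [hzc _ h1]
      _ = _ := by rw [hz']; group
  have hz'v : z' ∈ (S : Subgroup G) ⊓ Subgroup.centralizer ({v} : Set G) :=
    ⟨hz'S, mem_cent.mpr (hz'c v (hWS hvW)).symm⟩
  have hWeq : W = (S : Subgroup G) ⊓ Subgroup.centralizer ({v} : Set G) := by
    refine Subgroup.eq_of_le_of_card_ge (le_inf hWS ((Subgroup.map_subtype_le _).trans hDu.2)) ?_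
    obtain ⟨i, hi⟩ := IsPGroup.iff_card.mp (S.isPGroup'.to_le
      (inf_le_left : (S : Subgroup G) ⊓ Subgroup.centralizer ({v} : Set G) ≤ S))
    have h1 : q ^ i ∣ Nat.card (Subgroup.centralizer ({v} : Set G)) :=
      hi ▸ Subgroup.card_dvd_of_le inf_le_right
    rw [hq.pow_dvd_iff_le_factorization Nat.card_pos.ne', ← hDq] at h1
    rw [hi, hW, Subgroup.card_map_of_injective D.subtype_injective, W₀.card_eq_multiplicity]
    exact Nat.pow_le_pow_right hq.pos h1
  have hz'u : u * z' = z' * u := by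
    rw [← hWeq] at hz'v
    exact (mem_cent.mp (hDu.1 ((Subgroup.map_subtype_le _) hz'v))).symm
  refine hnofull z' hz'u ?_ fun t ht htY => ?_
  · obtain ⟨i, hi⟩ := IsPGroup.iff_orderOf.mp S.isPGroup' ⟨z', hz'S⟩
    exact ⟨i, by rw [← hi, ← Subgroup.orderOf_coe]⟩
  · have e : cs z' = cs z := cs_conj c z
    rw [e]
    exact hYz t ht htY

end Cfsg.Agent.S4184
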