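import Cfsg.Statements.S4186
-- import your own Cfsg.Agent.* helpers here

set_option autoImplicit false
open Cfsg

namespace Cfsg.Agent.S4186

/-- Let T and X be subgroups of a group with T a finite 2-group normalizing X but not centralizing it. Then some element of T inverts some non-identity element of X under conjugation. -/
theorem result {G : Type*} [Group G] (T X : Subgroup G) [Finite ↥T] (hT : IsPGroup 2 ↥T) (hTN : T ≤ Subgroup.normalizer (X : Set G)) (hTC : ¬ T ≤ Subgroup.centralizer (X : Set G)) : ∃ t ∈ T, ∃ x ∈ X, x ≠ 1 ∧ t * x * t⁻¹ = x⁻¹ := by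
  classical
  obtain ⟨t0, ht0, ht0C⟩ := SetLike.not_le_iff_exists.1 hTC
  obtain ⟨n, hn⟩ := hT ⟨t0, ht0⟩
  have hex : ∃ m, t0 ^ 2 ^ m ∈ Subgroup.centralizer (X : Set G) :=
    ⟨n, by rw [show t0 ^ 2 ^ n = 1 from congrArg Subtype.val hn]; exact one_mem _⟩
  obtain ⟨m, hm⟩ : ∃ m, Nat.find hex = m + 1 :=
    Nat.exists_eq_succ_of_ne_zero fun h0 => ht0C (by simpa [h0] using Nat.find_spec hex)
  have ht2 := Nat.find_spec hex
  rw [hm, pow_succ, pow_mul, Subgroup.mem_centralizer_iff] at ht2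
  have htC : t0 ^ 2 ^ m ∉ Subgroup.centralizer (X : Set G) := Nat.find_min hex (by omega)
  have htT : t0 ^ 2 ^ m ∈ T := pow_mem ht0 _
  generalize t0 ^ 2 ^ m = t at ht2 htC htT
  simp only [Subgroup.mem_centralizer_iff, not_forall] at htC
  obtain ⟨x, hx, hne⟩ := htC
  have htx : t * x * t⁻¹ ∈ X := (Subgroup.mem_normalizer_iff.1 (hTN htT) x).1 hx
  refine ⟨t, htT, t * x * t⁻¹ * x⁻¹, mul_mem htx (inv_mem hx), ?_, ?_⟩
  · intro h
    apply hne
    rw [mul_inv_eq_one, mul_inv_eq_iff_eq_mul] at h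
    exact h.symm
  · have h2 : t * t * x * t⁻¹ = x * t := by
      have := ht2 x hx
      rw [pow_two] at this
      calc t * t * x * t⁻¹ = x * (t * t) * t⁻¹ := by rw [this]
        _ = x * t := by group
    calc t * (t * x * t⁻¹ * x⁻¹) * t⁻¹ = (t * t * x * t⁻¹) * x⁻¹ * t⁻¹ := by group
      _ = x * t * x⁻¹ * t⁻¹ := by rw [h2]
      _ = (t * x * t⁻¹ * x⁻¹)⁻¹ := by group

end Cfsg.Agent.S4186
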