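import Cfsg.Statements.S4188
import Cfsg.Agent.FGS3.TwoGroupQuotient
import Cfsg.Agent.FGS3.PGroupFrattini
-- import your own Cfsg.Agent.* helpers here

set_option autoImplicit false
open Cfsg

namespace Cfsg.Agent.S4188

open scoped Pointwise commutatorElement

/-- Let G be a finite group that is the semidirect product of a normal abelian subgroup N of odd order by a 2-subgroup P, and suppose N is the unique minimal normal subgroup of G. Then the index of the Frattini subgroup of P in P is at most #N − 1. -/
theorem result {G : Type*} [Group G] [Finite G] (N P : Subgroup G) (hN : N.Normal) (hNab : IsMulCommutative ↥N) (hNodd : Odd (Nat.card ↥N)) (hP : IsPGroup 2 ↥P) (hdisj : N ⊓ P = ⊥) (hprod : N ⊔ P = ⊤) (hmin : N ≠ ⊥ ∧ ∀ M : Subgroup G, M.Normal → M ≠ ⊥ → N ≤ M) : (frattini ↥P).index ≤ Nat.card ↥N - 1 := by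
  classical
  haveI := hN
  haveI : Fact (Nat.Prime 2) := ⟨Nat.prime_two⟩
  letI : CommGroup N :=
    { (inferInstance : Group N) with mul_comm := fun a b => hNab.is_comm.comm a b }
  have hCN : ∀ n ∈ P, (∀ a ∈ N, n * a * n⁻¹ = a) → n = 1 := by
    intro n hn hfix
    let C := P ⊓ Subgroup.centralizer (N : Set G)
    have hC : C.Normal := by
      refine ⟨fun c hc g => ?_⟩
      have hg : g ∈ ((N ⊔ P : Subgroup G) : Set G) := by rw [hprod]; exact Subgroup.mem_top g
      rw [Subgroup.normal_mul] at hg
      obtain ⟨a, ha, b, hb, rfl⟩ := Set.mem_mul.mp hg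
      have h1 : b * c * b⁻¹ ∈ C := by
        refine ⟨mul_mem (mul_mem hb hc.1) (Subgroup.inv_mem _ hb), Subgroup.mem_centralizer_iff.mpr fun u hu => ?_⟩
        have h2 : (b⁻¹ * u * b) * c = c * (b⁻¹ * u * b) :=
          Subgroup.mem_centralizer_iff.mp hc.2 _ (by simpa using hN.conj_mem u hu b⁻¹)
        calc u * (b * c * b⁻¹) = b * ((b⁻¹ * u * b) * c) * b⁻¹ := by group
          _ = b * c * b⁻¹ * u := by rw [h2]; group
      have h3 : a * b * c * (a * b)⁻¹ = b * c * b⁻¹ := by
        calc a * b * c * (a * b)⁻¹ = a * (b * c * b⁻¹) * a⁻¹ := by group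
          _ = b * c * b⁻¹ := by
            rw [Subgroup.mem_centralizer_iff.mp h1.2 a ha, mul_inv_cancel_right]
      rw [h3]; exact h1
    have hnC : n ∈ C := ⟨hn, Subgroup.mem_centralizer_iff.mpr fun a ha =>
      (mul_inv_eq_iff_eq_mul.mp (hfix a ha)).symm⟩
    by_contra hn1
    have hle := hmin.2 C hC (fun h => hn1 (Subgroup.mem_bot.mp (h ▸ hnC)))
    exact hmin.1 (le_bot_iff.mp (hdisj ▸ le_inf le_rfl (hle.trans inf_le_left)))
  let φ : P →* MulAut N :=
    { toFun := fun s => MulAut.conjNormal (s : G)
      map_one' := map_one MulAut.conjNormal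
      map_mul' := fun a b => map_mul MulAut.conjNormal (a : G) (b : G) }
  letI : CommGroup (P ⧸ frattini P) :=
    { (inferInstance : Group (P ⧸ frattini P)) with
      mul_comm := fun a b => by
        induction a using QuotientGroup.induction_on with
        | H a =>
          induction b using QuotientGroup.induction_on with
          | H b =>
            rw [← QuotientGroup.mk_mul, ← QuotientGroup.mk_mul, QuotientGroup.eq]
            refine Cfsg.Agent.FGS3.commutator_le_frattini hP ?_
            rw [show (a * b)⁻¹ * (b * a) = ⁅b⁻¹, a⁻¹⁆ by rw [commutatorElement_def]; group]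
            exact Subgroup.commutator_mem_commutator (Subgroup.mem_top _) (Subgroup.mem_top _) }
  have hbound := Cfsg.Agent.FGS3.TwoQuot.bound_of_odd (N : Subgroup G) hNodd P hP φ ⊤ (P ⧸ frattini P)
    ((QuotientGroup.mk' (frattini P)).comp (Subgroup.topEquiv (G := P)).toMonoidHom) inferInstance
    (fun a => by
      induction a using QuotientGroup.induction_on with
      | H a =>
        rw [← QuotientGroup.mk_mul, QuotientGroup.eq_one_iff, ← pow_two]
        exact Cfsg.Agent.FGS3.pow_mem_frattini hP a)
    (fun n m s hs => by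
      show QuotientGroup.mk' (frattini P) (m : P) = QuotientGroup.mk' (frattini P) (n : P)
      rw [hs, map_mul, map_mul, map_inv, mul_comm (QuotientGroup.mk' (frattini P) s), mul_inv_cancel_right])
    (fun n hn => by
      show QuotientGroup.mk' (frattini P) (n : P) = 1
      have h1 : (n : P) = 1 := Subtype.ext (hCN _ (n : P).2 fun a ha => by
        have := congrArg Subtype.val (DFunLike.congr_fun hn ⟨a, ha⟩)
        exact this)
      rw [h1, map_one])
  rw [MonoidHom.range_comp, MonoidHom.range_eq_top.mpr (Subgroup.topEquiv (G := P)).surjective,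
    ← MonoidHom.range_eq_map, MonoidHom.range_eq_top.mpr (QuotientGroup.mk'_surjective _),
    Subgroup.card_top, ← Subgroup.index_eq_card] at hbound
  have h2 : 1 < Nat.card N := (Subgroup.one_lt_card_iff_ne_bot N).mpr hmin.1
  rcases hbound with h | ⟨h, h'⟩ | ⟨h, -⟩ <;> omega

end Cfsg.Agent.S4188
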