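import Cfsg.Statements.S4195
import Cfsg.Agent.FGS3.ClassSize
-- import your own Cfsg.Agent.* helpers here

set_option autoImplicit false
open Cfsg

namespace Cfsg.Agent.S4195

theorem even_class_of_real {G : Type*} [Group G] [Finite G] {x : G} (h2 : x ^ 2 ≠ 1)
    (hreal : IsConj x x⁻¹) : 2 ∣ (Subgroup.centralizer ({x} : Set G)).index := by
  classical
  rw [Cfsg.Agent.FGS3.index_centralizer_eq_card_isConj]
  haveI := Fintype.ofFinite {y : G // IsConj x y}
  let σ : Equiv.Perm ({y : G // IsConj x y}) :=
    { toFun := fun y => ⟨y.1⁻¹, by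
        obtain ⟨c, hc⟩ := isConj_iff.1 y.2
        exact hreal.trans (isConj_iff.2 ⟨c, by rw [← conj_inv, hc]⟩)⟩
      invFun := fun y => ⟨y.1⁻¹, by
        obtain ⟨c, hc⟩ := isConj_iff.1 y.2
        exact hreal.trans (isConj_iff.2 ⟨c, by rw [← conj_inv, hc]⟩)⟩
      left_inv := fun y => Subtype.ext (inv_inv y.1)
      right_inv := fun y => Subtype.ext (inv_inv y.1) }
  have hsq : σ ^ 2 = 1 := by
    refine Equiv.ext fun y => Subtype.ext ?_
    simp [σ, pow_two]
  have hsupp : σ.support = Finset.univ := by
    refine Finset.eq_univ_of_forall fun y => ?_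
    rw [Equiv.Perm.mem_support]
    intro h
    have h' : (y.1)⁻¹ = y.1 := congrArg Subtype.val h
    obtain ⟨c, hc⟩ := isConj_iff.1 y.2
    apply h2
    have hyy : y.1 ^ 2 = 1 := by
      rw [pow_two]; nth_rewrite 1 [← h']; exact inv_mul_cancel _
    rw [← hc, conj_pow] at hyy
    have := congrArg (fun t => c⁻¹ * t * c) hyy
    simpa [mul_assoc] using this
  have := Equiv.Perm.two_dvd_card_support hsq
  rw [hsupp, Finset.card_univ] at this
  rwa [Nat.card_eq_fintype_card]


/-- Let x be a non-identity element of a finite group G whose centralizer contains a Sylow 2-subgroup of G. If x is conjugate to its inverse, then x has order 2. -/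
theorem result {G : Type*} [Group G] [Finite G] (x : G) (hx : x ≠ 1) (P : Sylow 2 G) (hP : (P : Subgroup G) ≤ Subgroup.centralizer ({x} : Set G)) (hreal : IsConj x x⁻¹) : orderOf x = 2 := by
  by_contra h
  have h2 : x ^ 2 ≠ 1 := fun hx2 => h (orderOf_eq_prime hx2 hx)
  have hd := (even_class_of_real h2 hreal).trans (Subgroup.index_dvd_of_le hP)
  exact P.not_dvd_index hd

end Cfsg.Agent.S4195
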