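import Cfsg.Statements.S4196
import Cfsg.Agent.S4195
-- import your own Cfsg.Agent.* helpers here

set_option autoImplicit false
open Cfsg

namespace Cfsg.Agent.S4196

/-- A finite group G has elementary abelian Sylow 2-subgroups (commutative with every element squaring to the identity) if and only if every 2-element of G has a Sylow 2-subgroup in its centralizer and is conjugate to its inverse. -/
theorem result {G : Type*} [Group G] [Finite G] (P : Sylow 2 G) :
    (IsMulCommutative (P : Subgroup G) ∧ ∀ x ∈ (P : Subgroup G), x ^ 2 = 1) ↔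
      ∀ x : G, (∃ k : ℕ, orderOf x = 2 ^ k) → (∃ Q : Sylow 2 G, (Q : Subgroup G) ≤ Subgroup.centralizer ({x} : Set G)) ∧ IsConj x x⁻¹ := by
  constructor
  · rintro ⟨hc, he⟩ x ⟨k, hk⟩
    have hx : IsPGroup 2 (Subgroup.zpowers x) := IsPGroup.of_card (n := k) (by rw [Nat.card_zpowers, hk])
    obtain ⟨Q, hQ⟩ := hx.exists_le_sylow
    let e := Sylow.equiv Q P
    have hxQ : x ∈ (Q : Subgroup G) := hQ (Subgroup.mem_zpowers x)
    refine ⟨⟨Q, fun y hy => ?_⟩, ?_⟩
    · rw [Subgroup.mem_centralizer_singleton_iff]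
      have : (⟨y, hy⟩ : (Q : Subgroup G)) * ⟨x, hxQ⟩ = ⟨x, hxQ⟩ * ⟨y, hy⟩ :=
        e.injective (by rw [map_mul, map_mul]; exact mul_comm' _ _)
      exact congrArg Subtype.val this
    · have : (⟨x, hxQ⟩ : (Q : Subgroup G)) ^ 2 = 1 := e.injective (by
        rw [map_pow, map_one]; exact Subtype.ext (by simpa using he _ (e ⟨x, hxQ⟩).2))
      have hx2 : x * x = 1 := by rw [← pow_two]; exact congrArg Subtype.val this
      rw [inv_eq_of_mul_eq_one_right hx2]
  · intro h
    have key : ∀ x ∈ (P : Subgroup G), x ^ 2 = 1 := by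
      intro x hx
      by_cases h1 : x = 1
      · simp [h1]
      obtain ⟨k, hk⟩ := IsPGroup.iff_orderOf.1 P.isPGroup' ⟨x, hx⟩
      obtain ⟨⟨Q, hQ⟩, hr⟩ := h x ⟨k, by rw [← hk]; exact Subgroup.orderOf_coe (⟨x, hx⟩ : (P : Subgroup G))⟩
      rw [← Cfsg.Agent.S4195.result x h1 Q hQ hr]
      exact pow_orderOf_eq_one x
    refine ⟨⟨⟨fun a b => ?_⟩⟩, key⟩
    have inv_eq : ∀ y : (P : Subgroup G), y⁻¹ = y := fun y =>
      inv_eq_of_mul_eq_one_right (Subtype.ext (by simpa [pow_two] using key y.1 y.2))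
    calc a * b = (a * b)⁻¹ := (inv_eq _).symm
      _ = b * a := by rw [mul_inv_rev, inv_eq, inv_eq]

end Cfsg.Agent.S4196
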