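import Cfsg.Statements.S4230
-- import your own Cfsg.Agent.* helpers here

set_option autoImplicit false
open Cfsg

namespace Cfsg.Agent.S4230

/-- Let p be an odd prime, q a natural number not divisible by p, and e the multiplicative order of q modulo p. For a natural number f, p divides the value at q of the f-th cyclotomic polynomial if and only if f = e·p^j for some j ≥ 0. -/
theorem result (p q f : ℕ) (hp : p.Prime) (hp2 : p ≠ 2) (hpq : ¬ p ∣ q) :
    ((p : ℤ) ∣ (Polynomial.cyclotomic f ℤ).eval (q : ℤ)) ↔ ∃ j : ℕ, f = orderOf (q : ZMod p) * p ^ j := by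
  haveI : Fact p.Prime := ⟨hp⟩
  have hq0 : (q : ZMod p) ≠ 0 := by rwa [Ne, ZMod.natCast_eq_zero_iff]
  have he : 0 < orderOf (q : ZMod p) := orderOf_pos_iff.2 (isOfFinOrder_iff_pow_eq_one.2
    ⟨p - 1, Nat.sub_pos_of_lt hp.one_lt, ZMod.pow_card_sub_one_eq_one hq0⟩)
  have hdiv : ¬ p ∣ orderOf (q : ZMod p) := fun h => by
    have h1 := h.trans (orderOf_dvd_of_pow_eq_one (ZMod.pow_card_sub_one_eq_one hq0))
    have := Nat.le_of_dvd (Nat.sub_pos_of_lt hp.one_lt) h1
    have := hp.two_le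
    omega
  have hiff : ((p : ℤ) ∣ (Polynomial.cyclotomic f ℤ).eval (q : ℤ)) ↔ (Polynomial.cyclotomic f (ZMod p)).IsRoot (q : ZMod p) := by
    rw [← ZMod.intCast_zmod_eq_zero_iff_dvd, Polynomial.IsRoot, ← Polynomial.map_cyclotomic_int f (ZMod p)]
    have h : ((q : ZMod p)) = Int.castRingHom (ZMod p) (q : ℤ) := by simp
    rw [h, Polynomial.eval_map, Polynomial.eval₂_at_apply, eq_intCast]
  rw [hiff]
  rcases Nat.eq_zero_or_pos f with rfl | hf
  · refine ⟨fun h => ?_, fun ⟨j, hj⟩ => ?_⟩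
    · simp [Polynomial.IsRoot] at h
    · exact absurd hj.symm (Nat.mul_ne_zero he.ne' (pow_ne_zero _ hp.ne_zero))
  constructor
  · intro h
    obtain ⟨k, m, hm, rfl⟩ := Nat.exists_eq_pow_mul_and_not_dvd hf.ne' p hp.ne_one
    haveI : NeZero (m : ZMod p) := ⟨fun h0 => hm ((ZMod.natCast_eq_zero_iff m p).1 h0)⟩
    have h' := Polynomial.isRoot_cyclotomic_prime_pow_mul_iff_of_charP.1 h
    exact ⟨k, by rw [← h'.eq_orderOf, mul_comm]⟩
  · rintro ⟨j, rfl⟩
    haveI : NeZero ((orderOf (q : ZMod p) : ℕ) : ZMod p) := ⟨fun h0 => hdiv ((ZMod.natCast_eq_zero_iff _ p).1 h0)⟩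
    rw [mul_comm]
    exact Polynomial.isRoot_cyclotomic_prime_pow_mul_iff_of_charP.2 (IsPrimitiveRoot.orderOf _)

end Cfsg.Agent.S4230
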