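import Cfsg.Statements.S4234
import Cfsg.Agent.FGS3.PSL13Normalizers

set_option autoImplicit false
open Cfsg

namespace Cfsg.Agent.S4234

/-- Let K be isomorphic to PSL(2, 13) or to SL(2, 13) and let S be a finite abelian group of order coprime to the order of K. Then in the direct product K × S every subgroup that is not normal has a normalizer that is a maximal subgroup. -/
theorem result {K S : Type*} [Group K] [CommGroup S] [Finite K] [Finite S]
    (hK : Nonempty (K ≃* Matrix.ProjectiveSpecialLinearGroup (Fin 2) (ZMod 13)) ∨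
      Nonempty (K ≃* Matrix.SpecialLinearGroup (Fin 2) (ZMod 13)))
    (hKS : (Nat.card K).Coprime (Nat.card S)) (H : Subgroup (K × S)) (hH : ¬ H.Normal) :
    IsCoatom (Subgroup.normalizer (H : Set (K × S))) := by
  refine Cfsg.Agent.FGS3.PSL13.good_prod ?_ hKS H hH
  rcases hK with hK | hK <;> obtain ⟨e⟩ := hK
  · exact Cfsg.Agent.FGS3.PSL13.good_of_equiv e Cfsg.Agent.FGS3.PSL13.good_psl
  · exact Cfsg.Agent.FGS3.PSL13.good_of_equiv e Cfsg.Agent.FGS3.PSL13.good_sl

end Cfsg.Agent.S4234
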