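import Cfsg.Statements.S4236
import Cfsg.Agent.Transfer.Fusion
import Cfsg.Agent.FGS4.SylowNumber
import Cfsg.Agent.Core.Cores
-- import your own Cfsg.Agent.* helpers here

set_option autoImplicit false
open Cfsg

namespace Cfsg.Agent.S4236

open MulAction
open scoped Pointwise

instance fact17 : Fact (Nat.Prime 17) := ⟨by norm_num⟩

/-- An element of odd order prime to 3 centralizes an abelian 2-group with at most 4 solutions of t² = 1. -/
theorem centralizes_of_small_omega {G : Type*} [Group G] [Finite G] (T : Subgroup G) (hT : IsPGroup 2 T)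
    (hTc : IsMulCommutative T) (hom : Nat.card {t : T // t ^ 2 = 1} ≤ 4) (y : G)
    (hy : (orderOf y).Coprime 6) (hyT : y ∈ Subgroup.normalizer (T : Set G)) :
    ∀ t ∈ T, y * t * y⁻¹ = t := by
  classical
  have := Fact.mk Nat.prime_two
  have hinv : ∀ t ∈ T, y * t * y⁻¹ ∈ T := fun t ht => (Subgroup.mem_normalizer_iff.mp hyT t).mp ht
  let X := {t : G // t ∈ T ∧ t ≠ 1 ∧ t ^ 2 = 1}
  have : Fintype X := Fintype.ofFinite _
  have hX : Nat.card X ≤ 3 := by
    let f : Option X → {t : T // t ^ 2 = 1} := fun o => match o with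
      | none => ⟨1, one_pow 2⟩
      | some t => ⟨⟨t.1, t.2.1⟩, Subtype.ext t.2.2.2⟩
    have hf : Function.Injective f := by
      rintro (_ | a) (_ | b) h
      · rfl
      · exact absurd (congrArg (fun z : {t : T // t ^ 2 = 1} => ((z.1 : T) : G)) h).symm b.2.2.1
      · exact absurd (congrArg (fun z : {t : T // t ^ 2 = 1} => ((z.1 : T) : G)) h) a.2.2.1
      · exact congrArg some (Subtype.ext (congrArg (fun z : {t : T // t ^ 2 = 1} => ((z.1 : T) : G)) h))
    have := (Nat.card_le_card_of_injective f hf).trans hom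
    rw [Finite.card_option] at this
    omega
  have hconj : ∀ z : G, z ∈ Subgroup.normalizer (T : Set G) → ∀ t : X,
      z * t.1 * z⁻¹ ∈ T ∧ z * t.1 * z⁻¹ ≠ 1 ∧ (z * t.1 * z⁻¹) ^ 2 = 1 := fun z hz t =>
    ⟨(Subgroup.mem_normalizer_iff.mp hz _).mp t.2.1, fun h => t.2.2.1 (conj_eq_one_iff.mp h), by
      rw [conj_pow, t.2.2.2, mul_one, mul_inv_cancel]⟩
  let ρ : Subgroup.normalizer (T : Set G) →* Equiv.Perm X :=
    { toFun := fun z =>
        { toFun := fun t => ⟨_, hconj z z.2 t⟩
          invFun := fun t => ⟨_, hconj (z : G)⁻¹ (inv_mem z.2) t⟩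
          left_inv := fun t => Subtype.ext (by
            show (z : G)⁻¹ * (z * t.1 * (z : G)⁻¹) * ((z : G)⁻¹)⁻¹ = t.1
            group)
          right_inv := fun t => Subtype.ext (by
            show (z : G) * ((z : G)⁻¹ * t.1 * ((z : G)⁻¹)⁻¹) * (z : G)⁻¹ = t.1
            group) }
      map_one' := Equiv.ext fun t => Subtype.ext (by simp)
      map_mul' := fun a b => Equiv.ext fun t => Subtype.ext (by
        show ((a * b : Subgroup.normalizer (T : Set G)) : G) * t.1 * ((a * b : Subgroup.normalizer (T : Set G)) : G)⁻¹ =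
          (a : G) * ((b : G) * t.1 * (b : G)⁻¹) * (a : G)⁻¹
        simp only [Subgroup.coe_mul]
        group) }
  have hρ : ρ ⟨y, hyT⟩ = 1 := by
    refine orderOf_eq_one_iff.mp (Nat.eq_one_of_dvd_coprimes hy ?_ ?_)
    · exact (orderOf_map_dvd ρ _).trans (by rw [← Subgroup.orderOf_coe])
    · refine (orderOf_dvd_natCard _).trans ?_
      rw [Nat.card_perm]
      exact (Nat.factorial_dvd_factorial hX).trans (by norm_num [Nat.factorial])
  have hfix : ∀ t ∈ T, t ^ 2 = 1 → y * t * y⁻¹ = t := by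
    intro t ht ht2
    by_cases h1 : t = 1
    · rw [h1]; group
    exact congrArg Subtype.val (Equiv.ext_iff.mp hρ ⟨t, ht, h1, ht2⟩)
  suffices hk : ∀ k : ℕ, ∀ t ∈ T, t ^ 2 ^ k = 1 → y * t * y⁻¹ = t by
    intro t ht
    obtain ⟨k, hk'⟩ := hT ⟨t, ht⟩
    exact hk k t ht (congrArg Subtype.val hk')
  intro k
  induction k with
  | zero => intro t _ h; rw [pow_zero, pow_one] at h; rw [h]; group
  | succ k ih =>
    intro t ht h
    have hfix2 := ih (t ^ 2) (T.pow_mem ht 2) (by rw [← pow_mul, ← pow_succ', h])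
    set c := t⁻¹ * (y * t * y⁻¹) with hc
    have hcT : c ∈ T := T.mul_mem (T.inv_mem ht) (hinv t ht)
    have hct : Commute t (y * t * y⁻¹) :=
      congrArg Subtype.val (hTc.is_comm.comm (⟨t, ht⟩ : T) ⟨_, hinv t ht⟩)
    have hc2 : c ^ 2 = 1 := by
      rw [hc, hct.inv_left.mul_pow, inv_pow, conj_pow, hfix2, inv_mul_cancel]
    have hcy := hfix c hcT hc2
    have hcomm : Commute y c := by
      show y * c = c * y
      calc y * c = y * c * y⁻¹ * y := by group
        _ = c * y := by rw [hcy]
    have hpow : ∀ n : ℕ, y ^ n * t * (y ^ n)⁻¹ = t * c ^ n := by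
      intro n
      induction n with
      | zero => simp
      | succ n ihn =>
        calc y ^ (n + 1) * t * (y ^ (n + 1))⁻¹ = y * (y ^ n * t * (y ^ n)⁻¹) * y⁻¹ := by
              rw [pow_succ']; group
          _ = (y * t * y⁻¹) * (y * c ^ n * y⁻¹) := by rw [ihn]; group
          _ = t * c * c ^ n := by
              rw [(hcomm.pow_right n).eq, mul_inv_cancel_right, hc, mul_inv_cancel_left]
          _ = _ := by rw [mul_assoc, ← pow_succ']
    have h1 := hpow (orderOf y)
    rw [pow_orderOf_eq_one, one_mul, inv_one, mul_one, left_eq_mul] at h1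
    have hc1 : c = 1 := orderOf_eq_one_iff.mp (Nat.eq_one_of_dvd_coprimes
      (Nat.Coprime.coprime_dvd_right (by norm_num : 2 ∣ 6) hy)
      (orderOf_dvd_of_pow_eq_one h1) (orderOf_dvd_of_pow_eq_one hc2))
    rwa [hc, inv_mul_eq_one, eq_comm] at hc1

variable {G : Type*} [Group G] [Finite G]

theorem mem_of_smul_eq (P Q : Sylow 17 G) {y : G} (hy : y ∈ (P : Subgroup G)) (h : y • Q = Q) :
    y ∈ (Q : Subgroup G) := by
  have hyN : y ∈ Subgroup.normalizer (Q : Set G) := Sylow.smul_eq_iff_mem_normalizer.mp h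
  have h1 : y ∈ (P : Subgroup G) ⊓ Subgroup.normalizer (Q : Set G) := ⟨hy, hyN⟩
  rw [IsPGroup.inf_normalizer_sylow P.2] at h1
  exact h1.2

theorem smul_eq_of_mem (Q : Sylow 17 G) {y : G} (hy : y ∈ (Q : Subgroup G)) : y • Q = Q :=
  Sylow.smul_eq_iff_mem_normalizer.mpr (Subgroup.le_normalizer hy)

theorem card_orbit_eq (h35 : Nat.card (Sylow 17 G) = 35) {P Q : Sylow 17 G} (h : Q ≠ P) :
    P ∉ orbit (P : Subgroup G) Q ∧ (orbit (P : Subgroup G) Q).ncard = 17 ∧
      ((Q : Subgroup G) ⊓ P).relIndex (P : Subgroup G) = 17 := by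
  have hnot : P ∉ orbit (P : Subgroup G) Q := by
    intro hP
    obtain ⟨s, hs⟩ := mem_orbit_symm.mp hP
    apply h
    rw [← hs]
    exact smul_eq_of_mem P s.2
  have hstab : MulAction.stabilizer (P : Subgroup G) Q = (Q : Subgroup G).subgroupOf P := by
    ext s
    exact ⟨fun hs => Subgroup.mem_subgroupOf.mpr (mem_of_smul_eq P Q s.2 hs),
      fun hs => smul_eq_of_mem Q (Subgroup.mem_subgroupOf.mp hs)⟩
  have hidx : ((Q : Subgroup G) ⊓ P).relIndex (P : Subgroup G) = (orbit (P : Subgroup G) Q).ncard := by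
    rw [Subgroup.inf_relIndex_right, Subgroup.relIndex, ← hstab, MulAction.index_stabilizer]
  obtain ⟨i, hi⟩ := P.2.card_orbit Q
  rw [Nat.card_coe_set_eq] at hi
  have hle : (orbit (P : Subgroup G) Q).ncard ≤ 34 := by
    have h1 := Set.ncard_le_ncard (show orbit (P : Subgroup G) Q ⊆ {P}ᶜ from fun R hR e => hnot (e ▸ hR))
      (Set.toFinite _)
    rw [Set.ncard_compl, Set.ncard_singleton, h35] at h1
    exact h1
  have hi1 : i = 1 := by
    rcases i with _ | _ | i
    · exfalso
      rw [pow_zero] at hi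
      rw [hi, Subgroup.inf_relIndex_right, Subgroup.relIndex_eq_one] at hidx
      exact h (Sylow.ext (P.is_maximal' Q.2 hidx))
    · rfl
    · exfalso
      have : 17 ^ 2 ≤ 17 ^ (i + 1 + 1) := Nat.pow_le_pow_right (by norm_num) (by omega)
      norm_num at this
      omega
  rw [hi1, pow_one] at hi
  exact ⟨hnot, hi, hidx.trans hi⟩

theorem two_orbits (h35 : Nat.card (Sylow 17 G) = 35) (P : Sylow 17 G) :
    ∃ Q R : Sylow 17 G, Q ≠ P ∧ R ≠ P ∧ R ∉ orbit (P : Subgroup G) Q ∧
      ∀ S : Sylow 17 G, S ≠ P → S ∈ orbit (P : Subgroup G) Q ∨ S ∈ orbit (P : Subgroup G) R := by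
  obtain ⟨Q, hQ⟩ : ∃ Q, Q ≠ P := by
    have : Nontrivial (Sylow 17 G) := Finite.one_lt_card_iff_nontrivial.mp (by rw [h35]; norm_num)
    exact exists_ne P
  obtain ⟨hPQ, hcQ, -⟩ := card_orbit_eq h35 hQ
  obtain ⟨R, hR⟩ : ∃ R, R ∉ insert P (orbit (P : Subgroup G) Q) := by
    by_contra hno
    have huniv : insert P (orbit (P : Subgroup G) Q) = Set.univ :=
      Set.eq_univ_of_forall fun R => by_contra fun h => hno ⟨R, h⟩
    have := congrArg Set.ncard huniv
    rw [Set.ncard_insert_of_notMem hPQ (Set.toFinite _), hcQ, Set.ncard_univ, h35] at this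
    omega
  simp only [Set.mem_insert_iff, not_or] at hR
  obtain ⟨hPR, hcR, -⟩ := card_orbit_eq h35 hR.1
  refine ⟨Q, R, hQ, hR.1, hR.2, fun S hS => ?_⟩
  by_contra hno
  rw [not_or] at hno
  have hdisj : Disjoint (orbit (P : Subgroup G) Q) (orbit (P : Subgroup G) R) := by
    rw [Set.disjoint_left]
    intro z hz hz'
    exact hR.2 ((orbit_eq_iff.mpr hz).symm.trans (orbit_eq_iff.mpr hz') ▸ mem_orbit_self R)
  have h1 := Set.ncard_le_ncard (show orbit (P : Subgroup G) Q ∪ orbit (P : Subgroup G) R ⊆ ({P, S} : Set (Sylow 17 G))ᶜ from by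
    rintro z (hz | hz) (rfl | rfl)
    · exact hPQ hz
    · exact hno.1 hz
    · exact hPR hz
    · exact hno.2 hz) (Set.toFinite _)
  rw [Set.ncard_union_eq hdisj (Set.toFinite _) (Set.toFinite _), hcQ, hcR, Set.ncard_compl,
    Set.ncard_pair hS.symm, h35] at h1
  omega

/-- In the faithful case a Sylow 17-subgroup has order 17. -/
theorem card_sylow_eq (h35 : Nat.card (Sylow 17 G) = 35)
    (hfaith : ∀ g : G, (∀ R : Sylow 17 G, g • R = R) → g = 1) (P : Sylow 17 G) :
    Nat.card (P : Subgroup G) = 17 := by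
  classical
  by_contra hne
  have hcard : ∀ R S : Sylow 17 G, Nat.card (R : Subgroup G) = Nat.card (S : Subgroup G) := fun R S => by
    rw [R.card_eq_multiplicity, S.card_eq_multiplicity]
  have hmul : ∀ R S : Sylow 17 G, S ≠ R → Nat.card ((S : Subgroup G) ⊓ R : Subgroup G) * 17 = Nat.card (R : Subgroup G) := by
    intro R S h
    have := Subgroup.card_mul_index (((S : Subgroup G) ⊓ R).subgroupOf (R : Subgroup G))
    rw [Nat.card_congr (Subgroup.subgroupOfEquivOfLe inf_le_right).toEquiv] at this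
    have h2 := (card_orbit_eq h35 h).2.2
    rw [Subgroup.relIndex] at h2
    rwa [h2] at this
  -- constancy on orbits
  have horb : ∀ R S S' : Sylow 17 G, S ≠ R → S' ∈ orbit (R : Subgroup G) S →
      (S' : Subgroup G) ⊓ R = (S : Subgroup G) ⊓ R := by
    intro R S S' hS hS'
    obtain ⟨s, rfl⟩ := hS'
    set D := (S : Subgroup G) ⊓ R with hD
    have hDlt : D < (R : Subgroup G) := by
      refine lt_of_le_of_ne inf_le_right fun e => ?_
      have := hmul R S hS
      rw [← hD, e] at this
      have hp : 0 < Nat.card (R : Subgroup G) := Nat.card_pos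
      omega
    have hgrow := Cfsg.Agent.Transfer.lt_inf_normalizer R.2 hDlt
    have hRN : (R : Subgroup G) ≤ Subgroup.normalizer (D : Set G) := by
      rw [← inf_eq_left]
      refine Subgroup.eq_of_le_of_card_ge inf_le_left ?_
      obtain ⟨a, ha⟩ := IsPGroup.iff_card.mp R.2
      obtain ⟨b, hb⟩ := IsPGroup.iff_card.mp (R.2.to_le (inf_le_left : (R : Subgroup G) ⊓ Subgroup.normalizer (D : Set G) ≤ R))
      obtain ⟨c, hc⟩ := IsPGroup.iff_card.mp (R.2.to_le (inf_le_right : D ≤ R))
      have hlt : Nat.card D < Nat.card ((R : Subgroup G) ⊓ Subgroup.normalizer (D : Set G) : Subgroup G) := by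
        by_contra hc
        exact hgrow.ne (Subgroup.eq_of_le_of_card_ge hgrow.le (not_lt.mp hc))
      have h17 := hmul R S hS
      rw [← hD, hc, ha, ← pow_succ] at h17
      rw [hb, hc] at hlt
      rw [hb, ha, ← h17]
      exact Nat.pow_le_pow_right (by norm_num)
        (by have := (Nat.pow_lt_pow_iff_right (by norm_num : 1 < 17)).mp hlt; omega)
    have hle : D ≤ ((s • S : Sylow 17 G) : Subgroup G) ⊓ R := by
      refine le_inf (fun d hd => ?_) inf_le_right
      have h1 : (s : G)⁻¹ * d * s ∈ D := (Subgroup.mem_normalizer_iff''.mp (hRN s.2) d).mp hd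
      show d ∈ (((s : G) • S : Sylow 17 G) : Subgroup G)
      rw [Sylow.coe_subgroup_smul, Subgroup.mem_pointwise_smul_iff_inv_smul_mem]
      show (MulAut.conj (s : G))⁻¹ d ∈ _
      rw [MulAut.conj_inv_apply]
      exact h1.1
    refine (Subgroup.eq_of_le_of_card_ge hle ?_).symm
    have h1 := hmul R _ (show s • S ≠ R from fun e => (card_orbit_eq h35 hS).1 ⟨s, e⟩)
    have h2 := hmul R S hS
    rw [← hD] at h2
    omega
  -- two distinct intersections for each Sylow subgroup
  have htwo : ∀ R : Sylow 17 G, ∃ Q Q' : Sylow 17 G, Q ≠ R ∧ Q' ≠ R ∧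
      (Q : Subgroup G) ⊓ R ≠ (Q' : Subgroup G) ⊓ R ∧
      ∀ S, S ≠ R → (S ∈ orbit (R : Subgroup G) Q ∧ (S : Subgroup G) ⊓ R = (Q : Subgroup G) ⊓ R) ∨
        (S ∈ orbit (R : Subgroup G) Q' ∧ (S : Subgroup G) ⊓ R = (Q' : Subgroup G) ⊓ R) := by
    intro R
    obtain ⟨Q, Q', hQ, hQ', -, hall⟩ := two_orbits h35 R
    refine ⟨Q, Q', hQ, hQ', fun e => ?_, fun S hS => (hall S hS).imp
      (fun h => ⟨h, horb R Q S hQ h⟩) (fun h => ⟨h, horb R Q' S hQ' h⟩)⟩
    have hbot : (Q : Subgroup G) ⊓ R = ⊥ := by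
      rw [eq_bot_iff]
      intro d hd
      rw [Subgroup.mem_bot]
      refine hfaith d fun S => smul_eq_of_mem S ?_
      by_cases hSR : S = R
      · subst hSR; exact hd.2
      rcases hall S hSR with h | h
      · exact ((horb R Q S hQ h).symm ▸ hd : d ∈ (S : Subgroup G) ⊓ R).1
      · exact (((horb R Q' S hQ' h).trans e.symm).symm ▸ hd : d ∈ (S : Subgroup G) ⊓ R).1
    apply hne
    have := hmul R Q hQ
    rw [hbot, Subgroup.card_bot, one_mul] at this
    rw [hcard P R, ← this]
  let X := {z : Sylow 17 G × Subgroup G // ∃ S, S ≠ z.1 ∧ z.2 = (S : Subgroup G) ⊓ z.1}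
  have hX1 : Nat.card X = 35 * 2 := by
    rw [← h35]
    refine Cfsg.Agent.FGS4.card_eq_card_mul_of_fiber (fun z : X => z.1.1) 2 fun R => ?_
    obtain ⟨Q, Q', hQ, hQ', hne', hall⟩ := htwo R
    have e : {x : X // x.1.1 = R} ≃ ({(Q : Subgroup G) ⊓ R, (Q' : Subgroup G) ⊓ R} : Set (Subgroup G)) :=
      { toFun := fun z => ⟨z.1.1.2, by
          obtain ⟨S, hS, hzS⟩ := z.1.2
          rw [z.2] at hS hzS
          rw [hzS]
          rcases hall S hS with h | h
          · exact Or.inl h.2
          · exact Or.inr h.2⟩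
        invFun := fun D => ⟨⟨(R, D.1), by
          rcases D.2 with h | h
          · exact ⟨Q, hQ, h⟩
          · exact ⟨Q', hQ', h⟩⟩, rfl⟩
        left_inv := fun z => Subtype.ext (Subtype.ext (Prod.ext z.2.symm rfl))
        right_inv := fun D => rfl }
    rw [Nat.card_congr e, Nat.card_coe_set_eq, Set.ncard_pair hne']
  let Y := {D : Subgroup G // ∃ R S : Sylow 17 G, S ≠ R ∧ D = (S : Subgroup G) ⊓ R}
  have hX2 : Nat.card X = Nat.card Y * 18 := by
    refine Cfsg.Agent.FGS4.card_eq_card_mul_of_fiber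
      (fun z : X => (⟨z.1.2, z.1.1, z.2.choose, z.2.choose_spec.1, z.2.choose_spec.2⟩ : Y)) 18 fun D => ?_
    obtain ⟨D, R, S, hS, rfl⟩ := D
    obtain ⟨Q, Q', hQ, hQ', hne', hall⟩ := htwo R
    have hset : {T : Sylow 17 G | ∃ U, U ≠ T ∧ (S : Subgroup G) ⊓ R = (U : Subgroup G) ⊓ T} =
        insert R (orbit (R : Subgroup G) S) := by
      ext T
      constructor
      · rintro ⟨U, hU, e⟩
        by_cases hTR : T = R
        · exact Or.inl hTR
        refine Or.inr ?_
        have hTS : (T : Subgroup G) ⊓ R = (S : Subgroup G) ⊓ R := by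
          refine (Subgroup.eq_of_le_of_card_ge (le_inf ?_ inf_le_right) ?_).symm
          · rw [e]; exact inf_le_right
          · have h1 := hmul R T hTR
            have h2 := hmul R S hS
            omega
        rcases hall S hS with hS1 | hS1 <;> rcases hall T hTR with hT1 | hT1
        · exact (orbit_eq_iff.mpr hS1.1).symm ▸ hT1.1
        · exact absurd (hS1.2.symm.trans (hTS.symm.trans hT1.2)) hne'
        · exact absurd (hT1.2.symm.trans (hTS.trans hS1.2)) hne'
        · exact (orbit_eq_iff.mpr hS1.1).symm ▸ hT1.1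
      · rintro (rfl | hT)
        · exact ⟨S, hS, rfl⟩
        · refine ⟨R, fun e => (card_orbit_eq h35 hS).1 (e ▸ hT), ?_⟩
          rw [← horb R S T hS hT, inf_comm]
    have e : {x : X // (⟨x.1.2, x.1.1, x.2.choose, x.2.choose_spec.1, x.2.choose_spec.2⟩ : Y) =
        ⟨(S : Subgroup G) ⊓ R, R, S, hS, rfl⟩} ≃
        {T : Sylow 17 G | ∃ U, U ≠ T ∧ (S : Subgroup G) ⊓ R = (U : Subgroup G) ⊓ T} :=
      { toFun := fun z => ⟨z.1.1.1, by
          obtain ⟨U, hU, hzU⟩ := z.1.2
          exact ⟨U, hU, (congrArg Subtype.val z.2).symm.trans hzU⟩⟩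
        invFun := fun T => ⟨⟨(T.1, (S : Subgroup G) ⊓ R), T.2⟩, Subtype.ext rfl⟩
        left_inv := fun z => Subtype.ext (Subtype.ext (Prod.ext rfl (congrArg Subtype.val z.2).symm))
        right_inv := fun T => rfl }
    rw [Nat.card_congr e, Nat.card_coe_set_eq, hset,
      Set.ncard_insert_of_notMem (card_orbit_eq h35 hS).1 (Set.toFinite _), (card_orbit_eq h35 hS).2.1]
  omega

/-- The faithful case. -/
theorem false_of_faithful (h35 : Nat.card (Sylow 17 G) = 35)
    (hfaith : ∀ g : G, (∀ R : Sylow 17 G, g • R = R) → g = 1) : False := by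
  classical
  obtain ⟨P⟩ : Nonempty (Sylow 17 G) := inferInstance
  have hP17 := card_sylow_eq h35 hfaith P
  have := Fact.mk Nat.prime_two
  set N := Subgroup.normalizer (P : Set G) with hN
  set C := Subgroup.centralizer (P : Set G) with hC
  have hCN : C ≤ N := Subgroup.centralizer_le_normalizer _
  have hPc : IsCyclic (P : Subgroup G) := isCyclic_of_prime_card hP17
  have hPC : (P : Subgroup G) ≤ C := by
    exact Subgroup.le_centralizer_iff_isMulCommutative.mpr inferInstance
  obtain ⟨Q, R, hQ, hR, hRQ, hall⟩ := two_orbits h35 P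
  have hcomm : ∀ c ∈ C, ∀ u : (P : Subgroup G), ∀ S : Sylow 17 G, c • (u • S) = u • (c • S) := by
    intro c hc u S
    show c • ((u : G) • S) = (u : G) • (c • S)
    rw [smul_smul, smul_smul, Subgroup.mem_centralizer_iff.mp hc u u.2]
  have hfixP : ∀ c ∈ C, c • P = P := fun c hc => Sylow.smul_eq_iff_mem_normalizer.mpr (hCN hc)
  have hH : ∀ c ∈ C, c • Q ∈ orbit (P : Subgroup G) Q → c ∈ (P : Subgroup G) := by
    intro c hc hcQ
    obtain ⟨s, hs⟩ := hcQ
    set t := ((s : G))⁻¹ * c with ht
    have htC : t ∈ C := C.mul_mem (C.inv_mem (hPC s.2)) hc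
    have htQ : t • Q = Q := by
      rw [ht, mul_smul, ← hs]
      exact inv_smul_smul (s : G) Q
    have htR : t • R ∈ orbit (P : Subgroup G) R := by
      have hne : t • R ≠ P := fun e => hR (smul_left_cancel t (e.trans (hfixP t htC).symm))
      rcases hall _ hne with h | h
      · obtain ⟨u, hu⟩ := h
        exact absurd (smul_left_cancel t ((show u • Q = t • R from hu).symm.trans
          (show u • Q = t • (u • Q) by rw [hcomm t htC, htQ])) ▸ mem_orbit Q u) hRQ
      · exact h
    obtain ⟨v, hv⟩ := htR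
    have hv17 : v ^ 17 = 1 := by
      have := pow_card_eq_one' (x := v)
      rwa [hP17] at this
    have ht17 : t ^ 17 = 1 := by
      refine hfaith _ fun S => ?_
      have hkQ : ∀ k : ℕ, t ^ k • Q = Q := by
        intro k
        induction k with
        | zero => simp
        | succ k ihk => rw [pow_succ', mul_smul, ihk, htQ]
      have hkR : ∀ k : ℕ, t ^ k • R = v ^ k • R := by
        intro k
        induction k with
        | zero => simp
        | succ k ihk =>
          rw [pow_succ', mul_smul, ihk, hcomm t htC, ← show v • R = t • R from hv, smul_smul, ← pow_succ]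
      have ht' : t ^ 17 ∈ C := C.pow_mem htC _
      by_cases hS : S = P
      · rw [hS]; exact hfixP _ ht'
      rcases hall S hS with ⟨u, rfl⟩ | ⟨u, rfl⟩
      · show t ^ 17 • (u • Q) = u • Q
        rw [hcomm _ ht', hkQ]
      · show t ^ 17 • (u • R) = u • R
        rw [hcomm _ ht', hkR, hv17, one_smul]
    have htp : IsPGroup 17 (Subgroup.zpowers t) :=
      IsPGroup.of_card_dvd_pow (n := 1) (by rw [Nat.card_zpowers, pow_one]; exact orderOf_dvd_of_pow_eq_one ht17)
    have htP : t ∈ (P : Subgroup G) := by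
      have h1 : t ∈ Subgroup.zpowers t ⊓ N := ⟨Subgroup.mem_zpowers t, hCN htC⟩
      rw [hN, IsPGroup.inf_normalizer_sylow htp] at h1
      exact h1.2
    rw [show c = (s : G) * t by rw [ht]; group]
    exact mul_mem s.2 htP
  have hC34 : Nat.card C ≤ 34 := by
    set PC := (P : Subgroup G).subgroupOf C
    have hone : ∀ c c' : C, c ∉ PC → c' ∉ PC → (c : C ⧸ PC) = c' := by
      intro c c' hc hc'
      rw [QuotientGroup.eq, Subgroup.mem_subgroupOf]
      have hw : ∀ d : C, d ∉ PC → (d : G) • Q ∈ orbit (P : Subgroup G) R := fun d hd => by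
        have hne : (d : G) • Q ≠ P := fun e => hQ (smul_left_cancel (d : G) (e.trans (hfixP _ d.2).symm))
        exact (hall _ hne).resolve_left fun h => hd (Subgroup.mem_subgroupOf.mpr (hH _ d.2 h))
      obtain ⟨w, hw1⟩ := hw c hc
      obtain ⟨u, hu1⟩ := hw c' hc'
      simp only at hw1 hu1
      apply hH _ (C.mul_mem (C.inv_mem c.2) c'.2)
      refine ⟨u * w⁻¹, ?_⟩
      simp only [Subgroup.coe_inv]
      rw [mul_smul (c : G)⁻¹, ← hu1, hcomm _ (C.inv_mem c.2), mul_smul]
      congr 1
      rw [eq_inv_smul_iff, hcomm _ c.2, ← hw1, inv_smul_smul]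
    have h2 : PC.index ≤ 2 := by
      rw [Subgroup.index_eq_card]
      by_cases hex : ∃ c : C, c ∉ PC
      · obtain ⟨c₀, hc₀⟩ := hex
        refine (Nat.card_le_card_of_injective
          (fun q : C ⧸ PC => if q = ((1 : C) : C ⧸ PC) then (0 : Fin 2) else 1) ?_).trans (by simp)
        intro a b
        induction a using QuotientGroup.induction_on with | _ a => ?_
        induction b using QuotientGroup.induction_on with | _ b => ?_
        intro hab
        by_cases ha : (a : C ⧸ PC) = ((1 : C) : C ⧸ PC) <;> by_cases hb : (b : C ⧸ PC) = ((1 : C) : C ⧸ PC) <;>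
          simp only [ha, hb, if_true, if_false] at hab ⊢
        · exact absurd hab (by decide)
        · exact absurd hab (by decide)
        · refine hone a b (fun h => ha ?_) (fun h => hb ?_)
          · rw [QuotientGroup.eq, mul_one]; exact inv_mem h
          · rw [QuotientGroup.eq, mul_one]; exact inv_mem h
      · have : PC = ⊤ := eq_top_iff.mpr fun c _ => by_contra fun h => hex ⟨c, h⟩
        rw [← Subgroup.index_eq_card, this, Subgroup.index_top]
        norm_num
    have h3 := PC.card_mul_index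
    rw [Nat.card_congr (Subgroup.subgroupOfEquivOfLe hPC).toEquiv, hP17] at h3
    omega
  have hC17 : 17 ∣ Nat.card C := hP17 ▸ Subgroup.card_dvd_of_le hPC
  -- the automorphisms induced
  set φ := Subgroup.normalizerMonoidHom (P : Subgroup G) with hφ
  have hAut : IsCyclic (MulAut (P : Subgroup G)) ∧ Nat.card (MulAut (P : Subgroup G)) = 16 := by
    have e : MulAut (P : Subgroup G) ≃* (ZMod 17)ˣ := by
      have e0 := IsCyclic.mulAutMulEquiv (P : Subgroup G)
      rw [hP17] at e0
      exact e0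
    exact ⟨isCyclic_of_surjective e.symm.toMonoidHom e.symm.surjective, by
      rw [Nat.card_congr e.toEquiv, Nat.card_eq_fintype_card, ZMod.card_units]⟩
  have hker : φ.ker = C.subgroupOf N := Subgroup.normalizerMonoidHom_ker _
  have hNcard : ∃ k, k ≤ 5 ∧ Nat.card N = 17 * 2 ^ k := by
    have h1 := φ.ker.card_mul_index
    have hk : Nat.card φ.ker = Nat.card C :=
      (congrArg (fun H : Subgroup _ => Nat.card H) hker).trans
        (Nat.card_congr (Subgroup.subgroupOfEquivOfLe hCN).toEquiv)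
    rw [Subgroup.index_ker, hk] at h1
    have h2 : Nat.card φ.range ∣ 2 ^ 4 := by
      have := Subgroup.card_subgroup_dvd_card φ.range
      rw [hAut.2] at this
      simpa using this
    obtain ⟨j, hj, hj'⟩ := (Nat.dvd_prime_pow Nat.prime_two).mp h2
    have hC' : Nat.card C = 17 * 2 ^ 0 ∨ Nat.card C = 17 * 2 ^ 1 := by
      obtain ⟨m, hm⟩ := hC17
      have hpos : 0 < Nat.card C := Nat.card_pos
      rcases m with _ | _ | _ | m <;> omega
    rcases hC' with h | h
    · exact ⟨j, by omega, h1.symm.trans (by rw [h, hj']; ring)⟩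
    · exact ⟨j + 1, by omega, h1.symm.trans (by rw [h, hj']; ring)⟩
  obtain ⟨k, hk5, hNk⟩ := hNcard
  have hGcard : Nat.card G = 595 * 2 ^ k := by
    have h1 := N.card_mul_index
    rw [hNk, ← Sylow.card_eq_index_normalizer P, h35] at h1
    rw [← h1]; ring
  -- a Sylow 2-subgroup inside N
  obtain ⟨T, hTN, hTk⟩ : ∃ T : Sylow 2 G, (T : Subgroup G) ≤ N ∧ Nat.card (T : Subgroup G) = 2 ^ k := by
    obtain ⟨T₀, hT₀⟩ := Sylow.exists_subgroup_card_pow_prime (G := N) 2 (n := k) ⟨17, by rw [hNk]; ring⟩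
    have hcard : Nat.card (T₀.map N.subtype) = 2 ^ k := by
      rw [Subgroup.card_map_of_injective N.subtype_injective, hT₀]
    obtain ⟨T, hT⟩ := (IsPGroup.of_card hcard).exists_le_sylow
    have heq : T₀.map N.subtype = T := by
      refine Subgroup.eq_of_le_of_card_ge hT ?_
      obtain ⟨a, ha⟩ := IsPGroup.iff_card.mp T.2
      have h1 := Subgroup.card_subgroup_dvd_card (T : Subgroup G)
      rw [hGcard, ha] at h1
      rw [ha, hcard]
      exact Nat.le_of_dvd (pow_pos (by norm_num) k)
        ((Nat.Coprime.pow_left a (by norm_num : Nat.Coprime 2 595)).dvd_of_dvd_mul_left h1)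
    exact ⟨T, heq ▸ Subgroup.map_subtype_le _, heq ▸ hcard⟩
  set ψ : (T : Subgroup G) →* φ.range := φ.rangeRestrict.comp (Subgroup.inclusion hTN)
  have hcycR : IsCyclic φ.range := by
    have := hAut.1
    infer_instance
  have hkerψ : Nat.card ψ.ker ∣ 2 := by
    have h1 : ψ.ker.map (T : Subgroup G).subtype ≤ C := by
      rintro _ ⟨t, ht, rfl⟩
      have : Subgroup.inclusion hTN t ∈ φ.ker := by
        rw [SetLike.mem_coe, MonoidHom.mem_ker] at ht
        rw [MonoidHom.mem_ker]
        exact congrArg Subtype.val ht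
      rw [hker, Subgroup.mem_subgroupOf] at this
      exact this
    have h2 := Subgroup.card_dvd_of_le h1
    rw [Subgroup.card_map_of_injective (Subgroup.subtype_injective _)] at h2
    obtain ⟨a, ha⟩ := IsPGroup.iff_card.mp (T.2.to_subgroup ψ.ker)
    rw [ha] at h2 ⊢
    have hC' : Nat.card C = 17 ∨ Nat.card C = 17 * 2 := by
      obtain ⟨m, hm⟩ := hC17
      have hpos : 0 < Nat.card C := Nat.card_pos
      rcases m with _ | _ | _ | m <;> omega
    rcases hC' with h | h <;> rw [h] at h2
    · exact (Nat.eq_one_of_dvd_coprimes (Nat.Coprime.pow_left a (by norm_num : Nat.Coprime 2 17)) dvd_rfl h2) ▸ one_dvd 2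
    · exact (Nat.Coprime.pow_left a (by norm_num : Nat.Coprime 2 17)).dvd_of_dvd_mul_left h2
  have hcentral : ψ.ker ≤ Subgroup.center (T : Subgroup G) := by
    intro z hz
    rw [Subgroup.mem_center_iff]
    intro t
    by_cases hz1 : z = 1
    · simp [hz1]
    have hall : ∀ w ∈ ψ.ker, w = 1 ∨ w = z := by
      intro w hw
      by_contra hw'
      rw [not_or] at hw'
      have h3 : ({1, z, w} : Set (T : Subgroup G)) ⊆ ψ.ker := by
        rintro a (rfl | rfl | rfl)
        exacts [ψ.ker.one_mem, hz, hw]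
      have h4 := Set.ncard_le_ncard h3 (Set.toFinite _)
      rw [Set.ncard_insert_of_notMem (by simp [Ne.symm hz1, Ne.symm hw'.1]) (Set.toFinite _),
        Set.ncard_pair (Ne.symm hw'.2), ← Nat.card_coe_set_eq] at h4
      have := Nat.le_of_dvd (by norm_num) hkerψ
      simp only [SetLike.coe_sort_coe] at h4
      omega
    rcases hall _ (ψ.normal_ker.conj_mem z hz t) with h | h
    · exact absurd (conj_eq_one_iff.mp h) hz1
    · exact mul_inv_eq_iff_eq_mul.mp h
  have hTc : IsMulCommutative (T : Subgroup G) :=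
    ⟨⟨commutative_of_cyclic_center_quotient ψ hcentral⟩⟩
  have hom : Nat.card {t : (T : Subgroup G) // t ^ 2 = 1} ≤ 4 := by
    let O : Subgroup (T : Subgroup G) :=
      { carrier := {t | t ^ 2 = 1}
        one_mem' := one_pow 2
        mul_mem' := fun {a b} ha hb => by
          show (a * b) ^ 2 = 1
          rw [(show Commute a b from hTc.is_comm.comm a b).mul_pow,
            show a ^ 2 = 1 from ha, show b ^ 2 = 1 from hb, one_mul]
        inv_mem' := fun {a} ha => by
          show a⁻¹ ^ 2 = 1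
          rw [inv_pow, show a ^ 2 = 1 from ha, inv_one] }
    have h1 := (ψ.domRestrict O).ker.card_mul_index
    rw [Subgroup.index_ker] at h1
    have h2 : Nat.card (ψ.domRestrict O).ker ≤ 2 := by
      refine le_trans (Nat.card_le_card_of_injective
        (fun w : (ψ.domRestrict O).ker => (⟨w.1.1, w.2⟩ : ψ.ker))
        fun a b hab => Subtype.ext (Subtype.ext (congrArg Subtype.val hab :))) (Nat.le_of_dvd (by norm_num) hkerψ)
    have h3 : Nat.card (ψ.domRestrict O).range ≤ 2 := by
      have : Fintype φ.range := Fintype.ofFinite _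
      refine le_trans (Nat.card_le_card_of_injective
        (fun w : (ψ.domRestrict O).range => (⟨w.1, ?_⟩ : {a : φ.range // a ^ 2 = 1}))
        fun a b hab => Subtype.ext (congrArg Subtype.val hab :)) ?_
      · obtain ⟨o, ho⟩ := w.2
        rw [← ho, MonoidHom.domRestrict_apply, ← map_pow, show (o : (T : Subgroup G)) ^ 2 = 1 from o.2, map_one]
      · rw [Nat.card_eq_fintype_card, Fintype.card_subtype]
        exact IsCyclic.card_pow_eq_one_le (by norm_num)
    calc Nat.card {t : (T : Subgroup G) // t ^ 2 = 1} = Nat.card O := rfl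
      _ ≤ 4 := by
        rw [← h1]
        exact Nat.mul_le_mul h2 h3
  have hNT : Subgroup.normalizer (T : Set G) ≤ Subgroup.centralizer (T : Set G) := by
    intro x hx
    rw [Subgroup.mem_centralizer_iff]
    intro t ht
    have hG1 : x ^ (595 * 2 ^ k) = 1 := by rw [← hGcard]; exact pow_card_eq_one'
    have hy : ∀ t ∈ (T : Subgroup G), x ^ 2 ^ k * t * (x ^ 2 ^ k)⁻¹ = t :=
      centralizes_of_small_omega _ T.2 hTc hom _ (Nat.Coprime.coprime_dvd_left
        (orderOf_dvd_of_pow_eq_one (n := 595) (by rw [← pow_mul, mul_comm, hG1])) (by norm_num)) (pow_mem hx _)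
    have hz : x ^ 595 ∈ (T : Subgroup G) := by
      have hp : IsPGroup 2 (Subgroup.zpowers (x ^ 595)) := IsPGroup.of_card_dvd_pow (n := k)
        (by rw [Nat.card_zpowers]; exact orderOf_dvd_of_pow_eq_one (by rw [← pow_mul, hG1]))
      have h1 : x ^ 595 ∈ Subgroup.zpowers (x ^ 595) ⊓ Subgroup.normalizer (T : Set G) :=
        ⟨Subgroup.mem_zpowers _, pow_mem hx _⟩
      rw [IsPGroup.inf_normalizer_sylow hp] at h1
      exact h1.2
    have hc1 : Commute (x ^ 595) t := congrArg Subtype.val (hTc.is_comm.comm (⟨_, hz⟩ : (T : Subgroup G)) ⟨t, ht⟩)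
    have hc2 : Commute (x ^ 2 ^ k) t := by
      show x ^ 2 ^ k * t = t * x ^ 2 ^ k
      calc x ^ 2 ^ k * t = x ^ 2 ^ k * t * (x ^ 2 ^ k)⁻¹ * x ^ 2 ^ k := by group
        _ = _ := by rw [hy t ht]
    obtain ⟨u, v, huv⟩ := Nat.Coprime.isCoprime ((Nat.Coprime.pow_left k (by norm_num : Nat.Coprime 2 595)) : Nat.Coprime (2 ^ k) 595)
    have hcx : Commute x t := by
      have e : x = (x ^ 2 ^ k) ^ u * (x ^ 595) ^ v := by
        rw [← zpow_natCast x (2 ^ k), ← zpow_natCast x 595, ← zpow_mul, ← zpow_mul, ← zpow_add,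
          mul_comm _ u, mul_comm _ v, huv, zpow_one]
      rw [e]
      exact (hc2.zpow_left u).mul_left (hc1.zpow_left v)
    exact hcx.eq.symm
  set K := (MonoidHom.transferSylow T hNT).ker with hK
  have hKc : K.IsComplement' (T : Subgroup G) := MonoidHom.ker_transferSylow_isComplement' T hNT
  have hKcard : Nat.card K = 595 := by
    have h1 := hKc.card_mul
    rw [hTk, hGcard] at h1
    exact Nat.eq_of_mul_eq_mul_right (pow_pos (by norm_num) k) h1
  have hsyl : ∀ S : Sylow 17 G, (S : Subgroup G) ≤ K := by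
    intro S
    refine Cfsg.Agent.Core.le_of_coprime_index ?_
    rw [hKc.symm.index_eq_card, hTk]
    obtain ⟨a, ha⟩ := IsPGroup.iff_card.mp S.2
    rw [ha]
    exact Nat.Coprime.pow a k (by norm_num)
  have hK35 : Nat.card (Sylow 17 K) = 35 := by
    rw [← Cfsg.Agent.FGS4.card_sylow_le K P (hsyl P)]
    exact (Nat.card_congr (Equiv.subtypeUnivEquiv fun S => hsyl S)).trans h35
  -- a group of order 595 has a normal Sylow 17-subgroup
  have := Fact.mk (by norm_num : Nat.Prime 5)
  obtain ⟨F⟩ : Nonempty (Sylow 5 K) := inferInstance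
  have hFc : Nat.card (F : Subgroup K) = 5 := by
    obtain ⟨a, ha⟩ := IsPGroup.iff_card.mp F.2
    have h1 := Subgroup.card_subgroup_dvd_card (F : Subgroup K)
    rw [hKcard, ha] at h1
    have h2 := F.not_dvd_index
    have h3 := (F : Subgroup K).card_mul_index
    rw [hKcard, ha] at h3
    rcases a with _ | _ | a
    · exfalso; apply h2; rw [pow_zero, one_mul] at h3; rw [h3]; norm_num
    · rw [ha, zero_add, pow_one]
    · exfalso
      have : 5 ^ 2 ∣ 595 := (pow_dvd_pow 5 (by omega : 2 ≤ a + 2)).trans h1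
      norm_num at this
  have hn5 : Nat.card (Sylow 5 K) = 1 := by
    have h1 : Nat.card (Sylow 5 K) ∣ 119 := by
      have := Sylow.card_dvd_index F
      have h3 := (F : Subgroup K).card_mul_index
      rw [hKcard, hFc] at h3
      rwa [show (F : Subgroup K).index = 119 by omega] at this
    have h2 := card_sylow_modEq_one 5 K
    have h3 : Nat.card (Sylow 5 K) ∈ Nat.divisors 119 := Nat.mem_divisors.mpr ⟨h1, by norm_num⟩
    rw [show Nat.divisors 119 = {1, 7, 17, 119} by decide] at h3
    simp only [Finset.mem_insert, Finset.mem_singleton] at h3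
    unfold Nat.ModEq at h2
    omega
  have : Subsingleton (Sylow 5 K) := (Nat.card_eq_one_iff_unique.mp hn5).1
  have hFn : (F : Subgroup K).Normal := Sylow.normal_of_subsingleton F
  set PK := P.subtype (hsyl P)
  have hPKc : Nat.card (PK : Subgroup K) = 17 := by
    rw [Sylow.coe_subtype, Nat.card_congr (Subgroup.subgroupOfEquivOfLe (hsyl P)).toEquiv, hP17]
  set L := (PK : Subgroup K) ⊔ F with hL
  have hLc : Nat.card L ∣ 85 := by
    have h1 : ((PK : Subgroup K) ⊔ F : Subgroup K).index * Nat.card L = 595 := by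
      rw [← hL, Subgroup.index_mul_card, hKcard]
    have hd : Disjoint (PK : Subgroup K) F := Subgroup.disjoint_of_coprime_natCard (by rw [hPKc, hFc]; norm_num)
    have h2 : Nat.card L = 17 * 5 := by
      rw [hL, Cfsg.Agent.Core.card_sup_of_disjoint (disjoint_iff.mp hd), hPKc, hFc]
    rw [h2]
  have hLn : Nat.card (Sylow 17 L) = 1 := by
    have h1 : Nat.card (Sylow 17 L) ∣ 85 := by
      rw [Sylow.card_eq_index_normalizer (PK.subtype (le_sup_left : (PK : Subgroup K) ≤ L))]
      exact (Subgroup.index_dvd_card _).trans hLc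
    have h2 := card_sylow_modEq_one 17 L
    have h3 : Nat.card (Sylow 17 L) ∈ Nat.divisors 85 := Nat.mem_divisors.mpr ⟨h1, by norm_num⟩
    rw [show Nat.divisors 85 = {1, 5, 17, 85} by decide] at h3
    simp only [Finset.mem_insert, Finset.mem_singleton] at h3
    unfold Nat.ModEq at h2
    omega
  have hn17 : Nat.card (Sylow 17 K) ∣ 7 := by
    rw [Sylow.card_eq_index_normalizer PK]
    have hle : L ≤ Subgroup.normalizer ((PK : Subgroup K) : Set K) := by
      have : Subsingleton (Sylow 17 L) := (Nat.card_eq_one_iff_unique.mp hLn).1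
      have hn : ((PK.subtype (le_sup_left : (PK : Subgroup K) ≤ L)) : Subgroup L).Normal :=
        Sylow.normal_of_subsingleton _
      exact (Subgroup.normal_subgroupOf_iff_le_normalizer le_sup_left).mp hn
    refine (Subgroup.index_dvd_of_le hle).trans ?_
    have h1 := L.index_mul_card
    have hd : Disjoint (PK : Subgroup K) F := Subgroup.disjoint_of_coprime_natCard (by rw [hPKc, hFc]; norm_num)
    have h2 : Nat.card L = 17 * 5 := by
      rw [hL, Cfsg.Agent.Core.card_sup_of_disjoint (disjoint_iff.mp hd), hPKc, hFc]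
    rw [h2, hKcard] at h1
    rw [show L.index = 7 by omega]
  rw [hK35] at hn17
  norm_num at hn17


/-- No finite group has exactly 35 Sylow 17-subgroups. -/
theorem result {G : Type*} [Group G] [Finite G] : Nat.card (Sylow 17 G) ≠ 35 := by
  intro h35
  classical
  let K := (MulAction.toPermHom G (Sylow 17 G)).ker
  have hKfix : ∀ x ∈ K, ∀ R : Sylow 17 G, x • R = R := fun x hx R => Equiv.ext_iff.mp hx R
  have hinj : Function.Injective (Sylow.mapSurjective (p := 17) (QuotientGroup.mk'_surjective K)) := by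
    intro R S h
    rw [Cfsg.Agent.FGS4.map_mk'_eq_iff] at h
    refine Cfsg.Agent.FGS4.sylow_eq_of_le ?_
    have hle : (R : Subgroup G) ≤ Subgroup.normalizer (S : Set G) :=
      h.trans (sup_le Subgroup.le_normalizer fun x hx => Sylow.smul_eq_iff_mem_normalizer.mp (hKfix x hx S))
    rw [← inf_eq_left.mpr hle, IsPGroup.inf_normalizer_sylow R.2]
    exact inf_le_right
  have hsurj := Sylow.mapSurjective_surjective (QuotientGroup.mk'_surjective K) 17
  refine false_of_faithful (G := G ⧸ K) ((Nat.card_eq_of_bijective _ ⟨hinj, hsurj⟩).symm.trans h35) ?_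
  intro gq hgq
  obtain ⟨g, rfl⟩ := QuotientGroup.mk'_surjective K gq
  refine (QuotientGroup.eq_one_iff g).mpr ?_
  rw [MonoidHom.mem_ker]
  refine Equiv.ext fun R => hinj ?_
  show Sylow.mapSurjective _ (g • R) = Sylow.mapSurjective _ R
  refine Eq.trans ?_ (hgq (Sylow.mapSurjective (QuotientGroup.mk'_surjective K) R))
  refine Sylow.ext ?_
  show ((g • R : Sylow 17 G) : Subgroup G).map _ = MulAut.conj _ • (R : Subgroup G).map _
  rw [Sylow.coe_subgroup_smul]
  show ((R : Subgroup G).map (MulAut.conj g).toMonoidHom).map _ = ((R : Subgroup G).map _).map _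
  refine (Subgroup.map_map _ _ _).trans (Eq.trans ?_ (Subgroup.map_map _ _ _).symm)
  congr 1

end Cfsg.Agent.S4236
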