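import Cfsg.Statements.S4238
import Cfsg.Agent.Transfer.Complement
import Cfsg.Agent.Core.Cores
import Cfsg.Agent.Coprime.Action
-- import your own Cfsg.Agent.* helpers here

set_option autoImplicit false
open Cfsg

namespace Cfsg.Agent.S4238

variable {p : ℕ}

/-- a p-group has an element of order the exponent -/
theorem exists_orderOf_eq_exponent_of_isPGroup {K : Type*} [Group K] [Finite K] [hp : Fact p.Prime]
    (h : IsPGroup p K) : ∃ k : K, orderOf k = Monoid.exponent K := by
  obtain ⟨k, hk⟩ := Finite.exists_max (fun x : K => orderOf x)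
  refine ⟨k, Nat.dvd_antisymm (Monoid.order_dvd_exponent k) ?_⟩
  refine Monoid.exponent_dvd.mpr fun x => ?_
  obtain ⟨a, ha⟩ := IsPGroup.iff_orderOf.mp h k
  obtain ⟨b, hb⟩ := IsPGroup.iff_orderOf.mp h x
  have := hk x
  rw [ha, hb] at this ⊢
  exact pow_dvd_pow p ((Nat.pow_le_pow_iff_right hp.out.one_lt).mp this)

/-- `V⟨g⟩` with `g` fixing only `1` in the abelian p-group `V` has no element of maximal order. -/
theorem not_exists_orderOf_eq_exponent {K : Type*} [Group K] [Finite K] [hp : Fact p.Prime]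
    (V : Subgroup K) [V.Normal] (hV : IsPGroup p V) (hVc : IsMulCommutative V) (hV1 : V ≠ ⊥)
    (g : K) (hg : (orderOf g).Coprime p) (htop : V ⊔ Subgroup.zpowers g = ⊤)
    (hfix : ∀ v ∈ V, g * v = v * g → v = 1) : ¬ ∃ k : K, orderOf k = Monoid.exponent K := by
  rintro ⟨k, hk⟩
  let π := QuotientGroup.mk' V
  have hrd : orderOf (π g) ∣ orderOf g := orderOf_map_dvd π g
  have hdec : ∀ x : K, ∃ i : ℤ, π x = π g ^ i := by
    intro x
    have hx : x ∈ V ⊔ Subgroup.zpowers g := by rw [htop]; exact Subgroup.mem_top _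
    obtain ⟨v, hv, c, hc, rfl⟩ := Subgroup.mem_sup_of_normal_left.mp hx
    obtain ⟨i, rfl⟩ := Subgroup.mem_zpowers_iff.mp hc
    exact ⟨i, by rw [map_mul, map_zpow, show π v = 1 from (QuotientGroup.eq_one_iff v).mpr hv, one_mul]⟩
  -- `g` and `g V` have the same order
  have hgr : orderOf g ∣ orderOf (π g) := by
    have h1 : g ^ orderOf (π g) ∈ V := by
      rw [← QuotientGroup.eq_one_iff]
      exact (map_pow π g _).trans (pow_orderOf_eq_one _)
    obtain ⟨a, ha⟩ := IsPGroup.iff_orderOf.mp hV ⟨_, h1⟩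
    rw [Subgroup.orderOf_mk] at ha
    have h2 : orderOf g ∣ orderOf (π g) * p ^ a := by
      apply orderOf_dvd_of_pow_eq_one
      rw [pow_mul, ← ha, pow_orderOf_eq_one]
    exact (Nat.Coprime.pow_right a hg).dvd_of_dvd_mul_right h2
  -- order of `k V` is that of `g V`
  have hr : orderOf g ∣ orderOf (π k) := by
    have h1 : k ^ orderOf (π k) ∈ V := by
      rw [← QuotientGroup.eq_one_iff]
      exact (map_pow π k _).trans (pow_orderOf_eq_one _)
    obtain ⟨a, ha⟩ := IsPGroup.iff_orderOf.mp hV ⟨_, h1⟩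
    rw [Subgroup.orderOf_mk] at ha
    have h2 : orderOf k ∣ orderOf (π k) * p ^ a := by
      apply orderOf_dvd_of_pow_eq_one
      rw [pow_mul, ← ha, pow_orderOf_eq_one]
    have h3 : orderOf g ∣ orderOf (π k) * p ^ a := (hk ▸ Monoid.order_dvd_exponent g).trans h2
    exact (Nat.Coprime.pow_right a hg).dvd_of_dvd_mul_right h3
  have hkg : π g ∈ Subgroup.zpowers (π k) := by
    obtain ⟨i, hi⟩ := hdec k
    have hle : Subgroup.zpowers (π k) ≤ Subgroup.zpowers (π g) :=
      Subgroup.zpowers_le.mpr (Subgroup.mem_zpowers_iff.mpr ⟨i, hi.symm⟩)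
    have heq := Subgroup.eq_of_le_of_card_ge hle (by
      rw [Nat.card_zpowers, Nat.card_zpowers]
      exact Nat.le_of_dvd (orderOf_pos _) (hrd.trans hr))
    rw [heq]
    exact Subgroup.mem_zpowers _
  -- an element of order p in `V` centralized by `k`
  obtain ⟨v₀, hv₀V, hv₀⟩ := V.bot_or_exists_ne_one.resolve_left hV1
  have hpk : p ∣ orderOf k := by
    obtain ⟨a, ha⟩ := IsPGroup.iff_orderOf.mp hV ⟨v₀, hv₀V⟩
    rw [Subgroup.orderOf_mk] at ha
    rw [hk]
    refine Dvd.dvd.trans ?_ (Monoid.order_dvd_exponent v₀)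
    rw [ha]
    refine dvd_pow_self p fun h0 => hv₀ ?_
    rw [← orderOf_eq_one_iff, ha, h0, pow_zero]
  obtain ⟨d, hd⟩ := hpk
  set u := k ^ d with hu
  have hu1 : u ≠ 1 := fun h => by
    have hdvd := Nat.le_of_dvd (by
      rcases Nat.eq_zero_or_pos d with h0 | h0
      · exact absurd (by rw [hd, h0, mul_zero]) (orderOf_pos k).ne'
      · exact h0) (orderOf_dvd_of_pow_eq_one h)
    rw [hd] at hdvd
    have hd0 : 0 < d := by
      rcases Nat.eq_zero_or_pos d with h0 | h0
      · exact absurd (by rw [hd, h0, mul_zero]) (orderOf_pos k).ne'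
      · exact h0
    nlinarith [hp.out.two_le]
  have hupow : u ^ p = 1 := by rw [hu, ← pow_mul, mul_comm, ← hd, pow_orderOf_eq_one]
  have huV : u ∈ V := by
    rw [← QuotientGroup.eq_one_iff]
    apply orderOf_eq_one_iff.mp
    refine Nat.eq_one_of_dvd_coprimes hg ?_ ?_
    · obtain ⟨i, hi⟩ := hdec u
      refine Dvd.dvd.trans ?_ hrd
      apply orderOf_dvd_of_pow_eq_one
      change π u ^ _ = 1
      rw [hi, ← zpow_natCast, ← zpow_mul, mul_comm, zpow_mul, zpow_natCast, pow_orderOf_eq_one, one_zpow]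
    · exact orderOf_dvd_of_pow_eq_one (by
        change π u ^ p = 1
        rw [← map_pow, hupow, map_one])
  obtain ⟨j, hj⟩ := Subgroup.mem_zpowers_iff.mp hkg
  have hw : (k ^ j)⁻¹ * g ∈ V := by
    rw [← QuotientGroup.eq, ← QuotientGroup.mk'_apply, ← QuotientGroup.mk'_apply]
    exact (map_zpow π k j).trans hj
  apply hu1
  refine hfix u huV ?_
  have h1 : Commute (k ^ j) u := (Commute.refl k).zpow_left j |>.pow_right d
  have h2 : Commute ((k ^ j)⁻¹ * g) u :=
    congrArg Subtype.val (hVc.is_comm.comm (⟨_, hw⟩ : V) ⟨u, huV⟩)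
  have := h1.mul_left h2
  rwa [mul_inv_cancel_left] at this

/-- Move the hypothesis to an arbitrary image of a subgroup. -/
theorem exists_orderOf_of_hom {G : Type*} [Group G]
    (h : ∀ (H : Subgroup G) (N : Subgroup H) [N.Normal], Cfsg.pPrimeCore p (H ⧸ N) = ⊥ →
      ∃ k : H ⧸ N, orderOf k = Monoid.exponent (H ⧸ N))
    {H : Subgroup G} {K : Type*} [Group K] (f : H →* K) (hf : Function.Surjective f)
    (hK : Cfsg.pPrimeCore p K = ⊥) : ∃ k : K, orderOf k = Monoid.exponent K := by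
  let e := QuotientGroup.quotientKerEquivOfSurjective f hf
  obtain ⟨k, hk⟩ := h H f.ker ((Cfsg.Agent.Core.pPrimeCore_eq_bot_congr e).mpr hK)
  exact ⟨e k, by rw [MulEquiv.orderOf_eq, hk, Monoid.exponent_eq_of_mulEquiv e]⟩

/-- The section of a coprime nontrivial action. -/
theorem mem_centralizer_of_sections {G : Type*} [Group G] [Finite G] [hp : Fact p.Prime]
    (h : ∀ (H : Subgroup G) (N : Subgroup H) [N.Normal], Cfsg.pPrimeCore p (H ⧸ N) = ⊥ →
      ∃ k : H ⧸ N, orderOf k = Monoid.exponent (H ⧸ N))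
    {Q : Subgroup G} (hQ : IsPGroup p Q) {g : G} (hgN : g ∈ Subgroup.normalizer (Q : Set G))
    (hg : (orderOf g).Coprime p) : g ∈ Subgroup.centralizer (Q : Set G) := by
  induction hc : Nat.card Q using Nat.strong_induction_on generalizing Q with
  | h n ih =>
  subst hc
  by_contra hgc
  set A := Subgroup.zpowers g with hA
  have hAN : A ≤ Subgroup.normalizer (Q : Set G) := Subgroup.zpowers_le.mpr hgN
  have hcop : (Nat.card A).Coprime (Nat.card Q) := by
    obtain ⟨a, ha⟩ := IsPGroup.iff_card.mp hQ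
    rw [hA, Nat.card_zpowers, ha]
    exact Nat.Coprime.pow_right a hg
  have : Group.IsSolvable A := by rw [hA]; infer_instance
  have hQA : ⁅Q, A⁆ = Q := by
    refine le_antisymm (Cfsg.Agent.Coprime.commutator_le_of_le_normalizer hAN) (not_lt_iff_le_imp_ge.mp
      (fun hlt => hgc ?_) (Cfsg.Agent.Coprime.commutator_le_of_le_normalizer hAN))
    have hN' : g ∈ Subgroup.normalizer ((⁅Q, A⁆ : Subgroup G) : Set G) :=
      Subgroup.normalizer_commutator_ge_right Q A (Subgroup.mem_zpowers g)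
    have hc := ih _ (by
      by_contra hc
      exact hlt.ne (Subgroup.eq_of_le_of_card_ge hlt.le (not_lt.mp hc))) (hQ.to_le hlt.le) hN' rfl
    have h0 : ⁅⁅Q, A⁆, A⁆ = ⊥ := by
      rw [Subgroup.commutator_eq_bot_iff_le_centralizer, Subgroup.le_centralizer_iff, hA,
        Subgroup.zpowers_le]
      exact hc
    have h1 := Cfsg.Agent.Coprime.commutator_eq_bot_of_commutator_commutator hAN hcop h0
    rw [Subgroup.commutator_eq_bot_iff_le_centralizer, Subgroup.le_centralizer_iff] at h1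
    exact h1 (Subgroup.mem_zpowers g)
  -- the section `H / [Q,Q]`
  set H : Subgroup G := Q ⊔ A with hH
  have hQn : (Q.subgroupOf H).Normal := by
    rw [Subgroup.normal_subgroupOf_iff_le_normalizer le_sup_left]
    exact sup_le Subgroup.le_normalizer hAN
  set QH := Q.subgroupOf H with hQH
  set M : Subgroup H := ⁅QH, QH⁆ with hM
  have : M.Normal := Subgroup.commutator_normal _ _
  let π := QuotientGroup.mk' M
  have hπ : Function.Surjective π := QuotientGroup.mk'_surjective M
  let gH : H := ⟨g, Subgroup.mem_sup_right (Subgroup.mem_zpowers g)⟩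
  have hgA : (Subgroup.zpowers gH).map H.subtype = A := by rw [MonoidHom.map_zpowers]; rfl
  have hQHA : ⁅QH, Subgroup.zpowers gH⁆ = QH := by
    apply Subgroup.map_injective H.subtype_injective
    rw [Subgroup.map_commutator, hQH, Subgroup.map_subgroupOf_eq_of_le le_sup_left, hgA, hQA]
  have hQHtop : QH ⊔ Subgroup.zpowers gH = ⊤ := by
    apply Subgroup.map_injective H.subtype_injective
    rw [Subgroup.map_sup, hQH, Subgroup.map_subgroupOf_eq_of_le le_sup_left, hgA,
      ← MonoidHom.range_eq_map, Subgroup.range_subtype]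
  set V := QH.map π with hVdef
  have : V.Normal := hQn.map π hπ
  have hVp : IsPGroup p V := (hQ.comap_subtype).map π
  have hVc : IsMulCommutative V := by
    refine ⟨⟨fun a b => ?_⟩⟩
    obtain ⟨a', ha, ea⟩ := a.2
    obtain ⟨b', hb, eb⟩ := b.2
    apply Subtype.ext
    rw [Subgroup.coe_mul, Subgroup.coe_mul, ← ea, ← eb, ← map_mul, ← map_mul]
    apply QuotientGroup.eq.mpr
    have := Subgroup.commutator_mem_commutator (QH.inv_mem hb) (QH.inv_mem ha)
    rw [commutatorElement_def, inv_inv, inv_inv] at this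
    rw [hM]
    convert this using 1
    group
  set g₁ := π gH with hg₁
  have hVA : ⁅V, Subgroup.zpowers g₁⁆ = V := by
    rw [hVdef, hg₁, ← MonoidHom.map_zpowers, ← Subgroup.map_commutator, hQHA]
  have hconj : ∀ x : H ⧸ M, ∀ v ∈ V, x * v * x⁻¹ ∈ V := fun x v hv => ‹V.Normal›.conj_mem v hv x
  let τ : V →* V :=
    { toFun := fun v => ⟨(v : H ⧸ M)⁻¹ * (g₁ * v * g₁⁻¹), mul_mem (inv_mem v.2) (hconj _ _ v.2)⟩
      map_one' := Subtype.ext (by simp)
      map_mul' := fun a b => Subtype.ext (by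
        have e := congrArg Subtype.val (hVc.is_comm.comm
          (⟨(a : H ⧸ M)⁻¹ * (g₁ * a * g₁⁻¹), mul_mem (inv_mem a.2) (hconj _ _ a.2)⟩ : V)
          ⟨(b : H ⧸ M)⁻¹, inv_mem b.2⟩)
        simp only [Subgroup.coe_mul] at e ⊢
        calc ((a : H ⧸ M) * b)⁻¹ * (g₁ * (a * b) * g₁⁻¹)
            = ((b : H ⧸ M)⁻¹ * ((a : H ⧸ M)⁻¹ * (g₁ * a * g₁⁻¹))) * (g₁ * b * g₁⁻¹) := by group
          _ = _ := by rw [← e]; group) }
  have hsurj : Function.Surjective τ := by
    rw [← MonoidHom.range_eq_top, eq_top_iff]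
    have key : ∀ n : ℕ, ∀ v : V, ∀ hw : ((v : H ⧸ M))⁻¹ * (g₁ ^ n * v * (g₁ ^ n)⁻¹) ∈ V,
        (⟨_, hw⟩ : V) ∈ τ.range := by
      intro n
      induction n with
      | zero => intro v hw; convert τ.range.one_mem using 1; exact Subtype.ext (by simp)
      | succ n ih =>
        intro v hw
        have h1 : g₁ ^ n * v * (g₁ ^ n)⁻¹ ∈ V := hconj _ _ v.2
        have h2 := τ.range.mul_mem (ih v (mul_mem (inv_mem v.2) h1))
          (⟨⟨_, h1⟩, rfl⟩ : τ ⟨_, h1⟩ ∈ τ.range)
        convert h2 using 1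
        refine Subtype.ext ?_
        simp only [τ, MonoidHom.coe_mk, OneHom.coe_mk, Subgroup.coe_mul, pow_succ']
        group
    have hle : ⁅V, Subgroup.zpowers g₁⁆ ≤ τ.range.map V.subtype := by
      rw [Subgroup.commutator_le]
      intro v hv x hx
      obtain ⟨n, rfl⟩ := (isOfFinOrder_of_finite g₁).mem_powers_iff_mem_zpowers.mpr hx
      have hw : ((v⁻¹ : H ⧸ M))⁻¹ * (g₁ ^ n * v⁻¹ * (g₁ ^ n)⁻¹) ∈ V :=
        mul_mem (inv_mem (inv_mem hv)) (hconj _ _ (inv_mem hv))
      refine ⟨⟨_, hw⟩, key n ⟨v⁻¹, inv_mem hv⟩ hw, ?_⟩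
      simp [commutatorElement_def, mul_assoc]
    rw [hVA] at hle
    intro v _
    obtain ⟨w, hw, e⟩ := hle v.2
    rwa [← Subtype.ext e]
  have hfix : ∀ v ∈ V, g₁ * v = v * g₁ → v = 1 := by
    intro v hv hcomm
    have hinj := Finite.injective_iff_surjective.mpr hsurj
    have : (⟨v, hv⟩ : V) = 1 := hinj (by
      rw [map_one]
      exact Subtype.ext (by simp [τ, hcomm]))
    exact congrArg Subtype.val this
  have hV1 : V ≠ ⊥ := by
    intro hV0
    rw [hVdef, Subgroup.map_eq_bot_iff, QuotientGroup.ker_mk', hM] at hV0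
    have : Group.IsNilpotent QH := hQ.comap_subtype.isNilpotent
    have h0 := Cfsg.Agent.Transfer.eq_bot_of_le_commutator (P := QH) le_rfl hV0
    rw [hQH, Subgroup.subgroupOf_eq_bot, disjoint_iff, inf_eq_left.mpr (le_sup_left : Q ≤ H)] at h0
    apply hgc
    rw [h0, Subgroup.mem_centralizer_iff]
    intro x hx
    rw [Subgroup.mem_bot.mp hx]
    simp
  -- factor out the p'-core
  have hXV : Cfsg.pPrimeCore p (H ⧸ M) ⊓ V = ⊥ := by
    apply Subgroup.inf_eq_bot_of_coprime
    obtain ⟨a, ha⟩ := IsPGroup.iff_card.mp hVp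
    rw [ha]
    exact Nat.Coprime.pow_right a (Cfsg.Agent.Core.card_pPrimeCore_coprime p _)
  set X := Cfsg.pPrimeCore p (H ⧸ M)
  let ρ := QuotientGroup.mk' X
  have hρ : Function.Surjective ρ := QuotientGroup.mk'_surjective X
  have hXbot : ∀ x ∈ V, ρ x = 1 → x = 1 := fun x hx e => by
    have : x ∈ X ⊓ V := ⟨(QuotientGroup.eq_one_iff x).mp e, hx⟩
    rwa [hXV, Subgroup.mem_bot] at this
  have : (V.map ρ).Normal := Subgroup.Normal.map inferInstance ρ hρ
  refine not_exists_orderOf_eq_exponent (p := p) (V.map ρ) (hVp.map ρ) ?_ ?_ (ρ g₁) ?_ ?_ ?_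
    (exists_orderOf_of_hom h (ρ.comp π) (hρ.comp hπ)
      (Cfsg.Agent.Core.pPrimeCore_quotient_pPrimeCore p (H ⧸ M)))
  · refine ⟨⟨fun a b => ?_⟩⟩
    obtain ⟨a', ha, ea⟩ := a.2
    obtain ⟨b', hb, eb⟩ := b.2
    apply Subtype.ext
    rw [Subgroup.coe_mul, Subgroup.coe_mul, ← ea, ← eb, ← map_mul, ← map_mul]
    exact congrArg ρ (congrArg Subtype.val (hVc.is_comm.comm (⟨a', ha⟩ : V) ⟨b', hb⟩))
  · intro hb
    obtain ⟨v, hv, hv1⟩ := V.bot_or_exists_ne_one.resolve_left hV1
    exact hv1 (hXbot v hv (by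
      have : ρ v ∈ V.map ρ := Subgroup.mem_map_of_mem ρ hv
      rwa [hb, Subgroup.mem_bot] at this))
  · refine Nat.Coprime.coprime_dvd_left ((orderOf_map_dvd ρ g₁).trans (orderOf_map_dvd π gH)) ?_
    rwa [← Subgroup.orderOf_coe]
  · rw [hg₁, ← MonoidHom.map_zpowers, ← MonoidHom.map_zpowers, hVdef, ← Subgroup.map_sup,
      ← Subgroup.map_sup, hQHtop, Subgroup.map_top_of_surjective _ hπ,
      Subgroup.map_top_of_surjective _ hρ]
  · rintro _ ⟨v, hv, rfl⟩ hcomm
    rw [hfix v hv ?_, map_one]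
    have h1 : v⁻¹ * (g₁ * v * g₁⁻¹) ∈ V := mul_mem (inv_mem hv) (hconj _ _ hv)
    have h2 := hXbot _ h1 (by
      simp only [map_mul, map_inv, hcomm]
      group)
    calc g₁ * v = v * (v⁻¹ * (g₁ * v * g₁⁻¹)) * g₁ := by group
      _ = v * g₁ := by rw [h2, mul_one]


/-- Let G be a finite group and p a prime. Then G has a normal p-complement if and only if every section K = H/N of G (N a normal subgroup of a subgroup H) whose largest normal subgroup of order prime to p is trivial contains an element whose order equals the exponent of K. -/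
theorem result {G : Type*} [Group G] [Finite G] (p : ℕ) [Fact p.Prime] :
    Cfsg.HasNormalPComplement p G ↔
      ∀ (H : Subgroup G) (N : Subgroup H) [N.Normal], Cfsg.pPrimeCore p (H ⧸ N) = ⊥ →
        ∃ k : H ⧸ N, orderOf k = Monoid.exponent (H ⧸ N) := by
  constructor
  · intro hG H N _ hcore
    refine exists_orderOf_eq_exponent_of_isPGroup (p := p) ?_
    have hH' : Cfsg.HasNormalPComplement p H :=
      Cfsg.Agent.Transfer.hasNormalPComplement_subgroup H hG
    obtain ⟨P, C, hCn, hC⟩ := hH'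
    have := hCn
    have hCcop : (Nat.card C).Coprime p := by
      have := hC.index_eq_card
      rw [Nat.coprime_comm, (Fact.out : p.Prime).coprime_iff_not_dvd, ← this]
      exact P.not_dvd_index
    have hCN : C ≤ N := by
      have hle : C.map (QuotientGroup.mk' N) ≤ Cfsg.pPrimeCore p (H ⧸ N) :=
        Cfsg.Agent.Core.le_pPrimeCore (hCn.map _ (QuotientGroup.mk'_surjective N))
          (Nat.Coprime.coprime_dvd_left (Subgroup.card_map_dvd C _) hCcop)
      rwa [hcore, le_bot_iff, Subgroup.map_eq_bot_iff, QuotientGroup.ker_mk'] at hle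
    have hidx : C.index = Nat.card P := hC.symm.index_eq_card
    obtain ⟨a, ha⟩ := IsPGroup.iff_card.mp P.2
    have : N.index ∣ p ^ a := ha ▸ hidx ▸ Subgroup.index_dvd_of_le hCN
    obtain ⟨b, -, hb⟩ := (Nat.dvd_prime_pow (Fact.out : p.Prime)).mp this
    exact IsPGroup.of_card hb
  · intro h
    obtain ⟨P⟩ : Nonempty (Sylow p G) := inferInstance
    refine Cfsg.Agent.Transfer.hasNormalPComplement_of_frobenius (p := p) P fun Q hQP _ g hg hcop => ?_
    exact mem_centralizer_of_sections h (P.2.to_le hQP) hg hcop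

end Cfsg.Agent.S4238
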