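import Cfsg.Statements.S4242
import Cfsg.Agent.Transfer.Complement
import Cfsg.Agent.Core.Cores
import Cfsg.Agent.OddLocal.CN
import Cfsg.Agent.Coprime.Action
-- import your own Cfsg.Agent.* helpers here

set_option autoImplicit false
open Cfsg

namespace Cfsg.Agent.S4242

variable {G : Type*} [Group G]

theorem isNilpotent_of_le {A B : Subgroup G} [Group.IsNilpotent B] (h : A ≤ B) : Group.IsNilpotent A :=
  Group.nilpotent_of_surjective (Subgroup.subgroupOfEquivOfLe h).toMonoidHom
    (Subgroup.subgroupOfEquivOfLe h).surjective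

theorem isNilpotent_sup {A B : Subgroup G} [Group.IsNilpotent A] [Group.IsNilpotent B]
    (hc : ∀ a ∈ A, ∀ b ∈ B, a * b = b * a) : Group.IsNilpotent (A ⊔ B : Subgroup G) := by
  let f : A × B →* (A ⊔ B : Subgroup G) :=
    MonoidHom.noncommCoprod (Subgroup.inclusion le_sup_left) (Subgroup.inclusion le_sup_right)
      fun a b => Subtype.ext (hc a a.2 b b.2)
  have hA : A ≤ Subgroup.normalizer (B : Set G) := fun a ha =>
    Subgroup.centralizer_le_normalizer _ (Subgroup.mem_centralizer_iff.mpr fun b hb => (hc a ha b hb).symm)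
  refine Group.nilpotent_of_surjective f fun x => ?_
  have hx := x.2
  rw [← SetLike.mem_coe, Subgroup.coe_mul_of_left_le_normalizer_right A B hA] at hx
  obtain ⟨a, ha, b, hb, e⟩ := Set.mem_mul.mp hx
  exact ⟨(⟨a, ha⟩, ⟨b, hb⟩), Subtype.ext e⟩

variable [Finite G] {p : ℕ} [hp : Fact p.Prime]

/-- a p-group and an element of order prime to `p` in a nilpotent subgroup commute -/
theorem mem_centralizer_of_nilpotent {Q H : Subgroup G} (hH : Group.IsNilpotent H)
    (hQ : IsPGroup p Q) (hQH : Q ≤ H) {g : G} (hg : g ∈ H) (hcop : (orderOf g).Coprime p) :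
    g ∈ Subgroup.centralizer (Q : Set G) := by
  rw [Subgroup.mem_centralizer_iff]
  intro x hx
  refine Cfsg.Agent.OddLocal.CN.commute_of_coprime hH (hQH hx) hg ?_
  obtain ⟨a, ha⟩ := IsPGroup.iff_orderOf.mp hQ ⟨x, hx⟩
  rw [Subgroup.orderOf_mk] at ha
  rw [ha]
  exact Nat.Coprime.pow_left a hcop.symm

/-- The hard direction. -/
theorem structure_of_maximal_nilpotent (hpG : p ∣ Nat.card G)
    (h : ∀ M : Subgroup G, IsCoatom M → p ∣ Nat.card M → Group.IsNilpotent M)
    (hG : ¬ Group.IsNilpotent G) (hmin : ¬ Cfsg.IsMinimalNonNilpotent G) :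
    ∃ Z K : Subgroup G, Z.Normal ∧ K.Normal ∧ Z ⊓ K = ⊥ ∧ Z ⊔ K = ⊤ ∧ Nat.card Z = p ∧
      Cfsg.IsMinimalNonNilpotent K ∧ ¬ p ∣ Nat.card K := by
  have hnil : ∀ H : Subgroup G, H ≠ ⊤ → p ∣ Nat.card H → Group.IsNilpotent H := by
    intro H hH hpH
    obtain ⟨M, hM, hle⟩ := (eq_top_or_exists_le_coatom H).resolve_left hH
    have := h M hM (hpH.trans (Subgroup.card_dvd_of_le hle))
    exact isNilpotent_of_le hle
  obtain ⟨M, hM, hMn⟩ : ∃ M : Subgroup G, IsCoatom M ∧ ¬ Group.IsNilpotent M := by
    by_contra hno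
    refine hmin ⟨hG, fun H hH => ?_⟩
    obtain ⟨M, hM, hle⟩ := (eq_top_or_exists_le_coatom H).resolve_left hH
    have : Group.IsNilpotent M := by_contra fun hc => hno ⟨M, hM, hc⟩
    exact isNilpotent_of_le hle
  have hpM : ¬ p ∣ Nat.card M := fun hd => hMn (h M hM hd)
  obtain ⟨P⟩ : Nonempty (Sylow p G) := inferInstance
  have hPM : ∀ P1 : Subgroup G, IsPGroup p P1 → P1 ≠ ⊥ → ¬ P1 ≤ M := by
    intro P1 hP1 hne hle
    obtain ⟨a, ha⟩ := IsPGroup.iff_card.mp hP1
    rcases Nat.eq_zero_or_pos a with rfl | ha0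
    · exact hne (Subgroup.card_eq_one.mp (by simpa using ha))
    · exact hpM (((dvd_pow_self p ha0.ne').trans ha.symm.dvd).trans (Subgroup.card_dvd_of_le hle))
  have hPne : (P : Subgroup G) ≠ ⊥ := P.ne_bot_of_dvd_card hpG
  have hdiv : ∀ X : Subgroup G, IsPGroup p X → X ≠ ⊥ → p ∣ Nat.card X := fun X hX hne => by
    obtain ⟨a, ha⟩ := IsPGroup.iff_card.mp hX
    rcases Nat.eq_zero_or_pos a with rfl | ha0
    · exact absurd (Subgroup.card_eq_one.mp (by simpa using ha)) hne
    · exact (dvd_pow_self p ha0.ne').trans ha.symm.dvd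
  by_cases hPn : (P : Subgroup G).Normal
  · have hPtop : (P : Subgroup G) ⊔ M = ⊤ :=
      hM.2 _ (lt_of_le_of_ne le_sup_right fun e => hPM _ P.2 hPne (e ▸ le_sup_left))
    have hdisj : (P : Subgroup G) ⊓ M = ⊥ := by
      by_contra hne
      exact hPM _ P.2.to_inf_left hne inf_le_right
    have hK : ∀ K : Subgroup G, K < M → Group.IsNilpotent K ∧
        K ≤ Subgroup.centralizer ((P : Subgroup G) : Set G) := by
      intro K hK
      have htop : (P : Subgroup G) ⊔ K ≠ ⊤ := by
        intro e
        apply hK.not_ge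
        intro m hm
        have : m ∈ (P : Subgroup G) ⊔ K := by rw [e]; exact Subgroup.mem_top m
        obtain ⟨x, hx, k, hk, rfl⟩ := Subgroup.mem_sup_of_normal_left.mp this
        have : x ∈ (P : Subgroup G) ⊓ M := ⟨hx, by simpa using M.mul_mem hm (M.inv_mem (hK.le hk))⟩
        rw [hdisj, Subgroup.mem_bot] at this
        simpa [this] using hk
      have hn := hnil _ htop ((hdiv _ P.2 hPne).trans (Subgroup.card_dvd_of_le le_sup_left))
      refine ⟨?_, fun k hk => ?_⟩
      · exact isNilpotent_of_le (B := (P : Subgroup G) ⊔ K) le_sup_right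
      refine mem_centralizer_of_nilpotent hn P.2 le_sup_left (Subgroup.mem_sup_right hk) ?_
      refine Nat.Coprime.coprime_dvd_left ((Subgroup.orderOf_dvd_natCard K hk).trans
        (Subgroup.card_dvd_of_le hK.le)) ?_
      rw [Nat.coprime_comm, hp.out.coprime_iff_not_dvd]
      exact hpM
    have hMmin : Cfsg.IsMinimalNonNilpotent M := by
      refine ⟨hMn, fun H hH => ?_⟩
      have hlt : H.map M.subtype < M := by
        refine lt_of_le_of_ne (Subgroup.map_subtype_le H) fun e => hH ?_
        apply Subgroup.map_injective M.subtype_injective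
        rw [e, ← MonoidHom.range_eq_map, Subgroup.range_subtype]
      have := (hK _ hlt).1
      exact Group.nilpotent_of_surjective (H.equivMapOfInjective M.subtype M.subtype_injective).symm.toMonoidHom
        (H.equivMapOfInjective M.subtype M.subtype_injective).symm.surjective
    have hMC : M ≤ Subgroup.centralizer ((P : Subgroup G) : Set G) := by
      by_contra hnle
      set C := M ⊓ Subgroup.centralizer ((P : Subgroup G) : Set G) with hC
      obtain ⟨m, hm, hmC⟩ := SetLike.not_le_iff_exists.mp hnle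
      have : ¬ Subgroup.zpowers m < M := fun hlt => hmC ((hK _ hlt).2 (Subgroup.mem_zpowers m))
      have heq : Subgroup.zpowers m = M :=
        ((Subgroup.zpowers_le.mpr hm).lt_or_eq).resolve_left this
      refine hMn ?_
      rw [← heq]
      letI : CommGroup (Subgroup.zpowers m) :=
        { (inferInstance : Group (Subgroup.zpowers m)) with mul_comm := mul_comm' }
      infer_instance
    have hMnorm : M.Normal := by
      rw [← Subgroup.normalizer_eq_top_iff, eq_top_iff, ← hPtop]
      refine sup_le ?_ Subgroup.le_normalizer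
      exact ((Subgroup.le_centralizer_iff).mp hMC).trans (Subgroup.centralizer_le_normalizer _)
    have hcard : Nat.card (P : Subgroup G) = p := by
      obtain ⟨a, ha⟩ := IsPGroup.iff_card.mp P.2
      obtain ⟨z, hz⟩ := exists_prime_orderOf_dvd_card' (G := (P : Subgroup G)) p (hdiv _ P.2 hPne)
      set P1 := Subgroup.zpowers (z : G) with hP1
      have hP1c : Nat.card P1 = p := by rw [hP1, Nat.card_zpowers, Subgroup.orderOf_coe, hz]
      have hP1p : IsPGroup p P1 := P.2.to_le (Subgroup.zpowers_le.mpr z.2)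
      have hne : P1 ≠ ⊥ := fun e => hp.out.ne_one (by rw [← hP1c, e, Subgroup.card_bot])
      have htop : M ⊔ P1 = ⊤ :=
        hM.2 _ (lt_of_le_of_ne le_sup_left fun e => hPM _ hP1p hne (e ▸ le_sup_right))
      suffices heq : (P : Subgroup G) = P1 by rw [heq, hP1c]
      refine le_antisymm (fun x hx => ?_) (Subgroup.zpowers_le.mpr z.2)
      have : x ∈ M ⊔ P1 := by rw [htop]; exact Subgroup.mem_top x
      obtain ⟨k, hk, y, hy, rfl⟩ := Subgroup.mem_sup_of_normal_left.mp this
      have : k ∈ (P : Subgroup G) ⊓ M :=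
        ⟨(mul_inv_cancel_right k y) ▸ (P : Subgroup G).mul_mem hx ((P : Subgroup G).inv_mem (Subgroup.zpowers_le.mpr z.2 hy)), hk⟩
      rw [hdisj, Subgroup.mem_bot] at this
      rw [this, one_mul]
      exact hy
    exact ⟨P, M, hPn, hMnorm, hdisj, hPtop, hcard, hMmin, hpM⟩
  · exfalso
    have hnc : Cfsg.HasNormalPComplement p G := by
      refine Cfsg.Agent.Transfer.hasNormalPComplement_of_frobenius P fun Q hQP _ g hg hcop => ?_
      by_cases hQ : Q = ⊥
      · rw [hQ, Subgroup.mem_centralizer_iff]
        intro x hx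
        rw [Subgroup.mem_bot.mp hx]
        simp
      have hQp := P.2.to_le hQP
      by_cases hN : Subgroup.normalizer (Q : Set G) = ⊤
      · have hQn : Q.Normal := Subgroup.normalizer_eq_top_iff.mp hN
        have hH : Q ⊔ Subgroup.zpowers g ≠ ⊤ := by
          intro e
          apply hPn
          have hle : (P : Subgroup G) ≤ Q := by
            intro x hx
            have hx' : x ∈ Q ⊔ Subgroup.zpowers g := by rw [e]; exact Subgroup.mem_top x
            obtain ⟨u, hu, v, hv, rfl⟩ := Subgroup.mem_sup_of_normal_left.mp hx'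
            have hvP : v ∈ (P : Subgroup G) := by simpa using mul_mem (inv_mem (hQP hu)) hx
            obtain ⟨a, ha⟩ := IsPGroup.iff_orderOf.mp P.2 ⟨v, hvP⟩
            rw [Subgroup.orderOf_mk] at ha
            have hv1 : v = 1 := orderOf_eq_one_iff.mp (Nat.eq_one_of_dvd_coprimes
              (Nat.Coprime.pow_right a hcop) (Nat.card_zpowers g ▸ Subgroup.orderOf_dvd_natCard _ hv)
              ha.dvd)
            rw [hv1, mul_one]
            exact hu
          rwa [le_antisymm hle hQP]
        exact mem_centralizer_of_nilpotent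
          (hnil _ hH ((hdiv _ hQp hQ).trans (Subgroup.card_dvd_of_le le_sup_left))) hQp le_sup_left
          (Subgroup.mem_sup_right (Subgroup.mem_zpowers g)) hcop
      · exact mem_centralizer_of_nilpotent
          (hnil _ hN ((hdiv _ hQp hQ).trans (Subgroup.card_dvd_of_le Subgroup.le_normalizer))) hQp
          Subgroup.le_normalizer hg hcop
    obtain ⟨P', C, hCn, hCP⟩ := hnc
    have := hCn
    have hidx : C.index = Nat.card P' := hCP.symm.index_eq_card
    have hCcard : ¬ p ∣ Nat.card C := by
      rw [← hCP.index_eq_card]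
      exact P'.not_dvd_index
    have hMC : M ≤ C := by
      refine Cfsg.Agent.Core.le_of_coprime_index ?_
      obtain ⟨a, ha⟩ := IsPGroup.iff_card.mp P'.2
      rw [hidx, ha]
      exact Nat.Coprime.pow_right a ((hp.out.coprime_iff_not_dvd.mpr hpM).symm)
    have hCne : C ≠ ⊤ := fun e => by
      rw [e, Subgroup.card_top] at hCcard
      exact hCcard hpG
    have hCeq : C = M := by
      rcases hMC.lt_or_eq with hlt | he
      · exact absurd (hM.2 C hlt) hCne
      · exact he.symm
    set A : Subgroup G := (P' : Subgroup G) with hA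
    have hAC : A ≤ Subgroup.normalizer (C : Set G) := by
      rw [Subgroup.normalizer_eq_top]; exact le_top
    have : Group.IsNilpotent A := P'.2.isNilpotent
    have hcop : (Nat.card A).Coprime (Nat.card C) := by
      obtain ⟨a, ha⟩ := IsPGroup.iff_card.mp P'.2
      rw [hA, ha]
      exact Nat.Coprime.pow_left a (hp.out.coprime_iff_not_dvd.mpr hCcard)
    have hPA : p ∣ Nat.card A := P'.dvd_card_of_dvd_card hpG
    -- every invariant Sylow subgroup of `C` is centralized
    have hle : C ≤ Subgroup.centralizer (A : Set G) := by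
      rw [← inf_eq_left]
      refine Subgroup.eq_of_le_of_card_ge inf_le_left ?_
      have hi : (C ⊓ Subgroup.centralizer (A : Set G)).relIndex C = 1 := by
        by_contra h1
        obtain ⟨r, hr, hrd⟩ := Nat.exists_prime_and_dvd h1
        have := Fact.mk hr
        obtain ⟨R, hRC, hRr, hRi, hRA⟩ := Cfsg.Agent.Coprime.exists_invariant_sylow hAC hcop r
        have hrp : r ≠ p := fun e => hCcard (e ▸ hrd.trans (Subgroup.relIndex_dvd_card _ _))
        have htop : A ⊔ R ≠ ⊤ := by
          intro e
          refine hMn (hCeq ▸ ?_)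
          have hRn : Group.IsNilpotent R := hRr.isNilpotent
          suffices hCR : C ≤ R from isNilpotent_of_le hCR
          intro c hc
          have hc' : c ∈ A ⊔ R := by rw [e]; exact Subgroup.mem_top c
          rw [← SetLike.mem_coe, Subgroup.coe_mul_of_left_le_normalizer_right A R hRA] at hc'
          obtain ⟨x, hx, y, hy, rfl⟩ := Set.mem_mul.mp hc'
          have hxC : x ∈ C ⊓ A := ⟨by simpa using mul_mem hc (inv_mem (hRC hy)), hx⟩
          rw [disjoint_iff.mp hCP.disjoint, Subgroup.mem_bot] at hxC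
          simpa [hxC] using hy
        have hn := hnil _ htop (hPA.trans (Subgroup.card_dvd_of_le le_sup_left))
        have hRle : R ≤ C ⊓ Subgroup.centralizer (A : Set G) := by
          refine le_inf hRC fun y hy => ?_
          refine mem_centralizer_of_nilpotent hn P'.2 le_sup_left (Subgroup.mem_sup_right hy) ?_
          obtain ⟨a, ha⟩ := IsPGroup.iff_orderOf.mp hRr ⟨y, hy⟩
          rw [Subgroup.orderOf_mk] at ha
          rw [ha]
          exact Nat.Coprime.pow_left a ((Nat.coprime_primes hr hp.out).mpr hrp)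
        exact hRi (hrd.trans (Subgroup.relIndex_dvd_of_le_left _ hRle))
      exact Subgroup.card_le_of_le (Subgroup.relIndex_eq_one.mp hi)
    apply hPn
    have hA' : A.Normal := by
      rw [← Subgroup.normalizer_eq_top_iff, eq_top_iff, ← hCP.sup_eq_top]
      exact sup_le (hle.trans (Subgroup.centralizer_le_normalizer _)) Subgroup.le_normalizer
    obtain ⟨c, hc⟩ := MulAction.exists_smul_eq G P' P
    have : (P : Subgroup G) = A := by
      rw [← hc, hA, Sylow.coe_subgroup_smul]
      exact hA'.conjAct c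
    rwa [this]

/-- The easy direction. -/
theorem nilpotent_of_product (Z K : Subgroup G) (hZ : Z.Normal) (hK : K.Normal) (hd : Z ⊓ K = ⊥)
    (htop : Z ⊔ K = ⊤) (hZc : Nat.card Z = p) (hKm : Cfsg.IsMinimalNonNilpotent K)
    (hpK : ¬ p ∣ Nat.card K) (M : Subgroup G) (hM : IsCoatom M) (hpM : p ∣ Nat.card M) :
    Group.IsNilpotent M := by
  have := hZ
  have hZM : Z ≤ M := by
    obtain ⟨y, hy⟩ := exists_prime_orderOf_dvd_card' (G := M) p hpM
    have hyG : orderOf (y : G) = p := by rw [Subgroup.orderOf_coe, hy]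
    have hyZ : (y : G) ∈ Z := by
      have hidx : Z.index = Nat.card K := by
        refine ((Subgroup.isComplement'_of_disjoint_and_mul_eq_univ (disjoint_iff.mpr hd) ?_).symm.index_eq_card)
        rw [← Subgroup.normal_mul, htop, Subgroup.coe_top]
      rw [← QuotientGroup.eq_one_iff]
      refine orderOf_eq_one_iff.mp (Nat.eq_one_of_dvd_coprimes (k := orderOf ((y : G) : G ⧸ Z))
        (hp.out.coprime_iff_not_dvd.mpr hpK) (hyG ▸ orderOf_map_dvd (QuotientGroup.mk' Z) (y : G)) ?_)
      rw [← hidx, Subgroup.index_eq_card]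
      exact orderOf_dvd_natCard _
    have : Subgroup.zpowers (y : G) = Z := Subgroup.eq_of_le_of_card_ge (Subgroup.zpowers_le.mpr hyZ)
      (by rw [Nat.card_zpowers, hyG, hZc])
    rw [← this]
    exact Subgroup.zpowers_le.mpr y.2
  have hMeq : M = Z ⊔ (M ⊓ K) := by
    refine le_antisymm (fun m hm => ?_) (sup_le hZM inf_le_left)
    have : m ∈ Z ⊔ K := by rw [htop]; exact Subgroup.mem_top m
    obtain ⟨z, hz, k, hk, rfl⟩ := Subgroup.mem_sup_of_normal_left.mp this
    exact Subgroup.mul_mem_sup hz ⟨by simpa using M.mul_mem (M.inv_mem (hZM hz)) hm, hk⟩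
  have hne : (M ⊓ K).subgroupOf K ≠ ⊤ := by
    rw [ne_eq, Subgroup.subgroupOf_eq_top]
    intro hle
    apply hM.1
    rw [eq_top_iff, ← htop]
    exact sup_le hZM (hle.trans inf_le_left)
  have hKn := hKm.2 _ hne
  have : Group.IsNilpotent (M ⊓ K : Subgroup G) := Group.nilpotent_of_surjective
    (Subgroup.subgroupOfEquivOfLe (inf_le_right : M ⊓ K ≤ K)).toMonoidHom
    (Subgroup.subgroupOfEquivOfLe (inf_le_right : M ⊓ K ≤ K)).surjective
  have : Group.IsNilpotent Z := by
    have : IsPGroup p Z := IsPGroup.of_card (n := 1) (by rw [hZc, pow_one])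
    exact this.isNilpotent
  rw [hMeq]
  refine isNilpotent_sup fun a ha b hb => ?_
  exact (Subgroup.commute_of_normal_of_disjoint Z K hZ hK (disjoint_iff.mpr hd) a b ha hb.2).eq


/-- Let G be a finite group and p a prime dividing its order. Every maximal subgroup of G of order divisible by p is nilpotent if and only if G is nilpotent, or G is a minimal non-nilpotent group, or G is the internal direct product of a normal subgroup of order p and a normal minimal non-nilpotent subgroup of order prime to p. -/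
theorem result {G : Type*} [Group G] [Finite G] (p : ℕ) (hp : p.Prime) (hpG : p ∣ Nat.card G) :
    (∀ M : Subgroup G, IsCoatom M → p ∣ Nat.card M → Group.IsNilpotent M) ↔
      (Group.IsNilpotent G ∨ Cfsg.IsMinimalNonNilpotent G ∨
        ∃ Z K : Subgroup G, Z.Normal ∧ K.Normal ∧ Z ⊓ K = ⊥ ∧ Z ⊔ K = ⊤ ∧ Nat.card Z = p ∧
          Cfsg.IsMinimalNonNilpotent K ∧ ¬ p ∣ Nat.card K) := by
  have := Fact.mk hp
  constructor
  · intro h
    by_cases h1 : Group.IsNilpotent G
    · exact Or.inl h1
    by_cases h2 : Cfsg.IsMinimalNonNilpotent G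
    · exact Or.inr (Or.inl h2)
    exact Or.inr (Or.inr (structure_of_maximal_nilpotent hpG h h1 h2))
  · rintro (h1 | h2 | ⟨Z, K, hZ, hK, hd, htop, hZc, hKm, hpK⟩) M hM hpM
    · infer_instance
    · exact h2.2 M hM.1
    · exact nilpotent_of_product Z K hZ hK hd htop hZc hKm hpK M hM hpM

end Cfsg.Agent.S4242
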