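import Cfsg.Statements.S4244
-- import your own Cfsg.Agent.* helpers here

set_option autoImplicit false
open Cfsg

namespace Cfsg.Agent.S4244

theorem relIndex_dvd_index_of_normal {G : Type*} [Group G] [Finite G] (H K : Subgroup G) [H.Normal] :
    K.relIndex H ∣ K.index := by
  have key : K.relIndex (K ⊔ H) = K.relIndex H := by
    have e1 := Subgroup.relIndex_mul_relIndex (⊥ : Subgroup G) K (K ⊔ H) bot_le le_sup_left
    have e2 := Subgroup.relIndex_mul_relIndex (⊥ : Subgroup G) H (K ⊔ H) bot_le le_sup_right
    have e3 := Subgroup.relIndex_mul_relIndex (⊥ : Subgroup G) (H ⊓ K) K bot_le inf_le_right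
    have e4 := Subgroup.relIndex_mul_relIndex (⊥ : Subgroup G) (H ⊓ K) H bot_le inf_le_left
    rw [Subgroup.relIndex_sup_right] at e2
    rw [Subgroup.inf_relIndex_right] at e3
    rw [Subgroup.inf_relIndex_left] at e4
    simp only [Subgroup.relIndex_bot_left] at e1 e2 e3 e4
    refine Nat.eq_of_mul_eq_mul_left (Nat.card_pos (α := K)) ?_
    rw [e1, ← e2, ← e3, ← e4]
    ring
  rw [← key]
  exact Dvd.intro _ (Subgroup.relIndex_mul_index le_sup_left)


/-- Let H be a subnormal subgroup of a finite group G. Then for every subgroup K of G the index of H ∩ K in H divides the index of K in G. -/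
theorem result {G : Type*} [Group G] [Finite G] (H : Subgroup G) (hH : H.IsSubnormal) (K : Subgroup G) :
    (H ⊓ K).relIndex H ∣ K.index := by
  induction hH with
  | top => simp
  | step H M hHM hM hn ih =>
    haveI := hn
    have h1 := relIndex_dvd_index_of_normal (H.subgroupOf M) ((M ⊓ K).subgroupOf M)
    rw [Subgroup.relIndex_subgroupOf hHM] at h1
    have h2 : (H ⊓ K).relIndex H = (M ⊓ K).relIndex H := by
      rw [Subgroup.inf_relIndex_left, ← Subgroup.inf_relIndex_left H (M ⊓ K), ← inf_assoc, inf_eq_left.2 hHM, Subgroup.inf_relIndex_left]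
    rw [h2]
    exact h1.trans ih

end Cfsg.Agent.S4244
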