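import Cfsg.Statements.S4245
import Cfsg.Agent.FGS2.BurnsideClass
import Cfsg.Agent.Core.BurnsidePQ
import Cfsg.Agent.Coprime.Action
-- import your own Cfsg.Agent.* helpers here

set_option autoImplicit false
open Cfsg

namespace Cfsg.Agent.S4245

/-- The hypothesis of the theorem. -/
def Good (G : Type*) [Group G] : Prop :=
  ∃ (A B : Subgroup G) (p s r : ℕ), p.Prime ∧ A.index = p ^ s ∧ B ≤ A ∧ IsCyclic B ∧
    A ≤ Subgroup.normalizer (B : Set G) ∧ (∃ a ∈ A, A = B ⊔ Subgroup.zpowers a) ∧
    B.relIndex A = 2 ^ r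

theorem relIndex_map_dvd' {G L : Type*} [Group G] [Group L] (f : G →* L) (B A : Subgroup G)
    (hBA : B ≤ A) : (B.map f).relIndex (A.map f) ∣ B.relIndex A := by
  have h : (B.subgroupOf A).map (f.subgroupMap A) = (B.map f).subgroupOf (A.map f) := by
    ext ⟨y, hy⟩
    constructor
    · rintro ⟨x, hx, hxy⟩
      exact ⟨x, hx, congrArg Subtype.val hxy⟩
    · rintro ⟨x, hx, hxy⟩
      exact ⟨⟨x, hBA hx⟩, hx, Subtype.ext hxy⟩
  rw [Subgroup.relIndex, Subgroup.relIndex, ← h]
  exact Subgroup.index_map_dvd (H := B.subgroupOf A) (f := f.subgroupMap A) (f.subgroupMap_surjective A)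

theorem relIndex_dvd_index' {G : Type*} [Group G] [Finite G] (A N : Subgroup G) [N.Normal] :
    A.relIndex N ∣ A.index := by
  have e1 := Subgroup.relIndex_mul_relIndex ⊥ N (A ⊔ N) bot_le le_sup_right
  rw [Subgroup.relIndex_bot_left, Subgroup.relIndex_bot_left, Subgroup.relIndex_sup_right] at e1
  have e2 := Subgroup.relIndex_mul_relIndex ⊥ (A ⊓ N) A bot_le inf_le_left
  rw [Subgroup.relIndex_bot_left, Subgroup.relIndex_bot_left, inf_comm A N,
    Subgroup.inf_relIndex_right] at e2
  have e3 := Subgroup.relIndex_mul_relIndex ⊥ (A ⊓ N) N bot_le inf_le_right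
  rw [Subgroup.relIndex_bot_left, Subgroup.relIndex_bot_left, Subgroup.inf_relIndex_right,
    inf_comm A N] at e3
  have e4 := Subgroup.relIndex_mul_relIndex ⊥ A (A ⊔ N) bot_le le_sup_left
  rw [Subgroup.relIndex_bot_left, Subgroup.relIndex_bot_left] at e4
  have h : A.relIndex N = A.relIndex (A ⊔ N) := by
    refine Nat.eq_of_mul_eq_mul_left (Nat.card_pos : 0 < Nat.card A) ?_
    rw [e4, ← e1, ← e2, ← e3]
    ring
  rw [h, ← Subgroup.relIndex_mul_index (H := A) (K := A ⊔ N) le_sup_left]
  exact dvd_mul_right _ _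

theorem good_of_surjective {G L : Type*} [Group G] [Finite G] [Group L] (f : G →* L)
    (hf : Function.Surjective f) (h : Good G) : Good L := by
  obtain ⟨A, B, p, s, r, hp, hA, hBA, hB, hAN, ⟨a, ha, hsup⟩, hr⟩ := h
  obtain ⟨s', -, hs'⟩ := (Nat.dvd_prime_pow hp).mp (hA ▸ Subgroup.index_map_dvd (H := A) (f := f) hf)
  obtain ⟨r', -, hr'⟩ := (Nat.dvd_prime_pow Nat.prime_two).mp
    ((relIndex_map_dvd' f B A hBA).trans (dvd_of_eq hr))
  haveI := hB
  refine ⟨A.map f, B.map f, p, s', r', hp, hs', Subgroup.map_mono hBA, ?_, ?_,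
    ⟨f a, Subgroup.mem_map_of_mem f ha, ?_⟩, hr'⟩
  · exact isCyclic_of_surjective (f.subgroupMap B) (f.subgroupMap_surjective B)
  · exact (Subgroup.map_mono hAN).trans (Subgroup.le_normalizer_map f)
  · rw [hsup, Subgroup.map_sup, MonoidHom.map_zpowers]

theorem aux (n : ℕ) : ∀ {G : Type*} [Group G] [Finite G], Nat.card G = n → Good G →
    Group.IsSolvable G := by
  induction n using Nat.strong_induction_on with
  | _ n ih =>
  intro G _ _ hn hgood
  classical
  by_contra hns
  have hgood' := hgood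
  obtain ⟨A, B, p, s, r, hp, hA, hBA, hB, hAN, ⟨a, ha, hsup⟩, hr⟩ := hgood
  haveI := hB
  haveI := Fact.mk hp
  -- G is simple
  haveI : Nontrivial G := by
    by_contra hc
    rw [not_nontrivial_iff_subsingleton] at hc
    exact hns inferInstance
  haveI hsimple : IsSimpleGroup G := by
    refine ⟨fun N hN => ?_⟩
    by_contra hc
    rw [not_or] at hc
    haveI := hN
    haveI : Group.IsSolvable (G ⧸ N) := by
      refine ih (Nat.card (G ⧸ N)) (hn ▸ ?_) rfl
        (good_of_surjective _ (QuotientGroup.mk'_surjective N) hgood')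
      rw [← Subgroup.index_mul_card N, ← Subgroup.index_eq_card]
      exact lt_mul_of_one_lt_right (Nat.pos_of_ne_zero Subgroup.index_ne_zero_of_finite)
        (N.one_lt_card_iff_ne_bot.mpr hc.1)
    haveI : Group.IsSolvable N := by
      have hlt : Nat.card N < n := hn ▸ lt_of_le_of_ne (Subgroup.card_le_card_group N)
        (fun e => hc.2 ((Subgroup.card_eq_iff_eq_top N).mp e))
      have h1 : (A.subgroupOf N).index ∣ p ^ s := hA ▸ relIndex_dvd_index' A N
      obtain ⟨s', -, hs'⟩ := (Nat.dvd_prime_pow hp).mp h1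
      haveI : (B.subgroupOf A).Normal := Subgroup.normal_subgroupOf_of_le_normalizer hAN
      have hBN : ((B ⊓ N).subgroupOf (A ⊓ N)).Normal := Subgroup.normal_subgroupOf_of_le_normalizer
        ((le_inf (inf_le_left.trans hAN) (inf_le_right.trans Subgroup.le_normalizer)).trans
          Subgroup.inf_normalizer_le_normalizer_inf)
      -- (A ∩ N)/(B ∩ N) embeds into the cyclic group A/B
      set AN := A.subgroupOf N with hANd
      set BN := B.subgroupOf N with hBNd
      have hBAN : BN ≤ AN := fun x hx => hBA hx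
      haveI : (BN.subgroupOf AN).Normal := by
        refine ⟨fun x hx y => ?_⟩
        exact (Subgroup.mem_normalizer_iff.mp (hAN y.2) _).mp hx
      let g : AN →* A ⧸ B.subgroupOf A := (QuotientGroup.mk' _).comp
        { toFun := fun y => ⟨((y : N) : G), y.2⟩, map_one' := rfl, map_mul' := fun _ _ => rfl }
      have hgk : g.ker = BN.subgroupOf AN := by
        ext y
        exact QuotientGroup.eq_one_iff _
      haveI : IsCyclic (A ⧸ B.subgroupOf A) := by
        refine ⟨⟨QuotientGroup.mk (⟨a, ha⟩ : A), fun b => ?_⟩⟩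
        induction b using QuotientGroup.induction_on with | H x =>
        have hx : (x : G) ∈ B ⊔ Subgroup.zpowers a := hsup ▸ x.2
        rw [← SetLike.mem_coe, Subgroup.coe_mul_of_right_le_normalizer_left B (Subgroup.zpowers a)
          (Subgroup.zpowers_le.mpr (hAN ha))] at hx
        obtain ⟨b, hb, c, hc, hbc⟩ := Set.mem_mul.mp hx
        obtain ⟨k, rfl⟩ := Subgroup.mem_zpowers_iff.mp hc
        refine ⟨k, ?_⟩
        show QuotientGroup.mk (⟨a, ha⟩ : A) ^ k = _
        rw [← QuotientGroup.mk_zpow, QuotientGroup.eq, Subgroup.mem_subgroupOf]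
        rw [Subgroup.coe_mul, Subgroup.coe_inv, Subgroup.coe_zpow, ← hbc]
        have := (Subgroup.mem_normalizer_iff.mp (Subgroup.inv_mem _ (Subgroup.zpow_mem _ (hAN ha) k)) b).mp hb
        simpa [mul_assoc] using this
      haveI hrc : IsCyclic g.range := Subgroup.isCyclic g.range
      obtain ⟨⟨z, hz⟩, hzgen⟩ := IsCyclic.exists_generator (α := g.range)
      obtain ⟨y, rfl⟩ := hz
      refine ih _ hlt rfl ⟨AN, BN, p, s', ?_⟩
      have hdvd : BN.relIndex AN ∣ 2 ^ r := by
        rw [Subgroup.relIndex, ← hgk, Subgroup.index_ker]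
        refine (Subgroup.card_subgroup_dvd_card g.range).trans ?_
        rw [← Subgroup.index_eq_card, ← Subgroup.relIndex, hr]
      obtain ⟨r', -, hr'⟩ := (Nat.dvd_prime_pow Nat.prime_two).mp hdvd
      refine ⟨r', hp, hs', hBAN, ?_, ?_, ⟨(y : N), y.2, ?_⟩, hr'⟩
      · exact isCyclic_of_injective
          { toFun := fun x : BN => (⟨((x : N) : G), x.2⟩ : B), map_one' := rfl, map_mul' := fun _ _ => rfl }
          (fun x x' h => Subtype.ext (Subtype.ext (congrArg (fun w : B => (w : G)) h)))
      · exact (Subgroup.comap_mono hAN).trans (Subgroup.le_normalizer_comap N.subtype)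
      · refine le_antisymm (fun x hx => ?_) (sup_le hBAN (Subgroup.zpowers_le.mpr y.2))
        obtain ⟨k, hk⟩ := Subgroup.mem_zpowers_iff.mp (hzgen ⟨g ⟨x, hx⟩, ⟨_, rfl⟩⟩)
        have hk' : g (y ^ k) = g ⟨x, hx⟩ := by
          rw [map_zpow]; exact congrArg Subtype.val hk
        have h2 : (y ^ k)⁻¹ * ⟨x, hx⟩ ∈ g.ker := by
          rw [MonoidHom.mem_ker, map_mul, map_inv, hk', inv_mul_cancel]
        rw [hgk] at h2
        have h3 : ((y : N) ^ k)⁻¹ * x ∈ BN := h2
        have h4 := Subgroup.mul_mem _ ((le_sup_right : Subgroup.zpowers (y : N) ≤ BN ⊔ _)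
          (Subgroup.zpow_mem _ (Subgroup.mem_zpowers _) k)) ((le_sup_left : BN ≤ _ ⊔ Subgroup.zpowers (y : N)) h3)
        simpa using h4
    exact hns ((Group.isSolvable_iff_subgroup_quotient N).mpr ⟨inferInstance, inferInstance⟩)
  -- no class of prime power size
  have hclass : ∀ g : G, g ≠ 1 → ∀ q k : ℕ, q.Prime →
      ¬ (Subgroup.centralizer ({g} : Set G)).index ∣ q ^ k := by
    intro g hg q k hq hd
    obtain ⟨j, -, hj⟩ := (Nat.dvd_prime_pow hq).mp hd
    haveI := Fact.mk (Cfsg.Agent.FGS2.burnside_class G q j hq g hg hj)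
    haveI : IsCyclic G := isCyclic_of_prime_card rfl
    exact hns (Group.isSolvable_of_comm IsCyclic.commGroup.mul_comm)
  have hcent : ∀ b ∈ B, B ≤ Subgroup.centralizer ({b} : Set G) := fun b hb x hx =>
    Subgroup.mem_centralizer_singleton_iff.mpr
      (congrArg Subtype.val (IsCyclic.commGroup.mul_comm (⟨x, hx⟩ : B) ⟨b, hb⟩))
  have hBidx : B.index = 2 ^ r * p ^ s := by
    rw [← Subgroup.relIndex_mul_index hBA, hr, hA]
  have hcard : Nat.card G = Nat.card B * (2 ^ r * p ^ s) := by
    rw [← hBidx, Subgroup.card_mul_index]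
  haveI : Fact (Nat.Prime 2) := ⟨Nat.prime_two⟩
  have hBne : B ≠ ⊥ := by
    intro e
    rw [e, Subgroup.card_bot, one_mul] at hcard
    exact hns (Core.isSolvable_of_card_dvd_two_primes Nat.prime_two hp hcard.dvd)
  by_cases hp2 : p = 2
  · obtain ⟨b, hb, hb1⟩ := B.bot_or_exists_ne_one.resolve_left hBne
    refine hclass b hb1 2 (r + s) Nat.prime_two ?_
    rw [pow_add]
    subst hp2
    exact hBidx ▸ Subgroup.index_dvd_of_le (hcent b hb)
  by_cases hB2 : 2 ∣ Nat.card B
  · obtain ⟨⟨z, hz⟩, hzo⟩ := exists_prime_orderOf_dvd_card' (G := B) 2 hB2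
    rw [← Subgroup.orderOf_coe] at hzo
    have hz1 : z ≠ 1 := by intro e; subst e; simp at hzo
    refine hclass z hz1 p s hp (hA ▸ Subgroup.index_dvd_of_le fun x hx => ?_)
    rw [Subgroup.mem_centralizer_singleton_iff]
    -- the involution of the cyclic normal subgroup `B` is central in `A`
    have hz' : x * z * x⁻¹ ∈ B := (Subgroup.mem_normalizer_iff.mp (hAN hx) z).mp hz
    have ho : orderOf (x * z * x⁻¹) = 2 :=
      hzo ▸ orderOf_injective (MulAut.conj x).toMonoidHom (MulAut.conj x).injective z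
    letI : CommGroup B := IsCyclic.commGroup
    haveI := Fintype.ofFinite B
    have hsub : ({⟨z, hz⟩, ⟨x * z * x⁻¹, hz'⟩} : Finset B) ⊆
        (Finset.univ.filter fun w : B => orderOf w = 2) := by
      intro w hw
      simp only [Finset.mem_insert, Finset.mem_singleton] at hw
      refine Finset.mem_filter.mpr ⟨Finset.mem_univ _, ?_⟩
      rcases hw with rfl | rfl
      · rw [← Subgroup.orderOf_coe]; exact hzo
      · rw [← Subgroup.orderOf_coe]; exact ho
    have hle := Finset.card_le_card hsub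
    rw [IsCyclic.card_orderOf_eq_totient (by rwa [← Nat.card_eq_fintype_card]), Nat.totient_two] at hle
    have := Finset.card_le_one.mp hle ⟨z, hz⟩ (by simp) ⟨x * z * x⁻¹, hz'⟩ (by simp)
    have := congrArg Subtype.val this
    simp only at this
    exact (eq_mul_inv_iff_mul_eq.mp this).symm
  -- now the Sylow 2-subgroups are cyclic
  obtain ⟨P⟩ : Nonempty (Sylow 2 G) := inferInstance
  have hpP : (Nat.card (P : Subgroup G)) = 2 ^ r := by
    rw [P.card_eq_multiplicity, hcard, Nat.factorization_mul Nat.card_pos.ne'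
        (mul_ne_zero (pow_ne_zero _ two_ne_zero) (pow_ne_zero _ hp.ne_zero)),
      Nat.factorization_mul (pow_ne_zero _ two_ne_zero) (pow_ne_zero _ hp.ne_zero)]
    simp [Nat.factorization_eq_zero_of_not_dvd hB2, hp.factorization_pow, hp2,
      Nat.prime_two.factorization_pow]
  have hcycP : IsCyclic (P : Subgroup G) := by
    obtain ⟨P₀⟩ : Nonempty (Sylow 2 A) := inferInstance
    haveI : (B.subgroupOf A).Normal := Subgroup.normal_subgroupOf_of_le_normalizer hAN
    have hcardA : Nat.card (P₀ : Subgroup A) = 2 ^ r := by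
      have hA' : Nat.card A = Nat.card B * 2 ^ r := by
        have := Subgroup.relIndex_mul_relIndex ⊥ B A bot_le hBA
        rw [Subgroup.relIndex_bot_left, Subgroup.relIndex_bot_left, hr] at this
        exact this.symm
      rw [P₀.card_eq_multiplicity, hA', Nat.factorization_mul Nat.card_pos.ne' (by positivity)]
      simp [Nat.factorization_eq_zero_of_not_dvd hB2, Nat.prime_two.factorization_pow]
    haveI : IsCyclic (A ⧸ B.subgroupOf A) := by
      refine ⟨⟨QuotientGroup.mk (⟨a, ha⟩ : A), fun b => ?_⟩⟩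
      induction b using QuotientGroup.induction_on with | H x =>
      have hx : (x : G) ∈ B ⊔ Subgroup.zpowers a := hsup ▸ x.2
      rw [← SetLike.mem_coe, Subgroup.coe_mul_of_right_le_normalizer_left B (Subgroup.zpowers a)
        (Subgroup.zpowers_le.mpr (hAN ha))] at hx
      obtain ⟨b, hb, c, hc, hbc⟩ := Set.mem_mul.mp hx
      obtain ⟨k, rfl⟩ := Subgroup.mem_zpowers_iff.mp hc
      refine ⟨k, ?_⟩
      show QuotientGroup.mk (⟨a, ha⟩ : A) ^ k = _
      rw [← QuotientGroup.mk_zpow, QuotientGroup.eq, Subgroup.mem_subgroupOf]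
      rw [Subgroup.coe_mul, Subgroup.coe_inv, Subgroup.coe_zpow, ← hbc]
      have := (Subgroup.mem_normalizer_iff.mp (Subgroup.inv_mem _ (Subgroup.zpow_mem _ (hAN ha) k)) b).mp hb
      simpa [mul_assoc] using this
    let f : (P₀ : Subgroup A) →* A ⧸ B.subgroupOf A :=
      (QuotientGroup.mk' _).comp (P₀ : Subgroup A).subtype
    haveI hP₀c : IsCyclic (P₀ : Subgroup A) := by
      refine isCyclic_of_injective f ((injective_iff_map_eq_one f).mpr fun y hy => ?_)
      have hyB : ((y : A) : G) ∈ B := (QuotientGroup.eq_one_iff (y : A)).mp hy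
      have h1 : orderOf y ∣ Nat.card B := by
        have h2 := orderOf_dvd_natCard (⟨_, hyB⟩ : B)
        rwa [← Subgroup.orderOf_coe, Subgroup.orderOf_coe (y : A), Subgroup.orderOf_coe y] at h2
      have h3 : orderOf y ∣ 2 ^ r := hcardA ▸ orderOf_dvd_natCard y
      exact orderOf_eq_one_iff.mp (Nat.eq_one_of_dvd_coprimes
        ((Nat.prime_two.coprime_iff_not_dvd.mpr hB2).pow_left r) h3 h1)
    have hq : IsPGroup 2 ((P₀ : Subgroup A).map A.subtype) := P₀.isPGroup'.map _
    obtain ⟨P', hP'⟩ := hq.exists_le_sylow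
    have he : (P₀ : Subgroup A).map A.subtype = (P' : Subgroup G) := by
      refine Subgroup.eq_of_le_of_card_ge hP' (le_of_eq ?_)
      rw [Subgroup.card_map_of_injective A.subtype_injective, hcardA, ← hpP]
      exact Sylow.card_eq_multiplicity P' |>.trans (Sylow.card_eq_multiplicity P).symm
    haveI : IsCyclic (P' : Subgroup G) := by
      rw [← he]
      exact isCyclic_of_surjective (A.subtype.subgroupMap _) (A.subtype.subgroupMap_surjective _)
    exact isCyclic_of_surjective (P'.equiv P).toMonoidHom (P'.equiv P).surjective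
  by_cases hr0 : r = 0
  · have hAB : A = B := le_antisymm (Subgroup.relIndex_eq_one.mp (by rw [hr, hr0, pow_zero])) hBA
    obtain ⟨b, hb, hb1⟩ := B.bot_or_exists_ne_one.resolve_left hBne
    exact hclass b hb1 p s hp (hA ▸ Subgroup.index_dvd_of_le (hAB ▸ hcent b hb))
  have hmin : (Nat.card G).minFac = 2 := (Nat.minFac_eq_two_iff _).mpr
    (hcard ▸ dvd_mul_of_dvd_right (dvd_mul_of_dvd_left (dvd_pow_self 2 hr0) _) _)
  have hc := IsCyclic.isComplement' (G := G) (P := P) hmin hcycP
  set K := (MonoidHom.transferSylow P (hcycP.normalizer_le_centralizer hmin)).ker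
  rcases hsimple.eq_bot_or_eq_top_of_normal K inferInstance with hK | hK
  · rw [hK, Subgroup.isComplement'_bot_left] at hc
    haveI : IsCyclic G := by
      rw [hc] at hcycP
      exact isCyclic_of_surjective Subgroup.topEquiv.toMonoidHom Subgroup.topEquiv.surjective
    exact hns (Group.isSolvable_of_comm IsCyclic.commGroup.mul_comm)
  · rw [hK, Subgroup.isComplement'_top_left] at hc
    rw [hc, Subgroup.card_bot] at hpP
    exact (one_lt_pow₀ one_lt_two hr0).ne hpP


/-- Let G be a finite group with a subgroup A of prime-power index. Suppose A has a normal cyclic subgroup B such that A/B is cyclic of order a power of 2. Then G is solvable. -/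
theorem result {G : Type*} [Group G] [Finite G] (A : Subgroup G) (p s : ℕ) (hp : p.Prime) (hA : A.index = p ^ s)
    (B : Subgroup A) [B.Normal] (hB : IsCyclic B) (hAB : IsCyclic (A ⧸ B)) (r : ℕ) (hr : Nat.card (A ⧸ B) = 2 ^ r) :
    Group.IsSolvable G := by
  classical
  obtain ⟨⟨a, ha⟩⟩ := hAB
  obtain ⟨x, hx⟩ := QuotientGroup.mk_surjective a
  refine aux _ rfl ⟨A, B.map A.subtype, p, s, r, hp, hA, Subgroup.map_subtype_le B, ?_, ?_,
    ⟨x, x.2, ?_⟩, ?_⟩
  · exact isCyclic_of_surjective (A.subtype.subgroupMap B) (A.subtype.subgroupMap_surjective B)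
  · intro y hy
    refine Coprime.mem_normalizer_of_conj_mem ?_
    rintro _ ⟨b, hb, rfl⟩
    exact ⟨_, Subgroup.Normal.conj_mem inferInstance b hb ⟨y, hy⟩, rfl⟩
  · refine le_antisymm (fun y hy => ?_) (sup_le (Subgroup.map_subtype_le B) (Subgroup.zpowers_le.mpr x.2))
    obtain ⟨k, hk⟩ := Subgroup.mem_zpowers_iff.mp (ha (QuotientGroup.mk (⟨y, hy⟩ : A)))
    rw [← hx, ← QuotientGroup.mk_zpow, QuotientGroup.eq] at hk
    have h4 := Subgroup.mul_mem _ ((le_sup_right : Subgroup.zpowers (x : G) ≤ B.map A.subtype ⊔ _)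
      (Subgroup.zpow_mem _ (Subgroup.mem_zpowers _) k))
      ((le_sup_left : B.map A.subtype ≤ _ ⊔ Subgroup.zpowers (x : G)) ⟨_, hk, rfl⟩)
    simpa using h4
  · rw [← hr, Subgroup.relIndex, ← Subgroup.index_eq_card,
      Subgroup.subgroupOf, Subgroup.comap_map_eq_self_of_injective A.subtype_injective]

end Cfsg.Agent.S4245
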