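import Cfsg.Statements.S4249
import Cfsg.Agent.FGS2.Splitting
-- import your own Cfsg.Agent.* helpers here

set_option autoImplicit false
open Cfsg

namespace Cfsg.Agent.S4249

theorem fixed_of_norm {P M : Type*} [Group P] [Finite P] [CommGroup M] (c : P →* MulAut M) (p : ℕ)
    (hp : p.Prime) (T : Subgroup P) [T.Normal] (g : P) (hord : ∀ t ∈ T, (g * t) ^ p = 1)
    (hnorm : ∀ t ∈ T, ∀ m : M, ∏ i ∈ Finset.range p, c ((g * t) ^ i) m = 1) :
    ∀ s ∈ T, ∀ m : M, c s (m ^ Nat.card T) = m ^ Nat.card T := by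
  classical
  haveI := Fintype.ofFinite T
  intro s hs m
  let F : ℕ → M := fun i => ∏ t : T, c ((g * (t : P)) ^ i) m
  have hF0 : F 0 = m ^ Nat.card T := by simp [F, Nat.card_eq_fintype_card]
  have hsum : ∏ i ∈ Finset.range p, F i = 1 := by
    simp only [F]
    rw [Finset.prod_comm]
    exact Finset.prod_eq_one fun t _ => hnorm t t.2 m
  have hinv : ∀ i ∈ (Finset.range p).erase 0, c s (F i) = F i := by
    intro i hi
    simp only [Finset.mem_erase, Finset.mem_range] at hi
    have hmem : ∀ t : T, (g ^ i)⁻¹ * (g * (t : P)) ^ i ∈ T := by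
      intro t
      rw [← QuotientGroup.eq, QuotientGroup.mk_pow, QuotientGroup.mk_pow,
        QuotientGroup.mk_mul_of_mem g t.2]
    let σ : T → T := fun t => ⟨(g ^ i)⁻¹ * (g * (t : P)) ^ i, hmem t⟩
    have hσ : Function.Bijective σ := by
      rw [← Finite.injective_iff_bijective]
      intro a b hab
      have e : (g * (a : P)) ^ i = (g * (b : P)) ^ i := mul_left_cancel (congrArg Subtype.val hab)
      obtain ⟨j, hj⟩ := Nat.exists_mul_mod_eq_one_of_coprime
        ((hp.coprime_iff_not_dvd.mpr fun hd =>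
          absurd (Nat.le_of_dvd (Nat.pos_of_ne_zero hi.1) hd) (not_le.mpr hi.2)).symm) hp.one_lt
      have e2 := congrArg (· ^ j) e
      simp only [← pow_mul] at e2
      rw [pow_eq_pow_mod _ (hord a a.2), hj.2, pow_eq_pow_mod _ (hord b b.2), hj.2, pow_one,
        pow_one] at e2
      exact Subtype.ext (mul_left_cancel e2)
    have eF : F i = ∏ t : T, c (g ^ i * (t : P)) m :=
      Fintype.prod_bijective σ hσ _ _ fun t => by rw [mul_inv_cancel_left]
    rw [eF, map_prod]
    have hs' : (g ^ i)⁻¹ * s * g ^ i ∈ T := by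
      simpa using Subgroup.Normal.conj_mem inferInstance s hs (g ^ i)⁻¹
    refine Fintype.prod_equiv (Equiv.mulLeft (⟨_, hs'⟩ : T)) _ _ fun t => ?_
    rw [← MulAut.mul_apply, ← map_mul]
    simp only [Equiv.coe_mulLeft, Subgroup.coe_mul]
    congr 2
    group
  rw [← Finset.mul_prod_erase _ _ (Finset.mem_range.mpr hp.pos), hF0] at hsum
  rw [eq_inv_of_mul_eq_one_left hsum, map_inv, map_prod, Finset.prod_congr rfl hinv]

theorem coe_prod_conj {N : Type*} [Group N] {M : Subgroup N} [M.Normal] [IsMulCommutative M]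
    (y : N) (m : M) (k : ℕ) :
    letI : CommGroup M := { (inferInstance : Group M) with mul_comm := mul_comm' }
    ((∏ i ∈ Finset.range k, (MulAut.conjNormal (y ^ i) : MulAut M) m : M) : N) =
      ((m : N) * y) ^ k * (y ^ k)⁻¹ := by
  letI : CommGroup M := { (inferInstance : Group M) with mul_comm := mul_comm' }
  induction k with
  | zero => simp
  | succ k ih =>
    rw [Finset.prod_range_succ, Subgroup.coe_mul, ih, MulAut.conjNormal_apply, pow_succ _ k, pow_succ y k]
    group

theorem index_eq_prime {N : Type*} [Group N] [Finite N] {p q : ℕ} (hp : p.Prime) (hq : q.Prime)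
    (hqp : q ≠ p) (H : Subgroup N) [H.Normal] (hHt : H ≠ ⊤) (hout : ∀ y, y ∉ H → y ^ p = 1)
    (Q : Subgroup N) [Q.Normal] (hQ : IsPGroup q Q) (hQH : Q ≤ H) (hQne : Q ≠ ⊥) :
    H.index = p := by
  classical
  haveI := Fact.mk hp
  haveI := Fact.mk hq
  set M : Subgroup N := (Subgroup.center Q).map Q.subtype with hM
  haveI : IsMulCommutative M := by rw [hM]; infer_instance
  letI : CommGroup M := { (inferInstance : Group M) with mul_comm := mul_comm' }
  haveI : Nontrivial Q := (Subgroup.nontrivial_iff_ne_bot _).mpr hQne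
  obtain ⟨⟨z, hz⟩, hz1⟩ := @exists_ne _ hQ.center_nontrivial (1 : Subgroup.center Q)
  have hMQ : M ≤ Q := Subgroup.map_subtype_le _
  have hzM : (z : N) ∈ M := ⟨z, hz, rfl⟩
  have hMp : IsPGroup q M := hQ.to_le hMQ
  obtain ⟨a, ha⟩ := IsPGroup.iff_card.mp hMp
  have hGp : IsPGroup p (N ⧸ H) := by
    intro x
    induction x using QuotientGroup.induction_on with
    | H x =>
      refine ⟨1, ?_⟩
      rw [pow_one, ← QuotientGroup.mk_pow, QuotientGroup.eq_one_iff]
      by_cases hx : x ∈ H
      · exact H.pow_mem hx p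
      · rw [hout x hx]; exact H.one_mem
  obtain ⟨k, hk⟩ := IsPGroup.iff_card.mp hGp
  rw [← Subgroup.index_eq_card] at hk
  rcases k with _ | _ | k
  · exact absurd (Subgroup.index_eq_one.mp (by simpa using hk)) hHt
  · simpa using hk
  exfalso
  obtain ⟨P⟩ : Nonempty (Sylow p N) := inferInstance
  set f : (P : Subgroup N) →* N ⧸ H := (QuotientGroup.mk' H).comp (P : Subgroup N).subtype with hf
  have hfs : Function.Surjective f := by
    rw [← MonoidHom.range_eq_top, hf, MonoidHom.range_comp, Subgroup.range_subtype]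
    have h1 := (P.mapSurjective (QuotientGroup.mk'_surjective H)).is_maximal'
      (Q := ⊤) (hGp.of_equiv Subgroup.topEquiv.symm) le_top
    rw [Sylow.coe_mapSurjective] at h1
    exact h1.symm
  have hc2 : Nat.card (N ⧸ H) = p ^ (k + 2) := by rw [← Subgroup.index_eq_card]; exact hk
  obtain ⟨U, hU⟩ := Sylow.exists_subgroup_card_pow_prime (G := N ⧸ H) p (n := k + 1)
    (by rw [hc2]; exact pow_dvd_pow p (by omega))
  have hUi : U.index = p := by
    have := U.index_mul_card
    rw [hU, hc2, pow_succ' p (k + 1)] at this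
    exact Nat.eq_of_mul_eq_mul_right (pow_pos hp.pos _) this
  have hUb : U ≠ ⊥ := by
    intro e
    rw [e, Subgroup.card_bot] at hU
    exact (one_lt_pow₀ hp.one_lt (Nat.succ_ne_zero k)).ne hU
  obtain ⟨u, hu, hu1⟩ := U.bot_or_exists_ne_one.resolve_left hUb
  obtain ⟨t, ht⟩ := hfs u
  obtain ⟨v, hv⟩ := SetLike.exists_not_mem_of_ne_top U (fun e => hp.ne_one (by rw [← hUi, e, Subgroup.index_top]))
  obtain ⟨g, hg⟩ := hfs v
  set T : Subgroup (P : Subgroup N) := U.comap f with hT
  haveI : T.Normal := by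
    haveI : U.Normal := Subgroup.normal_of_index_eq_minFac_card (by
      rw [hUi, hc2, Nat.pow_minFac (by omega), hp.minFac_eq])
    exact Subgroup.Normal.comap inferInstance f
  have houtH : ∀ y : (P : Subgroup N), f y ≠ 1 → (y : N) ∉ H := fun y hy hyH =>
    hy ((QuotientGroup.eq_one_iff (y : N)).mpr hyH)
  let c : (P : Subgroup N) →* MulAut M := MulAut.conjNormal.comp (P : Subgroup N).subtype
  have hnormH : ∀ y : (P : Subgroup N), (y : N) ∉ H → ∀ m : M,
      ∏ i ∈ Finset.range p, c (y ^ i) m = 1 := by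
    intro y hy m
    have e : ∀ i ∈ Finset.range p, c (y ^ i) m = MulAut.conjNormal ((y : N) ^ i) m := fun i _ => by
      simp [c]
    rw [Finset.prod_congr rfl e]
    apply Subtype.ext
    rw [coe_prod_conj, hout _ hy, hout _ (fun h => hy ?_)]
    · simp
    · simpa using H.mul_mem (H.inv_mem (hQH (hMQ m.2))) h
  have hgT : ∀ s ∈ T, f (g * s) ≠ 1 := fun s hs e => by
    rw [map_mul, hg] at e
    exact hv (eq_inv_of_mul_eq_one_left e ▸ U.inv_mem hs)
  have hfix := fixed_of_norm c p hp T g
    (fun s hs => Subtype.ext (by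
      rw [SubmonoidClass.coe_pow, hout _ (houtH _ (hgT s hs))]; rfl))
    (fun s hs => hnormH _ (houtH _ (hgT s hs)))
  obtain ⟨b, hb⟩ := IsPGroup.iff_card.mp (P.isPGroup'.to_subgroup T)
  have hcop : (Nat.card M).Coprime (Nat.card T) := by
    rw [ha, hb]; exact Nat.coprime_pow_primes a b hq hp hqp
  have htT : t ∈ T := show f t ∈ U from ht ▸ hu
  have htH : (t : N) ∉ H := houtH t (ht ▸ hu1)
  set m : M := ⟨(z : N), hzM⟩ with hm
  have h1 : c t m = m := by
    have := hfix t htT ((powCoprime hcop).symm m)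
    rwa [← powCoprime_apply hcop, Equiv.apply_symm_apply] at this
  have h2 : ∀ i, c (t ^ i) m = m := by
    intro i
    induction i with
    | zero => simp
    | succ i ih => rw [pow_succ, map_mul, MulAut.mul_apply, h1, ih]
  have h3 := hnormH t htH m
  rw [Finset.prod_congr rfl (fun i _ => h2 i), Finset.prod_const, Finset.card_range] at h3
  have h4 : orderOf m = 1 := Nat.eq_one_of_dvd_coprimes
    ((Nat.coprime_primes hq hp).mpr hqp |>.pow_left a) (ha ▸ orderOf_dvd_natCard m)
    (orderOf_dvd_of_pow_eq_one h3)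
  have h5 : (z : N) = 1 := congrArg Subtype.val (orderOf_eq_one_iff.mp h4)
  exact hz1 (Subtype.ext (Subtype.ext h5))


/-- Let G be a finite group and p a prime such that G is not a p-group, and suppose the Hughes subgroup H_p(G), generated by all elements g with g^p ≠ 1, is a proper subgroup. Then H_p(G) is nilpotent and has index p in G. -/
theorem result {G : Type*} [Group G] [Finite G] (p : ℕ) (hp : p.Prime) (hG : ¬ IsPGroup p G)
    (hH : Subgroup.closure {g : G | g ^ p ≠ 1} ≠ ⊤) :
    Group.IsNilpotent (Subgroup.closure {g : G | g ^ p ≠ 1}) ∧ (Subgroup.closure {g : G | g ^ p ≠ 1}).index = p := by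
  classical
  haveI := Fact.mk hp
  set H := Subgroup.closure {g : G | g ^ p ≠ 1} with hHd
  have hout : ∀ y : G, y ∉ H → y ^ p = 1 := fun y hy => by
    by_contra h
    exact hy (Subgroup.subset_closure h)
  haveI hHn : H.Normal := by
    refine ⟨fun n hn g => ?_⟩
    induction hn using Subgroup.closure_induction with
    | mem y hy => exact Subgroup.subset_closure (by simpa [conj_pow] using hy)
    | one => simpa using H.one_mem
    | mul y z _ _ h1 h2 => simpa [mul_assoc] using H.mul_mem h1 h2
    | inv y _ h1 => simpa [mul_assoc] using H.inv_mem h1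
  obtain ⟨x, hx⟩ := SetLike.exists_not_mem_of_ne_top H hH
  obtain ⟨q, hq, hqd, hqp⟩ : ∃ q, q.Prime ∧ q ∣ Nat.card G ∧ q ≠ p := by
    by_contra hcon
    push Not at hcon
    exact hG (IsPGroup.iff_card.mpr ⟨_, Nat.eq_prime_pow_of_unique_prime_dvd Nat.card_pos.ne'
      (fun {q} hq hd => hcon q hq hd)⟩)
  haveI := Fact.mk hq
  obtain ⟨e, he⟩ := exists_prime_orderOf_dvd_card' (G := G) q hqd
  have heH : e ∈ H := by
    refine Subgroup.subset_closure ?_
    intro h1
    have := orderOf_dvd_of_pow_eq_one h1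
    rw [he] at this
    exact hqp ((Nat.prime_dvd_prime_iff_eq hq hp).mp this)
  have hqH : q ∣ Nat.card H := by
    rw [← he, ← Subgroup.orderOf_mk e heH]; exact orderOf_dvd_natCard _
  constructor
  · let φ : MulAut H := MulAut.conjNormal x
    refine Cfsg.Agent.FGS2.Splitting.isNilpotent_of_split (p := p) (φ := φ) ⟨?_, fun h => ?_⟩
    · rw [← map_pow, hout x hx, map_one]
    · apply Subtype.ext
      have key : ∀ k, ((Cfsg.Agent.FGS2.Splitting.tw φ h k : H) : G) =
          ((h : G) * x) ^ k * (x ^ k)⁻¹ := by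
        intro k
        induction k with
        | zero => simp [Cfsg.Agent.FGS2.Splitting.tw]
        | succ k ih =>
          rw [Cfsg.Agent.FGS2.Splitting.tw, Subgroup.coe_mul, ih, ← map_pow,
            MulAut.conjNormal_apply, pow_succ _ k, pow_succ x k]
          group
      rw [key, hout x hx, hout _ (fun h' => hx ?_)]
      · simp
      · simpa using H.mul_mem (H.inv_mem h.2) h'
  · obtain ⟨Q⟩ : Nonempty (Sylow q H) := inferInstance
    set Q' : Subgroup G := (Q : Subgroup H).map H.subtype with hQ'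
    set N := Subgroup.normalizer (Q' : Set G) with hN
    have hsup : N ⊔ H = ⊤ := Sylow.normalizer_sup_eq_top Q
    have hQN : Q' ≤ N := Subgroup.le_normalizer
    have hQH : Q' ≤ H := Subgroup.map_subtype_le _
    have hidx : (H.subgroupOf N).index = H.index := by
      rw [← Subgroup.relIndex, ← Subgroup.relIndex_sup_right (H := N) (K := H), hsup,
        Subgroup.relIndex_top_right]
    rw [← hidx]
    haveI : (Q'.subgroupOf N).Normal := Subgroup.normal_in_normalizer
    refine index_eq_prime hp hq hqp _ ?_ ?_ (Q'.subgroupOf N) ?_ (fun y hy => hQH hy) ?_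
    · intro e
      rw [e, Subgroup.index_top] at hidx
      exact hH (Subgroup.index_eq_one.mp hidx.symm)
    · intro y hy
      exact Subtype.ext (by simpa using hout y hy)
    · exact (Q.isPGroup'.map H.subtype).of_equiv (Subgroup.subgroupOfEquivOfLe hQN).symm
    · intro e
      have h1 : Q' ≤ ⊥ := by
        intro y hy
        have : (⟨y, hQN hy⟩ : N) ∈ Q'.subgroupOf N := hy
        rw [e, Subgroup.mem_bot] at this
        exact Subgroup.mem_bot.mpr (congrArg Subtype.val this)
      refine Q.ne_bot_of_dvd_card hqH ?_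
      exact (Subgroup.map_eq_bot_iff_of_injective _ H.subtype_injective).mp (le_bot_iff.mp h1)

end Cfsg.Agent.S4249
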