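import Cfsg.Statements.S4261
import Cfsg.Agent.Core.MinimalNormal

set_option autoImplicit false
open Cfsg

namespace Cfsg.Agent.S4261

universe u

lemma index_prime_pow (G : Type u) [Group G] [Finite G] (hG : Group.IsSolvable G)
    (M : Subgroup G) (hM : IsCoatom M) : ∃ q k : ℕ, q.Prime ∧ M.index = q ^ k := by
  generalize hn : Nat.card G = n
  induction n using Nat.strong_induction_on generalizing G with
  | _ n ih =>
    have : Nontrivial G := by
      rw [← not_subsingleton_iff_nontrivial]
      intro h
      exact hM.1 (Subsingleton.elim _ _)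
    obtain ⟨N, hN⟩ := Core.exists_isMinNormal (G := G)
    have := hN.1
    by_cases hNM : N ≤ M
    · have hker : (QuotientGroup.mk' N).ker ≤ M := by rwa [QuotientGroup.ker_mk']
      have hmax : IsCoatom (M.map (QuotientGroup.mk' N)) := by
        constructor
        · intro h
          apply hM.1
          rw [← Subgroup.comap_map_eq_self hker, h, Subgroup.comap_top]
        · intro K hK
          have h1 : M < K.comap (QuotientGroup.mk' N) := by
            rw [← Subgroup.comap_map_eq_self hker]
            exact (Subgroup.comap_lt_comap_of_surjective (QuotientGroup.mk'_surjective _)).mpr hK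
          rw [← Subgroup.map_comap_eq_self_of_surjective (QuotientGroup.mk'_surjective N) K,
            hM.2 _ h1, Subgroup.map_top_of_surjective _ (QuotientGroup.mk'_surjective _)]
      have hlt : Nat.card (G ⧸ N) < n := by
        rw [← hn, ← Subgroup.index, ← Subgroup.index_mul_card N]
        exact lt_mul_of_one_lt_right (Nat.pos_of_ne_zero Subgroup.index_ne_zero_of_finite)
          ((Subgroup.one_lt_card_iff_ne_bot N).mpr hN.2.1)
      obtain ⟨q, k, hq, hk⟩ := ih _ hlt (G ⧸ N) inferInstance _ hmax rfl
      exact ⟨q, k, hq, by rw [← hk, Subgroup.index_map_eq _ (QuotientGroup.mk'_surjective N) hker]⟩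
    · have htop : M ⊔ N = ⊤ := hM.2 _ (left_lt_sup.mpr hNM)
      obtain ⟨-, q, hq, -, hqg⟩ := hN.elementaryAbelian_of_isSolvable
      have := Fact.mk hq
      obtain ⟨a, ha⟩ := hqg.exists_card_eq
      have hidx : M.index = M.relIndex N := by
        have h1 := Subgroup.relIndex_mul_relIndex ⊥ (M ⊓ N) N bot_le inf_le_right
        have h2 := Subgroup.relIndex_mul_relIndex ⊥ (M ⊓ N) M bot_le inf_le_left
        have h3 := Subgroup.relIndex_mul_relIndex ⊥ N (M ⊔ N) bot_le le_sup_right
        rw [Subgroup.relIndex_bot_left, Subgroup.relIndex_bot_left, Subgroup.inf_relIndex_right] at h1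
        rw [Subgroup.relIndex_bot_left, Subgroup.relIndex_bot_left, Subgroup.inf_relIndex_left] at h2
        rw [Subgroup.relIndex_bot_left, Subgroup.relIndex_bot_left, Subgroup.relIndex_sup_right, htop,
          Subgroup.card_top] at h3
        apply mul_left_cancel₀ (Nat.card_pos (α := M)).ne'
        rw [Subgroup.card_mul_index, ← h3, ← h2, ← h1]
        ring
      obtain ⟨b, -, hb⟩ := (Nat.dvd_prime_pow hq).mp (ha ▸ Subgroup.relIndex_dvd_card M N)
      exact ⟨q, b, hq, hidx.trans hb⟩

/-- Let M be a maximal subgroup of a finite solvable group G such that x^[G : M] lies in M for every x in G. Then M is normal in G. -/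
theorem result {G : Type*} [Group G] [Finite G] (hG : Group.IsSolvable G) (M : Subgroup G) (hM : IsCoatom M)
    (hexp : ∀ x : G, x ^ M.index ∈ M) : M.Normal := by
  obtain ⟨q, k, hq, hk⟩ := index_prime_pow G hG M hM
  by_contra hMn
  -- every element of order prime to q lies in the core
  have := Fact.mk hq
  have hmem : ∀ x : G, ¬ q ∣ orderOf x → x ∈ M.normalCore := by
    intro x hx g
    have hco : (M.index).Coprime (orderOf (g * x * g⁻¹)) := by
      rw [hk, ← MulAut.conj_apply, MulEquiv.orderOf_eq]
      exact (hq.coprime_iff_not_dvd.mpr hx).pow_left k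
    obtain ⟨b, hb⟩ := exists_pow_eq_self_of_coprime hco
    exact hb ▸ M.pow_mem (hexp _) b
  have hpg : IsPGroup q (G ⧸ M.normalCore) := by
    intro y
    induction y using QuotientGroup.induction_on with
    | H x =>
      obtain ⟨a, m, hm, hn⟩ := Nat.exists_eq_pow_mul_and_not_dvd (orderOf_pos x).ne' q hq.ne_one
      refine ⟨a, ?_⟩
      rw [← QuotientGroup.mk_pow, QuotientGroup.eq_one_iff]
      refine hmem _ fun hd => hm (hd.trans ?_)
      refine orderOf_dvd_of_pow_eq_one ?_
      rw [← pow_mul, ← hn, pow_orderOf_eq_one]
  have := hpg.isNilpotent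
  have hcore : M.normalCore ≤ M := Subgroup.normalCore_le M
  have hker : (QuotientGroup.mk' M.normalCore).ker ≤ M := by rwa [QuotientGroup.ker_mk']
  have hmax : IsCoatom (M.map (QuotientGroup.mk' M.normalCore)) := by
    constructor
    · intro h
      apply hM.1
      rw [← Subgroup.comap_map_eq_self hker, h, Subgroup.comap_top]
    · intro K hK
      have h1 : M < K.comap (QuotientGroup.mk' M.normalCore) := by
        have h2 := (Subgroup.comap_lt_comap_of_surjective
          (QuotientGroup.mk'_surjective M.normalCore)).mpr hK
        rwa [Subgroup.comap_map_eq_self hker] at h2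
      rw [← Subgroup.map_comap_eq_self_of_surjective (QuotientGroup.mk'_surjective M.normalCore) K,
        hM.2 _ h1, Subgroup.map_top_of_surjective _ (QuotientGroup.mk'_surjective _)]
  have hn := Subgroup.NormalizerCondition.normal_of_coatom _ Group.normalizerCondition_of_isNilpotent hmax
  exact hMn (Subgroup.comap_map_eq_self hker ▸ hn.comap _)

end Cfsg.Agent.S4261
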