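import Cfsg.Statements.S4262
import Cfsg.Agent.Coprime.Action

set_option autoImplicit false
open Cfsg

namespace Cfsg.Agent.S4262

open Subgroup

variable {G : Type*} [Group G] [Finite G]

/-- Every element of `M` has a `p`-power in the centre of `G`. -/
def PType (p : ℕ) (M : Subgroup G) : Prop := ∀ m ∈ M, ∃ k : ℕ, m ^ p ^ k ∈ center G

/-- A non-central element has a non-central power of prime power order. -/
theorem exists_primary {H : Type*} [Group H] [Finite H] (Z : Subgroup H) {x : H}
    (hx : x ∉ Z) : ∃ k p a : ℕ, p.Prime ∧ orderOf (x ^ k) = p ^ a ∧ x ^ k ∉ Z := by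
  induction hn : orderOf x using Nat.strong_induction_on generalizing x with
  | _ n ih =>
    have hpos : 0 < n := hn ▸ orderOf_pos x
    have h1 : n ≠ 1 := fun h => hx (by rw [orderOf_eq_one_iff.mp (hn.trans h)]; exact one_mem Z)
    obtain ⟨p, hp, hpn⟩ := Nat.exists_prime_and_dvd h1
    set a := n.factorization p
    set m := n / p ^ a
    have ha : 0 < a := hp.factorization_pos_of_dvd hpos.ne' hpn
    have hmul : p ^ a * m = n := Nat.ordProj_mul_ordCompl_eq_self n p
    by_cases hm : x ^ m ∈ Z
    · have hxp : x ^ p ^ a ∉ Z := fun hpa => hx (by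
        obtain ⟨u, v, huv⟩ := Nat.isCoprime_iff_coprime.mpr
          ((Nat.coprime_ordCompl hp hpos.ne').pow_left a)
        rw [← zpow_one x, ← huv, zpow_add, mul_comm u, mul_comm v, zpow_mul, zpow_mul,
          zpow_natCast, zpow_natCast]
        exact mul_mem (zpow_mem hpa u) (zpow_mem hm v))
      have hlt : orderOf (x ^ p ^ a) < n := by
        have h0 : p ^ a ≠ 0 := pow_ne_zero _ hp.ne_zero
        rw [orderOf_pow' x h0, hn, Nat.gcd_eq_right ⟨m, hmul.symm⟩]
        exact Nat.div_lt_self hpos (Nat.one_lt_pow ha.ne' hp.one_lt)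
      obtain ⟨k, q, b, hq, hord, hk⟩ := ih _ hlt hxp rfl
      rw [← pow_mul] at hord hk
      exact ⟨_, q, b, hq, hord, hk⟩
    · refine ⟨m, p, a, hp, ?_, hm⟩
      have h0 : m ≠ 0 := fun h => hpos.ne' (by rw [← hmul, h, mul_zero])
      rw [orderOf_pow' x h0, hn, Nat.gcd_eq_right ⟨p ^ a, by rw [mul_comm]; exact hmul.symm⟩]
      exact Nat.div_eq_of_eq_mul_left (Nat.pos_of_ne_zero h0) hmul.symm

theorem not_dvd_index_of_normalizer_le {M : Subgroup G} {r : ℕ} [hr : Fact r.Prime] (S : Sylow r M)
    (hN : Subgroup.normalizer (((S : Subgroup M).map M.subtype : Subgroup G) : Set G) ≤ M) :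
    ¬ r ∣ M.index := by
  set R₀ := (S : Subgroup M).map M.subtype with hR₀
  obtain ⟨R, hR⟩ := (S.2.map M.subtype).exists_le_sylow
  have hRM : (R : Subgroup G).subgroupOf M = S :=
    S.is_maximal' R.2.comap_subtype fun x hx => hR ⟨x, hx, rfl⟩
  have heq : R₀ = R := by
    refine le_antisymm hR (by_contra fun hne => ?_)
    haveI := R.2.isNilpotent
    have hlt : R₀.subgroupOf (R : Subgroup G) < ⊤ :=
      lt_top_iff_ne_top.mpr fun e => hne (subgroupOf_eq_top.mp e)
    obtain ⟨⟨y, hyR⟩, hyn, hy⟩ :=
      SetLike.exists_of_lt (Group.normalizerCondition_of_isNilpotent _ hlt)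
    have hyN : y ∈ Subgroup.normalizer (R₀ : Set G) := by
      refine Coprime.mem_normalizer_of_conj_mem fun z hz => ?_
      exact (Subgroup.mem_normalizer_iff.mp hyn ⟨z, hR hz⟩).mp hz
    apply hy
    have : (⟨y, hN hyN⟩ : M) ∈ (R : Subgroup G).subgroupOf M := hyR
    rw [hRM] at this
    exact ⟨_, this, rfl⟩
  intro hd
  apply R.not_dvd_index
  rw [← heq, hR₀, index_map_subtype]
  exact dvd_mul_of_dvd_right hd _

section

variable (hmax : ∀ g : G, g ∉ center G → IsCoatom (Subgroup.centralizer ({g} : Set G)))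

local notation "C(" x ")" => Subgroup.centralizer ({x} : Set _)

omit [Finite G] in
theorem center_le_C (x : G) : center G ≤ C(x) := fun z hz => by
  rw [Subgroup.mem_centralizer_singleton_iff]
  exact (Subgroup.mem_center_iff.mp hz x).symm

omit [Finite G] in
theorem self_mem_C (x : G) : x ∈ C(x) := Subgroup.mem_centralizer_singleton_iff.mpr rfl

omit [Finite G] in
theorem C_le_C_pow (x : G) (k : ℕ) : C(x) ≤ C(x ^ k) := fun y hy => by
  rw [Subgroup.mem_centralizer_singleton_iff] at hy ⊢
  exact ((show Commute x y from hy.symm).pow_left k).eq.symm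

include hmax

omit [Finite G] in
theorem C_eq {x y : G} (hx : x ∉ center G) (hy : y ∉ center G) (hle : C(x) ≤ C(y)) :
    C(y) = C(x) :=
  ((hmax x hx).le_iff.mp hle).resolve_left (hmax y hy).1

theorem C_eq_of_coprime {x y : G} (hx : x ∉ center G) (hy : y ∉ center G) (hxy : x * y = y * x)
    (hc : (orderOf x).Coprime (orderOf y)) : C(y) = C(x) := by
  have hcm : Commute x y := hxy
  obtain ⟨j, hj⟩ := exists_pow_eq_self_of_coprime hc.symm
  obtain ⟨i, hi⟩ := exists_pow_eq_self_of_coprime hc
  have h1 : ((x * y) ^ orderOf y) ^ j = x := by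
    rw [hcm.mul_pow, pow_orderOf_eq_one, mul_one]; exact hj
  have h2 : ((x * y) ^ orderOf x) ^ i = y := by
    rw [hcm.mul_pow, pow_orderOf_eq_one, one_mul]; exact hi
  rw [← pow_mul] at h1 h2
  have hnc : x * y ∉ center G := fun h => hx (h1 ▸ pow_mem h _)
  have e1 := C_eq hmax hnc hx ((C_le_C_pow (x * y) _).trans (le_of_eq (congrArg (fun t => C(t)) h1)))
  have e2 := C_eq hmax hnc hy ((C_le_C_pow (x * y) _).trans (le_of_eq (congrArg (fun t => C(t)) h2)))
  rw [e1, e2]

/-- A centralizer is abelian or a `p`-group modulo the centre of `G`. -/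
theorem cases_C {x : G} (hx : x ∉ center G) :
    IsMulCommutative C(x) ∨ ∃ p : ℕ, p.Prime ∧ PType p C(x) := by
  obtain ⟨k, p, a, hp, hord, hk⟩ := exists_primary (center G) hx
  have hM := C_eq hmax hx hk (C_le_C_pow x k)
  set M := C(x) with hMdef
  set w := x ^ k
  by_cases hA : ∀ m ∈ M, (orderOf m).Coprime p → m ∈ center G
  · refine Or.inr ⟨p, hp, fun m hm => ?_⟩
    set n := orderOf m with hn
    have hpos : 0 < n := orderOf_pos m
    refine ⟨n.factorization p, hA _ (pow_mem hm _) ?_⟩
    have h0 : p ^ n.factorization p ≠ 0 := pow_ne_zero _ hp.ne_zero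
    rw [orderOf_pow' m h0, ← hn, Nat.gcd_eq_right (Nat.ordProj_dvd n p)]
    exact (Nat.coprime_ordCompl hp hpos.ne').symm
  · push Not at hA
    obtain ⟨m, hm, hmp, hmZ⟩ := hA
    have hmw : C(m) = M := by
      have hcomm : w * m = m * w :=
        (Subgroup.mem_centralizer_singleton_iff.mp (hM.symm ▸ hm : m ∈ C(w))).symm
      rw [C_eq_of_coprime hmax hk hmZ hcomm (hord ▸ hmp.symm.pow_left a), hM]
    refine Or.inl ⟨⟨fun u v => ?_⟩⟩
    have hall : ∀ y : M, y ∈ center M := by
      by_contra hcon
      push Not at hcon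
      obtain ⟨y, hy⟩ := hcon
      obtain ⟨j, q, b, hq, hyo, hyc⟩ := exists_primary (center M) hy
      set z := ((y ^ j : M) : G) with hz
      apply hyc
      rw [Subgroup.mem_center_iff]
      intro g
      apply Subtype.ext
      change (g : G) * z = z * g
      by_cases hzZ : z ∈ center G
      · exact Subgroup.mem_center_iff.mp hzZ g
      have hzM : z ∈ M := (y ^ j).2
      have hzo : orderOf z = q ^ b := by rw [hz, Subgroup.orderOf_coe, hyo]
      have hzC : C(z) = M := by
        by_cases hqp : q = p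
        · rw [C_eq_of_coprime hmax hmZ hzZ
            (Subgroup.mem_centralizer_singleton_iff.mp (hmw.symm ▸ hzM : z ∈ C(m))).symm
            (by rw [hzo, hqp]; exact hmp.pow_right b), hmw]
        · rw [C_eq_of_coprime hmax hk hzZ
            (Subgroup.mem_centralizer_singleton_iff.mp (hM.symm ▸ hzM : z ∈ C(w))).symm
            (by rw [hzo, hord]; exact ((Nat.coprime_primes hp hq).mpr (Ne.symm hqp)).pow a b), hM]
      exact Subgroup.mem_centralizer_singleton_iff.mp (hzC.symm ▸ g.2 : (g : G) ∈ C(z))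
    exact ((Subgroup.mem_center_iff.mp (hall u)) v).symm

theorem isSolvable_C {x : G} (hx : x ∉ center G) : Group.IsSolvable C(x) := by
  rcases cases_C hmax hx with h | ⟨p, hp, h⟩
  · exact isSolvable_of_comm fun a b => h.1.1 a b
  · haveI := Fact.mk hp
    set M := C(x)
    let f : M →* G ⧸ center G := (QuotientGroup.mk' (center G)).comp M.subtype
    have hr : IsPGroup p f.range := by
      rintro ⟨_, m, rfl⟩
      obtain ⟨k, hk⟩ := h m m.2
      refine ⟨k, Subtype.ext ?_⟩
      change (f m) ^ p ^ k = 1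
      rw [← map_pow]
      exact (QuotientGroup.eq_one_iff _).mpr hk
    haveI := hr.isNilpotent
    haveI : Group.IsSolvable f.ker := isSolvable_of_comm fun a b => Subtype.ext (Subtype.ext
      ((Subgroup.mem_center_iff.mp ((QuotientGroup.eq_one_iff _).mp a.2) b.1.1).symm))
    exact solvable_of_ker_le_range f.ker.subtype f.rangeRestrict
      (by rw [f.ker_rangeRestrict, Subgroup.range_subtype])

variable (hns : ¬ Group.IsSolvable G)

include hns

theorem normalizer_C {x : G} (hx : x ∉ center G) :
    Subgroup.normalizer ((C(x) : Subgroup G) : Set G) = C(x) := by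
  refine ((hmax x hx).le_iff.mp Subgroup.le_normalizer).resolve_left fun htop => hns ?_
  haveI := Subgroup.normalizer_eq_top_iff.mp htop
  haveI := isSolvable_C hmax hx
  set M := C(x)
  obtain ⟨g, -, hg⟩ := SetLike.exists_of_lt (hmax x hx).lt_top
  haveI : IsCyclic (G ⧸ M) := by
    refine ⟨⟨QuotientGroup.mk' M g, fun q => ?_⟩⟩
    obtain ⟨y, rfl⟩ := QuotientGroup.mk'_surjective M q
    have hsup : M ⊔ zpowers g = ⊤ := (hmax x hx).2 _
      (lt_of_le_of_ne le_sup_left fun e => hg (e ▸ le_sup_right (a := M) (mem_zpowers g)))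
    have : QuotientGroup.mk' M y ∈ (M ⊔ zpowers g).map (QuotientGroup.mk' M) :=
      ⟨y, hsup ▸ mem_top y, rfl⟩
    rwa [Subgroup.map_sup, QuotientGroup.map_mk'_self, bot_sup_eq, MonoidHom.map_zpowers] at this
  letI : CommGroup (G ⧸ M) := IsCyclic.commGroup
  haveI : Group.IsSolvable (G ⧸ M) := inferInstance
  exact solvable_of_ker_le_range M.subtype (QuotientGroup.mk' M)
    (by rw [QuotientGroup.ker_mk', Subgroup.range_subtype])

theorem not_comm_C {x : G} (hx : x ∉ center G) : ¬ IsMulCommutative C(x) := by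
  intro hcomm
  haveI := hcomm
  set M := C(x) with hMdef
  have hZM : center G ≤ M := center_le_C x
  have hCM : ∀ m ∈ M, m ∉ center G → C(m) = M := fun m hm hmZ =>
    C_eq hmax hx hmZ fun y hy => by
      rw [Subgroup.mem_centralizer_singleton_iff]
      exact congrArg Subtype.val (hcomm.1.1 ⟨y, hy⟩ ⟨m, hm⟩)
  have hfus : ∀ m ∈ M, m ∉ center G → ∀ g : G, g⁻¹ * m * g ∈ M → g ∈ M := by
    intro m hm hmZ g hg
    have hgZ : g⁻¹ * m * g ∉ center G := fun h => hmZ (by
      simpa [mul_assoc] using (inferInstance : (center G).Normal).conj_mem _ h g)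
    have e2 := hCM _ hg hgZ
    rw [hMdef, ← normalizer_C hmax hns hx]
    refine Coprime.mem_normalizer_of_conj_mem fun y hy => ?_
    have : y ∈ C(g⁻¹ * m * g) := e2.symm ▸ hy
    rw [← hMdef, ← hCM m hm hmZ, Subgroup.mem_centralizer_singleton_iff]
    rw [Subgroup.mem_centralizer_singleton_iff] at this
    calc g * y * g⁻¹ * m = g * (y * (g⁻¹ * m * g)) * g⁻¹ := by group
      _ = g * (g⁻¹ * m * g * y) * g⁻¹ := by rw [this]
      _ = m * (g * y * g⁻¹) := by group
  set n := M.index with hn
  have hcop : (center G).relIndex M |>.Coprime n := by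
    refine Nat.coprime_of_dvd fun r hr hr1 hr2 => ?_
    haveI := Fact.mk hr
    obtain ⟨S⟩ := (inferInstance : Nonempty (Sylow r M))
    refine not_dvd_index_of_normalizer_le S (fun y hy => ?_) hr2
    have hS : ¬ (S : Subgroup M) ≤ (center G).subgroupOf M := fun hle =>
      S.not_dvd_index (hr1.trans (index_dvd_of_le hle))
    obtain ⟨m, hmS, hmZ⟩ := SetLike.not_le_iff_exists.mp hS
    obtain ⟨m', hm'S, hm'⟩ := (Subgroup.mem_normalizer_iff.mp (inv_mem hy) m).mp ⟨m, hmS, rfl⟩
    refine hfus m m.2 hmZ y ?_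
    have h := m'.2
    rw [show ((m' : M) : G) = y⁻¹ * m * y⁻¹⁻¹ from hm', inv_inv] at h
    exact h
  letI : CommGroup M := { M.toGroup with mul_comm := hcomm.1.1 }
  let ψ : G →* M := MonoidHom.transfer (MonoidHom.id M)
  have hψ : ∀ m ∈ M, (ψ m : G) = m ^ n := by
    intro m hm
    rw [MonoidHom.transfer_eq_pow _ m fun k g hk => ?_]
    · rfl
    · by_cases hZ : m ^ k ∈ center G
      · rw [mul_assoc, ← Subgroup.mem_center_iff.mp hZ g, ← mul_assoc, inv_mul_cancel, one_mul]
      · have hg := hfus _ (pow_mem hm k) hZ g hk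
        have : g * m ^ k = m ^ k * g :=
          congrArg Subtype.val (hcomm.1.1 ⟨g, hg⟩ ⟨_, pow_mem hm k⟩)
        rw [mul_assoc, ← this, ← mul_assoc, inv_mul_cancel, one_mul]
  set K := ψ.ker with hK
  have hKM : ∀ m ∈ K, m ∈ M → m ∈ center G := by
    intro m hmK hm
    have h1 : m ^ n = 1 := by
      rw [← hψ m hm]; exact congrArg Subtype.val (MonoidHom.mem_ker.mp hmK)
    haveI : ((center G).subgroupOf M).Normal := inferInstance
    have h2 : m ^ (center G).relIndex M ∈ center G :=
      ((center G).subgroupOf M).pow_index_mem ⟨m, hm⟩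
    obtain ⟨u, v, huv⟩ := Nat.isCoprime_iff_coprime.mpr hcop
    rw [← zpow_one m, ← huv, zpow_add, mul_comm u, mul_comm v, zpow_mul, zpow_mul, zpow_natCast,
      zpow_natCast, h1, one_zpow, mul_one]
    exact zpow_mem h2 u
  set π := QuotientGroup.mk' (center G) with hπ
  set Mb := M.map π with hMb
  set Kb := K.map π with hKb
  haveI : Kb.Normal := (inferInstance : K.Normal).map _ (QuotientGroup.mk'_surjective _)
  have hcomap : Mb.comap π = M := by
    rw [hMb, comap_map_eq, hπ, QuotientGroup.ker_mk', sup_eq_left]; exact hZM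
  by_cases hKle : K ≤ M
  · apply hns
    haveI : Group.IsSolvable K := isSolvable_of_comm fun a b => Subtype.ext
      (Subgroup.mem_center_iff.mp (hKM _ b.2 (hKle b.2)) a.1)
    haveI : Group.IsSolvable M := isSolvable_of_comm fun a b => hcomm.1.1 a b
    exact solvable_of_ker_le_range K.subtype ψ (by rw [Subgroup.range_subtype])
  have hsup : M ⊔ K = ⊤ := (hmax x hx).2 _
    (lt_of_le_of_ne le_sup_left fun e => hKle (le_sup_right.trans e.ge))
  have hsupb : Mb ⊔ Kb = ⊤ := by
    rw [hMb, hKb, ← Subgroup.map_sup, hsup]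
    exact map_top_of_surjective _ (QuotientGroup.mk'_surjective _)
  have hinf : Mb ⊓ Kb = ⊥ := by
    rw [eq_bot_iff]
    rintro _ ⟨hy, k, hk, rfl⟩
    rw [mem_bot]
    exact (QuotientGroup.eq_one_iff _).mpr (hKM k hk (hcomap ▸ (show k ∈ Mb.comap π from hy)))
  have hMK : Mb ≤ Subgroup.normalizer (Kb : Set (G ⧸ center G)) := by
    rw [normalizer_eq_top]; exact le_top
  have hcardH := Coprime.card_sup hMK (by rw [inf_comm]; exact hinf)
  rw [sup_comm, hsupb, Subgroup.card_top] at hcardH
  have hidx : Mb.index = n := by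
    rw [hn, ← hcomap, index_comap_of_surjective _ (QuotientGroup.mk'_surjective _)]
  have hKcard : Nat.card Kb = n := by
    have h := card_mul_index Mb
    rw [hcardH, hidx, mul_comm (Nat.card Mb) n] at h
    exact (Nat.eq_of_mul_eq_mul_right Nat.card_pos h).symm
  have hMcard : Nat.card Mb = (center G).relIndex M := by
    rw [hMb, ← relIndex_ker, hπ, QuotientGroup.ker_mk']
  haveI : Group.IsSolvable Mb := by
    haveI : Group.IsSolvable M := isSolvable_of_comm fun a b => hcomm.1.1 a b
    exact solvable_of_surjective (π.subgroupMap_surjective M)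
  have hcop' : (Nat.card Mb).Coprime (Nat.card Kb) := by rw [hMcard, hKcard]; exact hcop
  have hn1 : n ≠ 1 := fun e => (hmax x hx).1 (index_eq_one.mp e)
  set q := n.minFac with hq
  haveI : Fact q.Prime := ⟨Nat.minFac_prime hn1⟩
  obtain ⟨Q, hQK, hQ, hQi, hMQ⟩ := Coprime.exists_invariant_sylow hMK hcop' q
  have hQ0 : Q ≠ ⊥ := fun e => hQi (by
    rw [e, relIndex_bot_left, hKcard]; exact Nat.minFac_dvd n)
  have htop : Mb ⊔ Q = ⊤ := by
    have h1 : (Mb ⊔ Q).comap π = ⊤ := (hmax x hx).2 _ (lt_of_le_of_ne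
      (hcomap.ge.trans (comap_mono le_sup_left)) fun e => hQ0 ?_)
    · rw [← map_comap_eq_self_of_surjective (QuotientGroup.mk'_surjective (center G)) (Mb ⊔ Q),
        ← hπ, h1]
      exact map_top_of_surjective _ (QuotientGroup.mk'_surjective _)
    · rw [eq_bot_iff]
      intro y hy
      obtain ⟨k, rfl⟩ := QuotientGroup.mk'_surjective (center G) y
      have hkM : k ∈ M := e.ge (show k ∈ (Mb ⊔ Q).comap π from le_sup_right (a := Mb) hy)
      have : π k ∈ Mb ⊓ Kb := ⟨⟨k, hkM, rfl⟩, hQK hy⟩
      rwa [hinf] at this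
  have hQcard := Coprime.card_sup hMQ (by
    rw [eq_bot_iff, ← hinf, inf_comm Mb]; exact inf_le_inf_right _ hQK)
  rw [sup_comm, htop, Subgroup.card_top, hcardH] at hQcard
  have hKQ : Q = Kb :=
    eq_of_le_of_card_ge hQK (Nat.eq_of_mul_eq_mul_right Nat.card_pos hQcard).le
  apply hns
  haveI := hQ.isNilpotent
  haveI : Group.IsSolvable Kb := hKQ ▸ (inferInstance : Group.IsSolvable Q)
  haveI : Group.IsSolvable ((G ⧸ center G) ⧸ Kb) := by
    have hsurj : Function.Surjective ((QuotientGroup.mk' Kb).comp Mb.subtype) := by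
      intro z
      obtain ⟨y, rfl⟩ := QuotientGroup.mk'_surjective Kb z
      have hy : QuotientGroup.mk' Kb y ∈ (Mb ⊔ Kb).map (QuotientGroup.mk' Kb) :=
        ⟨y, hsupb ▸ mem_top y, rfl⟩
      rw [Subgroup.map_sup, QuotientGroup.map_mk'_self, sup_bot_eq] at hy
      obtain ⟨w, hw, hwy⟩ := hy
      exact ⟨⟨w, hw⟩, hwy⟩
    exact solvable_of_surjective hsurj
  haveI : Group.IsSolvable (G ⧸ center G) :=
    solvable_of_ker_le_range Kb.subtype (QuotientGroup.mk' Kb)
      (by rw [QuotientGroup.ker_mk', Subgroup.range_subtype])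
  haveI : Group.IsSolvable (center G) := isSolvable_of_comm fun a b => Subtype.ext
    (Subgroup.mem_center_iff.mp b.2 a.1)
  exact solvable_of_ker_le_range (center G).subtype π
    (by rw [hπ, QuotientGroup.ker_mk', Subgroup.range_subtype])

theorem card_pType_bound (p : ℕ) [hp : Fact p.Prime] :
    p ^ 2 * {y : G | y ∉ center G ∧ PType p C(y)}.ncard ≤ Nat.card G := by
  classical
  haveI := Fintype.ofFinite (Sylow p G)
  set S := {y : G | y ∉ center G ∧ PType p C(y)}
  obtain ⟨R₀⟩ := (inferInstance : Nonempty (Sylow p G))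
  set c := Nat.card (Subgroup.normalizer ((R₀ : Subgroup G) : Set G))
  let f : Sylow p G → Set G := fun R =>
    {y | y ∈ S ∧ C(y) = Subgroup.normalizer ((R : Subgroup G) : Set G)}
  have hcover : S ⊆ ⋃ R ∈ (Finset.univ : Finset (Sylow p G)), f R := by
    rintro y ⟨hy, hyp⟩
    set M := C(y) with hM
    obtain ⟨T⟩ := (inferInstance : Nonempty (Sylow p M))
    set T' := (T : Subgroup M).map M.subtype with hT'
    haveI : ((center G).subgroupOf M).Normal := inferInstance
    have hMZ : IsPGroup p (M ⧸ (center G).subgroupOf M) := by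
      intro q
      obtain ⟨m, rfl⟩ := QuotientGroup.mk'_surjective _ q
      obtain ⟨k, hk⟩ := hyp m m.2
      exact ⟨k, by rw [← map_pow]; exact (QuotientGroup.eq_one_iff _).mpr hk⟩
    obtain ⟨a, ha⟩ := IsPGroup.iff_card.mp hMZ
    have hJ : ((T : Subgroup M) ⊔ (center G).subgroupOf M) = ⊤ := by
      rw [← index_eq_one]
      obtain ⟨b, -, hb⟩ := (Nat.dvd_prime_pow hp.out).mp (ha ▸ index_dvd_of_le le_sup_right :
        ((T : Subgroup M) ⊔ (center G).subgroupOf M).index ∣ p ^ a)
      rcases Nat.eq_zero_or_pos b with rfl | hb0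
      · simpa using hb
      · exact absurd (((dvd_pow_self p hb0.ne').trans hb.symm.dvd).trans
          (index_dvd_of_le le_sup_left)) T.not_dvd_index
    have hMT : M ≤ Subgroup.normalizer (T' : Set G) := by
      rw [← Subgroup.range_subtype M, MonoidHom.range_eq_map, ← hJ, Subgroup.map_sup]
      refine sup_le Subgroup.le_normalizer ?_
      rw [Subgroup.subgroupOf_map_subtype]
      exact inf_le_left.trans ((Subgroup.center_le_centralizer _).trans
        (Subgroup.centralizer_le_normalizer _))
    have hNT : Subgroup.normalizer (T' : Set G) = M := by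
      refine ((hmax y hy).le_iff.mp hMT).resolve_left fun htop => ?_
      haveI := Subgroup.normalizer_eq_top_iff.mp htop
      have hMn : M.Normal := by
        have e : M = T' ⊔ center G := by
          conv_lhs => rw [← Subgroup.range_subtype M, MonoidHom.range_eq_map, ← hJ, Subgroup.map_sup,
            Subgroup.subgroupOf_map_subtype, inf_eq_left.mpr (center_le_C y)]
        rw [e]; infer_instance
      have h1 := normalizer_C hmax hns hy
      rw [← hM, Subgroup.normalizer_eq_top_iff.mpr hMn] at h1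
      exact (hmax y hy).1 (hM ▸ h1.symm)
    let R : Sylow p G := (T.2.map M.subtype).toSylow (by
      rw [index_map_subtype]
      exact hp.out.not_dvd_mul T.not_dvd_index (not_dvd_index_of_normalizer_le T hNT.le))
    exact Set.mem_biUnion (Finset.mem_univ R) ⟨⟨hy, hyp⟩, hNT.symm⟩
  have hnR : ∀ R : Sylow p G, Nat.card (Subgroup.normalizer ((R : Subgroup G) : Set G)) *
      Nat.card (Sylow p G) = Nat.card G := fun R => by
    rw [show Nat.card (Sylow p G) = (Subgroup.normalizer ((R : Subgroup G) : Set G)).index from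
      R.card_eq_index_normalizer, card_mul_index]
  have hf : ∀ R : Sylow p G, p ^ 2 * (f R).ncard ≤ c := by
    intro R
    rcases (f R).eq_empty_or_nonempty with he | ⟨y, ⟨hy, hyp⟩, hyR⟩
    · rw [he, Set.ncard_empty, mul_zero]; exact Nat.zero_le _
    set M := C(y) with hM
    have hcM : Nat.card M = c :=
      Nat.eq_of_mul_eq_mul_right Nat.card_pos ((hyR ▸ hnR R).trans (hnR R₀).symm)
    have hsub : f R ⊆ (((center M).map M.subtype : Subgroup G) : Set G) := by
      rintro z ⟨⟨hz, -⟩, hzR⟩
      have hzM : C(z) = M := hzR.trans hyR.symm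
      refine ⟨⟨z, hzM ▸ self_mem_C z⟩, Subgroup.mem_center_iff.mpr fun g => Subtype.ext ?_, rfl⟩
      exact Subgroup.mem_centralizer_singleton_iff.mp (hzM.symm ▸ g.2 : (g : G) ∈ C(z))
    have h1 := Set.ncard_le_ncard hsub
    have h2 : (((center M).map M.subtype : Subgroup G) : Set G).ncard = Nat.card (center M) := by
      rw [← Nat.card_coe_set_eq]; exact Subgroup.card_map_of_injective M.subtype_injective
    rw [h2] at h1
    have hq : IsPGroup p (M ⧸ center M) := by
      intro q
      obtain ⟨m, rfl⟩ := QuotientGroup.mk'_surjective _ q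
      obtain ⟨k, hk⟩ := hyp m m.2
      refine ⟨k, ?_⟩
      rw [← map_pow]
      refine (QuotientGroup.eq_one_iff _).mpr ?_
      exact Subgroup.mem_center_iff.mpr fun g => Subtype.ext (Subgroup.mem_center_iff.mp hk g)
    obtain ⟨a, ha⟩ := IsPGroup.iff_card.mp hq
    have ha2 : 2 ≤ a := by
      by_contra hlt
      haveI : IsCyclic (M ⧸ center M) := by
        rcases Nat.lt_succ_iff.mp (Nat.not_le.mp hlt) |>.lt_or_eq with h0 | h0
        · rw [Nat.lt_one_iff.mp h0, pow_zero] at ha
          haveI := (Nat.card_eq_one_iff_unique.mp ha).1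
          exact isCyclic_of_subsingleton
        · rw [h0, pow_one] at ha
          exact isCyclic_of_prime_card ha
      exact not_comm_C hmax hns hy ⟨⟨fun u v =>
        commutative_of_cyclic_center_quotient (QuotientGroup.mk' (center M))
          (by rw [QuotientGroup.ker_mk']) u v⟩⟩
    have hc := card_eq_card_quotient_mul_card_subgroup (center M)
    rw [hcM, ha] at hc
    rw [hc]
    exact Nat.mul_le_mul (Nat.pow_le_pow_right hp.out.pos ha2) h1
  calc p ^ 2 * S.ncard ≤ p ^ 2 * ∑ R : Sylow p G, (f R).ncard :=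
        Nat.mul_le_mul_left _ ((Set.ncard_le_ncard hcover).trans
          (Finset.set_ncard_biUnion_le _ _))
    _ = ∑ R : Sylow p G, p ^ 2 * (f R).ncard := Finset.mul_sum _ _ _
    _ ≤ ∑ _R : Sylow p G, c := Finset.sum_le_sum fun R _ => hf R
    _ = Nat.card G := by
      rw [Finset.sum_const, Finset.card_univ, smul_eq_mul, ← Nat.card_eq_fintype_card, mul_comm,
        hnR R₀]

theorem false_of_not_solvable : False := by
  classical
  set g := Nat.card G with hg
  set z := Nat.card (center G) with hz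
  have hz4 : 4 * z ≤ g := by
    rw [hg, card_eq_card_quotient_mul_card_subgroup (center G)]
    refine Nat.mul_le_mul_right _ ?_
    by_contra hlt
    have hpos := Nat.card_pos (α := G ⧸ center G)
    haveI : IsCyclic (G ⧸ center G) := by
      by_cases h1 : Nat.card (G ⧸ center G) = 1
      · haveI := (Nat.card_eq_one_iff_unique.mp h1).1
        exact isCyclic_of_subsingleton
      · haveI : Fact (Nat.card (G ⧸ center G)).Prime := ⟨by
          rcases (show Nat.card (G ⧸ center G) = 2 ∨ Nat.card (G ⧸ center G) = 3 by omega) with e | e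
            <;> rw [e] <;> norm_num⟩
        exact isCyclic_of_prime_card rfl
    exact hns (isSolvable_of_comm fun u v =>
      commutative_of_cyclic_center_quotient (QuotientGroup.mk' (center G))
        (by rw [QuotientGroup.ker_mk']) u v)
  let S : ℕ → Set G := fun p => {y | y ∉ center G ∧ PType p C(y)}
  have hcover : ((center G : Set G))ᶜ ⊆ ⋃ p ∈ g.primeFactors, S p := by
    intro y hy
    obtain ⟨p, hp, hP⟩ := (cases_C hmax hy).resolve_left (not_comm_C hmax hns hy)
    refine Set.mem_biUnion (Nat.mem_primeFactors.mpr ⟨hp, ?_, Nat.card_pos.ne'⟩) ⟨hy, hP⟩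
    obtain ⟨k, hk⟩ := hP y (self_mem_C y)
    by_contra hnd
    have hc : (p ^ k).Coprime (orderOf y) :=
      ((hp.coprime_iff_not_dvd.mpr fun h => hnd (h.trans (orderOf_dvd_natCard y))).pow_left k)
    obtain ⟨j, hj⟩ := exists_pow_eq_self_of_coprime hc
    exact hy (hj ▸ pow_mem hk j)
  have hsum : g - z ≤ ∑ p ∈ g.primeFactors, (S p).ncard := by
    refine le_trans (le_of_eq ?_) ((Set.ncard_le_ncard hcover).trans (Finset.set_ncard_biUnion_le _ _))
    rw [Set.ncard_compl, hg, hz, ← Nat.card_coe_set_eq]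
    rfl
  have hg0 : (0 : ℚ) < g := by exact_mod_cast Nat.card_pos
  have hbound : ∀ N : ℕ, 2 ≤ N → ∑ k ∈ Finset.Icc 2 N, (1 : ℚ) / (k : ℚ) ^ 2 ≤ 3 / 4 - 1 / N := by
    intro N hN
    induction N, hN using Nat.le_induction with
    | base => norm_num
    | succ N hN ih =>
      rw [Finset.sum_Icc_succ_top (by omega)]
      push_cast
      have hN0 : (0 : ℚ) < N := by exact_mod_cast (by omega : 0 < N)
      have h1 : (1 : ℚ) / ((N : ℚ) + 1) ^ 2 ≤ 1 / N - 1 / (N + 1) := by
        rw [div_sub_div _ _ hN0.ne' (by positivity), div_le_div_iff₀ (by positivity) (by positivity)]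
        ring_nf
        nlinarith
      linarith
  have hg2 : 2 ≤ g := by
    have := Nat.card_pos (α := center G)
    omega
  have hle : ((g : ℚ) - z) ≤ g * (3 / 4 - 1 / g) := by
    calc ((g : ℚ) - z) = ((g - z : ℕ) : ℚ) := by
          rw [Nat.cast_sub (by omega)]
      _ ≤ ((∑ p ∈ g.primeFactors, (S p).ncard : ℕ) : ℚ) := by exact_mod_cast hsum
      _ = ∑ p ∈ g.primeFactors, ((S p).ncard : ℚ) := by push_cast; rfl
      _ ≤ ∑ p ∈ g.primeFactors, (g : ℚ) * (1 / (p : ℚ) ^ 2) := Finset.sum_le_sum fun p hp => by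
          have hpp := Nat.prime_of_mem_primeFactors hp
          haveI := Fact.mk hpp
          have h := card_pType_bound hmax hns p
          have hp0 : (0 : ℚ) < (p : ℚ) ^ 2 := by have := hpp.pos; positivity
          rw [mul_one_div, le_div_iff₀ hp0, mul_comm]
          exact_mod_cast h
      _ ≤ ∑ k ∈ Finset.Icc 2 g, (g : ℚ) * (1 / (k : ℚ) ^ 2) := by
          refine Finset.sum_le_sum_of_subset_of_nonneg (fun p hp => ?_) fun k _ _ => by positivity
          rw [Finset.mem_Icc]
          exact ⟨(Nat.prime_of_mem_primeFactors hp).two_le,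
            Nat.le_of_dvd (by omega) (Nat.dvd_of_mem_primeFactors hp)⟩
      _ ≤ g * (3 / 4 - 1 / g) := by
          rw [← Finset.mul_sum]; exact mul_le_mul_of_nonneg_left (hbound g hg2) hg0.le
  have hz4' : (4 : ℚ) * z ≤ g := by exact_mod_cast hz4
  rw [mul_sub, mul_one_div, div_self hg0.ne'] at hle
  linarith

end


/-- Let G be a finite group in which the centralizer of every non-central element is a maximal subgroup of G. Then G is solvable. -/
theorem result {G : Type*} [Group G] [Finite G]
    (h : ∀ g : G, g ∉ Subgroup.center G → IsCoatom (Subgroup.centralizer ({g} : Set G))) :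
    Group.IsSolvable G := by
  exact by_contra fun hns => false_of_not_solvable h hns

end Cfsg.Agent.S4262
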