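import Cfsg.Statements.S4263
import Cfsg.Agent.FGS4.Subnormal
import Mathlib.GroupTheory.Sylow

set_option autoImplicit false
open Cfsg

namespace Cfsg.Agent.S4263

open Subgroup

variable (G : Type*) [Group G] [Finite G]

lemma pcore_isPGroup (p : ℕ) : IsPGroup p (Cfsg.pCore p G) :=
  Sylow.sSup_of_normal _ (fun _ h => h.2) (fun _ h => h.1)

lemma pcore_normal (p : ℕ) : (Cfsg.pCore p G).Normal :=
  Subgroup.sSup_normal _ fun _ h => h.1

noncomputable def coreHom :
    (∀ p : (Nat.card G).primeFactors, Cfsg.pCore (p : ℕ) G) →* G :=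
  Subgroup.noncommPiCoprod fun i j hij x y hx hy =>
    have : Fact (i : ℕ).Prime := ⟨Nat.prime_of_mem_primeFactors i.2⟩
    have : Fact (j : ℕ).Prime := ⟨Nat.prime_of_mem_primeFactors j.2⟩
    Subgroup.commute_of_normal_of_disjoint _ _ (pcore_normal G i) (pcore_normal G j)
      (IsPGroup.disjoint_of_ne _ _ (fun h => hij (Subtype.ext h)) _ _
        (pcore_isPGroup G i) (pcore_isPGroup G j)) x y hx hy

lemma fitting_eq :
    Cfsg.fittingSubgroup G = ⨆ p : (Nat.card G).primeFactors, Cfsg.pCore (p : ℕ) G := by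
  apply le_antisymm
  · refine sSup_le fun N ⟨hN, hnil⟩ => ?_
    have := hnil
    have hpl : ∀ p : (Nat.card N).primeFactors, ∀ P : Sylow p N,
        (P : Subgroup N).map N.subtype ≤ Cfsg.pCore (p : ℕ) G := by
      intro p P
      have : Fact (p : ℕ).Prime := ⟨Nat.prime_of_mem_primeFactors p.2⟩
      have : (P : Subgroup N).Characteristic := P.characteristic_of_normal inferInstance
      exact le_sSup ⟨ConjAct.normal_of_characteristic_of_normal, P.isPGroup'.map _⟩
    intro x hx
    have hdvd : ∀ p ∈ (Nat.card N).primeFactors, p ∈ (Nat.card G).primeFactors :=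
      fun p hp => Nat.primeFactors_mono (Subgroup.card_subgroup_dvd_card N) Nat.card_pos.ne' hp
    have key : (⊤ : Subgroup N) ≤
        ⨆ p : (Nat.card N).primeFactors, ⨆ P : Sylow p N, (P : Subgroup N) := by
      refine le_of_eq (Eq.symm ?_)
      apply Subgroup.eq_top_of_card_eq
      apply Nat.dvd_antisymm (Subgroup.card_subgroup_dvd_card _)
      rw [← Nat.prod_primeFactorsList (Nat.card_pos (α := N)).ne']
      rw [Nat.prod_primeFactorsList (Nat.card_pos (α := N)).ne']
      refine (Nat.factorization_le_iff_dvd Nat.card_pos.ne' Nat.card_pos.ne').mp fun p => ?_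
      by_cases hp : p ∈ (Nat.card N).primeFactors
      · have : Fact p.Prime := ⟨Nat.prime_of_mem_primeFactors hp⟩
        obtain ⟨P⟩ : Nonempty (Sylow p N) := inferInstance
        have hle : (P : Subgroup N) ≤ ⨆ q : (Nat.card N).primeFactors, ⨆ Q : Sylow q N, (Q : Subgroup N) :=
          le_iSup_of_le ⟨p, hp⟩ (le_iSup_of_le P le_rfl)
        have h1 := Subgroup.card_dvd_of_le hle
        rw [P.card_eq_multiplicity] at h1
        exact (Nat.Prime.pow_dvd_iff_le_factorization Fact.out Nat.card_pos.ne').mp h1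
      · rw [← Nat.support_factorization, Finsupp.notMem_support_iff] at hp
        simp [hp]
    have := Subgroup.map_mono (f := N.subtype) key
    rw [← MonoidHom.range_eq_map, Subgroup.range_subtype] at this
    refine (this.trans ?_) hx
    simp only [Subgroup.map_iSup]
    exact iSup_le fun p => iSup_le fun P =>
      (hpl p P).trans (le_iSup_of_le ⟨p, hdvd p p.2⟩ le_rfl)
  · refine iSup_le fun p => le_sSup ⟨pcore_normal G p, ?_⟩
    have : Fact (p : ℕ).Prime := ⟨Nat.prime_of_mem_primeFactors p.2⟩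
    exact (pcore_isPGroup G p).isNilpotent

lemma fitting_isNilpotent : Group.IsNilpotent (Cfsg.fittingSubgroup G) := by
  have h : (coreHom G).range = Cfsg.fittingSubgroup G := by
    rw [fitting_eq]; exact Subgroup.noncommPiCoprod_range
  have : ∀ p : (Nat.card G).primeFactors, Group.IsNilpotent (Cfsg.pCore (p : ℕ) G) := fun p => by
    have : Fact (p : ℕ).Prime := ⟨Nat.prime_of_mem_primeFactors p.2⟩
    exact (pcore_isPGroup G p).isNilpotent
  rw [← h]
  exact Group.nilpotent_of_surjective _ (MonoidHom.rangeRestrict_surjective _)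

variable {G}

lemma mem_iSup_pcore (x : G) (h : ∀ H : Subgroup G, x ^ H.index ∈ H) :
    x ∈ ⨆ p : (Nat.card G).primeFactors, Cfsg.pCore (p : ℕ) G := by
  set K := ⨆ p : (Nat.card G).primeFactors, Cfsg.pCore (p : ℕ) G
  have hK : K.Normal := Subgroup.sSup_normal _ fun S ⟨p, hp⟩ => hp ▸ pcore_normal G p
  -- the order of the image of `x` in `G ⧸ K` is 1
  rw [← QuotientGroup.eq_one_iff, ← orderOf_eq_one_iff]
  by_contra hne
  obtain ⟨p, hp, hpd⟩ := Nat.exists_prime_and_dvd hne
  have : Fact p.Prime := ⟨hp⟩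
  have hpG : p ∈ (Nat.card G).primeFactors := Nat.mem_primeFactors.mpr
    ⟨hp, hpd.trans ((orderOf_map_dvd (QuotientGroup.mk' K) x).trans (orderOf_dvd_natCard x)),
      Nat.card_pos.ne'⟩
  -- y = p-part of x
  obtain ⟨k, m, hm, hn⟩ := Nat.exists_eq_pow_mul_and_not_dvd (orderOf_pos x).ne' p hp.ne_one
  have hy : x ^ m ∈ Cfsg.pCore p G := by
    obtain ⟨P₀⟩ : Nonempty (Sylow p G) := inferInstance
    have hall : ∀ P : Sylow p G, x ^ m ∈ (P : Subgroup G) := by
      intro P
      have h1 : (x ^ m) ^ (P : Subgroup G).index ∈ (P : Subgroup G) := by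
        rw [← pow_mul, mul_comm, pow_mul]; exact Subgroup.pow_mem _ (h _) _
      have hord : (x ^ m) ^ (p ^ k) = 1 := by
        rw [← pow_mul, mul_comm, ← hn, pow_orderOf_eq_one]
      have hco : (P : Subgroup G).index.Coprime (p ^ k) :=
        ((hp.coprime_iff_not_dvd.mpr P.not_dvd_index).symm).pow_right k
      obtain ⟨b, hb⟩ := exists_pow_eq_self_of_coprime
        (hco.coprime_dvd_right (orderOf_dvd_of_pow_eq_one hord))
      exact hb ▸ Subgroup.pow_mem _ h1 b
    have hle : (P₀ : Subgroup G).normalCore ≤ Cfsg.pCore p G :=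
      le_sSup ⟨Subgroup.normalCore_normal _, P₀.isPGroup'.to_le (Subgroup.normalCore_le _)⟩
    refine hle fun b => ?_
    have hb := hall (b⁻¹ • P₀)
    rw [Sylow.coe_subgroup_smul, Subgroup.mem_pointwise_smul_iff_inv_smul_mem] at hb
    simpa [MulAut.smul_def] using hb
  have hq : ((x : G ⧸ K)) ^ m = 1 := by
    rw [← QuotientGroup.mk_pow, QuotientGroup.eq_one_iff]
    exact (le_iSup (fun p : (Nat.card G).primeFactors => Cfsg.pCore (p : ℕ) G) ⟨p, hpG⟩) hy
  exact hm (hpd.trans (orderOf_dvd_of_pow_eq_one hq))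

/-- Let G be a finite group. An element x lies in the Fitting subgroup F(G) if and only if, for every subgroup H of G, the power x^[G : H] lies in H. -/
theorem result {G : Type*} [Group G] [Finite G] (x : G) :
    x ∈ Cfsg.fittingSubgroup G ↔ ∀ H : Subgroup G, x ^ H.index ∈ H := by
  constructor
  · intro hx H
    have : (Cfsg.fittingSubgroup G).Normal := Subgroup.sSup_normal _ fun N hN => hN.1
    have := fitting_isNilpotent G
    exact FGS4.pow_index_mem_of_mem_normal_nilpotent _ hx H
  · intro h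
    rw [fitting_eq]
    exact mem_iSup_pcore x h

end Cfsg.Agent.S4263
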