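import Cfsg.Statements.S4264
import Cfsg.Agent.Components.ClassBound.Main
-- import your own Cfsg.Agent.* helpers here

set_option autoImplicit false
open Cfsg

namespace Cfsg.Agent.S4264

/-- Let G be a subgroup of the symmetric group of degree d ≥ 1. Then G has at most 5^{d−1} conjugacy classes. -/
theorem result (d : ℕ) (hd : 1 ≤ d) (G : Subgroup (Equiv.Perm (Fin d))) : Nat.card (ConjClasses ↥G) ≤ 5 ^ (d - 1) := by
  rcases Nat.lt_or_ge d 8 with h | h
  · have h1 : Nat.card (ConjClasses ↥G) ≤ Nat.card G :=
      Nat.card_le_card_of_surjective _ ConjClasses.mk_surjective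
    have h2 : Nat.card G ≤ d.factorial := by
      have := Nat.le_of_dvd Nat.card_pos (Subgroup.card_subgroup_dvd_card G)
      rwa [Nat.card_perm, Nat.card_fin] at this
    refine h1.trans (h2.trans ?_)
    interval_cases d <;> decide
  · have h1 := Cfsg.Agent.Components.ClassBound.card_conjClasses_le_four_pow G
    rw [Nat.card_fin] at h1
    refine h1.trans ?_
    clear h1 G hd
    induction d, h using Nat.le_induction with
    | base => decide
    | succ d hd ih =>
      obtain ⟨k, rfl⟩ : ∃ k, d = k + 1 := ⟨d - 1, by omega⟩
      simp only [Nat.add_sub_cancel] at *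
      rw [pow_succ, pow_succ 5 k]
      omega

end Cfsg.Agent.S4264
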