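import Cfsg.Statements.S4269


set_option autoImplicit false
open Cfsg

namespace Cfsg.Agent.S4269

open Subgroup
open scoped commutatorElement Pointwise

variable {G : Type*} [Group G]

theorem exists_mul_of_le_normalizer {A B : Subgroup G} (h : A ≤ Subgroup.normalizer (B : Set G))
    {x : G} (hx : x ∈ A ⊔ B) : ∃ a ∈ A, ∃ b ∈ B, x = b * a := by
  rw [sup_comm] at hx
  have hx' : x ∈ ((B ⊔ A : Subgroup G) : Set G) := hx
  rw [coe_mul_of_right_le_normalizer_left B A h] at hx'
  obtain ⟨b, hb, a, ha, rfl⟩ := hx'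
  exact ⟨a, ha, b, hb, rfl⟩

theorem map_conj_mul (H : Subgroup G) (a b : G) :
    H.map (MulAut.conj (a * b)).toMonoidHom =
      (H.map (MulAut.conj b).toMonoidHom).map (MulAut.conj a).toMonoidHom := by
  rw [Subgroup.map_map]
  congr 1
  ext z
  simp [mul_assoc]

theorem map_conj_of_mem_normalizer {H : Subgroup G} {n : G}
    (hn : n ∈ Subgroup.normalizer (H : Set G)) : H.map (MulAut.conj n).toMonoidHom = H :=
  Subgroup.mem_normalizer_iff_map_conj_eq.mp hn

theorem pronormal_iff [Finite G] (V : Subgroup G) [hVn : V.Normal] (hV : IsMulCommutative ↥V)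
    (H : Subgroup G) (hHV : H ⊔ V = ⊤) :
    Cfsg.IsPronormal H ↔
      ∀ U : Subgroup G, U ≤ V → (∀ h ∈ H, U.map (MulAut.conj h).toMonoidHom = U) →
        U = (U ⊓ Subgroup.normalizer (H : Set G)) ⊔ ⁅H, U⁆ := by
  have hcomm : ∀ a ∈ V, ∀ b ∈ V, a * b = b * a := fun a ha b hb =>
    congrArg Subtype.val (hV.1.1 ⟨a, ha⟩ ⟨b, hb⟩)
  have hHU : ∀ U : Subgroup G, (∀ h ∈ H, U.map (MulAut.conj h).toMonoidHom = U) → ⁅H, U⁆ ≤ U := by
    intro U hU
    rw [Subgroup.commutator_le]
    intro h hh u hu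
    rw [commutatorElement_def]
    exact mul_mem (by rw [← hU h hh]; exact ⟨u, hu, rfl⟩) (inv_mem hu)
  constructor
  · intro hpro U _ hU
    refine le_antisymm (fun u hu => ?_) (sup_le inf_le_left (hHU U hU))
    obtain ⟨x, hx, hux⟩ := hpro u
    have hHn : H ≤ Subgroup.normalizer ((⁅H, U⁆ : Subgroup G) : Set G) :=
      Subgroup.normalizer_commutator_ge_left H U
    have hJ : H ⊔ H.map (MulAut.conj u).toMonoidHom ≤ H ⊔ ⁅H, U⁆ := by
      refine sup_le le_sup_left ?_
      rintro _ ⟨h, hh, rfl⟩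
      change u * h * u⁻¹ ∈ _
      rw [show u * h * u⁻¹ = ⁅h, u⁆⁻¹ * h by rw [commutatorElement_def]; group]
      exact mul_mem (inv_mem (mem_sup_right (Subgroup.commutator_mem_commutator hh hu)))
        (mem_sup_left hh)
    obtain ⟨h, hh, c, hc, rfl⟩ := exists_mul_of_le_normalizer hHn (hJ hx)
    rw [map_conj_mul, map_conj_of_mem_normalizer (Subgroup.le_normalizer hh)] at hux
    have hn : c⁻¹ * u ∈ Subgroup.normalizer (H : Set G) := by
      rw [Subgroup.mem_normalizer_iff_map_conj_eq]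
      change H.map (MulAut.conj (c⁻¹ * u)).toMonoidHom = H
      rw [map_conj_mul, hux, ← map_conj_mul, inv_mul_cancel]
      exact map_conj_of_mem_normalizer (one_mem _)
    rw [← mul_inv_cancel_left c u]
    refine mul_mem (mem_sup_right hc) ?_
    exact mem_sup_left (Subgroup.mem_inf.mpr ⟨mul_mem (inv_mem (hHU U hU hc)) hu, hn⟩)
  · intro hcrit g
    obtain ⟨h₀, hh₀, v, hv, rfl⟩ : ∃ h₀ ∈ H, ∃ v ∈ V, g = v * h₀ :=
      exists_mul_of_le_normalizer (by rw [normalizer_eq_top]; exact le_top) (hHV ▸ mem_top g)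
    rw [map_conj_mul, map_conj_of_mem_normalizer (Subgroup.le_normalizer hh₀)]
    set J := H ⊔ H.map (MulAut.conj v).toMonoidHom
    set U := closure {x | ∃ k ∈ H, x = k * v * k⁻¹} with hUdef
    have hUV : U ≤ V := (closure_le _).mpr (by
      rintro _ ⟨k, -, rfl⟩
      exact hVn.conj_mem v hv k)
    have hU : ∀ h ∈ H, U.map (MulAut.conj h).toMonoidHom = U := by
      have hle : ∀ h ∈ H, U.map (MulAut.conj h).toMonoidHom ≤ U := by
        intro h hh
        rw [hUdef, MonoidHom.map_closure]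
        refine (closure_le _).mpr ?_
        rintro _ ⟨_, ⟨k, hk, rfl⟩, rfl⟩
        exact subset_closure ⟨h * k, mul_mem hh hk, by simp [mul_assoc]⟩
      intro h hh
      refine le_antisymm (hle h hh) fun x hx => ?_
      exact ⟨_, hle h⁻¹ (inv_mem hh) ⟨x, hx, rfl⟩, by simp [mul_assoc]⟩
    have hkey : ∀ k ∈ H, k * v * k⁻¹ * v⁻¹ ∈ J := fun k hk => by
      rw [show k * v * k⁻¹ * v⁻¹ = k * (v * k⁻¹ * v⁻¹) by group]
      exact mul_mem (mem_sup_left hk) (mem_sup_right ⟨k⁻¹, inv_mem hk, rfl⟩)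
    have hcJ : ⁅H, U⁆ ≤ J := by
      rw [Subgroup.commutator_le]
      intro h hh u hu
      suffices ∀ u ∈ U, ⁅h, u⁆ ∈ J from this u hu
      intro u hu
      induction hu using Subgroup.closure_induction with
      | mem x hx =>
        obtain ⟨k, hk, rfl⟩ := hx
        rw [show ⁅h, k * v * k⁻¹⁆ =
          k * ((k⁻¹ * h * k) * v * (k⁻¹ * h * k)⁻¹ * v⁻¹) * k⁻¹ by
            rw [commutatorElement_def]; group]
        exact mul_mem (mul_mem (mem_sup_left hk)
          (hkey _ (mul_mem (mul_mem (inv_mem hk) hh) hk))) (inv_mem (mem_sup_left hk))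
      | one => simp
      | mul a b ha hb iha ihb =>
        have ha' := hUV ha
        have hcV : ⁅h, b⁆ ∈ V := by
          rw [commutatorElement_def]; exact mul_mem (hVn.conj_mem b (hUV hb) h) (inv_mem (hUV hb))
        have e : ⁅h, a * b⁆ = ⁅h, a⁆ * ⁅h, b⁆ := by
          have h1 : ⁅h, a * b⁆ = ⁅h, a⁆ * (a * ⁅h, b⁆ * a⁻¹) := by
            simp only [commutatorElement_def]; group
          rw [h1, hcomm a ha' _ hcV, mul_inv_cancel_right]
        rw [e]; exact mul_mem iha ihb
      | inv a ha iha =>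
        have hcV : ⁅h, a⁆ ∈ V := by
          rw [commutatorElement_def]; exact mul_mem (hVn.conj_mem a (hUV ha) h) (inv_mem (hUV ha))
        have e : ⁅h, a⁻¹⁆ = ⁅h, a⁆⁻¹ := by
          have h1 : ⁅h, a⁻¹⁆ = a⁻¹ * ⁅h, a⁆⁻¹ * a := by
            simp only [commutatorElement_def]; group
          rw [h1, hcomm a⁻¹ (inv_mem (hUV ha)) _ (inv_mem hcV), inv_mul_cancel_right]
        rw [e]; exact inv_mem iha
    have hvU : v ∈ (U ⊓ Subgroup.normalizer (H : Set G)) ⊔ ⁅H, U⁆ := by
      rw [← hcrit U hUV hU]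
      exact subset_closure ⟨1, one_mem _, by simp⟩
    obtain ⟨n, hn, c, hc, hvc⟩ := exists_mul_of_le_normalizer (fun a ha => by
      rw [Subgroup.mem_normalizer_iff]
      intro z
      have haV : a ∈ V := hUV (inf_le_left (b := Subgroup.normalizer (H : Set G)) ha)
      constructor
      · intro hz
        rwa [hcomm a haV z (hUV (hHU U hU hz)), mul_inv_cancel_right]
      · intro hz
        have hzV := hUV (hHU U hU hz)
        have hz' : z ∈ V := by
          have := hVn.conj_mem _ hzV a⁻¹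
          simpa [mul_assoc] using this
        rwa [hcomm a haV z hz', mul_inv_cancel_right] at hz) hvU
    refine ⟨c, hcJ hc, ?_⟩
    rw [hvc, map_conj_mul, map_conj_of_mem_normalizer hn.2]


/-- Let G be a finite group, V an abelian normal subgroup and H a subgroup with HV = G. Then H is pronormal in G (H and gHg⁻¹ are conjugate inside the subgroup they generate, for every g) if and only if every H-invariant subgroup U of V satisfies U = N_U(H)·[H, U], that is, U is the join of U ∩ N_G(H) and the commutator subgroup [H, U]. -/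
theorem result {G : Type*} [Group G] [Finite G]
    (V : Subgroup G) [V.Normal] (hV : IsMulCommutative ↥V) (H : Subgroup G) (hHV : H ⊔ V = ⊤) :
    Cfsg.IsPronormal H ↔
      ∀ U : Subgroup G, U ≤ V → (∀ h ∈ H, U.map (MulAut.conj h).toMonoidHom = U) →
        U = (U ⊓ Subgroup.normalizer (H : Set G)) ⊔ ⁅H, U⁆ := by
  exact pronormal_iff V hV H hHV

end Cfsg.Agent.S4269
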