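import Cfsg.Statements.S4331
import Cfsg.Agent.FGS4.Subnormal
import Cfsg.Agent.Core.Cores
import Mathlib.GroupTheory.SemidirectProduct
import Mathlib.Data.ZMod.Basic
import Mathlib.GroupTheory.Solvable

set_option autoImplicit false
open Cfsg

namespace Cfsg.Agent.S4331

/-- The plane over `ZMod 3`. -/
abbrev V0 : Type := Multiplicative (ZMod 3 × ZMod 3)

/-- The action of a Singer cycle. -/
def cAut : MulAut V0 where
  toFun v := .ofAdd ((v.toAdd.1 + v.toAdd.2), v.toAdd.1)
  invFun v := .ofAdd (v.toAdd.2, v.toAdd.1 - v.toAdd.2)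
  left_inv := by decide +kernel
  right_inv := by decide +kernel
  map_mul' := by decide +kernel

/-- An involution normalizing it. -/
def jAut : MulAut V0 where
  toFun v := .ofAdd (v.toAdd.1, 2 * v.toAdd.1 + 2 * v.toAdd.2)
  invFun v := .ofAdd (v.toAdd.1, 2 * v.toAdd.1 + 2 * v.toAdd.2)
  left_inv := by decide +kernel
  right_inv := by decide +kernel
  map_mul' := by decide +kernel

/-- The semidihedral twist. -/
def tw : Multiplicative (ZMod 2) →* MulAut (Multiplicative (ZMod 8)) :=
  MonoidHom.mk' (fun s =>
    { toFun := fun i => .ofAdd (if s.toAdd = 0 then i.toAdd else 3 * i.toAdd)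
      invFun := fun i => .ofAdd (if s.toAdd = 0 then i.toAdd else 3 * i.toAdd)
      left_inv := by revert s; decide +kernel
      right_inv := by revert s; decide +kernel
      map_mul' := by revert s; decide +kernel })
    (fun s t => MulEquiv.ext (by revert s t; decide +kernel))

/-- The semidihedral group of order 16. -/
abbrev H0 : Type := Multiplicative (ZMod 8) ⋊[tw] Multiplicative (ZMod 2)

instance : DecidableEq H0 := fun a b =>
  decidable_of_iff (a.left = b.left ∧ a.right = b.right) (by
    constructor
    · exact fun h => SemidirectProduct.ext h.1 h.2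
    · rintro rfl; exact ⟨rfl, rfl⟩)

instance : Fintype H0 := Fintype.ofEquiv _ SemidirectProduct.equivProd.symm

/-- Iterate of an automorphism on a vector. -/
def act (h : H0) : MulAut V0 := cAut ^ h.left.toAdd.val * jAut ^ h.right.toAdd.val

/-- The action on the plane. -/
def hom : H0 →* MulAut V0 := MonoidHom.mk' act (fun g h => MulEquiv.ext (by revert g h; decide +kernel))

/-- The group of order 144. -/
abbrev G0 : Type := V0 ⋊[hom] H0

instance : DecidableEq G0 := fun a b =>
  decidable_of_iff (a.left = b.left ∧ a.right = b.right) (by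
    constructor
    · exact fun h => SemidirectProduct.ext h.1 h.2
    · rintro rfl; exact ⟨rfl, rfl⟩)

instance : Fintype G0 := Fintype.ofEquiv _ SemidirectProduct.equivProd.symm

/-- The involution. -/
def a0 : G0 := SemidirectProduct.inr (SemidirectProduct.inr (.ofAdd 1))

/-- A translation moved by the involution. -/
def w0 : G0 := SemidirectProduct.inl (.ofAdd (0, 1))

set_option maxHeartbeats 800000 in
theorem cert : ∀ c : G0, ∃ x : G0, a0 * (x * c * x⁻¹) = (x * c * x⁻¹) * a0 ∨
    ∃ v : V0, ((SemidirectProduct.inl v : G0)⁻¹ * a0 * SemidirectProduct.inl v).left = 1 ∧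
      ((SemidirectProduct.inl v : G0)⁻¹ * (x * c * x⁻¹) * SemidirectProduct.inl v).left = 1 := by
  decide +kernel

/-- There is a finite solvable group G with a subgroup A of order 2 such that every conjugacy class of G contains an element g for which A is subnormal in the subgroup generated by A and g, and yet A is not contained in O_2(G). (So the corresponding criteria for odd primes fail at the prime 2, even for solvable groups.) -/
theorem result :
    ∃ (G : Type) (_ : Group G) (_ : Finite G) (A : Subgroup G), Group.IsSolvable G ∧ Nat.card A = 2 ∧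
      (∀ c : G, ∃ g : G, IsConj c g ∧ (A.subgroupOf (A ⊔ Subgroup.zpowers g)).IsSubnormal) ∧
      ¬ A ≤ Cfsg.pCore 2 G := by
  refine ⟨G0, inferInstance, inferInstance, Subgroup.zpowers a0, ?_, ?_, fun c => ?_, ?_⟩
  · haveI : Group.IsSolvable H0 := solvable_of_ker_le_range SemidirectProduct.inl SemidirectProduct.rightHom
      (le_of_eq SemidirectProduct.range_inl_eq_ker_rightHom.symm)
    exact solvable_of_ker_le_range SemidirectProduct.inl SemidirectProduct.rightHom
      (le_of_eq SemidirectProduct.range_inl_eq_ker_rightHom.symm)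
  · rw [Nat.card_zpowers]
    exact orderOf_eq_prime (by decide +kernel) (by decide +kernel)
  · haveI : Fact (Nat.Prime 2) := ⟨Nat.prime_two⟩
    obtain ⟨x, hx⟩ := cert c
    refine ⟨x * c * x⁻¹, isConj_iff.mpr ⟨x, rfl⟩, ?_⟩
    rcases hx with h | ⟨v, hv1, hv2⟩
    · refine (Subgroup.Normal.isSubnormal ?_)
      rw [← Subgroup.normalizer_eq_top_iff, eq_top_iff]
      intro y _
      rw [Subgroup.mem_normalizer_iff]
      intro z
      have hy : Commute (y : G0) a0 := by
        have : (Subgroup.zpowers a0 ⊔ Subgroup.zpowers (x * c * x⁻¹)) ≤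
            Subgroup.centralizer ({a0} : Set G0) := by
          rw [sup_le_iff, Subgroup.zpowers_le, Subgroup.zpowers_le,
            Subgroup.mem_centralizer_singleton_iff, Subgroup.mem_centralizer_singleton_iff]
          exact ⟨rfl, h.symm⟩
        exact Subgroup.mem_centralizer_singleton_iff.mp (this y.2)
      simp only [Subgroup.mem_subgroupOf, Subgroup.coe_mul, Subgroup.coe_inv]
      constructor
      · rintro ⟨i, hi⟩
        refine ⟨i, ?_⟩
        rw [← hi]
        show a0 ^ i = (y : G0) * a0 ^ i * (y : G0)⁻¹
        rw [(hy.zpow_right i).eq, mul_inv_cancel_right]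
      · rintro ⟨i, hi⟩
        refine ⟨i, ?_⟩
        show a0 ^ i = (z : G0)
        have hi' : (y : G0) * z * (y : G0)⁻¹ = a0 ^ i := hi.symm
        rw [mul_inv_eq_iff_eq_mul, ← (hy.zpow_right i).eq] at hi'
        exact (mul_left_cancel hi').symm
    · set K := Subgroup.zpowers a0 ⊔ Subgroup.zpowers (x * c * x⁻¹)
      let P : Subgroup G0 := (SemidirectProduct.inr : H0 →* G0).range.map
        (MulAut.conj (SemidirectProduct.inl v : G0)).toMonoidHom
      have hP : IsPGroup 2 P := by
        have hH : IsPGroup 2 H0 := IsPGroup.of_card (n := 4) (by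
          rw [Nat.card_eq_fintype_card]; decide +kernel)
        exact (hH.of_surjective (SemidirectProduct.inr : H0 →* G0).rangeRestrict
          (MonoidHom.rangeRestrict_surjective _)).map _
      have hKP : K ≤ P := by
        have hmem : ∀ g : G0, ((SemidirectProduct.inl v : G0)⁻¹ * g * SemidirectProduct.inl v).left = 1 → g ∈ P := by
          intro g hg
          refine ⟨(SemidirectProduct.inl v : G0)⁻¹ * g * SemidirectProduct.inl v,
            ⟨((SemidirectProduct.inl v : G0)⁻¹ * g * SemidirectProduct.inl v).right, SemidirectProduct.ext ?_ ?_⟩, ?_⟩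
          · rw [SemidirectProduct.left_inr, hg]
          · rw [SemidirectProduct.right_inr]
          · show MulAut.conj (SemidirectProduct.inl v : G0) _ = g
            rw [MulAut.conj_apply]; group
        rw [sup_le_iff, Subgroup.zpowers_le, Subgroup.zpowers_le]
        exact ⟨hmem _ hv1, hmem _ hv2⟩
      haveI : Group.IsNilpotent K := ((hP.to_le hKP)).isNilpotent
      exact FGS4.isSubnormal_of_isNilpotent _
  · intro hle
    haveI : Fact (Nat.Prime 2) := ⟨Nat.prime_two⟩
    have h1 : a0 * w0 * a0⁻¹ * w0⁻¹ ∈ Cfsg.pCore 2 G0 := by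
      have ha := hle (Subgroup.mem_zpowers a0)
      have h2 := (inferInstance : (Cfsg.pCore 2 G0).Normal).conj_mem _ (inv_mem ha) w0
      have := mul_mem ha h2
      rwa [← mul_assoc, ← mul_assoc] at this
    obtain ⟨k, hk⟩ := IsPGroup.iff_orderOf.mp (Core.isPGroup_pCore 2 G0) ⟨_, h1⟩
    rw [Subgroup.orderOf_mk, orderOf_eq_prime (p := 3) (by decide +kernel) (by decide +kernel)] at hk
    rcases k with _ | k
    · norm_num at hk
    · rw [pow_succ] at hk; omega

end Cfsg.Agent.S4331
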