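import Cfsg.Statements.S4332
import Mathlib.GroupTheory.SpecificGroups.Alternating.Simple

set_option autoImplicit false
open Pointwise
open Cfsg

namespace Cfsg.Agent.S4332

open Equiv Pointwise

lemma exists_three_cycle (c : Perm (Fin 8)) :
    ∃ τ : Perm (Fin 8), τ.IsThreeCycle ∧ Commute τ (c * τ * c⁻¹) := by
  have conj : ∀ a b d : Fin 8, c * (swap a b * swap a d) * c⁻¹ =
      swap (c a) (c b) * swap (c a) (c d) := fun a b d => by
    rw [Equiv.swap_apply_apply, Equiv.swap_apply_apply]; group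
  by_cases h3 : ∃ x, c x ≠ x ∧ c (c (c x)) = x
  · obtain ⟨x, hx, hx3⟩ := h3
    have hxy : x ≠ c x := hx.symm
    have hxz : x ≠ c (c x) := fun h => hx (by
      have h' := congrArg c h
      rw [hx3] at h'
      exact h')
    have hyz : c x ≠ c (c x) := fun h => hxy (c.injective h)
    refine ⟨swap x (c x) * swap x (c (c x)),
      Perm.isThreeCycle_swap_mul_swap_same hxy hxz hyz, ?_⟩
    rw [conj, hx3]
    have : swap (c x) (c (c x)) * swap (c x) x = swap x (c x) * swap x (c (c x)) := by
      ext w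
      rcases eq_or_ne w x with rfl | h1
      · simp [swap_apply_def, hxy, hxz, hyz, hxy.symm, hxz.symm, hyz.symm]
      rcases eq_or_ne w (c x) with rfl | h2
      · simp [swap_apply_def, hxy, hxz, hyz, hxy.symm, hxz.symm, hyz.symm]
      rcases eq_or_ne w (c (c x)) with rfl | h3
      · simp [swap_apply_def, hxy, hxz, hyz, hxy.symm, hxz.symm, hyz.symm]
      · simp [swap_apply_def, h1, h2, h3]
    rw [this]
  push Not at h3
  by_cases hf : 5 < c.support.card
  · obtain ⟨x₁, hx₁⟩ := Finset.card_pos.mp (by omega : 0 < c.support.card)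
    have hm₁ := Perm.mem_support.mp hx₁
    obtain ⟨x₂, hx₂, h12, h1c, h2c, hcard⟩ : ∃ x₂, x₂ ∈ c.support ∧ x₁ ≠ x₂ ∧ c x₁ ≠ x₂ ∧ c x₂ ≠ x₁ ∧
        ({x₁, c x₁, c⁻¹ x₁, x₂, c x₂, c⁻¹ x₂} : Finset (Fin 8)).card ≤ 5 := by
      by_cases hc2 : c (c x₁) = x₁
      · have hlt : ({x₁, c x₁} : Finset (Fin 8)).card < c.support.card :=
          lt_of_le_of_lt Finset.card_le_two (by omega)
        obtain ⟨x₂, hx₂, hn⟩ := Finset.exists_mem_notMem_of_card_lt_card hlt
        simp only [Finset.mem_insert, Finset.mem_singleton, not_or] at hn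
        refine ⟨x₂, hx₂, Ne.symm hn.1, Ne.symm hn.2, fun h => hn.2 ?_, ?_⟩
        · apply c.injective
          rw [h, hc2]
        · have e : c⁻¹ x₁ = c x₁ := by
            rw [Perm.inv_def, Equiv.symm_apply_eq, hc2]
          refine le_trans (Finset.card_le_card (t := ({x₁, c x₁, x₂, c x₂, c⁻¹ x₂} : Finset (Fin 8))) ?_)
            Finset.card_le_five
          intro y hy
          simp only [Finset.mem_insert, Finset.mem_singleton] at hy ⊢
          rw [e] at hy
          tauto
      · refine ⟨c (c x₁), Perm.apply_mem_support.mpr (Perm.apply_mem_support.mpr hx₁), Ne.symm hc2,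
          fun h => hm₁ (c.injective h).symm, h3 x₁ hm₁, ?_⟩
        refine le_trans (Finset.card_le_card
          (t := ({x₁, c x₁, c⁻¹ x₁, c (c x₁), c (c (c x₁))} : Finset (Fin 8))) ?_) Finset.card_le_five
        intro y hy
        simp only [Finset.mem_insert, Finset.mem_singleton, Perm.inv_def, Equiv.symm_apply_apply] at hy ⊢
        tauto
    obtain ⟨x₃, hx₃, hn⟩ := Finset.exists_mem_notMem_of_card_lt_card (lt_of_le_of_lt hcard hf)
    simp only [Finset.mem_insert, Finset.mem_singleton, not_or] at hn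
    obtain ⟨n1, n2, n3, n4, n5, n6⟩ := hn
    have hc31 : c x₃ ≠ x₁ := fun h => n3 (by rw [← h, Perm.inv_def, Equiv.symm_apply_apply])
    have hc32 : c x₃ ≠ x₂ := fun h => n6 (by rw [← h, Perm.inv_def, Equiv.symm_apply_apply])
    have hm₂ := Perm.mem_support.mp hx₂
    have hm₃ := Perm.mem_support.mp hx₃
    refine ⟨swap x₁ x₂ * swap x₁ x₃,
      Perm.isThreeCycle_swap_mul_swap_same h12 (Ne.symm n1) (Ne.symm n4), ?_⟩
    rw [conj]
    refine Perm.Disjoint.commute fun w => ?_
    by_cases hw : w = x₁ ∨ w = x₂ ∨ w = x₃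
    · right
      rcases hw with rfl | rfl | rfl <;>
        simp [swap_apply_def, hm₁.symm, hm₂.symm, hm₃.symm, h1c.symm, h2c.symm, hc31.symm, hc32.symm,
          n2, n5]
    · left
      push Not at hw
      simp [swap_apply_def, hw.1, hw.2.1, hw.2.2]
  · have hcard : 2 < c.supportᶜ.card := by
      rw [Finset.card_compl, Fintype.card_fin]; omega
    obtain ⟨a, b, d, ha, hb, hd, hab, had, hbd⟩ := Finset.two_lt_card_iff.mp hcard
    simp only [Finset.mem_compl, Perm.mem_support, not_not] at ha hb hd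
    refine ⟨swap a b * swap a d, Perm.isThreeCycle_swap_mul_swap_same hab had hbd, ?_⟩
    rw [conj, ha, hb, hd]

/-- In the symmetric group of degree 8, let A be the subgroup generated by a 3-cycle. Then every conjugacy class contains an element g for which A is subnormal in the subgroup generated by A and its conjugate by g, although O_3 of the symmetric group of degree 8 is trivial. -/
theorem result
    (σ : Equiv.Perm (Fin 8)) (hσ : σ.IsThreeCycle) :
    (∀ c : Equiv.Perm (Fin 8), ∃ g : Equiv.Perm (Fin 8), IsConj c g ∧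
      ((Subgroup.zpowers σ).subgroupOf (Subgroup.zpowers σ ⊔ MulAut.conj g • Subgroup.zpowers σ)).IsSubnormal) ∧
    Cfsg.pCore 3 (Equiv.Perm (Fin 8)) = ⊥ := by
  constructor
  · intro c
    obtain ⟨τ, hτ, hcomm⟩ := exists_three_cycle c
    obtain ⟨k, rfl⟩ := isConj_iff.mp (Equiv.Perm.isConj_of_cycleType_eq (hτ.cycleType.trans hσ.cycleType.symm))
    refine ⟨k * c * k⁻¹, isConj_iff.mpr ⟨k, rfl⟩, ?_⟩
    have h1 : Commute (k * τ * k⁻¹) (MulAut.conj (k * c * k⁻¹) (k * τ * k⁻¹)) := by
      have := hcomm.map (MulAut.conj k).toMonoidHom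
      simpa [mul_assoc] using this
    refine (Subgroup.normal_subgroupOf_iff_le_normalizer le_sup_left).mpr
      (sup_le Subgroup.le_normalizer ?_) |>.isSubnormal
    refine le_trans ?_ (Subgroup.centralizer_le_normalizer _)
    intro x hx
    rw [Subgroup.mem_pointwise_smul_iff_inv_smul_mem] at hx
    obtain ⟨j, hj⟩ := Subgroup.mem_zpowers_iff.mp hx
    have e : x = (MulAut.conj (k * c * k⁻¹) (k * τ * k⁻¹)) ^ j := by
      rw [← map_zpow, hj, ← MulAut.smul_def, smul_inv_smul]
    rw [Subgroup.mem_centralizer_iff]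
    intro y hy
    obtain ⟨i, rfl⟩ := Subgroup.mem_zpowers_iff.mp hy
    rw [e]
    exact (h1.zpow_zpow i j).eq
  · unfold Cfsg.pCore
    rw [sSup_eq_bot]
    rintro N ⟨hN, hNp⟩
    by_contra hne
    have : Nontrivial N := (Subgroup.nontrivial_iff_ne_bot N).mpr hne
    have hle : alternatingGroup (Fin 8) ≤ N := Equiv.Perm.alternatingGroup_le_of_normal (by simp) this
    obtain ⟨k, hk⟩ := (hNp.to_le hle).exists_card_eq
    rw [nat_card_alternatingGroup, Nat.card_fin] at hk
    have h5 : (5 : ℕ) ∣ 3 ^ k := hk ▸ by decide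
    have := (Nat.prime_five).dvd_of_dvd_pow h5
    norm_num at this

end Cfsg.Agent.S4332
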