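import Cfsg.Statements.S4333
import Cfsg.Agent.Core.Subnormal

set_option autoImplicit false
open Pointwise
open Cfsg

namespace Cfsg.Agent.S4333

open Subgroup
open scoped Pointwise

universe u

theorem aux : ∀ (n : ℕ) (G : Type u) [Group G] [Finite G], Nat.card G = n → ∀ A : Subgroup G,
    (∀ a ∈ A, ∀ g : G, (A.subgroupOf (A ⊔ MulAut.conj (g⁻¹ * a * g) • A)).IsSubnormal) →
      A.IsSubnormal := by
  intro n
  induction n using Nat.strong_induction_on with
  | _ n ih =>
  intro G _ _ hn A h
  by_contra hns
  have hA : Core.SubnormalInProper A := fun H hle hH => by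
    refine ih _ (hn ▸ Core.card_lt_of_ne_top hH) H rfl _ fun a ha g => ?_
    have hmem : ((a : G)) ∈ A := ha
    let f : ↥(A.subgroupOf H ⊔ MulAut.conj (g⁻¹ * a * g) • A.subgroupOf H) →*
        ↥(A ⊔ MulAut.conj ((g : G)⁻¹ * (a : G) * g) • A) :=
      (H.subtype.comp (Subgroup.subtype _)).codRestrict _ fun y => by
        have hy : ((y : H) : G) ∈
            (A.subgroupOf H ⊔ MulAut.conj (g⁻¹ * a * g) • A.subgroupOf H).map H.subtype :=
          mem_map_of_mem _ y.2
        rwa [Subgroup.map_sup, Core.map_conj_smul, map_subgroupOf_eq_of_le hle] at hy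
    exact (h _ hmem (g : G)).comap f
  have hAtop : A ≠ ⊤ := fun he => hns (he ▸ IsSubnormal.top)
  obtain ⟨M, hM, hAM⟩ := (eq_top_or_exists_le_coatom A).resolve_left hAtop
  have hle : normalClosure (A : Set G) ≤ M := by
    rw [Subgroup.normalClosure, Subgroup.closure_le]
    intro z hz
    obtain ⟨a, ha, hc⟩ := Group.mem_conjugatesOfSet_iff.mp hz
    obtain ⟨c, rfl⟩ := isConj_iff.mp hc
    set x := c * a * c⁻¹ with hx
    have hx' : x = (c⁻¹)⁻¹ * a * c⁻¹ := by rw [inv_inv]
    have hxA : MulAut.conj x • A ≤ M := by
      rcases eq_top_or_exists_le_coatom (A ⊔ MulAut.conj x • A) with he | ⟨K, hK, hKle⟩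
      · exfalso
        refine hns (IsSubnormal.trans le_top ?_ IsSubnormal.top)
        have := h a ha c⁻¹
        rw [← hx', he] at this
        exact this
      · rw [Core.unique_coatom_of_subnormalInProper hA hns hM hK hAM (le_sup_left.trans hKle)]
        exact le_sup_right.trans hKle
    by_cases hMn : M.Normal
    · exact hMn.conj_mem a (hAM ha) c
    -- `x` normalizes `M`
    have hns' : ¬ (MulAut.conj x • A).IsSubnormal := fun h' => hns (by
      have := h'.map (f := (MulAut.conj x⁻¹).toMonoidHom) (MulAut.conj x⁻¹).surjective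
      rwa [show (MulAut.conj x • A).map (MulAut.conj x⁻¹).toMonoidHom =
        MulAut.conj x⁻¹ • MulAut.conj x • A from rfl, smul_smul, ← map_mul, inv_mul_cancel, map_one,
        one_smul] at this)
    have hxM : MulAut.conj x • M = M := by
      refine Core.unique_coatom_of_subnormalInProper (hA.conj x) hns' ?_ hM
        (pointwise_smul_le_pointwise_smul_iff.mpr hAM) hxA
      exact (OrderIso.isCoatom_iff (MulEquiv.mapSubgroup (MulAut.conj x)) M).mpr hM
    have hxn : x ∈ Subgroup.normalizer (M : Set G) := Subgroup.mem_normalizer_iff_map_conj_eq.mpr hxM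
    rw [(hM.le_iff.mp Subgroup.le_normalizer).resolve_left
      fun e => hMn (normalizer_eq_top_iff.mp e)] at hxn
    exact hxn
  exact hns (IsSubnormal.trans le_normalClosure (hA _ le_normalClosure
    fun he => hM.1 (top_le_iff.mp (he ▸ hle))) normalClosure_normal.isSubnormal)


/-- Let A be a subgroup of a finite group G. If A is subnormal in the subgroup generated by A and its conjugate by g⁻¹ a g, for every a ∈ A and every g ∈ G, then A is subnormal in G. (A sharpening of Wielandt's subnormality criterion: only conjugates of A by conjugates of elements of A are needed.) -/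
theorem result {G : Type*} [Group G] [Finite G]
    (A : Subgroup G)
    (h : ∀ a ∈ A, ∀ g : G, (A.subgroupOf (A ⊔ MulAut.conj (g⁻¹ * a * g) • A)).IsSubnormal) :
    A.IsSubnormal := by
  exact aux (Nat.card G) G rfl A h

end Cfsg.Agent.S4333
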