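import Cfsg.Statements.S4334
import Cfsg.Agent.Core.Fitting
import Cfsg.Agent.Transfer.Complement
import Cfsg.Agent.Coprime.Action
import Cfsg.Agent.FGS4.Subnormal

set_option autoImplicit false
open Cfsg

namespace Cfsg.Agent.S4334

open Subgroup

universe u

variable {G : Type u} [Group G] [Finite G]

local notation "CC(" R ")" => Subgroup.centralizer (SetLike.coe R)
local notation:max H "^[" g "]" => Subgroup.map (MulEquiv.toMonoidHom (MulAut.conj g)) H

theorem mem_centralizer_of_index {R T : Subgroup G} (hT : T ≤ CC(R)) {y : G}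
    (hy : y ∈ Subgroup.normalizer (R : Set G)) (hcop : (orderOf y).Coprime T.index) : y ∈ CC(R) := by
  set N := Subgroup.normalizer (R : Set G)
  haveI : (CC(R).subgroupOf N).Normal := Transfer.centralizer_subgroupOf_normalizer_normal R
  have h1 : y ^ (CC(R)).relIndex N ∈ CC(R) := (CC(R).subgroupOf N).pow_index_mem ⟨y, hy⟩
  have hd : (CC(R)).relIndex N ∣ T.index :=
    (relIndex_dvd_index_of_le (H := CC(R)) (K := N) (centralizer_le_normalizer _)).trans
      (index_dvd_of_le hT)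
  obtain ⟨j, hj⟩ := exists_pow_eq_self_of_coprime ((hcop.coprime_dvd_right hd).symm)
  rw [← hj]
  exact pow_mem h1 j

/-- Every `τ`-subgroup lies in a conjugate of `T`. -/
def Emb (τ : Set ℕ) (T : Subgroup G) : Prop :=
  ∀ U : Subgroup G, Cfsg.IsPiSubgroup τ U → ∃ g : G, U ≤ T^[g]

theorem map_conj_le_centralizer {A B : Subgroup G} (h : A ≤ CC(B)) (g : G) :
    A^[g] ≤ CC(B^[g]) := by
  rintro _ ⟨a, ha, rfl⟩
  rw [Subgroup.mem_centralizer_iff]
  rintro _ ⟨b, hb, rfl⟩
  rw [← map_mul, ← map_mul, Subgroup.mem_centralizer_iff.mp (h ha) b hb]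

theorem index_map_conj (A : Subgroup G) (g : G) : (A^[g]).index = A.index :=
  index_map_equiv A (MulAut.conj g)

theorem coprime_index {τ : Set ℕ} {n : ℕ} {T : Subgroup G}
    (hn : ∀ r : ℕ, r.Prime → r ∣ n → r ∈ τ) (hT : ∀ r ∈ τ, r.Prime → ¬ r ∣ T.index) :
    n.Coprime T.index :=
  Nat.coprime_of_dvd fun r hr h1 h2 => hT r (hn r hr h1) hr h2

/-- Adding one prime. -/
theorem emb_insert {τ : Set ℕ} {T : Subgroup G} (p : ℕ) [hp : Fact p.Prime] (hpτ : p ∉ τ)
    (P : Sylow p G) (hTi : ∀ r ∈ τ, r.Prime → ¬ r ∣ T.index)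
    (hc : (P : Subgroup G) ≤ CC(T)) (hE : Emb τ T) :
    Emb (insert p τ) ((P : Subgroup G) ⊔ T) := by
  intro U hU
  have hcP : T ≤ CC((P : Subgroup G)) := le_centralizer_iff.mp hc
  -- a `τ`-element normalizing a `p`-subgroup centralizes it
  have hfac1 : ∀ R : Subgroup G, IsPGroup p R → ∀ y ∈ Subgroup.normalizer (R : Set G),
      (∀ r : ℕ, r.Prime → r ∣ orderOf y → r ∈ τ) → y ∈ CC(R) := by
    intro R hR y hy hyo
    obtain ⟨S, hS⟩ := hR.exists_le_sylow
    obtain ⟨g, hg⟩ := MulAction.exists_smul_eq G P S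
    have hRP : R ≤ (P : Subgroup G)^[g] := by
      rw [← hg, Sylow.coe_subgroup_smul] at hS
      exact hS
    exact mem_centralizer_of_index
      ((map_conj_le_centralizer hcP g).trans (Subgroup.centralizer_le hRP)) hy
      (coprime_index hyo fun r hr hrp => by rw [index_map_conj]; exact hTi r hr hrp)
  -- a `p`-element normalizing a `τ`-subgroup centralizes it
  have hfac2 : ∀ Q : Subgroup G, Cfsg.IsPiSubgroup τ Q → ∀ y ∈ Subgroup.normalizer (Q : Set G),
      (∃ k : ℕ, orderOf y = p ^ k) → y ∈ CC(Q) := by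
    rintro Q hQ y hy ⟨k, hk⟩
    obtain ⟨g, hg⟩ := hE Q hQ
    refine mem_centralizer_of_index
      ((map_conj_le_centralizer hc g).trans (Subgroup.centralizer_le hg)) hy ?_
    rw [index_map_conj, hk]
    exact (hp.out.coprime_iff_not_dvd.mpr P.not_dvd_index).pow_left k
  obtain ⟨PU⟩ := (inferInstance : Nonempty (Sylow p U))
  have hτof : ∀ y : G, y ∈ U → (orderOf y).Coprime p → ∀ r : ℕ, r.Prime → r ∣ orderOf y → r ∈ τ := by
    intro y hy hyp r hr hrd
    refine (hU r hr (hrd.trans (Subgroup.orderOf_dvd_natCard U hy))).resolve_left fun e => ?_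
    exact hr.ne_one (Nat.eq_one_of_dvd_one (hyp ▸ Nat.dvd_gcd hrd (e ▸ dvd_rfl)))
  have hnc : Cfsg.HasNormalPComplement p U := by
    refine Transfer.hasNormalPComplement_of_frobenius PU fun Q hQ _ y hy hyp => ?_
    have hy' : (y : G) ∈ Subgroup.normalizer ((Q.map U.subtype : Subgroup G) : Set G) :=
      Subgroup.le_normalizer_map _ (Subgroup.mem_map_of_mem _ hy)
    have := hfac1 (Q.map U.subtype) ((PU.2.to_le hQ).map _) y hy'
      (hτof y y.2 (by rwa [Subgroup.orderOf_coe]))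
    rw [Subgroup.mem_centralizer_iff]
    intro q hq
    exact Subtype.ext (Subgroup.mem_centralizer_iff.mp this q ⟨q, hq, rfl⟩)
  set K := (Cfsg.pResidual p U).map U.subtype with hK
  set R := (PU : Subgroup U).map U.subtype with hR
  have hRp : IsPGroup p R := PU.2.map _
  have hKU : K ≤ U := map_subtype_le _
  have hsup : R ⊔ K = U := by
    rw [hR, hK, ← Subgroup.map_sup, Transfer.sylow_sup_pResidual, ← MonoidHom.range_eq_map,
      Subgroup.range_subtype]
  have hKp : ¬ p ∣ Nat.card K := by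
    intro hd
    rw [hK, card_map_of_injective U.subtype_injective] at hd
    obtain ⟨x, hx⟩ := exists_prime_orderOf_dvd_card' (G := Cfsg.pResidual p U) p hd
    have := (Transfer.mem_pResidual_iff hnc).mp x.2
    rw [Subgroup.orderOf_coe, hx, Nat.coprime_self] at this
    exact hp.out.ne_one this
  have hKτ : Cfsg.IsPiSubgroup τ K := fun r hr hrd =>
    (hU r hr (hrd.trans (Subgroup.card_dvd_of_le hKU))).resolve_left fun e => hKp (e ▸ hrd)
  have hRK : R ≤ Subgroup.normalizer (K : Set G) := by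
    haveI : (Cfsg.pResidual p U).Normal := Transfer.pResidual_normal
    refine (map_subtype_le _).trans ?_
    rw [← normal_subgroupOf_iff_le_normalizer hKU, hK]
    rwa [Subgroup.subgroupOf, comap_map_eq_self_of_injective U.subtype_injective]
  -- `R` centralizes `K`
  have hKR : K ≤ CC(R) := by
    haveI := hRp.isNilpotent
    obtain ⟨k, hk⟩ := IsPGroup.iff_card.mp hRp
    have hcop : (Nat.card R).Coprime (Nat.card K) := by
      rw [hk]; exact (hp.out.coprime_iff_not_dvd.mpr hKp).pow_left k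
    have hle : ∀ q : ℕ, q.Prime → ∃ Q : Subgroup G, Q ≤ K ∧ Q ≤ CC(R) ∧ ¬ q ∣ Q.relIndex K := by
      intro q hq
      haveI := Fact.mk hq
      obtain ⟨Q, hQK, -, hQi, hRQ⟩ := Coprime.exists_invariant_sylow hRK hcop q
      refine ⟨Q, hQK, le_centralizer_iff.mp fun y hy => hfac2 Q
        (fun r hr hrd => hKτ r hr (hrd.trans (Subgroup.card_dvd_of_le hQK))) y (hRQ hy) ?_, hQi⟩
      exact (IsPGroup.iff_orderOf.mp hRp ⟨y, hy⟩).imp fun k hk => by
        rwa [Subgroup.orderOf_mk] at hk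
    by_contra hnot
    have hne : (CC(R) ⊓ K).relIndex K ≠ 1 := fun e =>
      hnot ((relIndex_eq_one.mp e).trans inf_le_left)
    obtain ⟨q, hq, hqd⟩ := Nat.exists_prime_and_dvd hne
    obtain ⟨Q, hQK, hQC, hQi⟩ := hle q hq
    exact hQi (hqd.trans (relIndex_dvd_of_le_left K (le_inf hQC hQK)))
  obtain ⟨g, hg⟩ := hE K hKτ
  -- move `R` inside `C(K)`
  set C := CC(K) with hC
  have hPC : (P : Subgroup G)^[g] ≤ C :=
    (map_conj_le_centralizer hc g).trans (Subgroup.centralizer_le hg)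
  have hRC : R ≤ C := le_centralizer_iff.mp hKR
  let S : Sylow p C := ((g • P).subtype (N := C) (by rw [Sylow.coe_subgroup_smul]; exact hPC))
  obtain ⟨S', hS'⟩ := (hRp.comap_subtype (K := C)).exists_le_sylow
  obtain ⟨c, hc'⟩ := MulAction.exists_smul_eq C S S'
  refine ⟨(c : G) * g, ?_⟩
  rw [← hsup]
  refine sup_le (fun x hx => ?_) (fun x hx => ?_)
  · have hxs : (⟨x, hRC hx⟩ : C) ∈ (c • S : Sylow p C) := hc'.symm ▸ hS' hx
    rw [Sylow.smul_subtype] at hxs
    have hxs' : x ∈ ((c : G) • g • P : Sylow p G).1 := hxs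
    rw [← mul_smul, Sylow.coe_subgroup_smul] at hxs'
    exact Subgroup.map_mono (f := (MulAut.conj ((c : G) * g)).toMonoidHom) le_sup_left hxs'
  · obtain ⟨t, ht, htx⟩ := hg hx
    refine ⟨t, le_sup_right (a := (P : Subgroup G)) ht, ?_⟩
    have hcx := Subgroup.mem_centralizer_iff.mp c.2 x hx
    rw [← htx] at hcx
    simp only [MulEquiv.coe_toMonoidHom, MulAut.conj_apply] at hcx htx ⊢
    rw [← htx]
    calc (c : G) * g * t * ((c : G) * g)⁻¹ = (c : G) * (g * t * g⁻¹) * (c : G)⁻¹ := by group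
      _ = g * t * g⁻¹ := by rw [← hcx, mul_inv_cancel_right]

theorem commute_of_nilpotent_coprime {N : Subgroup G} (hN : Group.IsNilpotent N) {p q : ℕ}
    (hp : p.Prime) (hq : q.Prime) (hpq : p ≠ q) {A B : Subgroup G} (hA : IsPGroup p A)
    (hB : IsPGroup q B) (hAN : A ≤ N) (hBN : B ≤ N) : A ≤ CC(B) := by
  haveI := Fact.mk hp
  haveI := Fact.mk hq
  haveI := hN
  obtain ⟨P, hP⟩ := (hA.comap_subtype (K := N)).exists_le_sylow
  obtain ⟨Q, hQ⟩ := (hB.comap_subtype (K := N)).exists_le_sylow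
  have hnorm := fun (r : ℕ) (R : Sylow r N) [Fact r.Prime] =>
    (Core.isNilpotent_iff_forall_sylow_normal (G := N)).mp hN r inferInstance R
  intro a ha
  rw [Subgroup.mem_centralizer_iff]
  intro b hb
  exact congrArg Subtype.val (Subgroup.commute_of_normal_of_disjoint _ _ (hnorm p P) (hnorm q Q)
    (IsPGroup.disjoint_of_ne p q hpq _ _ P.2 Q.2) ⟨a, hAN ha⟩ ⟨b, hBN hb⟩ (hP ha) (hQ hb)).eq.symm

theorem card_sup_dvd {A B : Subgroup G} (h : A ≤ CC(B)) :
    Nat.card (A ⊔ B : Subgroup G) ∣ Nat.card A * Nat.card B := by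
  have hn : A ≤ Subgroup.normalizer (B : Set G) := h.trans (centralizer_le_normalizer (B : Set G))
  haveI : (B.subgroupOf (A ⊔ B)).Normal :=
    normal_subgroupOf_of_le_normalizer (sup_le hn Subgroup.le_normalizer)
  have h3 := relIndex_mul_relIndex ⊥ B (A ⊔ B) bot_le le_sup_right
  rw [relIndex_bot_left, relIndex_bot_left] at h3
  have h5 : B.relIndex (A ⊔ B) ∣ Nat.card A := by
    have hs : A.subgroupOf (A ⊔ B) ⊔ B.subgroupOf (A ⊔ B) = ⊤ := by
      rw [← subgroupOf_sup le_sup_left le_sup_right, subgroupOf_self]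
    have h6 := relIndex_sup_right (H := A.subgroupOf (A ⊔ B)) (K := B.subgroupOf (A ⊔ B))
    rw [hs, relIndex_top_right, relIndex_subgroupOf le_sup_left] at h6
    rw [show B.relIndex (A ⊔ B) = B.relIndex A from h6]
    exact relIndex_dvd_card B A
  rw [← h3, mul_comm (Nat.card A)]
  exact Nat.mul_dvd_mul_left _ h5

theorem isDPi (σ τ π : Set ℕ) (hπ : π = σ ∪ τ) (hd : Disjoint σ τ) (H Hs Ht : Subgroup G)
    (hH : Cfsg.IsPiHall π H) (hs : Cfsg.IsPiSubgroup σ Hs) (ht : Cfsg.IsPiSubgroup τ Ht)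
    (hsn : Group.IsNilpotent Hs) (hjoin : Hs ⊔ Ht = H)
    (hcomm : ∀ a ∈ Hs, ∀ b ∈ Ht, a * b = b * a) (hD : Cfsg.IsDPiGroup τ G) :
    Cfsg.IsDPiGroup π G := by
  classical
  have hst : Hs ≤ CC(Ht) := fun a ha => Subgroup.mem_centralizer_iff.mpr fun b hb => (hcomm a ha b hb).symm
  have hsH : Hs ≤ H := hjoin ▸ le_sup_left
  have htH : Ht ≤ H := hjoin ▸ le_sup_right
  have hcard : Nat.card H ∣ Nat.card Hs * Nat.card Ht := hjoin ▸ card_sup_dvd hst
  have hnotdvd : ∀ {A B : Subgroup G} (ρ : Set ℕ), A ≤ H → Nat.card H ∣ Nat.card A * Nat.card B →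
      Cfsg.IsPiSubgroup ρ B → ∀ r : ℕ, r.Prime → r ∈ π → r ∉ ρ → ¬ r ∣ A.index := by
    intro A B ρ hA hAB hB r hr hrπ hrρ hdvd
    rw [← relIndex_mul_index hA] at hdvd
    rcases hr.dvd_mul.mp hdvd with h | h
    · refine hrρ (hB r hr (h.trans (Nat.dvd_of_mul_dvd_mul_left (k := Nat.card A) Nat.card_pos ?_)))
      have := relIndex_mul_relIndex ⊥ A H bot_le hA
      rw [relIndex_bot_left, relIndex_bot_left] at this
      rwa [this]
    · exact hH.2 r hr hrπ h
  have hti : ∀ r ∈ τ, r.Prime → ¬ r ∣ Ht.index := fun r hr hrp =>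
    hnotdvd σ htH (by rwa [mul_comm]) hs r hrp (hπ ▸ Or.inr hr)
      fun h => Set.disjoint_left.mp hd h hr
  have hsi : ∀ r ∈ σ, r.Prime → ¬ r ∣ Hs.index := fun r hr hrp =>
    hnotdvd τ hsH hcard ht r hrp (hπ ▸ Or.inl hr) fun h => Set.disjoint_left.mp hd hr h
  have hEt : Emb τ Ht := by
    intro U hU
    obtain ⟨M, hUM, hM⟩ := (Set.toFinite {K : Subgroup G | Cfsg.IsPiSubgroup τ K}).exists_le_maximal hU
    obtain ⟨N, hTN, hN⟩ := (Set.toFinite {K : Subgroup G | Cfsg.IsPiSubgroup τ K}).exists_le_maximal ht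
    have hNT : N = Ht := by
      refine le_antisymm ?_ hTN
      have h1 : (Nat.card N).Coprime Ht.index := coprime_index (fun r hr h => hN.1 r hr h) hti
      have h2 : Ht.relIndex N ∣ Ht.index := relIndex_dvd_index_of_le hTN
      exact relIndex_eq_one.mp (Nat.eq_one_of_dvd_one
        (h1 ▸ Nat.dvd_gcd (relIndex_dvd_card Ht N) h2))
    obtain ⟨g, hg⟩ := hD N M hN hM
    exact ⟨g, hNT ▸ hg ▸ hUM⟩
  -- add the primes of `σ` one by one
  have key : ∀ s : Finset ℕ, (∀ p ∈ s, p.Prime ∧ p ∈ σ) →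
      ∃ T : Subgroup G, T ≤ H ∧ Emb (τ ∪ (s : Set ℕ)) T ∧
        (∀ r ∈ τ ∪ (s : Set ℕ), r.Prime → ¬ r ∣ T.index) ∧
        (∀ q : ℕ, q.Prime → q ∈ σ → q ∉ s → ∀ A : Subgroup G, IsPGroup q A → A ≤ Hs → A ≤ CC(T)) := by
    intro s
    induction s using Finset.induction with
    | empty =>
      intro _
      exact ⟨Ht, htH, by simpa using hEt, by simpa using hti,
        fun q _ _ _ A _ hA => hA.trans hst⟩
    | insert p s hps ih =>
      intro hsub
      obtain ⟨hp, hpσ⟩ := hsub p (Finset.mem_insert_self p s)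
      obtain ⟨T, hTH, hE, hTi, hTc⟩ := ih fun q hq => hsub q (Finset.mem_insert_of_mem hq)
      haveI := Fact.mk hp
      obtain ⟨S⟩ := (inferInstance : Nonempty (Sylow p Hs))
      have hSi : ¬ p ∣ ((S : Subgroup Hs).map Hs.subtype).index := by
        rw [index_map_subtype]
        exact hp.not_dvd_mul S.not_dvd_index (hsi p hpσ hp)
      let P : Sylow p G := (S.2.map Hs.subtype).toSylow hSi
      have hPs : (P : Subgroup G) ≤ Hs := map_subtype_le _
      have hpτ : p ∉ τ ∪ (s : Set ℕ) := fun h => h.elim (Set.disjoint_left.mp hd hpσ)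
        (fun h => hps (by simpa using h))
      have hPT := hTc p hp hpσ hps P P.2 hPs
      have hEq : τ ∪ ((insert p s : Finset ℕ) : Set ℕ) = insert p (τ ∪ (s : Set ℕ)) := by
        rw [Finset.coe_insert, Set.union_insert]
      refine ⟨(P : Subgroup G) ⊔ T, sup_le (hPs.trans hsH) hTH, ?_, ?_, ?_⟩
      · rw [hEq]
        exact emb_insert p hpτ P hTi hPT hE
      · rw [hEq]
        intro r hr hrp hdvd
        rcases Set.mem_insert_iff.mp hr with rfl | hr
        · exact P.not_dvd_index (hdvd.trans (index_dvd_of_le le_sup_left))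
        · exact hTi r hr hrp (hdvd.trans (index_dvd_of_le le_sup_right))
      · intro q hq hqσ hqs A hA hAs
        rw [Finset.mem_insert, not_or] at hqs
        exact le_centralizer_iff.mpr (sup_le
          (le_centralizer_iff.mp (commute_of_nilpotent_coprime hsn hq hp hqs.1 hA P.2 hAs hPs))
          (le_centralizer_iff.mp (hTc q hq hqσ hqs.2 A hA hAs)))
  obtain ⟨T, hTH, hE, -, -⟩ := key ((Nat.card G).primeFactors.filter (· ∈ σ)) fun p hp =>
    ⟨Nat.prime_of_mem_primeFactors (Finset.mem_filter.mp hp).1, (Finset.mem_filter.mp hp).2⟩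
  intro U V hU hV
  have hmax : ∀ W, Maximal (Cfsg.IsPiSubgroup π) W → ∃ g : G, W = H^[g] := by
    intro W hW
    obtain ⟨g, hg⟩ := hE W fun r hr hrd => by
      have := hW.1 r hr hrd
      rw [hπ] at this
      rcases this with h | h
      · exact Or.inr (Finset.mem_coe.mpr (Finset.mem_filter.mpr ⟨Nat.mem_primeFactors.mpr
          ⟨hr, hrd.trans W.card_subgroup_dvd_card, Nat.card_pos.ne'⟩, h⟩))
      · exact Or.inl h
    have hle : W ≤ H^[g] := hg.trans (Subgroup.map_mono hTH)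
    refine ⟨g, le_antisymm hle (hW.2 (fun r hr hrd => hH.1 r hr ?_) hle)⟩
    rwa [card_map_of_injective (MulAut.conj g).injective] at hrd
  obtain ⟨a, ha⟩ := hmax U hU
  obtain ⟨b, hb⟩ := hmax V hV
  refine ⟨b * a⁻¹, ?_⟩
  rw [ha, hb, Subgroup.map_map]
  congr 1
  ext z
  simp [mul_assoc]


/-- Let σ and τ be disjoint sets of primes with union π. Suppose a finite group G has a Hall π-subgroup H which is the direct product of a nilpotent σ-subgroup and a τ-subgroup (two elementwise-commuting subgroups generating H), and that the maximal τ-subgroups of G are pairwise conjugate. Then the maximal π-subgroups of G are pairwise conjugate. -/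
theorem result {G : Type*} [Group G] [Finite G]
    (σ τ π : Set ℕ) (hπ : π = σ ∪ τ) (hd : Disjoint σ τ) (H Hs Ht : Subgroup G) (hH : Cfsg.IsPiHall π H)
    (hs : Cfsg.IsPiSubgroup σ Hs) (ht : Cfsg.IsPiSubgroup τ Ht) (hsn : Group.IsNilpotent Hs)
    (hjoin : Hs ⊔ Ht = H) (hcomm : ∀ a ∈ Hs, ∀ b ∈ Ht, a * b = b * a) (hD : Cfsg.IsDPiGroup τ G) :
    Cfsg.IsDPiGroup π G := by
  exact isDPi σ τ π hπ hd H Hs Ht hH hs ht hsn hjoin hcomm hD

end Cfsg.Agent.S4334
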