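import Cfsg.Statements.S4337
import Cfsg.Agent.FGS4.Swaps

set_option autoImplicit false
open Cfsg

namespace Cfsg.Agent.S4337

/-- In a finite symmetric group, any three transpositions generate a solvable subgroup. -/
theorem result (n : ℕ) (a b c : Equiv.Perm (Fin n))
    (ha : a.IsSwap) (hb : b.IsSwap) (hc : c.IsSwap) :
    Group.IsSolvable (Subgroup.closure ({a, b, c} : Set (Equiv.Perm (Fin n)))) := by
  classical
  obtain ⟨d, hd, hinv⟩ := FGS4.exists_invariant_of_swaps ![a, b, c]
    (fun i => by fin_cases i <;> assumption)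
  rw [Fintype.card_fin] at hd
  have hset : ({a, b, c} : Set (Equiv.Perm (Fin n))) = Set.range ![a, b, c] := by
    simp only [Matrix.range_cons, Matrix.range_empty, Set.union_empty, Set.singleton_union]
  rw [hset]
  set H := Subgroup.closure (Set.range ![a, b, c])
  let f : (y : Fin n) → ↥H →* Equiv.Perm {x // d x = y} := fun y =>
    { toFun := fun σ => (σ : Equiv.Perm (Fin n)).subtypePerm (fun x => by rw [hinv σ σ.2 x])
      map_one' := by ext; simp
      map_mul' := fun σ τ => by ext; rfl }
  have hsol : ∀ y, ∃ k, derivedSeries (Equiv.Perm {x // d x = y}) k = ⊥ := fun y => by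
    have h4 : Fintype.card {x // d x = y} ≤ 4 := by
      have := FGS4.fiber_card_add_image_card_le d y
      rw [Fintype.card_fin] at this
      omega
    exact (FGS4.isSolvable_perm_of_card_le_four h4).solvable
  choose k hk using hsol
  refine ⟨Finset.univ.sup k, ?_⟩
  rw [eq_bot_iff]
  intro σ hσ
  rw [Subgroup.mem_bot]
  apply Subtype.ext
  ext x
  have h1 : f (d x) σ ∈ derivedSeries (Equiv.Perm {z // d z = d x}) (k (d x)) :=
    map_derivedSeries_le_derivedSeries (f (d x)) _
      ⟨σ, derivedSeries_antitone ↥H (Finset.le_sup (Finset.mem_univ (d x))) hσ, rfl⟩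
  rw [hk, Subgroup.mem_bot] at h1
  have h2 := congrArg Subtype.val (Equiv.congr_fun h1 ⟨x, rfl⟩)
  simpa [f] using congrArg Fin.val h2

end Cfsg.Agent.S4337
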