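import Cfsg.Statements.S4342


set_option autoImplicit false
open Cfsg

namespace Cfsg.Agent.S4342

/-- Let H be a normal subgroup of a finite group G and p a prime not dividing the index of H. Then the number of Sylow p-subgroups of H/Z(H) equals the number of Sylow p-subgroups of G. -/
theorem result {G : Type*} [Group G] [Finite G]
    (p : ℕ) [Fact p.Prime] (H : Subgroup G) [H.Normal] (hp : ¬ p ∣ H.index) :
    Nat.card (Sylow p (H ⧸ Subgroup.center H)) = Nat.card (Sylow p G) := by
  have hex : ∀ P : Sylow p H, ∃ Q : Sylow p G, (Q : Subgroup G) = (P : Subgroup H).map H.subtype :=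
    fun P => ⟨(P.isPGroup'.map H.subtype).toSylow (by
      rw [Subgroup.index_map_subtype]
      exact Nat.Prime.not_dvd_mul Fact.out P.not_dvd_index hp), rfl⟩
  choose φ hφ using hex
  have hbij : Function.Bijective φ := by
    refine ⟨fun P P' h => ?_, fun Q => ?_⟩
    · have h' : (φ P : Subgroup G) = φ P' := congrArg _ h
      rw [hφ, hφ] at h'
      exact Sylow.ext (Subgroup.map_injective H.subtype_injective h')
    · obtain ⟨P⟩ : Nonempty (Sylow p H) := inferInstance
      obtain ⟨g, hg⟩ := MulAction.exists_smul_eq G (φ P) Q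
      have hQH : (Q : Subgroup G) ≤ H := by
        intro y hy
        rw [← hg, Sylow.coe_subgroup_smul, hφ, Subgroup.mem_pointwise_smul_iff_inv_smul_mem] at hy
        have h1 := Subgroup.Normal.conj_mem inferInstance _ (Subgroup.map_subtype_le _ hy) g
        simpa [MulAut.smul_def, mul_assoc] using h1
      refine ⟨Q.subtype hQH, Sylow.ext ?_⟩
      rw [hφ, Sylow.coe_subtype, Subgroup.subgroupOf_map_subtype, inf_of_le_left hQH]
  refine Eq.trans ?_ (Nat.card_eq_of_bijective φ hbij)
  have hsur := QuotientGroup.mk'_surjective (Subgroup.center H)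
  refine (Nat.card_eq_of_bijective _ ⟨fun P Q h => ?_, Sylow.mapSurjective_surjective hsur p⟩).symm
  have h' := congrArg (fun S : Sylow p (H ⧸ Subgroup.center H) => (S : Subgroup (H ⧸ Subgroup.center H))) h
  simp only [Sylow.coe_mapSurjective] at h'
  have hle : (Q : Subgroup H) ≤ Subgroup.normalizer ((P : Subgroup H) : Set H) := by
    intro y hy
    have : QuotientGroup.mk' (Subgroup.center H) y ∈ (P : Subgroup H).map (QuotientGroup.mk' _) :=
      h' ▸ Subgroup.mem_map_of_mem _ hy
    obtain ⟨x, hx, hxy⟩ := this
    have hz : x⁻¹ * y ∈ Subgroup.center H := by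
      rw [← QuotientGroup.eq]; exact hxy
    have := Subgroup.mul_mem _ (Subgroup.le_normalizer (H := (P : Subgroup H)) hx)
      (Subgroup.center_le_normalizer _ hz)
    simpa using this
  have h2 := Q.isPGroup'.inf_normalizer_sylow P
  change (Q : Subgroup H) ⊓ Subgroup.normalizer ((P : Subgroup H) : Set H) = _ at h2
  rw [inf_of_le_left hle, eq_comm, inf_eq_left] at h2
  exact Sylow.ext (Q.is_maximal' P.isPGroup' h2)

end Cfsg.Agent.S4342
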