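import Cfsg.Statements.S4343
import Cfsg.Agent.Core.Cores
import Cfsg.Agent.S1009

set_option autoImplicit false
open Cfsg

namespace Cfsg.Agent.S4343

/-- Let S be a finite non-abelian simple group and p a prime dividing its order. If S has fewer than p² Sylow p-subgroups, then its Sylow p-subgroups have order p. -/
theorem result {S : Type*} [Group S] [Finite S]
    [IsSimpleGroup S] (hS : ¬ IsMulCommutative S) (p : ℕ) [Fact p.Prime] (hp : p ∣ Nat.card S)
    (hn : Nat.card (Sylow p S) < p ^ 2) (P : Sylow p S) : Nat.card P = p := by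
  have hp' : p.Prime := Fact.out
  have hcore : Cfsg.pCore p S = ⊥ := by
    have hN : (Cfsg.pCore p S).Normal := Subgroup.sSup_normal _ fun _ h => h.1
    refine hN.eq_bot_or_eq_top.resolve_right fun h => hS ?_
    have hpg : IsPGroup p S := by
      have := Core.isPGroup_pCore p S
      rw [h] at this
      exact this.of_equiv Subgroup.topEquiv
    have := hpg.isNilpotent
    have hc := (Subgroup.Normal.eq_bot_or_eq_top (inferInstance : (Subgroup.center S).Normal)).resolve_left
      (Group.IsNilpotent.center_ne_bot (G := S))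
    exact ⟨⟨fun a b => ((Subgroup.mem_center_iff.mp (hc ▸ Subgroup.mem_top a : a ∈ Subgroup.center S)) b).symm⟩⟩
  have horb : ∀ R Q : Sylow p S,
      (∀ x ∈ (R : Subgroup S), x ^ p ∈ (Q : Subgroup S)) ∧
      (∀ x ∈ (R : Subgroup S), ∀ y ∈ (R : Subgroup S), x * y * x⁻¹ * y⁻¹ ∈ (Q : Subgroup S)) ∧
      ((R : Subgroup S) ⊓ Q = ⊥ → Nat.card R ∣ p) := by
    intro R Q
    have hstab : ∀ x : (R : Subgroup S), x ∈ MulAction.stabilizer (R : Subgroup S) Q → (x : S) ∈ (Q : Subgroup S) := by
      intro x hx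
      have h1 : (x : S) ∈ Subgroup.normalizer ((Q : Subgroup S) : Set S) :=
        Sylow.smul_eq_iff_mem_normalizer.mp hx
      have h2 := R.isPGroup'.inf_normalizer_sylow Q
      have h3 : (x : S) ∈ (R : Subgroup S) ⊓ Subgroup.normalizer ((Q : Subgroup S) : Set S) := ⟨x.2, h1⟩
      exact ((SetLike.ext_iff.mp h2 (x : S)).mp h3).2
    set D := MulAction.stabilizer (R : Subgroup S) Q
    obtain ⟨k, hk⟩ := R.isPGroup'.index D
    have hk1 : k ≤ 1 := by
      by_contra hk1
      have : D.index ≤ Nat.card (Sylow p S) := by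
        rw [MulAction.index_stabilizer]
        exact Set.ncard_le_card _
      have : p ^ 2 ≤ p ^ k := Nat.pow_le_pow_right hp'.pos (by omega)
      omega
    have := R.isPGroup'.isNilpotent
    have hDn : D.Normal := by
      interval_cases k
      · have h1 : D = ⊤ := Subgroup.index_eq_one.mp (by simpa using hk)
        rw [h1]; infer_instance
      · have hne : D ≠ ⊤ := fun h => by rw [h, Subgroup.index_top, pow_one] at hk; exact hp'.ne_one hk.symm
        obtain ⟨M, hM, hDM⟩ := (eq_top_or_exists_le_coatom D).resolve_left hne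
        have hDeq : D = M := by
          refine le_antisymm hDM ?_
          have h1 := Subgroup.relIndex_mul_index hDM
          rw [hk, pow_one] at h1
          have hMi : M.index ≠ 1 := fun h => hM.1 (Subgroup.index_eq_one.mp h)
          have : D.relIndex M = 1 := by
            rcases (Nat.dvd_prime hp').mp (Dvd.intro _ h1) with h | h
            · exact h
            · rw [h] at h1
              exact absurd ((Nat.mul_eq_left hp'.ne_zero).mp h1) hMi
          exact Subgroup.relIndex_eq_one.mp this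
        rw [hDeq]
        exact Subgroup.NormalizerCondition.normal_of_coatom M Group.normalizerCondition_of_isNilpotent hM
    have hdvd : D.index ∣ p := by
      rw [hk]; exact (pow_dvd_pow p hk1).trans (by rw [pow_one])
    refine ⟨fun x hx => hstab ⟨x ^ p, Subgroup.pow_mem _ hx p⟩ ?_, fun x hx y hy => hstab
      ⟨x * y * x⁻¹ * y⁻¹, Subgroup.mul_mem _ (Subgroup.mul_mem _ (Subgroup.mul_mem _ hx hy)
        (Subgroup.inv_mem _ hx)) (Subgroup.inv_mem _ hy)⟩ ?_, fun h0 => ?_⟩
    · obtain ⟨c, hc⟩ := hdvd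
      have h1 := D.pow_index_mem (⟨x, hx⟩ : (R : Subgroup S))
      have h2 := D.pow_mem h1 c
      rw [← pow_mul, ← hc] at h2
      exact h2
    · let xq : (R : Subgroup S) ⧸ D := ((⟨x, hx⟩ : (R : Subgroup S)) : (R : Subgroup S) ⧸ D)
      let yq : (R : Subgroup S) ⧸ D := ((⟨y, hy⟩ : (R : Subgroup S)) : (R : Subgroup S) ⧸ D)
      have hcy : IsCyclic ((R : Subgroup S) ⧸ D) := by
        rcases (Nat.dvd_prime hp').mp hdvd with h | h
        · have : Subsingleton ((R : Subgroup S) ⧸ D) := (Nat.card_eq_one_iff_unique.mp h).1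
          infer_instance
        · exact isCyclic_of_prime_card (p := p) h
      have hcomm : xq * yq = yq * xq := hcy.isMulCommutative.is_comm.comm _ _
      rw [← QuotientGroup.eq_one_iff]
      have : ((⟨x * y * x⁻¹ * y⁻¹, Subgroup.mul_mem _ (Subgroup.mul_mem _ (Subgroup.mul_mem _ hx hy)
        (Subgroup.inv_mem _ hx)) (Subgroup.inv_mem _ hy)⟩ : (R : Subgroup S)) : (R : Subgroup S) ⧸ D) =
          xq * yq * xq⁻¹ * yq⁻¹ := rfl
      rw [this, hcomm]; group
    · have hD : D = ⊥ := by
        rw [eq_bot_iff]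
        intro x hx
        have : (x : S) ∈ ((R : Subgroup S) ⊓ Q : Subgroup S) := ⟨x.2, hstab x hx⟩
        rw [h0, Subgroup.mem_bot] at this
        exact Subgroup.mem_bot.mpr (Subtype.ext this)
      rwa [hD, Subgroup.index_bot] at hdvd
  have hab : ∀ R : Sylow p S, IsMulCommutative ↥(R : Subgroup S) := fun R => ⟨⟨fun a b => by
    have h1 : (a : S) * b * (a : S)⁻¹ * (b : S)⁻¹ ∈ Cfsg.pCore p S := by
      rw [Core.pCore_eq_iInf_sylow, Subgroup.mem_iInf]
      exact fun Q => (horb R Q).2.1 a a.2 b b.2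
    rw [hcore, Subgroup.mem_bot, mul_inv_eq_one, mul_inv_eq_iff_eq_mul] at h1
    exact Subtype.ext h1⟩⟩
  obtain ⟨R, Q, hRQ⟩ := S1009.result p hab
  rw [← Core.pCore_eq_iInf_sylow, hcore] at hRQ
  have hcard : Nat.card (P : Subgroup S) = Nat.card (R : Subgroup S) :=
    Nat.card_congr (Sylow.equiv P R).toEquiv
  have h1 : Nat.card (R : Subgroup S) ∣ p := (horb R Q).2.2 hRQ
  have h2 : p ∣ Nat.card (R : Subgroup S) := R.dvd_card_of_dvd_card hp
  exact hcard.trans (Nat.dvd_antisymm h1 h2)

end Cfsg.Agent.S4343
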