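import Cfsg.Statements.S4344


set_option autoImplicit false
open Cfsg

namespace Cfsg.Agent.S4344

/-- Let S be a finite non-abelian simple group, M a maximal subgroup of S and C a cyclic normal subgroup of M. If a Sylow p-subgroup P of S (for a prime p dividing the order of S) is contained in C, then the number of Sylow p-subgroups of S equals the index of M. -/
theorem result {S : Type*} [Group S] [Finite S]
    [IsSimpleGroup S] (hS : ¬ IsMulCommutative S) (p : ℕ) [Fact p.Prime] (hp : p ∣ Nat.card S)
    (M : Subgroup S) (hM : IsCoatom M) (C : Subgroup S) (hCM : C ≤ M) (hCn : (C.subgroupOf M).Normal)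
    (hC : IsCyclic C) (P : Sylow p S) (hP : (P : Subgroup S) ≤ C) :
    Nat.card (Sylow p S) = M.index := by
  suffices Subgroup.normalizer ((P : Subgroup S) : Set S) = M by
    rw [P.card_eq_index_normalizer]; exact congrArg Subgroup.index this
  have hle : M ≤ Subgroup.normalizer ((P : Subgroup S) : Set S) := by
    have := hC
    intro m hm
    rw [Subgroup.mem_normalizer_iff]
    have key : ∀ m ∈ M, ∀ x ∈ (P : Subgroup S), m * x * m⁻¹ ∈ (P : Subgroup S) := by
      intro m hm x hx
      have hxC : m * x * m⁻¹ ∈ C := by
        have := hCn.conj_mem ⟨x, hCM (hP hx)⟩ (by simpa [Subgroup.mem_subgroupOf] using hP hx) ⟨m, hm⟩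
        simpa [Subgroup.mem_subgroupOf] using this
      -- in a cyclic group, elements whose order divides `|P|` lie in `P`
      have hpc : Nat.card (P : Subgroup S) = Nat.card ((P : Subgroup S).subgroupOf C) :=
        (Nat.card_congr (Subgroup.subgroupOfEquivOfLe hP).toEquiv).symm
      have horder : (⟨m * x * m⁻¹, hxC⟩ : C) ^ Nat.card ((P : Subgroup S).subgroupOf C) = 1 := by
        apply Subtype.ext
        simp only [SubgroupClass.coe_pow, OneMemClass.coe_one]
        rw [← hpc, ← MulAut.conj_apply, ← map_pow]
        have : x ^ Nat.card (P : Subgroup S) = 1 :=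
          orderOf_dvd_iff_pow_eq_one.mp (Subgroup.orderOf_dvd_natCard _ hx)
        rw [this, map_one]
      let _ : Fintype C := Fintype.ofFinite C
      classical
      set T := (P : Subgroup S).subgroupOf C
      have hsub : (T : Set C).toFinset ⊆ Finset.univ.filter (fun c : C => c ^ Nat.card T = 1) := by
        intro c hc
        simp only [Set.mem_toFinset, SetLike.mem_coe] at hc
        simp only [Finset.mem_filter, Finset.mem_univ, true_and]
        exact orderOf_dvd_iff_pow_eq_one.mp (T.orderOf_dvd_natCard hc)
      have heq := Finset.eq_of_subset_of_card_le hsub (by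
        refine (IsCyclic.card_pow_eq_one_le Nat.card_pos).trans ?_
        simp [Nat.card_eq_fintype_card])
      have : (⟨m * x * m⁻¹, hxC⟩ : C) ∈ (T : Set C).toFinset := heq ▸ Finset.mem_filter.mpr ⟨Finset.mem_univ _, horder⟩
      simpa [T, Subgroup.mem_subgroupOf] using this
    exact fun x => ⟨key m hm x, fun h => by simpa [mul_assoc] using key m⁻¹ (M.inv_mem hm) _ h⟩
  refine le_antisymm ?_ hle
  rcases eq_or_lt_of_le hle with h | h
  · exact h.ge
  · exfalso
    have htop := hM.2 _ h
    have hn : (P : Subgroup S).Normal := Subgroup.normalizer_eq_top_iff.mp htop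
    rcases hn.eq_bot_or_eq_top with h0 | h0
    · exact P.ne_bot_of_dvd_card hp h0
    · exact hM.1 (eq_top_iff.mpr (h0 ▸ hP.trans hCM))

end Cfsg.Agent.S4344
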