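import Cfsg.Statements.S4345
import Cfsg.Agent.FGS4.SylowNumber
import Cfsg.Agent.Core.MinimalNormal

set_option autoImplicit false
open Cfsg

namespace Cfsg.Agent.S4345

universe u

open Subgroup

theorem relIndex_sup_dvd_card {G : Type*} [Group G] [Finite G] (H N : Subgroup G) [N.Normal] :
    H.relIndex (H ⊔ N) ∣ Nat.card N := by
  have h1 := relIndex_mul_relIndex ⊥ (H ⊓ N) H bot_le inf_le_left
  have h3 := relIndex_mul_relIndex ⊥ N (H ⊔ N) bot_le le_sup_right
  have h4 := relIndex_mul_relIndex ⊥ H (H ⊔ N) bot_le le_sup_left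
  rw [relIndex_bot_left, relIndex_bot_left, inf_relIndex_left] at h1
  rw [relIndex_bot_left, relIndex_bot_left, relIndex_sup_right] at h3
  rw [relIndex_bot_left, relIndex_bot_left] at h4
  refine ⟨Nat.card (H ⊓ N : Subgroup G), ?_⟩
  apply mul_right_cancel₀ (Nat.card_pos (α := (H ⊔ N : Subgroup G))).ne'
  calc Nat.card N * Nat.card (H ⊔ N : Subgroup G)
      = Nat.card N * (Nat.card H * H.relIndex (H ⊔ N)) := by rw [h4]
    _ = H.relIndex (H ⊔ N) * Nat.card (H ⊓ N : Subgroup G) *
        (Nat.card N * N.relIndex H) := by rw [← h1]; ring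
    _ = _ := by rw [h3]

theorem solvable_parts : ∀ (n : ℕ) (G : Type u) [Group G] [Finite G], Nat.card G ≤ n →
    Group.IsSolvable G → ∀ (p ℓ : ℕ) [Fact p.Prime], ℓ.Prime →
      ℓ ^ (Nat.card (Sylow p G)).factorization ℓ ≡ 1 [MOD p] := by
  intro n
  induction n with
  | zero => intro G _ _ h; exact absurd h (Nat.card_pos (α := G)).not_ge
  | succ n ih =>
    intro G _ _ hn hG p ℓ _ hℓ
    cases subsingleton_or_nontrivial G with
    | inl h =>
      have h1 : Nat.card (Sylow p G) = 1 := by
        haveI : Subsingleton (Sylow p G) :=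
          ⟨fun a b => Sylow.ext (Subsingleton.elim _ _)⟩
        exact Nat.card_of_subsingleton (default : Sylow p G)
      simp only [h1, Nat.factorization_one, Finsupp.coe_zero, Pi.zero_apply, pow_zero]
      rfl
    | inr h =>
      obtain ⟨K, hK⟩ := Core.exists_isMinNormal (G := G)
      haveI := hK.1
      obtain ⟨-, q, hq, -, hKq⟩ := hK.elementaryAbelian_of_isSolvable
      have hlt : Nat.card (G ⧸ K) ≤ n := by
        have h1 := card_eq_card_quotient_mul_card_subgroup K
        have h2 : 1 < Nat.card K := by
          have := Nat.card_pos (α := K)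
          have := mt (Subgroup.card_eq_one (H := K)).mp hK.2.1
          omega
        have h3 := Nat.card_pos (α := G ⧸ K)
        have : Nat.card (G ⧸ K) * 2 ≤ Nat.card G := by rw [h1]; exact Nat.mul_le_mul_left _ h2
        omega
      have hquot := ih (G ⧸ K) hlt inferInstance p ℓ hℓ
      by_cases hqp : q = p
      · subst hqp
        rwa [← FGS4.card_sylow_quotient_of_isPGroup K hKq]
      · obtain ⟨P⟩ := (inferInstance : Nonempty (Sylow p G))
        rw [FGS4.card_sylow_eq_quotient_mul K P]
        set L := (P : Subgroup G) ⊔ K with hL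
        haveI := Fact.mk hq
        obtain ⟨a, ha⟩ := IsPGroup.iff_card.mp hKq
        have hdvd : Nat.card (Sylow p L) ∣ q ^ a := by
          rw [← ha]
          refine ((P.subtype (le_sup_left (b := K))).card_dvd_index).trans ?_
          exact relIndex_sup_dvd_card (P : Subgroup G) K
        obtain ⟨b, -, hb⟩ := (Nat.dvd_prime_pow hq).mp hdvd
        have hb1 : q ^ b ≡ 1 [MOD p] := hb ▸ card_sylow_modEq_one p L
        rw [Nat.factorization_mul Nat.card_pos.ne' (by rw [hb]; exact pow_ne_zero _ hq.ne_zero),
          Finsupp.add_apply, pow_add, hb, hq.factorization_pow]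
        by_cases hlq : ℓ = q
        · subst hlq
          rw [Finsupp.single_eq_same]
          simpa using hquot.mul hb1
        · rw [Finsupp.single_eq_of_ne hlq, pow_zero, mul_one]
          exact hquot


/-- Let G be a finite solvable group and p, ℓ primes. Then the largest power of ℓ dividing the number of Sylow p-subgroups of G is congruent to 1 modulo p. -/
theorem result {G : Type*} [Group G] [Finite G]
    (hG : Group.IsSolvable G) (p ℓ : ℕ) [Fact p.Prime] (hℓ : ℓ.Prime) :
    ℓ ^ (Nat.card (Sylow p G)).factorization ℓ ≡ 1 [MOD p] := by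
  exact solvable_parts (Nat.card G) G le_rfl hG p ℓ hℓ

end Cfsg.Agent.S4345
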