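import Cfsg.Statements.S4354
import Cfsg.Agent.FGS4.SylowNumber

set_option autoImplicit false
open Cfsg

namespace Cfsg.Agent.S4354

open Subgroup

variable {G : Type*} [Group G] [Finite G] (p : ℕ) [Fact p.Prime]

/-- Every `p`-element has a centralizer containing a Sylow `p`-subgroup. -/
def CentralSylow (H : Type*) [Group H] : Prop :=
  ∀ x : H, (∃ k : ℕ, orderOf x = p ^ k) → ¬ p ∣ (Subgroup.centralizer ({x} : Set H)).index

theorem exists_sylow_le_centralizer (h : CentralSylow p G) {x : G} (hx : ∃ k : ℕ, orderOf x = p ^ k) :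
    ∃ Q : Sylow p G, (Q : Subgroup G) ≤ Subgroup.centralizer ({x} : Set G) := by
  set C := Subgroup.centralizer ({x} : Set G) with hC
  obtain ⟨S⟩ := (inferInstance : Nonempty (Sylow p C))
  have hi : ¬ p ∣ ((S : Subgroup C).map C.subtype).index := by
    rw [index_map_subtype]
    exact Nat.Prime.not_dvd_mul Fact.out S.not_dvd_index (h x hx)
  exact ⟨(S.2.map C.subtype).toSylow hi, map_subtype_le _⟩

theorem centralSylow_normal (h : CentralSylow p G) (N : Subgroup G) [N.Normal] :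
    CentralSylow p N := by
  intro x hx
  have hx' : ∃ k : ℕ, orderOf (x : G) = p ^ k := by rwa [Subgroup.orderOf_coe]
  obtain ⟨Q, hQ⟩ := exists_sylow_le_centralizer p h hx'
  have hle : (Q : Subgroup G).subgroupOf N ≤ Subgroup.centralizer ({x} : Set N) := by
    intro y hy
    rw [Subgroup.mem_centralizer_singleton_iff]
    exact Subtype.ext (Subgroup.mem_centralizer_singleton_iff.mp (hQ hy))
  intro hd
  exact FGS4.not_dvd_index_subgroupOf_normal N Q (hd.trans (index_dvd_of_le hle))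

theorem centralSylow_quotient (h : CentralSylow p G) (N : Subgroup G) [N.Normal] :
    CentralSylow p (G ⧸ N) := by
  intro x hx
  obtain ⟨k, hk⟩ := hx
  have hz : IsPGroup p (zpowers x) := IsPGroup.of_card ((Nat.card_zpowers x).trans hk)
  obtain ⟨R, hR⟩ := hz.exists_le_sylow
  obtain ⟨P, rfl⟩ := Sylow.mapSurjective_surjective (QuotientGroup.mk'_surjective N) p R
  obtain ⟨y, hy, rfl⟩ := hR (mem_zpowers x)
  obtain ⟨Q, hQ⟩ := exists_sylow_le_centralizer p h
    (x := y) ((IsPGroup.iff_orderOf.mp P.2 ⟨y, hy⟩).imp fun k hk => by rwa [Subgroup.orderOf_mk] at hk)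
  have hle : (Q : Subgroup G).map (QuotientGroup.mk' N) ≤
      Subgroup.centralizer ({QuotientGroup.mk' N y} : Set (G ⧸ N)) := by
    rintro _ ⟨z, hz, rfl⟩
    rw [Subgroup.mem_centralizer_singleton_iff, ← map_mul, ← map_mul,
      Subgroup.mem_centralizer_singleton_iff.mp (hQ hz)]
  intro hd
  exact (Q.mapSurjective (QuotientGroup.mk'_surjective N)).not_dvd_index
    (hd.trans (index_dvd_of_le hle))

theorem abelian_of_normal (h : CentralSylow p G) (N : Subgroup G) [N.Normal] (P : Sylow p G)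
    (hN : ∀ S : Sylow p N, IsMulCommutative (S : Subgroup N))
    (hQ : ∀ S : Sylow p (G ⧸ N), IsMulCommutative (S : Subgroup (G ⧸ N))) :
    IsMulCommutative (P : Subgroup G) := by
  have hPN : ∀ a ∈ (P : Subgroup G), ∀ b ∈ (P : Subgroup G), a ∈ N → b ∈ N → a * b = b * a := by
    intro a ha b hb haN hbN
    have := (hN (FGS4.infNormal N P)).1.1
      ⟨⟨a, haN⟩, (FGS4.mem_infNormal_iff N P _).mpr ha⟩
      ⟨⟨b, hbN⟩, (FGS4.mem_infNormal_iff N P _).mpr hb⟩
    exact congrArg Subtype.val (congrArg Subtype.val this)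
  have hdec : ∀ x ∈ (P : Subgroup G), ∃ n ∈ (P : Subgroup G) ⊓ N,
      ∀ y ∈ (P : Subgroup G), x * n * y = y * (x * n) := by
    intro x hx
    have hxk : ∃ k : ℕ, orderOf x = p ^ k :=
      (IsPGroup.iff_orderOf.mp P.2 ⟨x, hx⟩).imp fun k hk => by rwa [Subgroup.orderOf_mk] at hk
    obtain ⟨Q, hQx⟩ := exists_sylow_le_centralizer p h hxk
    set L := (Subgroup.centralizer ({QuotientGroup.mk' N x} : Set (G ⧸ N))).comap (QuotientGroup.mk' N)
    have hPL : (P : Subgroup G) ≤ L := by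
      intro y hy
      rw [mem_comap, Subgroup.mem_centralizer_singleton_iff]
      exact congrArg Subtype.val ((hQ (P.mapSurjective (QuotientGroup.mk'_surjective N))).1.1
        ⟨_, ⟨y, hy, rfl⟩⟩ ⟨_, ⟨x, hx, rfl⟩⟩)
    have hQL : (Q : Subgroup G) ≤ L := by
      intro y hy
      rw [mem_comap, Subgroup.mem_centralizer_singleton_iff, ← map_mul, ← map_mul,
        Subgroup.mem_centralizer_singleton_iff.mp (hQx hy)]
    obtain ⟨c, hc⟩ := MulAction.exists_smul_eq L (Q.subtype hQL) (P.subtype hPL)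
    rw [Sylow.smul_subtype] at hc
    have hPQ : (c : G) • Q = P := Sylow.subtype_injective hc
    have hcx : (c : G) * x * (c : G)⁻¹ ∈ (P : Subgroup G) := by
      have hxQ : x ∈ (Q : Subgroup G) := by
        have hz : IsPGroup p (zpowers x) := P.2.to_le (zpowers_le.mpr hx)
        have hn : (Q : Subgroup G) ≤ Subgroup.normalizer ((zpowers x : Subgroup G) : Set G) :=
          fun y hy => Subgroup.centralizer_le_normalizer _ (by
            rw [Subgroup.mem_centralizer_iff]
            rintro _ ⟨i, rfl⟩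
            exact ((show Commute x y from
              (Subgroup.mem_centralizer_singleton_iff.mp (hQx hy)).symm).zpow_left i))
        exact (Q.is_maximal' (hz.to_sup_of_normal_left' Q.2 hn) le_sup_right) ▸
          le_sup_left (b := (Q : Subgroup G)) (mem_zpowers x)
      rw [← hPQ, Sylow.coe_subgroup_smul]
      exact ⟨x, hxQ, rfl⟩
    refine ⟨x⁻¹ * ((c : G) * x * (c : G)⁻¹), Subgroup.mem_inf.mpr ⟨mul_mem (inv_mem hx) hcx, ?_⟩, fun y hy => ?_⟩
    · have h1 := Subgroup.mem_centralizer_singleton_iff.mp (show QuotientGroup.mk' N (c : G) ∈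
        Subgroup.centralizer ({QuotientGroup.mk' N x} : Set (G ⧸ N)) from c.2)
      rw [← QuotientGroup.eq_one_iff]
      change QuotientGroup.mk' N _ = 1
      simp only [map_mul, map_inv]
      rw [h1]
      group
    · rw [mul_inv_cancel_left]
      rw [← hPQ, Sylow.coe_subgroup_smul] at hy
      obtain ⟨z, hz, rfl⟩ := hy
      have hzx := Subgroup.mem_centralizer_singleton_iff.mp (hQx hz)
      change (c : G) * x * (c : G)⁻¹ * ((c : G) * z * (c : G)⁻¹) =
        (c : G) * z * (c : G)⁻¹ * ((c : G) * x * (c : G)⁻¹)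
      rw [show (c : G) * x * (c : G)⁻¹ * ((c : G) * z * (c : G)⁻¹) = (c : G) * (x * z) * (c : G)⁻¹
        by group, show (c : G) * z * (c : G)⁻¹ * ((c : G) * x * (c : G)⁻¹) =
        (c : G) * (z * x) * (c : G)⁻¹ by group, hzx]
  refine ⟨⟨fun ⟨a, ha⟩ ⟨b, hb⟩ => Subtype.ext ?_⟩⟩
  obtain ⟨n, ⟨hnP, hnN⟩, hn⟩ := hdec a ha
  obtain ⟨m, ⟨hmP, hmN⟩, hm⟩ := hdec b hb
  have e1 : a * n * b = b * (a * n) := hn b hb
  have e2 : b * m * n⁻¹ = n⁻¹ * (b * m) := hm n⁻¹ (inv_mem hnP)
  have e3 : n⁻¹ * m = m * n⁻¹ := hPN _ (inv_mem hnP) _ hmP (inv_mem hnN) hmN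
  have e4 : b * n⁻¹ = n⁻¹ * b := by
    apply mul_right_cancel (b := m)
    rw [mul_assoc, e3, ← mul_assoc, e2, mul_assoc]
  change a * b = b * a
  calc a * b = a * n * b * n⁻¹ := by rw [mul_assoc _ b, e4]; group
    _ = b * (a * n) * n⁻¹ := by rw [e1]
    _ = b * a := by group

theorem isSimple (h : (∃ P : Sylow p G, ¬ IsMulCommutative P) ∧ CentralSylow p G)
    (hmin : ∀ (N : Subgroup G) [N.Normal], N ≠ ⊥ → N ≠ ⊤ →
      ¬ ((∃ P : Sylow p N, ¬ IsMulCommutative P) ∧ CentralSylow p N) ∧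
      ¬ ((∃ P : Sylow p (G ⧸ N), ¬ IsMulCommutative P) ∧ CentralSylow p (G ⧸ N))) :
    IsSimpleGroup G := by
  obtain ⟨⟨P, hP⟩, hc⟩ := h
  haveI : Nontrivial G := by
    by_contra hcon
    rw [not_nontrivial_iff_subsingleton] at hcon
    exact hP ⟨⟨fun a b => Subsingleton.elim _ _⟩⟩
  refine { eq_bot_or_eq_top_of_normal := fun N hN => ?_ }
  by_contra hcon
  push Not at hcon
  obtain ⟨h1, h2⟩ := hmin N hcon.1 hcon.2
  exact hP (abelian_of_normal p hc N P
    (fun S => by_contra fun hS => h1 ⟨⟨S, hS⟩, centralSylow_normal p hc N⟩)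
    (fun S => by_contra fun hS => h2 ⟨⟨S, hS⟩, centralSylow_quotient p hc N⟩))


/-- Let G be a finite group and p a prime such that the Sylow p-subgroups of G are non-abelian while every element of p-power order has conjugacy class size prime to p, and suppose no nontrivial proper normal subgroup N of G has this property and no quotient G/N by such an N has it. Then G is simple. -/
theorem result {G : Type*} [Group G] [Finite G]
    (p : ℕ) [Fact p.Prime] (h : ((∃ P : Sylow p G, ¬ IsMulCommutative P) ∧ ∀ x : G, (∃ k : ℕ, orderOf x = p ^ k) → ¬ p ∣ (Subgroup.centralizer ({x} : Set G)).index))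
    (hmin : ∀ (N : Subgroup G) [N.Normal], N ≠ ⊥ → N ≠ ⊤ →
      ¬ ((∃ P : Sylow p N, ¬ IsMulCommutative P) ∧ ∀ x : N, (∃ k : ℕ, orderOf x = p ^ k) → ¬ p ∣ (Subgroup.centralizer ({x} : Set N)).index) ∧
      ¬ ((∃ P : Sylow p (G ⧸ N), ¬ IsMulCommutative P) ∧ ∀ x : (G ⧸ N), (∃ k : ℕ, orderOf x = p ^ k) → ¬ p ∣ (Subgroup.centralizer ({x} : Set (G ⧸ N))).index)) :
    IsSimpleGroup G := by
  exact isSimple p h hmin

end Cfsg.Agent.S4354
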