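import Cfsg.Statements.S4365
import Mathlib.GroupTheory.PGroup
import Mathlib.GroupTheory.Index
import Mathlib.GroupTheory.QuotientGroup.Basic
import Mathlib.GroupTheory.GroupAction.Quotient
import Mathlib.GroupTheory.Perm.Cycle.Type
import Mathlib.Algebra.BigOperators.Group.Finset.Basic
import Mathlib.Algebra.Group.End

set_option autoImplicit false
open Cfsg

namespace Cfsg.Agent.S4365

/-- Centralizer of an element. -/
abbrev C {P : Type*} [Group P] (x : P) : Subgroup P := Subgroup.centralizer ({x} : Set P)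

theorem mul_pow_central {P : Type*} [Group P] {v w : P}
    (h : (v * w)⁻¹ * (w * v) ∈ Subgroup.center P) (n : ℕ) :
    ∃ c ∈ Subgroup.center P, (v * w) ^ n = v ^ n * w ^ n * c := by
  set d := (v * w)⁻¹ * (w * v) with hd
  have hdv : ∀ g, g * d = d * g := Subgroup.mem_center_iff.mp h
  have hwv : ∀ k : ℕ, w ^ k * v = v * w ^ k * d ^ k := by
    intro k
    induction k with
    | zero => simp
    | succ k ih =>
      have hdk : Commute w (d ^ k) := (show Commute w d from hdv w).pow_right k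
      calc w ^ (k + 1) * v = w ^ k * (w * v) := by rw [pow_succ, mul_assoc]
        _ = w ^ k * v * (w * d) := by rw [hd]; group
        _ = v * w ^ k * (d ^ k * w) * d := by rw [ih]; group
        _ = v * w ^ (k + 1) * d ^ (k + 1) := by rw [← hdk.eq, pow_succ, pow_succ]; group
  induction n with
  | zero => exact ⟨1, one_mem _, by simp⟩
  | succ n ih =>
    obtain ⟨c, hc, hn⟩ := ih
    refine ⟨d ^ n * c, mul_mem (pow_mem h n) hc, ?_⟩
    have hcv := Subgroup.mem_center_iff.mp hc
    have hdn : Commute w (d ^ n) := (show Commute w d from hdv w).pow_right n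
    calc (v * w) ^ (n + 1) = v ^ n * w ^ n * (c * (v * w)) := by rw [pow_succ, hn, mul_assoc]
      _ = v ^ n * (w ^ n * v) * w * c := by rw [← hcv]; group
      _ = v ^ n * v * w ^ n * (d ^ n * w) * c := by rw [hwv]; group
      _ = _ := by rw [← hdn.eq, pow_succ, pow_succ]; group

theorem hucomm' {P : Type*} [Group P] (u : P)
    (hu : ∀ v : P, (v * u)⁻¹ * (u * v) ∈ Subgroup.center P) (g : P) :
    u * g * u⁻¹ * g⁻¹ ∈ Subgroup.center P := by
  have h := Subgroup.Normal.conj_mem (inferInstance : (Subgroup.center P).Normal) _ (hu g) (g * u)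
  rwa [show g * u * ((g * u)⁻¹ * (u * g)) * (g * u)⁻¹ = u * g * u⁻¹ * g⁻¹ by group] at h

theorem exists_second {P : Type*} [Group P] [Finite P] (p : ℕ) [Fact p.Prime] (hP : IsPGroup p P)
    {x : P} (hx : x ∉ Subgroup.center P) :
    ∃ u : P, u ∉ Subgroup.center P ∧ u ^ p ∈ Subgroup.center P ∧
      ∀ v : P, (v * u)⁻¹ * (u * v) ∈ Subgroup.center P := by
  have hQ := hP.to_quotient (Subgroup.center P)
  haveI : Nontrivial (P ⧸ Subgroup.center P) :=
    ⟨⟨(x : P ⧸ Subgroup.center P), 1, fun h => hx ((QuotientGroup.eq_one_iff x).mp h)⟩⟩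
  haveI := hQ.center_nontrivial
  obtain ⟨k, hk⟩ := IsPGroup.iff_card.mp (hQ.to_subgroup (Subgroup.center (P ⧸ Subgroup.center P)))
  have hd : p ∣ Nat.card (Subgroup.center (P ⧸ Subgroup.center P)) := by
    rw [hk]
    refine dvd_pow_self p fun h0 => ?_
    rw [h0, pow_zero] at hk
    exact absurd hk Finite.one_lt_card.ne'
  obtain ⟨z, hz⟩ := exists_prime_orderOf_dvd_card' p hd
  obtain ⟨u, hu⟩ := QuotientGroup.mk_surjective (z : P ⧸ Subgroup.center P)
  refine ⟨u, fun h => ?_, ?_, fun v => ?_⟩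
  · rw [(QuotientGroup.eq_one_iff u).mpr h] at hu
    rw [show z = 1 from Subtype.ext hu.symm, orderOf_one] at hz
    exact (Fact.out : p.Prime).ne_one hz.symm
  · rw [← QuotientGroup.eq_one_iff, QuotientGroup.mk_pow, hu, ← Subgroup.coe_pow, ← hz,
      pow_orderOf_eq_one, Subgroup.coe_one]
  · rw [← QuotientGroup.eq, QuotientGroup.mk_mul, QuotientGroup.mk_mul, hu]
    exact Subgroup.mem_center_iff.mp z.2 _

/-- The norm argument. -/
theorem pow_mem_center {P : Type*} [Group P] [Finite P] (p : ℕ) [hp : Fact p.Prime] (K : Subgroup P)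
    [K.Normal] (hK : ∀ g ∈ K, ∀ h ∈ K, g * h = h * g)
    (hout : ∀ v : P, v ∉ K → v ^ p ∈ Subgroup.center P) (hexp : ∀ v : P, v ^ p ∈ K)
    (hcomm : ∀ v w : P, v * w * v⁻¹ * w⁻¹ ∈ K) (hidx : p < K.index) {x : P} (hx : x ∈ K) :
    x ^ p ∈ Subgroup.center P := by
  classical
  letI : CommGroup K := { (inferInstance : Group K) with
    mul_comm := fun g h => Subtype.ext (hK g g.2 h h.2) }
  let Sg : P ⧸ K →* MulAut K := QuotientGroup.lift K (MulAut.conjNormal) (fun k hk => by
    rw [MonoidHom.mem_ker]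
    ext r
    exact mul_inv_eq_iff_eq_mul.mpr (hK k hk r r.2))
  have hN : ∀ g : P, g ∉ K → ∀ c : K,
      ((∏ i ∈ Finset.range p, Sg ((g : P ⧸ K) ^ i) c : K) : P) ∈ Subgroup.center P := by
    intro g hg c
    have key : ∀ n : ℕ, ((c : P) * g) ^ n =
        ((∏ i ∈ Finset.range n, Sg ((g : P ⧸ K) ^ i) c : K) : P) * g ^ n := by
      intro n
      induction n with
      | zero => simp
      | succ n ih =>
        rw [Finset.prod_range_succ, Subgroup.coe_mul, pow_succ, ih]
        have h1 : ((Sg ((g : P ⧸ K) ^ n) c : K) : P) = g ^ n * c * (g ^ n)⁻¹ := rfl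
        rw [h1, pow_succ]; group
    have hcg : (c : P) * g ∉ K := fun h => hg ((Subgroup.mul_mem_cancel_left K c.2).mp h)
    have h2 := mul_mem (hout _ hcg) (inv_mem (hout g hg))
    rwa [key, mul_inv_cancel_right] at h2
  obtain ⟨g, hg⟩ : ∃ g : P, g ∉ K := by
    by_contra h
    push Not at h
    rw [(Subgroup.eq_top_iff' K).mpr h, Subgroup.index_top] at hidx
    exact absurd hidx (not_lt.mpr hp.out.one_le)
  have hpow1 : ∀ q : P ⧸ K, q ^ p = 1 := fun q => by
    obtain ⟨v, rfl⟩ := QuotientGroup.mk_surjective q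
    rw [← QuotientGroup.mk_pow, QuotientGroup.eq_one_iff]; exact hexp v
  obtain ⟨H0, hH0⟩ : ∃ q : P ⧸ K, q ∉ Subgroup.zpowers (g : P ⧸ K) := by
    by_contra h
    push Not at h
    have : Nat.card (P ⧸ K) = orderOf (g : P ⧸ K) := by
      rw [← Nat.card_zpowers, (Subgroup.eq_top_iff' _).mpr h, Subgroup.card_top]
    rw [← Subgroup.index_eq_card] at this
    exact absurd hidx (not_lt.mpr (this ▸ Nat.le_of_dvd hp.out.pos (orderOf_dvd_of_pow_eq_one (hpow1 _))))
  set G0 := (g : P ⧸ K) with hG0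
  have hgh : Commute G0 H0 := by
    obtain ⟨h, rfl⟩ := QuotientGroup.mk_surjective H0
    show G0 * _ = _ * G0
    rw [hG0, ← QuotientGroup.mk_mul, ← QuotientGroup.mk_mul, QuotientGroup.eq]
    have := hcomm h⁻¹ g⁻¹
    rwa [inv_inv, inv_inv, show h⁻¹ * g⁻¹ * h * g = (g * h)⁻¹ * (h * g) by group] at this
  have hN' : ∀ q : P ⧸ K, q ≠ 1 → ∀ c : K,
      ((∏ i ∈ Finset.range p, Sg (q ^ i) c : K) : P) ∈ Subgroup.center P := fun q hq c => by
    obtain ⟨v, rfl⟩ := QuotientGroup.mk_surjective q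
    exact hN v (fun h => hq ((QuotientGroup.eq_one_iff v).mpr h)) c
  set Zc := (Subgroup.center P).subgroupOf K with hZc
  set c : K := ⟨x, hx⟩ with hcdef
  suffices c ^ p ∈ Zc from this
  have hsum : ∏ i ∈ Finset.range p, ∏ j ∈ Finset.range p, Sg ((G0 ^ i * H0) ^ j) c ∈ Zc := by
    refine prod_mem fun i _ => hN' _ (fun h => hH0 ?_) c
    rw [eq_inv_of_mul_eq_one_right h]
    exact inv_mem (Subgroup.npow_mem_zpowers _ _)
  rw [Finset.prod_comm, Finset.range_eq_Ico, Finset.prod_eq_prod_Ico_succ_bot hp.out.pos] at hsum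
  simp only [pow_zero, map_one, MulAut.one_apply, Finset.prod_const, Nat.card_Ico, tsub_zero,
    zero_add] at hsum
  refine (Subgroup.mul_mem_cancel_right Zc ?_).mp hsum
  refine prod_mem fun j hj => ?_
  rw [Finset.mem_Ico] at hj
  have hj0 : G0 ^ j ≠ 1 := fun h => by
    have h1 : orderOf G0 = p := orderOf_eq_prime (hpow1 _) (fun e => hg ((QuotientGroup.eq_one_iff g).mp e))
    have := Nat.le_of_dvd hj.1 (h1 ▸ orderOf_dvd_of_pow_eq_one h)
    omega
  have e : ∀ i : ℕ, Sg ((G0 ^ i * H0) ^ j) c = Sg (H0 ^ j) (Sg ((G0 ^ j) ^ i) c) := fun i => by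
    rw [← MulAut.mul_apply, ← map_mul]
    congr 2
    rw [(hgh.pow_left i).mul_pow, ← pow_mul, ← pow_mul, mul_comm i j]
    exact (hgh.pow_pow _ _).eq
  simp only [e, ← map_prod]
  obtain ⟨h, hh⟩ := QuotientGroup.mk_surjective (H0 ^ j)
  rw [← hh, ← Finset.range_eq_Ico]
  show h * ((∏ i ∈ Finset.range p, Sg ((G0 ^ j) ^ i) c : K) : P) * h⁻¹ ∈ Subgroup.center P
  exact (inferInstance : (Subgroup.center P).Normal).conj_mem _ (hN' _ hj0 c) h

/-- Let P be a finite p-group whose conjugacy class sizes are exactly 1 and pᵃ for some a ≥ 1. Then every element of P has its p-th power in the center of P (P/Z(P) has exponent p). -/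
theorem result {P : Type*} [Group P] [Finite P] (p : ℕ) [Fact p.Prime]
    (hP : IsPGroup p P) (a : ℕ) (ha : 1 ≤ a)
    (hcs : {k : ℕ | ∃ x : P, (Subgroup.centralizer ({x} : Set P)).index = k} = {1, p ^ a}) (x : P) :
    x ^ p ∈ Subgroup.center P := by
  classical
  have hidx : ∀ y : P, y ∉ Subgroup.center P → (C y).index = p ^ a := by
    intro y hy
    have hm : (C y).index ∈ ({1, p ^ a} : Set ℕ) := hcs ▸ ⟨y, rfl⟩
    refine (Set.mem_insert_iff.mp hm).resolve_left fun h1 => hy ?_
    rw [Subgroup.index_eq_one] at h1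
    exact Subgroup.mem_center_iff.mpr fun g =>
      Subgroup.mem_centralizer_singleton_iff.mp (h1 ▸ Subgroup.mem_top g : g ∈ C y)
  have heq : ∀ v w : P, v ∉ Subgroup.center P → w ∉ Subgroup.center P → C v ≤ C w → C v = C w :=
    fun v w hv hw hle => Subgroup.eq_of_le_of_card_ge hle (le_of_eq (by
      have h1 := Subgroup.card_mul_index (C v)
      have h2 := Subgroup.card_mul_index (C w)
      rw [hidx v hv] at h1; rw [hidx w hw] at h2
      exact (Nat.eq_of_mul_eq_mul_right (pow_pos (Fact.out : p.Prime).pos a) (h1.trans h2.symm)).symm))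
  by_contra hx
  have hxc : x ∉ Subgroup.center P := fun h => hx (pow_mem h p)
  -- the case `a = 1`
  rcases Nat.lt_or_ge a 2 with ha2 | ha2
  · refine hx (Subgroup.mem_center_iff.mpr fun g => ?_)
    by_cases hg : g ∈ Subgroup.center P
    · exact (Subgroup.mem_center_iff.mp hg _).symm
    · have hi : (C g).index = p := by rw [hidx g hg, show a = 1 by omega, pow_one]
      obtain ⟨k, hk⟩ := IsPGroup.iff_card.mp hP
      haveI : (C g).Normal := by
        refine Subgroup.normal_of_index_eq_minFac_card ?_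
        have hk0 : k ≠ 0 := by
          rintro rfl
          have := Subgroup.index_dvd_card (C g)
          rw [hk, hi, pow_zero, Nat.dvd_one] at this
          exact (Fact.out : p.Prime).ne_one this
        rw [hi, hk, Nat.pow_minFac hk0, (Fact.out : p.Prime).minFac_eq]
      have := Subgroup.pow_index_mem (C g) x
      rw [hi] at this
      exact (Subgroup.mem_centralizer_singleton_iff.mp this).symm
  -- a second central element
  obtain ⟨u, huc, hup, hucomm⟩ := exists_second p hP hxc
  have hL : ∀ v : P, v ^ p ∉ Subgroup.center P → C v = C u := by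
    intro v hv
    have hvc : v ∉ Subgroup.center P := fun h => hv (pow_mem h p)
    obtain ⟨c, hc, hpow⟩ := mul_pow_central (v := v) (w := u) (hucomm v) p
    have hcen : u ^ p * c ∈ Subgroup.center P := mul_mem hup hc
    have hvu : (v * u) ^ p = v ^ p * (u ^ p * c) := by rw [hpow, mul_assoc]
    have hvun : (v * u) ^ p ∉ Subgroup.center P := fun h => hv (by
      have := mul_mem h (inv_mem hcen)
      rwa [hvu, mul_inv_cancel_right] at this)
    have hpowle : ∀ (z : P), C z ≤ C (z ^ p) := fun z g hg =>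
      Subgroup.mem_centralizer_singleton_iff.mpr
        ((Commute.pow_right (Subgroup.mem_centralizer_singleton_iff.mp hg) p).eq)
    have h1 := heq v (v ^ p) hvc hv (hpowle v)
    have h2 := heq (v * u) ((v * u) ^ p) (fun h => hvun (pow_mem h p)) hvun (hpowle _)
    have h3 : C ((v * u) ^ p) = C (v ^ p) := by
      ext g
      rw [Subgroup.mem_centralizer_singleton_iff, Subgroup.mem_centralizer_singleton_iff, hvu]
      have hg := Subgroup.mem_center_iff.mp hcen g
      constructor
      · intro h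
        have h' : g * v ^ p * (u ^ p * c) = v ^ p * g * (u ^ p * c) := by
          rw [mul_assoc, h, mul_assoc, ← hg]; simp only [mul_assoc]
        exact mul_right_cancel h'
      · intro h
        rw [← mul_assoc, h, mul_assoc, hg]; simp only [mul_assoc]
    refine heq v u hvc huc fun g hg => ?_
    have hgv : Commute g v := Subgroup.mem_centralizer_singleton_iff.mp hg
    have hgvu : Commute g (v * u) := Subgroup.mem_centralizer_singleton_iff.mp
      (show g ∈ C (v * u) by rw [h2, h3, ← h1]; exact hg)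
    refine Subgroup.mem_centralizer_singleton_iff.mpr ?_
    have := (hgv.inv_right).mul_right hgvu
    rwa [inv_mul_cancel_left] at this
  -- the kernel of the commutator with `u`
  let φ : P →* Subgroup.center P := MonoidHom.mk' (fun g => ⟨u * g * u⁻¹ * g⁻¹, hucomm' u hucomm g⟩)
    fun g h => Subtype.ext (by
      show u * (g * h) * u⁻¹ * (g * h)⁻¹ = u * g * u⁻¹ * g⁻¹ * (u * h * u⁻¹ * h⁻¹)
      have hc := Subgroup.mem_center_iff.mp (hucomm' u hucomm h) g
      calc u * (g * h) * u⁻¹ * (g * h)⁻¹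
          = u * g * u⁻¹ * ((u * h * u⁻¹ * h⁻¹) * g⁻¹) := by group
        _ = u * g * u⁻¹ * (g⁻¹ * (u * h * u⁻¹ * h⁻¹)) := by
            congr 1
            rw [eq_inv_mul_iff_mul_eq, ← mul_assoc, hc, mul_inv_cancel_right]
        _ = _ := by group)
  have hkerφ : φ.ker = C u := by
    ext g
    rw [MonoidHom.mem_ker, Subgroup.mem_centralizer_singleton_iff]
    refine ⟨fun h => ?_, fun h => Subtype.ext ?_⟩
    · have h' : u * g * u⁻¹ * g⁻¹ = 1 := congrArg Subtype.val h
      rw [mul_inv_eq_one, mul_inv_eq_iff_eq_mul] at h'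
      exact h'.symm
    · show u * g * u⁻¹ * g⁻¹ = 1
      rw [← h, mul_inv_cancel_right, mul_inv_cancel]
  have hexp : ∀ g, φ g ^ p = 1 := by
    intro g
    have key : ∀ n : ℕ, ((φ g ^ n : Subgroup.center P) : P) = u ^ n * g * (u ^ n)⁻¹ * g⁻¹ := by
      intro n
      induction n with
      | zero => simp
      | succ n ih =>
        rw [pow_succ', Subgroup.coe_mul, ih]
        show u * g * u⁻¹ * g⁻¹ * (u ^ n * g * (u ^ n)⁻¹ * g⁻¹) = _
        have hc := Subgroup.mem_center_iff.mp (φ g).2 (u ^ n * g * (u ^ n)⁻¹ * g⁻¹)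
        change _ * (u * g * u⁻¹ * g⁻¹) = (u * g * u⁻¹ * g⁻¹) * _ at hc
        rw [← hc]
        have hc2 := Subgroup.mem_center_iff.mp (φ g).2 (u ^ n)
        change _ * (u * g * u⁻¹ * g⁻¹) = (u * g * u⁻¹ * g⁻¹) * _ at hc2
        calc u ^ n * g * (u ^ n)⁻¹ * g⁻¹ * (u * g * u⁻¹ * g⁻¹)
            = (u * g * u⁻¹ * g⁻¹) * (u ^ n * g * (u ^ n)⁻¹ * g⁻¹) := by rw [hc]
          _ = (u * g * u⁻¹ * g⁻¹) * u ^ n * g * (u ^ n)⁻¹ * g⁻¹ := by group
          _ = u ^ n * (u * g * u⁻¹ * g⁻¹) * g * (u ^ n)⁻¹ * g⁻¹ := by rw [hc2]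
          _ = u ^ (n + 1) * g * (u ^ (n + 1))⁻¹ * g⁻¹ := by rw [pow_succ]; group
    refine Subtype.ext ((key p).trans ?_)
    show u ^ p * g * (u ^ p)⁻¹ * g⁻¹ = 1
    rw [← Subgroup.mem_center_iff.mp hup g, mul_inv_cancel_right, mul_inv_cancel]
  set K := C u with hK
  haveI : K.Normal := hkerφ ▸ φ.normal_ker
  have hKcomm : ∀ g ∈ K, ∀ h ∈ K, g * h = h * g := by
    have hbig : ∀ g ∈ K, g ^ p ∉ Subgroup.center P → ∀ h ∈ K, g * h = h * g := fun g _ hgp h hh =>
      (Subgroup.mem_centralizer_singleton_iff.mp (show h ∈ C g by rw [hL g hgp]; exact hh)).symm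
    have hxK : x ∈ K := by
      rw [← hL x hx]; exact Subgroup.mem_centralizer_singleton_iff.mpr rfl
    intro g hg h hh
    by_cases hgp : g ^ p ∈ Subgroup.center P
    · have hgx : Commute g x := (hbig x hxK hx g hg).symm
      have hn : (g * x) ^ p ∉ Subgroup.center P := fun h' => hx (by
        rw [hgx.mul_pow] at h'
        exact (Subgroup.mul_mem_cancel_left _ hgp).mp h')
      have h1 : Commute (g * x) h := hbig _ (mul_mem hg hxK) hn h hh
      have h2 : Commute x h := hbig x hxK hx h hh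
      have h3 := h1.mul_left h2.inv_left
      rwa [mul_inv_cancel_right] at h3
    · exact hbig g hg hgp h hh
  exact hx (pow_mem_center p K hKcomm (fun v hv => by
      by_contra h
      exact hv (hL v h ▸ (Subgroup.mem_centralizer_singleton_iff.mpr rfl : v ∈ C v)))
    (fun v => by
      rw [← hkerφ, MonoidHom.mem_ker, map_pow]; exact hexp v)
    (fun v w => by
      rw [← hkerφ, MonoidHom.mem_ker]
      refine Subtype.ext ?_
      simp only [map_mul, map_inv, Subgroup.coe_mul, Subgroup.coe_inv, Subgroup.coe_one]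
      rw [Subgroup.mem_center_iff.mp (φ w).2 (φ v : P)]
      group)
    (by
      rw [hK, hidx u huc]
      calc p < p ^ 2 := lt_self_pow₀ (Fact.out : p.Prime).one_lt one_lt_two
        _ ≤ p ^ a := Nat.pow_le_pow_right (Fact.out : p.Prime).pos ha2)
    (show x ∈ K by rw [← hL x hx]; exact Subgroup.mem_centralizer_singleton_iff.mpr rfl))

end Cfsg.Agent.S4365
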