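import Cfsg.Statements.S4370
import Cfsg.Agent.OddLocal.UniqueSubgroup
import Cfsg.Agent.OddLocal.Basic
import Mathlib.GroupTheory.SchurZassenhaus
import Mathlib.GroupTheory.NoncommCoprod
import Mathlib.GroupTheory.SpecificGroups.ZGroup
import Mathlib.GroupTheory.Nilpotent
import Mathlib.GroupTheory.SpecificGroups.Quaternion

set_option autoImplicit false
open Cfsg

namespace Cfsg.Agent.S4370

theorem centralizer_quat {k : ℕ} (hk : 1 ≤ k) (q : QuaternionGroup (2 ^ k))
    (hq : q ∉ Subgroup.center (QuaternionGroup (2 ^ k))) :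
    IsCyclic (Subgroup.centralizer ({q} : Set (QuaternionGroup (2 ^ k)))) := by
  haveI : NeZero (2 ^ k) := ⟨by positivity⟩
  obtain ⟨c, hc⟩ : ∃ c, Subgroup.centralizer ({q} : Set (QuaternionGroup (2 ^ k))) ≤
      Subgroup.zpowers c := by
    rcases q with i | i
    · refine ⟨QuaternionGroup.a 1, ?_⟩
      rintro (j | j) hj
      · rw [← ZMod.natCast_zmod_val j, ← QuaternionGroup.a_one_pow]
        exact Subgroup.npow_mem_zpowers _ _
      · exfalso
        have h := Subgroup.mem_centralizer_singleton_iff.mp hj
        simp only [QuaternionGroup.xa_mul_a, QuaternionGroup.a_mul_xa, QuaternionGroup.xa.injEq] at h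
        refine hq (Subgroup.mem_center_iff.mpr ?_)
        have hi : -i = i := by linear_combination -h
        rintro (l | l)
        · rw [QuaternionGroup.a_mul_a, QuaternionGroup.a_mul_a, add_comm]
        · rw [QuaternionGroup.xa_mul_a, QuaternionGroup.a_mul_xa, sub_eq_add_neg, hi]
    · refine ⟨QuaternionGroup.xa i, ?_⟩
      rintro (j | j) hj
      · have h := Subgroup.mem_centralizer_singleton_iff.mp hj
        simp only [QuaternionGroup.xa_mul_a, QuaternionGroup.a_mul_xa, QuaternionGroup.xa.injEq] at h
        rcases two_torsion (show j + j = 0 by linear_combination -h) with rfl | rfl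
        · exact one_mem _
        · refine ⟨2, ?_⟩
          show QuaternionGroup.xa i ^ (2 : ℤ) = _
          rw [show (2 : ℤ) = ((2 : ℕ) : ℤ) from rfl, zpow_natCast, QuaternionGroup.xa_sq]
      · have h := Subgroup.mem_centralizer_singleton_iff.mp hj
        simp only [QuaternionGroup.xa_mul_xa, QuaternionGroup.a.injEq] at h
        rcases two_torsion (show (j - i) + (j - i) = 0 by linear_combination -h) with h0 | h0
        · rw [sub_eq_zero.mp h0]; exact Subgroup.mem_zpowers _
        · refine ⟨3, ?_⟩
          show QuaternionGroup.xa i ^ (3 : ℤ) = _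
          rw [show (3 : ℤ) = ((3 : ℕ) : ℤ) from rfl, zpow_natCast, pow_succ', QuaternionGroup.xa_sq,
            QuaternionGroup.xa_mul_a, ← h0, add_sub_cancel]
  exact isCyclic_of_injective (Subgroup.inclusion hc) (Subgroup.inclusion_injective hc)
where
  two_torsion {n : ℕ} [NeZero n] {j : ZMod (2 * n)} (h : j + j = 0) : j = 0 ∨ j = (n : ZMod (2 * n)) := by
    obtain ⟨v, hv, rfl⟩ : ∃ v, v < 2 * n ∧ (v : ZMod (2 * n)) = j := ⟨j.val, j.val_lt, j.natCast_zmod_val⟩
    rw [← Nat.cast_add, ZMod.natCast_eq_zero_iff] at h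
    obtain ⟨c, hc⟩ := h
    rcases c with _ | _ | c
    · left; rw [show v = 0 by omega, Nat.cast_zero]
    · right; congr 1; omega
    · exfalso
      have : 2 * n * 2 ≤ 2 * n * (c + 1 + 1) := Nat.mul_le_mul_left _ (by omega)
      omega

theorem prod_cyclic {n : ℕ} [NeZero n] (C : Subgroup (QuaternionGroup n)) [IsCyclic C] {m : ℕ}
    (hm : Odd m) (h2 : ∃ k, n = 2 ^ k := by exact ⟨_, rfl⟩) :
    IsCyclic (↥C × Multiplicative (ZMod m)) := by
  haveI : NeZero m := ⟨fun h => by rw [h] at hm; exact Nat.not_odd_zero hm⟩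
  obtain ⟨k, rfl⟩ := h2
  refine Group.isCyclic_prod_iff.mpr ⟨inferInstance, inferInstance, ?_⟩
  rw [Nat.card_eq_fintype_card (α := Multiplicative (ZMod m)), Fintype.card_multiplicative, ZMod.card]
  have hd : Nat.card C ∣ 2 ^ (k + 2) := by
    refine (Subgroup.card_subgroup_dvd_card C).trans (dvd_of_eq ?_)
    rw [Nat.card_eq_fintype_card, QuaternionGroup.card]; ring
  exact (Nat.Coprime.pow_left _ (Nat.coprime_two_left.mpr hm)).coprime_dvd_left hd

theorem exists_decomp {G : Type*} [Group G] [Finite G] (hG : Group.IsNilpotent G)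
    (hna : ¬ IsMulCommutative G)
    (h : ∀ x : G, x ∉ Subgroup.center G → IsCyclic (Subgroup.centralizer ({x} : Set G))) :
    ∃ (k m : ℕ), 1 ≤ k ∧ Odd m ∧ Nonempty (G ≃* QuaternionGroup (2 ^ k) × Multiplicative (ZMod m)) := by
  classical
  haveI := hG
  have hnormal : ∀ (r : ℕ) [Fact r.Prime] (R : Sylow r G), (R : Subgroup G).Normal := by
    intro r _ R; infer_instance
  have hcomm : ∀ (p r : ℕ) [Fact p.Prime] [Fact r.Prime] (P : Sylow p G) (R : Sylow r G), p ≠ r →
      ∀ a ∈ (P : Subgroup G), ∀ b ∈ (R : Subgroup G), a * b = b * a := fun p r _ _ P R hne a ha b hb =>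
    Subgroup.commute_of_normal_of_disjoint _ _ (hnormal p P) (hnormal r R)
      (IsPGroup.disjoint_of_ne p r hne _ _ P.2 R.2) a b ha hb
  -- a nonabelian Sylow subgroup
  obtain ⟨p, hp, P, hP⟩ : ∃ p, p.Prime ∧ ∃ P : Sylow p G, ¬ IsCyclic P := by
    by_contra hne
    push Not at hne
    haveI : IsZGroup G := ⟨fun r hr R => hne r hr R⟩
    haveI : IsCyclic G := inferInstance
    exact hna inferInstance
  haveI := Fact.mk hp
  obtain ⟨x, hxP, hxc⟩ : ∃ x ∈ (P : Subgroup G), x ∉ Subgroup.center G := by
    by_contra hne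
    push Not at hne
    obtain ⟨q, hq, R, hR⟩ : ∃ q, q.Prime ∧ ∃ R : Sylow q G, ∃ y ∈ (R : Subgroup G),
        y ∉ Subgroup.center G := by
      by_contra hne2
      push Not at hne2
      apply hna
      have htop : Subgroup.center G = ⊤ := by
        rw [← Subgroup.index_eq_one]
        by_contra hi
        obtain ⟨q, hq, hqd⟩ := Nat.exists_prime_and_dvd hi
        haveI := Fact.mk hq
        obtain ⟨R⟩ : Nonempty (Sylow q G) := inferInstance
        exact R.not_dvd_index (hqd.trans (Subgroup.index_dvd_of_le (hne2 q hq R)))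
      exact ⟨⟨fun a b => Subgroup.mem_center_iff.mp (htop ▸ Subgroup.mem_top b) a⟩⟩
    haveI := Fact.mk hq
    obtain ⟨y, hyR, hy⟩ := hR
    have hqp : q ≠ p := by
      rintro rfl
      obtain ⟨g, hg⟩ := MulAction.exists_smul_eq G R P
      rw [show R = P by rw [← hg, R.smul_eq_of_normal]] at hyR
      exact hy (hne y hyR)
    haveI := h y hy
    have hle : (P : Subgroup G) ≤ Subgroup.centralizer ({y} : Set G) := fun a ha =>
      Subgroup.mem_centralizer_singleton_iff.mpr (hcomm p q P R hqp.symm a ha y hyR)
    exact hP (isCyclic_of_injective (Subgroup.inclusion hle) (Subgroup.inclusion_injective hle))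
  -- the other Sylow subgroups are cyclic
  have hother : ∀ (r : ℕ) [Fact r.Prime] (R : Sylow r G), r ≠ p → IsCyclic R := by
    intro r _ R hr
    haveI := h x hxc
    have hle : (R : Subgroup G) ≤ Subgroup.centralizer ({x} : Set G) := fun a ha =>
      Subgroup.mem_centralizer_singleton_iff.mpr (hcomm p r P R hr.symm x hxP a ha).symm
    exact isCyclic_of_injective (Subgroup.inclusion hle) (Subgroup.inclusion_injective hle)
  -- elements of order p in P are central, and unique up to powers
  have hcen : ∀ t ∈ (P : Subgroup G), t ^ p = 1 → t ∈ Subgroup.center G := by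
    intro t ht htp
    by_contra htc
    haveI := h t htc
    haveI : Nontrivial P :=
      ⟨⟨⟨t, ht⟩, 1, fun e => htc (by rw [show t = 1 from congrArg Subtype.val e]; exact one_mem _)⟩⟩
    haveI := P.2.center_nontrivial
    have hd : p ∣ Nat.card (Subgroup.center P) :=
      ((P.2.to_subgroup _).card_eq_or_dvd).resolve_left Finite.one_lt_card.ne'
    obtain ⟨z, hz⟩ := exists_prime_orderOf_dvd_card' p hd
    have hzt : ((z : P) : G) ∈ Subgroup.centralizer ({t} : Set G) :=
      Subgroup.mem_centralizer_singleton_iff.mpr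
        (congrArg Subtype.val (Subgroup.mem_center_iff.mp z.2 ⟨t, ht⟩)).symm
    let z' : Subgroup.centralizer ({t} : Set G) := ⟨_, hzt⟩
    let t' : Subgroup.centralizer ({t} : Set G) := ⟨t, Subgroup.mem_centralizer_singleton_iff.mpr rfl⟩
    have ht1 : t ≠ 1 := fun e => htc (e ▸ one_mem _)
    have ho : orderOf t' = p := orderOf_eq_prime (Subtype.ext htp) fun e => ht1 (congrArg Subtype.val e)
    have hzo : orderOf z' = p := by
      rw [← Subgroup.orderOf_coe]
      show orderOf ((z : P) : G) = p
      rw [Subgroup.orderOf_coe, Subgroup.orderOf_coe, hz]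
    have heq : Subgroup.zpowers t' = Subgroup.zpowers z' :=
      OddLocal.eq_of_card_eq_of_isCyclic (C := ⊤) (isCyclic_of_surjective Subgroup.topEquiv.symm.toMonoidHom Subgroup.topEquiv.symm.surjective) le_top le_top (by rw [Nat.card_zpowers, Nat.card_zpowers, ho, hzo])
    obtain ⟨i, hi⟩ := (heq ▸ Subgroup.mem_zpowers t' : t' ∈ Subgroup.zpowers z')
    have hzc : ((z : P) : G) ∈ Subgroup.center G := by
      rw [Subgroup.mem_center_iff]
      intro g
      have hPZ : (P : Subgroup G) ⊔ Subgroup.centralizer ({((z : P) : G)} : Set G) =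
          Subgroup.centralizer ({((z : P) : G)} : Set G) := sup_eq_right.mpr fun a ha =>
        Subgroup.mem_centralizer_singleton_iff.mpr
          (congrArg Subtype.val (Subgroup.mem_center_iff.mp z.2 ⟨a, ha⟩))
      have htop : Subgroup.centralizer ({((z : P) : G)} : Set G) = ⊤ := by
        rw [← Subgroup.index_eq_one]
        by_contra hi
        obtain ⟨q, hq, hqd⟩ := Nat.exists_prime_and_dvd hi
        haveI := Fact.mk hq
        obtain ⟨R⟩ : Nonempty (Sylow q G) := inferInstance
        refine R.not_dvd_index (hqd.trans (Subgroup.index_dvd_of_le fun b hb => ?_))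
        by_cases hqp : q = p
        · subst hqp
          obtain ⟨g, hg⟩ := MulAction.exists_smul_eq G R P
          rw [show R = P by rw [← hg, R.smul_eq_of_normal]] at hb
          rw [← hPZ]; exact Subgroup.mem_sup_left hb
        · exact Subgroup.mem_centralizer_singleton_iff.mpr
            (hcomm p q P R (Ne.symm hqp) _ (z : P).2 b hb).symm
      exact Subgroup.mem_centralizer_singleton_iff.mp (htop ▸ Subgroup.mem_top g :
        g ∈ Subgroup.centralizer ({((z : P) : G)} : Set G))
    apply htc
    have : t = ((z : P) : G) ^ i := (congrArg Subtype.val hi).symm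
    rw [this]; exact Subgroup.zpow_mem _ hzc i
  have huniq : OddLocal.UniqueOrderP p P := by
    intro a b ha hb ha1
    haveI := h x hxc
    have hmem : ∀ c : P, c ^ p = 1 → (c : G) ∈ Subgroup.centralizer ({x} : Set G) := fun c hc =>
      Subgroup.mem_centralizer_singleton_iff.mpr
        (Subgroup.mem_center_iff.mp (hcen c c.2 (by rw [← Subgroup.coe_pow, hc, Subgroup.coe_one])) x).symm
    by_cases hb1 : b = 1
    · rw [hb1]; exact one_mem _
    let a' : Subgroup.centralizer ({x} : Set G) := ⟨_, hmem a ha⟩
    let b' : Subgroup.centralizer ({x} : Set G) := ⟨_, hmem b hb⟩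
    have ho : ∀ (c : P) (hc : c ^ p = 1), c ≠ 1 →
        orderOf (⟨_, hmem c hc⟩ : Subgroup.centralizer ({x} : Set G)) = p := fun c hc hc1 => by
      rw [Subgroup.orderOf_mk, Subgroup.orderOf_coe, orderOf_eq_prime hc hc1]
    have heq : Subgroup.zpowers b' = Subgroup.zpowers a' :=
      OddLocal.eq_of_card_eq_of_isCyclic (C := ⊤) (isCyclic_of_surjective Subgroup.topEquiv.symm.toMonoidHom Subgroup.topEquiv.symm.surjective) le_top le_top (by rw [Nat.card_zpowers, Nat.card_zpowers, ho a ha ha1, ho b hb hb1])
    obtain ⟨i, hi⟩ := (heq ▸ Subgroup.mem_zpowers b' : b' ∈ Subgroup.zpowers a')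
    exact ⟨i, Subtype.ext (by rw [Subgroup.coe_zpow]; exact congrArg Subtype.val hi)⟩
  obtain ⟨rfl, k, ⟨e⟩⟩ := (OddLocal.isCyclic_or_quaternion P.2 huniq).resolve_left hP
  haveI := hnormal 2 P
  have hk : 1 ≤ k := by
    rcases Nat.eq_zero_or_pos k with rfl | hk
    · exfalso
      apply hP
      haveI : IsCyclic (QuaternionGroup (2 ^ 0)) :=
        isCyclic_of_orderOf_eq_card (QuaternionGroup.xa 0) (by
          rw [QuaternionGroup.orderOf_xa, Nat.card_eq_fintype_card, QuaternionGroup.card, pow_zero,
            mul_one])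
      exact isCyclic_of_injective e.toMonoidHom e.injective
    · exact hk
  -- the complement
  have hcop : Nat.Coprime (Nat.card P) (P : Subgroup G).index := P.card_coprime_index
  obtain ⟨N, hN⟩ := Subgroup.exists_right_complement'_of_coprime hcop
  have hNcard : Nat.card N = (P : Subgroup G).index := hN.symm.index_eq_card.symm
  have hNodd : ¬ 2 ∣ Nat.card N := hNcard ▸ P.not_dvd_index
  set Ct := Subgroup.centralizer ((P : Subgroup G) : Set G) with hCt
  haveI : Ct.Normal := inferInstance
  have hidx : ∀ r, r.Prime → r ∣ Ct.index → r = 2 := by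
    intro r hr hrd
    by_contra hr2
    haveI := Fact.mk hr
    obtain ⟨R⟩ : Nonempty (Sylow r G) := inferInstance
    exact R.not_dvd_index (hrd.trans (Subgroup.index_dvd_of_le fun b hb a ha =>
      hcomm 2 r P R (Ne.symm hr2) a ha b hb))
  have hNle : N ≤ Ct := by
    intro b hb
    rw [← QuotientGroup.eq_one_iff, ← orderOf_eq_one_iff]
    by_contra hne
    obtain ⟨r, hr, hrd⟩ := Nat.exists_prime_and_dvd hne
    have h2 : r = 2 := hidx r hr (hrd.trans (by rw [Subgroup.index_eq_card]; exact orderOf_dvd_natCard _))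
    have h3 : r ∣ Nat.card N := (hrd.trans (orderOf_map_dvd (QuotientGroup.mk' Ct) b)).trans
      (by rw [← Subgroup.orderOf_mk b hb]; exact orderOf_dvd_natCard _)
    exact hNodd (h2 ▸ h3)
  haveI : IsCyclic N := by
    haveI : IsZGroup N := ⟨fun r hr R => by
      haveI := Fact.mk hr
      obtain ⟨S, hS⟩ := (R.2.map N.subtype).exists_le_sylow
      by_cases hr2 : r = 2
      · subst hr2
        haveI : Subsingleton R := by
          rw [← Finite.card_le_one_iff_subsingleton, R.card_eq_multiplicity,
            Nat.factorization_eq_zero_of_not_dvd hNodd, pow_zero]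
        infer_instance
      · haveI := hother r S hr2
        let g : (R : Subgroup N) →* S := (N.subtype.comp (R : Subgroup N).subtype).codRestrict _
          fun y => hS ⟨y, y.2, rfl⟩
        exact isCyclic_of_injective g fun a b hab =>
          Subtype.ext (Subtype.ext (congrArg Subtype.val hab :))⟩
    haveI : Group.IsNilpotent N := inferInstance
    infer_instance
  obtain ⟨c, hc⟩ := IsCyclic.exists_generator (α := N)
  refine ⟨k, Nat.card N, hk, Nat.odd_iff.mpr (Nat.two_dvd_ne_zero.mp hNodd), ?_⟩
  let ψ : ↥(P : Subgroup G) × N →* G := MonoidHom.noncommCoprod (P : Subgroup G).subtype N.subtype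
    fun a b => hNle b.2 a a.2
  have hψ : Function.Bijective ψ := hN
  exact ⟨(MulEquiv.ofBijective ψ hψ).symm.trans
    (MulEquiv.prodCongr e (zmodCyclicMulEquiv (inferInstance : IsCyclic N)).symm)⟩

/-- Let G be a finite non-abelian nilpotent group. Then the centralizer of every non-central element of G is cyclic if and only if G is isomorphic to the direct product of a generalized quaternion group and a cyclic group of odd order. -/
theorem result {G : Type*} [Group G] [Finite G] (hG : Group.IsNilpotent G)
    (hna : ¬ IsMulCommutative G) :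
    (∀ x : G, x ∉ Subgroup.center G → IsCyclic (Subgroup.centralizer ({x} : Set G))) ↔
      ∃ (k m : ℕ), 1 ≤ k ∧ Odd m ∧ Nonempty (G ≃* QuaternionGroup (2 ^ k) × Multiplicative (ZMod m)) := by
  constructor
  · exact fun h => exists_decomp hG hna h
  · rintro ⟨k, m, hk, hm, ⟨e⟩⟩ x hx
    haveI : NeZero (2 ^ k) := ⟨by positivity⟩
    haveI : NeZero m := ⟨fun h => by rw [h] at hm; exact Nat.not_odd_zero hm⟩
    have hq : (e x).1 ∉ Subgroup.center (QuaternionGroup (2 ^ k)) := fun hc => hx (by
      rw [Subgroup.mem_center_iff] at hc ⊢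
      intro g
      apply e.injective
      rw [map_mul, map_mul]
      exact Prod.ext (hc _) (mul_comm _ _))
    haveI := centralizer_quat hk _ hq
    haveI := prod_cyclic (Subgroup.centralizer ({(e x).1} : Set (QuaternionGroup (2 ^ k)))) hm
    let f : Subgroup.centralizer ({x} : Set G) →*
        ↥(Subgroup.centralizer ({(e x).1} : Set (QuaternionGroup (2 ^ k)))) × Multiplicative (ZMod m) :=
      MonoidHom.mk' (fun g => (⟨(e g).1, Subgroup.mem_centralizer_singleton_iff.mpr (by
        have h := congrArg (fun y => (e y).1) (Subgroup.mem_centralizer_singleton_iff.mp g.2)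
        simpa using h)⟩, (e g).2)) fun g h => by
          refine Prod.ext (Subtype.ext ?_) ?_ <;> simp
    refine isCyclic_of_injective f fun g h hgh => Subtype.ext (e.injective (Prod.ext ?_ ?_))
    · exact congrArg (fun y => (y.1 : QuaternionGroup (2 ^ k))) hgh
    · exact (congrArg (fun y => y.2) hgh :)

end Cfsg.Agent.S4370
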