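import Cfsg.Statements.S4377


set_option autoImplicit false
open Cfsg

namespace Cfsg.Agent.S4377

/-- Two finite groups have the same number of elements of each order if and only if, for every n, they have the same number of elements g with gⁿ = 1. -/
theorem result {G H : Type*} [Group G] [Finite G] [Group H] [Finite H] :
    (∀ n : ℕ, Nat.card {g : G // orderOf g = n} = Nat.card {h : H // orderOf h = n}) ↔
      ∀ n : ℕ, Nat.card {g : G // g ^ n = 1} = Nat.card {h : H // h ^ n = 1} := by
  classical
  have := Fintype.ofFinite G
  have := Fintype.ofFinite H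
  have hsum : ∀ n : ℕ, n ≠ 0 →
      (∑ m ∈ n.divisors, Nat.card {g : G // orderOf g = m} = Nat.card {g : G // g ^ n = 1}) ∧
      (∑ m ∈ n.divisors, Nat.card {g : H // orderOf g = m} = Nat.card {g : H // g ^ n = 1}) := by
    intro n hn
    constructor
    all_goals
      simp only [Nat.card_eq_fintype_card, Fintype.card_subtype]
      exact sum_card_orderOf_eq_card_pow_eq_one hn
  constructor
  · intro h n
    rcases eq_or_ne n 0 with rfl | hn
    · -- compare via the exponent
      have e1 : ∀ g : G, g ^ (Monoid.exponent G * Monoid.exponent H) = 1 := fun g => by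
        rw [pow_mul, Monoid.pow_exponent_eq_one, one_pow]
      have e2 : ∀ g : H, g ^ (Monoid.exponent G * Monoid.exponent H) = 1 := fun g => by
        rw [mul_comm, pow_mul, Monoid.pow_exponent_eq_one, one_pow]
      have hne : Monoid.exponent G * Monoid.exponent H ≠ 0 :=
        mul_ne_zero Monoid.exponent_ne_zero_of_finite Monoid.exponent_ne_zero_of_finite
      obtain ⟨h1, h2⟩ := hsum _ hne
      have : Nat.card {g : G // g ^ (Monoid.exponent G * Monoid.exponent H) = 1} =
          Nat.card {g : H // g ^ (Monoid.exponent G * Monoid.exponent H) = 1} := by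
        rw [← h1, ← h2]; exact Finset.sum_congr rfl fun m _ => h m
      simpa [e1, e2] using this
    · obtain ⟨h1, h2⟩ := hsum n hn
      rw [← h1, ← h2]; exact Finset.sum_congr rfl fun m _ => h m
  · intro h n
    induction n using Nat.strong_induction_on with
    | _ n ih =>
      rcases eq_or_ne n 0 with rfl | hn
      · have a1 : IsEmpty {g : G // orderOf g = 0} := ⟨fun g => (orderOf_pos g.1).ne' g.2⟩
        have a2 : IsEmpty {g : H // orderOf g = 0} := ⟨fun g => (orderOf_pos g.1).ne' g.2⟩
        rw [Nat.card_of_isEmpty, Nat.card_of_isEmpty]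
      · obtain ⟨h1, h2⟩ := hsum n hn
        rw [← Nat.cons_self_properDivisors hn, Finset.sum_cons] at h1 h2
        have : ∑ m ∈ n.properDivisors, Nat.card {g : G // orderOf g = m} =
            ∑ m ∈ n.properDivisors, Nat.card {g : H // orderOf g = m} :=
          Finset.sum_congr rfl fun m hm => ih m (Nat.mem_properDivisors.mp hm).2
        have := h n
        omega

end Cfsg.Agent.S4377
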