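import Cfsg.Statements.S4376
import Cfsg.Agent.FGS4.OrderType.Data
import Cfsg.Agent.FGS4.OrderType.SL32
import Cfsg.Agent.S4377

set_option autoImplicit false
open Cfsg

namespace Cfsg.Agent.S4376

open FGS4.OrderType

/-- Product of the groups in a list with multiplicities. -/
abbrev Side (l : List (Good × ℕ × List ℕ)) : Type :=
  ∀ i : Fin l.length, Fin (l.get i).2.1 → El (l.get i).1

/-- The non-solvable group. -/
abbrev Big : Type := (Fin 30 → SL32) × Side negFactors

def value (l : List (Good × ℕ × List ℕ)) (i : ℕ) : ℕ :=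
  ∏ k : Fin l.length, (l.get k).2.2.getD i 0 ^ (l.get k).2.1

set_option maxRecDepth 100000 in
lemma table_eq : ∀ i < 12,
    [1, 22, 57, 64, 78, 49, 120, 70, 105, 112, 126, 168].getD i 0 ^ 30 * value negFactors i =
      value posFactors i := by
  decide +kernel

set_option maxRecDepth 100000 in
lemma pos_top : ∀ p ∈ posFactors, p.2.2.getD 11 0 = (elems p.1).length := by decide +kernel

set_option maxRecDepth 100000 in
lemma neg_top : ∀ p ∈ negFactors, p.2.2.getD 11 0 = (elems p.1).length := by decide +kernel

lemma nodup_flatMap_finRange {n : ℕ} {β : Type*} (f : Fin n → List β) (h1 : ∀ a, (f a).Nodup)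
    (h2 : ∀ a b x, x ∈ f a → x ∈ f b → a = b) : ((List.finRange n).flatMap f).Nodup := by
  rw [List.nodup_flatMap]
  refine ⟨fun a _ => h1 a, (List.nodup_finRange n).imp ?_⟩
  intro a b hab x hx hy
  exact hab (h2 a b x hx hy)

lemma nodup_elems (g : Good) : (elems g).Nodup := by
  refine nodup_flatMap_finRange _ (fun x => nodup_flatMap_finRange _ (fun y => nodup_flatMap_finRange _
    (fun z => nodup_flatMap_finRange _ (fun k => ?_) ?_) ?_) ?_) ?_
  · exact (List.nodup_finRange _).map fun a b h => by simpa using congrArg El.j h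
  all_goals
    intro a b u hu hv
    simp only [List.mem_flatMap, List.mem_map, List.mem_finRange, true_and] at hu hv
  · obtain ⟨_, rfl⟩ := hu; obtain ⟨_, h⟩ := hv; exact (congrArg El.k h).symm
  · obtain ⟨_, _, rfl⟩ := hu; obtain ⟨_, _, h⟩ := hv; exact (congrArg El.z h).symm
  · obtain ⟨_, _, _, rfl⟩ := hu; obtain ⟨_, _, _, h⟩ := hv; exact (congrArg El.y h).symm
  · obtain ⟨_, _, _, _, rfl⟩ := hu; obtain ⟨_, _, _, _, h⟩ := hv; exact (congrArg El.x h).symm

lemma side_kc (l : List (Good × ℕ × List ℕ)) (hs : ∀ p ∈ l, profile (elems p.1) = p.2.2)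
    (ht : ∀ p ∈ l, p.2.2.getD 11 0 = (elems p.1).length)
    (n i : ℕ) (hi : i < 12) (hn : Nat.gcd n 84 = divs.getD i 0) :
    kc (Side l) n = value l i := by
  rw [kc_pi, value]
  refine Finset.prod_congr rfl fun k _ => ?_
  have hm := List.get_mem l k
  rw [kc_pi, Finset.prod_const, Finset.card_univ, Fintype.card_fin,
    kc_gcd (pow_top_of_profile (nodup_elems _) mem_elems (hs _ hm) (ht _ hm)) n, hn,
    kc_of_profile (nodup_elems _) mem_elems (hs _ hm) i hi]

lemma big_kc (n i : ℕ) (hi : i < 12) (hn : Nat.gcd n 84 = divs.getD i 0) :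
    kc Big n = [1, 22, 57, 64, 78, 49, 120, 70, 105, 112, 126, 168].getD i 0 ^ 30 * value negFactors i := by
  rw [kc_prod, side_kc negFactors negFactors_spec neg_top n i hi hn, kc_pi, Finset.prod_const,
    Finset.card_univ, Fintype.card_fin,
    kc_gcd (pow_top_of_profile SL32.nodup_elems SL32.mem_elems SL32.profile_elems
      (by rw [SL32.length_elems]; rfl)) n, hn,
    kc_of_profile SL32.nodup_elems SL32.mem_elems SL32.profile_elems i hi]

lemma side_solvable (l : List (Good × ℕ × List ℕ)) : Group.IsSolvable (Side l) := by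
  refine ⟨3, ?_⟩
  rw [eq_bot_iff]
  intro x hx
  rw [Subgroup.mem_bot]
  ext1 k
  funext r
  have h := map_derivedSeries_le_derivedSeries
    ((Pi.evalMonoidHom (fun _ : Fin (l.get k).2.1 => El (l.get k).1) r).comp
      (Pi.evalMonoidHom (fun k : Fin l.length => Fin (l.get k).2.1 → El (l.get k).1) k)) 3
    ⟨x, hx, rfl⟩
  rw [derivedSeries_three, Subgroup.mem_bot] at h
  exact h

lemma big_not_solvable : ¬ Group.IsSolvable Big := fun h =>
  SL32.not_isSolvable (Group.isSolvable_of_surjective
    (f := (Pi.evalMonoidHom (fun _ : Fin 30 => SL32) 0).comp (MonoidHom.fst (Fin 30 → SL32) (Side negFactors)))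
    (fun u => ⟨(fun _ => u, 1), rfl⟩))

lemma of_counts {G H : Type*} [Group G] [Finite G] [Group H] [Finite H]
    (h : ∀ n : ℕ, Nat.card {g : G // g ^ n = 1} = Nat.card {h : H // h ^ n = 1}) :
    ∀ n : ℕ, Nat.card {g : G // orderOf g = n} = Nat.card {h : H // orderOf h = n} :=
  S4377.result.mpr h

/-- There are finite groups G and H having the same number of elements of each order (the same order type) with G solvable and H not solvable. -/
theorem result :
    ∃ (G : Type) (_ : Group G) (_ : Finite G) (H : Type) (_ : Group H) (_ : Finite H),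
      Group.IsSolvable G ∧ ¬ Group.IsSolvable H ∧ ∀ n : ℕ, Nat.card {g : G // orderOf g = n} = Nat.card {h : H // orderOf h = n} := by
  refine ⟨Side posFactors, inferInstance, inferInstance, Big, inferInstance, inferInstance,
    side_solvable _, big_not_solvable, fun n => ?_⟩
  refine of_counts (G := Side posFactors) (H := Big) (fun m => ?_) n
  change kc (Side posFactors) m = kc Big m
  obtain ⟨i, hi, hg⟩ := gcd_eq_divs m
  rw [big_kc m i hi hg, side_kc posFactors posFactors_spec pos_top m i hi hg]
  exact (table_eq i hi).symm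

end Cfsg.Agent.S4376
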