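import Cfsg.Statements.S4381
import Cfsg.Agent.Core.CoprimeAction
import Cfsg.Agent.Transfer.AbelianMaschke
import Cfsg.Agent.FGS3.PGroupFrattini
import Mathlib.GroupTheory.SemidirectProduct

set_option autoImplicit false
open Pointwise
open Cfsg

namespace Cfsg.Agent.S4381

open scoped Pointwise

/-- Maximal invariant subgroups. -/
abbrev MaxInv (A : Type*) {G : Type*} [Group A] [Group G] [MulDistribMulAction A G] (M : Subgroup G) : Prop :=
  M ≠ ⊤ ∧ (∀ a : A, ∀ x ∈ M, a • x ∈ M) ∧ ∀ L : Subgroup G, M < L → (∀ a : A, ∀ x ∈ L, a • x ∈ L) → L = ⊤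

variable {A G : Type*} [Group A] [Group G] [MulDistribMulAction A G]

theorem sup_invariant {M N : Subgroup G} (hM : ∀ a : A, ∀ x ∈ M, a • x ∈ M)
    (hN : ∀ a : A, ∀ x ∈ N, a • x ∈ N) : ∀ a : A, ∀ x ∈ M ⊔ N, a • x ∈ M ⊔ N := by
  intro a x hx
  have h : M ⊔ N ≤ (M ⊔ N).comap (MulDistribMulAction.toMonoidHom G a) :=
    sup_le (fun m hm => Subgroup.mem_sup_left (hM a m hm)) (fun m hm => Subgroup.mem_sup_right (hN a m hm))
  exact h hx

theorem exists_inv_sylow [Finite A] [Finite G] (hcop : (Nat.card A).Coprime (Nat.card G))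
    (hsol : Group.IsSolvable A ∨ Group.IsSolvable G) (q : ℕ) [Fact q.Prime] :
    ∃ P : Sylow q G, ∀ a : A, ∀ x ∈ (P : Subgroup G), a • x ∈ (P : Subgroup G) := by
  let φ : A →* MulAut G := MulDistribMulAction.toMulAut A G
  haveI : Finite (G ⋊[φ] A) := Finite.of_equiv _ SemidirectProduct.equivProd.symm
  set N := (SemidirectProduct.inl : G →* G ⋊[φ] A).range
  set B := (SemidirectProduct.inr : A →* G ⋊[φ] A).range
  have hN : N.Normal := by
    show (SemidirectProduct.inl : G →* G ⋊[φ] A).range.Normal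
    rw [SemidirectProduct.range_inl_eq_ker_rightHom]; infer_instance
  have hB : B ≤ Subgroup.normalizer (N : Set (G ⋊[φ] A)) := by
    rw [Subgroup.normalizer_eq_top_iff.mpr hN]; exact le_top
  have eN : G ≃* N := MonoidHom.ofInjective SemidirectProduct.inl_injective
  have eB : A ≃* B := MonoidHom.ofInjective SemidirectProduct.inr_injective
  obtain ⟨P, hPN, hP, hPi, hPB⟩ := Core.exists_invariant_sylow hB
    (hsol.imp (fun h => @Group.isSolvable_of_surjective A B _ _ eB.toMonoidHom eB.surjective h)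
      (fun h => @Group.isSolvable_of_surjective G N _ _ eN.toMonoidHom eN.surjective h))
    (by rw [← Nat.card_congr eN.toEquiv, ← Nat.card_congr eB.toEquiv]; exact hcop) q
  have hQi : ¬ q ∣ (P.comap (SemidirectProduct.inl : G →* G ⋊[φ] A)).index := by
    rw [Subgroup.index_comap]; exact hPi
  refine ⟨(hP.comap_of_injective _ SemidirectProduct.inl_injective).toSylow hQi, fun a x hx => ?_⟩
  show (SemidirectProduct.inl (a • x) : G ⋊[φ] A) ∈ P
  rw [show a • x = φ a x from rfl, SemidirectProduct.inl_aut]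
  have h := (Subgroup.mem_normalizer_iff.mp (hPB ⟨a, rfl⟩) _).mp hx
  rwa [map_inv]

theorem normal_of_frattini_le [Finite G] {p : ℕ} [Fact p.Prime] (hG : IsPGroup p G) {M : Subgroup G}
    (h : frattini G ≤ M) : M.Normal :=
  ⟨fun n hn g => by
    have hc : g * n * g⁻¹ * n⁻¹ ∈ frattini G := FGS3.commutator_le_frattini hG
      (Subgroup.commutator_mem_commutator (Subgroup.mem_top g) (Subgroup.mem_top n))
    simpa using M.mul_mem (h hc) hn⟩

theorem no_between [Finite A] [Finite G] (hcop : (Nat.card A).Coprime (Nat.card G)) {p : ℕ} [Fact p.Prime]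
    (hG : IsPGroup p G) (hΦ : ∀ a : A, ∀ x ∈ frattini G, a • x ∈ frattini G) {L : Subgroup G}
    (hL : frattini G < L) (hLt : L ≠ ⊤) (hLi : ∀ a : A, ∀ x ∈ L, a • x ∈ L)
    (key : ∀ L' : Subgroup G, L' ≠ ⊤ → (∀ a : A, ∀ x ∈ L', a • x ∈ L') → L ⊔ L' ≠ ⊤) : False := by
  classical
  have hab : ∀ a b : G ⧸ frattini G, a * b = b * a := by
    rintro ⟨a⟩ ⟨b⟩
    refine QuotientGroup.eq.mpr ?_
    have := FGS3.commutator_le_frattini hG
      (Subgroup.commutator_mem_commutator (Subgroup.mem_top b⁻¹) (Subgroup.mem_top a⁻¹))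
    rw [show (a * b)⁻¹ * (b * a) = b⁻¹ * a⁻¹ * b * a by group]
    rwa [commutatorElement_def, inv_inv, inv_inv] at this
  letI : CommGroup (G ⧸ frattini G) := { (inferInstance : Group (G ⧸ frattini G)) with mul_comm := hab }
  let π := QuotientGroup.mk' (frattini G)
  have hπ : Function.Surjective π := QuotientGroup.mk'_surjective _
  let N := L.map π
  obtain ⟨M₀, -, ⟨hM0, hmax⟩⟩ := (Set.toFinite {K : Subgroup (G ⧸ frattini G) | K ⊓ N = ⊥}).exists_le_maximal
    (a := ⊥) (bot_inf_eq N)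
  have hM0' : M₀ ⊓ N = ⊥ := hM0
  have hsup : M₀ ⊔ N = ⊤ := by
    rw [Subgroup.eq_top_iff']
    intro a
    by_contra ha
    have hne : (M₀ ⊔ Subgroup.zpowers a) ⊓ N ≠ ⊥ := fun h => ha
      (Subgroup.mem_sup_left ((hmax h le_sup_left) (Subgroup.mem_sup_right (Subgroup.mem_zpowers a))))
    obtain ⟨x, ⟨hx, hxN⟩, hx1⟩ := (Subgroup.bot_or_exists_ne_one _).resolve_left hne
    obtain ⟨m, hm, _, ⟨i, rfl⟩, hxe⟩ := Subgroup.mem_sup.mp hx
    have hap : a ^ (p : ℤ) = 1 := by
      obtain ⟨g, rfl⟩ := hπ a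
      rw [zpow_natCast, ← map_pow]
      exact (QuotientGroup.eq_one_iff _).mpr (FGS3.pow_mem_frattini hG g)
    have hai : a ^ i ∈ M₀ ⊔ N := by
      rw [show a ^ i = m⁻¹ * x by rw [← hxe]; simp]
      exact Subgroup.mul_mem_sup (inv_mem hm) hxN
    by_cases hpi : (p : ℤ) ∣ i
    · obtain ⟨j, rfl⟩ := hpi
      have : x ∈ M₀ ⊓ N := ⟨by rw [← hxe]; simpa [zpow_mul, hap] using hm, hxN⟩
      rw [hM0', Subgroup.mem_bot] at this
      exact hx1 this
    · obtain ⟨u, v, huv⟩ := ((Nat.prime_iff_prime_int.mp (Fact.out : p.Prime)).coprime_iff_not_dvd).mpr hpi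
      apply ha
      have : a = (a ^ i) ^ v := by
        conv_lhs => rw [← zpow_one a, ← huv, zpow_add, mul_comm u, zpow_mul, hap, one_zpow, one_mul,
          mul_comm, zpow_mul]
      rw [this]; exact zpow_mem hai v
  let act : A →* MulAut (G ⧸ frattini G) := MonoidHom.mk'
    (fun a => QuotientGroup.congr (frattini G) (frattini G) (MulDistribMulAction.toMulAut A G a)
      (Subgroup.characteristic_iff_map_eq.mp (inferInstance : (frattini G).Characteristic) _))
    (fun a b => MulEquiv.ext fun q => by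
      obtain ⟨g, rfl⟩ := hπ q
      show π ((a * b) • g) = π (a • b • g)
      rw [mul_smul])
  have hX : (Nat.card act.range).Coprime (Nat.card (G ⧸ frattini G)) :=
    (hcop.coprime_dvd_left (Subgroup.card_range_dvd act)).coprime_dvd_right (Subgroup.card_quotient_dvd_card _)
  have hNinv : Transfer.AbMaschke.Inv act.range N := by
    rintro _ ⟨a, rfl⟩ _ ⟨g, hg, rfl⟩
    exact ⟨a • g, hLi a g hg, rfl⟩
  have hbot : Transfer.AbMaschke.Inv act.range ⊥ := by
    intro x _ b hb
    rw [Subgroup.mem_bot] at hb ⊢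
    rw [hb, map_one]
  obtain ⟨M, hMi, hMN, hMs⟩ := Transfer.AbMaschke.exists_inv_complement act.range hX hbot hNinv hM0' hsup
  refine key (M.comap π) ?_ (fun a x hx => ?_) ?_
  · intro h
    have hMt : M = ⊤ := by
      rw [← Subgroup.map_comap_eq_self_of_surjective hπ M, h, Subgroup.map_top_of_surjective π hπ]
    rw [hMt, top_inf_eq, Subgroup.map_eq_bot_iff, QuotientGroup.ker_mk'] at hMN
    exact absurd hMN (not_le_of_gt hL)
  · exact hMi (act a) ⟨a, rfl⟩ _ hx
  · apply Subgroup.eq_top_of_card_eq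
    have h1 : (L ⊔ M.comap π).map π = ⊤ := by
      rw [Subgroup.map_sup, Subgroup.map_comap_eq_self_of_surjective hπ, sup_comm]; exact hMs
    have hk : π.ker ≤ L ⊔ M.comap π := by
      rw [QuotientGroup.ker_mk']; exact hL.le.trans le_sup_left
    rw [← Subgroup.comap_map_eq_self hk, h1, Subgroup.comap_top, Subgroup.card_top]

/-- Let the finite group A act by automorphisms on the finite group G with the orders of A and G coprime, and assume that A or G is solvable. Call a proper A-invariant subgroup of G maximal A-invariant when no A-invariant subgroup lies strictly between it and G. Then all maximal A-invariant subgroups of G are conjugate under elements of the fixed-point subgroup C_G(A) if and only if G is a p-group for some prime p and A leaves invariant no subgroup strictly between the Frattini subgroup of G and G. In that case, if G is nontrivial, the Frattini subgroup is the only maximal A-invariant subgroup (a trivial G has none). -/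
theorem result {A G : Type*} [Group A] [Finite A]
    [Group G] [Finite G] [MulDistribMulAction A G] (hcop : (Nat.card A).Coprime (Nat.card G)) (hsol : Group.IsSolvable A ∨ Group.IsSolvable G) :
    ((∀ M N : Subgroup G, (M ≠ ⊤ ∧ (∀ a : A, ∀ x ∈ M, a • x ∈ M) ∧ ∀ L : Subgroup G, M < L → (∀ a : A, ∀ x ∈ L, a • x ∈ L) → L = ⊤) → (N ≠ ⊤ ∧ (∀ a : A, ∀ x ∈ N, a • x ∈ N) ∧ ∀ L : Subgroup G, N < L → (∀ a : A, ∀ x ∈ L, a • x ∈ L) → L = ⊤) →
        ∃ c : G, (∀ a : A, a • c = c) ∧ N = MulAut.conj c • M) ↔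
      ((∃ p : ℕ, p.Prime ∧ IsPGroup p G) ∧ ∀ L : Subgroup G, frattini G < L → (∀ a : A, ∀ x ∈ L, a • x ∈ L) → L = ⊤)) ∧
    (((∃ p : ℕ, p.Prime ∧ IsPGroup p G) ∧ ∀ L : Subgroup G, frattini G < L → (∀ a : A, ∀ x ∈ L, a • x ∈ L) → L = ⊤) →
      ∀ M : Subgroup G, (M ≠ ⊤ ∧ (∀ a : A, ∀ x ∈ M, a • x ∈ M) ∧ ∀ L : Subgroup G, M < L → (∀ a : A, ∀ x ∈ L, a • x ∈ L) → L = ⊤) ↔ (M = frattini G ∧ M ≠ ⊤)) := by
  classical
  have hΦinv : ∀ a : A, ∀ x ∈ frattini G, a • x ∈ frattini G := fun a x hx => by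
    have h := Subgroup.characteristic_iff_map_eq.mp (inferInstance : (frattini G).Characteristic)
      (MulDistribMulAction.toMulAut A G a)
    rw [← h]; exact ⟨x, hx, rfl⟩
  have hext : ((∃ p : ℕ, p.Prime ∧ IsPGroup p G) ∧ ∀ L : Subgroup G, frattini G < L → (∀ a : A, ∀ x ∈ L, a • x ∈ L) → L = ⊤) →
      ∀ M : Subgroup G, MaxInv A M ↔ (M = frattini G ∧ M ≠ ⊤) := by
    rintro ⟨⟨p, hp, hG⟩, hL⟩ M
    constructor
    · rintro ⟨hM, hMi, hMmax⟩
      have hle : frattini G ≤ M := by
        by_contra hnle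
        refine hM (frattini_nongenerating (hMmax (M ⊔ frattini G) (left_lt_sup.mpr hnle) ?_))
        exact sup_invariant hMi hΦinv
      refine ⟨?_, hM⟩
      rcases eq_or_lt_of_le hle with h | h
      · exact h.symm
      · exact absurd (hL M h hMi) hM
    · rintro ⟨rfl, hne⟩
      exact ⟨hne, hΦinv, hL⟩
  refine ⟨⟨fun hconj => ?_, fun h => ?_⟩, hext⟩
  · rcases subsingleton_or_nontrivial G with hs | hnt
    · refine ⟨⟨2, Nat.prime_two, fun g => ⟨0, Subsingleton.elim _ _⟩⟩, fun L _ _ => ?_⟩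
      exact (Subgroup.eq_top_iff' L).mpr fun x => by rw [Subsingleton.elim x 1]; exact one_mem L
    have hex : ∀ L : Subgroup G, L ≠ ⊤ → (∀ a : A, ∀ x ∈ L, a • x ∈ L) → ∃ M, L ≤ M ∧ MaxInv A M := by
      intro L hL hLi
      obtain ⟨M, hLM, ⟨⟨hM, hMi⟩, hmax⟩⟩ := (Set.toFinite
        {K : Subgroup G | K ≠ ⊤ ∧ ∀ a : A, ∀ x ∈ K, a • x ∈ K}).exists_le_maximal (a := L) ⟨hL, hLi⟩
      exact ⟨M, hLM, hM, hMi, fun K hK hKi => by
        by_contra hne; exact absurd (hmax ⟨hne, hKi⟩ hK.le) (not_le_of_gt hK)⟩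
    obtain ⟨p, hp, hG⟩ : ∃ p, p.Prime ∧ IsPGroup p G := by
      by_contra hne
      push Not at hne
      have hsyl : ∀ q : ℕ, q.Prime → ∃ P : Subgroup G, P ≠ ⊤ ∧ (∀ a : A, ∀ x ∈ P, a • x ∈ P) ∧
          Nat.card P = q ^ (Nat.card G).factorization q := by
        intro q hq
        haveI := Fact.mk hq
        obtain ⟨P, hPi⟩ := exists_inv_sylow hcop hsol q
        exact ⟨P, fun h => hne q hq (IsPGroup.of_card (n := (Nat.card G).factorization q) (by
          have := P.card_eq_multiplicity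
          rwa [h, Subgroup.card_top] at this)), hPi, P.card_eq_multiplicity⟩
      obtain ⟨P0, hP0, hP0i, -⟩ := hsyl 2 Nat.prime_two
      obtain ⟨M, -, hM⟩ := hex P0 hP0 hP0i
      refine hM.1 (Subgroup.eq_top_of_card_eq M (Nat.dvd_antisymm (Subgroup.card_subgroup_dvd_card M) ?_))
      rw [← Nat.factorization_le_iff_dvd Nat.card_pos.ne' Nat.card_pos.ne']
      intro q
      by_cases hq : q.Prime
      · obtain ⟨P, hP, hPi, hPc⟩ := hsyl q hq
        obtain ⟨N, hPN, hN⟩ := hex P hP hPi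
        obtain ⟨c, -, rfl⟩ := hconj M N hM hN
        have hd : q ^ (Nat.card G).factorization q ∣ Nat.card M := by
          rw [← hPc]
          refine (Subgroup.card_dvd_of_le hPN).trans (dvd_of_eq ?_)
          exact (Nat.card_congr (Subgroup.equivSMul (MulAut.conj c) M).toEquiv).symm
        exact (hq.pow_dvd_iff_le_factorization Nat.card_pos.ne').mp hd
      · rw [Nat.factorization_eq_zero_of_not_prime _ hq]; exact Nat.zero_le _
    refine ⟨⟨p, hp, hG⟩, fun L hL hLi => ?_⟩
    by_contra hLt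
    haveI := Fact.mk hp
    exact no_between hcop hG hΦinv hL hLt hLi fun L' hL' hL'i => by
      intro h1
      obtain ⟨M1, hM1, hm1⟩ := hex L hLt hLi
      obtain ⟨M2, hM2, hm2⟩ := hex L' hL' hL'i
      obtain ⟨c, -, rfl⟩ := hconj M1 M2 hm1 hm2
      have hn : M1.Normal := normal_of_frattini_le hG (hL.le.trans hM1)
      rw [hn.conj_smul_eq_self] at hM2
      exact hm1.1 (top_le_iff.mp (h1 ▸ sup_le hM1 hM2))
  · intro M N hM hN
    have h1 := ((hext h) M).mp hM
    have h2 := ((hext h) N).mp hN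
    exact ⟨1, fun a => smul_one a, by rw [map_one, one_smul, h1.1, h2.1]⟩

end Cfsg.Agent.S4381
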