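import Cfsg.Statements.S4387


set_option autoImplicit false
open Pointwise
open Cfsg

namespace Cfsg.Agent.S4387

/-- Let G be a non-trivial finite group in which any two maximal subgroups are conjugate. Then G is cyclic of prime-power order. -/
theorem result {G : Type*} [Group G] [Finite G] [Nontrivial G]
    (h : ∀ M N : Subgroup G, IsCoatom M → IsCoatom N → ∃ g : G, N = MulAut.conj g • M) :
    IsCyclic G ∧ IsPrimePow (Nat.card G) := by
  obtain ⟨p, hp, hpG⟩ := Nat.exists_prime_and_dvd (Finite.one_lt_card (α := G)).ne'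
  have := Fact.mk hp
  -- some Sylow subgroup is the whole group
  obtain ⟨q, hq, Q, hQ⟩ : ∃ q : ℕ, q.Prime ∧ ∃ Q : Sylow q G, (Q : Subgroup G) = ⊤ := by
    by_contra hne
    push Not at hne
    obtain ⟨P₀⟩ : Nonempty (Sylow p G) := inferInstance
    obtain ⟨M, hM, -⟩ := (eq_top_or_exists_le_coatom (P₀ : Subgroup G)).resolve_left (hne p hp P₀)
    apply hM.1
    apply Subgroup.eq_top_of_card_eq
    apply Nat.dvd_antisymm (Subgroup.card_subgroup_dvd_card M)
    refine (Nat.factorization_le_iff_dvd Nat.card_pos.ne' Nat.card_pos.ne').mp fun r => ?_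
    by_cases hr : r ∈ (Nat.card G).primeFactors
    · have := Fact.mk (Nat.prime_of_mem_primeFactors hr)
      obtain ⟨R⟩ : Nonempty (Sylow r G) := inferInstance
      obtain ⟨N, hN, hRN⟩ :=
        (eq_top_or_exists_le_coatom (R : Subgroup G)).resolve_left (hne r (Nat.prime_of_mem_primeFactors hr) R)
      obtain ⟨g, rfl⟩ := h M N hM hN
      have hcard : Nat.card (MulAut.conj g • M : Subgroup G) = Nat.card M :=
        (Nat.card_congr (Subgroup.equivSMul (MulAut.conj g) M).toEquiv).symm
      have h1 := Subgroup.card_dvd_of_le hRN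
      rw [hcard, R.card_eq_multiplicity] at h1
      exact (Nat.Prime.pow_dvd_iff_le_factorization Fact.out Nat.card_pos.ne').mp h1
    · rw [← Nat.support_factorization, Finsupp.notMem_support_iff] at hr
      simp [hr]
  have := Fact.mk hq
  have hG : IsPGroup q G := by
    have := Q.isPGroup'
    rw [hQ] at this
    exact this.of_equiv Subgroup.topEquiv
  obtain ⟨k, hk⟩ := hG.exists_card_eq
  have hk0 : k ≠ 0 := by
    rintro rfl
    simp only [pow_zero] at hk
    exact (Finite.one_lt_card (α := G)).ne' hk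
  refine ⟨?_, hk ▸ hq.isPrimePow.pow hk0⟩
  have := hG.isNilpotent
  obtain ⟨M, hM, -⟩ := (eq_top_or_exists_le_coatom (⊥ : Subgroup G)).resolve_left bot_ne_top
  have hMn : M.Normal := Subgroup.NormalizerCondition.normal_of_coatom M Group.normalizerCondition_of_isNilpotent hM
  obtain ⟨x, -, hx⟩ := SetLike.exists_of_lt hM.lt_top
  refine ⟨x, fun y => ?_⟩
  rcases eq_top_or_exists_le_coatom (Subgroup.zpowers x) with he | ⟨N, hN, hxN⟩
  · exact Subgroup.mem_zpowers_iff.mp (he ▸ Subgroup.mem_top y)
  · obtain ⟨g, rfl⟩ := h M N hM hN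
    exfalso
    have h1 := hxN (Subgroup.mem_zpowers x)
    rw [Subgroup.mem_pointwise_smul_iff_inv_smul_mem] at h1
    have h2 := hMn.conj_mem _ h1 g
    simp [MulAut.smul_def, mul_assoc] at h2
    exact hx h2

end Cfsg.Agent.S4387
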