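import Cfsg.Statements.S4397
import Cfsg.Agent.OddLocal.FPF
import Cfsg.Agent.Coprime.Action
import Cfsg.Agent.Coprime.Conjugacy
import Mathlib.Tactic.Group
import Mathlib.Tactic.Ring

set_option autoImplicit false
open Cfsg

namespace Cfsg.Agent.S4397

universe v

theorem metacyclic_of_gen {X : Type*} [Group X] (a b : X) (hn : (Subgroup.zpowers a).Normal)
    (h : ∀ g : X, ∃ j : ℤ, g * (b ^ j)⁻¹ ∈ Subgroup.zpowers a) : IsMetacyclic X := by
  haveI := hn
  refine ⟨Subgroup.zpowers a, hn, Subgroup.isCyclic_zpowers a,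
    isCyclic_of_surjective (f := (QuotientGroup.mk' (Subgroup.zpowers a)).comp
      (zpowersHom X b)) ?_⟩
  rintro ⟨g⟩
  obtain ⟨j, hj⟩ := h g
  refine ⟨Multiplicative.ofAdd j, ?_⟩
  show QuotientGroup.mk' _ (b ^ j) = QuotientGroup.mk g
  rw [QuotientGroup.mk'_apply, QuotientGroup.eq]
  have := hn.conj_mem _ hj (b ^ j)⁻¹
  simpa [mul_assoc] using this

theorem sectional_quotient {X : Type*} [Group X] {k : ℕ} (hr : Cfsg.SectionalPRankLE 2 k X)
    (W : Subgroup X) [W.Normal] : Cfsg.SectionalPRankLE 2 k (X ⧸ W) := by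
  intro H N hN A hA hA2
  haveI := hN
  set π := QuotientGroup.mk' W
  let f : H.comap π →* H := π.subgroupComap H
  have hf : Function.Surjective f := fun h => by
    obtain ⟨g, hg⟩ := QuotientGroup.mk'_surjective W h.1
    exact ⟨⟨g, by show π g ∈ H; rw [hg]; exact h.2⟩, Subtype.ext hg⟩
  haveI : (N.comap f).Normal := hN.comap f
  let e : (H.comap π ⧸ N.comap f) →* H ⧸ N :=
    QuotientGroup.map _ N f le_rfl
  have hinj : Function.Injective e := by
    rw [← MonoidHom.ker_eq_bot_iff, eq_bot_iff]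
    rintro ⟨x⟩ hx
    exact (QuotientGroup.eq_one_iff x).mpr ((QuotientGroup.eq_one_iff (f x)).mp hx)
  have hsurj : Function.Surjective e := by
    rintro ⟨y⟩
    obtain ⟨x, rfl⟩ := hf y
    exact ⟨x, rfl⟩
  let ei := (MulEquiv.ofBijective e ⟨hinj, hsurj⟩).symm
  haveI := hA
  have hA' : ∀ a ∈ A.map ei.toMonoidHom, a ^ 2 = 1 := by
    rintro _ ⟨a, ha, rfl⟩
    rw [← map_pow, hA2 a ha, map_one]
  have h := hr (H.comap π) (N.comap f) (A.map ei.toMonoidHom) inferInstance hA'
  rwa [Subgroup.card_map_of_injective (f := ei.toMonoidHom) ei.injective] at h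

theorem no_three {X : Type*} [Group X] [Finite X] (hr : Cfsg.SectionalPRankLE 2 2 X) {u v w : X}
    (hu : u ^ 2 = 1) (hv : v ^ 2 = 1) (hw : w ^ 2 = 1) (huv : u * v = v * u) (huw : u * w = w * u)
    (hvw : v * w = w * v) (h1 : w ≠ 1) (h2 : u ∉ Subgroup.zpowers w)
    (h3 : v ∉ Subgroup.zpowers w ⊔ Subgroup.zpowers u) : False := by
  haveI : Fact (Nat.Prime 2) := ⟨Nat.prime_two⟩
  set Y := Subgroup.closure ({w, u, v} : Set X) with hY
  haveI hYc : IsMulCommutative Y := Subgroup.isMulCommutative_closure (by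
    simp only [Set.mem_insert_iff, Set.mem_singleton_iff]
    rintro x (rfl | rfl | rfl) y (rfl | rfl | rfl) <;>
      first | rfl | assumption | exact (Eq.symm ‹_›))
  have hY2 : ∀ x ∈ Y, x ^ 2 = 1 := by
    intro x hx
    induction hx using Subgroup.closure_induction with
    | mem y hy => rcases hy with rfl | rfl | rfl <;> assumption
    | one => exact one_pow 2
    | mul a b ha hb iha ihb =>
      have hab : Commute a b := congrArg Subtype.val (mul_comm' (⟨a, ha⟩ : Y) ⟨b, hb⟩)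
      rw [hab.mul_pow, iha, ihb, one_mul]
    | inv a ha iha => rw [inv_pow, iha, inv_one]
  have ho : ∀ t : X, t ^ 2 = 1 → t ≠ 1 → Nat.card (Subgroup.zpowers t) = 2 := fun t ht ht1 => by
    rw [Nat.card_zpowers, orderOf_eq_prime ht ht1]
  have hd : ∀ (A : Subgroup X) (t : X), t ^ 2 = 1 → t ∉ A → A ⊓ Subgroup.zpowers t = ⊥ := by
    intro A t ht htA
    rw [eq_bot_iff]
    rintro x ⟨hxA, hxt⟩
    have hne : t ≠ 1 := fun h => htA (h ▸ one_mem A)
    rcases Nat.prime_two.eq_one_or_self_of_dvd _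
      ((orderOf_eq_prime ht hne) ▸ orderOf_dvd_of_mem_zpowers hxt) with h | h
    · exact Subgroup.mem_bot.mpr (orderOf_eq_one_iff.mp h)
    · refine absurd ?_ htA
      obtain ⟨k, rfl⟩ := Subgroup.mem_zpowers_iff.mp hxt
      rw [zpow_eq_zpow_emod' k ht] at hxA h
      rcases Int.emod_two_eq_zero_or_one k with hk | hk <;>
        simp only [Nat.cast_ofNat, hk, zpow_zero, zpow_one, orderOf_one] at hxA h
      · exact absurd h (by omega)
      · exact hxA
  have hwY : Subgroup.zpowers w ≤ Y := Subgroup.zpowers_le.mpr (Subgroup.subset_closure (by simp))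
  have huY : Subgroup.zpowers u ≤ Y := Subgroup.zpowers_le.mpr (Subgroup.subset_closure (by simp))
  have hvY : Subgroup.zpowers v ≤ Y := Subgroup.zpowers_le.mpr (Subgroup.subset_closure (by simp))
  have hnorm : ∀ A B : Subgroup X, A ≤ Y → B ≤ Y → B ≤ Subgroup.normalizer (A : Set X) := by
    intro A B hA hB b hb
    refine Cfsg.Agent.Coprime.mem_normalizer_of_conj_mem fun a ha => ?_
    have hab : b * a = a * b := congrArg Subtype.val (mul_comm' (⟨b, hB hb⟩ : Y) ⟨a, hA ha⟩)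
    rwa [hab, mul_inv_cancel_right]
  have c1 := Cfsg.Agent.Coprime.card_sup (hnorm _ _ hwY huY) (hd _ u hu h2)
  have c2 := Cfsg.Agent.Coprime.card_sup (hnorm _ _ (sup_le hwY huY) hvY) (hd _ v hv h3)
  rw [c1, ho w hw h1, ho u hu (fun h => h2 (h ▸ one_mem _)), ho v hv (fun h => h3 (h ▸ one_mem _))] at c2
  let φ : X →* ((⊤ : Subgroup X) ⧸ (⊥ : Subgroup (⊤ : Subgroup X))) :=
    (QuotientGroup.mk' _).comp Subgroup.topEquiv.symm.toMonoidHom
  have hφ : Function.Injective φ := by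
    intro a b hab
    simp only [φ, MonoidHom.coe_comp, Function.comp_apply, QuotientGroup.mk'_apply,
      QuotientGroup.eq, Subgroup.mem_bot, inv_mul_eq_one] at hab
    exact Subgroup.topEquiv.symm.injective hab
  have hY2' : ∀ a ∈ Y.map φ, a ^ 2 = 1 := by
    rintro _ ⟨a, ha, rfl⟩
    rw [← map_pow, hY2 a ha, map_one]
  have h := hr ⊤ ⊥ (Y.map φ) inferInstance hY2'
  rw [Subgroup.card_map_of_injective hφ] at h
  have h' : 8 ≤ Nat.card Y := by
    have hle := Subgroup.card_le_of_le (sup_le (sup_le hwY huY) hvY)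
    rw [c2] at hle
    exact hle
  omega

theorem exists_basis {Q : Type*} [Group Q] [Finite Q] {x y : Q} (hxy : Commute x y)
    (hd : orderOf y ∣ orderOf x) :
    ∃ s : ℤ, ∀ i j : ℤ, x ^ i * (y * x ^ s) ^ j = 1 → x ^ i = 1 ∧ (y * x ^ s) ^ j = 1 := by
  classical
  have hex : ∃ k : ℕ, 0 < k ∧ y ^ k ∈ Subgroup.zpowers x :=
    ⟨orderOf y, orderOf_pos y, by rw [pow_orderOf_eq_one]; exact one_mem _⟩
  obtain ⟨hk0, hkm⟩ := Nat.find_spec hex
  set k := Nat.find hex with hk
  have hdiv : ∀ j : ℤ, y ^ j ∈ Subgroup.zpowers x → (k : ℤ) ∣ j := by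
    intro j hj
    have hm : y ^ (j % (k : ℤ)) ∈ Subgroup.zpowers x := by
      rw [Int.emod_def, zpow_sub, zpow_mul, zpow_natCast]
      exact mul_mem hj (inv_mem (zpow_mem hkm _))
    refine Int.dvd_of_emod_eq_zero ?_
    by_contra hne
    have h0 : 0 ≤ j % (k : ℤ) := Int.emod_nonneg _ (by omega)
    have h1 : j % (k : ℤ) < k := Int.emod_lt_of_pos _ (by omega)
    obtain ⟨m, hm'⟩ := Int.eq_ofNat_of_zero_le h0
    rw [hm', zpow_natCast] at hm
    exact Nat.find_min hex (show m < k by omega) ⟨by omega, hm⟩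
  obtain ⟨d, hd'⟩ := hdiv (orderOf y) (by rw [zpow_natCast, pow_orderOf_eq_one]; exact one_mem _)
  obtain ⟨e, he⟩ := hd
  obtain ⟨l, hl⟩ := Subgroup.mem_zpowers_iff.mp hkm
  have hl' : (orderOf x : ℤ) ∣ l * (d * e) := by
    rw [orderOf_dvd_iff_zpow_eq_one, zpow_mul, hl, ← zpow_natCast y k, ← zpow_mul, ← mul_assoc, ← hd',
      zpow_mul y, zpow_natCast y (orderOf y), pow_orderOf_eq_one, one_zpow]
  have hN : (orderOf x : ℤ) = k * (d * e) := by rw [← mul_assoc, ← hd', he]; push_cast; ring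
  have hde : (d * e : ℤ) ≠ 0 := fun h => by
    rw [h, mul_zero] at hN
    exact (orderOf_pos x).ne' (by exact_mod_cast hN)
  rw [hN] at hl'
  obtain ⟨q, hq⟩ := Int.dvd_of_mul_dvd_mul_right hde hl'
  refine ⟨-q, fun i j h => ?_⟩
  have hc : Commute y (x ^ (-q)) := (hxy.symm.zpow_right _)
  have hj : y ^ j ∈ Subgroup.zpowers x := by
    rw [hc.mul_zpow, ← mul_assoc, ← zpow_mul] at h
    refine Subgroup.mem_zpowers_iff.mpr ⟨-i + -(-q * j), ?_⟩
    have h' := eq_inv_of_mul_eq_one_left h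
    rw [zpow_add, zpow_neg x (-q * j), ← h']
    group
  obtain ⟨t, rfl⟩ := hdiv j hj
  have hpow : (y * x ^ (-q)) ^ ((k : ℤ) * t) = 1 := by
    rw [zpow_mul, hc.mul_zpow, zpow_natCast, ← hl, ← zpow_mul, ← zpow_add, hq,
      show (k : ℤ) * q + -q * k = 0 by ring, zpow_zero, one_zpow]
  rw [hpow, mul_one] at h
  exact ⟨h, hpow⟩

/-- Derived subgroup inside a central subgroup of order two. -/
theorem base {X : Type*} [Group X] [Finite X] (h2 : IsPGroup 2 X)
    (hr : Cfsg.SectionalPRankLE 2 2 X) {z : X} (hz : orderOf z = 2) (hzc : z ∈ Subgroup.center X)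
    (hcomm : ∀ g h : X, g * h * g⁻¹ * h⁻¹ ∈ Subgroup.zpowers z) (a₀ b₀ : X)
    (hgen : ∀ g : X, ∃ i j : ℤ, (a₀ ^ i * b₀ ^ j)⁻¹ * g ∈ Subgroup.zpowers z) : IsMetacyclic X := by
  haveI : Fact (Nat.Prime 2) := ⟨Nat.prime_two⟩
  haveI hZn : (Subgroup.zpowers z).Normal := ⟨fun n hn g => by
    obtain ⟨m, rfl⟩ := Subgroup.mem_zpowers_iff.mp hn
    rw [Subgroup.mem_center_iff.mp (zpow_mem hzc m) g, mul_inv_cancel_right]
    exact Subgroup.zpow_mem_zpowers z m⟩
  have hz2 : z ^ 2 = 1 := hz ▸ pow_orderOf_eq_one z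
  have hz1 : z ≠ 1 := fun h => by rw [h, orderOf_one] at hz; omega
  set π := QuotientGroup.mk' (Subgroup.zpowers z) with hπ
  have hker : ∀ g : X, π g = 1 ↔ g ∈ Subgroup.zpowers z := fun g => QuotientGroup.eq_one_iff g
  have hQc : ∀ u v : X, Commute (π u) (π v) := fun u v => by
    show π u * π v = π v * π u
    rw [← mul_inv_eq_one, mul_inv_rev, ← mul_assoc, ← map_inv, ← map_inv, ← map_mul, ← map_mul,
      ← map_mul, hker]
    exact hcomm u v
  have hQ2 : IsPGroup 2 (X ⧸ Subgroup.zpowers z) := h2.to_quotient _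
  -- order the generators
  obtain ⟨x, y, hd, hgen'⟩ : ∃ x y : X, orderOf (π y) ∣ orderOf (π x) ∧
      ∀ g : X, ∃ i j : ℤ, π g = π x ^ i * π y ^ j := by
    have h0 : ∀ g : X, ∃ i j : ℤ, π g = π a₀ ^ i * π b₀ ^ j := fun g => by
      obtain ⟨i, j, h⟩ := hgen g
      refine ⟨i, j, ?_⟩
      rw [← hker, map_mul, map_inv, inv_mul_eq_one] at h
      rw [← h, map_mul, map_zpow, map_zpow]
    obtain ⟨m, hm⟩ := IsPGroup.iff_orderOf.mp hQ2 (π a₀)
    obtain ⟨n, hn⟩ := IsPGroup.iff_orderOf.mp hQ2 (π b₀)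
    rcases le_total n m with h | h
    · exact ⟨a₀, b₀, by rw [hm, hn]; exact pow_dvd_pow 2 h, h0⟩
    · refine ⟨b₀, a₀, by rw [hm, hn]; exact pow_dvd_pow 2 h, fun g => ?_⟩
      obtain ⟨i, j, h'⟩ := h0 g
      exact ⟨j, i, by rw [h', ((hQc a₀ b₀).zpow_zpow i j).eq]⟩
  obtain ⟨s, hs⟩ := exists_basis (hQc x y) hd
  set w := y * x ^ s with hw
  have hw' : π w = π y * π x ^ s := by rw [hw, map_mul, map_zpow]
  rw [← hw'] at hs
  have hgen2 : ∀ g : X, ∃ i j : ℤ, π g = π x ^ i * π w ^ j := fun g => by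
    obtain ⟨i, j, h⟩ := hgen' g
    refine ⟨i - s * j, j, ?_⟩
    rw [h, hw', ((hQc x y).symm.zpow_right s).mul_zpow, ← zpow_mul, ← mul_assoc,
      ((hQc x y).zpow_zpow (i - s * j) j).eq, mul_assoc, ← zpow_add, sub_add_cancel]
    exact ((hQc x y).zpow_zpow i j).eq
  have hgood : ∀ u v : X, z ∈ Subgroup.zpowers u →
      (∀ g : X, ∃ i j : ℤ, π g = π u ^ i * π v ^ j) → IsMetacyclic X := by
    intro u v hzu hg
    have hle : Subgroup.zpowers z ≤ Subgroup.zpowers u := Subgroup.zpowers_le.mpr hzu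
    refine metacyclic_of_gen u v ⟨fun n hn g => ?_⟩ fun g => ?_
    · have h := mul_mem (hle (hcomm g n)) hn
      rwa [inv_mul_cancel_right] at h
    · obtain ⟨i, j, h⟩ := hg g
      refine ⟨j, ?_⟩
      have h1 : (u ^ i)⁻¹ * (g * (v ^ j)⁻¹) ∈ Subgroup.zpowers z := by
        rw [← hker, map_mul, map_mul, map_inv, map_inv, map_zpow, map_zpow, h,
          mul_inv_cancel_right, inv_mul_cancel]
      have h3 := mul_mem (zpow_mem (Subgroup.mem_zpowers u) i) (hle h1)
      rwa [mul_inv_cancel_left] at h3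
  set N := orderOf (π x) with hN
  set K := orderOf (π w) with hK
  by_cases hxz : z ∈ Subgroup.zpowers x
  · exact hgood x w hxz hgen2
  by_cases hwz : z ∈ Subgroup.zpowers w
  · exact hgood w x hwz fun g => by
      obtain ⟨i, j, h⟩ := hgen2 g
      exact ⟨j, i, by rw [h, ((hQc x w).zpow_zpow i j).eq]⟩
  have hpow : ∀ u : X, z ∉ Subgroup.zpowers u → u ^ orderOf (π u) = 1 := by
    intro u hu
    have h : u ^ orderOf (π u) ∈ Subgroup.zpowers z := by rw [← hker, map_pow, pow_orderOf_eq_one]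
    rcases Nat.prime_two.eq_one_or_self_of_dvd _ (hz ▸ orderOf_dvd_of_mem_zpowers h) with h1 | h1
    · exact orderOf_eq_one_iff.mp h1
    · exfalso
      refine hu ?_
      have : Subgroup.zpowers (u ^ orderOf (π u)) = Subgroup.zpowers z :=
        Subgroup.eq_of_le_of_card_ge (Subgroup.zpowers_le.mpr h)
          (by rw [Nat.card_zpowers, Nat.card_zpowers, h1, hz])
      exact (Subgroup.zpowers_le.mpr (pow_mem (Subgroup.mem_zpowers u) _))
        (this ▸ Subgroup.mem_zpowers z)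
  have hxN : x ^ N = 1 := hpow x hxz
  have hwK : w ^ K = 1 := hpow w hwz
  obtain ⟨m, hm⟩ := IsPGroup.iff_orderOf.mp hQ2 (π x)
  obtain ⟨n, hn⟩ := IsPGroup.iff_orderOf.mp hQ2 (π w)
  have hKN : K ∣ N := by
    refine orderOf_dvd_of_pow_eq_one ?_
    rw [hw', ((hQc x y).symm.zpow_right s).mul_pow, orderOf_dvd_iff_pow_eq_one.mp hd, one_mul,
      ← zpow_natCast (π x ^ s), ← zpow_mul, mul_comm, zpow_mul, zpow_natCast, pow_orderOf_eq_one,
      one_zpow]
  have hzc' : ∀ g : X, Commute g z := fun g => Subgroup.mem_center_iff.mp hzc g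
  by_cases hn0 : n = 0
  · refine metacyclic_of_gen x z ⟨fun u hu g => ?_⟩ fun g => ?_
    all_goals
      have hKone : π w = 1 := orderOf_eq_one_iff.mp (by rw [hn, hn0, pow_zero])
      have hform : ∀ g : X, ∃ i e : ℤ, g = x ^ i * z ^ e := fun g => by
        obtain ⟨i, j, h⟩ := hgen2 g
        rw [hKone, one_zpow, mul_one, ← map_zpow] at h
        have : (x ^ i)⁻¹ * g ∈ Subgroup.zpowers z := by
          rw [← hker, map_mul, map_inv, h, inv_mul_cancel]
        obtain ⟨e, he⟩ := Subgroup.mem_zpowers_iff.mp this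
        exact ⟨i, e, by rw [he, mul_inv_cancel_left]⟩
      obtain ⟨i, e, rfl⟩ := hform g
    · obtain ⟨k, rfl⟩ := Subgroup.mem_zpowers_iff.mp hu
      have h1 : Commute (x ^ i * z ^ e) (x ^ k) :=
        (Commute.zpow_zpow (Commute.refl x) i k).mul_left (((hzc' x).symm).zpow_zpow e k)
      rw [h1.eq, mul_inv_cancel_right]
      exact hu
    · exact ⟨e, by rw [mul_inv_cancel_right]; exact Subgroup.zpow_mem_zpowers x i⟩
  -- the involutions
  have hm0 : 1 ≤ m := by
    by_contra h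
    have : m = 0 := by omega
    rw [hK, hN, hn, hm, this, pow_zero, Nat.dvd_one] at hKN
    exact hn0 (by simpa using hKN)
  set u := x ^ (2 ^ (m - 1)) with hu
  set v := w ^ (2 ^ (n - 1)) with hv
  have hu2 : u ^ 2 = 1 := by
    rw [hu, ← pow_mul, ← pow_succ, Nat.sub_add_cancel hm0, ← hm]; exact hxN
  have hv2 : v ^ 2 = 1 := by
    rw [hv, ← pow_mul, ← pow_succ, Nat.sub_add_cancel (by omega : 1 ≤ n), ← hn]; exact hwK
  have huπ : π u ≠ 1 := by
    rw [hu, map_pow]
    exact pow_ne_one_of_lt_orderOf (by positivity) (by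
      rw [hm]; exact Nat.pow_lt_pow_right one_lt_two (by omega))
  have hvπ : π v ≠ 1 := by
    rw [hv, map_pow]
    exact pow_ne_one_of_lt_orderOf (by positivity) (by
      rw [hn]; exact Nat.pow_lt_pow_right one_lt_two (by omega))
  by_cases huv : u * v = v * u
  · refine (no_three hr hu2 hv2 hz2 huv (hzc' u).eq (hzc' v).eq hz1
      (fun h => huπ ((hker u).mpr h)) fun h => ?_).elim
    obtain ⟨t, ht, r, hr', htr⟩ := Cfsg.Agent.Coprime.exists_mul_of_mem_sup
      (N := Subgroup.zpowers z) (A := Subgroup.zpowers u) (by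
        rw [Subgroup.normalizer_eq_top (H := Subgroup.zpowers z)]; exact le_top) h
    obtain ⟨e, rfl⟩ := Subgroup.mem_zpowers_iff.mp hr'
    have hv' : π v = π x ^ ((2 ^ (m - 1) : ℕ) * e : ℤ) := by
      rw [← htr, map_mul, (hker t).mpr ht, one_mul, map_zpow, hu, map_pow, zpow_mul, zpow_natCast]
    have := (hs (-((2 ^ (m - 1) : ℕ) * e)) ((2 ^ (n - 1) : ℕ)) (by
      rw [zpow_natCast, ← map_pow, ← hv, hv', zpow_neg, inv_mul_cancel])).2
    rw [zpow_natCast, ← map_pow] at this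
    exact hvπ this
  have hm1 : m = 1 := by
    by_contra hne
    refine huv ?_
    have hx2 : Commute (x ^ 2) w := by
      obtain ⟨e, he⟩ := Subgroup.mem_zpowers_iff.mp (hcomm x w)
      have he' : x * w = z ^ e * (w * x) := by rw [he]; group
      show x ^ 2 * w = w * x ^ 2
      have hez : z ^ e * z ^ e = 1 := by
        rw [← zpow_add, ← two_mul, zpow_mul]; norm_cast; rw [hz2, one_zpow]
      calc x ^ 2 * w = x * (x * w) := by rw [pow_two, mul_assoc]
        _ = z ^ e * ((x * w) * x) := by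
          nth_rewrite 1 [he']; rw [← mul_assoc, ((hzc' x).zpow_right e).eq]; group
        _ = (z ^ e * z ^ e) * (w * x ^ 2) := by rw [he', pow_two]; group
        _ = w * x ^ 2 := by rw [hez, one_mul]
    rw [hu, hv, show 2 ^ (m - 1) = 2 * 2 ^ (m - 2) by
      rw [← pow_succ']; congr 1; omega, pow_mul]
    exact (hx2.pow_pow _ _).eq
  have hn1 : n = 1 := by
    rw [hK, hN, hn, hm] at hKN
    have := (Nat.pow_dvd_pow_iff_le_right (by norm_num : 1 < 2)).mp hKN
    omega
  have hxw : x * w ≠ w * x := by simpa [hu, hv, hm1, hn1] using huv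
  refine hgood (x * w) w ?_ fun g => ?_
  · obtain ⟨e, he⟩ := Subgroup.mem_zpowers_iff.mp (hcomm x w)
    rcases Int.even_or_odd e with ⟨d, rfl⟩ | ⟨d, rfl⟩
    · exfalso
      rw [← two_mul, zpow_mul] at he
      norm_cast at he
      rw [hz2, one_zpow] at he
      exact hxw (mul_inv_eq_iff_eq_mul.mp (mul_inv_eq_one.mp he.symm))
    · refine Subgroup.mem_zpowers_iff.mpr ⟨2, ?_⟩
      rw [zpow_add, zpow_mul, zpow_one] at he
      norm_cast at he
      rw [hz2, one_zpow, one_mul] at he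
      have hx2 : x * x = 1 := by
        have := hu2; rw [hu, hm1] at this; simpa [pow_two] using this
      have hw2 : w * w = 1 := by
        have := hv2; rw [hv, hn1] at this; simpa [pow_two] using this
      have hxi : x⁻¹ = x := inv_eq_of_mul_eq_one_right hx2
      have hwi : w⁻¹ = w := inv_eq_of_mul_eq_one_right hw2
      rw [hxi, hwi] at he
      rw [he, zpow_two]; group
  · obtain ⟨i, j, h⟩ := hgen2 g
    refine ⟨i, j - i, ?_⟩
    rw [h, map_mul π x w, (hQc x w).mul_zpow, mul_assoc, ← zpow_add, add_sub_cancel]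

theorem main : ∀ (m : ℕ), ∀ {X : Type v} [Group X] [Finite X], Nat.card X = m → IsPGroup 2 X →
    Cfsg.SectionalPRankLE 2 2 X → IsMetacyclic X := by
  intro m
  induction m using Nat.strong_induction_on with
  | _ m ih =>
  intro X _ _ hX h2 hr
  haveI : Fact (Nat.Prime 2) := ⟨Nat.prime_two⟩
  rcases subsingleton_or_nontrivial X with hs | hnt
  · exact metacyclic_of_gen 1 1 ⟨fun n _ g => by
      rw [Subsingleton.elim (g * n * g⁻¹) 1]; exact one_mem _⟩
      fun g => ⟨0, by rw [Subsingleton.elim g 1]; simp⟩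
  haveI : Group.IsNilpotent X := h2.isNilpotent
  -- a central involution in every nontrivial normal subgroup
  have hinv : ∀ D : Subgroup X, D.Normal → D ≠ ⊥ →
      ∃ z ∈ D, z ∈ Subgroup.center X ∧ orderOf z = 2 := by
    intro D hD hD1
    obtain ⟨x, hxD, hx1, hxc⟩ := Cfsg.Agent.OddLocal.exists_ne_one_mem_center_of_normal D hD1
    obtain ⟨k, hk⟩ := IsPGroup.iff_orderOf.mp h2 x
    have hd : 2 ∣ orderOf x := by
      rw [hk]; refine dvd_pow_self 2 fun h => hx1 (orderOf_eq_one_iff.mp (by rw [hk, h, pow_zero]))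
    exact ⟨x ^ (orderOf x / 2), pow_mem hxD _, pow_mem hxc _,
      orderOf_pow_orderOf_div (orderOf_pos x).ne' hd⟩
  obtain ⟨z, hzc, hz, hzD⟩ : ∃ z : X, z ∈ Subgroup.center X ∧ orderOf z = 2 ∧
      (commutator X ≠ ⊥ → z ∈ commutator X) := by
    by_cases hD : commutator X = ⊥
    · obtain ⟨z, -, hc, hz⟩ := hinv ⊤ inferInstance top_ne_bot
      exact ⟨z, hc, hz, fun h => absurd hD h⟩
    · obtain ⟨z, hzD, hc, hz⟩ := hinv _ inferInstance hD
      exact ⟨z, hc, hz, fun _ => hzD⟩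
  have hzcomm : ∀ (g : X) (e : ℤ), Commute g (z ^ e) :=
    fun g e => Commute.zpow_right (Subgroup.mem_center_iff.mp hzc g) e
  haveI hZn : (Subgroup.zpowers z).Normal := ⟨fun n hn g => by
    obtain ⟨k, rfl⟩ := Subgroup.mem_zpowers_iff.mp hn
    rw [(hzcomm g k).eq, mul_inv_cancel_right]; exact hn⟩
  set π := QuotientGroup.mk' (Subgroup.zpowers z) with hπ
  have hlt : Nat.card (X ⧸ Subgroup.zpowers z) < m := by
    have := Subgroup.card_eq_card_quotient_mul_card_subgroup (Subgroup.zpowers z)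
    rw [Nat.card_zpowers, hz, hX] at this
    have := Nat.card_pos (α := X ⧸ Subgroup.zpowers z)
    omega
  obtain ⟨A, hAn, hAc, hQc⟩ := ih _ hlt rfl (h2.to_quotient _) (sectional_quotient hr _)
  obtain ⟨⟨a', ha'⟩, hagen⟩ := hAc.exists_generator
  obtain ⟨b', hbgen⟩ := hQc.exists_generator
  obtain ⟨a, rfl⟩ := QuotientGroup.mk'_surjective (Subgroup.zpowers z) a'
  obtain ⟨bA, rfl⟩ := QuotientGroup.mk'_surjective A b'
  obtain ⟨b, rfl⟩ := QuotientGroup.mk'_surjective (Subgroup.zpowers z) bA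
  have hA : ∀ q ∈ A, ∃ i : ℤ, q = π a ^ i := fun q hq => by
    obtain ⟨i, hi⟩ := Subgroup.mem_zpowers_iff.mp (hagen ⟨q, hq⟩)
    exact ⟨i, (congrArg Subtype.val hi).symm⟩
  have hgen : ∀ g : X, ∃ i j e : ℤ, g = a ^ i * b ^ j * z ^ e := by
    intro g
    obtain ⟨j, hj⟩ := Subgroup.mem_zpowers_iff.mp (hbgen (QuotientGroup.mk' A (π g)))
    have hmem : π g * (π b ^ j)⁻¹ ∈ A := by
      rw [← QuotientGroup.eq_one_iff, ← QuotientGroup.mk'_apply, map_mul, map_inv, map_zpow, hj,
        mul_inv_cancel]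
    obtain ⟨i, hi⟩ := hA _ hmem
    have : (a ^ i * b ^ j)⁻¹ * g ∈ Subgroup.zpowers z := by
      rw [← QuotientGroup.eq_one_iff, ← QuotientGroup.mk'_apply, ← hπ, map_mul, map_inv, map_mul,
        map_zpow, map_zpow, ← hi, inv_mul_cancel_right, inv_mul_cancel]
    obtain ⟨e, he⟩ := Subgroup.mem_zpowers_iff.mp this
    exact ⟨i, j, e, by rw [he, mul_inv_cancel_left]⟩
  obtain ⟨r, hr'⟩ := hA _ (hAn.conj_mem _ ha' (π b))
  obtain ⟨e, he⟩ : ∃ e : ℤ, b * a * b⁻¹ = a ^ r * z ^ e := by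
    have : (a ^ r)⁻¹ * (b * a * b⁻¹) ∈ Subgroup.zpowers z := by
      rw [← QuotientGroup.eq_one_iff, ← QuotientGroup.mk'_apply, ← hπ, map_mul, map_inv, map_zpow,
        map_mul, map_mul, map_inv, hr', inv_mul_cancel]
    obtain ⟨e, he⟩ := Subgroup.mem_zpowers_iff.mp this
    exact ⟨e, by rw [he, mul_inv_cancel_left]⟩
  set c := b * a * b⁻¹ * a⁻¹ with hc
  have hc' : c = a ^ (r - 1) * z ^ e := by
    rw [hc, he, zpow_sub, zpow_one, mul_assoc, ((hzcomm a e).inv_left).symm.eq, ← mul_assoc]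
  have hac : Commute a c := by
    rw [hc']; exact ((Commute.refl a).zpow_right _).mul_right (hzcomm a e)
  have hbc : b * c * b⁻¹ = c ^ r := by
    calc b * c * b⁻¹ = (b * a * b⁻¹) ^ (r - 1) * (b * z ^ e * b⁻¹) := by
          rw [hc', conj_zpow, conj_mul]
      _ = (a ^ r) ^ (r - 1) * ((z ^ e) ^ (r - 1) * z ^ e) := by
          rw [he, (hzcomm _ e).mul_zpow, (hzcomm b e).eq, mul_inv_cancel_right, mul_assoc]
      _ = (a ^ (r - 1)) ^ r * (z ^ e) ^ r := by
          rw [← zpow_mul a, ← zpow_mul a, ← zpow_add_one, sub_add_cancel, mul_comm r (r - 1)]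
      _ = c ^ r := by rw [hc', (hzcomm _ e).mul_zpow]
  have hCn : (Subgroup.zpowers c).Normal := by
    rw [← Subgroup.normalizer_eq_top_iff, eq_top_iff]
    intro g _
    obtain ⟨i, j, k, rfl⟩ := hgen g
    refine mul_mem (mul_mem (zpow_mem ?_ i) (zpow_mem ?_ j)) (zpow_mem ?_ k) <;>
      refine Cfsg.Agent.Coprime.mem_normalizer_of_conj_mem fun y hy => ?_ <;>
      obtain ⟨t, rfl⟩ := Subgroup.mem_zpowers_iff.mp hy
    · rw [(hac.zpow_right t).eq, mul_inv_cancel_right]; exact hy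
    · rw [← conj_zpow, hbc, ← zpow_mul]; exact Subgroup.zpow_mem_zpowers c _
    · rw [show z * c ^ t = c ^ t * z from (Subgroup.mem_center_iff.mp hzc (c ^ t)).symm,
        mul_inv_cancel_right]
      exact hy
  have hcomC : commutator X ≤ Subgroup.zpowers c := by
    haveI := hCn
    set ρ := QuotientGroup.mk' (Subgroup.zpowers c)
    have h0 : ρ (b * a * b⁻¹ * a⁻¹) = 1 := (QuotientGroup.eq_one_iff c).mpr (Subgroup.mem_zpowers c)
    rw [map_mul, map_mul, map_mul, map_inv, map_inv, mul_inv_eq_one, mul_inv_eq_iff_eq_mul] at h0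
    have hba : Commute (ρ a) (ρ b) := h0.symm
    have hzq : ∀ (q : X ⧸ Subgroup.zpowers c) (k : ℤ), Commute q (ρ (z ^ k)) := fun q k => by
      obtain ⟨g, rfl⟩ := QuotientGroup.mk'_surjective _ q
      exact (hzcomm g k).map ρ
    have hgq : ∀ g : X, Commute (ρ a) (ρ g) ∧ Commute (ρ b) (ρ g) := fun g => by
      obtain ⟨i, j, k, rfl⟩ := hgen g
      simp only [map_mul, map_zpow ρ a, map_zpow ρ b]
      exact ⟨(((Commute.refl _).zpow_right i).mul_right (hba.zpow_right j)).mul_right (hzq _ k),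
        ((hba.symm.zpow_right i).mul_right ((Commute.refl _).zpow_right j)).mul_right (hzq _ k)⟩
    refine Subgroup.Normal.quotient_commutative_iff_commutator_le.mp ⟨⟨?_⟩⟩
    intro p q
    obtain ⟨g, rfl⟩ := QuotientGroup.mk'_surjective _ p
    obtain ⟨h, rfl⟩ := QuotientGroup.mk'_surjective _ q
    obtain ⟨i, j, k, rfl⟩ := hgen g
    rw [map_mul, map_mul, map_zpow ρ a, map_zpow ρ b]
    exact ((((hgq h).1.zpow_left i).mul_left ((hgq h).2.zpow_left j)).mul_left (hzq _ k).symm).eq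
  by_cases hza : z ∈ Subgroup.zpowers a
  · refine metacyclic_of_gen a b ?_ fun g => ?_
    · rw [← Subgroup.normalizer_eq_top_iff, eq_top_iff]
      intro g _
      obtain ⟨i, j, k, rfl⟩ := hgen g
      refine mul_mem (mul_mem (zpow_mem (Subgroup.le_normalizer (Subgroup.mem_zpowers a)) i)
        (zpow_mem ?_ j)) (zpow_mem (Subgroup.le_normalizer hza) k)
      refine Cfsg.Agent.Coprime.mem_normalizer_of_conj_mem fun y hy => ?_
      obtain ⟨t, rfl⟩ := Subgroup.mem_zpowers_iff.mp hy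
      rw [← conj_zpow, he]
      exact zpow_mem (mul_mem (Subgroup.zpow_mem_zpowers a r) (zpow_mem hza e)) t
    · obtain ⟨i, j, k, rfl⟩ := hgen g
      refine ⟨j, ?_⟩
      rw [mul_assoc (a ^ i), (hzcomm (b ^ j) k).eq, ← mul_assoc, mul_inv_cancel_right]
      exact mul_mem (Subgroup.zpow_mem_zpowers a i) (zpow_mem hza k)
  refine base h2 hr hz hzc (fun g h => ?_) a b fun g => ?_
  · by_cases hD : commutator X = ⊥
    · have := Subgroup.commutator_mem_commutator (Subgroup.mem_top g) (Subgroup.mem_top h)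
      rw [← commutator_def, hD, Subgroup.mem_bot] at this
      rw [← commutatorElement_def, this]; exact one_mem _
    · have hzC := hcomC (hzD hD)
      obtain ⟨t, ht⟩ := Subgroup.mem_zpowers_iff.mp hzC
      have hc2 : c ^ 2 = 1 := by
        by_contra hc2
        obtain ⟨k, hk⟩ := IsPGroup.iff_orderOf.mp h2 c
        have hk2 : 2 ≤ k := by
          by_contra h
          refine hc2 (orderOf_dvd_iff_pow_eq_one.mp ?_)
          rw [hk]
          exact (pow_dvd_pow 2 (show k ≤ 1 by omega)).trans (by norm_num)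
        have heven : (2 : ℤ) ∣ t := by
          have h1 : c ^ (t * 2) = 1 := by
            rw [zpow_mul, ht]; norm_cast; exact hz ▸ pow_orderOf_eq_one z
          rw [← orderOf_dvd_iff_zpow_eq_one, hk] at h1
          push_cast at h1
          have h4 : (2 : ℤ) ^ 2 ∣ t * 2 := (pow_dvd_pow 2 hk2).trans h1
          norm_num at h4
          omega
        obtain ⟨d, rfl⟩ := heven
        refine hza ?_
        rw [← ht, hc', (hzcomm _ e).mul_zpow, ← zpow_mul, ← zpow_mul]
        have : z ^ (e * (2 * d)) = 1 := by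
          rw [show e * (2 * d) = 2 * (e * d) by ring, zpow_mul]; norm_cast
          rw [show z ^ 2 = 1 from hz ▸ pow_orderOf_eq_one z, one_zpow]
        rw [this, mul_one]
        exact Subgroup.zpow_mem_zpowers a _
      have hle : commutator X ≤ Subgroup.zpowers z := by
        refine hcomC.trans (le_of_eq (Subgroup.eq_of_le_of_card_ge (Subgroup.zpowers_le.mpr hzC) ?_).symm)
        rw [Nat.card_zpowers, Nat.card_zpowers, hz]
        exact Nat.le_of_dvd two_pos (orderOf_dvd_of_pow_eq_one hc2)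
      have := Subgroup.commutator_mem_commutator (Subgroup.mem_top g) (Subgroup.mem_top h)
      rw [← commutator_def] at this
      rw [← commutatorElement_def]
      exact hle this
  · obtain ⟨i, j, k, rfl⟩ := hgen g
    exact ⟨i, j, by rw [inv_mul_cancel_left]; exact Subgroup.zpow_mem_zpowers z k⟩

/-- A finite 2-group of sectional 2-rank at most 2 (every section has no elementary abelian subgroup of order 8) is metacyclic: it has a cyclic normal subgroup with cyclic quotient. -/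
theorem result {S : Type*} [Group S] [Finite S] (h2 : IsPGroup 2 S) (hr : Cfsg.SectionalPRankLE 2 2 S) : Cfsg.IsMetacyclic S := by
  exact main _ rfl h2 hr

end Cfsg.Agent.S4397
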