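import Cfsg.Statements.S4399
import Cfsg.Agent.Screen.CyclicIndexTwo
-- import your own Cfsg.Agent.* helpers here

set_option autoImplicit false
open Cfsg

namespace Cfsg.Agent.S4399

/-- Let S be a finite 2-group whose commutator quotient S/[S,S] is a Klein four-group (order 4 and exponent 2). Then S itself has order 4, or S is dihedral of order at least 8, semidihedral of order at least 16 (order 2^(k+4) with an element a of order 2^(k+3) and an involution b with b a b⁻¹ = a^(2^(k+2)−1)), or generalized quaternion of order at least 8. -/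
theorem result {S : Type*} [Group S] [Finite S] (h2 : IsPGroup 2 S) (hab : Nat.card (Abelianization S) = 4)
    (hexp : ∀ x : Abelianization S, x ^ 2 = 1) :
    Nat.card S = 4 ∨
    ((∃ k : ℕ, Nonempty (S ≃* DihedralGroup (2 ^ (k + 2)))) ∨
      (∃ k : ℕ, Nat.card S = 2 ^ (k + 4) ∧ ∃ a b : S, orderOf a = 2 ^ (k + 3) ∧ orderOf b = 2 ∧ b * a * b⁻¹ = a ^ (2 ^ (k + 2) - 1)) ∨
      (∃ k : ℕ, Nonempty (S ≃* QuaternionGroup (2 ^ (k + 1))))) := by
  by_cases h4 : Nat.card S = 4
  · exact Or.inl h4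
  right
  haveI : Fact (Nat.Prime 2) := ⟨Nat.prime_two⟩
  have hi : (commutator S).index = 4 := by rw [Subgroup.index_eq_card]; exact hab
  have hgt : 4 < Nat.card S := by
    have h := Nat.le_of_dvd Nat.card_pos (hi ▸ (commutator S).index_dvd_card : 4 ∣ Nat.card S)
    omega
  obtain ⟨k, a, b, hcard, ha, hb, h⟩ := Screen.CyclicIndexTwo.cases_of_index_le_four h2 hi.le hgt
  rcases h with ⟨hb2, hc⟩ | ⟨hb2, hc⟩ | ⟨hk, hb2, hc⟩
  · refine Or.inl ⟨k, ?_⟩
    refine TwoGroups.IsTwoExt.dihedral (x := a) (y := b) ⟨ha, by rw [hcard, pow_succ'], by positivity, hb, by rw [← pow_two, hb2], ?_⟩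
    rw [hc, zpow_neg_one]
  · refine Or.inr (Or.inr ⟨k, ?_⟩)
    refine TwoGroups.exists_quaternion_equiv (u := a) (v := b) (by positivity) ?_ ?_ hb ?_ hc
    · rw [ha, pow_succ' 2 (k + 1)]
    · rw [hcard, pow_succ' 2 (k + 2), pow_succ' 2 (k + 1)]; ring
    · rw [← pow_two, hb2]
  · refine Or.inr (Or.inl ?_)
    obtain ⟨l, rfl⟩ : ∃ l, k = l + 1 := ⟨k - 1, by omega⟩
    refine ⟨l, hcard, a, b, ha, ?_, hc⟩
    exact orderOf_eq_prime hb2 fun e => hb (e ▸ one_mem _)

end Cfsg.Agent.S4399
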