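import Cfsg.Statements.S4400
import Cfsg.Agent.FGS4.SectionalFour

set_option autoImplicit false
open Cfsg

namespace Cfsg.Agent.S4400

/-- Let S be a finite 2-group of sectional 2-rank at most 4, and let P and Q be normal non-abelian subgroups of S whose centres have order 2 and are different. Then P and Q commute elementwise and intersect trivially, and PQ contains its own centralizer in S. -/
theorem result {S : Type*} [Group S] [Finite S] (h2 : IsPGroup 2 S) (hr : Cfsg.SectionalPRankLE 2 4 S)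
    (P Q : Subgroup S) [P.Normal] [Q.Normal] (hP : ¬ IsMulCommutative ↥P) (hQ : ¬ IsMulCommutative ↥Q)
    (hZP : Nat.card ↥(Subgroup.center ↥P) = 2) (hZQ : Nat.card ↥(Subgroup.center ↥Q) = 2)
    (hne : (Subgroup.center ↥P).map P.subtype ≠ (Subgroup.center ↥Q).map Q.subtype) :
    ⁅P, Q⁆ = ⊥ ∧ P ⊓ Q = ⊥ ∧ Subgroup.centralizer ((P ⊔ Q : Subgroup S) : Set S) ≤ P ⊔ Q := by
  obtain ⟨zP, hzP, eP⟩ := Cfsg.Agent.FGS4.SectionalFour.centreTwo_of_card hZP
  obtain ⟨zQ, hzQ, eQ⟩ := Cfsg.Agent.FGS4.SectionalFour.centreTwo_of_card hZQ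
  obtain ⟨hc, hd, hC⟩ := Cfsg.Agent.FGS4.SectionalFour.main h2 hr P Q hP hQ hzP hzQ
    (fun e => hne (by rw [eP, eQ, e]))
  refine ⟨?_, hd, hC⟩
  rw [Subgroup.commutator_eq_bot_iff_le_centralizer]
  exact fun x hx => Subgroup.mem_centralizer_iff.2 fun y hy => (hc x hx y hy).symm

end Cfsg.Agent.S4400
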