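import Cfsg.Statements.S4405
import Cfsg.Agent.Core.MinimalNormal
import Cfsg.Agent.FGS3.PGroupFrattini
import Mathlib.GroupTheory.Solvable
import Mathlib.GroupTheory.SpecificGroups.ZGroup
import Mathlib.GroupTheory.GroupAction.ConjAct
import Mathlib.GroupTheory.PGroup
import Mathlib.Tactic.NormNum.Prime

set_option autoImplicit false
open Cfsg

namespace Cfsg.Agent.S4405

theorem two_elts {G : Type*} [Group G] {A : Subgroup G} (hA : Nat.card A = 2) {z w : G} (hz : z ∈ A)
    (hz1 : z ≠ 1) (hw : w ∈ A) (hw1 : w ≠ 1) : w = z := by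
  obtain ⟨e⟩ : Nonempty (A ≃ Fin 2) := ⟨(Nat.equivFinOfCardPos (by rw [hA]; norm_num)).trans (finCongr hA)⟩
  have h2 : ∀ a b c : Fin 2, a ≠ c → b ≠ c → a = b := by decide
  exact congrArg Subtype.val (e.injective (h2 (e ⟨w, hw⟩) (e ⟨z, hz⟩) (e 1)
    (fun h => hw1 (congrArg Subtype.val (e.injective h))) (fun h => hz1 (congrArg Subtype.val (e.injective h)))))

theorem dvd_sixteen {n : ℕ} (h : n ∣ 16) : n = 1 ∨ n = 2 ∨ n = 4 ∨ n = 8 ∨ n = 16 := by
  have := Nat.le_of_dvd (by norm_num) h
  interval_cases n <;> simp_all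

theorem card_map_eq {G G' : Type*} [Group G] [Group G'] (f : G →* G') (A : Subgroup G) :
    Nat.card A = Nat.card (A.map f) * Nat.card ↥(A ⊓ f.ker) := by
  have h := Subgroup.card_mul_index (f.comp A.subtype).ker
  rw [Subgroup.index_ker, MonoidHom.range_comp, Subgroup.range_subtype] at h
  rw [← h, mul_comm]
  congr 1
  rw [← Subgroup.card_map_of_injective A.subtype_injective, ← MonoidHom.comap_ker,
    Subgroup.map_comap_eq, Subgroup.range_subtype]

theorem fixed_modEq {Q : Type*} [Group Q] [Finite Q] [Fact (Nat.Prime 5)] (A : Subgroup Q) {c : Q}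
    (hc : c ^ 5 = 1) (hn : ∀ a ∈ A, c * a * c⁻¹ ∈ A) :
    Nat.card A ≡ Nat.card ↥(A ⊓ Subgroup.centralizer ({c} : Set Q)) [MOD 5] := by
  have hnp : ∀ (z : Subgroup.zpowers c) (a : A), (z : Q) * a * (z : Q)⁻¹ ∈ A := by
    rintro ⟨z, hz⟩ a
    have hc' : c ∈ Subgroup.normalizer (A : Set Q) := Subgroup.mem_normalizer_fintype hn
    exact (Subgroup.mem_normalizer_iff.mp ((Subgroup.zpowers_le.mpr hc') hz) a).mp a.2
  letI : MulAction (Subgroup.zpowers c) A :=
    { smul := fun z a => ⟨(z : Q) * a * (z : Q)⁻¹, hnp z a⟩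
      one_smul := fun a => Subtype.ext (show (1 : Q) * a * (1 : Q)⁻¹ = a by simp)
      mul_smul := fun x y a => Subtype.ext
        (show (x * y : Q) * a * (x * y : Q)⁻¹ = x * (y * a * (y : Q)⁻¹) * (x : Q)⁻¹ by group) }
  have hP : IsPGroup 5 (Subgroup.zpowers c) := fun z => ⟨1, by
    obtain ⟨i, hi⟩ := z.2
    refine Subtype.ext ?_
    show (z : Q) ^ (5 ^ 1) = 1
    rw [pow_one, ← hi, ← zpow_natCast, ← zpow_mul, mul_comm, zpow_mul, zpow_natCast, hc, one_zpow]⟩
  refine (hP.card_modEq_card_fixedPoints A).trans ?_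
  rw [Nat.card_congr (Equiv.ofBijective
    (fun a : MulAction.fixedPoints (Subgroup.zpowers c) A => (⟨(a : A), (a : A).2, by
      have h : c * (a : A) * c⁻¹ = (a : A) := congrArg Subtype.val (a.2 ⟨c, Subgroup.mem_zpowers c⟩)
      exact Subgroup.mem_centralizer_singleton_iff.mpr (mul_inv_eq_iff_eq_mul.mp h).symm⟩ :
      ↥(A ⊓ Subgroup.centralizer ({c} : Set Q))))
    ⟨fun a b h => Subtype.ext (Subtype.ext (congrArg Subtype.val h :)), fun b => by
      refine ⟨⟨⟨b, b.2.1⟩, ?_⟩, rfl⟩
      rintro ⟨z, i, rfl⟩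
      refine Subtype.ext ?_
      show c ^ i * (b : Q) * (c ^ i)⁻¹ = b
      have : Commute (b : Q) (c ^ i) :=
        (show Commute (b : Q) c from Subgroup.mem_centralizer_singleton_iff.mp b.2.2).zpow_right i
      rw [← this.eq, mul_inv_cancel_right]⟩)]

/-- Let G be a finite group of order 320 = 64·5 whose largest normal 2-subgroup H = O₂(G) equals the Fitting subgroup F(G) and is extraspecial of order 32 containing no elementary abelian subgroup of order 8 (so H is the central product of a quaternion group and a dihedral group of order 8). If T is an involution of G outside H whose centralizer in H contains an elementary abelian subgroup of order 4, then C_H(T) itself is elementary abelian of order 4. -/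
theorem result {G : Type*} [Group G] [Finite G]
    (hG : Nat.card G = 320) (hHF : Cfsg.pCore 2 G = Cfsg.fittingSubgroup G)
    (hex : Cfsg.IsExtraspecial 2 ↥(Cfsg.pCore 2 G)) (h32 : Nat.card ↥(Cfsg.pCore 2 G) = 32)
    (hminus : ∀ A : Subgroup G, A ≤ Cfsg.pCore 2 G → Cfsg.IsElementaryAbelian 2 A → Nat.card ↥A ≤ 4)
    (T : G) (hT : orderOf T = 2) (hTH : T ∉ Cfsg.pCore 2 G)
    (V : Subgroup G) (hV : V ≤ Cfsg.pCore 2 G ⊓ Subgroup.centralizer ({T} : Set G)) (hV4 : Nat.card ↥V = 4) (hVe : Cfsg.IsElementaryAbelian 2 V) :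
    Nat.card ↥(Cfsg.pCore 2 G ⊓ Subgroup.centralizer ({T} : Set G)) = 4 ∧
      Cfsg.IsElementaryAbelian 2 (Cfsg.pCore 2 G ⊓ Subgroup.centralizer ({T} : Set G)) := by
  classical
  haveI : Fact (Nat.Prime 2) := ⟨Nat.prime_two⟩
  haveI : Fact (Nat.Prime 5) := ⟨by norm_num⟩
  set H := Cfsg.pCore 2 G with hH
  obtain ⟨⟨hp, hfr, hcm⟩, hZ2⟩ := hex
  let Zg : Subgroup G := (Subgroup.center H).map H.subtype
  haveI : Zg.Normal := inferInstance
  have hZle : Zg ≤ H := Subgroup.map_subtype_le _
  have hZcard : Nat.card Zg = 2 := by rw [Subgroup.card_map_of_injective H.subtype_injective, hZ2]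
  have hZc : ∀ z ∈ Zg, ∀ x : G, x * z = z * x := by
    intro z hz x
    by_cases h1 : z = 1
    · rw [h1, mul_one, one_mul]
    have hcz : x * z * x⁻¹ ∈ Zg := (inferInstance : Zg.Normal).conj_mem z hz x
    have := two_elts hZcard hz h1 hcz (fun h => h1 (by simpa using h))
    exact mul_inv_eq_iff_eq_mul.mp this
  have hsqZ : ∀ h ∈ H, h ^ 2 ∈ Zg := fun h hh =>
    ⟨(⟨h, hh⟩ : H) ^ 2, hfr ▸ FGS3.pow_mem_frattini hp _, rfl⟩
  have hz2 : ∀ z ∈ Zg, z ^ 2 = 1 := fun z hz => by
    have : (⟨z, hz⟩ : Zg) ^ 2 = 1 := by rw [← hZcard]; exact pow_card_eq_one'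
    exact congrArg Subtype.val this
  have hHidx : H.index = 10 := by
    have := Subgroup.index_mul_card H
    rw [h32, hG] at this; omega
  haveI : Group.IsSolvable G := by
    haveI : Group.IsSolvable H := by haveI := hp.isNilpotent; infer_instance
    haveI : IsZGroup (G ⧸ H) := IsZGroup.of_squarefree (by
      rw [← Subgroup.index_eq_card, hHidx, show 10 = 2 * 5 from rfl,
        Nat.squarefree_mul (by norm_num)]
      exact ⟨Nat.prime_two.squarefree, (by norm_num : Nat.Prime 5).squarefree⟩)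
    exact solvable_of_ker_le_range H.subtype (QuotientGroup.mk' H) (by
      rw [QuotientGroup.ker_mk', Subgroup.range_subtype])
  have hCH : Subgroup.centralizer (H : Set G) ≤ H := by
    rw [hHF]; exact Core.centralizer_fittingSubgroup_le
  let π := QuotientGroup.mk' Zg
  let Hb := H.map π
  have hmem : ∀ h : G, π h ∈ Hb → h ∈ H := fun h ⟨k, hk, he⟩ => by
    have : k⁻¹ * h ∈ Zg := QuotientGroup.eq.mp he
    simpa using mul_mem hk (hZle this)
  have hHb : Nat.card Hb = 16 := by
    have h1 := card_map_eq π H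
    rw [QuotientGroup.ker_mk', inf_eq_right.mpr hZle, hZcard, h32] at h1
    show Nat.card (H.map π) = 16
    omega
  have hexp : ∀ a ∈ Hb, a * a = 1 := by
    rintro _ ⟨h, hh, rfl⟩
    rw [← map_mul, ← sq]
    exact (QuotientGroup.eq_one_iff _).mpr (hsqZ h hh)
  have hcommb : ∀ a ∈ Hb, ∀ b ∈ Hb, a * b = b * a := by
    intro a ha b hb
    have h1 := hexp _ (mul_mem ha hb)
    have hx : a⁻¹ = a := inv_eq_of_mul_eq_one_right (hexp a ha)
    have hy : b⁻¹ = b := inv_eq_of_mul_eq_one_right (hexp b hb)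
    rw [← inv_eq_of_mul_eq_one_right h1, mul_inv_rev, hx, hy]
  haveI hHbn : Hb.Normal := (inferInstance : H.Normal).map π (QuotientGroup.mk'_surjective Zg)
  -- elements of order five act without fixed points
  have hfive : ∀ g : G, orderOf g = 5 → ¬ (Hb ≤ Subgroup.centralizer ({π g} : Set (G ⧸ Zg))) := by
    intro g hg hle
    have hgC : g ∈ Subgroup.centralizer (H : Set G) := by
      intro h hh
      have h1 : π (g * h * g⁻¹ * h⁻¹) = 1 := by
        rw [map_mul, map_mul, map_mul, map_inv, map_inv,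
          ← Subgroup.mem_centralizer_singleton_iff.mp (hle ⟨h, hh, rfl⟩), mul_inv_cancel_right,
          mul_inv_cancel]
      set z := g * h * g⁻¹ * h⁻¹ with hzdef
      have hz : z ∈ Zg := (QuotientGroup.eq_one_iff _).mp h1
      have hpw : ∀ n : ℕ, g ^ n * h * (g ^ n)⁻¹ = z ^ n * h := by
        intro n
        induction n with
        | zero => simp
        | succ n ih =>
          have : Commute g (z ^ n) := (show Commute g z from hZc z hz g).pow_right n
          calc g ^ (n + 1) * h * (g ^ (n + 1))⁻¹ = g * (g ^ n * h * (g ^ n)⁻¹) * g⁻¹ := by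
                rw [pow_succ']; group
            _ = (g * z ^ n) * h * g⁻¹ := by rw [ih]; group
            _ = z ^ n * (g * h * g⁻¹) := by rw [this.eq]; group
            _ = _ := by rw [pow_succ, hzdef]; group
      have h5 := hpw 5
      rw [show g ^ 5 = 1 by rw [← hg, pow_orderOf_eq_one], inv_one, one_mul, mul_one,
        eq_comm, mul_eq_right, pow_succ, show 4 = 2 * 2 from rfl, pow_mul, hz2 z hz, one_pow,
        one_mul] at h5
      rw [hzdef, mul_inv_eq_one, mul_inv_eq_iff_eq_mul] at h5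
      exact h5.symm
    have hgH := hCH hgC
    have : orderOf g ∣ 32 := by
      rw [← h32, ← Subgroup.orderOf_mk g hgH]; exact orderOf_dvd_natCard _
    rw [hg] at this; norm_num at this
  have hfpf : ∀ g : G, orderOf g = 5 →
      Nat.card ↥(Hb ⊓ Subgroup.centralizer ({π g} : Set (G ⧸ Zg))) = 1 := by
    intro g hg
    have h5 : π g ^ 5 = 1 := by rw [← map_pow, ← hg, pow_orderOf_eq_one, map_one]
    have hmod := fixed_modEq Hb h5 fun a ha => hHbn.conj_mem a ha _
    have hd : Nat.card ↥(Hb ⊓ Subgroup.centralizer ({π g} : Set (G ⧸ Zg))) ∣ 16 :=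
      hHb ▸ Subgroup.card_dvd_of_le inf_le_left
    rw [hHb] at hmod
    rcases dvd_sixteen hd with h | h | h | h | h <;> rw [h] at hmod ⊢ <;>
      first
        | rfl
        | (exfalso; exact absurd hmod (by decide))
        | (exfalso; exact hfive g hg (inf_eq_left.mp
            (Subgroup.eq_of_le_of_card_ge inf_le_left (by rw [h, hHb]))))
  set τ := π T with hτ
  have hτ2 : τ * τ = 1 := by rw [← map_mul, ← sq, ← hT, pow_orderOf_eq_one, map_one]
  set Fb := Hb ⊓ Subgroup.centralizer ({τ} : Set (G ⧸ Zg)) with hFb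
  have hconjb : ∀ a ∈ Hb, τ * a * τ ∈ Hb := fun a ha => by
    have := hHbn.conj_mem a ha τ
    rwa [inv_eq_of_mul_eq_one_right hτ2] at this
  let δ : Hb →* G ⧸ Zg := MonoidHom.mk' (fun a => a * (τ * a * τ)) fun a b => by
    show (a : G ⧸ Zg) * b * (τ * (a * b) * τ) = a * (τ * a * τ) * (b * (τ * b * τ))
    have e : τ * ((a : G ⧸ Zg) * b) * τ = τ * a * τ * (τ * b * τ) := by
      rw [show τ * (a : G ⧸ Zg) * τ * (τ * b * τ) = τ * a * (τ * τ) * b * τ by group, hτ2, mul_one]
      group
    rw [e, mul_assoc, ← mul_assoc (b : G ⧸ Zg), hcommb b b.2 _ (hconjb a a.2)]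
    group
  have hrange : δ.range ≤ Fb := by
    rintro _ ⟨a, rfl⟩
    refine ⟨mul_mem a.2 (hconjb a a.2), Subgroup.mem_centralizer_singleton_iff.mpr ?_⟩
    show (a : G ⧸ Zg) * (τ * a * τ) * τ = τ * (a * (τ * a * τ))
    rw [hcommb a a.2 _ (hconjb a a.2)]
    calc τ * a * τ * a * τ = τ * (a * τ * a * τ) := by group
      _ = τ * (a * (τ * a * τ)) := by group
      _ = τ * (τ * a * τ * a) := by rw [hcommb a a.2 _ (hconjb a a.2)]
  have hker : δ.ker.map Hb.subtype = Fb := by
    ext x
    simp only [Subgroup.mem_map, MonoidHom.mem_ker]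
    constructor
    · rintro ⟨a, ha, rfl⟩
      refine ⟨a.2, Subgroup.mem_centralizer_singleton_iff.mpr ?_⟩
      show (a : G ⧸ Zg) * τ = τ * a
      have h1 : (a : G ⧸ Zg) * (τ * a * τ) = 1 := ha
      have h2 := eq_inv_of_mul_eq_one_right h1
      rw [inv_eq_of_mul_eq_one_right (hexp a a.2)] at h2
      calc (a : G ⧸ Zg) * τ = τ * a * τ * τ := by rw [h2]
        _ = τ * a := by rw [mul_assoc, hτ2, mul_one]
    · rintro ⟨hx, hc⟩
      refine ⟨⟨x, hx⟩, ?_, rfl⟩
      show x * (τ * x * τ) = 1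
      rw [← Subgroup.mem_centralizer_singleton_iff.mp hc, mul_assoc x τ τ, hτ2, mul_one, hexp x hx]
  have hprod : Nat.card Fb * Nat.card δ.range = 16 := by
    rw [← hker, Subgroup.card_map_of_injective Hb.subtype_injective, ← hHb,
      ← Subgroup.index_ker, Subgroup.card_mul_index]
  have hrle : Nat.card δ.range ≤ Nat.card Fb :=
    Nat.le_of_dvd Nat.card_pos (Subgroup.card_dvd_of_le hrange)
  obtain ⟨g, hg⟩ := exists_prime_orderOf_dvd_card' (G := G) 5 (by rw [hG]; norm_num)
  set r := g * T * g⁻¹ * T⁻¹ with hr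
  have hFd : Nat.card Fb ∣ 16 := Dvd.intro _ hprod
  have hrH : r ∉ H := by
    intro hrH
    have hnorm : ∀ a ∈ Fb, π g * a * (π g)⁻¹ ∈ Fb := by
      rintro a ⟨ha, hac⟩
      refine ⟨hHbn.conj_mem a ha _, Subgroup.mem_centralizer_singleton_iff.mpr ?_⟩
      have hr' : π r ∈ Hb := ⟨r, hrH, rfl⟩
      have e1 : π g * τ * (π g)⁻¹ = π r * τ := by
        rw [hr, hτ, ← map_inv, ← map_mul, ← map_mul, ← map_mul, inv_mul_cancel_right]
      have e3 := Subgroup.mem_centralizer_singleton_iff.mp hac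
      have e2 : π g * a * (π g)⁻¹ * (π r * τ) = π r * τ * (π g * a * (π g)⁻¹) := by
        rw [← e1]
        calc π g * a * (π g)⁻¹ * (π g * τ * (π g)⁻¹) = π g * (a * τ) * (π g)⁻¹ := by group
          _ = π g * (τ * a) * (π g)⁻¹ := by rw [e3]
          _ = _ := by group
      rw [← mul_assoc, hcommb _ (hHbn.conj_mem a ha _) _ hr', mul_assoc, mul_assoc] at e2
      exact mul_left_cancel (a := π r) (by simp only [mul_assoc] at e2 ⊢; exact e2)
    have h5 : π g ^ 5 = 1 := by rw [← map_pow, ← hg, pow_orderOf_eq_one, map_one]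
    have hmod := fixed_modEq Fb h5 hnorm
    have hone : Nat.card ↥(Fb ⊓ Subgroup.centralizer ({π g} : Set (G ⧸ Zg))) = 1 := by
      refine Nat.eq_one_of_dvd_one ?_
      rw [← hfpf g hg]
      exact Subgroup.card_dvd_of_le (inf_le_inf_right _ inf_le_left)
    rw [hone] at hmod
    have hF16 : Fb = Hb := by
      refine Subgroup.eq_of_le_of_card_ge inf_le_left ?_
      rw [hHb]
      rcases dvd_sixteen hFd with h | h | h | h | h <;> rw [h] at hmod hrle hprod <;>
        first
          | omega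
          | (exfalso; exact absurd hmod (by decide))
    let N := (Subgroup.centralizer (Hb : Set (G ⧸ Zg))).comap π
    have hN : IsPGroup 2 N := by
      have hd : Nat.card N ∣ 2 ^ 6 * 5 := by
        rw [show 2 ^ 6 * 5 = Nat.card G by rw [hG]; norm_num]; exact Subgroup.card_subgroup_dvd_card N
      have h5N : ¬ 5 ∣ Nat.card N := fun h => by
        obtain ⟨x, hx⟩ := exists_prime_orderOf_dvd_card' 5 h
        exact hfive x ((Subgroup.orderOf_coe x).trans hx) fun a ha =>
          Subgroup.mem_centralizer_singleton_iff.mpr (x.2 a ha)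
      obtain ⟨k, -, hk⟩ := (Nat.dvd_prime_pow Nat.prime_two).mp
        (((by norm_num : Nat.Prime 5).coprime_iff_not_dvd.mpr h5N).symm.dvd_of_dvd_mul_right hd)
      exact IsPGroup.of_card hk
    refine hTH (Core.le_pCore inferInstance hN ?_)
    show π T ∈ Subgroup.centralizer (Hb : Set (G ⧸ Zg))
    intro a ha
    rw [← hF16] at ha
    exact Subgroup.mem_centralizer_singleton_iff.mp ha.2
  have hF4 : Nat.card Fb = 4 ∧ Nat.card δ.range = 4 := by
    obtain ⟨K, hKn, hK5⟩ : ∃ K : Subgroup (G ⧸ H), K.Normal ∧ Nat.card K = 5 := by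
      obtain ⟨c, hc⟩ := exists_prime_orderOf_dvd_card' (G := G ⧸ H) 5 (by
        rw [← Subgroup.index_eq_card, hHidx]; norm_num)
      refine ⟨Subgroup.zpowers c, ?_, by rw [Nat.card_zpowers, hc]⟩
      refine Subgroup.normal_of_index_eq_two ?_
      have := Subgroup.index_mul_card (Subgroup.zpowers c)
      rw [Nat.card_zpowers, hc, ← Subgroup.index_eq_card, hHidx] at this; omega
    haveI := hKn
    have hrK : (r : G ⧸ H) ∈ K := by
      rw [← QuotientGroup.eq_one_iff]
      have hab : ∀ a b : (G ⧸ H) ⧸ K, a * b = b * a := by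
        haveI : Fact (Nat.Prime 2) := ⟨Nat.prime_two⟩
        haveI : IsCyclic ((G ⧸ H) ⧸ K) := isCyclic_of_prime_card (p := 2) (by
          have := Subgroup.index_mul_card K
          rw [hK5, ← Subgroup.index_eq_card, hHidx] at this
          rw [← Subgroup.index_eq_card]; omega)
        exact fun a b => (IsCyclic.commGroup (α := (G ⧸ H) ⧸ K)).mul_comm a b
      show QuotientGroup.mk' K (QuotientGroup.mk' H r) = 1
      rw [hr]
      simp only [map_mul, map_inv]
      rw [hab (QuotientGroup.mk' K (QuotientGroup.mk' H g)), mul_inv_cancel_right, mul_inv_cancel]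
    have hr5 : r ^ 5 ∈ H := by
      rw [← QuotientGroup.eq_one_iff, QuotientGroup.mk_pow]
      have : (⟨_, hrK⟩ : K) ^ 5 = 1 := by rw [← hK5]; exact pow_card_eq_one'
      exact congrArg Subtype.val this
    obtain ⟨k, hk⟩ := IsPGroup.iff_orderOf.mp hp ⟨r ^ 5, hr5⟩
    rw [Subgroup.orderOf_mk] at hk
    have hone : r ^ 2 ^ k ≠ 1 := fun h => by
      have hd : orderOf (r : G ⧸ H) ∣ 2 ^ k :=
        orderOf_dvd_of_pow_eq_one (by rw [← QuotientGroup.mk_pow, h]; rfl)
      have hd5 : orderOf (r : G ⧸ H) ∣ 5 :=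
        orderOf_dvd_of_pow_eq_one (by rw [← QuotientGroup.mk_pow]; exact (QuotientGroup.eq_one_iff _).mpr hr5)
      have h1 := Nat.dvd_gcd hd hd5
      rw [Nat.Coprime.gcd_eq_one (Nat.Coprime.pow_left k (by norm_num)), Nat.dvd_one,
        orderOf_eq_one_iff, QuotientGroup.eq_one_iff] at h1
      exact hrH h1
    have ho : orderOf (r ^ 2 ^ k) = 5 := orderOf_eq_prime (by
      rw [← pow_mul, mul_comm, pow_mul, ← hk, pow_orderOf_eq_one]) hone
    set Fb' := Fb.map (MulAut.conj (π g)).toMonoidHom with hFb'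
    have hinf : Fb ⊓ Fb' ≤ Hb ⊓ Subgroup.centralizer ({π (r ^ 2 ^ k)} : Set (G ⧸ Zg)) := by
      rintro a ⟨⟨ha, hac⟩, b, ⟨-, hbc⟩, rfl⟩
      refine ⟨ha, Subgroup.mem_centralizer_singleton_iff.mpr ?_⟩
      have e3 : Commute b τ := Subgroup.mem_centralizer_singleton_iff.mp hbc
      have hb' : Commute (MulAut.conj (π g) b) (MulAut.conj (π g) τ) := e3.map _
      have hc : Commute (MulAut.conj (π g) b) τ := Subgroup.mem_centralizer_singleton_iff.mp hac
      have hπr : π r = MulAut.conj (π g) τ * τ⁻¹ := by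
        rw [MulAut.conj_apply, hr, map_mul, map_mul, map_mul, map_inv, map_inv]
      rw [map_pow, hπr]
      exact ((hb'.mul_right hc.inv_right).pow_right _).eq
    have h1 : Nat.card ↥(Fb ⊓ Fb') = 1 :=
      Nat.eq_one_of_dvd_one ((Subgroup.card_dvd_of_le hinf).trans (hfpf _ ho).dvd)
    have hle16 : Nat.card Fb * Nat.card Fb ≤ 16 := by
      have hcard' : Nat.card Fb' = Nat.card Fb := Subgroup.card_map_of_injective (MulAut.conj (π g)).injective
      nth_rewrite 2 [← hcard']
      rw [← hHb, ← Nat.card_prod]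
      have hF'le : Fb' ≤ Hb := by
        rintro _ ⟨b, hb, rfl⟩
        exact hHbn.conj_mem b hb.1 _
      refine Nat.card_le_card_of_injective (fun z : Fb × Fb' =>
        (⟨(z.1 : G ⧸ Zg) * z.2, mul_mem z.1.2.1 (hF'le z.2.2)⟩ : Hb)) fun a b hab => ?_
      have e : (a.1 : G ⧸ Zg) * a.2 = b.1 * b.2 := congrArg Subtype.val hab
      have e2 : (b.1 : G ⧸ Zg)⁻¹ * a.1 = b.2 * (a.2 : G ⧸ Zg)⁻¹ := by
        rw [eq_mul_inv_iff_mul_eq, mul_assoc, e, inv_mul_cancel_left]
      have hm : (b.1 : G ⧸ Zg)⁻¹ * a.1 ∈ Fb ⊓ Fb' :=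
        Subgroup.mem_inf.mpr ⟨Fb.mul_mem (Fb.inv_mem b.1.2) a.1.2, by
          rw [e2]; exact Fb'.mul_mem b.2.2 (Fb'.inv_mem a.2.2)⟩
      have h0 : (b.1 : G ⧸ Zg)⁻¹ * a.1 = 1 := by
        rw [Subgroup.card_eq_one.mp h1, Subgroup.mem_bot] at hm; exact hm
      refine Prod.ext (Subtype.ext (inv_mul_eq_one.mp h0).symm) (Subtype.ext ?_)
      rw [h0, eq_comm, mul_inv_eq_one] at e2
      exact e2.symm
    rcases dvd_sixteen hFd with h | h | h | h | h <;> rw [h] at hle16 hrle hprod ⊢ <;>
      first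
        | omega
        | exact ⟨rfl, by omega⟩
  -- the centralizer of T in H
  set C := H ⊓ Subgroup.centralizer ({T} : Set G) with hC
  have hCcard : Nat.card C ≤ 4 := by
    have hC8 : Nat.card C ≤ 8 := by
      have h1 := card_map_eq π C
      rw [QuotientGroup.ker_mk'] at h1
      have h2 : Nat.card ↥(C ⊓ Zg) ≤ 2 :=
        hZcard ▸ Nat.le_of_dvd Nat.card_pos (Subgroup.card_dvd_of_le inf_le_right)
      have h3 : C.map π ≤ Fb := by
        rintro _ ⟨c, hc, rfl⟩
        refine ⟨⟨c, hc.1, rfl⟩, Subgroup.mem_centralizer_singleton_iff.mpr ?_⟩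
        rw [hτ, ← map_mul, ← map_mul, Subgroup.mem_centralizer_singleton_iff.mp hc.2]
      have h4 : Nat.card (C.map π) ≤ 4 :=
        hF4.1 ▸ Nat.le_of_dvd Nat.card_pos (Subgroup.card_dvd_of_le h3)
      rw [h1]
      exact (Nat.mul_le_mul h4 h2).trans (by norm_num)
    by_contra hgt
    have hd : Nat.card C ∣ 32 := h32 ▸ Subgroup.card_dvd_of_le inf_le_left
    have hC8' : Nat.card C = 8 := by
      obtain ⟨i, hi, e⟩ := (Nat.dvd_prime_pow Nat.prime_two).mp (show Nat.card C ∣ 2 ^ 5 from hd)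
      rw [e] at hC8 hgt ⊢
      interval_cases i <;> simp_all
    have hexp2 : ∀ c ∈ C, c ^ 2 = 1 := by
      intro c hc
      have hc' : π c ∈ Fb := ⟨⟨c, hc.1, rfl⟩, Subgroup.mem_centralizer_singleton_iff.mpr (by
        rw [hτ, ← map_mul, ← map_mul, Subgroup.mem_centralizer_singleton_iff.mp hc.2])⟩
      rw [← Subgroup.eq_of_le_of_card_ge hrange (by rw [hF4.1, hF4.2])] at hc'
      obtain ⟨⟨_, h, hh, rfl⟩, he⟩ := hc'
      have he' : π (h * (T * h * T)) = π c := by simpa [δ, hτ] using he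
      have hz : (h * (T * h * T))⁻¹ * c ∈ Zg := QuotientGroup.eq.mp he'
      set y := h * (T * h * T) with hy
      set z := y⁻¹ * c with hzdef
      have hcy : c = y * z := by rw [hzdef, mul_inv_cancel_left]
      have hTy : T * y = y * T := by
        have h1 : T * (y * z) = (y * z) * T := by
          rw [← hcy]; exact (Subgroup.mem_centralizer_singleton_iff.mp hc.2).symm
        refine mul_right_cancel (b := z) ?_
        rw [mul_assoc T y z, h1, mul_assoc y z T, ← hZc z hz T, mul_assoc y T z]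
      have hTT : T * T = 1 := by rw [← sq, ← hT, pow_orderOf_eq_one]
      have hy2 : y * y = 1 := by
        have hy' : T * y * T = y := by rw [hTy, mul_assoc, hTT, mul_one]
        calc y * y = y * (T * y * T) := by rw [hy']
          _ = h * T * h * (T * T) * h * T * h * (T * T) := by rw [hy]; group
          _ = h * T * (h * h) * T * h := by rw [hTT]; group
          _ = h * (T * T) * ((h * h) * h) := by
              have e := hZc (h * h) (by rw [← sq]; exact hsqZ h hh) T
              rw [mul_assoc h T (h * h), e]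
              have e4 : (h * h) * T * T = T * T * (h * h) := by rw [mul_assoc, hTT, mul_one, one_mul]
              calc h * (h * h * T) * T * h = h * (h * h * T * T) * h := by group
                _ = h * (T * T * (h * h)) * h := by rw [e4]
                _ = _ := by group
          _ = (h ^ 2) ^ 2 := by rw [hTT]; simp only [sq]; group
          _ = 1 := hz2 _ (hsqZ h hh)
      have hzy : Commute y z := hZc z hz y
      rw [hcy, hzy.mul_pow, sq y, hy2, one_mul, hz2 z hz]
    have hel : Cfsg.IsElementaryAbelian 2 C := ⟨⟨⟨fun a b => Subtype.ext (by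
      have h1 := hexp2 _ (mul_mem a.2 b.2)
      rw [sq] at h1
      have ha := hexp2 a a.2
      have hb := hexp2 b b.2
      rw [sq] at ha hb
      show (a : G) * b = b * a
      rw [← inv_eq_of_mul_eq_one_right h1, mul_inv_rev, inv_eq_of_mul_eq_one_right ha,
        inv_eq_of_mul_eq_one_right hb])⟩⟩, hexp2⟩
    have := hminus C inf_le_left hel
    omega
  have hVC : V = C := Subgroup.eq_of_le_of_card_ge hV (hV4 ▸ hCcard)
  exact ⟨hVC ▸ hV4, hVC ▸ hVe⟩

end Cfsg.Agent.S4405
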