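import Cfsg.Statements.S4406


set_option autoImplicit false
open Cfsg

namespace Cfsg.Agent.S4406

abbrev A4 : Type := ↥(alternatingGroup (Fin 4))

set_option maxRecDepth 100000

lemma pow_twelve : ∀ a : A4, a ^ 12 = 1 := by
  intro a
  have h : orderOf a ∣ 12 := by
    have := orderOf_dvd_natCard a
    rwa [nat_card_alternatingGroup, Nat.card_fin] at this
  exact orderOf_dvd_iff_pow_eq_one.mp h

lemma sq_of_pow_four : ∀ a : A4, a ^ 4 = 1 → a * a = 1 := by decide +kernel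

lemma cube_cases : ∀ a : A4, a ^ 12 = 1 → a ^ 9 = 1 → a * a * a = 1 := by decide +kernel

lemma cube_of_pow {a : A4} {k : ℕ} (h : a ^ 3 ^ k = 1) : a * a * a = 1 := by
  have h1 := pow_gcd_eq_one.mpr ⟨pow_twelve a, h⟩
  have h2 : a ^ 3 = 1 := by
    rcases k with _ | k
    · simp at h; simp [h]
    · have : Nat.gcd 12 (3 ^ (k + 1)) = 3 := by
        rw [pow_succ', show (12 : ℕ) = 3 * 4 from rfl, Nat.gcd_mul_left]
        have : Nat.Coprime 4 (3 ^ k) := Nat.Coprime.pow_right k (by norm_num)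
        rw [this.gcd_eq_one, mul_one]
      rwa [this] at h1
  rw [pow_three, ← mul_assoc] at h2
  exact h2

set_option synthInstance.maxSize 20000 in
lemma key : ∀ s : A4, s ≠ 1 → s * s * s = 1 → ∀ t : A4, t ≠ 1 → t * t * t = 1 →
    ∀ b1 : A4, b1 ≠ 1 → b1 * b1 = 1 → ∀ c1 : A4, c1 ≠ 1 → c1 * c1 = 1 → b1 ≠ c1 →
    ∀ b2 : A4, b2 ≠ 1 → b2 * b2 = 1 → ∀ c2 : A4, c2 ≠ 1 → c2 * c2 = 1 → b2 ≠ c2 →
    ∃ t' : A4, (t' = t ∨ t' = t⁻¹) ∧
      ((s * b1 * s⁻¹ = b1 ∧ t' * b2 * t'⁻¹ = b2) ∨ (s * b1 * s⁻¹ = c1 ∧ t' * b2 * t'⁻¹ = c2) ∨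
        (s * b1 * s⁻¹ = b1 * c1 ∧ t' * b2 * t'⁻¹ = b2 * c2)) ∧
      ((s * c1 * s⁻¹ = b1 ∧ t' * c2 * t'⁻¹ = b2) ∨ (s * c1 * s⁻¹ = c1 ∧ t' * c2 * t'⁻¹ = c2) ∨
        (s * c1 * s⁻¹ = b1 * c1 ∧ t' * c2 * t'⁻¹ = b2 * c2)) := by
  decide +kernel

lemma card_A4 : Nat.card A4 = 12 := by rw [nat_card_alternatingGroup, Nat.card_fin]; rfl

lemma card_sylow (Q : Sylow 3 (A4 × A4)) : Nat.card (Q : Subgroup (A4 × A4)) = 9 := by
  have : Fact (Nat.Prime 3) := ⟨Nat.prime_three⟩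
  rw [Q.card_eq_multiplicity, Nat.card_prod, card_A4,
    Nat.factorization_mul (by norm_num) (by norm_num), Finsupp.add_apply]
  have : (12 : ℕ).factorization 3 = 1 := by
    rw [show (12 : ℕ) = 4 * 3 from rfl, Nat.factorization_mul (by norm_num) (by norm_num), Finsupp.add_apply,
      Nat.prime_three.factorization_self, Nat.factorization_eq_zero_of_not_dvd (by norm_num)]
  rw [this]; norm_num

lemma exists_left (Q : Sylow 3 (A4 × A4)) : ∃ s : A4, ((s, 1) : A4 × A4) ∈ (Q : Subgroup (A4 × A4)) ∧ s ≠ 1 := by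
  let f : (Q : Subgroup (A4 × A4)) →* A4 := (MonoidHom.snd A4 A4).comp (Subgroup.subtype _)
  have h := f.ker.card_mul_index
  rw [card_sylow Q, Subgroup.index_ker] at h
  have hd : Nat.card f.range ∣ 12 := card_A4 ▸ Subgroup.card_subgroup_dvd_card _
  have hne : f.ker ≠ ⊥ := fun e => by rw [e, Subgroup.card_bot, one_mul] at h; rw [h] at hd; norm_num at hd
  obtain ⟨u, hu, hu1⟩ := (Subgroup.bot_or_exists_ne_one f.ker).resolve_left hne
  have h2 : (u : A4 × A4).2 = 1 := hu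
  refine ⟨(u : A4 × A4).1, ?_, fun e => hu1 (Subtype.ext (Prod.ext e h2))⟩
  have : (((u : A4 × A4).1, 1) : A4 × A4) = (u : A4 × A4) := Prod.ext rfl h2.symm
  rw [this]; exact u.2

lemma exists_right (Q : Sylow 3 (A4 × A4)) : ∃ t : A4, ((1, t) : A4 × A4) ∈ (Q : Subgroup (A4 × A4)) ∧ t ≠ 1 := by
  let f : (Q : Subgroup (A4 × A4)) →* A4 := (MonoidHom.fst A4 A4).comp (Subgroup.subtype _)
  have h := f.ker.card_mul_index
  rw [card_sylow Q, Subgroup.index_ker] at h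
  have hd : Nat.card f.range ∣ 12 := card_A4 ▸ Subgroup.card_subgroup_dvd_card _
  have hne : f.ker ≠ ⊥ := fun e => by rw [e, Subgroup.card_bot, one_mul] at h; rw [h] at hd; norm_num at hd
  obtain ⟨u, hu, hu1⟩ := (Subgroup.bot_or_exists_ne_one f.ker).resolve_left hne
  have h2 : (u : A4 × A4).1 = 1 := hu
  refine ⟨(u : A4 × A4).2, ?_, fun e => hu1 (Subtype.ext (Prod.ext h2 e))⟩
  have : ((1, (u : A4 × A4).2) : A4 × A4) = (u : A4 × A4) := Prod.ext h2.symm rfl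
  rw [this]; exact u.2

/-- In the direct product P = A₄ × A₄, let X be the Sylow 2-subgroup, X₁ and X₂ its intersections with the two direct factors, Q a Sylow 3-subgroup and Q₁, Q₂ its intersections with the two factors. Then every subgroup B of X of order 4 either meets X₁ or X₂ nontrivially, or is normalized by one of the two subgroups of Q of order 3 other than Q₁ and Q₂. -/
theorem result
    (X : Sylow 2 (↥(alternatingGroup (Fin 4)) × ↥(alternatingGroup (Fin 4))))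
    (Q : Sylow 3 (↥(alternatingGroup (Fin 4)) × ↥(alternatingGroup (Fin 4))))
    (B : Subgroup (↥(alternatingGroup (Fin 4)) × ↥(alternatingGroup (Fin 4)))) (hBX : B ≤ (X : Subgroup _)) (hB4 : Nat.card ↥B = 4) :
    B ⊓ ((X : Subgroup _) ⊓ Subgroup.prod ⊤ ⊥) ≠ ⊥ ∨ B ⊓ ((X : Subgroup _) ⊓ Subgroup.prod ⊥ ⊤) ≠ ⊥ ∨
      ∃ R : Subgroup (↥(alternatingGroup (Fin 4)) × ↥(alternatingGroup (Fin 4))), R ≤ (Q : Subgroup _) ∧ Nat.card ↥R = 3 ∧
        R ≠ (Q : Subgroup _) ⊓ Subgroup.prod ⊤ ⊥ ∧ R ≠ (Q : Subgroup _) ⊓ Subgroup.prod ⊥ ⊤ ∧ R ≤ Subgroup.normalizer (B : Set _) := by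
  have hXel : ∀ b ∈ (X : Subgroup (A4 × A4)), b.1 * b.1 = 1 ∧ b.2 * b.2 = 1 := by
    intro b hb
    obtain ⟨k, hk⟩ := IsPGroup.iff_orderOf.mp X.isPGroup' ⟨b, hb⟩
    rw [← Subgroup.orderOf_coe] at hk
    have h12 : b ^ 12 = 1 := Prod.ext (pow_twelve b.1) (pow_twelve b.2)
    have hd := orderOf_dvd_of_pow_eq_one h12
    rw [hk] at hd
    have hk2 : k ≤ 2 := by
      by_contra h
      have h8 : 8 ∣ 12 := (pow_dvd_pow 2 (by omega : 3 ≤ k)).trans hd
      norm_num at h8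
    have h4 : b ^ 4 = 1 := orderOf_dvd_iff_pow_eq_one.mp (hk ▸ (pow_dvd_pow 2 hk2))
    exact ⟨sq_of_pow_four _ (congrArg Prod.fst h4), sq_of_pow_four _ (congrArg Prod.snd h4)⟩
  by_cases h1 : B ⊓ ((X : Subgroup _) ⊓ Subgroup.prod ⊤ ⊥) = ⊥
  swap
  · exact Or.inl h1
  by_cases h2 : B ⊓ ((X : Subgroup _) ⊓ Subgroup.prod ⊥ ⊤) = ⊥
  swap
  · exact Or.inr (Or.inl h2)
  refine Or.inr (Or.inr ?_)
  have hsnd : ∀ b ∈ B, b.2 = 1 → b = 1 := fun b hb h => by
    have : b ∈ B ⊓ ((X : Subgroup _) ⊓ Subgroup.prod ⊤ ⊥) :=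
      Subgroup.mem_inf.mpr ⟨hb, Subgroup.mem_inf.mpr ⟨hBX hb, Subgroup.mem_prod.mpr ⟨trivial, h⟩⟩⟩
    rw [h1] at this
    exact Subgroup.mem_bot.mp this
  have hfst : ∀ b ∈ B, b.1 = 1 → b = 1 := fun b hb h => by
    have : b ∈ B ⊓ ((X : Subgroup _) ⊓ Subgroup.prod ⊥ ⊤) :=
      Subgroup.mem_inf.mpr ⟨hb, Subgroup.mem_inf.mpr ⟨hBX hb, Subgroup.mem_prod.mpr ⟨h, trivial⟩⟩⟩
    rw [h2] at this
    exact Subgroup.mem_bot.mp this
  have hB4' : (B : Set (A4 × A4)).ncard = 4 := hB4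
  obtain ⟨b, hb, hb1⟩ : ∃ b ∈ B, b ≠ 1 := by
    apply (Subgroup.bot_or_exists_ne_one B).resolve_left
    intro h; rw [h, Subgroup.card_bot] at hB4; norm_num at hB4
  obtain ⟨c, hc, hcn⟩ : ∃ c ∈ (B : Set (A4 × A4)), c ∉ ({1, b} : Set (A4 × A4)) := by
    refine Set.exists_mem_notMem_of_ncard_lt_ncard ?_
    rw [hB4']
    exact lt_of_le_of_lt (Set.ncard_insert_le _ _) (by simp)
  simp only [Set.mem_insert_iff, Set.mem_singleton_iff, not_or] at hcn
  -- generators of order 3 in each factor of Q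
  obtain ⟨s, hs, hs1⟩ := exists_left Q
  obtain ⟨t, ht, ht1⟩ := exists_right Q
  have hs3 : s * s * s = 1 := by
    obtain ⟨k, hk⟩ := IsPGroup.iff_orderOf.mp Q.isPGroup' ⟨(s, 1), hs⟩
    rw [← Subgroup.orderOf_coe] at hk
    exact cube_of_pow (k := k) (congrArg Prod.fst (hk ▸ pow_orderOf_eq_one ((s, 1) : A4 × A4)))
  have ht3 : t * t * t = 1 := by
    obtain ⟨k, hk⟩ := IsPGroup.iff_orderOf.mp Q.isPGroup' ⟨(1, t), ht⟩
    rw [← Subgroup.orderOf_coe] at hk
    exact cube_of_pow (k := k) (congrArg Prod.snd (hk ▸ pow_orderOf_eq_one ((1, t) : A4 × A4)))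
  have hbc : b.1 ≠ c.1 ∧ b.2 ≠ c.2 := by
    have hm : b⁻¹ * c ∈ B := B.mul_mem (B.inv_mem hb) hc
    refine ⟨fun h => hcn.2 ?_, fun h => hcn.2 ?_⟩
    · have := hfst _ hm (by simp [h])
      exact (inv_mul_eq_one.mp this).symm
    · have := hsnd _ hm (by simp [h])
      exact (inv_mul_eq_one.mp this).symm
  obtain ⟨t', ht', hkey⟩ := key s hs1 hs3 t ht1 ht3 b.1 (fun h => hb1 (hfst b hb h)) (hXel b (hBX hb)).1
    c.1 (fun h => hcn.1 (hfst c hc h)) (hXel c (hBX hc)).1 hbc.1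
    b.2 (fun h => hb1 (hsnd b hb h)) (hXel b (hBX hb)).2
    c.2 (fun h => hcn.1 (hsnd c hc h)) (hXel c (hBX hc)).2 hbc.2
  have ht'1 : t' ≠ 1 := by rcases ht' with rfl | rfl <;> simp [ht1]
  have ht'3 : t' * t' * t' = 1 := by
    rcases ht' with rfl | rfl
    · exact ht3
    · rw [← mul_inv_rev, ← mul_inv_rev, ← mul_assoc, ht3, inv_one]
  have hr : ((s, t') : A4 × A4) ∈ (Q : Subgroup _) := by
    have : ((s, t') : A4 × A4) = (s, 1) * (1, t') := by simp
    rw [this]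
    refine Subgroup.mul_mem _ hs ?_
    rcases ht' with rfl | rfl
    · exact ht
    · simpa using Subgroup.inv_mem _ ht
  refine ⟨Subgroup.zpowers (s, t'), Subgroup.zpowers_le.mpr hr, ?_, ?_, ?_, ?_⟩
  · rw [Nat.card_zpowers]
    exact orderOf_eq_prime (p := 3) (by rw [pow_three, ← mul_assoc]; exact Prod.ext hs3 ht'3)
      (fun h => hs1 (congrArg Prod.fst h))
  · intro h
    have := (Subgroup.mem_inf.mp (h ▸ Subgroup.mem_zpowers ((s, t') : A4 × A4))).2
    exact ht'1 (Subgroup.mem_prod.mp this).2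
  · intro h
    have := (Subgroup.mem_inf.mp (h ▸ Subgroup.mem_zpowers ((s, t') : A4 × A4))).2
    exact hs1 (Subgroup.mem_prod.mp this).1
  · rw [Subgroup.zpowers_le]
    have hconj : ∀ u ∈ B, ((s, t') : A4 × A4) * u * (s, t')⁻¹ ∈ B := by
      have hmem : ∀ u : A4 × A4, ((s * u.1 * s⁻¹ = b.1 ∧ t' * u.2 * t'⁻¹ = b.2) ∨
          (s * u.1 * s⁻¹ = c.1 ∧ t' * u.2 * t'⁻¹ = c.2) ∨
          (s * u.1 * s⁻¹ = b.1 * c.1 ∧ t' * u.2 * t'⁻¹ = b.2 * c.2)) →
          ((s, t') : A4 × A4) * u * (s, t')⁻¹ ∈ B := by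
        rintro u (⟨e1, e2⟩ | ⟨e1, e2⟩ | ⟨e1, e2⟩)
        · have e : ((s, t') : A4 × A4) * u * (s, t')⁻¹ = b := Prod.ext e1 e2
          rw [e]; exact hb
        · have e : ((s, t') : A4 × A4) * u * (s, t')⁻¹ = c := Prod.ext e1 e2
          rw [e]; exact hc
        · have e : ((s, t') : A4 × A4) * u * (s, t')⁻¹ = b * c := Prod.ext e1 e2
          rw [e]; exact B.mul_mem hb hc
      have hcb := hmem b hkey.1
      have hcc := hmem c hkey.2
      have hgen : B = Subgroup.closure {b, c} := by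
        refine (Subgroup.eq_of_le_of_card_ge ((Subgroup.closure_le B).mpr ?_) ?_).symm
        · rintro u (rfl | rfl)
          · exact hb
          · exact hc
        · rw [hB4]
          have hsub : ({1, b, c, b * c} : Set (A4 × A4)) ⊆ (Subgroup.closure ({b, c} : Set (A4 × A4)) : Set (A4 × A4)) := by
            rintro u (rfl | rfl | rfl | rfl)
            · exact Subgroup.one_mem _
            · exact Subgroup.subset_closure (Or.inl rfl)
            · exact Subgroup.subset_closure (Or.inr rfl)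
            · exact Subgroup.mul_mem _ (Subgroup.subset_closure (Or.inl rfl)) (Subgroup.subset_closure (Or.inr rfl))
          refine le_trans (le_of_eq ?_) (Set.ncard_le_ncard hsub)
          have hbcm : b * c ≠ 1 := fun h => hbc.1 (by
            have h' : b.1 * c.1 = 1 := congrArg Prod.fst h
            have := (hXel b (hBX hb)).1
            exact mul_left_cancel (this.trans h'.symm))
          rw [Set.ncard_insert_of_notMem, Set.ncard_insert_of_notMem, Set.ncard_pair] <;>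
            simp [Ne.symm hb1, Ne.symm hcn.1, Ne.symm hcn.2, hb1, hcn.1, hbcm.symm]
      intro u hu
      rw [hgen] at hu
      induction hu using Subgroup.closure_induction with
      | mem v hv => rcases hv with rfl | rfl <;> assumption
      | one => rw [mul_one, mul_inv_cancel]; exact B.one_mem
      | mul v w _ _ hv hw =>
        have e : ((s, t') : A4 × A4) * (v * w) * (s, t')⁻¹ =
            ((s, t') * v * (s, t')⁻¹) * ((s, t') * w * (s, t')⁻¹) := by group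
        rw [e]; exact B.mul_mem hv hw
      | inv v _ hv =>
        have e : ((s, t') : A4 × A4) * v⁻¹ * (s, t')⁻¹ = ((s, t') * v * (s, t')⁻¹)⁻¹ := by group
        rw [e]; exact B.inv_mem hv
    exact Subgroup.mem_normalizer_fintype hconj

end Cfsg.Agent.S4406
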