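import Cfsg.Statements.S4408
import Cfsg.Agent.Core.Fitting
import Cfsg.Agent.Core.MinimalNormal
import Cfsg.Agent.Core.Cores
import Cfsg.Agent.Coprime.Generation
import Cfsg.Agent.Coprime.PxQ
import Cfsg.Agent.Coprime.Action
import Cfsg.Agent.Coprime.Conjugacy

set_option autoImplicit false
open Cfsg

namespace Cfsg.Agent.S4408

theorem pgroup_le_pCore {S : Type*} [Group S] [Finite S] {p : ℕ} [Fact p.Prime] {R : Subgroup S}
    (hR : IsPGroup p R) (hRF : R ≤ fittingSubgroup S) : R ≤ pCore p S := by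
  obtain ⟨Q, hQ⟩ := (hR.comap_subtype (K := fittingSubgroup S)).exists_le_sylow
  rw [← Cfsg.Agent.Core.sylow_fittingSubgroup_map Q]
  intro x hx
  exact ⟨⟨x, hRF hx⟩, hQ (by exact hx), rfl⟩

theorem normalizes_inf {S : Type*} [Group S] [Finite S] {A B : Subgroup S} {t : S}
    (hA : t ∈ Subgroup.normalizer (A : Set S)) (hB : t ∈ Subgroup.normalizer (B : Set S)) :
    t ∈ Subgroup.normalizer ((A ⊓ B : Subgroup S) : Set S) :=
  Cfsg.Agent.Coprime.mem_normalizer_of_conj_mem fun y hy =>
    ⟨(Subgroup.mem_normalizer_iff.mp hA y).mp hy.1, (Subgroup.mem_normalizer_iff.mp hB y).mp hy.2⟩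

theorem normalizes_centralizer {S : Type*} [Group S] [Finite S] {A : Subgroup S} {t : S}
    (hA : t ∈ Subgroup.normalizer (A : Set S)) :
    t ∈ Subgroup.normalizer ((Subgroup.centralizer (A : Set S)) : Set S) := by
  refine Cfsg.Agent.Coprime.mem_normalizer_of_conj_mem fun y hy => ?_
  rw [Subgroup.mem_centralizer_iff] at hy ⊢
  intro a ha
  have h1 : t⁻¹ * a * t ∈ A := by
    have := (Subgroup.mem_normalizer_iff.mp hA (t⁻¹ * a * t)).mpr (by simpa [mul_assoc] using ha)
    exact this
  have h2 := hy _ h1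
  calc a * (t * y * t⁻¹) = t * ((t⁻¹ * a * t) * y) * t⁻¹ := by group
    _ = t * (y * (t⁻¹ * a * t)) * t⁻¹ := by rw [h2]
    _ = t * y * t⁻¹ * a := by group

theorem mem_zpowers_of_sq {S : Type*} [Group S] {g x : S} (hg : g ^ 2 = 1)
    (hx : x ∈ Subgroup.zpowers g) : x = 1 ∨ x = g := by
  obtain ⟨k, rfl⟩ := Subgroup.mem_zpowers_iff.mp hx
  rw [zpow_eq_zpow_emod' k hg]
  rcases Int.emod_two_eq_zero_or_one k with h | h <;> simp [h]

variable {S : Type*} [Group S] [Finite S] {I : Subgroup S}

/-- The involution `j` moving `P` inverts some `I`-invariant subgroup of prime order of `P`. -/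
theorem exists_line (hI : Cfsg.IsElementaryAbelian 2 I) {P : Subgroup S} (hodd : Odd (Nat.card P))
    (hIP : I ≤ Subgroup.normalizer (P : Set S)) {j : S} (hj : j ∈ I)
    (hjP : j ∉ Subgroup.centralizer (P : Set S)) :
    ∃ (K : Subgroup S) (y : S), K ≤ I ∧ j ∉ K ∧ (∀ t ∈ I, t ∈ K ∨ t * j ∈ K) ∧ y ∈ P ∧
      (orderOf y).Prime ∧ j * y * j⁻¹ = y⁻¹ ∧ ∀ k ∈ K, k * y * k⁻¹ = y := by
  classical
  obtain ⟨hc, hsq⟩ := hI
  have hj1 : j ≠ 1 := fun h => hjP (h ▸ one_mem _)
  have hcomm : ∀ a ∈ I, ∀ b ∈ I, a * b = b * a := fun a ha b hb => by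
    haveI := hc
    simpa using congrArg Subtype.val (mul_comm' (⟨a, ha⟩ : I) ⟨b, hb⟩)
  obtain ⟨K, ⟨hKI, hjK, hKP⟩, hmax⟩ := Set.Finite.exists_maximal (Set.toFinite
    {K : Subgroup S | K ≤ I ∧ j ∉ K ∧
      ¬ P ⊓ Subgroup.centralizer (K : Set S) ≤ Subgroup.centralizer ({j} : Set S)})
    ⟨⊥, bot_le, by simpa using hj1, fun h => hjP (Subgroup.mem_centralizer_iff.mpr fun x hx =>
      ((Subgroup.mem_centralizer_iff.mp (h ⟨hx, Subgroup.mem_centralizer_iff.mpr (by simp)⟩)) j
        rfl).symm)⟩
  have hIC : ∀ t ∈ I, t ∈ Subgroup.normalizer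
      ((P ⊓ Subgroup.centralizer (K : Set S) : Subgroup S) : Set S) := fun t ht =>
    normalizes_inf (hIP ht) (normalizes_centralizer
      (Cfsg.Agent.Coprime.mem_normalizer_of_conj_mem fun k hk => by
        rw [hcomm t ht k (hKI hk), mul_inv_cancel_right]; exact hk))
  have hcop : (P ⊓ Subgroup.centralizer (K : Set S) : Subgroup S) ≤ P := inf_le_left
  have hhalf : ∀ t ∈ I, t ∈ K ∨ t * j ∈ K := by
    intro i hi
    by_contra hne
    rw [not_or] at hne
    have hi1 : i ≠ 1 := fun h => hne.1 (h ▸ one_mem _)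
    have hij : i ≠ j := fun h => hne.2 (by rw [h, ← pow_two, hsq j hj]; exact one_mem _)
    set A : Subgroup S := Subgroup.zpowers i ⊔ Subgroup.zpowers j with hAdef
    have hAI : A ≤ I := sup_le (Subgroup.zpowers_le.mpr hi) (Subgroup.zpowers_le.mpr hj)
    haveI : IsMulCommutative A :=
      ⟨⟨fun a b => Subtype.ext (hcomm a.1 (hAI a.2) b.1 (hAI b.2))⟩⟩
    have hAn : ¬ IsCyclic A := by
      intro hA
      obtain ⟨⟨g, hg⟩, hgen⟩ := hA.exists_generator
      have hmem : ∀ x ∈ A, x = 1 ∨ x = g := fun x hx => by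
        refine mem_zpowers_of_sq (hsq g (hAI hg)) ?_
        obtain ⟨k, hk⟩ := Subgroup.mem_zpowers_iff.mp (hgen ⟨x, hx⟩)
        exact Subgroup.mem_zpowers_iff.mpr ⟨k, congrArg Subtype.val hk⟩
      rcases hmem i (le_sup_left (a := Subgroup.zpowers i) (Subgroup.mem_zpowers i)) with h | h
      · exact hi1 h
      rcases hmem j (le_sup_right (b := Subgroup.zpowers j) (Subgroup.mem_zpowers j)) with h' | h'
      · exact hj1 h'
      exact hij (h.trans h'.symm)
    have h2 : IsPGroup 2 A := fun a => ⟨1, Subtype.ext (by simpa using hsq a.1 (hAI a.2))⟩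
    have hco : (Nat.card A).Coprime
        (Nat.card (P ⊓ Subgroup.centralizer (K : Set S) : Subgroup S)) := by
      haveI : Fact (Nat.Prime 2) := ⟨Nat.prime_two⟩
      obtain ⟨n, hn⟩ := IsPGroup.iff_card.mp h2
      rw [hn]
      exact (Nat.coprime_two_left.mpr (hodd.of_dvd_nat (Subgroup.card_dvd_of_le hcop))).pow_left n
    refine hKP ?_
    rw [← Cfsg.Agent.Coprime.eq_centralizerJoin hAn (hAI.trans fun t ht => hIC t ht) hco]
    refine iSup_le fun ⟨e, heA, he1⟩ => ?_
    by_contra hle
    have hKe : j ∈ K ⊔ Subgroup.zpowers e := by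
      by_contra hje
      refine hne.1 ?_
      have hle' : K ⊔ Subgroup.zpowers e ≤ K := hmax ⟨sup_le hKI (Subgroup.zpowers_le.mpr (hAI heA)),
        hje, fun h => hle (fun x hx => h ⟨hx.1.1, ?_⟩)⟩ le_sup_left
      · have heK : e ∈ K := hle' (le_sup_right (a := K) (Subgroup.mem_zpowers e))
        obtain ⟨a, ha, b, hb, hab⟩ := Cfsg.Agent.Coprime.exists_mul_of_mem_sup
          (N := Subgroup.zpowers i) (A := Subgroup.zpowers j)
          (Subgroup.zpowers_le.mpr (Cfsg.Agent.Coprime.mem_normalizer_of_conj_mem fun y hy => by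
            rw [hcomm j hj y (Subgroup.zpowers_le.mpr hi hy), mul_inv_cancel_right]; exact hy)) heA
        rcases mem_zpowers_of_sq (hsq i hi) ha with rfl | rfl <;>
          rcases mem_zpowers_of_sq (hsq j hj) hb with rfl | rfl
        · exact absurd hab.symm (by simpa using he1)
        · rw [one_mul] at hab; exact absurd (hab ▸ heK) hjK
        · rw [mul_one] at hab; exact hab ▸ heK
        · exact absurd (hab ▸ heK) hne.2
      · refine Subgroup.le_centralizer_iff.mp (sup_le ?_ ?_) (Subgroup.mem_zpowers x) |> fun h => h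
        · exact Subgroup.le_centralizer_iff.mp (Subgroup.zpowers_le.mpr hx.1.2)
        · rw [Subgroup.zpowers_le, Subgroup.mem_centralizer_iff]
          intro y hy
          obtain ⟨k, rfl⟩ := Subgroup.mem_zpowers_iff.mp hy
          exact ((show Commute e x from Subgroup.mem_centralizer_iff.mp hx.2 e rfl).zpow_right k).eq.symm
    obtain ⟨a, ha, b, hb, hab⟩ := Cfsg.Agent.Coprime.exists_mul_of_mem_sup
      (N := K) (A := Subgroup.zpowers e)
      (Subgroup.zpowers_le.mpr (Cfsg.Agent.Coprime.mem_normalizer_of_conj_mem fun y hy => by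
        rw [hcomm e (hAI heA) y (hKI hy), mul_inv_cancel_right]; exact hy)) hKe
    rcases mem_zpowers_of_sq (hsq e (hAI heA)) hb with rfl | rfl
    · exact hjK (by rw [← hab, mul_one]; exact ha)
    have he : b = a⁻¹ * j := by rw [← hab, inv_mul_cancel_left]
    obtain ⟨u, hu, v, hv, huv⟩ := Cfsg.Agent.Coprime.exists_mul_of_mem_sup
      (N := Subgroup.zpowers i) (A := Subgroup.zpowers j)
      (Subgroup.zpowers_le.mpr (Cfsg.Agent.Coprime.mem_normalizer_of_conj_mem fun y hy => by
        rw [hcomm j hj y (Subgroup.zpowers_le.mpr hi hy), mul_inv_cancel_right]; exact hy)) heA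
    rcases mem_zpowers_of_sq (hsq i hi) hu with rfl | rfl <;>
      rcases mem_zpowers_of_sq (hsq j hj) hv with rfl | rfl
    · exact he1 (by simpa using huv.symm)
    · exact hle (fun x hx => by have := hx.2; simpa [← huv] using this)
    · refine hne.2 ?_
      have : u * j = a⁻¹ := by
        rw [show u = a⁻¹ * j by rw [← he, ← huv, mul_one], mul_assoc, ← pow_two, hsq j hj, mul_one]
      exact this ▸ inv_mem ha
    · refine hne.1 ?_
      have : u = a⁻¹ := mul_right_cancel (show u * v = a⁻¹ * v by rw [huv]; exact he)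
      exact this ▸ inv_mem ha
  obtain ⟨x, hx, hxj⟩ := SetLike.not_le_iff_exists.mp hKP
  have hxm : j * x * j⁻¹ ∈ P ⊓ Subgroup.centralizer (K : Set S) :=
    (Subgroup.mem_normalizer_iff.mp (hIC j hj) x).mp hx
  set y := x⁻¹ * (j * x * j⁻¹) with hydef
  have hy : y ∈ P ⊓ Subgroup.centralizer (K : Set S) := mul_mem (inv_mem hx) hxm
  have hjj : j * j = 1 := by rw [← pow_two]; exact hsq j hj
  have hjinv : j⁻¹ = j := inv_eq_of_mul_eq_one_right hjj
  have hyj : j * y * j⁻¹ = y⁻¹ := by
    calc j * y * j⁻¹ = (j * x * j⁻¹)⁻¹ * ((j * j) * x * (j * j)⁻¹) := by rw [hydef]; group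
      _ = (j * x * j⁻¹)⁻¹ * x := by rw [hjj]; group
      _ = y⁻¹ := by rw [hydef]; group
  have hy1 : y ≠ 1 := by
    intro h
    refine hxj ?_
    rw [Subgroup.mem_centralizer_singleton_iff]
    rw [hydef, inv_mul_eq_one] at h
    calc x * j = (j * x * j⁻¹) * j := by rw [← h]
      _ = j * x := by group
  obtain ⟨q, hq, hqd⟩ := Nat.exists_prime_and_dvd (mt orderOf_eq_one_iff.mp hy1)
  refine ⟨K, y ^ (orderOf y / q), hKI, hjK, hhalf, pow_mem hy.1 _, ?_, ?_, fun k hk => ?_⟩
  · rw [orderOf_pow_orderOf_div (orderOf_pos y).ne' hqd]; exact hq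
  · rw [← conj_pow, hyj, inv_pow]
  · rw [← conj_pow, mul_inv_eq_iff_eq_mul.mpr (Subgroup.mem_centralizer_iff.mp hy.2 k hk)]

/-- The recursion behind the statement. -/
theorem exists_lines (hI : Cfsg.IsElementaryAbelian 2 I) (hF : Odd (Nat.card (fittingSubgroup S))) :
    ∀ (m : ℕ) (J P : Subgroup S), J ≤ I → Nat.card J = 2 ^ m → P ≤ fittingSubgroup S →
      I ≤ Subgroup.normalizer (P : Set S) → J ⊓ Subgroup.centralizer (P : Set S) = ⊥ →
      ∃ f : Fin m → Subgroup S, (∀ i, (Nat.card (f i)).Prime) ∧ (∀ i, f i ≤ P) ∧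
        (∀ i, I ≤ Subgroup.normalizer ((f i) : Set S)) ∧
        (∀ i k, i ≠ k → ∀ a ∈ f i, ∀ b ∈ f k, a * b = b * a) ∧
        Nat.card (⨆ i, f i : Subgroup S) = ∏ i, Nat.card (f i) ∧
        J ⊓ Subgroup.centralizer ((⨆ i, f i : Subgroup S) : Set S) = ⊥ ∧
        (⨆ i, f i) ⊓ Subgroup.centralizer (J : Set S) = ⊥ := by
  intro m
  induction m with
  | zero =>
    intro J P _ hJ _ _ _
    have hJ1 : J = ⊥ := Subgroup.card_eq_one.mp (by simpa using hJ)
    refine ⟨Fin.elim0, fun i => i.elim0, fun i => i.elim0, fun i => i.elim0, fun i => i.elim0,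
      by simp, by simp [hJ1], by simp⟩
  | succ m ih =>
    intro J P hJI hJ hPF hIP hJP
    haveI := hI.1
    have hcomm : ∀ a ∈ I, ∀ b ∈ I, a * b = b * a := fun a ha b hb => by
      simpa using congrArg Subtype.val (mul_comm' (⟨a, ha⟩ : I) ⟨b, hb⟩)
    obtain ⟨j, hjJ, hj1⟩ := (Subgroup.bot_or_exists_ne_one J).resolve_left (fun h => by
      rw [h, Subgroup.card_bot] at hJ
      exact absurd hJ.symm (Nat.one_lt_two_pow (by omega)).ne')
    have hodd : Odd (Nat.card P) := hF.of_dvd_nat (Subgroup.card_dvd_of_le hPF)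
    obtain ⟨K, y, hKI, hjK, hhalf, hyP, hq, hyj, hyK⟩ := exists_line hI hodd hIP (hJI hjJ)
      (fun h => hj1 (Subgroup.mem_bot.mp (hJP.le ⟨hjJ, h⟩)))
    set A : Subgroup S := Subgroup.zpowers y with hAdef
    have hAP : A ≤ P := Subgroup.zpowers_le.mpr hyP
    have hcardA : Nat.card A = orderOf y := Nat.card_zpowers y
    have hIA : I ≤ Subgroup.normalizer (A : Set S) := by
      intro t ht
      refine Cfsg.Agent.Coprime.mem_normalizer_of_conj_mem fun z hz => ?_
      obtain ⟨k, rfl⟩ := Subgroup.mem_zpowers_iff.mp hz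
      rw [← conj_zpow]
      refine zpow_mem ?_ k
      rcases hhalf t ht with h | h
      · rw [hyK t h]; exact Subgroup.mem_zpowers y
      · have h1 := hyK _ h
        have : t * y * t⁻¹ = y⁻¹ := by
          have h2 : t * j * y * (t * j)⁻¹ = t * (j * y * j⁻¹) * t⁻¹ := by group
          rw [h2, hyj] at h1
          calc t * y * t⁻¹ = (t * y⁻¹ * t⁻¹)⁻¹ := by group
            _ = y⁻¹ := by rw [h1]
        rw [this]; exact inv_mem (Subgroup.mem_zpowers y)
    have hy2 : y⁻¹ ≠ y := by
      intro h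
      have h2 : y ^ 2 = 1 := by rw [pow_two]; nth_rewrite 1 [← h]; exact inv_mul_cancel y
      have hd : orderOf y ∣ 2 := orderOf_dvd_of_pow_eq_one h2
      rw [Nat.prime_dvd_prime_iff_eq hq Nat.prime_two] at hd
      have : Odd (orderOf y) := hodd.of_dvd_nat (hcardA ▸ Subgroup.card_dvd_of_le hAP)
      rw [hd] at this
      exact absurd this (by decide)
    have hKA : K ≤ Subgroup.centralizer (A : Set S) := by
      rw [Subgroup.le_centralizer_iff, hAdef, Subgroup.zpowers_le, Subgroup.mem_centralizer_iff]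
      intro k hk
      exact mul_inv_eq_iff_eq_mul.mp (hyK k hk)
    have hCA : ∀ t ∈ I, t ∈ Subgroup.centralizer (A : Set S) → t ∈ K := by
      intro t ht htA
      rcases hhalf t ht with h | h
      · exact h
      · exfalso
        have h1 := hyK _ h
        have h2 : t * j * y * (t * j)⁻¹ = t * (j * y * j⁻¹) * t⁻¹ := by group
        rw [h2, hyj, mul_inv_eq_iff_eq_mul.mpr (Subgroup.mem_centralizer_iff.mp htA y⁻¹
          (inv_mem (Subgroup.mem_zpowers y))).symm] at h1
        exact hy2 h1
    have hsplit : J = (J ⊓ K) ⊔ Subgroup.zpowers j := by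
      refine le_antisymm (fun t ht => ?_) (sup_le inf_le_left (Subgroup.zpowers_le.mpr hjJ))
      rcases hhalf t (hJI ht) with h | h
      · exact le_sup_left (b := Subgroup.zpowers j) ⟨ht, h⟩
      · rw [show t = (t * j) * j⁻¹ by group]
        exact Subgroup.mul_mem_sup ⟨mul_mem ht hjJ, h⟩ (inv_mem (Subgroup.mem_zpowers j))
    have hcardJ : Nat.card (J ⊓ K : Subgroup S) = 2 ^ m := by
      have hd : (J ⊓ K) ⊓ Subgroup.zpowers j = ⊥ := by
        rw [eq_bot_iff]
        rintro t ⟨ht, htj⟩
        rcases mem_zpowers_of_sq (hI.2 j (hJI hjJ)) htj with rfl | rfl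
        · exact one_mem _
        · exact absurd ht.2 hjK
      have hc := Cfsg.Agent.Coprime.card_sup (N := J ⊓ K) (A := Subgroup.zpowers j)
        (Subgroup.zpowers_le.mpr (Cfsg.Agent.Coprime.mem_normalizer_of_conj_mem fun t ht => by
          rw [hcomm j (hJI hjJ) t (hJI ht.1), mul_inv_cancel_right]; exact ht)) hd
      have hj2 : orderOf j = 2 := orderOf_eq_prime (hI.2 j (hJI hjJ)) hj1
      rw [← hsplit, hJ, Nat.card_zpowers, hj2, pow_succ] at hc
      omega
    set P' : Subgroup S := P ⊓ Subgroup.centralizer (A : Set S) with hP'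
    have hIP' : I ≤ Subgroup.normalizer (P' : Set S) := fun t ht =>
      normalizes_inf (hIP ht) (normalizes_centralizer (hIA ht))
    have hfaith : (J ⊓ K) ⊓ Subgroup.centralizer (P' : Set S) = ⊥ := by
      rw [eq_bot_iff]
      rintro t ⟨⟨htJ, htK⟩, htC⟩
      refine hJP.le ⟨htJ, ?_⟩
      have hle : P ≤ P ⊓ Subgroup.centralizer ({t} : Set S) := by
        refine Cfsg.Agent.Coprime.le_of_forall_invariant_sylow fun p hp => ?_
        haveI := Fact.mk hp
        obtain ⟨R⟩ : Nonempty (Sylow p P) := inferInstance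
        refine ⟨(R : Subgroup P).map P.subtype, Subgroup.map_subtype_le _,
          le_inf (Subgroup.map_subtype_le _) ?_, ?_⟩
        swap
        · rw [Subgroup.relIndex, Subgroup.subgroupOf,
            Subgroup.comap_map_eq_self_of_injective P.subtype_injective]
          exact R.not_dvd_index
        have hRle : (R : Subgroup P).map P.subtype ≤ P ⊓ pCore p S :=
          le_inf (Subgroup.map_subtype_le _)
            (pgroup_le_pCore (R.2.map _) ((Subgroup.map_subtype_le _).trans hPF))
        refine hRle.trans ?_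
        set V : Subgroup S := P ⊓ pCore p S with hV
        have hVp : IsPGroup p V :=
          ((Cfsg.Agent.Core.isPGroup_pCore _ S)).to_le inf_le_right
        have hnV : ∀ s, s ∈ Subgroup.normalizer (P : Set S) →
            s ∈ Subgroup.normalizer (V : Set S) := fun s hs => normalizes_inf hs (by
          rw [Subgroup.normalizer_eq_top (H := pCore p S)]; exact Subgroup.mem_top _)
        have hVC : V ⊓ Subgroup.centralizer (A : Set S) ≤ Subgroup.centralizer ({t} : Set S) := by
          intro v hv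
          rw [Subgroup.mem_centralizer_singleton_iff]
          exact Subgroup.mem_centralizer_iff.mp htC v ⟨hv.1.1, hv.2⟩
        by_cases hqp : orderOf y = p
        · have hQ : (Nat.card (Subgroup.zpowers t)).Coprime p := by
            rw [Nat.card_zpowers]
            refine Nat.Coprime.coprime_dvd_left (orderOf_dvd_of_pow_eq_one (hI.2 t (hJI htJ))) ?_
            exact Nat.coprime_two_left.mpr (hqp ▸ hodd.of_dvd_nat (hcardA ▸ Subgroup.card_dvd_of_le hAP))
          haveI : Group.IsSolvable (Subgroup.zpowers t) := inferInstance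
          have hAp : IsPGroup p A := IsPGroup.of_card (n := 1) (by rw [hcardA, hqp, pow_one])
          have h1 : ⁅A, Subgroup.zpowers t⁆ = ⊥ := by
            rw [Subgroup.commutator_eq_bot_iff_le_centralizer, Subgroup.le_centralizer_iff,
              Subgroup.zpowers_le]
            exact hKA htK
          have h2 : ⁅V ⊓ Subgroup.centralizer (A : Set S), Subgroup.zpowers t⁆ = ⊥ := by
            rw [Subgroup.commutator_eq_bot_iff_le_centralizer, Subgroup.zpowers_eq_closure,
              Subgroup.centralizer_closure]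
            exact hVC
          have h3 := Cfsg.Agent.Coprime.commutator_eq_bot_of_PxQ (P := A) (Q := Subgroup.zpowers t)
            hAp hQ h1 _ V rfl hVp (fun s hs => hnV s (Subgroup.le_normalizer (hAP hs)))
            (Subgroup.zpowers_le.mpr (hnV t (hIP (hJI htJ)))) h2
          rw [Subgroup.commutator_eq_bot_iff_le_centralizer, Subgroup.zpowers_eq_closure,
            Subgroup.centralizer_closure] at h3
          exact h3
        · refine le_trans (le_inf le_rfl ?_) hVC
          haveI := Fact.mk hq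
          have hAp : IsPGroup (orderOf y) A := IsPGroup.of_card (n := 1) (by rw [hcardA, pow_one])
          have hAq := pgroup_le_pCore hAp (hAP.trans hPF)
          intro v hv
          rw [Subgroup.mem_centralizer_iff]
          intro a ha
          exact Subgroup.commute_of_normal_of_disjoint (pCore (orderOf y) S) (pCore p S)
            inferInstance inferInstance
            (disjoint_iff.mpr (Subgroup.inf_eq_bot_of_coprime
              (IsPGroup.coprime_card_of_ne (orderOf y) p hqp _ _ (Cfsg.Agent.Core.isPGroup_pCore _ S)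
                (Cfsg.Agent.Core.isPGroup_pCore _ S)))) a v (hAq ha) hv.2
      refine Subgroup.mem_centralizer_iff.mpr fun x hx => ?_
      exact Subgroup.mem_centralizer_singleton_iff.mp (hle hx).2
    obtain ⟨f, hfp, hfP, hfI, hfc, hfcard, hfJ, hfB⟩ := ih (J ⊓ K) P' (inf_le_left.trans hJI)
      hcardJ (inf_le_left.trans hPF) hIP' hfaith
    set B : Subgroup S := ⨆ i, f i with hB
    have hsup : (⨆ i, Fin.cons A f i) = A ⊔ B := by
      refine le_antisymm (iSup_le fun i => ?_) (sup_le ?_ (iSup_le fun i => ?_))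
      · refine Fin.cases ?_ (fun i => ?_) i
        · simp
        · simpa using (le_iSup f i).trans le_sup_right
      · simpa using le_iSup (Fin.cons A f : Fin (m + 1) → Subgroup S) 0
      · simpa using le_iSup (Fin.cons A f : Fin (m + 1) → Subgroup S) i.succ
    have hBA : B ≤ Subgroup.centralizer (A : Set S) := iSup_le fun i => (hfP i).trans inf_le_right
    have hBN : B ≤ Subgroup.normalizer (A : Set S) := hBA.trans fun x hx =>
      Cfsg.Agent.Coprime.mem_normalizer_of_conj_mem fun a ha => by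
        rw [← Subgroup.mem_centralizer_iff.mp hx a ha, mul_inv_cancel_right]; exact ha
    have hAB : A ⊓ B = ⊥ := by
      rw [eq_bot_iff, ← hfB]
      rintro x ⟨hxA, hxB⟩
      exact ⟨hxB, Subgroup.le_centralizer_iff.mp (inf_le_right.trans hKA) hxA⟩
    refine ⟨Fin.cons A f, ?_, ?_, ?_, ?_, ?_, ?_, ?_⟩
    · exact Fin.cases (by simpa [hcardA] using hq) (fun i => by simpa using hfp i)
    · exact Fin.cases (by simpa using hAP) (fun i => by simpa using (hfP i).trans inf_le_left)
    · exact Fin.cases (by simpa using hIA) (fun i => by simpa using hfI i)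
    · intro i k hik
      refine Fin.cases ?_ (fun i => ?_) i k hik <;> intro k hik
      all_goals (revert hik; refine Fin.cases ?_ (fun k => ?_) k)
      · intro h; exact absurd rfl h
      · intro _ a ha b hb
        simp only [Fin.cons_zero, Fin.cons_succ] at ha hb
        exact Subgroup.mem_centralizer_iff.mp ((hfP k).trans inf_le_right hb) a ha
      · intro _ a ha b hb
        simp only [Fin.cons_zero, Fin.cons_succ] at ha hb
        exact (Subgroup.mem_centralizer_iff.mp ((hfP i).trans inf_le_right ha) b hb).symm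
      · intro h a ha b hb
        simp only [Fin.cons_succ] at ha hb
        exact hfc i k (fun h' => h (h' ▸ rfl)) a ha b hb
    · rw [hsup, Cfsg.Agent.Coprime.card_sup hBN hAB, Fin.prod_univ_succ, hfcard]
      simp
    · rw [hsup, eq_bot_iff]
      rintro t ⟨htJ, ht⟩
      rw [← hfJ]
      exact ⟨⟨htJ, hCA t (hJI htJ) (Subgroup.centralizer_le (SetLike.coe_subset_coe.mpr le_sup_left) ht)⟩,
        Subgroup.centralizer_le (SetLike.coe_subset_coe.mpr le_sup_right) ht⟩
    · rw [hsup, eq_bot_iff]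
      rintro x ⟨hx, hxC⟩
      obtain ⟨a, ha, b, hb, rfl⟩ := Cfsg.Agent.Coprime.exists_mul_of_mem_sup hBN hx
      have haK : a ∈ Subgroup.centralizer ((J ⊓ K : Subgroup S) : Set S) :=
        Subgroup.le_centralizer_iff.mp (inf_le_right.trans hKA) ha
      have hab : a * b ∈ Subgroup.centralizer ((J ⊓ K : Subgroup S) : Set S) :=
        Subgroup.centralizer_le (SetLike.coe_subset_coe.mpr inf_le_left) hxC
      have hb1 : b = 1 := by
        rw [← Subgroup.mem_bot, ← hfB]
        refine ⟨hb, ?_⟩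
        have := mul_mem (inv_mem haK) hab
        rwa [inv_mul_cancel_left] at this
      subst hb1
      rw [mul_one] at hxC ⊢
      obtain ⟨k, rfl⟩ := Subgroup.mem_zpowers_iff.mp ha
      have h1 : j * y ^ k * j⁻¹ = y ^ k := by
        rw [Subgroup.mem_centralizer_iff.mp hxC j hjJ, mul_inv_cancel_right]
      rw [← conj_zpow, hyj, inv_zpow] at h1
      have h2 : (y ^ k) ^ 2 = 1 := by
        rw [pow_two]; nth_rewrite 1 [← h1]; exact inv_mul_cancel _
      have hd : orderOf (y ^ k) ∣ 2 := orderOf_dvd_of_pow_eq_one h2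
      have ho : Odd (orderOf (y ^ k)) := hodd.of_dvd_nat (by
        rw [← Nat.card_zpowers]
        exact Subgroup.card_dvd_of_le (Subgroup.zpowers_le.mpr (zpow_mem hyP k)))
      rcases (Nat.dvd_prime Nat.prime_two).mp hd with h | h
      · exact Subgroup.mem_bot.mpr (orderOf_eq_one_iff.mp h)
      · rw [h] at ho; exact absurd ho (by decide)

/-- Let S be a finite solvable group whose Fitting subgroup F(S) has odd order, and let I be an elementary abelian 2-subgroup of S of order 2ⁿ with n ≥ 1. Then F(S) contains subgroups A₁, …, Aₙ of prime order, each normalized by I, pairwise commuting and generating a subgroup A of order |A₁|⋯|Aₙ| (their internal direct product), such that no non-identity element of I centralizes A. -/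
theorem result {S : Type*} [Group S] [Finite S]
    [Group.IsSolvable S] (hF : Odd (Nat.card ↥(Cfsg.fittingSubgroup S)))
    (I : Subgroup S) (hI : Cfsg.IsElementaryAbelian 2 I) (n : ℕ) (hn : 1 ≤ n) (hIn : Nat.card ↥I = 2 ^ n) :
    ∃ f : Fin n → Subgroup S, (∀ i, (Nat.card ↥(f i)).Prime) ∧ (∀ i, f i ≤ Cfsg.fittingSubgroup S) ∧
      (∀ i, I ≤ Subgroup.normalizer ((f i) : Set S)) ∧ (∀ i j, i ≠ j → ∀ a ∈ f i, ∀ b ∈ f j, a * b = b * a) ∧
      Nat.card ↥(⨆ i, f i) = ∏ i, Nat.card ↥(f i) ∧ I ⊓ Subgroup.centralizer ((⨆ i, f i : Subgroup S) : Set S) = ⊥ := by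
  obtain ⟨hc, hsq⟩ := hI
  refine Exists.imp (fun f h => ⟨h.1, h.2.1, h.2.2.1, h.2.2.2.1, h.2.2.2.2.1, h.2.2.2.2.2.1⟩)
    (exists_lines ⟨hc, hsq⟩ hF n I (Cfsg.fittingSubgroup S) le_rfl hIn le_rfl ?_ ?_)
  · rw [Subgroup.normalizer_eq_top (H := Cfsg.fittingSubgroup S)]; exact le_top
  · rw [eq_bot_iff]
    refine le_trans (inf_le_inf_left I Cfsg.Agent.Core.centralizer_fittingSubgroup_le) (le_of_eq ?_)
    refine Subgroup.inf_eq_bot_of_coprime ?_
    rw [hIn]
    exact (Nat.coprime_two_left.mpr hF).pow_left n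

end Cfsg.Agent.S4408
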