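import Cfsg.Statements.S4412
import Cfsg.Agent.FGS4.BroadKlein

set_option autoImplicit false
open Cfsg

namespace Cfsg.Agent.S4412

/-- Let p be an odd prime, P a finite p-group and I an elementary abelian subgroup of order 8 of Aut(P). Call T ∈ I, T ≠ 1, broad when its fixed-point subgroup C_P(T) is not cyclic. Suppose I has a proper subgroup I₀ containing no broad element such that the product of any two broad elements lies in I₀. Then P is abelian of rank exactly 3 (generated by three elements but not by two), there are exactly three broad elements and they generate I, and I₀ is exactly the set of products of two broad elements. -/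
theorem result
    {P : Type*} [Group P] [Finite P] (p : ℕ) (hp : p.Prime) (hp2 : p ≠ 2) (hP : IsPGroup p P)
    (I : Subgroup (MulAut P)) (hI : Cfsg.IsElementaryAbelian 2 I) (hI8 : Nat.card ↥I = 8)
    (I₀ : Subgroup (MulAut P)) (hI₀ : I₀ < I)
    (hdisj : ∀ T ∈ I₀, T ≠ 1 → ∃ g : P, ∀ x : P, (T x = x ↔ x ∈ Subgroup.zpowers g))
    (hprod : ∀ T ∈ I, ∀ T' ∈ I, T ≠ 1 → T' ≠ 1 → (¬ ∃ g : P, ∀ x : P, (T x = x ↔ x ∈ Subgroup.zpowers g)) →
      (¬ ∃ g : P, ∀ x : P, (T' x = x ↔ x ∈ Subgroup.zpowers g)) → T * T' ∈ I₀) :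
    IsMulCommutative P ∧ (∃ a b c : P, Subgroup.closure {a, b, c} = ⊤) ∧ (¬ ∃ a b : P, Subgroup.closure {a, b} = ⊤) ∧
      Nat.card {T : MulAut P // T ∈ I ∧ T ≠ 1 ∧ ¬ ∃ g : P, ∀ x : P, (T x = x ↔ x ∈ Subgroup.zpowers g)} = 3 ∧
      Subgroup.closure {T : MulAut P | T ∈ I ∧ T ≠ 1 ∧ ¬ ∃ g : P, ∀ x : P, (T x = x ↔ x ∈ Subgroup.zpowers g)} = I ∧
      (I₀ : Set (MulAut P)) = {S : MulAut P | ∃ T T' : MulAut P, T ∈ I ∧ T' ∈ I ∧ T ≠ 1 ∧ T' ≠ 1 ∧
        (¬ ∃ g : P, ∀ x : P, (T x = x ↔ x ∈ Subgroup.zpowers g)) ∧ (¬ ∃ g : P, ∀ x : P, (T' x = x ↔ x ∈ Subgroup.zpowers g)) ∧ S = T * T'} := by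
  classical
  haveI := Fact.mk hp
  haveI : Finite (MulAut P) := Finite.of_injective (fun e : MulAut P => (e : P → P)) DFunLike.coe_injective
  obtain ⟨hab, hgen3, hgen2, e₁, e₂, e₃, n12, n13, n23, hbroad, hclos, hI0⟩ :=
    Cfsg.Agent.FGS4.BroadKlein.main hP hp2 I hI hI8 I₀ hI₀
      (fun T hT hT1 h => h (hdisj T hT hT1))
      (fun T hT T' hT' h1 h2 h3 h4 => hprod T hT T' hT' h1 h2 h3 h4)
  have hset : {T : MulAut P | T ∈ I ∧ T ≠ 1 ∧ ¬ ∃ g : P, ∀ x : P, (T x = x ↔ x ∈ Subgroup.zpowers g)} =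
      {e₁, e₂, e₃} := by
    ext T
    exact (hbroad T).trans (by simp)
  obtain ⟨he₁, he₁1, hb1⟩ := (hbroad e₁).2 (Or.inl rfl)
  obtain ⟨he₂, he₂1, hb2⟩ := (hbroad e₂).2 (Or.inr (Or.inl rfl))
  obtain ⟨he₃, he₃1, hb3⟩ := (hbroad e₃).2 (Or.inr (Or.inr rfl))
  have hsq : ∀ T ∈ I, T * T = 1 := fun T hT => by rw [← pow_two]; exact hI.2 T hT
  have hcI : ∀ S ∈ I, ∀ T ∈ I, S * T = T * S := fun S hS T hT => by
    haveI := hI.1
    exact setLike_mul_comm hS hT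
  refine ⟨hab, hgen3, hgen2, ?_, by rw [hset, hclos], ?_⟩
  · show Nat.card ↥({T : MulAut P | T ∈ I ∧ T ≠ 1 ∧ ¬ ∃ g : P, ∀ x : P, (T x = x ↔ x ∈ Subgroup.zpowers g)}) = 3
    rw [hset, Nat.card_coe_set_eq, Set.ncard_eq_three]
    exact ⟨e₁, e₂, e₃, n12, n13, n23, rfl⟩
  · ext T
    rw [SetLike.mem_coe, hI0]
    constructor
    · rintro (rfl | rfl | rfl | rfl)
      · exact ⟨e₁, e₁, he₁, he₁, he₁1, he₁1, hb1, hb1, (hsq _ he₁).symm⟩
      · exact ⟨e₁, e₂, he₁, he₂, he₁1, he₂1, hb1, hb2, rfl⟩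
      · exact ⟨e₁, e₃, he₁, he₃, he₁1, he₃1, hb1, hb3, rfl⟩
      · exact ⟨e₂, e₃, he₂, he₃, he₂1, he₃1, hb2, hb3, rfl⟩
    · rintro ⟨A, B, hA, hB, hA1, hB1, hAb, hBb, rfl⟩
      rcases (hbroad A).1 ⟨hA, hA1, hAb⟩ with rfl | rfl | rfl <;>
        rcases (hbroad B).1 ⟨hB, hB1, hBb⟩ with rfl | rfl | rfl <;>
        first
        | exact Or.inl (hsq _ (by assumption))
        | exact Or.inr (Or.inl rfl)
        | exact Or.inr (Or.inr (Or.inl rfl))
        | exact Or.inr (Or.inr (Or.inr rfl))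
        | exact Or.inr (Or.inl (hcI _ (by assumption) _ (by assumption)))
        | exact Or.inr (Or.inr (Or.inl (hcI _ (by assumption) _ (by assumption))))
        | exact Or.inr (Or.inr (Or.inr (hcI _ (by assumption) _ (by assumption))))

end Cfsg.Agent.S4412
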