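import Cfsg.Statements.S4415
import Cfsg.Agent.CubicModule.Primitive
import Cfsg.Agent.Core.CoprimeAction
import Cfsg.Agent.Core.PiSeparable
import Cfsg.Agent.Linear.AffineTwo

set_option autoImplicit false
set_option linter.unusedSectionVars false
open Cfsg

namespace Cfsg.Agent.S4415

open Module CubicModule
open scoped commutatorElement Pointwise

/-- Let S be a finite solvable group acting faithfully on a finite-dimensional space E over the field with three elements, with O₃(S) = 1. Let B ≤ S have order 3 and suppose: E = E₀ ⊕ E₁ with B fixing E₁ pointwise, E₀ B-invariant of order 27 and indecomposable under B (a generator of B has a single Jordan block on E₀); B normalizes but does not centralize some subgroup Q of S that is elementary abelian of order 4; and B is the centre of a Sylow 3-subgroup of S. Put R = [O_{3'}(S), B]. Then R is elementary abelian of order 4 or extraspecial of order 32 containing an elementary abelian subgroup of order 8 (a central product of two quaternion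 groups), and E is the direct sum of a subspace fixed pointwise by R and an RB-invariant subspace on which the subgroup RB acts faithfully and irreducibly. -/
theorem result {S : Type*} [Group S] [Finite S]
    [Group.IsSolvable S] {E : Type*} [AddCommGroup E] [Module (ZMod 3) E] [Finite E] (ρ : Representation (ZMod 3) S E)
    (hfaith : Function.Injective ρ) (hO3 : Cfsg.pCore 3 S = ⊥)
    (B : Subgroup S) (hB : Nat.card ↥B = 3) (b : S) (hb : Subgroup.zpowers b = B)
    (E₀ E₁ : Submodule (ZMod 3) E) (hE01 : E₀ ⊓ E₁ = ⊥) (hE01' : E₀ ⊔ E₁ = ⊤)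
    (hE1 : ∀ v ∈ E₁, ρ b v = v) (hE0inv : ∀ v ∈ E₀, ρ b v ∈ E₀) (hE0 : Nat.card ↥E₀ = 27)
    (hind : ∃ v ∈ E₀, ρ b (ρ b v - v) - (ρ b v - v) ≠ 0)
    (Q : Subgroup S) (hQ : Cfsg.IsElementaryAbelian 2 Q) (hQ4 : Nat.card ↥Q = 4)
    (hBQ : B ≤ Subgroup.normalizer (Q : Set S)) (hBQ' : ¬ B ≤ Subgroup.centralizer (Q : Set S))
    (P : Sylow 3 S) (hBZ : (Subgroup.center ↥(P : Subgroup S)).map (P : Subgroup S).subtype = B) :
    ((Cfsg.IsElementaryAbelian 2 ⁅Cfsg.pPrimeCore 3 S, B⁆ ∧ Nat.card ↥⁅Cfsg.pPrimeCore 3 S, B⁆ = 4) ∨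
      (Cfsg.IsExtraspecial 2 ↥⁅Cfsg.pPrimeCore 3 S, B⁆ ∧ Nat.card ↥⁅Cfsg.pPrimeCore 3 S, B⁆ = 32 ∧
        ∃ A : Subgroup S, A ≤ ⁅Cfsg.pPrimeCore 3 S, B⁆ ∧ Cfsg.IsElementaryAbelian 2 A ∧ Nat.card ↥A = 8)) ∧
    ∃ F₀ F₁ : Submodule (ZMod 3) E, F₀ ⊓ F₁ = ⊥ ∧ F₀ ⊔ F₁ = ⊤ ∧
      (∀ r ∈ ⁅Cfsg.pPrimeCore 3 S, B⁆, ∀ v ∈ F₁, ρ r v = v) ∧ (∀ r ∈ ⁅Cfsg.pPrimeCore 3 S, B⁆ ⊔ B, ∀ v ∈ F₀, ρ r v ∈ F₀) ∧
      (∀ r ∈ ⁅Cfsg.pPrimeCore 3 S, B⁆ ⊔ B, (∀ v ∈ F₀, ρ r v = v) → r = 1) ∧
      (∀ N : Submodule (ZMod 3) E, N ≤ F₀ → (∀ r ∈ ⁅Cfsg.pPrimeCore 3 S, B⁆ ⊔ B, ∀ v ∈ N, ρ r v ∈ N) → N = ⊥ ∨ N = F₀) := by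
  classical
  haveI := Fintype.ofFinite S
  set W := pPrimeCore 3 S with hWdef
  haveI hWn : W.Normal := Subgroup.sSup_normal _ fun _ h => h.1
  have hbo : orderOf b = 3 := by rw [← Nat.card_zpowers, hb, hB]
  have hb3 : b ^ 3 = 1 := by rw [← hbo, pow_orderOf_eq_one]
  have hbB : b ∈ B := hb ▸ Subgroup.mem_zpowers b
  -- `b` lies in `O_{3',3}(S)`
  let π := QuotientGroup.mk' W
  have hπ : Function.Surjective π := QuotientGroup.mk'_surjective _
  have hbT : π b ∈ pCore 3 (S ⧸ W) := by
    refine Core.centralizer_pCore_le Core.isPSolvable_of_isSolvable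
      (Core.pPrimeCore_quotient_pPrimeCore 3 S) ?_
    intro x hx
    obtain ⟨s, hs, rfl⟩ : x ∈ (P : Subgroup S).map π :=
      Core.pCore_le_sylow (P.mapSurjective hπ) hx
    have hbz : b ∈ (Subgroup.center (P : Subgroup S)).map (P : Subgroup S).subtype := hBZ.symm ▸ hbB
    obtain ⟨⟨b', hb'P⟩, hb'c, rfl⟩ := hbz
    have h := congrArg Subtype.val (Subgroup.mem_center_iff.mp hb'c ⟨s, hs⟩)
    change π s * π b' = π b' * π s
    rw [← map_mul, ← map_mul]
    exact congrArg π h
  -- the four group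
  obtain ⟨x₀, hx₀, hmove⟩ : ∃ x ∈ Q, b * x * b⁻¹ ≠ x := by
    by_contra h
    push Not at h
    refine hBQ' ?_
    rw [← hb, Subgroup.zpowers_le]
    exact fun x hx => (mul_inv_eq_iff_eq_mul.mp (h x hx)).symm
  have hQsq : ∀ x ∈ Q, x * x = 1 := fun x hx => by
    have := hQ.2 x hx; rwa [pow_two] at this
  have hQc : ∀ x ∈ Q, ∀ y ∈ Q, x * y = y * x := fun x hx y hy => by
    haveI := hQ.1
    exact congrArg Subtype.val (mul_comm' (⟨x, hx⟩ : Q) ⟨y, hy⟩)
  have hbconj : ∀ x ∈ Q, b * x * b⁻¹ ∈ Q := fun x hx =>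
    (Subgroup.mem_normalizer_iff.mp (hBQ hbB) x).mp hx
  set c : S → S := fun x => b * x * b⁻¹ with hc
  have hcm : ∀ x y, c (x * y) = c x * c y := fun x y => by simp only [hc]; group
  have hc3 : ∀ x, c (c (c x)) = x := fun x => by
    simp only [hc]
    rw [show b * (b * (b * x * b⁻¹) * b⁻¹) * b⁻¹ = (b * b * b) * x * (b * b * b)⁻¹ by group,
      show b * b * b = 1 by rw [← pow_two, ← pow_succ, hb3], one_mul, inv_one, mul_one]
  set y := x₀ * c x₀ with hy
  have hyQ : y ∈ Q := Q.mul_mem hx₀ (hbconj _ hx₀)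
  have hyW : y ∈ W := by
    have hye : y = ⁅x₀, b⁆ := by
      rw [commutatorElement_def, show x₀ * b * x₀⁻¹ * b⁻¹ = x₀ * (b * x₀⁻¹ * b⁻¹) by group,
        inv_eq_of_mul_eq_one_right (hQsq x₀ hx₀)]
    have hπy : π y ∈ pCore 3 (S ⧸ W) := by
      haveI := (inferInstance : (pCore 3 (S ⧸ W)).Characteristic)
      rw [hye, map_commutatorElement, commutatorElement_def]
      exact mul_mem ((inferInstance : (pCore 3 (S ⧸ W)).Normal).conj_mem _ hbT _) (inv_mem hbT)
    obtain ⟨k, hk⟩ := Core.isPGroup_pCore 3 (S ⧸ W) ⟨π y, hπy⟩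
    have hk' : π y ^ (3 ^ k) = 1 := congrArg Subtype.val hk
    refine (QuotientGroup.eq_one_iff y).mp ?_
    have h2 : π y ^ 2 = 1 := by rw [← map_pow, pow_two, hQsq y hyQ, map_one]
    have hg := pow_gcd_eq_one.mpr ⟨h2, hk'⟩
    rwa [Nat.Coprime.gcd_eq_one (Nat.Coprime.pow_right _ (by norm_num)), pow_one] at hg
  have hymove : c y ≠ y := by
    intro e
    have e1 : c x₀ = x₀ * y := by rw [hy, ← mul_assoc, hQsq x₀ hx₀, one_mul]
    have e2 : c (c x₀) = x₀ := by
      rw [e1, hcm, e, e1, mul_assoc, hQsq y hyQ, mul_one]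
    exact hmove (by
      have := hc3 x₀
      rw [e2] at this
      exact this)
  have hy1 : y ≠ 1 := fun e => hymove (by rw [e]; simp [hc])
  let q : Fin 3 → S := ![y, c y, c (c y)]
  have hqQ : ∀ i, q i ∈ Q := by
    intro i; fin_cases i
    · exact hyQ
    · exact hbconj _ hyQ
    · exact hbconj _ (hbconj _ hyQ)
  have hqc : ∀ i, b * q i * b⁻¹ = q (i + 1) := by
    intro i; fin_cases i
    · rfl
    · rfl
    · exact hc3 y
  have hcinj : Function.Injective c := fun u v h => by simpa [hc] using h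
  have hq1 : ∀ i, q i ≠ 1 := by
    intro i; fin_cases i
    · exact hy1
    · exact fun e => hy1 (hcinj (e.trans (by simp [hc])))
    · exact fun e => hy1 (hcinj (hcinj (e.trans (by simp [hc]))))
  have hqsq : ∀ i, q i * q i = 1 := fun i => hQsq _ (hqQ i)
  have n01 : q 0 ≠ q 1 := fun e => hymove e.symm
  have n12 : q 1 ≠ q 2 := fun e => hymove (hcinj e).symm
  have n02 : q 0 ≠ q 2 := fun e => hymove (by
    have := hc3 y
    rw [show c (c y) = y from e.symm] at this
    exact this)
  have hT : ({1, q 0, q 1, q 2} : Finset S).card = 4 := by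
    simp [(hq1 0).symm, (hq1 1).symm, (hq1 2).symm, n01, n02, n12]
  have hQeq : ({1, q 0, q 1, q 2} : Finset S) = (Set.toFinite (Q : Set S)).toFinset := by
    refine Finset.eq_of_subset_of_card_le ?_ ?_
    · intro x hx
      rw [Set.Finite.mem_toFinset]
      simp only [Finset.mem_insert, Finset.mem_singleton] at hx
      rcases hx with rfl | rfl | rfl | rfl
      · exact Q.one_mem
      all_goals exact hqQ _
    · rw [hT, ← Set.ncard_eq_toFinset_card, ← Nat.card_coe_set_eq]
      exact hQ4.le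
  have h012 : q 0 * q 1 = q 2 := by
    have hm : q 0 * q 1 ∈ ({1, q 0, q 1, q 2} : Finset S) := by
      rw [hQeq, Set.Finite.mem_toFinset]
      exact Q.mul_mem (hqQ 0) (hqQ 1)
    simp only [Finset.mem_insert, Finset.mem_singleton] at hm
    rcases hm with h | h | h | h
    · exact absurd (mul_left_cancel (h.trans (hqsq 0).symm)).symm n01
    · exact absurd (mul_eq_left.mp h) (hq1 1)
    · exact absurd (mul_eq_right.mp h) (hq1 0)
    · exact h
  have h120 : q 1 * q 2 = q 0 := by
    have := congrArg c h012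
    rw [hcm] at this
    exact this.trans (hc3 y)
  have h201 : q 2 * q 0 = q 1 := by
    have := congrArg c h120
    rw [hcm] at this
    calc q 2 * q 0 = c (q 1) * c (q 2) := by
          rw [show c (q 2) = q 0 from hc3 y]; rfl
      _ = q 1 := this
  -- R
  set R := ⁅W, B⁆ with hRdef
  have hRW : R ≤ W := Subgroup.commutator_le_left W B
  have hWcard : (Nat.card W).Coprime 3 := Core.card_pPrimeCore_coprime 3 S
  have hBW : B ≤ Subgroup.normalizer (W : Set S) := by
    rw [Subgroup.normalizer_eq_top_iff.mpr hWn]; exact le_top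
  have hRB : ⁅R, B⁆ = R := Core.commutator_commutator_eq hBW (Or.inr inferInstance)
    (by rw [hB]; exact hWcard.symm)
  have hBR : B ≤ Subgroup.normalizer (R : Set S) := Subgroup.normalizer_commutator_ge_right W B
  have hqR : ∀ i, q i ∈ R := by
    have h2 : q 2 ∈ R := by
      have h : ⁅y, b⁆ ∈ R := Subgroup.commutator_mem_commutator hyW hbB
      rw [commutatorElement_def, show y * b * y⁻¹ * b⁻¹ = y * (b * y⁻¹ * b⁻¹) by group,
        inv_eq_of_mul_eq_one_right (hQsq y hyQ)] at h
      rw [← h012]; exact h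
    have hcR : ∀ x ∈ R, c x ∈ R := fun x hx => (Subgroup.mem_normalizer_iff.mp (hBR hbB) x).mp hx
    have h0 : q 0 ∈ R := by have := hcR _ h2; rwa [show c (q 2) = q 0 from hc3 y] at this
    intro i; fin_cases i
    · exact h0
    · exact hcR _ h0
    · exact h2
  -- the decomposition
  haveI := Fintype.ofFinite R
  set T₀ : Module.End (ZMod 3) E := ∑ r : R, ρ (r : S) with hT₀
  have hcR : ((Nat.card R : ℕ) : ZMod 3) ≠ 0 := fun h =>
    (Nat.prime_three.coprime_iff_not_dvd.mp hWcard.symm)
      (((ZMod.natCast_eq_zero_iff _ 3).mp h).trans (Subgroup.card_dvd_of_le hRW))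
  set F₀ := LinearMap.ker T₀ with hF₀
  set F₁ : Submodule (ZMod 3) E := ⨅ r : R, LinearMap.ker (ρ (r : S) - 1) with hF₁
  have hmem1 : ∀ v, v ∈ F₁ ↔ ∀ r ∈ R, ρ r v = v := by
    intro v
    simp [F₁, Submodule.mem_iInf, sub_eq_zero]
  have hfixT : ∀ r ∈ R, ∀ v, ρ r (T₀ v) = T₀ v := by
    intro r hr v
    simp only [hT₀, LinearMap.sum_apply, map_sum, ← CubicModule.mul_apply']
    exact Fintype.sum_equiv (Equiv.mulLeft (⟨r, hr⟩ : R)) _ _ (fun x => rfl)
  have hT1 : ∀ v ∈ F₁, T₀ v = (Nat.card R : ZMod 3) • v := by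
    intro v hv
    rw [hT₀, LinearMap.sum_apply, Finset.sum_congr rfl (fun (r : R) _ => (hmem1 v).mp hv (r : S) r.2),
      Finset.sum_const, Finset.card_univ, Nat.card_eq_fintype_card, Nat.cast_smul_eq_nsmul]
  have hinf : F₀ ⊓ F₁ = ⊥ := by
    rw [Submodule.eq_bot_iff]
    intro v hv
    have h : T₀ v = 0 := LinearMap.mem_ker.mp hv.1
    rw [hT1 v hv.2] at h
    exact (smul_eq_zero.mp h).resolve_left hcR
  have hsup : F₀ ⊔ F₁ = ⊤ := by
    rw [eq_top_iff]
    intro v _
    set v1 := ((Nat.card R : ZMod 3))⁻¹ • T₀ v with hv1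
    have h1 : v1 ∈ F₁ := Submodule.smul_mem _ _ ((hmem1 _).mpr fun r hr => hfixT r hr v)
    refine Submodule.mem_sup.mpr ⟨v - v1, ?_, v1, h1, sub_add_cancel v v1⟩
    rw [hF₀, LinearMap.mem_ker, map_sub, hT1 v1 h1, hv1, smul_smul, mul_inv_cancel₀ hcR, one_smul,
      sub_self]
  set G : Subgroup S := R ⊔ B with hG
  have hGN : G ≤ Subgroup.normalizer (R : Set S) := sup_le Subgroup.le_normalizer hBR
  have hinv0 : ∀ g ∈ G, ∀ v ∈ F₀, ρ g v ∈ F₀ := by
    intro g hg v hv
    have hcomm : T₀ (ρ g v) = ρ g (T₀ v) := by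
      simp only [hT₀, LinearMap.sum_apply, map_sum, ← CubicModule.mul_apply']
      let e : R ≃ R :=
        { toFun := fun r => ⟨g⁻¹ * (r : S) * g,
            (Subgroup.mem_normalizer_iff''.mp (hGN hg) (r : S)).mp r.2⟩
          invFun := fun r => ⟨g * (r : S) * g⁻¹,
            (Subgroup.mem_normalizer_iff.mp (hGN hg) (r : S)).mp r.2⟩
          left_inv := fun r => Subtype.ext (by group)
          right_inv := fun r => Subtype.ext (by group) }
      refine Fintype.sum_equiv e _ _ (fun r => ?_)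
      change ρ ((r : S) * g) v = ρ (g * (g⁻¹ * (r : S) * g)) v
      simp [mul_assoc]
    rw [hF₀, LinearMap.mem_ker] at hv ⊢
    rw [hcomm, hv, map_zero]
  let τ : Representation (ZMod 3) G F₀ :=
    { toFun := fun g => (ρ (g : S)).restrict (fun v hv => hinv0 g g.2 v hv)
      map_one' := by ext v; simp
      map_mul' := fun g h => by ext v; simp }
  have hτ : ∀ (g : G) (v : F₀), ((τ g v : F₀) : E) = ρ (g : S) (v : E) := fun g v => rfl
  have hfix0 : ∀ v ∈ F₀, (∀ r ∈ R, ρ r v = v) → v = 0 := fun v hv h => by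
    have := Submodule.mem_inf.mpr ⟨hv, (hmem1 v).mpr h⟩
    rwa [hinf, Submodule.mem_bot] at this
  have htrivR : ∀ r ∈ R, (∀ v ∈ F₀, ρ r v = v) → r = 1 := by
    intro r hr h
    refine hfaith ?_
    rw [map_one]
    ext v
    have hv : v ∈ F₀ ⊔ F₁ := hsup ▸ Submodule.mem_top
    obtain ⟨u, hu, w, hw, rfl⟩ := Submodule.mem_sup.mp hv
    rw [map_add, h u hu, (hmem1 w).mp hw r hr]
    rfl
  let bG : G := ⟨b, Subgroup.mem_sup_right hbB⟩
  have hbG3 : bG ^ 3 = 1 := Subtype.ext (by rw [Subgroup.coe_pow]; exact hb3)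
  let R' : Subgroup G := R.subgroupOf G
  haveI hR'n : R'.Normal := by
    refine ⟨fun x hx g => ?_⟩
    exact (Subgroup.mem_normalizer_iff.mp (hGN g.2) x).mp hx
  have hR'B : R' = ⁅R', Subgroup.zpowers bG⁆ := by
    refine Subgroup.map_injective G.subtype_injective ?_
    rw [Subgroup.map_commutator, MonoidHom.map_zpowers, Subgroup.map_subgroupOf_eq_of_le le_sup_left]
    change R = ⁅R, Subgroup.zpowers b⁆
    rw [hb, hRB]
  have hgen : R' ⊔ Subgroup.zpowers bG = ⊤ := by
    refine Subgroup.map_injective G.subtype_injective ?_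
    rw [Subgroup.map_sup, MonoidHom.map_zpowers, Subgroup.map_subgroupOf_eq_of_le le_sup_left,
      ← MonoidHom.range_eq_map, Subgroup.range_subtype]
    change R ⊔ Subgroup.zpowers b = G
    rw [hb]
  have hinj : Function.Injective τ := by
    rw [injective_iff_map_eq_one τ]
    intro g hg
    have hg' : g ∈ ((R' : Set G) * (Subgroup.zpowers bG : Set G)) := by
      rw [← Subgroup.normal_mul, hgen]; trivial
    obtain ⟨r, hr, z, hz, rfl⟩ := Set.mem_mul.mp hg'
    have hker : ∀ s ∈ R', τ s = 1 → s = 1 := by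
      intro s hs h
      refine Subtype.ext (htrivR s hs fun v hv => ?_)
      have := congrArg Subtype.val (LinearMap.congr_fun h ⟨v, hv⟩)
      simpa [hτ] using this
    have hr3 : τ r ^ Nat.card R' = 1 := by
      rw [← map_pow, show r ^ Nat.card R' = 1 from
        congrArg Subtype.val (pow_card_eq_one' (x := (⟨r, hr⟩ : R'))), map_one]
    have hz3 : τ z ^ 3 = 1 := by
      obtain ⟨n, rfl⟩ := Subgroup.mem_zpowers_iff.mp hz
      rw [← map_pow, ← zpow_natCast, ← zpow_mul, mul_comm, zpow_mul, zpow_natCast, hbG3, one_zpow,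
        map_one]
    have hrz : τ r * τ z = 1 := by rw [← map_mul, hg]
    have hzr : τ z * τ r = 1 := by
      have h2 : τ r⁻¹ * τ r = 1 := by rw [← map_mul, inv_mul_cancel, map_one]
      rw [show τ z = τ r⁻¹ from by rw [← one_mul (τ z), ← h2, mul_assoc, hrz, mul_one], h2]
    have hcomm : Commute (τ r) (τ z) := hrz.trans hzr.symm
    have hr33 : τ r ^ 3 = 1 := by
      have := hcomm.mul_pow 3
      rw [hrz, one_pow, hz3, mul_one] at this
      exact this.symm
    have hr1 : τ r = 1 := by
      have hcop : Nat.gcd 3 (Nat.card R') = 1 := by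
        rw [Nat.card_congr (Subgroup.subgroupOfEquivOfLe (le_sup_left : R ≤ G)).toEquiv]
        exact (hWcard.symm.coprime_dvd_right (Subgroup.card_dvd_of_le hRW))
      have := pow_gcd_eq_one.mpr ⟨hr33, hr3⟩
      rwa [hcop, pow_one] at this
    obtain rfl := hker r hr hr1
    rw [one_mul] at hg ⊢
    by_contra hz1
    -- then `b` acts trivially, so `R` does
    obtain ⟨n, rfl⟩ := Subgroup.mem_zpowers_iff.mp hz
    have hbmem : bG ∈ Subgroup.zpowers (bG ^ n) := by
      have hord : orderOf bG = 3 := by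
        rw [← Subgroup.orderOf_coe]; exact hbo
      have hle : Subgroup.zpowers (bG ^ n) ≤ Subgroup.zpowers bG := by
        rw [Subgroup.zpowers_le]; exact Subgroup.zpow_mem _ (Subgroup.mem_zpowers _) n
      have hd := Subgroup.card_dvd_of_le hle
      rw [Nat.card_zpowers bG, hord] at hd
      rcases (Nat.dvd_prime Nat.prime_three).mp hd with h | h
      · exact absurd (Subgroup.zpowers_eq_bot.mp (Subgroup.eq_bot_of_card_eq _ h)) hz1
      · rw [Subgroup.eq_of_le_of_card_ge hle (by rw [h, Nat.card_zpowers, hord])]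
        exact Subgroup.mem_zpowers _
    have hb1 : τ bG = 1 := by
      have hh : Subgroup.zpowers (bG ^ n) ≤ (MonoidHom.toHomUnits τ).ker := by
        rw [Subgroup.zpowers_le, MonoidHom.mem_ker]
        exact Units.ext hg
      exact congrArg Units.val ((MonoidHom.mem_ker).mp (hh hbmem))
    have hR1 : R' ≤ (MonoidHom.toHomUnits τ).ker := by
      rw [hR'B, Subgroup.commutator_le]
      intro s _ t ht
      have ht' : MonoidHom.toHomUnits τ t = 1 := by
        obtain ⟨m, rfl⟩ := Subgroup.mem_zpowers_iff.mp ht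
        rw [map_zpow, show MonoidHom.toHomUnits τ bG = 1 from Units.ext hb1, one_zpow]
      rw [MonoidHom.mem_ker, map_commutatorElement, ht', commutatorElement_one_right]
    have hq : (⟨q 0, Subgroup.mem_sup_left (hqR 0)⟩ : G) ∈ R' := hqR 0
    exact hq1 0 (congrArg Subtype.val (hker _ hq (congrArg Units.val ((MonoidHom.mem_ker).mp (hR1 hq)))))
  -- the rank
  have hrankE : finrank (ZMod 3) (LinearMap.range (ρ b - 1)) ≤ 2 := by
    let f : E₀ →ₗ[ZMod 3] E := (ρ b - 1).comp E₀.subtype
    have hfr : LinearMap.range (ρ b - 1) ≤ LinearMap.range f := by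
      rintro _ ⟨v, rfl⟩
      have hv : v ∈ E₀ ⊔ E₁ := hE01' ▸ Submodule.mem_top
      obtain ⟨u, hu, w, hw, rfl⟩ := Submodule.mem_sup.mp hv
      refine ⟨⟨u, hu⟩, ?_⟩
      simp [f, hE1 w hw]
    have hdim : finrank (ZMod 3) E₀ = 3 := by
      have h := Module.natCard_eq_pow_finrank (K := ZMod 3) (V := E₀)
      rw [hE0, Nat.card_zmod, show (27 : ℕ) = 3 ^ 3 from rfl] at h
      exact (Nat.pow_right_injective (le_refl 2 |>.trans (by norm_num)) h).symm
    have hker : LinearMap.ker f ≠ ⊥ := by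
      obtain ⟨v, hv, hne⟩ := hind
      intro e
      have hm : (⟨_, sub_mem (hE0inv _ (sub_mem (hE0inv v hv) hv)) (sub_mem (hE0inv v hv) hv)⟩ : E₀)
          ∈ LinearMap.ker f := by
        rw [LinearMap.mem_ker]
        change ρ b (ρ b (ρ b v - v) - (ρ b v - v)) - (ρ b (ρ b v - v) - (ρ b v - v)) = 0
        have e3 : ρ b (ρ b (ρ b v)) = v := by
          rw [← CubicModule.mul_apply', ← CubicModule.mul_apply', ← pow_two, ← pow_succ, hb3,
            CubicModule.one_apply']
        simp only [map_sub, e3]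
        have h3 := add3 (ρ b v - ρ b (ρ b v))
        rw [← h3]
        abel
      rw [e, Submodule.mem_bot] at hm
      exact hne (congrArg Subtype.val hm)
    have h1 := LinearMap.finrank_range_add_finrank_ker f
    have h2 : 0 < finrank (ZMod 3) (LinearMap.ker f) :=
      Nat.pos_of_ne_zero fun e => hker (Submodule.finrank_eq_zero.mp e)
    have h3 := Submodule.finrank_mono hfr
    omega
  have hrank : finrank (ZMod 3) (LinearMap.range (τ bG - 1)) ≤ 2 := by
    refine le_trans (le_of_eq ?_) ((Submodule.finrank_mono (t := LinearMap.range (ρ b - 1))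
      (s := (LinearMap.range (τ bG - 1)).map F₀.subtype) ?_).trans hrankE)
    · exact (LinearEquiv.finrank_eq (Submodule.equivMapOfInjective _ F₀.subtype_injective _))
    · rintro _ ⟨_, ⟨v, rfl⟩, rfl⟩
      exact ⟨v, by simp [hτ, bG]⟩
  let D : QData τ :=
    { inj := hinj
      b := bG
      b3 := hbG3
      rank := hrank
      q := fun i => ⟨q i, Subgroup.mem_sup_left (hqR i)⟩
      q_ne := fun i e => hq1 i (congrArg Subtype.val e)
      q_sq := fun i => Subtype.ext (hqsq i)
      q_mul := fun i => Subtype.ext (by fin_cases i; exacts [h012, h120, h201])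
      q_comm := fun i j => Subtype.ext (hQc _ (hqQ i) _ (hqQ j))
      q_conj := fun i => Subtype.ext (hqc i) }
  have hirr : ∀ M : Submodule (ZMod 3) F₀, (∀ g, ∀ v ∈ M, τ g v ∈ M) → M = ⊥ ∨ M = ⊤ := by
    intro M hM
    by_cases hQM : ∀ i, ∀ v ∈ M, τ (D.q i) v = v
    · left
      rw [Submodule.eq_bot_iff]
      intro v hv
      have hbM : ∀ u ∈ M, τ bG u = u := by
        intro u hu
        refine sub_eq_zero.mp (D.eq_zero_of_fixed (D.range_b_le ⟨u, rfl⟩) fun i => ?_)
        exact hQM i _ (sub_mem (hM _ u hu) hu)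
      let K : Subgroup G :=
        { carrier := {g | ∀ u ∈ M, τ g u = u}
          one_mem' := fun u _ => CubicModule.one_apply' u
          mul_mem' := fun {g h} hg hh u hu => by rw [CubicModule.mul_apply', hh u hu, hg u hu]
          inv_mem' := fun {g} hg u hu => by
            conv_lhs => rw [← hg u hu]
            rw [← CubicModule.mul_apply', inv_mul_cancel, CubicModule.one_apply'] }
      have hKn : ∀ g, ∀ k ∈ K, g * k * g⁻¹ ∈ K := by
        intro g k hk u hu
        rw [CubicModule.mul_apply', CubicModule.mul_apply', hk _ (hM _ u hu),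
          ← CubicModule.mul_apply', mul_inv_cancel, CubicModule.one_apply']
      have hRK : R' ≤ K := by
        rw [hR'B, Subgroup.commutator_le]
        intro s _ t ht
        have htK : t ∈ K := by
          have : Subgroup.zpowers bG ≤ K := by rw [Subgroup.zpowers_le]; exact hbM
          exact this ht
        rw [commutatorElement_def]
        exact K.mul_mem (hKn s t htK) (K.inv_mem htK)
      refine Subtype.ext (hfix0 v v.2 fun r hr => ?_)
      exact congrArg Subtype.val (hRK (x := ⟨r, Subgroup.mem_sup_left hr⟩) hr v hv)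
    · right
      push Not at hQM
      obtain ⟨i, v, hv, hne⟩ := hQM
      set w := τ (D.q i) v - v with hw
      have hwM : w ∈ M := sub_mem (hM _ v hv) hv
      have hwneg : τ (D.q i) w = -w := by rw [hw, map_sub, D.apply_sq, neg_sub]
      obtain ⟨h1, h2⟩ := D.decomp i hwneg
      have hgen1 : ∀ j, ∀ u ∈ D.N j, u ≠ 0 → u ∈ M → D.N j ≤ M := by
        intro j u hu hu0 huM z hz
        obtain ⟨k, hk⟩ := exists_smul_eq_of_finrank_eq_one (D.finrank_N j)
          (x := (⟨u, hu⟩ : D.N j)) (fun e => hu0 (congrArg Subtype.val e)) ⟨z, hz⟩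
        rw [show z = k • u from (congrArg Subtype.val hk).symm]
        exact M.smul_mem k huM
      obtain ⟨j, hj⟩ : ∃ j, D.N j ≤ M := by
        by_cases ha : w + τ (D.q (i + 1)) w = 0
        · refine ⟨i + 2, hgen1 _ _ h2 ?_ (sub_mem hwM (hM _ w hwM))⟩
          intro hb'
          refine hne ?_
          have hw0 : w = 0 := by
            refine eq_zero_of_neg_eq (neg_eq_of_add_eq_zero_left ?_)
            rw [show w + w = (w + τ (D.q (i + 1)) w) + (w - τ (D.q (i + 1)) w) by abel, ha, hb',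
              add_zero]
          exact sub_eq_zero.mp hw0
        · exact ⟨i + 1, hgen1 _ _ h1 ha (add_mem hwM (hM _ w hwM))⟩
      have hnext : ∀ j, D.N j ≤ M → D.N (j + 1) ≤ M := by
        intro j hj
        obtain ⟨u, hu, hu0⟩ := D.exists_gen j
        refine hgen1 (j + 1) _ (D.b_N hu) (fun e => hu0 ?_) (hM _ u (hj hu))
        rw [← D.b_cube_apply u, e, map_zero, map_zero]
      have hall : D.N 0 ⊔ D.N 1 ⊔ D.N 2 ≤ M := by
        have a1 := hnext j hj
        have a2 := hnext _ a1
        rw [f11] at a2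
        have hcases : ∀ k, D.N k ≤ M := fun k => by
          rcases QData.fin3_cases j k with rfl | rfl | rfl <;> assumption
        exact sup_le (sup_le (hcases 0) (hcases 1)) (hcases 2)
      rw [eq_top_iff]
      intro u _
      let K : Subgroup G :=
        { carrier := {g | ∀ z, τ g z - z ∈ M}
          one_mem' := fun z => by rw [CubicModule.one_apply', sub_self]; exact M.zero_mem
          mul_mem' := fun {g h} hg hh z => by
            rw [CubicModule.mul_apply', ← sub_add_sub_cancel _ (τ h z)]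
            exact add_mem (hg _) (hh z)
          inv_mem' := fun {g} hg z => by
            have := neg_mem (hg (τ g⁻¹ z))
            rwa [← CubicModule.mul_apply', mul_inv_cancel, CubicModule.one_apply', neg_sub] at this }
      have hKn : ∀ g, ∀ k ∈ K, g * k * g⁻¹ ∈ K := by
        intro g k hk z
        have h := hM g _ (hk (τ g⁻¹ z))
        rwa [map_sub, ← CubicModule.mul_apply', ← CubicModule.mul_apply', ← CubicModule.mul_apply',
          mul_inv_cancel, CubicModule.one_apply'] at h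
      have hRK : R' ≤ K := by
        rw [hR'B, Subgroup.commutator_le]
        intro s _ t ht
        have htK : t ∈ K := by
          have : Subgroup.zpowers bG ≤ K := by
            rw [Subgroup.zpowers_le]
            exact fun z => hall (D.range_b_le ⟨z, rfl⟩)
          exact this ht
        rw [commutatorElement_def]
        exact K.mul_mem (hKn s t htK) (K.inv_mem htK)
      have hsum : (∑ r : R, (τ ⟨r, Subgroup.mem_sup_left r.2⟩ u - u)) = -((Nat.card R : ZMod 3) • u) := by
        rw [Finset.sum_sub_distrib, Finset.sum_const, Finset.card_univ, ← Nat.card_eq_fintype_card,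
          Nat.cast_smul_eq_nsmul]
        have h0 : (∑ r : R, τ ⟨r, Subgroup.mem_sup_left r.2⟩ u) = 0 := by
          refine Subtype.ext ?_
          have := LinearMap.mem_ker.mp u.2
          rw [hT₀, LinearMap.sum_apply] at this
          simpa [hτ] using this
        rw [h0, zero_sub]
      have hmemS : -((Nat.card R : ZMod 3) • u) ∈ M := hsum ▸ Submodule.sum_mem _ fun r _ =>
        hRK (x := ⟨r, Subgroup.mem_sup_left r.2⟩) r.2 u
      have := M.smul_mem ((Nat.card R : ZMod 3))⁻¹ (neg_mem_iff.mp hmemS)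
      rwa [inv_smul_smul₀ hcR] at this
  have hcardR' : Nat.card R' = Nat.card R :=
    Nat.card_congr (Subgroup.subgroupOfEquivOfLe le_sup_left).toEquiv
  let St : Setup τ :=
    { D with
      R := R'
      normal := hR'n
      cop := by rw [hcardR']; exact hWcard.coprime_dvd_left (Subgroup.card_dvd_of_le hRW)
      solv := inferInstance
      gen := hgen
      comm := hR'B
      q_mem := hqR
      irr := hirr }
  have hEA : ∀ A : Subgroup G, IsElementaryAbelian 2 A → IsElementaryAbelian 2 (A.map G.subtype) := by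
    rintro A ⟨h1, h2⟩
    refine ⟨⟨⟨fun x y => ?_⟩⟩, ?_⟩
    · obtain ⟨a, ha, hax⟩ := x.2
      obtain ⟨a', ha', hay⟩ := y.2
      haveI := h1
      refine Subtype.ext ?_
      rw [Subgroup.coe_mul, Subgroup.coe_mul, ← hax, ← hay, ← map_mul, ← map_mul]
      exact congrArg G.subtype (congrArg Subtype.val (mul_comm' (⟨a, ha⟩ : A) ⟨a', ha'⟩))
    · rintro _ ⟨a, ha, rfl⟩
      rw [← map_pow, h2 a ha, map_one]
  have hmapR : R'.map G.subtype = R := Subgroup.map_subgroupOf_eq_of_le le_sup_left
  refine ⟨?_, F₀, F₁, hinf, hsup, fun r hr v hv => (hmem1 v).mp hv r hr, hinv0, ?_, ?_⟩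
  · rcases St.concl with ⟨h1, h2⟩ | ⟨h1, h2, A, hA, hA2, hA8⟩
    · left
      exact ⟨hmapR ▸ hEA _ h1, hcardR' ▸ h2⟩
    · right
      refine ⟨Linear.AffineTwo.isExtraspecial_congr (Subgroup.subgroupOfEquivOfLe le_sup_left) h1, hcardR' ▸ h2,
        A.map G.subtype, ?_, hEA A hA2, ?_⟩
      · exact (Subgroup.map_mono hA).trans hmapR.le
      · rw [Subgroup.card_map_of_injective G.subtype_injective, hA8]
  · intro r hr h
    have : (⟨r, hr⟩ : G) = 1 := hinj (by
      rw [map_one]
      refine LinearMap.ext fun v => Subtype.ext ?_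
      exact h v v.2)
    exact congrArg Subtype.val this
  · intro N hN hinvN
    rcases hirr (N.comap F₀.subtype) (fun g v hv => hinvN g g.2 v hv) with h | h
    · left
      rw [Submodule.eq_bot_iff]
      intro v hv
      have : (⟨v, hN hv⟩ : F₀) ∈ N.comap F₀.subtype := hv
      rw [h, Submodule.mem_bot] at this
      exact congrArg Subtype.val this
    · right
      refine le_antisymm hN fun v hv => ?_
      have : (⟨v, hv⟩ : F₀) ∈ N.comap F₀.subtype := h ▸ Submodule.mem_top
      exact this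

end Cfsg.Agent.S4415
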