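import Cfsg.Statements.S4420


set_option autoImplicit false
open Cfsg

namespace Cfsg.Agent.S4420

/-- Structure of groups in which every element outside some proper subgroup has square 1. Let H be a finite group with a proper subgroup A such that every element outside A has square 1. Then H has an abelian normal subgroup B of index 2 such that every element outside B is an involution inverting every element of B; and if H is not an elementary abelian 2-group, B is the only abelian normal subgroup of index 2 with this property. -/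
theorem result {H : Type*} [Group H] [Finite H] (A : Subgroup H) (hA : A ≠ ⊤) (hD : ∀ x : H, x ∉ A → x ^ 2 = 1) :
    ∃ B : Subgroup H, B.Normal ∧ IsMulCommutative ↥B ∧ B.index = 2 ∧
      (∀ x : H, x ∉ B → x ^ 2 = 1 ∧ ∀ b ∈ B, x * b * x⁻¹ = b⁻¹) ∧
      (¬ (IsMulCommutative H ∧ ∀ x : H, x ^ 2 = 1) →
        ∀ B' : Subgroup H, B'.Normal → IsMulCommutative ↥B' → B'.index = 2 →
          (∀ x : H, x ∉ B' → x ^ 2 = 1 ∧ ∀ b ∈ B', x * b * x⁻¹ = b⁻¹) → B' = B) := by
  classical
  -- elements outside A invert A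
  have hinv : ∀ x ∉ A, ∀ a ∈ A, x * a * x⁻¹ = a⁻¹ := by
    intro x hx a ha
    have h1 := hD (x * a) (fun h => hx (by simpa using A.mul_mem h (A.inv_mem ha)))
    have h2 := hD x hx
    rw [pow_two] at h1 h2
    have hxi : x⁻¹ = x := inv_eq_of_mul_eq_one_right h2
    rw [hxi, eq_inv_iff_mul_eq_one]
    calc x * a * x * a = (x * a) * (x * a) := by group
      _ = 1 := h1
  obtain ⟨x₀, hx₀⟩ : ∃ x, x ∉ A := by
    by_contra h
    push Not at h
    exact hA ((Subgroup.eq_top_iff' A).mpr h)
  have hAc : IsMulCommutative ↥A := ⟨⟨fun a b => Subtype.ext (by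
    have h := hinv x₀ hx₀ (a * b) (A.mul_mem a.2 b.2)
    have ha := hinv x₀ hx₀ a a.2
    have hb := hinv x₀ hx₀ b b.2
    have : x₀ * ((a : H) * b) * x₀⁻¹ = (x₀ * a * x₀⁻¹) * (x₀ * b * x₀⁻¹) := by group
    rw [h, ha, hb] at this
    simpa using congrArg (·⁻¹) this)⟩⟩
  by_cases hall : ∀ x : H, x ^ 2 = 1
  · have hcm : ∀ a b : H, a * b = b * a := by
      intro a b
      have h := hall (a * b)
      rw [pow_two] at h
      have ha : a⁻¹ = a := inv_eq_of_mul_eq_one_right (by simpa [pow_two] using hall a)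
      have hb : b⁻¹ = b := inv_eq_of_mul_eq_one_right (by simpa [pow_two] using hall b)
      calc a * b = (a * b)⁻¹ := (inv_eq_of_mul_eq_one_right h).symm
        _ = b * a := by rw [mul_inv_rev, ha, hb]
    obtain ⟨B, hB, -⟩ := (eq_top_or_exists_le_coatom A).resolve_left hA
    have hBn : B.Normal := ⟨fun n hn g => by rw [hcm g n, mul_inv_cancel_right]; exact hn⟩
    have hidx : B.index = 2 := by
      obtain ⟨z, -, hz⟩ := SetLike.exists_of_lt hB.lt_top
      rw [Subgroup.index_eq_two_iff]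
      refine ⟨z, fun b => ?_⟩
      have htop : B ⊔ Subgroup.zpowers z = ⊤ := hB.2 _ (left_lt_sup.mpr (fun h => hz (h (Subgroup.mem_zpowers z))))
      have hzz : z * z = 1 := by simpa [pow_two] using hall z
      by_cases hb : b ∈ B
      · exact Or.inr ⟨hb, fun h => hz (by simpa using B.mul_mem (B.inv_mem hb) h)⟩
      · refine Or.inl ⟨?_, hb⟩
        have hbm : b ∈ B ⊔ Subgroup.zpowers z := htop ▸ Subgroup.mem_top b
        rw [← SetLike.mem_coe, Subgroup.normal_mul] at hbm
        obtain ⟨u, hu, v, hv, huv⟩ := hbm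
        dsimp only at huv
        obtain ⟨j, hj⟩ := Subgroup.mem_zpowers_iff.mp hv
        rcases Int.even_or_odd j with ⟨i, hi⟩ | ⟨i, hi⟩
        · refine absurd ?_ hb
          rw [← huv, ← hj, hi, ← two_mul, zpow_mul, zpow_two, hzz, one_zpow, mul_one]; exact hu
        · rw [← huv, ← hj, hi, zpow_add, zpow_mul, zpow_two, hzz, one_zpow, one_mul, zpow_one,
            mul_assoc, hzz, mul_one]
          exact hu
    refine ⟨B, hBn, ⟨⟨fun a b => Subtype.ext (hcm a b)⟩⟩, hidx, fun x _ => ⟨hall x, fun b _ => ?_⟩,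
      fun hne => absurd ⟨⟨⟨hcm⟩⟩, hall⟩ hne⟩
    rw [hcm x b, mul_inv_cancel_right]
    exact (inv_eq_of_mul_eq_one_right (by simpa [pow_two] using hall b)).symm
  · push Not at hall
    obtain ⟨a₀, ha₀⟩ := hall
    have ha₀A : a₀ ∈ A := by_contra fun h => ha₀ (hD a₀ h)
    have hout : ∀ x ∉ A, ∀ y ∉ A, x * y ∈ A := by
      intro x hx y hy
      by_contra hxy
      apply ha₀
      have h1 := hinv (x * y) hxy a₀ ha₀A
      have h2 := hinv y hy a₀ ha₀A
      have h3 := hinv x hx a₀⁻¹ (A.inv_mem ha₀A)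
      have h4 : x * y * a₀ * (x * y)⁻¹ = x * (y * a₀ * y⁻¹) * x⁻¹ := by group
      rw [h2, h3, h1, inv_inv] at h4
      rw [pow_two, ← inv_eq_iff_mul_eq_one, h4]
    have hAidx : A.index = 2 := by
      rw [Subgroup.index_eq_two_iff]
      refine ⟨x₀, fun b => ?_⟩
      by_cases hb : b ∈ A
      · exact Or.inr ⟨hb, fun h => hx₀ (by simpa using A.mul_mem (A.inv_mem hb) h)⟩
      · exact Or.inl ⟨hout b hb x₀ hx₀, hb⟩
    refine ⟨A, Subgroup.normal_of_index_eq_two hAidx, hAc, hAidx,
      fun x hx => ⟨hD x hx, hinv x hx⟩, fun _ B hBn hBc hB2 hBinv => ?_⟩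
    have ha₀B : a₀ ∈ B := by_contra fun h => ha₀ (hBinv a₀ h).1
    have hle : B ≤ A := by
      intro x hx
      by_contra hxA
      apply ha₀
      have h1 := hinv x hxA a₀ ha₀A
      have h2 : x * a₀ = a₀ * x := congrArg Subtype.val (hBc.is_comm.comm (⟨x, hx⟩ : B) ⟨a₀, ha₀B⟩)
      rw [h2, mul_inv_cancel_right] at h1
      rw [pow_two]
      exact mul_eq_one_iff_eq_inv.mpr h1
    exact Subgroup.eq_of_le_of_card_ge hle (by
      have h1 := B.card_mul_index
      have h2 := A.card_mul_index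
      rw [hB2] at h1; rw [hAidx] at h2; omega)

end Cfsg.Agent.S4420
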