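import Cfsg.Statements.S4501
import Cfsg.Agent.Blocks.ThreePrimeSmall.Three
import Cfsg.Agent.Blocks.ThreePrimeSmall.Four
import Cfsg.Agent.S0494
import Cfsg.Agent.OddChar.Simple168
import Cfsg.Agent.Linear.Card
-- import your own Cfsg.Agent.* helpers here

set_option autoImplicit false
open Cfsg Cfsg.Agent

namespace Cfsg.Agent.S4501

/-- Let G be a non-abelian finite simple group and p, q distinct primes. If the order of G is 4·p^a·q^b with a ≤ 2, then G is isomorphic to the alternating group of degree 5. If the order of G is 3·p^a·q^b with a ≤ 2, then G is isomorphic to the alternating group of degree 5 or to PSL(2,7). -/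
theorem result {G : Type*} [Group G] [Finite G] [IsSimpleGroup G] (hna : ∃ x y : G, x * y ≠ y * x) (p q a b : ℕ) (hp : p.Prime) (hq : q.Prime) (hpq : p ≠ q) (ha : a ≤ 2) : (Nat.card G = 4 * p ^ a * q ^ b → Nonempty (G ≃* alternatingGroup (Fin 5))) ∧ (Nat.card G = 3 * p ^ a * q ^ b → Nonempty (G ≃* alternatingGroup (Fin 5)) ∨ Nonempty (G ≃* Matrix.ProjectiveSpecialLinearGroup (Fin 2) (ZMod 7))) := by
  classical
  haveI := Fintype.ofFinite G
  have hc : ¬ IsMulCommutative G := fun h => by
    obtain ⟨x, y, hxy⟩ := hna
    exact hxy (h.1.1 x y)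
  have sixty : Nat.card G = 60 → Nonempty (G ≃* alternatingGroup (Fin 5)) := fun h =>
    S0494.result h
  refine ⟨fun h => sixty (Blocks.ThreePrimeSmall.card_four hc hp hq hpq ha h), fun h => ?_⟩
  have key : Nat.card G = 60 ∨ Nat.card G = 168 := by
    have hp3 : p ≠ 3 := by
      rintro rfl
      exact Blocks.ThreePrimeSmall.false_of_two_primes hc (a + 1) b hp hq (by rw [h]; ring)
    have hq3 : q ≠ 3 := by
      rintro rfl
      exact Blocks.ThreePrimeSmall.false_of_two_primes hc (b + 1) a hq hp (by rw [h]; ring)
    have hodd : 2 ∣ Nat.card G := by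
      by_contra h2
      haveI := Fact.mk Nat.prime_three
      have h3 : 3 ∣ Nat.card G := by rw [h, mul_assoc]; exact dvd_mul_right _ _
      have hmin : (Nat.card G).minFac = 3 := by
        have hle := Nat.minFac_le_of_dvd (by norm_num) h3
        have hge := (Nat.minFac_prime (n := Nat.card G) (fun h1 => by rw [h1] at h3; norm_num at h3)).two_le
        rcases (show (Nat.card G).minFac = 2 ∨ (Nat.card G).minFac = 3 by omega) with e | e
        · exact absurd (e ▸ Nat.minFac_dvd (Nat.card G)) h2
        · exact e
      obtain ⟨P⟩ := (inferInstance : Nonempty (Sylow 3 G))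
      refine SmallOrder.not_isCyclic_minFac hc hmin P (isCyclic_of_prime_card (p := 3) ?_)
      rw [Sylow.card_eq_multiplicity, h,
        Nat.factorization_mul (mul_ne_zero (by norm_num) (pow_ne_zero _ hp.ne_zero)) (pow_ne_zero _ hq.ne_zero),
        Nat.factorization_mul (by norm_num) (pow_ne_zero _ hp.ne_zero)]
      simp [Nat.factorization_pow, Nat.prime_three.factorization_self, hp.factorization,
        hq.factorization, Ne.symm hp3, Ne.symm hq3]
    rcases eq_or_ne p 2 with rfl | hp2
    · rcases (show a = 0 ∨ a = 1 ∨ a = 2 by omega) with rfl | rfl | rfl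
      · exact (Blocks.ThreePrimeSmall.false_of_two_primes hc 1 b Nat.prime_three hq (by rw [h]; ring)).elim
      · exfalso
        haveI := Fact.mk Nat.prime_two
        obtain ⟨P⟩ := (inferInstance : Nonempty (Sylow 2 G))
        refine SmallOrder.not_isCyclic_minFac hc (by rw [Nat.minFac_eq_two_iff]; exact hodd) P
          (isCyclic_of_prime_card (p := 2) ?_)
        rw [Sylow.card_eq_multiplicity, h,
          Nat.factorization_mul (by norm_num) (pow_ne_zero _ hq.ne_zero),
          Nat.factorization_mul (by norm_num) (by norm_num)]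
        simp [Nat.factorization_pow, Nat.prime_two.factorization_self, Nat.prime_three.factorization,
          hq.factorization, hpq, Ne.symm hpq]
      · exact Or.inl (Blocks.ThreePrimeSmall.card_four hc (a := 1) (b := b) Nat.prime_three hq
          (Ne.symm hq3) (by norm_num) (by rw [h]; ring))
    · have hq2 : q = 2 := by
        rw [h, mul_assoc] at hodd
        rcases (Nat.Prime.dvd_mul Nat.prime_two).1 hodd with e | e
        · norm_num at e
        rcases (Nat.Prime.dvd_mul Nat.prime_two).1 e with e | e
        · exact absurd ((Nat.prime_dvd_prime_iff_eq Nat.prime_two hp).1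
            (Nat.prime_two.dvd_of_dvd_pow e)).symm hp2
        · exact ((Nat.prime_dvd_prime_iff_eq Nat.prime_two hq).1
            (Nat.prime_two.dvd_of_dvd_pow e)).symm
      subst hq2
      have hp5 : 5 ≤ p := by
        have := hp.two_le
        rcases Nat.lt_or_ge p 5 with h5 | h5
        · obtain rfl : p = 4 := by omega
          norm_num at hp
        · exact h5
      exact Blocks.ThreePrimeSmall.card_three hc (a := b) hp hp5 ha (by rw [h]; ring)
  rcases key with h60 | h168
  · exact Or.inl (sixty h60)
  · haveI : Fact (Nat.Prime 7) := ⟨by norm_num⟩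
    have hc168 : Nat.card (Matrix.ProjectiveSpecialLinearGroup (Fin 2) (ZMod 7)) = 168 := by
      have h2 := Linear.card_PSL_two (F := ZMod 7)
      rw [ZMod.card] at h2
      simp only [show Nat.gcd 2 (7 - 1) = 2 by decide, show 7 * (7 ^ 2 - 1) = 336 by norm_num] at h2
      omega
    haveI : IsSimpleGroup (Matrix.ProjectiveSpecialLinearGroup (Fin 2) (ZMod 7)) :=
      Matrix.ProjectiveSpecialLinearGroup.rank_two_simple
        (by rw [Nat.card_eq_fintype_card, ZMod.card]; norm_num)
    obtain ⟨e₁⟩ := OddChar.Simple168.equiv_model h168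
    obtain ⟨e₂⟩ := OddChar.Simple168.equiv_model hc168
    exact Or.inr ⟨e₁.trans e₂.symm⟩

end Cfsg.Agent.S4501
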