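import Cfsg.Statements.S4517
import Cfsg.Agent.Chars2.RealFull

set_option autoImplicit false
open Cfsg

namespace Cfsg.Agent.S4517

/-- Let G be a finite group, M a maximal ideal of the algebraic integers containing 2, and k a natural number coprime to the order of G with g ^ k = g⁻¹ for every element g of odd order (so that g ↦ g ^ k induces a field automorphism of the character values inverting the roots of unity of odd order). If B is a 2-block of full defect (its defect equals the exponent of 2 in the order of G) that is stable under χ ↦ χ ∘ (· ^ k), then B is the principal 2-block. -/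
theorem result {G : Type*} [Group G] [Finite G] (M : Ideal Cfsg.AlgInt) (hM : Cfsg.IsPModular 2 M) (k : ℕ) (hk : Nat.Coprime k (Nat.card G)) (hk₂ : ∀ g : G, Odd (orderOf g) → g ^ k = g⁻¹) (B : Set (Cfsg.IrrCharacter G)) (hB : Cfsg.IsPBlock M B) (hdef : Cfsg.blockDefect 2 B = (Nat.card G).factorization 2) (hstab : ∀ χ ∈ B, ∃ ψ ∈ B, ∀ g : G, (ψ : G → ℂ) g = (χ : G → ℂ) (g ^ k)) : B = Cfsg.principalBlock M G := by
  classical
  haveI := Fintype.ofFinite G
  haveI := hM.2.1
  obtain ⟨χ, hχ, hodd⟩ := Chars2.exists_odd_of_full_defect hB hdef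
  obtain ⟨ψ, hψ, hval⟩ := hstab χ hχ
  have h1 : χ ∈ Cfsg.principalBlock M G := by
    refine Chars2.mem_principal_of_real_regular hM.2.2 χ hodd fun g hg => ?_
    have hg' : g ^ k = g⁻¹ := hk₂ g (Nat.not_even_iff_odd.1 (fun h => hg (even_iff_two_dvd.1 h)))
    have h := Blocks.sameBlock_of_mem hB hψ hχ g
    have e : Cfsg.centralChar (ψ : G → ℂ) g = Cfsg.centralChar (χ : G → ℂ) g⁻¹ := by
      rw [Cfsg.centralChar, Cfsg.centralChar, hval g, hval 1, one_pow, hg',
        Blocks.centralizer_inv_singleton]
    rwa [e] at h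
  exact Blocks.blocks_eq_of_inter hB Blocks.isPBlock_principal hχ h1

end Cfsg.Agent.S4517
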