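import Cfsg.Statements.S4518
import Cfsg.Agent.Chars2.Clifford
import Cfsg.Agent.S1493

set_option autoImplicit false
open Cfsg

namespace Cfsg.Agent.S4518

/-- Let N be a normal subgroup of the finite group G whose index is not divisible by the prime p, and let k be coprime to the order of G with k ^ (p ^ e) ≡ 1 modulo the order of G for some e (so g ↦ g ^ k induces a field automorphism of p-power order on character values). If an irreducible character χ of G satisfies χ (g ^ k) = χ g for all g, then every irreducible constituent θ of the restriction of χ to N satisfies θ (n ^ k) = θ n for all n. -/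
theorem result {G : Type*} [Group G] [Fintype G] (p : ℕ) [Fact p.Prime] (N : Subgroup G) [N.Normal] [Fintype N] (hidx : ¬ p ∣ N.index) (k e : ℕ) (hk : Nat.Coprime k (Nat.card G)) (hke : k ^ (p ^ e) ≡ 1 [MOD Nat.card G]) (χ : Cfsg.IrrCharacter G) (hχ : ∀ g : G, (χ : G → ℂ) (g ^ k) = (χ : G → ℂ) g) (θ : Cfsg.IrrCharacter N) (hθ : Cfsg.classInner (fun n : N => (χ : G → ℂ) n) (θ : N → ℂ) ≠ 0) : ∀ n : N, (θ : N → ℂ) (n ^ k) = (θ : N → ℂ) n := by
  classical
  have hχc := Chars.isClassFunction_irr χ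
  have hχirr := χ.2
  have hkN : Nat.Coprime k (Nat.card N) := hk.coprime_dvd_right N.card_subgroup_dvd_card
  have hσex : ∀ ψ : Cfsg.IrrCharacter N, ∃ ψ' : Cfsg.IrrCharacter N,
      ∀ n : N, (ψ' : N → ℂ) n = (ψ : N → ℂ) (n ^ k) := by
    intro ψ
    obtain ⟨χ', -, h2, h3, -⟩ := S1493.result (G := N) (Nat.card N) 1 k (mul_one _).symm
      (Nat.coprime_one_right _) hkN ψ (Chars.isCharacter_of_isIrr ψ.2)
    exact ⟨⟨χ', h2 ψ.2⟩, fun n => h3 n (orderOf_dvd_natCard n)⟩
  choose s hs using hσex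
  have hkeq : ∀ n : N, ∀ j : ℕ, j ≡ 1 [MOD Nat.card G] → n ^ j = n := fun n j hj => by
    have := hj.of_dvd ((orderOf_dvd_natCard n).trans N.card_subgroup_dvd_card)
    rw [← pow_eq_pow_iff_modEq, pow_one] at this
    exact this
  have hiter : ∀ (j : ℕ) (ψ : Cfsg.IrrCharacter N) (n : N),
      (s^[j] ψ : N → ℂ) n = (ψ : N → ℂ) (n ^ k ^ j) := by
    intro j
    induction j with
    | zero => intro ψ n; simp
    | succ j ih =>
      intro ψ n
      rw [Function.iterate_succ_apply', hs, ih, ← pow_mul, pow_succ']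
  have hper : ∀ ψ, s^[p ^ e] ψ = ψ := fun ψ =>
    Subtype.ext (funext fun n => by rw [hiter, hkeq n _ hke])
  let σ : Equiv.Perm (Cfsg.IrrCharacter N) := ⟨s, s^[p ^ e - 1], fun ψ => by
      rw [← Function.iterate_succ_apply, show (p ^ e - 1).succ = p ^ e from
        Nat.succ_pred_eq_of_pos (pow_pos (Fact.out : p.Prime).pos e)]
      exact hper ψ, fun ψ => by
      rw [← Function.iterate_succ_apply' s, show (p ^ e - 1).succ = p ^ e from
        Nat.succ_pred_eq_of_pos (pow_pos (Fact.out : p.Prime).pos e)]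
      exact hper ψ⟩
  set S := Chars2.orbitFinset θ.2 with hSdef
  have hcomm : ∀ (ψ : Cfsg.IrrCharacter N) (g : G) (n : N),
      (ψ : N → ℂ) (MulAut.conjNormal g⁻¹ (n ^ k)) = (ψ : N → ℂ) ((MulAut.conjNormal g⁻¹ n) ^ k) :=
    fun ψ g n => by rw [map_pow]
  have hmem : ∀ ψ, ψ ∈ S → s ψ ∈ S := by
    intro ψ hψ
    obtain ⟨g, hg⟩ := (Chars2.mem_orbitFinset θ.2).1 hψ
    have h1 : Cfsg.classInner (fun n : N => (χ : G → ℂ) n) (ψ : N → ℂ) ≠ 0 := by
      rw [← hg, Chars2.classInner_restrict_conjFun hχc]; exact hθ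
    have hbij : Function.Bijective (fun n : N => n ^ k) := (powCoprime hkN.symm).bijective
    have h2 : Cfsg.classInner (fun n : N => (χ : G → ℂ) n) (s ψ : N → ℂ) =
        Cfsg.classInner (fun n : N => (χ : G → ℂ) n) (ψ : N → ℂ) := by
      simp only [Cfsg.classInner]
      congr 1
      refine Fintype.sum_equiv (Equiv.ofBijective _ hbij) _ _ fun n => ?_
      simp only [Equiv.ofBijective_apply, hs, SubmonoidClass.coe_pow]
      rw [hχ]
    obtain ⟨g', hg'⟩ := Chars2.clifford_constituent hχirr θ.2 hθ (s ψ).2 (by rw [h2]; exact h1)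
    exact (Chars2.mem_orbitFinset θ.2).2 ⟨g', hg'.symm⟩
  have hmemσ : ∀ ψ, σ ψ ∈ S ↔ ψ ∈ S := fun ψ => ⟨fun h => by
    have h3 : ∀ j, s^[j] (σ ψ) ∈ S := fun j => by
      induction j with
      | zero => exact h
      | succ j ih => rw [Function.iterate_succ_apply']; exact hmem _ ih
    have h4 := h3 (p ^ e - 1)
    rwa [show s^[p ^ e - 1] (σ ψ) = ψ from σ.left_inv ψ] at h4, hmem ψ⟩
  let τ : Equiv.Perm S := σ.subtypePerm hmemσ
  have hτ : τ ^ (p ^ e) = 1 := by
    ext ⟨ψ, hψ⟩ : 1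
    have h5 : ∀ j, ((τ ^ j) ⟨ψ, hψ⟩).1 = s^[j] ψ := fun j => by
      induction j with
      | zero => rfl
      | succ j ih =>
        rw [pow_succ', Equiv.Perm.mul_apply, Function.iterate_succ_apply', ← ih]
        rfl
    exact Subtype.ext ((h5 _).trans (hper ψ))
  have hdvd : (Chars2.inertiaSub (θ : N → ℂ)).index ∣ N.index :=
    Subgroup.index_dvd_of_le (Chars2.le_inertiaSub (Chars.isClassFunction_irr θ))
  obtain ⟨⟨ψ₀, hψ₀⟩, hfix⟩ := τ.exists_fixed_point_of_prime (p := p)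
    (by rw [Fintype.card_coe, hSdef, Chars2.card_orbitFinset]; exact fun h => hidx (h.trans hdvd))
    hτ
  have hfix' : s ψ₀ = ψ₀ := congrArg Subtype.val hfix
  obtain ⟨g, hg⟩ := (Chars2.mem_orbitFinset θ.2).1 hψ₀
  intro n
  have h6 := hs ψ₀ (MulAut.conjNormal g n)
  rw [hfix', ← hg] at h6
  simp only [Chars2.conjFun, ← map_pow] at h6
  simp only [← MulAut.mul_apply, ← map_mul, inv_mul_cancel, map_one, MulAut.one_apply] at h6
  exact h6.symm

end Cfsg.Agent.S4518
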