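import Cfsg.Statements.S4539
import Cfsg.Agent.Blocks.MajorRankTwo
-- import your own Cfsg.Agent.* helpers here

set_option autoImplicit false
open Cfsg

namespace Cfsg.Agent.S4539

/-- Let B be a p-block of the finite group G (relative to a maximal ideal M of the algebraic integers containing p) of defect d with defect group D. Let z be an element of D commuting with every element of D, and let b be a block of the centralizer C of z with defect group D that induces B (a major subsection (z, b)). If b has p-regular rank at most two, then B contains at most p ^ d irreducible characters. -/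
theorem result {G : Type*} [Group G] [Finite G] (p : ℕ) [Fact p.Prime] (M : Ideal Cfsg.AlgInt) (hM : Cfsg.IsPModular p M) (B : Set (Cfsg.IrrCharacter G)) (hB : Cfsg.IsPBlock M B) (D : Subgroup G) (hD : Cfsg.IsDefectGroup p M B D) (z : G) (hzD : z ∈ D) (hzc : ∀ d ∈ D, d * z = z * d) (b : Set (Cfsg.IrrCharacter ↥(Subgroup.centralizer ({z} : Set G)))) (hb : Cfsg.IsInducedBlock M (Subgroup.centralizer ({z} : Set G)) b B) (hbD : Cfsg.IsDefectGroup p M b (D.subgroupOf (Subgroup.centralizer ({z} : Set G)))) (hl : Cfsg.blockRank p b ≤ 2) : Nat.card B ≤ p ^ Cfsg.blockDefect p B := by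
  classical
  haveI := Fintype.ofFinite G
  haveI := Fintype.ofFinite (Subgroup.centralizer ({z} : Set G))
  obtain ⟨-, hmax, hpM⟩ := hM
  haveI := hmax
  have hDH : D ≤ Subgroup.centralizer ({z} : Set G) := fun x hx =>
    Subgroup.mem_centralizer_singleton_iff.2 (hzc x hx)
  have hd : Cfsg.blockDefect p b = Cfsg.blockDefect p B := by
    have h1 := Cfsg.Agent.Blocks.card_defectGroup hpM hb.1 hbD
    rw [Nat.card_congr (Subgroup.subgroupOfEquivOfLe hDH).toEquiv,
      Cfsg.Agent.Blocks.card_defectGroup hpM hB hD] at h1
    exact (Nat.pow_right_injective (Fact.out : p.Prime).two_le h1).symm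
  have hy : ∃ k : ℕ, orderOf z = p ^ k := by
    have hc := Cfsg.Agent.Blocks.card_defectGroup hpM hB hD
    have hdvd : orderOf z ∣ p ^ Cfsg.blockDefect p B := by
      rw [← hc, ← Subgroup.orderOf_mk (H := D) z hzD]
      exact orderOf_dvd_natCard _
    obtain ⟨k, -, hk⟩ := (Nat.dvd_prime_pow (Fact.out : p.Prime)).1 hdvd
    exact ⟨k, hk⟩
  exact Cfsg.Agent.Blocks.card_le_of_rank_le_two hpM rfl hy hb hd hl

end Cfsg.Agent.S4539
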