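import Cfsg.Statements.S4560
import Cfsg.Agent.Chars.Gen
import Cfsg.Agent.Linear.Unipotent.Orbits
import Mathlib

set_option autoImplicit false
open Cfsg

namespace Cfsg.Agent.S4560

open scoped ComplexConjugate Pointwise

section FixedChar

/-- The fixed-point count of a transitive action is a character. -/
theorem isCharacter_fixed {G X : Type*} [Group G] [Fintype G] [MulAction G X]
    [MulAction.IsPretransitive G X] [Nonempty X] :
    IsCharacter G (fun g => (Nat.card (MulAction.fixedBy X g) : ℂ)) := by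
  obtain ⟨x⟩ := ‹Nonempty X›
  let φ : G ⧸ MulAction.stabilizer G x ≃ X :=
    Equiv.ofBijective (MulAction.ofQuotientStabilizer G x)
      ⟨MulAction.injective_ofQuotientStabilizer G x, fun y => by
        obtain ⟨g, rfl⟩ := MulAction.exists_smul_eq G x y
        exact ⟨QuotientGroup.mk g, MulAction.ofQuotientStabilizer_mk G x g⟩⟩
  have h : (fun g => (Nat.card (MulAction.fixedBy X g) : ℂ)) =
      fixedPointCharacter (MulAction.stabilizer G x) := by
    funext g
    rw [fixedPointCharacter]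
    congr 1
    refine (Nat.card_congr (φ.subtypeEquiv fun q => ?_)).symm
    rw [MulAction.mem_fixedBy, MulAction.mem_fixedBy]
    show g • q = q ↔ g • MulAction.ofQuotientStabilizer G x q = MulAction.ofQuotientStabilizer G x q
    rw [← MulAction.ofQuotientStabilizer_smul]
    exact φ.injective.eq_iff.symm
  rw [h]
  exact Cfsg.Agent.Linear.Unipotent.isCharacter_fixedPointCharacter _

end FixedChar

variable {n : ℕ}

/-- The fixed points. -/
abbrev Fx (g : Equiv.Perm (Fin n)) : Type := {a : Fin n // g a = a}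

/-- The points lying in transpositions. -/
abbrev Sw (g : Equiv.Perm (Fin n)) : Type := {a : Fin n // g a ≠ a ∧ g (g a) = a}

/-- The number of fixed points. -/
noncomputable def nf (g : Equiv.Perm (Fin n)) : ℕ := Fintype.card (Fx g)

/-- The number of points in transpositions. -/
noncomputable def ns (g : Equiv.Perm (Fin n)) : ℕ := Fintype.card (Sw g)

/-- Tuples moved by `g` as prescribed by `σ`. -/
noncomputable def emb (k : ℕ) (σ : Equiv.Perm (Fin k)) (g : Equiv.Perm (Fin n)) : ℕ :=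
  Fintype.card {e : Fin k ↪ Fin n // ∀ i, g (e i) = e (σ i)}

/-- Transitivity on injective tuples of length at most four. -/
def Trans4 {G : Type*} [Group G] (φ : G →* Equiv.Perm (Fin n)) : Prop :=
  ∀ k ≤ 4, ∀ e e' : Fin k ↪ Fin n, ∃ g, ∀ i, φ g (e i) = e' i

theorem sum_emb {G : Type*} [Group G] [Fintype G] (φ : G →* Equiv.Perm (Fin n)) (h4 : Trans4 φ)
    {k : ℕ} (hk : k ≤ 4) (hkn : k ≤ n) (σ : Equiv.Perm (Fin k)) :
    ∑ g : G, emb k σ (φ g) = Fintype.card G := by
  classical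
  letI : MulAction G (Fin k ↪ Fin n) :=
  { smul := fun g e => e.trans (φ g).toEmbedding
    one_smul := fun e => by
      ext i
      show ((φ 1) (e i) : ℕ) = (e i : ℕ)
      rw [map_one]; rfl
    mul_smul := fun a b e => by
      ext i
      show ((φ (a * b)) (e i) : ℕ) = (φ a (φ b (e i)) : ℕ)
      rw [map_mul]; rfl }
  haveI : MulAction.IsPretransitive G (Fin k ↪ Fin n) := ⟨fun e e' => by
    obtain ⟨g, hg⟩ := h4 k hk e e'
    exact ⟨g, Function.Embedding.ext hg⟩⟩
  have hfib : ∀ e e' : Fin k ↪ Fin n,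
      Fintype.card {g : G // g • e = e'} * Fintype.card (Fin k ↪ Fin n) = Fintype.card G := by
    intro e e'
    obtain ⟨g₀, rfl⟩ := MulAction.exists_smul_eq G e e'
    have h1 : Fintype.card {g : G // g • e = g₀ • e} = Fintype.card (MulAction.stabilizer G e) := by
      apply Fintype.card_congr
      refine (Equiv.mulLeft g₀⁻¹).subtypeEquiv fun g => ?_
      rw [MulAction.mem_stabilizer_iff, Equiv.coe_mulLeft, mul_smul, inv_smul_eq_iff]
    have h2 := (MulAction.stabilizer G e).card_mul_index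
    rw [MulAction.index_stabilizer_of_transitive, Nat.card_eq_fintype_card,
      Nat.card_eq_fintype_card, Nat.card_eq_fintype_card] at h2
    rw [h1]; exact h2
  have key : ∀ g : G, emb k σ (φ g) =
      ∑ e : Fin k ↪ Fin n, if g • e = σ.toEmbedding.trans e then 1 else 0 := by
    intro g
    rw [Finset.sum_boole, Nat.cast_id, emb, Fintype.card_subtype]
    congr 1
    ext e
    simp only [Finset.mem_filter, Finset.mem_univ, true_and]
    exact ⟨fun h => Function.Embedding.ext h, fun h i => congrArg (fun f : Fin k ↪ Fin n => f i) h⟩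
  simp only [key]
  rw [Finset.sum_comm]
  obtain ⟨e₀⟩ : Nonempty (Fin k ↪ Fin n) := ⟨Fin.castLEEmb hkn⟩
  have hc : ∀ e : Fin k ↪ Fin n, (∑ g : G, if g • e = σ.toEmbedding.trans e then 1 else 0) =
      Fintype.card {g : G // g • e₀ = e₀} := by
    intro e
    rw [Finset.sum_boole, Nat.cast_id, ← Fintype.card_subtype]
    apply Nat.eq_of_mul_eq_mul_right (Fintype.card_pos (α := Fin k ↪ Fin n) (h := ⟨e₀⟩))
    rw [hfib, hfib]
  rw [Finset.sum_congr rfl fun e _ => hc e, Finset.sum_const, smul_eq_mul, Finset.card_univ,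
    mul_comm]
  exact hfib e₀ e₀

theorem emb_one (k : ℕ) (g : Equiv.Perm (Fin n)) : emb k 1 g = (nf g).descFactorial k := by
  rw [show (nf g).descFactorial k = Fintype.card (Fin k ↪ Fx g) by
    rw [Fintype.card_embedding_eq, Fintype.card_fin, nf], emb]
  exact Fintype.card_congr
    { toFun := fun e => ⟨fun i => ⟨e.1 i, e.2 i⟩, fun i j h => e.1.injective (congrArg Subtype.val h)⟩
      invFun := fun e => ⟨e.trans (Function.Embedding.subtype _), fun i => (e i).2⟩
      left_inv := fun e => rfl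
      right_inv := fun e => rfl }

theorem Sw.swap_mem {g : Equiv.Perm (Fin n)} (a : Sw g) : g (g a.1) ≠ g a.1 ∧ g (g (g a.1)) = g a.1 :=
  ⟨fun h => a.2.1 (g.injective h), by rw [a.2.2]⟩

theorem emb_swap2 (g : Equiv.Perm (Fin n)) : emb 2 (Equiv.swap 0 1) g = ns g := by
  refine Fintype.card_congr
    { toFun := fun e => ⟨e.1 0, ?_, ?_⟩
      invFun := fun a => ⟨⟨![a.1, g a.1], ?_⟩, ?_⟩
      left_inv := ?_
      right_inv := fun a => rfl }
  · rw [e.2 0]; exact fun h => absurd (e.1.injective h) (by decide)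
  · rw [e.2 0, Equiv.swap_apply_left, e.2 1, Equiv.swap_apply_right]
  · intro i j h
    fin_cases i <;> fin_cases j <;>
      first
      | rfl
      | exact absurd h a.2.1
      | exact absurd h.symm a.2.1
  · intro i
    fin_cases i
    · rfl
    · exact a.2.2
  · intro e
    apply Subtype.ext
    apply Function.Embedding.ext
    intro i
    fin_cases i
    · rfl
    · exact e.2 0

theorem emb_swap3 (g : Equiv.Perm (Fin n)) : emb 3 (Equiv.swap 0 1) g = ns g * nf g := by
  rw [ns, nf, ← Fintype.card_prod]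
  refine Fintype.card_congr
    { toFun := fun e => (⟨e.1 0, ?_, ?_⟩, ⟨e.1 2, ?_⟩)
      invFun := fun a => ⟨⟨![a.1.1, g a.1.1, a.2.1], ?_⟩, ?_⟩
      left_inv := ?_
      right_inv := fun a => rfl }
  · rw [e.2 0]; exact fun h => absurd (e.1.injective h) (by decide)
  · rw [e.2 0, Equiv.swap_apply_left, e.2 1, Equiv.swap_apply_right]
  · rw [e.2 2]; congr 1
  · intro i j h
    have h1 := a.1.2.1
    have h2 : a.1.1 ≠ a.2.1 := fun hh => h1 (by rw [hh]; exact a.2.2)
    have h3 : g a.1.1 ≠ a.2.1 := fun hh => h2 (g.injective (hh.trans a.2.2.symm))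
    fin_cases i <;> fin_cases j <;>
      first
      | rfl
      | exact absurd h h1
      | exact absurd h.symm h1
      | exact absurd h h2
      | exact absurd h.symm h2
      | exact absurd h h3
      | exact absurd h.symm h3
  · intro i
    fin_cases i
    · rfl
    · exact a.1.2.2
    · exact a.2.2
  · intro e
    apply Subtype.ext
    apply Function.Embedding.ext
    intro i
    fin_cases i
    · rfl
    · exact e.2 0
    · rfl

theorem emb_swap4 (g : Equiv.Perm (Fin n)) :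
    emb 4 (Equiv.swap 0 1) g = ns g * (nf g).descFactorial 2 := by
  rw [← emb_one, ns, emb, emb, ← Fintype.card_prod]
  refine Fintype.card_congr
    { toFun := fun e => (⟨e.1 0, ?_, ?_⟩, ⟨⟨![e.1 2, e.1 3], ?_⟩, ?_⟩)
      invFun := fun a => ⟨⟨![a.1.1, g a.1.1, a.2.1 0, a.2.1 1], ?_⟩, ?_⟩
      left_inv := ?_
      right_inv := ?_ }
  · rw [e.2 0]; exact fun h => absurd (e.1.injective h) (by decide)
  · rw [e.2 0, Equiv.swap_apply_left, e.2 1, Equiv.swap_apply_right]
  · intro i j h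
    fin_cases i <;> fin_cases j <;>
      first
      | rfl
      | exact absurd (e.1.injective h) (by decide)
  · intro i
    fin_cases i
    · exact e.2 2
    · exact e.2 3
  · intro i j h
    have h1 := a.1.2.1
    have h2 : ∀ l, a.1.1 ≠ a.2.1 l := fun l hh => h1 (by rw [hh]; exact a.2.2 l)
    have h3 : ∀ l, g a.1.1 ≠ a.2.1 l := fun l hh => h2 l (g.injective (hh.trans (a.2.2 l).symm))
    fin_cases i <;> fin_cases j <;>
      first
      | rfl
      | exact absurd h h1
      | exact absurd h.symm h1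
      | exact absurd h (h2 _)
      | exact absurd h.symm (h2 _)
      | exact absurd h (h3 _)
      | exact absurd h.symm (h3 _)
      | exact absurd (a.2.1.injective h) (by decide)
  · intro i
    fin_cases i
    · rfl
    · exact a.1.2.2
    · exact a.2.2 0
    · exact a.2.2 1
  · intro e
    apply Subtype.ext
    apply Function.Embedding.ext
    intro i
    fin_cases i
    · rfl
    · exact e.2 0
    · rfl
    · rfl
  · intro a
    refine Prod.ext rfl (Subtype.ext (Function.Embedding.ext fun i => ?_))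
    fin_cases i <;> rfl

theorem emb_swap_swap (g : Equiv.Perm (Fin n)) :
    emb 4 (Equiv.swap 0 1 * Equiv.swap 2 3) g = ns g * (ns g - 2) := by
  have h : ∀ a : Sw g, Fintype.card {b : Sw g // b.1 ≠ a.1 ∧ b.1 ≠ g a.1} = ns g - 2 := by
    intro a
    rw [ns, Fintype.card_subtype]
    have : (Finset.univ.filter fun b : Sw g => b.1 ≠ a.1 ∧ b.1 ≠ g a.1) =
        Finset.univ \ {a, ⟨g a.1, a.swap_mem⟩} := by
      ext b; simp [Subtype.ext_iff]
    rw [this, Finset.card_sdiff_of_subset (Finset.subset_univ _), Finset.card_univ,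
      Finset.card_pair (fun h => a.2.1 (congrArg Subtype.val h).symm)]
  have hs : Fintype.card (Σ a : Sw g, {b : Sw g // b.1 ≠ a.1 ∧ b.1 ≠ g a.1}) = ns g * (ns g - 2) := by
    rw [Fintype.card_sigma, Finset.sum_congr rfl fun a _ => h a, Finset.sum_const, smul_eq_mul]
    rfl
  rw [← hs]
  refine Fintype.card_congr
    { toFun := fun e => ⟨⟨e.1 0, ?_, ?_⟩, ⟨⟨e.1 2, ?_, ?_⟩, ?_, ?_⟩⟩
      invFun := fun a => ⟨⟨![a.1.1, g a.1.1, a.2.1.1, g a.2.1.1], ?_⟩, ?_⟩
      left_inv := ?_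
      right_inv := fun a => rfl }
  · rw [e.2 0]; exact fun h => absurd (e.1.injective h) (by decide)
  · rw [e.2 0]
    exact e.2 _
  · rw [e.2 2]; exact fun h => absurd (e.1.injective h) (by decide)
  · rw [e.2 2]
    exact e.2 _
  · exact fun h => absurd (e.1.injective h) (by decide)
  · show e.1 2 ≠ g (e.1 0)
    rw [e.2 0]; exact fun h => absurd (e.1.injective h) (by decide)
  · intro i j h
    have h1 := a.1.2.1
    have h2 := a.2.1.2.1
    have h3 := a.2.2.1
    have h4 := a.2.2.2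
    have h5 : g a.2.1.1 ≠ g a.1.1 := fun hh => h3 (g.injective hh)
    have h6 : g a.2.1.1 ≠ a.1.1 := fun hh => h4 (a.2.1.2.2.symm.trans (congrArg g hh))
    fin_cases i <;> fin_cases j <;>
      first
      | rfl
      | exact absurd h h1
      | exact absurd h.symm h1
      | exact absurd h h2
      | exact absurd h.symm h2
      | exact absurd h h3
      | exact absurd h.symm h3
      | exact absurd h h4
      | exact absurd h.symm h4
      | exact absurd h h5
      | exact absurd h.symm h5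
      | exact absurd h h6
      | exact absurd h.symm h6
  · intro i
    fin_cases i
    · rfl
    · exact a.1.2.2
    · rfl
    · exact a.2.1.2.2
  · intro e
    apply Subtype.ext
    apply Function.Embedding.ext
    intro i
    fin_cases i
    · rfl
    · exact e.2 0
    · rfl
    · exact e.2 2

theorem cast_descFactorial_succ (a k : ℕ) :
    ((a.descFactorial (k + 1) : ℕ) : ℂ) = ((a : ℂ) - k) * (a.descFactorial k : ℂ) := by
  rw [Nat.descFactorial_succ]
  rcases le_or_gt k a with h | h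
  · rw [Nat.cast_mul, Nat.cast_sub h]
  · rw [Nat.sub_eq_zero_of_le h.le, Nat.descFactorial_eq_zero_iff_lt.mpr h]
    simp

theorem cast_ns_sub_two (g : Equiv.Perm (Fin n)) :
    ((ns g * (ns g - 2) : ℕ) : ℂ) = (ns g : ℂ) * ((ns g : ℂ) - 2) := by
  rcases Nat.eq_zero_or_pos (ns g) with h | h
  · simp [h]
  · have h2 : 2 ≤ ns g := by
      obtain ⟨a⟩ := Fintype.card_pos_iff.mp h
      exact Fintype.one_lt_card_iff.mpr
        ⟨a, ⟨g a.1, a.swap_mem⟩, fun hh => a.2.1 (congrArg Subtype.val hh).symm⟩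
    push_cast [Nat.cast_sub h2]
    ring

theorem df1 (a : ℕ) : ((a.descFactorial 1 : ℕ) : ℂ) = (a : ℂ) := by
  rw [Nat.descFactorial_one]

theorem df2 (a : ℕ) : ((a.descFactorial 2 : ℕ) : ℂ) = ((a : ℂ) - 1) * a := by
  have h := cast_descFactorial_succ a 1
  rw [df1] at h
  exact h.trans (by push_cast; ring)

theorem df3 (a : ℕ) : ((a.descFactorial 3 : ℕ) : ℂ) = ((a : ℂ) - 2) * (((a : ℂ) - 1) * a) := by
  have h := cast_descFactorial_succ a 2
  rw [df2] at h
  exact h.trans (by push_cast; ring)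

theorem df4 (a : ℕ) :
    ((a.descFactorial 4 : ℕ) : ℂ) = ((a : ℂ) - 3) * (((a : ℂ) - 2) * (((a : ℂ) - 1) * a)) := by
  have h := cast_descFactorial_succ a 3
  rw [df3] at h
  exact h.trans (by push_cast; ring)

section Moments

variable {G : Type*} [Group G] [Fintype G] (φ : G →* Equiv.Perm (Fin n))

theorem moments (h4 : Trans4 φ) (hn : 4 ≤ n) :
    (∑ g : G, (nf (φ g) : ℂ) = Fintype.card G) ∧
    (∑ g : G, (nf (φ g) : ℂ) ^ 2 = 2 * Fintype.card G) ∧
    (∑ g : G, (nf (φ g) : ℂ) ^ 3 = 5 * Fintype.card G) ∧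
    (∑ g : G, (nf (φ g) : ℂ) ^ 4 = 15 * Fintype.card G) ∧
    (∑ g : G, (ns (φ g) : ℂ) = Fintype.card G) ∧
    (∑ g : G, (ns (φ g) : ℂ) * nf (φ g) = Fintype.card G) ∧
    (∑ g : G, (ns (φ g) : ℂ) * (nf (φ g) : ℂ) ^ 2 = 2 * Fintype.card G) ∧
    (∑ g : G, (ns (φ g) : ℂ) ^ 2 = 3 * Fintype.card G) := by
  have E : ∀ (k : ℕ), k ≤ 4 → ∀ σ : Equiv.Perm (Fin k),
      ∑ g : G, (emb k σ (φ g) : ℂ) = Fintype.card G := fun k hk σ => by
    rw [← Nat.cast_sum, sum_emb φ h4 hk (hk.trans hn) σ]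
  have A := E 1 (by omega) 1
  have B := E 2 (by omega) 1
  have C := E 3 (by omega) 1
  have D := E 4 le_rfl 1
  have S := E 2 (by omega) (Equiv.swap 0 1)
  have SF := E 3 (by omega) (Equiv.swap 0 1)
  have SFF := E 4 le_rfl (Equiv.swap 0 1)
  have SS := E 4 le_rfl (Equiv.swap 0 1 * Equiv.swap 2 3)
  simp only [emb_one, emb_swap2, emb_swap3, emb_swap4, emb_swap_swap, cast_ns_sub_two] at A B C D S SF SFF SS
  simp only [Nat.cast_mul, df1, df2, df3, df4] at A B C D S SF SFF SS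
  replace B : (∑ g : G, (nf (φ g) : ℂ) ^ 2) - ∑ g : G, (nf (φ g) : ℂ) = Fintype.card G := by
    rw [← B, ← Finset.sum_sub_distrib]
    exact Finset.sum_congr rfl fun g _ => by ring
  replace C : (∑ g : G, (nf (φ g) : ℂ) ^ 3) - 3 * ∑ g : G, (nf (φ g) : ℂ) ^ 2
      + 2 * ∑ g : G, (nf (φ g) : ℂ) = Fintype.card G := by
    rw [← C, Finset.mul_sum, Finset.mul_sum, ← Finset.sum_sub_distrib, ← Finset.sum_add_distrib]
    exact Finset.sum_congr rfl fun g _ => by ring
  replace D : (∑ g : G, (nf (φ g) : ℂ) ^ 4) - 6 * (∑ g : G, (nf (φ g) : ℂ) ^ 3)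
      + 11 * (∑ g : G, (nf (φ g) : ℂ) ^ 2) - 6 * ∑ g : G, (nf (φ g) : ℂ) = Fintype.card G := by
    rw [← D, Finset.mul_sum, Finset.mul_sum, Finset.mul_sum, ← Finset.sum_sub_distrib,
      ← Finset.sum_add_distrib, ← Finset.sum_sub_distrib]
    exact Finset.sum_congr rfl fun g _ => by ring
  replace SFF : (∑ g : G, (ns (φ g) : ℂ) * (nf (φ g) : ℂ) ^ 2)
      - ∑ g : G, (ns (φ g) : ℂ) * nf (φ g) = Fintype.card G := by
    rw [← SFF, ← Finset.sum_sub_distrib]
    exact Finset.sum_congr rfl fun g _ => by ring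
  replace SS : (∑ g : G, (ns (φ g) : ℂ) ^ 2) - 2 * ∑ g : G, (ns (φ g) : ℂ) = Fintype.card G := by
    rw [← SS, Finset.mul_sum, ← Finset.sum_sub_distrib]
    exact Finset.sum_congr rfl fun g _ => by ring
  refine ⟨A, ?_, ?_, ?_, S, SF, ?_, ?_⟩
  · linear_combination B + A
  · linear_combination C + 3 * B + A
  · linear_combination D + 6 * C + 7 * B + A
  · linear_combination SFF + SF
  · linear_combination SS + 2 * S

/-- `χ_(n-2,2)`. -/
noncomputable def chiTwo (g : G) : ℂ :=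
  ((nf (φ g) : ℂ) ^ 2 - 3 * nf (φ g) + ns (φ g)) / 2

/-- `χ_(n-2,1,1)`. -/
noncomputable def chiThree (g : G) : ℂ :=
  ((nf (φ g) : ℂ) ^ 2 - 3 * nf (φ g) + 2 - ns (φ g)) / 2

/-- `χ_(n-1,1)`. -/
noncomputable def chiOne (g : G) : ℂ := (nf (φ g) : ℂ) - 1

theorem norm_chiOne (h4 : Trans4 φ) (hn : 4 ≤ n) : classInner (chiOne φ) (chiOne φ) = 1 := by
  obtain ⟨A, B, C, D, S, SF, SFF, SS⟩ := moments φ h4 hn
  have key : ∑ g : G, chiOne φ g * conj (chiOne φ g) = Fintype.card G := by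
    calc ∑ g : G, chiOne φ g * conj (chiOne φ g)
        = ∑ g : G, ((nf (φ g) : ℂ) ^ 2 - 2 * nf (φ g) + 1) := by
          refine Finset.sum_congr rfl fun g _ => ?_
          simp only [chiOne, map_sub, map_natCast, map_one]
          ring
      _ = Fintype.card G := by
          rw [Finset.sum_add_distrib, Finset.sum_sub_distrib, ← Finset.mul_sum, A, B,
            Finset.sum_const, Finset.card_univ, nsmul_eq_mul]
          ring
  rw [Cfsg.Agent.Chars.classInner_def, key, Nat.card_eq_fintype_card]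
  exact inv_mul_cancel₀ (Nat.cast_ne_zero.mpr Fintype.card_ne_zero)

theorem norm_chiTwo (h4 : Trans4 φ) (hn : 4 ≤ n) : classInner (chiTwo φ) (chiTwo φ) = 1 := by
  obtain ⟨A, B, C, D, S, SF, SFF, SS⟩ := moments φ h4 hn
  have key : ∑ g : G, chiTwo φ g * conj (chiTwo φ g) = Fintype.card G := by
    calc ∑ g : G, chiTwo φ g * conj (chiTwo φ g)
        = ∑ g : G, (1 / 4 : ℂ) * ((nf (φ g) : ℂ) ^ 4 - 6 * (nf (φ g) : ℂ) ^ 3 + 9 * (nf (φ g) : ℂ) ^ 2
            + 2 * ((ns (φ g) : ℂ) * (nf (φ g) : ℂ) ^ 2) - 6 * ((ns (φ g) : ℂ) * nf (φ g))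
            + (ns (φ g) : ℂ) ^ 2) := by
          refine Finset.sum_congr rfl fun g _ => ?_
          simp only [chiTwo, map_sub, map_add, map_div₀, map_pow, map_mul, map_natCast, map_ofNat]
          ring
      _ = Fintype.card G := by
          simp only [← Finset.mul_sum, Finset.sum_add_distrib, Finset.sum_sub_distrib]
          rw [B, C, D, SF, SFF, SS]
          ring
  rw [Cfsg.Agent.Chars.classInner_def, key, Nat.card_eq_fintype_card]
  exact inv_mul_cancel₀ (Nat.cast_ne_zero.mpr Fintype.card_ne_zero)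

theorem norm_chiThree (h4 : Trans4 φ) (hn : 4 ≤ n) :
    classInner (chiThree φ) (chiThree φ) = 1 := by
  obtain ⟨A, B, C, D, S, SF, SFF, SS⟩ := moments φ h4 hn
  have key : ∑ g : G, chiThree φ g * conj (chiThree φ g) = Fintype.card G := by
    calc ∑ g : G, chiThree φ g * conj (chiThree φ g)
        = ∑ g : G, (1 / 4 : ℂ) * ((nf (φ g) : ℂ) ^ 4 - 6 * (nf (φ g) : ℂ) ^ 3 + 13 * (nf (φ g) : ℂ) ^ 2
            - 12 * (nf (φ g) : ℂ) + 4 - 4 * (ns (φ g) : ℂ)
            - 2 * ((ns (φ g) : ℂ) * (nf (φ g) : ℂ) ^ 2) + 6 * ((ns (φ g) : ℂ) * nf (φ g))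
            + (ns (φ g) : ℂ) ^ 2) := by
          refine Finset.sum_congr rfl fun g _ => ?_
          simp only [chiThree, map_sub, map_add, map_div₀, map_pow, map_mul, map_natCast, map_ofNat]
          ring
      _ = Fintype.card G := by
          simp only [← Finset.mul_sum, Finset.sum_add_distrib, Finset.sum_sub_distrib,
            Finset.sum_const, Finset.card_univ, nsmul_eq_mul]
          rw [A, B, C, D, S, SF, SFF, SS]
          ring
  rw [Cfsg.Agent.Chars.classInner_def, key, Nat.card_eq_fintype_card]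
  exact inv_mul_cancel₀ (Nat.cast_ne_zero.mpr Fintype.card_ne_zero)

end Moments

theorem trans4_alt (hn : 7 ≤ n) : Trans4 (alternatingGroup (Fin n)).subtype := by
  intro k hk e e'
  haveI := alternatingGroup.isMultiplyPretransitive (Fin n)
  haveI : MulAction.IsMultiplyPretransitive (alternatingGroup (Fin n)) (Fin n) k :=
    MulAction.isMultiplyPretransitive_of_le (n := Nat.card (Fin n) - 2)
      (by simp; omega) (Nat.sub_le _ _)
  obtain ⟨g, hg⟩ := MulAction.exists_smul_eq (alternatingGroup (Fin n)) e e'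
  exact ⟨g, fun i => congrArg (fun f : Fin k ↪ Fin n => f i) hg⟩

theorem trans4_perm (hn : 7 ≤ n) : Trans4 (MonoidHom.id (Equiv.Perm (Fin n))) := fun k hk e e' => by
  obtain ⟨g, hg⟩ := trans4_alt hn k hk e e'
  exact ⟨g.1, hg⟩

theorem card_fixed_pairs (g : Equiv.Perm (Fin n)) :
    2 * Nat.card (MulAction.fixedBy (Set.powersetCard (Fin n) 2) g) =
      (nf g).descFactorial 2 + ns g := by
  classical
  rw [← emb_one, ← emb_swap2, emb, emb, ← Fintype.card_sum, Nat.card_eq_fintype_card]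
  symm
  let P := {e : Fin 2 ↪ Fin n // (∀ i, g (e i) = e ((1 : Equiv.Perm (Fin 2)) i)) ∨
      (∀ i, g (e i) = e (Equiv.swap 0 1 i))}
  have hdisj : Disjoint (fun e : Fin 2 ↪ Fin n => ∀ i, g (e i) = e ((1 : Equiv.Perm (Fin 2)) i))
      (fun e : Fin 2 ↪ Fin n => ∀ i, g (e i) = e (Equiv.swap 0 1 i)) := by
    rw [Pi.disjoint_iff]
    intro e
    rw [Prop.disjoint_iff]
    rintro ⟨h1, h2⟩
    have := (h1 0).symm.trans (h2 0)
    exact absurd (e.injective this) (by decide)
  rw [← Fintype.card_congr (subtypeOrEquiv _ _ hdisj)]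
  -- fibre the ordered pairs over the unordered ones
  have hS : ∀ e : P, ({e.1 0, e.1 1} : Finset (Fin n)) ∈ Set.powersetCard (Fin n) 2 := fun e => by
    rw [Set.powersetCard.mem_iff]
    exact Finset.card_pair (fun h => absurd (e.1.injective h) (by decide))
  have hfix : ∀ e : P, (⟨_, hS e⟩ : Set.powersetCard (Fin n) 2) ∈ MulAction.fixedBy _ g := fun e => by
    rw [MulAction.mem_fixedBy]
    apply Subtype.ext
    show g • ({e.1 0, e.1 1} : Finset (Fin n)) = {e.1 0, e.1 1}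
    rw [Finset.smul_finset_insert, Finset.smul_finset_singleton]
    simp only [Equiv.Perm.smul_def]
    rcases e.2 with h | h
    · rw [h 0, h 1]; rfl
    · rw [h 0, h 1, Equiv.swap_apply_left, Equiv.swap_apply_right, Finset.pair_comm]
  let F : P → MulAction.fixedBy (Set.powersetCard (Fin n) 2) g := fun e => ⟨_, hfix e⟩
  rw [Fintype.card_congr (Equiv.sigmaFiberEquiv F).symm, Fintype.card_sigma,
    Finset.sum_const_nat (m := 2) fun S _ => ?_, Finset.card_univ, mul_comm]
  obtain ⟨⟨s, hs⟩, hsf⟩ := S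
  obtain ⟨a, b, hab, rfl⟩ := Finset.card_eq_two.mp (Set.powersetCard.mem_iff.mp hs)
  rw [MulAction.mem_fixedBy] at hsf
  have hs' : g • ({a, b} : Finset (Fin n)) = {a, b} := congrArg Subtype.val hsf
  rw [Finset.smul_finset_insert, Finset.smul_finset_singleton] at hs'
  simp only [Equiv.Perm.smul_def] at hs'
  have hcase : (g a = a ∧ g b = b) ∨ (g a = b ∧ g b = a) := by
    have h1 : g a ∈ ({a, b} : Finset (Fin n)) := hs' ▸ Finset.mem_insert_self _ _
    have h2 : g b ∈ ({a, b} : Finset (Fin n)) :=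
      hs' ▸ Finset.mem_insert_of_mem (Finset.mem_singleton_self _)
    simp only [Finset.mem_insert, Finset.mem_singleton] at h1 h2
    rcases h1 with h1 | h1 <;> rcases h2 with h2 | h2
    · exact absurd (g.injective (h1.trans h2.symm)) hab
    · exact Or.inl ⟨h1, h2⟩
    · exact Or.inr ⟨h1, h2⟩
    · exact absurd (g.injective (h1.trans h2.symm)) hab
  have mk : ∀ x y : Fin n, x ≠ y → ((g x = x ∧ g y = y) ∨ (g x = y ∧ g y = x)) →
      ∃ e : P, e.1 0 = x ∧ e.1 1 = y := by
    intro x y hxy hc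
    refine ⟨⟨⟨![x, y], ?_⟩, ?_⟩, rfl, rfl⟩
    · intro i j h
      fin_cases i <;> fin_cases j <;>
        first
        | rfl
        | exact absurd h hxy
        | exact absurd h.symm hxy
    · rcases hc with ⟨h0, h1⟩ | ⟨h0, h1⟩
      · left; intro i; fin_cases i
        · exact h0
        · exact h1
      · right; intro i; fin_cases i
        · exact h0
        · exact h1
  obtain ⟨e1, he10, he11⟩ := mk a b hab hcase
  obtain ⟨e2, he20, he21⟩ := mk b a hab.symm (by tauto)
  have hF : ∀ e : P, F e = ⟨⟨{a, b}, hs⟩, MulAction.mem_fixedBy.mpr hsf⟩ ↔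
      ({e.1 0, e.1 1} : Finset (Fin n)) = {a, b} := fun e => by
    simp [F, Subtype.ext_iff]
  rw [Fintype.card_subtype, Finset.card_eq_two]
  refine ⟨e1, e2, fun h => hab (by rw [← he10, h, he20]), ?_⟩
  ext e
  simp only [Finset.mem_filter, Finset.mem_univ, true_and, Finset.mem_insert, Finset.mem_singleton]
  rw [hF]
  constructor
  · intro h
    have h0 : e.1 0 ∈ ({a, b} : Finset (Fin n)) := h ▸ Finset.mem_insert_self _ _
    have h1 : e.1 1 ∈ ({a, b} : Finset (Fin n)) :=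
      h ▸ Finset.mem_insert_of_mem (Finset.mem_singleton_self _)
    simp only [Finset.mem_insert, Finset.mem_singleton] at h0 h1
    have hne : e.1 0 ≠ e.1 1 := fun hh => absurd (e.1.injective hh) (by decide)
    rcases h0 with h0 | h0 <;> rcases h1 with h1 | h1
    · exact absurd (h0.trans h1.symm) hne
    · refine Or.inl (Subtype.ext (Function.Embedding.ext fun i => ?_))
      fin_cases i
      · exact h0.trans he10.symm
      · exact h1.trans he11.symm
    · refine Or.inr (Subtype.ext (Function.Embedding.ext fun i => ?_))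
      fin_cases i
      · exact h0.trans he20.symm
      · exact h1.trans he21.symm
    · exact absurd (h0.trans h1.symm) hne
  · rintro (rfl | rfl)
    · rw [he10, he11]
    · rw [he20, he21, Finset.pair_comm]

theorem isGen_nf (hn : 7 ≤ n) :
    IsGeneralizedCharacter (Equiv.Perm (Fin n)) (fun g => (nf g : ℂ)) := by
  haveI : Nonempty (Fin n) := ⟨⟨0, by omega⟩⟩
  convert Cfsg.Agent.Chars.isGen_of_isCharacter
    (isCharacter_fixed (G := Equiv.Perm (Fin n)) (X := Fin n)) using 2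
  rw [Nat.card_eq_fintype_card, nf]
  congr 1

theorem isGen_emb2 (hn : 7 ≤ n) :
    IsGeneralizedCharacter (Equiv.Perm (Fin n)) (fun g => ((nf g).descFactorial 2 : ℂ)) := by
  haveI : Nonempty (Fin 2 ↪ Fin n) := ⟨Fin.castLEEmb (by omega)⟩
  haveI := Equiv.Perm.isMultiplyPretransitive (Fin n) 2
  convert Cfsg.Agent.Chars.isGen_of_isCharacter
    (isCharacter_fixed (G := Equiv.Perm (Fin n)) (X := Fin 2 ↪ Fin n)) using 2 with g
  rw [← emb_one, emb, Nat.card_eq_fintype_card]
  congr 1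
  refine Fintype.card_congr (Equiv.subtypeEquivRight fun e => ?_)
  rw [MulAction.mem_fixedBy, Function.Embedding.ext_iff]
  rfl

theorem isGen_pairs (hn : 7 ≤ n) :
    IsGeneralizedCharacter (Equiv.Perm (Fin n))
      (fun g => (((nf g).descFactorial 2 : ℂ) + ns g) / 2) := by
  haveI : Nonempty (Set.powersetCard (Fin n) 2) :=
    ⟨⟨{⟨0, by omega⟩, ⟨1, by omega⟩}, Set.powersetCard.mem_iff.mpr (Finset.card_pair (by simp [Fin.ext_iff]))⟩⟩
  haveI := Set.powersetCard.isPretransitive (α := Fin n) (n := 2)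
  convert Cfsg.Agent.Chars.isGen_of_isCharacter
    (isCharacter_fixed (G := Equiv.Perm (Fin n)) (X := Set.powersetCard (Fin n) 2)) using 2 with g
  rw [← Nat.cast_add, ← card_fixed_pairs g]
  push_cast
  ring

theorem isGen_chis (hn : 7 ≤ n) :
    IsGeneralizedCharacter _ (chiOne (MonoidHom.id (Equiv.Perm (Fin n)))) ∧
    IsGeneralizedCharacter _ (chiTwo (MonoidHom.id (Equiv.Perm (Fin n)))) ∧
    IsGeneralizedCharacter _ (chiThree (MonoidHom.id (Equiv.Perm (Fin n)))) := by
  have h1 := isGen_nf hn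
  have h2 := isGen_emb2 hn
  have h3 := isGen_pairs hn
  have hone := Cfsg.Agent.Chars.isGen_one (G := Equiv.Perm (Fin n))
  refine ⟨?_, ?_, ?_⟩
  · convert Cfsg.Agent.Chars.isGen_sub h1 hone using 1
    funext g; simp [chiOne]
  · convert Cfsg.Agent.Chars.isGen_sub h3 h1 using 1
    funext g; simp only [chiTwo, df2, MonoidHom.id_apply, Pi.sub_apply]; ring
  · convert Cfsg.Agent.Chars.isGen_add (Cfsg.Agent.Chars.isGen_sub
      (Cfsg.Agent.Chars.isGen_sub h2 h3) h1) hone using 1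
    funext g; simp only [chiThree, df2, MonoidHom.id_apply, Pi.sub_apply, Pi.add_apply]; ring

theorem irr_of_norm {G : Type*} [Group G] [Fintype G] {f : G → ℂ}
    (hg : IsGeneralizedCharacter G f) (h1 : classInner f f = 1) {d : ℕ} (hd : f 1 = d) :
    IsIrrCharacter G f := by
  rcases Cfsg.Agent.Chars.isIrrCharacter_of_gen_norm_one hg h1 with h | h
  · exact h
  · exfalso
    obtain ⟨m, hm, hm1⟩ := Cfsg.Agent.Chars.exists_irr_apply_one_eq h
    rw [Pi.neg_apply, hd] at hm1
    have h2 : (((d + m : ℕ) : ℤ) : ℂ) = 0 := by push_cast; linear_combination -hm1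
    have h3 : (d + m : ℕ) = 0 := by exact_mod_cast h2
    omega

theorem nf_one : nf (1 : Equiv.Perm (Fin n)) = n := by
  rw [nf, Fintype.card_of_subtype Finset.univ (by simp)]
  simp

theorem ns_one : ns (1 : Equiv.Perm (Fin n)) = 0 := by
  rw [ns]
  exact Fintype.card_eq_zero_iff.mpr ⟨fun a => a.2.1 rfl⟩

/-- Package: a character of `A_n` from one of `S_n`, vanishing at `x`. -/
theorem package (hn : 7 ≤ n) (c : ℕ) (x : Equiv.Perm (Fin n))
    (hc : c = 1 ∧ nf x = 1 ∨ c = 2 ∧ nf x = 0 ∧ ns x = 0 ∨ c = 3 ∧ nf x = 2 ∧ ns x = 0)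
    (hx : x ∈ alternatingGroup (Fin n)) :
    ∃ χ : IrrCharacter (alternatingGroup (Fin n)),
      (χ : alternatingGroup (Fin n) → ℂ) ⟨x, hx⟩ = 0 ∧
      ∃ ψ : IrrCharacter (Equiv.Perm (Fin n)), ∀ y : alternatingGroup (Fin n),
        (ψ : Equiv.Perm (Fin n) → ℂ) y = (χ : alternatingGroup (Fin n) → ℂ) y := by
  obtain ⟨g1, g2, g3⟩ := isGen_chis hn
  have a4 := trans4_alt hn
  have s4 := trans4_perm hn
  have hn4 : 4 ≤ n := by omega
  rcases hc with ⟨-, hf⟩ | ⟨-, hf, hs⟩ | ⟨-, hf, hs⟩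
  · refine ⟨⟨chiOne (alternatingGroup (Fin n)).subtype, irr_of_norm ?_ (norm_chiOne _ a4 hn4) (d := n - 1) ?_⟩,
      ?_, ⟨⟨chiOne (MonoidHom.id _), irr_of_norm g1 (norm_chiOne _ s4 hn4) (d := n - 1) ?_⟩, fun y => rfl⟩⟩
    · exact Cfsg.Agent.Chars.isGen_restrict g1 _
    · simp [chiOne, nf_one, Nat.cast_sub (show 1 ≤ n by omega)]
    · show (nf x : ℂ) - 1 = 0
      simp [hf]
    · simp [chiOne, nf_one, Nat.cast_sub (show 1 ≤ n by omega)]
  · have hev : ∃ d : ℕ, ((n : ℂ) ^ 2 - 3 * n + 0) / 2 = d := by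
      obtain ⟨m, hm⟩ := Nat.exists_eq_add_of_le (show 3 ≤ n by omega)
      have he : 2 ∣ n * m := by
        rcases Nat.even_or_odd m with ⟨k, hk⟩ | ⟨k, hk⟩
        · exact dvd_mul_of_dvd_right ⟨k, by omega⟩ _
        · exact dvd_mul_of_dvd_left ⟨k + 2, by omega⟩ _
      obtain ⟨d, hd⟩ := he
      refine ⟨d, ?_⟩
      have hd' : (n : ℂ) * m = 2 * d := by exact_mod_cast hd
      have hm' : (n : ℂ) = 3 + m := by exact_mod_cast hm
      linear_combination (1 / 2 : ℂ) * hd' + (1 / 2 : ℂ) * (n : ℂ) * hm'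
    obtain ⟨d, hd⟩ := hev
    refine ⟨⟨chiTwo (alternatingGroup (Fin n)).subtype, irr_of_norm ?_ (norm_chiTwo _ a4 hn4) (d := d) ?_⟩,
      ?_, ⟨⟨chiTwo (MonoidHom.id _), irr_of_norm g2 (norm_chiTwo _ s4 hn4) (d := d) ?_⟩, fun y => rfl⟩⟩
    · exact Cfsg.Agent.Chars.isGen_restrict g2 _
    · rw [← hd]; simp [chiTwo, nf_one, ns_one]
    · show ((nf x : ℂ) ^ 2 - 3 * nf x + ns x) / 2 = 0
      simp [hf, hs]
    · rw [← hd]; simp [chiTwo, nf_one, ns_one]
  · have hev : ∃ d : ℕ, ((n : ℂ) ^ 2 - 3 * n + 2 - 0) / 2 = d := by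
      obtain ⟨m, hm⟩ := Nat.exists_eq_add_of_le (show 2 ≤ n by omega)
      have he : 2 ∣ (m + 1) * m := by
        rw [mul_comm]; exact (Nat.even_mul_succ_self m).two_dvd
      obtain ⟨d, hd⟩ := he
      refine ⟨d, ?_⟩
      have hd' : ((m : ℂ) + 1) * m = 2 * d := by exact_mod_cast hd
      have hm' : (n : ℂ) = 2 + m := by exact_mod_cast hm
      rw [hm']
      linear_combination (1 / 2 : ℂ) * hd'
    obtain ⟨d, hd⟩ := hev
    refine ⟨⟨chiThree (alternatingGroup (Fin n)).subtype, irr_of_norm ?_ (norm_chiThree _ a4 hn4) (d := d) ?_⟩,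
      ?_, ⟨⟨chiThree (MonoidHom.id _), irr_of_norm g3 (norm_chiThree _ s4 hn4) (d := d) ?_⟩, fun y => rfl⟩⟩
    · exact Cfsg.Agent.Chars.isGen_restrict g3 _
    · rw [← hd]; simp [chiThree, nf_one, ns_one]
    · show ((nf x : ℂ) ^ 2 - 3 * nf x + 2 - ns x) / 2 = 0
      simp [hf, hs]; norm_num
    · rw [← hd]; simp [chiThree, nf_one, ns_one]

/-- Build a permutation with `f₀` fixed points from one without fixed points. -/
theorem build {β : Type} [Fintype β] [DecidableEq β] (p : Equiv.Perm β) (f₀ N : ℕ)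
    (hcard : f₀ + Fintype.card β = n) (hp : ∀ x, p x ≠ x) (hsign : Equiv.Perm.sign p = 1)
    (hN : p ^ N = 1) :
    ∃ g : Equiv.Perm (Fin n), g ∈ alternatingGroup (Fin n) ∧ nf g = f₀ ∧ g ^ N = 1 ∧
      ((∀ x, p (p x) ≠ x) → ns g = 0) := by
  obtain ⟨e⟩ : Nonempty (Fin f₀ ⊕ β ≃ Fin n) :=
    ⟨Fintype.equivOfCardEq (by simp [hcard])⟩
  let g0 : Equiv.Perm (Fin f₀ ⊕ β) := Equiv.Perm.sumCongr 1 p
  have happ : ∀ x, e.permCongr g0 (e x) = e (g0 x) := fun x => by simp [Equiv.permCongr_apply]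
  refine ⟨e.permCongr g0, ?_, ?_, ?_, ?_⟩
  · rw [Equiv.Perm.mem_alternatingGroup, Equiv.Perm.sign_permCongr, Equiv.Perm.sign_sumCongr, hsign]
    simp
  · rw [nf]
    refine ((Fintype.card_fin f₀).symm.trans ?_).symm
    refine Fintype.card_of_bijective (f := fun i : Fin f₀ =>
      (⟨e (Sum.inl i), by rw [happ]; rfl⟩ : Fx (e.permCongr g0))) ⟨?_, ?_⟩
    · intro i j h
      exact Sum.inl_injective (e.injective (congrArg Subtype.val h))
    · rintro ⟨a, ha⟩
      obtain ⟨x, rfl⟩ := e.surjective a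
      rw [happ] at ha
      rcases x with i | b
      · exact ⟨i, rfl⟩
      · exact absurd (Sum.inr_injective (e.injective ha)) (hp b)
  · have h1 : ∀ m : ℕ, ∀ x, (e.permCongr g0 ^ m) (e x) = e (Sum.map id (p ^ m : Equiv.Perm β) x) := by
      intro m
      induction m with
      | zero => intro x; rcases x with i | b <;> rfl
      | succ m ih =>
        intro x
        rw [pow_succ', Equiv.Perm.mul_apply, ih, happ, pow_succ']
        rcases x with i | b <;> rfl
    ext a
    obtain ⟨x, rfl⟩ := e.surjective a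
    rw [h1, hN]
    rcases x with i | b <;> rfl
  · intro h2
    rw [ns]
    refine Fintype.card_eq_zero_iff.mpr ⟨fun a => ?_⟩
    obtain ⟨x, hx⟩ := e.surjective a.1
    have h := a.2
    rw [← hx] at h
    simp only [happ, ne_eq, EmbeddingLike.apply_eq_iff_eq] at h
    rcases x with i | b
    · exact h.1 rfl
    · exact h2 b (Sum.inr_injective h.2)

theorem exists_two (hn : 7 ≤ n) :
    ∃ (g : Equiv.Perm (Fin n)) (c : ℕ), g ∈ alternatingGroup (Fin n) ∧ g ^ 8 = 1 ∧
      (c = 1 ∧ nf g = 1 ∨ c = 2 ∧ nf g = 0 ∧ ns g = 0 ∨ c = 3 ∧ nf g = 2 ∧ ns g = 0) := by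
  let t : Equiv.Perm (Fin 2) := Equiv.swap 0 1
  let q : Equiv.Perm (Fin 4) := finRotate 4
  let o : Equiv.Perm (Fin 8) := finRotate 8
  have ht : ∀ x, t x ≠ x := by decide
  have hq : ∀ x, q x ≠ x ∧ q (q x) ≠ x := by decide
  have ho : ∀ x, o x ≠ x ∧ o (o x) ≠ x := by decide
  have ht8 : t ^ 8 = 1 := by decide
  have hq8 : q ^ 8 = 1 := by decide
  have ho8 : o ^ 8 = 1 := by decide
  have hts : Equiv.Perm.sign t = -1 := by decide
  have hqs : Equiv.Perm.sign q = -1 := by
    show Equiv.Perm.sign (finRotate 4) = -1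
    rw [sign_finRotate]; rfl
  have hos : Equiv.Perm.sign o = -1 := by
    show Equiv.Perm.sign (finRotate 8) = -1
    rw [sign_finRotate]; rfl
  -- blocks: `m` copies of a permutation
  have hblock : ∀ {β : Type} [Fintype β] [DecidableEq β] (m : ℕ) (p : Equiv.Perm β),
      Equiv.Perm.sign (Equiv.prodCongrRight fun _ : Fin m => p) = Equiv.Perm.sign p ^ m := by
    intro β _ _ m p
    rw [Equiv.Perm.sign_prodCongrRight, Finset.prod_const, Finset.card_univ, Fintype.card_fin]
  have hblockpow : ∀ {β : Type} (m : ℕ) (p : Equiv.Perm β) (k : ℕ), p ^ k = 1 →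
      (Equiv.prodCongrRight fun _ : Fin m => p : Equiv.Perm (Fin m × β)) ^ k = 1 := by
    intro β m p k hk
    have h1 : ∀ (j : ℕ) (x : Fin m × β),
        ((Equiv.prodCongrRight fun _ : Fin m => p : Equiv.Perm (Fin m × β)) ^ j) x = (x.1, (p ^ j) x.2) := by
      intro j
      induction j with
      | zero => intro x; rfl
      | succ j ih => intro x; rw [pow_succ', Equiv.Perm.mul_apply, ih, pow_succ']; rfl
    ext1 x
    rw [h1, hk]; rfl
  have hsum : ∀ {α β : Type} (a : Equiv.Perm α) (b : Equiv.Perm β) (k : ℕ), a ^ k = 1 → b ^ k = 1 →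
      Equiv.Perm.sumCongr a b ^ k = 1 := by
    intro α β a b k ha hb
    rw [show Equiv.Perm.sumCongr a b = Equiv.Perm.sumCongrHom α β (a, b) from rfl, ← map_pow,
      Prod.pow_mk, ha, hb]
    exact map_one _
  rcases Nat.even_or_odd n with ⟨j, hj⟩ | ⟨j, hj⟩
  · -- even degree: 4-cycles, possibly one 8-cycle
    obtain ⟨f₀, a, ha, hna, hf₀⟩ : ∃ f₀ a, 2 ≤ a ∧ f₀ + 4 * a = n ∧ (f₀ = 0 ∨ f₀ = 2) := by
      rcases Nat.even_or_odd j with ⟨i, hi⟩ | ⟨i, hi⟩
      · exact ⟨0, i, by omega, by omega, Or.inl rfl⟩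
      · exact ⟨2, i, by omega, by omega, Or.inr rfl⟩
    have fin : ∀ g : Equiv.Perm (Fin n), g ∈ alternatingGroup (Fin n) → g ^ 8 = 1 → nf g = f₀ →
        ns g = 0 → ∃ (g : Equiv.Perm (Fin n)) (c : ℕ), g ∈ alternatingGroup (Fin n) ∧ g ^ 8 = 1 ∧
          (c = 1 ∧ nf g = 1 ∨ c = 2 ∧ nf g = 0 ∧ ns g = 0 ∨ c = 3 ∧ nf g = 2 ∧ ns g = 0) := by
      intro g hg h8 hf hs
      rcases hf₀ with rfl | rfl
      · exact ⟨g, 2, hg, h8, Or.inr (Or.inl ⟨rfl, hf, hs⟩)⟩
      · exact ⟨g, 3, hg, h8, Or.inr (Or.inr ⟨rfl, hf, hs⟩)⟩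
    rcases Nat.even_or_odd a with hev | ⟨i, hi⟩
    · obtain ⟨g, hg, hf, h8, hs⟩ := build (n := n) (Equiv.prodCongrRight fun _ : Fin a => q) f₀ 8
        (by simp; omega) (fun x h => (hq x.2).1 (congrArg Prod.snd h))
        (by rw [hblock, hqs, hev.neg_one_pow]) (hblockpow a q 8 hq8)
      exact fin g hg h8 hf (hs fun x h => (hq x.2).2 (congrArg Prod.snd h))
    · obtain ⟨g, hg, hf, h8, hs⟩ := build (n := n)
        (Equiv.Perm.sumCongr o (Equiv.prodCongrRight fun _ : Fin (a - 2) => q)) f₀ 8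
        (by simp; omega)
        (by
          rintro (x | x) h
          · exact (ho x).1 (Sum.inl_injective h)
          · exact (hq x.2).1 (congrArg Prod.snd (Sum.inr_injective h)))
        (by
          rw [Equiv.Perm.sign_sumCongr, hblock, hos, hqs,
            (show Odd (a - 2) from ⟨i - 1, by omega⟩).neg_one_pow]
          rfl)
        (hsum o _ 8 ho8 (hblockpow _ q 8 hq8))
      refine fin g hg h8 hf (hs ?_)
      rintro (x | x) h
      · exact (ho x).2 (Sum.inl_injective h)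
      · exact (hq x.2).2 (congrArg Prod.snd (Sum.inr_injective h))
  · -- odd degree: one fixed point
    rcases Nat.even_or_odd j with hev | ⟨i, hi⟩
    · obtain ⟨g, hg, hf, h8, -⟩ := build (n := n) (Equiv.prodCongrRight fun _ : Fin j => t) 1 8
        (by simp; omega) (fun x h => ht x.2 (congrArg Prod.snd h))
        (by rw [hblock, hts, hev.neg_one_pow]) (hblockpow j t 8 ht8)
      exact ⟨g, 1, hg, h8, Or.inl ⟨rfl, hf⟩⟩
    · obtain ⟨g, hg, hf, h8, -⟩ := build (n := n)
        (Equiv.Perm.sumCongr q (Equiv.prodCongrRight fun _ : Fin (j - 2) => t)) 1 8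
        (by simp; omega)
        (by
          rintro (x | x) h
          · exact (hq x).1 (Sum.inl_injective h)
          · exact ht x.2 (congrArg Prod.snd (Sum.inr_injective h)))
        (by
          rw [Equiv.Perm.sign_sumCongr, hblock, hqs, hts,
            (show Odd (j - 2) from ⟨i - 1, by omega⟩).neg_one_pow]
          rfl)
        (hsum q _ 8 hq8 (hblockpow _ t 8 ht8))
      exact ⟨g, 1, hg, h8, Or.inl ⟨rfl, hf⟩⟩

theorem exists_three (hn : 7 ≤ n) :
    ∃ (g : Equiv.Perm (Fin n)) (c : ℕ), g ∈ alternatingGroup (Fin n) ∧ g ^ 3 = 1 ∧ g ≠ 1 ∧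
      (c = 1 ∧ nf g = 1 ∨ c = 2 ∧ nf g = 0 ∧ ns g = 0 ∨ c = 3 ∧ nf g = 2 ∧ ns g = 0) := by
  let r : Equiv.Perm (Fin 3) := finRotate 3
  have hr : ∀ x, r x ≠ x ∧ r (r x) ≠ x := by decide
  have hrs : Equiv.Perm.sign r = 1 := by
    show Equiv.Perm.sign (finRotate 3) = 1
    rw [sign_finRotate]; rfl
  let p : Equiv.Perm (Fin (n / 3) × Fin 3) := Equiv.prodCongrRight fun _ => r
  have hp3 : p ^ 3 = 1 := by
    ext1 x
    have : ∀ y : Fin 3, r (r (r y)) = y := by decide
    show ((x.1, r (r (r x.2))) : Fin (n / 3) × Fin 3) = x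
    rw [this]
  obtain ⟨g, hg, hf, h3, hs⟩ := build (n := n) p (n % 3) 3 (by simp; omega)
    (fun x h => (hr x.2).1 (congrArg Prod.snd h))
    (by rw [Equiv.Perm.sign_prodCongrRight, Finset.prod_const, hrs, one_pow]) hp3
  have hs' := hs fun x h => (hr x.2).2 (congrArg Prod.snd h)
  have hg1 : g ≠ 1 := fun h => by rw [h, nf_one] at hf; omega
  rcases (show n % 3 = 0 ∨ n % 3 = 1 ∨ n % 3 = 2 by omega) with h | h | h
  · exact ⟨g, 2, hg, h3, hg1, Or.inr (Or.inl ⟨rfl, hf.trans h, hs'⟩)⟩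
  · exact ⟨g, 1, hg, h3, hg1, Or.inl ⟨rfl, hf.trans h⟩⟩
  · exact ⟨g, 3, hg, h3, hg1, Or.inr (Or.inr ⟨rfl, hf.trans h, hs'⟩)⟩

/-- For n ≥ 7 the alternating group A_n has an irreducible character vanishing on some 2-element and one vanishing on some element of order 3, each extendible to S_n. -/
theorem result (n : ℕ) (hn : 7 ≤ n) : (∃ χ : Cfsg.IrrCharacter (alternatingGroup (Fin n)), (∃ x : alternatingGroup (Fin n), (∃ j : ℕ, orderOf x = 2 ^ j) ∧ (χ : alternatingGroup (Fin n) → ℂ) x = 0) ∧ ∃ ψ : Cfsg.IrrCharacter (Equiv.Perm (Fin n)), ∀ x : alternatingGroup (Fin n), (ψ : Equiv.Perm (Fin n) → ℂ) x = (χ : alternatingGroup (Fin n) → ℂ) x) ∧ (∃ χ : Cfsg.IrrCharacter (alternatingGroup (Fin n)), (∃ y : alternatingGroup (Fin n), orderOf y = 3 ∧ (χ : alternatingGroup (Fin n) → ℂ) y = 0) ∧ ∃ ψ : Cfsg.IrrCharacter (Equiv.Perm (Fin n)), ∀ x : alternatingGroup (Fin n), (ψ : Equiv.Perm (Fin n) → ℂ) x = (χ : alternatingGroup (Fin n) → ℂ) x) := by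
  refine ⟨?_, ?_⟩
  · obtain ⟨g, c, hg, h8, hc⟩ := exists_two hn
    obtain ⟨χ, h0, hψ⟩ := package hn c g hc hg
    obtain ⟨j, -, hj⟩ := (Nat.dvd_prime_pow Nat.prime_two).mp
      (show orderOf g ∣ 2 ^ 3 from orderOf_dvd_of_pow_eq_one h8)
    exact ⟨χ, ⟨⟨g, hg⟩, ⟨j, by rw [Subgroup.orderOf_mk]; exact hj⟩, h0⟩, hψ⟩
  · obtain ⟨g, c, hg, h3, hg1, hc⟩ := exists_three hn
    obtain ⟨χ, h0, hψ⟩ := package hn c g hc hg
    haveI : Fact (Nat.Prime 3) := ⟨by norm_num⟩
    exact ⟨χ, ⟨⟨g, hg⟩, by rw [Subgroup.orderOf_mk]; exact orderOf_eq_prime h3 hg1, h0⟩, hψ⟩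

end Cfsg.Agent.S4560
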