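import Cfsg.Statements.S4561
import Cfsg.Agent.Chars2.RamifiedEmbedding
import Cfsg.Agent.Chars.Orth
import Cfsg.Agent.Blocks.Orth
import Mathlib.Algebra.Squarefree.Basic
import Mathlib.GroupTheory.Perm.Cycle.Type

set_option autoImplicit false
set_option linter.style.haveILetI false
open Cfsg Cfsg.Agent

namespace Cfsg.Agent.S4561

open Matrix
open scoped ComplexConjugate

universe u

/-- For every finite solvable group G there is a finite group H with a faithful irreducible character χ whose degree squared equals the index of the centre Z(H) (so χ is fully ramified over the centre), such that G is isomorphic to a subgroup of H/Z(H), the primes dividing the orders of H, of Z(H) and of G are the same, and the order of Z(H) is squarefree. -/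
theorem result {G : Type u} [Group G] [Finite G] (hsolv : Group.IsSolvable G) : ∃ (H : Type u) (_ : Group H) (_ : Finite H) (χ : Cfsg.IrrCharacter H), (∀ h : H, (χ : H → ℂ) h = (χ : H → ℂ) 1 → h = 1) ∧ (Cfsg.charDegree (χ : H → ℂ)) ^ 2 = (Subgroup.center H).index ∧ (∃ f : G →* H ⧸ Subgroup.center H, Function.Injective f) ∧ (∀ p : ℕ, p.Prime → ((p ∣ Nat.card H ↔ p ∣ Nat.card G) ∧ (p ∣ Nat.card (Subgroup.center H) ↔ p ∣ Nat.card G))) ∧ Squarefree (Nat.card (Subgroup.center H)) := by
  classical
  haveI := hsolv
  set n := ∏ r ∈ (Nat.card G).primeFactors, r with hn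
  have hn0 : n ≠ 0 := Finset.prod_ne_zero_iff.2 fun r hr => (Nat.prime_of_mem_primeFactors hr).ne_zero
  haveI : NeZero n := ⟨hn0⟩
  have hnG : ∀ r : ℕ, r.Prime → (r ∣ n ↔ r ∣ Nat.card G) := fun r hr => by
    constructor
    · exact fun h => h.trans (Nat.prod_primeFactors_dvd _)
    · exact fun h => Finset.dvd_prod_of_mem _ (Nat.mem_primeFactors.2 ⟨hr, h, Nat.card_pos.ne'⟩)
  have hsq : Squarefree n := by
    refine Finset.squarefree_prod_of_pairwise_isCoprime (fun a ha b hb hab => ?_) fun a ha =>
      (Nat.prime_of_mem_primeFactors ha).squarefree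
    rw [Function.onFun, ← Nat.coprime_iff_isRelPrime]
    exact (Nat.coprime_primes (Nat.prime_of_mem_primeFactors ha)
      (Nat.prime_of_mem_primeFactors hb)).2 hab
  obtain ⟨ι, _, _, H₀, _, _, ρ₀, Z₀, _, ⟨i₀⟩, hinj₀, hZ₀, hroot₀, hvan₀, hidx₀, hprimes, f₀, hf₀⟩ :=
    Chars2.RamEmbed.hasModel hn0 (Nat.card G) G rfl fun r hr => (hnG r hr).2
  haveI : Nonempty ι := ⟨i₀⟩
  let H := ULift.{u} H₀
  let e : H ≃* H₀ := MulEquiv.ulift
  haveI : Fintype H := Fintype.ofFinite H
  let ρ : H →* Matrix ι ι ℂ := ρ₀.comp e.toMonoidHom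
  let Z := Z₀.comap e.toMonoidHom
  haveI : Fintype Z := Fintype.ofFinite Z
  have hinj : Function.Injective ρ := hinj₀.comp e.injective
  have hZ : ∀ h, h ∈ Z ↔ ∃ c : ℂ, c ^ n = 1 ∧ ρ h = c • 1 := fun h => hZ₀ _
  have hvan : ∀ h, h ∉ Z → (ρ h).trace = 0 := fun h hh => hvan₀ _ hh
  have hroot : ∀ c : ℂ, c ^ n = 1 → ∃ h, ρ h = c • 1 := fun c hc => by
    obtain ⟨h, hh⟩ := hroot₀ c hc
    exact ⟨e.symm h, by simpa [ρ] using hh⟩
  have hidx : Z.index = Fintype.card ι ^ 2 := by
    rw [Subgroup.index_comap_of_surjective _ e.surjective, hidx₀]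
  have hd : Fintype.card ι ≠ 0 := Fintype.card_ne_zero
  -- the trace form
  have hcard : Nat.card Z = n := by
    rw [← Complex.card_rootsOfUnity n]
    choose c hc1 hc2 using fun z : Z => (hZ (z : H)).1 z.2
    refine Nat.card_congr (Equiv.ofBijective (fun z => rootsOfUnity.mkOfPowEq (c z) (hc1 z)) ⟨?_, ?_⟩)
    · intro a b hab
      refine Subtype.ext (hinj ?_)
      rw [hc2, hc2]
      congr 1
      simpa using congrArg (fun t : rootsOfUnity n ℂ => ((t : ℂˣ) : ℂ)) hab
    · intro w
      obtain ⟨h, hh⟩ := hroot ((w : ℂˣ) : ℂ) (by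
        rw [← Units.val_pow_eq_pow_val, (mem_rootsOfUnity n (w : ℂˣ)).1 w.2, Units.val_one])
      have hmem : h ∈ Z := (hZ h).2 ⟨_, by
        rw [← Units.val_pow_eq_pow_val, (mem_rootsOfUnity n (w : ℂˣ)).1 w.2, Units.val_one], hh⟩
      refine ⟨⟨h, hmem⟩, Subtype.ext (Units.ext ?_)⟩
      have := (hc2 ⟨h, hmem⟩).symm.trans hh
      have := congrFun (congrFun this i₀) i₀
      simpa using this
  -- the centre
  have hcenter : Subgroup.center H = Z := by
    refine le_antisymm (fun z hz => ?_) (fun z hz => ?_)
    · by_contra hzZ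
      let r : H ⧸ Z → Matrix ι ι ℂ := fun x => ρ x.out
      have hli : LinearIndependent ℂ r := by
        rw [Fintype.linearIndependent_iff]
        intro g hg x
        have h1 := congrArg (fun M : Matrix ι ι ℂ => (M * ρ x.out⁻¹).trace) hg
        simp only [Finset.sum_mul, Matrix.smul_mul, Matrix.trace_sum, Matrix.trace_smul, zero_mul,
          Matrix.trace_zero, r, ← map_mul] at h1
        rw [Finset.sum_eq_single x (fun y _ hy => ?_) (fun h => absurd (Finset.mem_univ _) h),
          mul_inv_cancel, map_one, Matrix.trace_one, smul_eq_mul, mul_eq_zero] at h1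
        · exact h1.resolve_right (by exact_mod_cast hd)
        · rw [hvan _ fun hmem => hy ?_, smul_zero]
          have h2 := (QuotientGroup.eq_one_iff _).2 hmem
          rw [QuotientGroup.mk_mul, QuotientGroup.mk_inv, QuotientGroup.out_eq',
            QuotientGroup.out_eq', mul_inv_eq_one] at h2
          exact h2
      have hspan : Submodule.span ℂ (Set.range r) = ⊤ :=
        hli.span_eq_top_of_card_eq_finrank' (by
          rw [← Nat.card_eq_fintype_card, ← Subgroup.index_eq_card, hidx, Module.finrank_matrix,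
            Module.finrank_self, mul_one, sq])
      have hcomm : ∀ M : Matrix ι ι ℂ, Commute M (ρ z) := by
        intro M
        have hM : M ∈ Submodule.span ℂ (Set.range r) := hspan ▸ Submodule.mem_top
        induction hM using Submodule.span_induction with
        | mem M hM =>
          obtain ⟨x, rfl⟩ := hM
          exact Commute.map (Subgroup.mem_center_iff.1 hz x.out) ρ
        | zero => exact Commute.zero_left _
        | add a b _ _ ha hb => exact ha.add_left hb
        | smul a b _ hb => exact hb.smul_left a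
      obtain ⟨c, hc⟩ := Matrix.mem_range_scalar_iff_commute_single'.2
        fun i j => hcomm (Matrix.single i j 1)
      have h0 := hvan z hzZ
      rw [← hc, Matrix.scalar_apply, Matrix.trace_diagonal, Finset.sum_const, Finset.card_univ,
        nsmul_eq_mul, mul_eq_zero] at h0
      rcases h0 with h0 | h0
      · exact hd (by exact_mod_cast h0)
      · have hu : IsUnit (ρ z) := ((Group.isUnit z).map ρ)
        rw [← hc, h0, map_zero, isUnit_zero_iff] at hu
        exact zero_ne_one hu
    · obtain ⟨c, -, hc⟩ := (hZ z).1 hz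
      refine Subgroup.mem_center_iff.2 fun g => hinj ?_
      rw [map_mul, map_mul, hc, Matrix.mul_smul, Matrix.smul_mul, mul_one, one_mul]
  -- the character
  let σ : Representation ℂ H (ι → ℂ) := (Matrix.toLinAlgEquiv' (R := ℂ) (n := ι)).toMonoidHom.comp ρ
  have hσ : ∀ h, σ.character h = (ρ h).trace := fun h => Matrix.trace_toLin'_eq (ρ h)
  have hnorm : classInner σ.character σ.character = 1 := by
    rw [Chars.classInner_def]
    have h1 : ∑ g : H, σ.character g * conj (σ.character g) =
        ∑ _z : Z, ((Fintype.card ι : ℂ) * Fintype.card ι) := by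
      rw [← Finset.sum_subset (Finset.subset_univ (Finset.univ.filter (· ∈ Z))) fun g _ hg => by
        rw [hσ, hvan g (by simpa using hg), zero_mul]]
      rw [← Finset.sum_subtype (Finset.univ.filter (· ∈ Z)) (fun g => by simp)
        (fun _ => ((Fintype.card ι : ℂ) * Fintype.card ι))]
      refine Finset.sum_congr rfl fun g hg => ?_
      obtain ⟨c, hc1, hc⟩ := (hZ g).1 (by simpa using hg)
      rw [hσ, hc, Matrix.trace_smul, Matrix.trace_one, smul_eq_mul, map_mul, map_natCast,
        mul_mul_mul_comm, ← Complex.inv_eq_conj (Complex.norm_eq_one_of_pow_eq_one hc1 hn0),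
        mul_inv_cancel₀ (fun h => by rw [h, zero_pow hn0] at hc1; exact zero_ne_one hc1), one_mul]
    rw [h1, Finset.sum_const, Finset.card_univ, nsmul_eq_mul, ← Nat.card_eq_fintype_card (α := Z),
      ← Z.card_mul_index, hidx]
    push_cast
    field_simp
  have hirr := Chars.isIrrCharacter_of_norm_one (Chars.isCharacter_of_rep σ) hnorm
  have hone : σ.character 1 = (Fintype.card ι : ℂ) := by rw [hσ, map_one, Matrix.trace_one]
  have hdeg : charDegree σ.character = Fintype.card ι := by
    have := (Blocks.charDegree_eq hirr).1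
    rw [hone] at this
    exact_mod_cast this.symm
  refine ⟨H, inferInstance, inferInstance, ⟨σ.character, hirr⟩, fun h hh => ?_, ?_, ?_, ?_, ?_⟩
  · simp only [hone] at hh
    by_cases hmem : h ∈ Z
    · obtain ⟨c, hc1, hc⟩ := (hZ h).1 hmem
      rw [hσ, hc, Matrix.trace_smul, Matrix.trace_one, smul_eq_mul] at hh
      have : c = 1 := by
        have hd' : (Fintype.card ι : ℂ) ≠ 0 := by exact_mod_cast hd
        exact (mul_eq_right₀ hd').1 hh
      exact hinj (by rw [hc, this, one_smul, map_one])
    · rw [hσ, hvan h hmem] at hh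
      exact absurd hh.symm (by exact_mod_cast hd)
  · show charDegree σ.character ^ 2 = _
    rw [hdeg, hcenter, hidx]
  · have hmap : Z₀.map (e.symm : H₀ →* H) = Subgroup.center H := by
      rw [hcenter, Subgroup.map_equiv_eq_comap_symm]
      rfl
    let q := QuotientGroup.congr Z₀ (Subgroup.center H) e.symm hmap
    exact ⟨q.toMonoidHom.comp f₀, q.injective.comp hf₀⟩
  · intro r hr
    rw [hcenter, hcard]
    refine ⟨?_, hnG r hr⟩
    rw [← Z.card_mul_index, hcard, hidx, hr.dvd_mul]
    constructor
    · rintro (h | h)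
      · exact (hnG r hr).1 h
      · exact (hnG r hr).1 (hprimes r hr (hr.dvd_of_dvd_pow h))
    · exact fun h => .inl ((hnG r hr).2 h)
  · rw [hcenter, hcard]
    exact hsq

end Cfsg.Agent.S4561
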