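import Cfsg.Statements.S4564
import Cfsg.Agent.Chars2.RamifiedApps

set_option autoImplicit false
open Cfsg Cfsg.Agent

namespace Cfsg.Agent.S4564

/-- Let χ be an irreducible character of the finite group H that is fully ramified over the normal subgroup Z: the restriction of χ to Z is e times an irreducible character of Z with e ^ 2 equal to the index of Z. Let K be a normal subgroup of H containing Z and P a cyclic Sylow p-subgroup of H/K. Then P has a complement in H/K: a subgroup meeting P trivially whose product with P is the whole group. -/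
theorem result {H : Type*} [Group H] [Finite H] (Z : Subgroup H) [Z.Normal] (χ : Cfsg.IrrCharacter H) (hfr : ∃ (θ : Cfsg.IrrCharacter ↥Z) (e : ℕ), e ^ 2 = Z.index ∧ ∀ z : ↥Z, (χ : H → ℂ) z = (e : ℂ) * (θ : ↥Z → ℂ) z) (K : Subgroup H) [K.Normal] (hZK : Z ≤ K) (p : ℕ) [Fact p.Prime] (P : Sylow p (H ⧸ K)) (hcyc : IsCyclic P) : ∃ M : Subgroup (H ⧸ K), M.IsComplement' (P : Subgroup (H ⧸ K)) := by
  classical
  haveI := Fintype.ofFinite H
  haveI : Fintype ↥Z := Fintype.ofFinite _
  obtain ⟨θ, e, he, hres⟩ := hfr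
  have hR : Chars2.RamData Z (χ : H → ℂ) (θ : ↥Z → ℂ) e := ⟨inferInstance, χ.2, θ.2, he, hres⟩
  let S : Sylow p H := default
  let T : Sylow p (H ⧸ K) := S.mapSurjective (QuotientGroup.mk'_surjective K)
  have hTeq : (T : Subgroup (H ⧸ K)) = (S : Subgroup H).map (QuotientGroup.mk' K) :=
    Sylow.coe_mapSurjective _ _
  have hcycT : IsCyclic ((S : Subgroup H).map (QuotientGroup.mk' K)) := by
    rw [← hTeq]
    haveI := hcyc
    exact isCyclic_of_surjective (Sylow.equiv P T).toMonoidHom (MulEquiv.surjective _)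
  obtain ⟨M, hM, hle⟩ := hR.complement_of_cyclic hZK S hcycT
  refine ⟨M, Chars2.isComplement'_of_card_le P.2 hM ?_⟩
  rwa [← hTeq, ← P.card_eq_multiplicity.trans T.card_eq_multiplicity.symm] at hle

end Cfsg.Agent.S4564
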