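import Cfsg.Statements.S4565
import Cfsg.Agent.Chars2.Ramified

set_option autoImplicit false
open Cfsg

namespace Cfsg.Agent.S4565

/-- Let χ be an irreducible character of the finite group H that is fully ramified over the normal subgroup Z: the restriction of χ to Z is e times an irreducible character of Z with e ^ 2 equal to the index of Z. If Z ≠ H, then H/Z has no cyclic subgroup that is its own centralizer. -/
theorem result {H : Type*} [Group H] [Finite H] (Z : Subgroup H) [Z.Normal] (χ : Cfsg.IrrCharacter H) (hfr : ∃ (θ : Cfsg.IrrCharacter ↥Z) (e : ℕ), e ^ 2 = Z.index ∧ ∀ z : ↥Z, (χ : H → ℂ) z = (e : ℂ) * (θ : ↥Z → ℂ) z) (hZ : Z ≠ ⊤) (C : Subgroup (H ⧸ Z)) (hC : IsCyclic C) : Subgroup.centralizer (C : Set (H ⧸ Z)) ≠ C := by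
  classical
  haveI := Fintype.ofFinite H
  haveI := Fintype.ofFinite ↥Z
  intro hc
  obtain ⟨θ, e, hei, hres⟩ := hfr
  obtain ⟨q, hq⟩ := hC.exists_generator
  obtain ⟨g, hg⟩ := QuotientGroup.mk_surjective (q : H ⧸ Z)
  have hgZ : g ∉ Z := by
    intro hgZ
    have hq1 : (q : H ⧸ Z) = 1 := by rw [← hg, QuotientGroup.eq_one_iff]; exact hgZ
    have hbot : ∀ c ∈ C, c = (1 : H ⧸ Z) := fun c hcC => by
      obtain ⟨j, hj⟩ := hq ⟨c, hcC⟩
      have h2 := congrArg Subtype.val hj
      simp only [SubgroupClass.coe_zpow, hq1, one_zpow] at h2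
      exact h2.symm
    refine hZ (eq_top_iff.2 fun x _ => ?_)
    have hx : (x : H ⧸ Z) ∈ Subgroup.centralizer (C : Set (H ⧸ Z)) :=
      Subgroup.mem_centralizer_iff.2 fun c hcC => by rw [hbot c hcC, one_mul, mul_one]
    rw [hc] at hx
    exact (QuotientGroup.eq_one_iff x).1 (hbot _ hx)
  let K : Subgroup H := C.comap (QuotientGroup.mk' Z)
  have hgK : g ∈ K := by
    show (g : H ⧸ Z) ∈ C
    rw [hg]; exact q.2
  have hZK : Z ≤ K := fun z hz => by
    show (z : H ⧸ Z) ∈ C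
    rw [(QuotientGroup.eq_one_iff z).2 hz]; exact C.one_mem
  refine Chars2.centralizer_ne_of_ramified χ.2 θ.2 (funext hres) hei hZK hgK hgZ ?_ ?_
  · intro k hk
    obtain ⟨j, hj⟩ := hq ⟨(k : H ⧸ Z), hk⟩
    refine ⟨j, ?_⟩
    rw [← QuotientGroup.eq_one_iff, QuotientGroup.mk_mul, QuotientGroup.mk_inv,
      QuotientGroup.mk_zpow, hg]
    have h2 := congrArg Subtype.val hj
    simp only [SubgroupClass.coe_zpow] at h2
    rw [h2, inv_mul_cancel]
  · intro x hx
    show (x : H ⧸ Z) ∈ C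
    rw [← hc, Subgroup.mem_centralizer_iff]
    intro c hcC
    have h1 : Commute (q : H ⧸ Z) (x : H ⧸ Z) := by
      have h2 : ((x⁻¹ * g * x * g⁻¹ : H) : H ⧸ Z) = 1 := (QuotientGroup.eq_one_iff _).2 hx
      simp only [QuotientGroup.mk_mul, QuotientGroup.mk_inv, hg] at h2
      rw [mul_inv_eq_one, mul_assoc, inv_mul_eq_iff_eq_mul] at h2
      exact h2
    obtain ⟨j, hj⟩ := hq ⟨c, hcC⟩
    have h3 := congrArg Subtype.val hj
    simp only [SubgroupClass.coe_zpow] at h3
    rw [← h3]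
    exact (h1.zpow_left j).eq

end Cfsg.Agent.S4565
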