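import Cfsg.Statements.S4567
import Cfsg.Agent.Chars2.Ramified

set_option autoImplicit false
open Cfsg

namespace Cfsg.Agent.S4567

/-- Let N be a central subgroup of the finite group G and ψ a faithful irreducible (hence degree-one) character of N. Call a coset g N special when every x ∈ G whose commutator x⁻¹ g⁻¹ x g lies in N actually commutes with g (this depends only on the coset). Then the number of irreducible characters of G whose restriction to N contains ψ equals the number of conjugacy classes of G/N consisting of special cosets. -/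
theorem result {G : Type*} [Group G] [Fintype G] (N : Subgroup G) [N.Normal] [Fintype N] (hN : N ≤ Subgroup.center G) (ψ : Cfsg.IrrCharacter ↥N) (hfaith : ∀ n : ↥N, (ψ : ↥N → ℂ) n = (ψ : ↥N → ℂ) 1 → n = 1) : Nat.card {χ : Cfsg.IrrCharacter G // Cfsg.classInner (fun n : ↥N => (χ : G → ℂ) n) (ψ : ↥N → ℂ) ≠ 0} = Nat.card {C : ConjClasses (G ⧸ N) // ∃ g : G, ConjClasses.mk (g : G ⧸ N) = C ∧ ∀ x : G, x⁻¹ * g⁻¹ * x * g ∈ N → x * g = g * x} := by
  classical
  set special : G → Prop := fun g => ∀ x : G, x⁻¹ * g⁻¹ * x * g ∈ N → x * g = g * x with hspecial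
  set X := {χ : Cfsg.IrrCharacter G //
    Cfsg.classInner (fun n : ↥N => (χ : G → ℂ) n) (ψ : ↥N → ℂ) ≠ 0}
  set Y := {C : ConjClasses (G ⧸ N) // ∃ g : G, ConjClasses.mk (g : G ⧸ N) = C ∧ special g}
  haveI : Fintype X := Fintype.ofFinite X
  haveI : Fintype Y := Fintype.ofFinite Y
  have hr : ∀ C : Y, ∃ g : G, ConjClasses.mk (g : G ⧸ N) = C.1 ∧ special g := fun C => C.2
  choose r hrC hrs using hr
  have hact : ∀ (χ : X) (n : N) (g : G),
      (χ.1 : G → ℂ) ((n : G) * g) = (ψ : N → ℂ) n * (χ.1 : G → ℂ) g :=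
    fun χ => Chars2.apply_mul_of_over χ.1.2 hN ψ.2 χ.2
  have hψne : ∀ n : N, (ψ : N → ℂ) n ≠ 0 := by
    obtain ⟨φ, hφ⟩ := Chars.exists_hom_of_degree_one (Chars.irr_isCharacter ψ)
      (Chars.irr_apply_one_of_comm (fun a b => Subtype.ext
        (Subgroup.mem_center_iff.1 (hN b.2) (a : G))) ψ.2)
    intro n
    rw [show (ψ : N → ℂ) n = (φ n : ℂ) from congrFun hφ n]
    exact Units.ne_zero _
  have hψmul : ∀ a b : N, (ψ : N → ℂ) (a * b) = (ψ : N → ℂ) a * (ψ : N → ℂ) b := by
    obtain ⟨φ, hφ⟩ := Chars.exists_hom_of_degree_one (Chars.irr_isCharacter ψ)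
      (Chars.irr_apply_one_of_comm (fun a b => Subtype.ext
        (Subgroup.mem_center_iff.1 (hN b.2) (a : G))) ψ.2)
    intro a b
    rw [congrFun hφ (a * b), congrFun hφ a, congrFun hφ b, map_mul, Units.val_mul]
  have hvan : ∀ (g : G), ¬ special g → ∀ χ : X, (χ.1 : G → ℂ) g = 0 := by
    intro g hg χ
    simp only [hspecial, not_forall] at hg
    obtain ⟨x, hx, hne⟩ := hg
    refine Chars2.apply_eq_zero_of_commutator χ.1.2 hN ψ.2 hfaith χ.2 hx fun e => hne ?_
    rw [mul_assoc, mul_assoc, inv_mul_eq_one, eq_inv_mul_iff_mul_eq] at e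
    exact e.symm
  have hA : LinearIndependent ℂ (fun (χ : X) (C : Y) => (χ.1 : G → ℂ) (r C)) := by
    rw [Fintype.linearIndependent_iff]
    intro c hc
    have hzero : ∀ g : G, ∑ χ : X, c χ * (χ.1 : G → ℂ) g = 0 := by
      intro g
      by_cases hg : special g
      · set C : Y := ⟨ConjClasses.mk (g : G ⧸ N), g, rfl, hg⟩
        obtain ⟨a, ha⟩ := isConj_iff.1 (ConjClasses.mk_eq_mk_iff_isConj.1 (hrC C))
        obtain ⟨b, rfl⟩ := QuotientGroup.mk_surjective a
        have hmem : b * r C * b⁻¹ * g⁻¹ ∈ N := by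
          rw [← QuotientGroup.eq_one_iff]
          simp only [QuotientGroup.mk_mul, QuotientGroup.mk_inv, ha, mul_inv_cancel]
        have e : ∀ χ : X, (χ.1 : G → ℂ) (r C) =
            (ψ : N → ℂ) ⟨_, hmem⟩ * (χ.1 : G → ℂ) g := fun χ => by
          rw [← hact, ← Chars.isCharacter_conj_apply (Chars.irr_isCharacter χ.1) (r C) b]
          simp
        have h1 := congrFun hc C
        simp only [Finset.sum_apply, Pi.smul_apply, smul_eq_mul, Pi.zero_apply, e] at h1
        refine (mul_eq_zero.1 (Eq.trans ?_ h1)).resolve_left (hψne ⟨_, hmem⟩)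
        rw [Finset.mul_sum]
        exact Finset.sum_congr rfl fun χ _ => by ring
      · exact Finset.sum_eq_zero fun χ _ => by rw [hvan g hg χ, mul_zero]
    intro χ
    have hli := Chars.irr_linearIndependent (G := G)
    have hli' : LinearIndependent ℂ (fun χ : X => (χ.1 : G → ℂ)) :=
      hli.comp (fun χ : X => χ.1) Subtype.val_injective
    refine Fintype.linearIndependent_iff.1 hli' c (funext fun g => ?_) χ
    simpa [Finset.sum_apply] using hzero g
  have hB : LinearIndependent ℂ (fun (C : Y) (χ : X) => (χ.1 : G → ℂ) (r C)) := by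
    rw [Fintype.linearIndependent_iff]
    intro d hd C₀
    set F : G → ℂ := fun h =>
      if hh : h * (r C₀)⁻¹ ∈ N then (ψ : N → ℂ) ⟨_, hh⟩ else 0 with hF
    set f : G → ℂ := fun g => ∑ x : G, F (x⁻¹ * g * x) with hf
    have hfc : Cfsg.IsClassFunction G f := fun g a => by
      refine Fintype.sum_equiv (Equiv.mulLeft a⁻¹) _ _ fun x => ?_
      simp [mul_assoc]
    have hfn : ∀ (n : N) (g : G), f ((n : G) * g) = (ψ : N → ℂ) n * f g := by
      intro n g
      simp only [hf, Finset.mul_sum]
      refine Finset.sum_congr rfl fun x _ => ?_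
      have e : x⁻¹ * ((n : G) * g) * x = (n : G) * (x⁻¹ * g * x) := by
        have hc := Subgroup.mem_center_iff.1 (hN n.2) x⁻¹
        rw [← mul_assoc x⁻¹, hc]; group
      simp only [hF, e]
      by_cases hh : x⁻¹ * g * x * (r C₀)⁻¹ ∈ N
      · have hh' : (n : G) * (x⁻¹ * g * x) * (r C₀)⁻¹ ∈ N := by
          rw [mul_assoc]; exact N.mul_mem n.2 hh
        rw [dif_pos hh, dif_pos hh', ← hψmul]
        exact congrArg _ (Subtype.ext (mul_assoc _ _ _))
      · rw [dif_neg hh, dif_neg, mul_zero]
        intro hh'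
        refine hh ?_
        have := N.mul_mem (N.inv_mem n.2) hh'
        simpa [mul_assoc] using this
    have hexp : ∀ g, f g = ∑ χ : X, Cfsg.classInner f (χ.1 : G → ℂ) * (χ.1 : G → ℂ) g := by
      intro g
      rw [Chars2.apply_eq_sum hfc g,
        ← Finset.sum_subset (s₁ := Finset.univ.filter fun χ : Cfsg.IrrCharacter G =>
          Cfsg.classInner (fun n : ↥N => (χ : G → ℂ) n) (ψ : ↥N → ℂ) ≠ 0) (Finset.subset_univ _)]
      · exact Finset.sum_subtype _ (fun χ => by simp) _
      · intro χ _ hχ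
        simp only [Finset.mem_filter, Finset.mem_univ, true_and, not_ne_iff] at hχ
        obtain ⟨φ, hφ⟩ := Chars2.exists_central_hom χ.2 hN
        obtain ⟨n, hn⟩ : ∃ n : N, (φ n : ℂ) ≠ (ψ : N → ℂ) n := by
          by_contra hall
          push Not at hall
          have e : (fun n : N => (χ : G → ℂ) n) = (χ : G → ℂ) 1 • (ψ : N → ℂ) := funext fun n => by
            have := hφ n 1
            rw [mul_one] at this
            rw [this, hall, Pi.smul_apply, smul_eq_mul, mul_comm]
          rw [e, Chars.classInner_smul_left, Chars.classInner_self_irr ψ.2, mul_one] at hχ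
          exact Chars.irr_apply_one_ne_zero χ.2 hχ
        have e1 : Cfsg.classInner f (χ : G → ℂ) =
            (ψ : N → ℂ) n * (starRingEnd ℂ) (φ n : ℂ) * Cfsg.classInner f (χ : G → ℂ) := by
          have hsum : ∑ g, f g * (starRingEnd ℂ) ((χ : G → ℂ) g) =
              (ψ : N → ℂ) n * (starRingEnd ℂ) (φ n : ℂ) *
                ∑ g, f g * (starRingEnd ℂ) ((χ : G → ℂ) g) := by
            rw [Finset.mul_sum]
            refine (Fintype.sum_equiv (Equiv.mulLeft (n : G)) _ _ fun g => ?_).symm
            simp only [Equiv.coe_mulLeft, hfn, hφ, map_mul]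
            ring
          rw [Chars.classInner_def]
          linear_combination (Nat.card G : ℂ)⁻¹ * hsum
        have hnorm : (φ n : ℂ) * (starRingEnd ℂ) (φ n : ℂ) = 1 := by
          rw [Complex.mul_conj']
          have : ‖(φ n : ℂ)‖ = 1 := Complex.norm_eq_one_of_pow_eq_one (n := Nat.card N)
            (by rw [← Units.val_pow_eq_pow_val, ← map_pow, pow_card_eq_one', map_one, Units.val_one])
            Nat.card_pos.ne'
          simp [this]
        by_contra h0
        have h1 := mul_right_cancel₀ (left_ne_zero_of_mul h0) (e1.symm.trans (one_mul _).symm)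
        refine hn ?_
        linear_combination (ψ : N → ℂ) n * hnorm - (φ n : ℂ) * h1
    have hf0 : ∀ C : Y, C ≠ C₀ → f (r C) = 0 := by
      intro C hne
      refine Finset.sum_eq_zero fun x _ => ?_
      simp only [hF]
      rw [dif_neg]
      intro hh
      refine hne (Subtype.ext ?_)
      rw [← hrC C, ← hrC C₀, ConjClasses.mk_eq_mk_iff_isConj, isConj_iff]
      refine ⟨(x⁻¹ : G), ?_⟩
      have h2 := (QuotientGroup.eq_one_iff _).2 hh
      simp only [QuotientGroup.mk_mul, QuotientGroup.mk_inv, mul_inv_eq_one] at h2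
      simpa using h2
    have hfr : f (r C₀) ≠ 0 := by
      have hterm : ∀ x : G, F (x⁻¹ * r C₀ * x) =
          if x⁻¹ * r C₀ * x * (r C₀)⁻¹ ∈ N then 1 else 0 := by
        intro x
        simp only [hF]
        split_ifs with hh
        · have h1 : x⁻¹ * (r C₀)⁻¹ * x * r C₀ ∈ N := by
            have := N.inv_mem hh
            have h2 := ‹N.Normal›.conj_mem' _ this (r C₀)
            simpa [mul_assoc] using h2
          have h3 := hrs C₀ x h1
          have : (⟨x⁻¹ * r C₀ * x * (r C₀)⁻¹, hh⟩ : N) = 1 := Subtype.ext (by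
            show x⁻¹ * r C₀ * x * (r C₀)⁻¹ = 1
            rw [mul_inv_eq_one, mul_assoc, ← h3, inv_mul_cancel_left])
          rw [this]
          obtain ⟨φ, hφ⟩ := Chars.exists_hom_of_degree_one (Chars.irr_isCharacter ψ)
            (Chars.irr_apply_one_of_comm (fun a b => Subtype.ext
              (Subgroup.mem_center_iff.1 (hN b.2) (a : G))) ψ.2)
          rw [congrFun hφ 1, map_one, Units.val_one]
        · rfl
      simp only [hf]
      rw [Finset.sum_congr rfl fun x _ => hterm x, ← Finset.sum_filter, Finset.sum_const,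
        nsmul_eq_mul, mul_one, Nat.cast_ne_zero]
      exact Finset.card_ne_zero.2 ⟨1, by simp⟩
    have key : ∑ C : Y, d C * f (r C) = 0 := by
      simp only [hexp, Finset.mul_sum]
      rw [Finset.sum_comm]
      refine Finset.sum_eq_zero fun χ _ => ?_
      have h1 := congrFun hd χ
      simp only [Finset.sum_apply, Pi.smul_apply, smul_eq_mul, Pi.zero_apply] at h1
      calc ∑ C : Y, d C * (Cfsg.classInner f (χ.1 : G → ℂ) * (χ.1 : G → ℂ) (r C))
          = Cfsg.classInner f (χ.1 : G → ℂ) * ∑ C : Y, d C * (χ.1 : G → ℂ) (r C) := by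
            rw [Finset.mul_sum]; exact Finset.sum_congr rfl fun C _ => by ring
        _ = 0 := by rw [h1, mul_zero]
    rw [Finset.sum_eq_single C₀ (fun C _ hne => by rw [hf0 C hne, mul_zero])
      (fun h => absurd (Finset.mem_univ _) h)] at key
    exact (mul_eq_zero.1 key).resolve_right hfr
  have h1 := hA.fintype_card_le_finrank
  have h2 := hB.fintype_card_le_finrank
  rw [Module.finrank_fintype_fun_eq_card] at h1 h2
  rw [Nat.card_eq_fintype_card, Nat.card_eq_fintype_card]
  exact le_antisymm h1 h2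

end Cfsg.Agent.S4567
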