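import Cfsg.Statements.S4571
import Cfsg.Agent.S0941
import Cfsg.Agent.Blocks.Orth
import Cfsg.Agent.Blocks.Covering
-- import your own Cfsg.Agent.* helpers here

set_option autoImplicit false
open Cfsg

namespace Cfsg.Agent.S4571

/-- Let Q be a normal p-subgroup of the finite group G with G = Q·C_G(Q), and M a maximal ideal of the algebraic integers containing p. Then the principal p-blocks of G and of G/Q have the same p-regular rank (the same number of irreducible Brauer characters). -/
theorem result {G : Type*} [Group G] [Finite G] (p : ℕ) [Fact p.Prime] (M : Ideal Cfsg.AlgInt) (hM : Cfsg.IsPModular p M) (Q : Subgroup G) [Q.Normal] (hQ : IsPGroup p Q) (hsup : Q ⊔ Subgroup.centralizer (Q : Set G) = ⊤) : Cfsg.blockRank p (Cfsg.principalBlock M G) = Cfsg.blockRank p (Cfsg.principalBlock M (G ⧸ Q)) := by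
  classical
  haveI : Fintype G := Fintype.ofFinite G
  haveI : Fintype (G ⧸ Q) := Fintype.ofFinite _
  haveI := hM.2.1
  have hpM := hM.2.2
  have hp := (Fact.out : p.Prime)
  set π := QuotientGroup.mk' Q with hπ
  have hπs : Function.Surjective π := QuotientGroup.mk'_surjective Q
  haveI : (Subgroup.centralizer (Q : Set G)).Normal := Subgroup.normal_centralizer
  have hidx : ∃ k, (Subgroup.centralizer (Q : Set G)).index = p ^ k := by
    obtain ⟨k, hk⟩ := hQ.index ((Subgroup.centralizer (Q : Set G)).subgroupOf Q)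
    refine ⟨k, ?_⟩
    rw [← hk, ← Subgroup.relIndex_top_right, ← hsup]
    show (Subgroup.centralizer (Q : Set G)).relIndex (Q ⊔ Subgroup.centralizer (Q : Set G)) = _
    rw [Subgroup.relIndex_sup_right]
    rfl
  have hregC : ∀ r : G, ¬ p ∣ orderOf r → r ∈ Subgroup.centralizer (Q : Set G) := fun r hr => by
    obtain ⟨k, hk⟩ := hidx
    have h1 : r ^ p ^ k ∈ Subgroup.centralizer (Q : Set G) := hk ▸ Subgroup.pow_index_mem _ r
    have hc : Nat.Coprime (orderOf r) (p ^ k) := (hp.coprime_iff_not_dvd.2 hr).symm.pow_right k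
    obtain ⟨i, hi⟩ := exists_pow_eq_self_of_coprime hc.symm
    rw [← hi]
    exact Subgroup.pow_mem _ h1 i
  -- regular classes of the quotient lift uniquely
  have huniq : ∀ r r' : G, ¬ p ∣ orderOf r → ¬ p ∣ orderOf r' → IsConj (π r) (π r') → IsConj r r' := by
    intro r r' hr hr' hc
    obtain ⟨a, ha⟩ := isConj_iff.1 hc
    obtain ⟨g, rfl⟩ := hπs a
    set s := g * r * g⁻¹ with hs
    have hsr : ¬ p ∣ orderOf s := by rw [hs, ← MulAut.conj_apply, MulEquiv.orderOf_eq]; exact hr
    have hq : s⁻¹ * r' ∈ Q := by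
      rw [← QuotientGroup.ker_mk' Q, MonoidHom.mem_ker, map_mul, map_inv, hs, map_mul, map_mul,
        map_inv, ha, inv_mul_cancel]
    obtain ⟨j, hj⟩ := IsPGroup.iff_orderOf.1 hQ ⟨_, hq⟩
    rw [Subgroup.orderOf_mk] at hj
    have hcom : Commute (s⁻¹ * r') s := Subgroup.mem_centralizer_iff.1 (hregC s hsr) _ hq
    have h1 := Blocks.ppart_mul hcom ⟨j, hj⟩ hsr
    rw [hcom.eq, mul_inv_cancel_left, Blocks.ppart_one_iff.2 hr'] at h1
    exact isConj_iff.2 ⟨g, (inv_mul_eq_one.1 h1.symm)⟩
  have hlift : ∀ y : G ⧸ Q, ¬ p ∣ orderOf y → ∃ r : G, ¬ p ∣ orderOf r ∧ π r = y := by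
    intro y hy
    obtain ⟨a, rfl⟩ := hπs y
    obtain ⟨g, hga, -, ⟨k, hk⟩, hgreg⟩ := Blocks.isPPart_ppart (p := p) a
    refine ⟨g, hgreg, ?_⟩
    have h1 : orderOf (π (Blocks.ppart p a)) ∣ p ^ k := hk ▸ orderOf_map_dvd π _
    have h2 : orderOf (π (Blocks.ppart p a)) ∣ orderOf (π a) := by
      rw [Blocks.ppart, map_pow]; exact orderOf_pow_dvd _
    have hone : π (Blocks.ppart p a) = 1 := orderOf_eq_one_iff.1 (Nat.eq_one_of_dvd_coprimes
      (Nat.Coprime.pow_left k (hp.coprime_iff_not_dvd.2 hy)) h1 h2)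
    rw [← hga, map_mul, hone, one_mul]
  have hπreg : ∀ r : G, ¬ p ∣ orderOf r → ¬ p ∣ orderOf (π r) :=
    fun r hr h => hr (h.trans (orderOf_map_dvd π r))
  let infl : IrrCharacter (G ⧸ Q) → IrrCharacter G := fun ψ =>
    ⟨_, Chars.isIrrCharacter_comp_surjective ψ.2 π hπs⟩
  have hinfl : ∀ ψ, ψ ∈ principalBlock M (G ⧸ Q) ↔ infl ψ ∈ principalBlock M G := fun ψ =>
    (Cfsg.Agent.S0941.result p M hM Q hQ hidx).1 (Blocks.oneChar _) ψ
  have hpr : ∀ {H : Type _} [Group H] (χ : H → ℂ) (x : H),
      pRegularPart p χ x = if p ∣ orderOf x then 0 else χ x := fun χ x => by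
    simp only [pRegularPart, IsPRegular]
    by_cases h : p ∣ orderOf x <;> simp [h]
  let L : ((G ⧸ Q) → ℂ) →ₗ[ℂ] (G → ℂ) :=
    { toFun := fun f g => if p ∣ orderOf g then 0 else f (π g)
      map_add' := fun f f' => funext fun g => by simp only [Pi.add_apply]; split_ifs <;> simp
      map_smul' := fun c f => funext fun g => by
        simp only [Pi.smul_apply, RingHom.id_apply]; split_ifs <;> simp }
  have hL : ∀ ψ : IrrCharacter (G ⧸ Q), L (pRegularPart p (ψ : G ⧸ Q → ℂ)) =
      pRegularPart p (infl ψ : G → ℂ) := fun ψ => funext fun g => by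
    show (if p ∣ orderOf g then 0 else pRegularPart p (ψ : G ⧸ Q → ℂ) (π g)) = _
    rw [hpr, hpr]
    by_cases h : p ∣ orderOf g
    · simp [h]
    · simp [h, hπreg g h]; rfl
  set S := Submodule.span ℂ ((fun ψ : IrrCharacter (G ⧸ Q) => pRegularPart p (ψ : G ⧸ Q → ℂ)) ''
    principalBlock M (G ⧸ Q)) with hS
  set T := Submodule.span ℂ ((fun χ : IrrCharacter G => pRegularPart p (χ : G → ℂ)) ''
    principalBlock M G) with hT
  have hST : S.map L = T := by
    rw [hS, Submodule.map_span, ← Set.image_comp, hT]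
    refine le_antisymm (Submodule.span_le.2 ?_) (Submodule.span_le.2 ?_)
    · rintro _ ⟨ψ, hψ, rfl⟩
      exact Submodule.subset_span ⟨infl ψ, (hinfl ψ).1 hψ, (hL ψ).symm⟩
    · rintro _ ⟨χ, hχ, rfl⟩
      -- expand `χ` on the regular classes of the quotient
      let fbar : G ⧸ Q → ℂ := fun y => if h : p ∣ orderOf y then 0 else (χ : G → ℂ) (hlift y h).choose
      have hfbar : ∀ r : G, ¬ p ∣ orderOf r → fbar (π r) = (χ : G → ℂ) r := by
        intro r hr
        simp only [fbar, dif_neg (hπreg r hr)]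
        obtain ⟨h1, h2⟩ := (hlift _ (hπreg r hr)).choose_spec
        exact (Blocks.isClassFunction_eq (Chars.isClassFunction_irr χ)
          (huniq r _ hr h1 (by rw [h2])))
      have hfc : IsClassFunction (G ⧸ Q) fbar := by
        intro y c
        have ho : orderOf (c * y * c⁻¹) = orderOf y := by
          rw [← MulAut.conj_apply, MulEquiv.orderOf_eq]
        by_cases hy : p ∣ orderOf y
        · simp [fbar, hy, ho]
        · obtain ⟨r, hr, rfl⟩ := hlift y hy
          obtain ⟨g, rfl⟩ := hπs c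
          rw [← map_inv, ← map_mul, ← map_mul, hfbar r hr,
            hfbar _ (by rw [← MulAut.conj_apply, MulEquiv.orderOf_eq]; exact hr)]
          exact Chars.isClassFunction_irr χ r g
      set a : IrrCharacter (G ⧸ Q) → ℂ := fun ψ => classInner fbar (ψ : G ⧸ Q → ℂ)
      set s := Finset.univ.filter (· ∈ principalBlock M (G ⧸ Q))
      have hexp : ∀ r : G, ¬ p ∣ orderOf r →
          (χ : G → ℂ) r = ∑ ψ, a ψ * (infl ψ : G → ℂ) r := by
        intro r hr
        rw [← hfbar r hr, congrFun (Chars.eq_sum_classInner hfc) (π r), Finset.sum_apply]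
        rfl
      set v : G → ℂ := fun r => (χ : G → ℂ) r - ∑ ψ ∈ s, a ψ * (infl ψ : G → ℂ) r with hv
      have hv2 : ∀ r : G, ¬ p ∣ orderOf r → v r = ∑ ψ ∈ sᶜ, a ψ * (infl ψ : G → ℂ) r := by
        intro r hr
        simp only [hv]
        rw [hexp r hr, ← Finset.sum_add_sum_compl s, add_sub_cancel_left]
      have hv0 : ∀ r : G, ¬ p ∣ orderOf r → v r = 0 := by
        have horth : ∀ (φ : IrrCharacter G) (ψ : IrrCharacter (G ⧸ Q)), φ ∈ principalBlock M G →
            ψ ∉ principalBlock M (G ⧸ Q) →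
            ∑ r ∈ Blocks.regs p G, (φ : G → ℂ) r * (starRingEnd ℂ) ((infl ψ : G → ℂ) r) = 0 := by
          intro φ ψ hφ hψ
          have h := Blocks.regInner_eq_zero hpM (χ := φ) (ψ := infl ψ) fun hs => hψ ((hinfl ψ).2 ?_)
          · rw [Blocks.regInner, mul_eq_zero] at h
            exact h.resolve_left (inv_ne_zero Chars.card_ne_zero)
          · exact Blocks.sameBlock_trans hφ hs
        have hzero : ∑ r ∈ Blocks.regs p G, v r * (starRingEnd ℂ) (v r) = 0 := by
          rw [Finset.sum_congr rfl (g := fun r =>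
            ∑ ψ ∈ sᶜ, v r * (starRingEnd ℂ) (a ψ * (infl ψ : G → ℂ) r)) fun r hr => ?_,
            Finset.sum_comm]
          · refine Finset.sum_eq_zero fun ψ hψ => ?_
            have hψ' : ψ ∉ principalBlock M (G ⧸ Q) := by simpa [s] using hψ
            simp only [hv, map_mul, sub_mul, Finset.sum_mul, Finset.sum_sub_distrib]
            rw [Finset.sum_comm, sub_eq_zero]
            trans (0 : ℂ)
            · simp only [← mul_assoc, mul_comm _ ((starRingEnd ℂ) (a ψ))]
              simp only [mul_assoc, ← Finset.mul_sum]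
              rw [horth χ ψ hχ hψ', mul_zero]
            · symm
              refine Finset.sum_eq_zero fun φ hφ => ?_
              have hφ' := (hinfl φ).1 (Finset.mem_filter.1 hφ).2
              rw [Finset.sum_congr rfl (g := fun r => (a φ * (starRingEnd ℂ) (a ψ)) *
                ((infl φ : G → ℂ) r * (starRingEnd ℂ) ((infl ψ : G → ℂ) r))) fun r _ => by ring,
                ← Finset.mul_sum, horth _ ψ hφ' hψ', mul_zero]
          · rw [← Finset.mul_sum, ← map_sum, ← hv2 r (Blocks.mem_regs.1 hr)]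
        intro r hr
        have hnn : ∑ r ∈ Blocks.regs p G, ‖v r‖ ^ 2 = 0 := by
          apply Complex.ofReal_injective
          rw [Complex.ofReal_sum, Complex.ofReal_zero, ← hzero]
          refine Finset.sum_congr rfl fun r _ => ?_
          rw [Complex.mul_conj']; push_cast; rfl
        have := (Finset.sum_eq_zero_iff_of_nonneg fun r _ => sq_nonneg ‖v r‖).1 hnn r
          (Blocks.mem_regs.2 hr)
        simpa using this
      show pRegularPart p (χ : G → ℂ) ∈ _
      have : pRegularPart p (χ : G → ℂ) = ∑ ψ ∈ s, a ψ • L (pRegularPart p (ψ : G ⧸ Q → ℂ)) := by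
        funext r
        simp only [Finset.sum_apply, Pi.smul_apply, smul_eq_mul, hL, hpr]
        by_cases hr : p ∣ orderOf r
        · simp [hr]
        · simp only [hr, if_false]
          exact sub_eq_zero.1 (hv0 r hr)
      rw [this]
      refine Submodule.sum_mem _ fun ψ hψ => Submodule.smul_mem _ _ ?_
      exact Submodule.subset_span ⟨ψ, (Finset.mem_filter.1 hψ).2, rfl⟩
  have hinj : Function.Injective (L.domRestrict S) := by
    intro f f' he
    have hsupp : ∀ h ∈ S, ∀ y : G ⧸ Q, p ∣ orderOf y → h y = 0 := by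
      intro h hh y hy
      induction hh using Submodule.span_induction with
      | mem x hx => obtain ⟨ψ, -, rfl⟩ := hx; show pRegularPart p _ y = 0; rw [hpr, if_pos hy]
      | zero => rfl
      | add x z _ _ hx hz => simp [hx, hz]
      | smul c x _ hx => simp [hx]
    refine Subtype.ext (funext fun y => ?_)
    by_cases hy : p ∣ orderOf y
    · rw [hsupp _ f.2 y hy, hsupp _ f'.2 y hy]
    · obtain ⟨r, hr, rfl⟩ := hlift y hy
      simpa [L, hr] using congrFun he r
  show Module.finrank ℂ T = Module.finrank ℂ S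
  rw [← hST, ← LinearMap.range_domRestrict]
  exact LinearMap.finrank_range_of_inj hinj

end Cfsg.Agent.S4571
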