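import Cfsg.Statements.S4574
import Cfsg.Agent.Chars.GaloisValues
import Cfsg.Agent.Chars.Orth
import Cfsg.Agent.Chars2.Values

set_option autoImplicit false
open Cfsg

namespace Cfsg.Agent.S4574

/-- Let χ be an irreducible character of the finite group G, of degree d, and let Z(χ) be the set of elements g with |χ g| = d (the centre of χ). Then χ vanishes on at least (d ^ 2 - 1) · |Z(χ)| elements of G, with equality when every value |χ g| is 0, 1 or d. -/
theorem result {G : Type*} [Group G] [Fintype G] [DecidableEq G] (χ : G → ℂ) (hχ : Cfsg.IsIrrCharacter G χ) : (Cfsg.charDegree χ ^ 2 - 1) * (Finset.univ.filter (fun g : G => ‖χ g‖ = (Cfsg.charDegree χ : ℝ))).card ≤ (Finset.univ.filter (fun g : G => χ g = 0)).card ∧ ((∀ g : G, ‖χ g‖ = 0 ∨ ‖χ g‖ = 1 ∨ ‖χ g‖ = (Cfsg.charDegree χ : ℝ)) → (Cfsg.charDegree χ ^ 2 - 1) * (Finset.univ.filter (fun g : G => ‖χ g‖ = (Cfsg.charDegree χ : ℝ))).card = (Finset.univ.filter (fun g : G => χ g = 0)).card) := by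
  classical
  have hc := Chars.isCharacter_of_isIrr hχ
  obtain ⟨d, hd0, hd⟩ := Chars.exists_irr_apply_one_eq hχ
  have hdd : Cfsg.charDegree χ = d := by rw [Cfsg.charDegree, hd, Complex.natCast_re, Nat.floor_natCast]
  rw [hdd]
  have hsq : ∀ g, χ g * χ g⁻¹ = ((‖χ g‖ ^ 2 : ℝ) : ℂ) := fun g => by
    rw [Chars.char_inv_eq_conj hc, Complex.mul_conj, Complex.normSq_eq_norm_sq]
  set Z := Finset.univ.filter (fun g : G => ‖χ g‖ = (d : ℝ)) with hZdef
  set N0 := Finset.univ.filter (fun g : G => χ g = 0) with hN0def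
  set T := Finset.univ.filter (fun g : G => χ g ≠ 0 ∧ ‖χ g‖ ≠ (d : ℝ)) with hTdef
  have hd0' : (0 : ℝ) < d := by exact_mod_cast hd0
  have hsum : ∑ g : G, ‖χ g‖ ^ 2 = (Fintype.card G : ℝ) := by
    have h := Chars.classInner_self_irr hχ
    rw [Chars.classInner_def, inv_mul_eq_iff_eq_mul₀ Chars.card_ne_zero, mul_one] at h
    have h2 : ((∑ g : G, ‖χ g‖ ^ 2 : ℝ) : ℂ) = ((Fintype.card G : ℝ) : ℂ) := by
      rw [Complex.ofReal_natCast, ← Nat.card_eq_fintype_card, ← h, Complex.ofReal_sum]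
      refine Finset.sum_congr rfl fun g _ => ?_
      rw [Complex.mul_conj, Complex.normSq_eq_norm_sq]
    exact_mod_cast h2
  have hdisj : Disjoint Z N0 := Finset.disjoint_left.mpr fun g h1 h2 => by
    simp only [Z, N0, Finset.mem_filter] at h1 h2
    rw [h2.2, norm_zero] at h1
    linarith [h1.2]
  have hdisj2 : Disjoint (Z ∪ N0) T := Finset.disjoint_left.mpr fun g h1 h2 => by
    simp only [Z, N0, T, Finset.mem_filter, Finset.mem_union] at h1 h2
    rcases h1 with h | h
    · exact h2.2.2 h.2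
    · exact h2.2.1 h.2
  have huniv : (Finset.univ : Finset G) = Z ∪ N0 ∪ T := by
    ext g
    simp only [Z, N0, T, Finset.mem_univ, Finset.mem_union, Finset.mem_filter, true_and, true_iff]
    tauto
  have hsplit : (Fintype.card G : ℝ) = (Z.card : ℝ) * (d : ℝ) ^ 2 + ∑ g ∈ T, ‖χ g‖ ^ 2 := by
    rw [← hsum, huniv, Finset.sum_union hdisj2, Finset.sum_union hdisj,
      Finset.sum_congr rfl (g := fun _ => (d : ℝ) ^ 2) (fun g hg => by
        rw [(Finset.mem_filter.mp hg).2]),
      Finset.sum_eq_zero (s := N0) (fun g hg => by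
        rw [(Finset.mem_filter.mp hg).2, norm_zero]; norm_num), Finset.sum_const, nsmul_eq_mul, add_zero]
  have hcard : (Fintype.card G : ℝ) = Z.card + N0.card + T.card := by
    rw [← Finset.card_univ, huniv, Finset.card_union_of_disjoint hdisj2,
      Finset.card_union_of_disjoint hdisj]
    push_cast; ring
  -- the Burnside product
  set f : G → ℝ := fun g => ‖χ g‖ ^ 2 with hf
  have haut : ∀ σ : ℂ ≃+* ℂ, ∃ k : ℕ, k.Coprime (Nat.card G) ∧ ∀ g, σ (f g : ℂ) = (f (g ^ k) : ℂ) := by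
    intro σ
    obtain ⟨k, hk, hσ⟩ := Chars.exists_aut_apply (G := G) σ
    refine ⟨k, hk, fun g => ?_⟩
    simp only [hf]
    rw [← hsq, ← hsq, map_mul, hσ χ hc, hσ χ hc, inv_pow]
  have hTclosed : ∀ σ : ℂ ≃+* ℂ, ∀ k : ℕ, (∀ g, σ (f g : ℂ) = (f (g ^ k) : ℂ)) → ∀ g ∈ T, g ^ k ∈ T := by
    intro σ k hσ g hg
    simp only [T, Finset.mem_filter, Finset.mem_univ, true_and] at hg ⊢
    constructor
    · intro h
      have h1 := hσ g
      simp only [hf, h, norm_zero] at h1
      apply hg.1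
      have h2 : ((‖χ g‖ ^ 2 : ℝ) : ℂ) = 0 := by
        apply σ.injective
        rw [h1, map_zero]; norm_num
      rw [Complex.ofReal_eq_zero] at h2
      exact norm_eq_zero.mp (eq_zero_of_pow_eq_zero h2)
    · intro h
      apply hg.2
      have h1 := hσ g
      simp only [hf, h] at h1
      have h2 : ((‖χ g‖ ^ 2 : ℝ) : ℂ) = (((d : ℝ) ^ 2 : ℝ) : ℂ) := by
        apply σ.injective
        rw [h1]
        push_cast
        rw [map_pow, map_natCast]
      rw [Complex.ofReal_inj] at h2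
      exact (pow_left_inj₀ (norm_nonneg _) (Nat.cast_nonneg _) two_ne_zero).mp h2
  have hprod : ∀ σ : ℂ ≃+* ℂ, σ (∏ g ∈ T, (f g : ℂ)) = ∏ g ∈ T, (f g : ℂ) := by
    intro σ
    obtain ⟨k, hk, hσ⟩ := haut σ
    have hbij : Function.Bijective fun g : G => g ^ k := (Nat.Coprime.symm hk).pow_left_bijective
    rw [map_prod, Finset.prod_congr rfl (fun g _ => hσ g)]
    have himg : T.image (fun g => g ^ k) = T :=
      Finset.eq_of_subset_of_card_le (Finset.image_subset_iff.mpr (hTclosed σ k hσ))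
        (by rw [Finset.card_image_of_injective _ hbij.1])
    conv_rhs => rw [← himg, Finset.prod_image (fun a _ b _ h => hbij.1 h)]
  have hint : IsIntegral ℤ (∏ g ∈ T, (f g : ℂ)) := IsIntegral.prod _ fun g _ => by
    simp only [hf]
    rw [← hsq]
    exact (Chars.isIntegral_of_isCharacter hc g).mul (Chars.isIntegral_of_isCharacter hc g⁻¹)
  obtain ⟨z, hz⟩ := Chars.exists_int_of_fixed hint hprod
  have hfpos : ∀ g ∈ T, 0 < f g := fun g hg => by
    simp only [T, Finset.mem_filter] at hg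
    exact pow_pos (norm_pos_iff.mpr hg.2.1) 2
  have hz1 : (1 : ℝ) ≤ ∏ g ∈ T, f g := by
    have h : (∏ g ∈ T, f g) = (z : ℝ) := by
      apply Complex.ofReal_injective
      rw [Complex.ofReal_prod, hz, Complex.ofReal_intCast]
    have h0 := Finset.prod_pos hfpos
    rw [h] at h0 ⊢
    have : (0 : ℤ) < z := by exact_mod_cast h0
    exact_mod_cast this
  have hT : (T.card : ℝ) ≤ ∑ g ∈ T, f g := by
    have h : Real.log (∏ g ∈ T, f g) ≤ ∑ g ∈ T, (f g - 1) := by
      rw [Real.log_prod (fun g hg => (hfpos g hg).ne')]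
      exact Finset.sum_le_sum fun g hg => Real.log_le_sub_one_of_pos (hfpos g hg)
    have h' := Real.log_nonneg hz1
    rw [Finset.sum_sub_distrib, Finset.sum_const, nsmul_eq_mul, mul_one] at h
    linarith
  have hd1 : 1 ≤ d ^ 2 := Nat.one_le_pow _ _ hd0
  constructor
  · have h : (((d ^ 2 - 1) * Z.card : ℕ) : ℝ) ≤ (N0.card : ℝ) := by
      rw [Nat.cast_mul, Nat.cast_sub hd1]
      push_cast
      simp only [hf] at hT
      linarith [hsplit, hcard]
    exact_mod_cast h
  · intro hall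
    have hTeq : ∑ g ∈ T, ‖χ g‖ ^ 2 = (T.card : ℝ) := by
      rw [Finset.sum_congr rfl (g := fun _ => (1 : ℝ)) (fun g hg => ?_), Finset.sum_const, nsmul_eq_mul, mul_one]
      simp only [T, Finset.mem_filter] at hg
      rcases hall g with h | h | h
      · exact absurd (norm_eq_zero.mp h) hg.2.1
      · rw [h]; norm_num
      · exact absurd h hg.2.2
    have h : (((d ^ 2 - 1) * Z.card : ℕ) : ℝ) = (N0.card : ℝ) := by
      rw [Nat.cast_mul, Nat.cast_sub hd1]
      push_cast
      linarith [hsplit, hcard]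
    exact_mod_cast h

end Cfsg.Agent.S4574
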