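import Cfsg.Statements.S4580
import Cfsg.Agent.Blocks.RealOdd
-- import your own Cfsg.Agent.* helpers here

set_option autoImplicit false
open Cfsg

namespace Cfsg.Agent.S4580

/-- Let N be a normal subgroup of the finite group G, M a maximal ideal of the algebraic integers containing 2, and θ a real-valued irreducible character of N of odd degree that extends to G (some irreducible character of G restricts to θ). Then θ has an extension to G lying in the principal 2-block of G. -/
theorem result {G : Type*} [Group G] [Finite G] (N : Subgroup G) [N.Normal] (M : Ideal Cfsg.AlgInt) (hM : Cfsg.IsPModular 2 M) (θ : Cfsg.IrrCharacter N) (hreal : ∀ n : N, ((θ : N → ℂ) n).im = 0) (hodd : Odd (Cfsg.charDegree (θ : N → ℂ))) (hext : ∃ η : Cfsg.IrrCharacter G, ∀ n : N, (η : G → ℂ) n = (θ : N → ℂ) n) :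
    ∃ η : Cfsg.IrrCharacter G, (∀ n : N, (η : G → ℂ) n = (θ : N → ℂ) n) ∧ η ∈ Cfsg.principalBlock M G := by
  classical
  letI := Fintype.ofFinite G
  letI := Fintype.ofFinite N
  obtain ⟨hp, hMax, hpM⟩ := hM
  haveI := hMax
  obtain ⟨η, hη⟩ := hext
  obtain ⟨η', h1, h2⟩ := Blocks.exists_ext_principal (M := M) hpM N θ
    (fun n => Complex.conj_eq_iff_im.2 (hreal n)) (fun h => (Nat.not_even_iff_odd.2 hodd) (even_iff_two_dvd.2 h)) η hη
  exact ⟨η', h1, h2⟩

end Cfsg.Agent.S4580
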