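import Cfsg.Statements.S4581
import Cfsg.Agent.Blocks.OddLinearCount
-- import your own Cfsg.Agent.* helpers here

set_option autoImplicit false
open Cfsg

namespace Cfsg.Agent.S4581

/-- Let G be a finite solvable group, P a Sylow 2-subgroup and N its normalizer. Then G and N have the same number of real-valued irreducible characters of odd degree; and every odd-degree irreducible character of G is real-valued exactly when the derived subgroup of P equals the Frattini subgroup of P and P is its own normalizer in G. -/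
theorem result {G : Type*} [Group G] [Finite G] [Group.IsSolvable G] (P : Sylow 2 G) :
    Nat.card {χ : Cfsg.IrrCharacter G // (∀ g : G, ((χ : G → ℂ) g).im = 0) ∧ Odd (Cfsg.charDegree (χ : G → ℂ))} =
      Nat.card {ψ : Cfsg.IrrCharacter (Subgroup.normalizer ((P : Subgroup G) : Set G)) // (∀ g, ((ψ : Subgroup.normalizer ((P : Subgroup G) : Set G) → ℂ) g).im = 0) ∧ Odd (Cfsg.charDegree (ψ : Subgroup.normalizer ((P : Subgroup G) : Set G) → ℂ))} ∧
    ((∀ χ : Cfsg.IrrCharacter G, Odd (Cfsg.charDegree (χ : G → ℂ)) → ∀ g : G, ((χ : G → ℂ) g).im = 0) ↔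
      (commutator (P : Subgroup G) = frattini (P : Subgroup G) ∧ Subgroup.normalizer ((P : Subgroup G) : Set G) = (P : Subgroup G))) := by
  classical
  haveI : Fintype G := Fintype.ofFinite G
  set N := Subgroup.normalizer ((P : Subgroup G) : Set G) with hN
  haveI : Fintype ↥N := Fintype.ofFinite _
  have hle : (P : Subgroup G) ≤ N := Subgroup.le_normalizer
  refine ⟨?_, ?_, ?_⟩
  · rw [Blocks.OddLin.card_real_odd P]
    exact (Blocks.OddLin.card_signRel_normalizer P).symm.trans
      (Blocks.OddLin.card_real_odd (G := ↥N) (P.subtype hle)).symm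
  · intro h
    have hall : ∀ χ : G → ℂ, Cfsg.IsIrrCharacter G χ → Odd (Cfsg.charDegree χ) →
        ∀ g, (starRingEnd ℂ) (χ g) = χ g := fun χ hχ ho g =>
      Complex.conj_eq_iff_im.2 (h ⟨χ, hχ⟩ ho g)
    exact ⟨Blocks.OddLin.commutator_eq_frattini_of_all_real P hall,
      le_antisymm (Blocks.OddLin.normalizer_le_of_all_real _ G rfl P hall) hle⟩
  · rintro ⟨hc, hn⟩ χ ho g
    exact Complex.conj_eq_iff_im.1 (Blocks.OddLin.all_real_of_frattini P hc hn χ.2 ho g)

end Cfsg.Agent.S4581
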