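import Cfsg.Statements.S4585
import Cfsg.Agent.Blocks.PFour
-- import your own Cfsg.Agent.* helpers here

set_option autoImplicit false
open Cfsg

namespace Cfsg.Agent.S4585

/-- Let p be a prime and P a group of order p^4. Then P' has index p^2 in P if and only if P has maximal nilpotency class, that is, nilpotency class exactly 3. -/
theorem result {P : Type*} [Group P] [Finite P] (p : ℕ) [Fact p.Prime] (hP : Nat.card P = p ^ 4) :
    (commutator P).index = p ^ 2 ↔ Group.nilpotencyClass P = 3 := by
  have hp := (Fact.out : p.Prime)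
  have hPp : IsPGroup p P := IsPGroup.of_card hP
  haveI := hPp.isNilpotent
  have hle : Nat.card (commutator P) ≤ p ^ 2 :=
    OddLocal.RankTwo.card_commutator_le hPp (le_of_eq hP)
  have h3 : Group.nilpotencyClass P ≤ 3 :=
    Subgroup.lowerCentralSeries_eq_bot_iff_nilpotencyClass_le.1
      (OddLocal.RankTwo.lcs_eq_bot_of_card hPp hle)
  have hcm := (commutator P).card_mul_index
  rw [hP] at hcm
  constructor
  · intro h
    refine le_antisymm h3 ?_
    by_contra hlt
    have h2 : (⊤ : Subgroup P).lowerCentralSeries 2 = ⊥ :=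
      Subgroup.lowerCentralSeries_eq_bot_iff_nilpotencyClass_le.2 (by omega)
    rw [Subgroup.lowerCentralSeries_succ, Subgroup.top_lowerCentralSeries_one] at h2
    have hc : commutator P ≤ Subgroup.center P := fun w hw => Subgroup.mem_center_iff.2 fun z =>
      (Subgroup.mem_centralizer_iff.1
        ((Subgroup.commutator_eq_bot_iff_le_centralizer.1 h2) hw) z (Subgroup.mem_top z))
    have hd : Nat.card (commutator P) = p ^ 2 := by
      rw [h] at hcm
      exact Nat.eq_of_mul_eq_mul_right (pow_pos hp.pos 2) (hcm.trans (by rw [← pow_add]))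
    have hcz : (Subgroup.center P).index ∣ p ^ 2 := h ▸ Subgroup.index_dvd_of_le hc
    obtain ⟨i, hi, hie⟩ := (Nat.dvd_prime_pow hp).1 hcz
    rcases Nat.lt_or_ge i 2 with hi2 | hi2
    · have : IsCyclic (P ⧸ Subgroup.center P) := by
        interval_cases i
        · haveI : Subsingleton (P ⧸ Subgroup.center P) :=
            (Nat.card_eq_one_iff_unique.mp (by rw [← Subgroup.index_eq_card, hie, pow_zero])).1
          infer_instance
        · exact isCyclic_of_prime_card (by rw [← Subgroup.index_eq_card, hie, pow_one])
      have hb : commutator P = ⊥ := (_root_.commutator_eq_bot_iff P).2 ⟨⟨fun a b =>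
        commutative_of_cyclic_center_quotient (QuotientGroup.mk' (Subgroup.center P))
          (by rw [QuotientGroup.ker_mk']) a b⟩⟩
      rw [hb, Subgroup.card_bot] at hd
      exact (Nat.one_lt_pow two_ne_zero hp.one_lt).ne hd
    · have := Blocks.PFour.card_commutator_of_index hPp (by rw [hie, show i = 2 by omega])
      rw [this] at hd
      nlinarith [hp.two_le]
  · intro h
    have h2 : (⊤ : Subgroup P).lowerCentralSeries 2 ≠ ⊥ := fun hb => by
      have := Subgroup.lowerCentralSeries_eq_bot_iff_nilpotencyClass_le.1 hb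
      omega
    obtain ⟨m, hm⟩ := (hPp.to_subgroup (commutator P)).exists_card_eq
    have hm2 : 2 ≤ m := by
      by_contra hlt
      refine h2 (OddLocal.RankTwo.lcs_eq_bot_of_card hPp (k := 1) ?_)
      rw [hm]; exact Nat.pow_le_pow_right hp.pos (by omega)
    have hm' : m ≤ 2 := (Nat.pow_le_pow_iff_right hp.one_lt).1 (hm ▸ hle)
    rw [hm, show m = 2 by omega] at hcm
    exact Nat.eq_of_mul_eq_mul_left (pow_pos hp.pos 2) (hcm.trans (by rw [← pow_add]))

end Cfsg.Agent.S4585
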