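import Cfsg.Statements.S4586
import Cfsg.Agent.Blocks.IndexP
-- import your own Cfsg.Agent.* helpers here

set_option autoImplicit false
open Cfsg

namespace Cfsg.Agent.S4586

/-- Let p be a prime, P a finite p-group and N a normal subgroup of P of index p. For x ∈ P write c(x) for the number of elements n of N whose commutator x n x⁻¹ n⁻¹ lies in the derived subgroup N' (so c(x)/#N' is the order of the centralizer of x acting on N/N'). Then [P : P'] = p² if and only if c(x) = p·#N' for every x ∈ P outside N, and also if and only if c(x) = p·#N' for some x ∈ P outside N. -/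
theorem result {P : Type*} [Group P] [Finite P] (p : ℕ) [Fact p.Prime] (hP : IsPGroup p P) (N : Subgroup P) [N.Normal] (hN : N.index = p) :
    ((commutator P).index = p ^ 2 ↔ ∀ x : P, x ∉ N →
        Nat.card {n : N // x * n * x⁻¹ * (n : P)⁻¹ ∈ (commutator N).map N.subtype} = p * Nat.card (commutator N)) ∧
    ((commutator P).index = p ^ 2 ↔ ∃ x : P, x ∉ N ∧
        Nat.card {n : N // x * n * x⁻¹ * (n : P)⁻¹ ∈ (commutator N).map N.subtype} = p * Nat.card (commutator N)) := by
  have hp := (Fact.out : p.Prime)
  have key : ∀ x : P, x ∉ N → ((commutator P).index = p ^ 2 ↔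
      Nat.card {n : N // x * n * x⁻¹ * (n : P)⁻¹ ∈ (commutator N).map N.subtype} =
        p * Nat.card (commutator N)) := by
    intro x hx
    have hgen : N ⊔ Subgroup.zpowers x = ⊤ := by
      rcases (Nat.dvd_prime hp).1 (hN ▸ Subgroup.index_dvd_of_le
        (le_sup_left : N ≤ N ⊔ Subgroup.zpowers x)) with h | h
      · exact Subgroup.index_eq_one.1 h
      · exfalso
        have hlt : N < N ⊔ Subgroup.zpowers x := lt_of_le_of_ne le_sup_left fun h' =>
          hx (h' ▸ Subgroup.mem_sup_right (Subgroup.mem_zpowers x))
        have := Subgroup.index_strictAnti hlt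
        omega
    have e := Blocks.IndexP.card_fixed_mul N x hgen
    have eN := N.card_mul_index
    have eP := (commutator P).card_mul_index
    rw [hN] at eN
    have h0 : 0 < Nat.card (commutator N) := Nat.card_pos
    have h0' : 0 < Nat.card (commutator P) := Nat.card_pos
    set c := Nat.card {n : N // x * n * x⁻¹ * (n : P)⁻¹ ∈ (commutator N).map N.subtype} with hc
    set d := Nat.card (commutator P) with hd
    set i := (commutator P).index with hi
    constructor
    · intro h
      rw [h] at eP
      refine Nat.eq_of_mul_eq_mul_right (Nat.mul_pos h0' hp.pos) ?_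
      calc c * (d * p) = c * d * p := by ring
        _ = Nat.card N * Nat.card (commutator N) * p := by rw [e]
        _ = Nat.card N * p * Nat.card (commutator N) := by ring
        _ = Nat.card P * Nat.card (commutator N) := by rw [eN]
        _ = d * p ^ 2 * Nat.card (commutator N) := by rw [eP]
        _ = _ := by ring
    · intro h
      refine Nat.eq_of_mul_eq_mul_left (Nat.mul_pos h0' h0) ?_
      calc d * Nat.card (commutator N) * i = d * i * Nat.card (commutator N) := by ring
        _ = Nat.card N * p * Nat.card (commutator N) := by rw [eP, eN]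
        _ = Nat.card N * Nat.card (commutator N) * p := by ring
        _ = c * d * p := by rw [e]
        _ = _ := by rw [h]; ring
  have hNt : N ≠ ⊤ := fun h => by rw [h, Subgroup.index_top] at hN; exact hp.one_lt.ne hN
  obtain ⟨x₀, hx₀⟩ : ∃ x, x ∉ N := by
    by_contra h
    push Not at h
    exact hNt (eq_top_iff.2 fun x _ => h x)
  exact ⟨⟨fun h x hx => (key x hx).1 h, fun h => (key x₀ hx₀).2 (h x₀ hx₀)⟩,
    ⟨fun h => ⟨x₀, hx₀, (key x₀ hx₀).1 h⟩, fun ⟨x, hx, h⟩ => (key x hx).2 h⟩⟩

end Cfsg.Agent.S4586
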