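import Cfsg.Statements.S4588
import Cfsg.Agent.Chars2.ColumnBound

set_option autoImplicit false
open Cfsg Cfsg.Agent Cfsg.Agent.Blocks Cfsg.Agent.BlockChar Cfsg.Agent.Chars2.Cyc Function

namespace Cfsg.Agent.S4588

/-- Let G be a finite group, p a prime and M a maximal ideal of the algebraic integers containing p. If some p-element x of G (possibly x = 1) has centralizer whose order has p-part at most p², then the principal p-block of G contains at most p² irreducible characters of degree prime to p. -/
theorem result {G : Type*} [Group G] [Finite G] (p : ℕ) [Fact p.Prime] (M : Ideal Cfsg.AlgInt) (hM : Cfsg.IsPModular p M)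
    (hx : ∃ x : G, (∃ k : ℕ, orderOf x = p ^ k) ∧ (Nat.card (Subgroup.centralizer ({x} : Set G))).factorization p ≤ 2) :
    Nat.card {χ : Cfsg.IrrCharacter G // χ ∈ Cfsg.principalBlock M G ∧ ¬ p ∣ Cfsg.charDegree (χ : G → ℂ)} ≤ p ^ 2 := by
  classical
  haveI := Fintype.ofFinite G
  haveI := hM.2.1
  obtain ⟨x, hx, hv⟩ := hx
  refine le_trans (le_of_eq ?_) (Chars2.ColumnBound.card_prime'_le (M := M) hM.2.2 hx hv)
  rw [Nat.card_eq_fintype_card, Fintype.card_subtype]
  refine congrArg Finset.card ?_
  ext χ
  rw [Chars2.ColumnBound.mem_prime']; simp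

end Cfsg.Agent.S4588
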