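import Cfsg.Statements.S4601
import Cfsg.Agent.OddChar.SylowNormalize
import Cfsg.Agent.S4602

set_option autoImplicit false
open Cfsg

namespace Cfsg.Agent.S4601

/-- Let p and q be primes and G a finite group that is p-solvable or q-solvable, in which no q-element has conjugacy class size divisible by p. Then some Sylow p-subgroup of G normalizes some Sylow q-subgroup of G. -/
theorem result {G : Type*} [Group G] [Finite G] (p q : ℕ) [Fact p.Prime] [Fact q.Prime] (hsolv : Cfsg.IsPSolvable p G ∨ Cfsg.IsPSolvable q G)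
    (h : ∀ y : G, (∃ k : ℕ, orderOf y = q ^ k) → ¬ p ∣ (Subgroup.centralizer ({y} : Set G)).index) :
    ∃ (P : Sylow p G) (Q : Sylow q G), (P : Subgroup G) ≤ Subgroup.normalizer ((Q : Subgroup G) : Set G) := by
  by_cases hpq : p = q
  · subst hpq
    obtain ⟨P⟩ : Nonempty (Sylow p G) := inferInstance
    exact ⟨P, P, Subgroup.le_normalizer⟩
  rcases hsolv with hs | hs
  · exact (S4602.result p q hpq hs).mpr (OddChar.not_dvd_index_pPrimeCore hpq hs h)
  · obtain ⟨Q, hQ⟩ := OddChar.qsep_induction (p := p) (q := q) _ G rfl (Core.isPiSeparable_of_isPSolvable hs) h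
    obtain ⟨P, hP⟩ := OddChar.exists_le_normalizer_of_not_dvd hQ
    exact ⟨P, Q, hP⟩

end Cfsg.Agent.S4601
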