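import Cfsg.Statements.S4606
import Cfsg.Agent.FGS4.KMinusL.Count
import Cfsg.Agent.FGS4.KMinusL.Group

set_option autoImplicit false
open Cfsg

namespace Cfsg.Agent.S4606

/-- Let G be a finite group, p a prime, M a maximal ideal of the algebraic integers containing p, and B a p-block of G with defect group D. Suppose the number of irreducible characters in B exceeds the p-regular rank of B (the number of irreducible Brauer characters in B) by exactly one. If B is the principal block, or if G is p-solvable, then D is elementary abelian. -/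
theorem result {G : Type*} [Group G] [Finite G] (p : ℕ) [Fact p.Prime] (M : Ideal Cfsg.AlgInt) (hM : Cfsg.IsPModular p M) (B : Set (Cfsg.IrrCharacter G)) (hB : Cfsg.IsPBlock M B) (D : Subgroup G) (hD : Cfsg.IsDefectGroup p M B D)
    (hk : Nat.card B = Cfsg.blockRank p B + 1) (hB0 : B = Cfsg.principalBlock M G ∨ Cfsg.IsPSolvable p G) :
    Cfsg.IsElementaryAbelian p D := by
  classical
  haveI := hM.2.1
  haveI := Fintype.ofFinite G
  have hpM := hM.2.2
  haveI := BlockChar.charP_res (p := p) hpM
  have hP : IsPGroup p D := ((BlockChar.isDefectGroup_iff_idemG hpM hB D).mp hD).pgroup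
  have hconj : ∀ x ∈ D, ∀ y ∈ D, x ≠ 1 → y ≠ 1 → IsConj x y := fun x hx y hy hx1 hy1 =>
    FGS4.KMinusL.isConj_of_card_eq_succ hpM hB hD hk hx hy hx1 hy1
  refine ⟨?_, FGS4.KMinusL.pow_eq_one_of_conj hP hconj⟩
  rcases hB0 with rfl | hs
  · obtain ⟨S, hS⟩ := (BlockChar.isDefectGroup_principal_iff hpM D).mp hD
    subst hS
    exact FGS4.KMinusL.commutative_of_nilpotent_centralizers S hconj fun x hx hx1 =>
      FGS4.KMinusL.nilpotent_centralizer hpM hk hx1
        (Cfsg.Agent.BlockChar.orderOf_of_mem hP hx)
  · exact FGS4.KMinusL.commutative_of_pSolvable hs hP hconj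

end Cfsg.Agent.S4606
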