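import Cfsg.Statements.S4611
import Cfsg.Agent.Blocks.Inflate
-- import your own Cfsg.Agent.* helpers here

set_option autoImplicit false
open Cfsg

namespace Cfsg.Agent.S4611

/-- Let G be a finite solvable group and π a nonempty set of primes, each dividing the order of G; fix for each p in π a maximal ideal M p of the algebraic integers containing p. Then the only irreducible character lying in the principal p-block for every p in π is the principal character if and only if G is generated by the subgroups O_{p'}(G), p in π (the largest normal subgroups of order prime to p). -/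
theorem result {G : Type*} [Group G] [Finite G] [Group.IsSolvable G] (π : Set ℕ) (hπ : ∀ p ∈ π, p.Prime ∧ p ∣ Nat.card G) (hne : π.Nonempty) (M : ℕ → Ideal Cfsg.AlgInt) (hM : ∀ p ∈ π, Cfsg.IsPModular p (M p)) :
    (∀ χ : Cfsg.IrrCharacter G, (∀ p ∈ π, χ ∈ Cfsg.principalBlock (M p) G) → (χ : G → ℂ) = fun _ => 1) ↔
      ⨆ p ∈ π, Cfsg.pPrimeCore p G = ⊤ := by
  classical
  haveI : Fintype G := Fintype.ofFinite G
  set H := ⨆ p ∈ π, pPrimeCore p G with hH
  constructor
  · intro h
    by_contra hne
    haveI : H.Normal := by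
      haveI : ∀ p, (⨆ (_ : p ∈ π), pPrimeCore p G).Normal := fun p => by
        by_cases hp : p ∈ π <;> simp [hp] <;> infer_instance
      exact ⟨fun n hn g => Subgroup.iSup_induction (fun p => ⨆ (_ : p ∈ π), pPrimeCore p G)
        (C := fun n => g * n * g⁻¹ ∈ H) hn
        (fun p x hx => Subgroup.mem_iSup_of_mem p ((this p).conj_mem x hx g))
        (by simp [H.one_mem]) (fun a b ha hb => by simpa [mul_assoc] using H.mul_mem ha hb)⟩
    haveI : Fintype (G ⧸ H) := Fintype.ofFinite _
    obtain ⟨q, hq⟩ : ∃ q : G ⧸ H, q ≠ 1 := by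
      by_contra hcon
      push Not at hcon
      exact hne (eq_top_iff.2 fun x _ => (QuotientGroup.eq_one_iff x).1 (hcon x))
    obtain ⟨φ, hφ⟩ : ∃ φ : IrrCharacter (G ⧸ H), (φ : G ⧸ H → ℂ) ≠ fun _ => 1 := by
      by_contra hcon
      push Not at hcon
      have hsum := Chars.sum_apply_one_mul (G := G ⧸ H) q
      rw [if_neg hq] at hsum
      have : Nonempty (IrrCharacter (G ⧸ H)) := ⟨Blocks.oneChar _⟩
      rw [Finset.sum_congr rfl (fun φ _ => by rw [hcon φ, mul_one]), Finset.sum_const, nsmul_eq_mul,
        mul_one, Nat.cast_eq_zero, Finset.card_univ] at hsum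
      exact Fintype.card_ne_zero hsum
    let χ : IrrCharacter G := ⟨(φ : G ⧸ H → ℂ) ∘ QuotientGroup.mk,
      Chars.isIrrCharacter_comp_surjective φ.2 (QuotientGroup.mk' H) (QuotientGroup.mk'_surjective H)⟩
    have hmem : ∀ p ∈ π, χ ∈ principalBlock (M p) G := by
      intro p hp
      haveI := Fact.mk (hπ p hp).1
      haveI := (hM p hp).2.1
      rw [Blocks.principalBlock_pSolvable (hM p hp).2.2 Core.isPSolvable_of_isSolvable]
      intro n hn
      have : n ∈ H := le_iSup₂ (f := fun p (_ : p ∈ π) => pPrimeCore p G) p hp hn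
      show (φ : G ⧸ H → ℂ) (QuotientGroup.mk n) = (φ : G ⧸ H → ℂ) (QuotientGroup.mk 1)
      rw [(QuotientGroup.eq_one_iff n).2 this, QuotientGroup.mk_one]
    refine hφ (funext fun x => ?_)
    obtain ⟨x, rfl⟩ := QuotientGroup.mk_surjective x
    exact congrFun (h χ hmem) x
  · intro htop χ hχ
    have hker : H ≤ Chars.charKer (Chars.irr_isCharacter χ) := by
      refine iSup₂_le fun p hp n hn => ?_
      haveI := Fact.mk (hπ p hp).1
      haveI := (hM p hp).2.1
      have h := hχ p hp
      rw [Blocks.principalBlock_pSolvable (hM p hp).2.2 Core.isPSolvable_of_isSolvable] at h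
      exact h n hn
    have hconst : ∀ g, (χ : G → ℂ) g = (χ : G → ℂ) 1 := fun g => hker (htop ▸ Subgroup.mem_top g)
    have h1 : (χ : G → ℂ) 1 = 1 := by
      by_contra hd
      have hne : χ ≠ Blocks.oneChar G := fun e => hd (by rw [e]; rfl)
      have horth := Chars.classInner_irrCharacter χ (Blocks.oneChar G)
      rw [if_neg hne, Chars.classInner_def] at horth
      simp [hconst, Blocks.oneChar, Chars.irr_apply_one_ne_zero χ.2] at horth
    funext g
    rw [hconst g, h1]

end Cfsg.Agent.S4611
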