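import Cfsg.Statements.S4620
import Cfsg.Agent.OddChar.TISocle

set_option autoImplicit false
open scoped Pointwise
open Cfsg

namespace Cfsg.Agent.S4620

/-- Let H be a finite group with no nontrivial normal p-subgroup and no nontrivial normal subgroup of order prime to p, whose Sylow p-subgroup P is nontrivial and a trivial-intersection set (P meets its conjugates by elements outside N_H(P) trivially). Then H has a unique minimal normal subgroup N; N is non-abelian simple with trivial centralizer in H (so H embeds in Aut(N)), and a Sylow p-subgroup of N is again a nontrivial trivial-intersection set in N. -/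
theorem result {H : Type*} [Group H] [Finite H] (p : ℕ) [Fact p.Prime] (hOp : Cfsg.pCore p H = ⊥) (hOp' : Cfsg.pPrimeCore p H = ⊥) (P : Sylow p H) (hP1 : (P : Subgroup H) ≠ ⊥)
    (hTI : ∀ g : H, g ∉ Subgroup.normalizer ((P : Subgroup H) : Set H) → (P : Subgroup H) ⊓ (MulAut.conj g • (P : Subgroup H)) = ⊥) :
    ∃ N : Subgroup H, N.Normal ∧ N ≠ ⊥ ∧ (∀ K : Subgroup H, K.Normal → K ≠ ⊥ → N ≤ K) ∧
      IsSimpleGroup N ∧ ¬ IsMulCommutative N ∧ Subgroup.centralizer (N : Set H) = ⊥ ∧
      ∀ Q : Sylow p N, (Q : Subgroup N) ≠ ⊥ ∧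
        ∀ n : N, n ∉ Subgroup.normalizer ((Q : Subgroup N) : Set N) → (Q : Subgroup N) ⊓ (MulAut.conj n • (Q : Subgroup N)) = ⊥ := by
  have hTI' : OddChar.TIElem (P : Subgroup H) := fun g x hx hx1 hgx => by
    by_contra hg
    have : g * x * g⁻¹ ∈ (P : Subgroup H) ⊓ (MulAut.conj g • (P : Subgroup H)) :=
      ⟨hgx, ⟨x, hx, rfl⟩⟩
    rw [hTI g hg, Subgroup.mem_bot, conj_eq_one_iff] at this
    exact hx1 this
  obtain ⟨N, hN, hN1, hmin⟩ := OddChar.ti_least_normal hOp hOp' P hP1 hTI'
  have hOpN := Core.pCore_eq_bot_of_normal N hOp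
  have hOpN' := Core.pPrimeCore_eq_bot_of_normal N hOp'
  have hpN := OddChar.dvd_card_of_normal hOp' N hN1
  have hQ1 : ∀ Q : Sylow p N, (Q : Subgroup N) ≠ ⊥ := fun Q h => by
    have := Q.dvd_card_of_dvd_card hpN
    rw [h, Subgroup.card_bot] at this
    exact (Fact.out : p.Prime).not_dvd_one this
  have hnc : ¬ IsMulCommutative N := by
    intro hc
    obtain ⟨Q⟩ : Nonempty (Sylow p N) := inferInstance
    have hn : (Q : Subgroup N).Normal := ⟨fun n hn g => by
      rw [mul_comm' g n, mul_inv_cancel_right]; exact hn⟩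
    exact hQ1 Q (le_bot_iff.mp (hOpN ▸ Core.le_pCore hn Q.isPGroup'))
  obtain ⟨Q₀⟩ : Nonempty (Sylow p N) := inferInstance
  obtain ⟨M, hM, hM1, hMmin⟩ :=
    OddChar.ti_least_normal hOpN hOpN' Q₀ (hQ1 Q₀) (OddChar.ti_inherit P hTI' N Q₀)
  refine ⟨N, hN, hN1, hmin, ?_, hnc, ?_, fun Q => ⟨hQ1 Q, fun n hn => ?_⟩⟩
  · haveI : Nontrivial N := (Subgroup.nontrivial_iff_ne_bot N).mpr hN1
    haveI : M.Characteristic := Subgroup.characteristic_iff_map_eq.mpr fun e => by
      have h1 : (M.map e.toMonoidHom) ≠ ⊥ := fun h => hM1 ((Subgroup.map_eq_bot_iff_of_injective _ e.injective).mp h)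
      have h2 := hMmin _ (hM.map _ e.surjective) h1
      exact (Subgroup.eq_of_le_of_card_ge h2 (Subgroup.card_map_of_injective e.injective).le).symm
    have hMn : (M.map N.subtype).Normal := Core.normal_map_subtype_of_characteristic M
    have hle := hmin _ hMn (fun h => hM1 ((Subgroup.map_eq_bot_iff_of_injective _ N.subtype_injective).mp h))
    have hMtop : M = ⊤ := top_unique fun x _ => by
      obtain ⟨y, hy, hyx⟩ := hle x.2
      rwa [← show y = x from N.subtype_injective hyx]
    exact ⟨fun K hK => or_iff_not_imp_left.mpr fun h => top_unique (hMtop ▸ hMmin K hK h)⟩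
  · by_contra hC
    have hle := hmin _ inferInstance hC
    exact hnc ⟨⟨fun a b => Subtype.ext ((Subgroup.mem_centralizer_iff.mp (hle b.2)) a a.2)⟩⟩
  · rw [eq_bot_iff]
    rintro y ⟨hy, hy'⟩
    obtain ⟨x, hx, rfl⟩ := hy'
    by_contra hne
    exact hn (OddChar.ti_inherit P hTI' N Q n x hx (fun h => hne (by simp [h])) hy)

end Cfsg.Agent.S4620
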