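import Cfsg.Statements.S4623
import Cfsg.Agent.Blocks.SymSylowGen
-- import your own Cfsg.Agent.* helpers here

set_option autoImplicit false
open Cfsg

namespace Cfsg.Agent.S4623

/-- For every prime p and every n, a Sylow p-subgroup P of the symmetric group on n letters has P/P' elementary abelian (the p-th power of every element of P lies in the derived subgroup of P), and the same holds for a Sylow p-subgroup of the alternating group on n letters. -/
theorem result (p : ℕ) [Fact p.Prime] (n : ℕ) (P : Sylow p (Equiv.Perm (Fin n))) (Q : Sylow p (alternatingGroup (Fin n))) :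
    (∀ x : (P : Subgroup (Equiv.Perm (Fin n))), x ^ p ∈ commutator (P : Subgroup (Equiv.Perm (Fin n)))) ∧
    (∀ x : (Q : Subgroup (alternatingGroup (Fin n))), x ^ p ∈ commutator (Q : Subgroup (alternatingGroup (Fin n)))) := by
  refine ⟨Blocks.SymSylowGen.pow_mem_commutator _ fun f hf =>
    (Blocks.SymSylowGen.good_sylow P f hf).1, Blocks.SymSylowGen.pow_mem_commutator _ fun f hf => ?_⟩
  obtain ⟨P₁, hP₁⟩ := (Q.2.map (alternatingGroup (Fin n)).subtype).exists_le_sylow
  have hQeq : (P₁ : Subgroup (Equiv.Perm (Fin n))).comap (alternatingGroup (Fin n)).subtype = Q :=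
    Q.is_maximal' (P₁.2.comap_of_injective _ (alternatingGroup (Fin n)).subtype_injective)
      fun x hx => hP₁ (Subgroup.mem_map_of_mem _ hx)
  have h := (Blocks.SymSylowGen.good_sylow P₁ f (hP₁ (Subgroup.mem_map_of_mem _ hf))).2
    (Equiv.Perm.mem_alternatingGroup.1 f.2)
  refine (Subgroup.mem_map_iff_mem (alternatingGroup (Fin n)).subtype_injective).1 ?_
  rw [MonoidHom.map_closure]
  refine Subgroup.closure_mono ?_ h
  rintro x ⟨hx, hxp, hxs⟩
  refine ⟨⟨x, Equiv.Perm.mem_alternatingGroup.2 hxs⟩, ⟨?_, Subtype.ext hxp⟩, rfl⟩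
  rw [← hQeq]
  exact hx

end Cfsg.Agent.S4623
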