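import Cfsg.Statements.S4742
-- import your own Cfsg.Agent.* helpers here
import Cfsg.Agent.BlockChar.DefectZero
import Mathlib.GroupTheory.Sylow

set_option autoImplicit false
set_option linter.style.haveILetI false
open Cfsg

namespace Cfsg.Agent.S4742

open Cfsg.Agent.Chars Cfsg.Agent.BlockChar

/-- Let p ≠ q be primes dividing the order of the finite group G, and suppose the centralizer of every non-identity p-element of G has order prime to q. Then either G has an irreducible character of p-defect zero, or for every non-identity q-element z of G there are conjugates g, h of z such that g h⁻¹ is a non-identity p-element. -/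
theorem result {G : Type*} [Group G] [Finite G] (p q : ℕ) [Fact p.Prime] [Fact q.Prime] (hppq : p ≠ q) (hpG : p ∣ Nat.card G) (hqG : q ∣ Nat.card G) (hC : ∀ g : G, g ≠ 1 → (∃ k : ℕ, orderOf g = p ^ k) → ¬ q ∣ Nat.card ↥(Subgroup.centralizer ({g} : Set G))) : (∃ χ : Cfsg.IrrCharacter G, (Cfsg.charDegree (χ : G → ℂ)).factorization p = (Nat.card G).factorization p) ∨ ∀ z : G, z ≠ 1 → (∃ k : ℕ, orderOf z = q ^ k) → ∃ g h : G, IsConj z g ∧ IsConj z h ∧ g * h⁻¹ ≠ 1 ∧ ∃ k : ℕ, orderOf (g * h⁻¹) = p ^ k := by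
  classical
  haveI := Fintype.ofFinite G
  have hp : p.Prime := Fact.out
  set a := (Nat.card G).factorization p with ha
  by_cases hex : ∃ χ : Cfsg.IrrCharacter G, (Cfsg.charDegree (χ : G → ℂ)).factorization p = a
  · exact Or.inl hex
  refine Or.inr fun z hz1 hzq => ?_
  by_contra hno
  push Not at hno
  have hdeg : ∀ χ : Cfsg.IrrCharacter G, ¬ p ^ a ∣ Cfsg.charDegree (χ : G → ℂ) := fun χ h =>
    hex ⟨χ, le_antisymm
      ((Nat.factorization_le_iff_dvd (charDegree_pos χ.2).ne' Nat.card_pos.ne').mpr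
        (charDegree_dvd_card χ.2) p)
      ((hp.pow_dvd_iff_le_factorization (charDegree_pos χ.2).ne').mp h)⟩
  obtain ⟨P⟩ := (inferInstance : Nonempty (Sylow p G))
  have hPc : Nat.card (P : Subgroup G) = p ^ a := P.card_eq_multiplicity
  have hS : prodCountIn (P : Subgroup G) z z⁻¹ = prodCount z z⁻¹ 1 := by
    rw [prodCountIn, Finset.sum_eq_single (1 : G)]
    · intro w hw hw1
      rw [prodCount, Finset.card_eq_zero, Finset.filter_eq_empty_iff]
      intro uw _ huw
      have hwP : w ∈ (P : Subgroup G) := (Finset.mem_filter.mp hw).2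
      have hkey : uw.1 * z * uw.1⁻¹ * (uw.2 * z * uw.2⁻¹)⁻¹ = w := by rw [← huw]; group
      obtain ⟨j, hj⟩ := P.isPGroup' ⟨w, hwP⟩
      obtain ⟨i, -, hi⟩ := (Nat.dvd_prime_pow hp).mp (orderOf_dvd_of_pow_eq_one hj)
      rw [Subgroup.orderOf_mk] at hi
      exact hno _ _ (isConj_iff.mpr ⟨uw.1, rfl⟩) (isConj_iff.mpr ⟨uw.2, rfl⟩) (hkey ▸ hw1) i
        (hkey ▸ hi)
    · intro h
      exact absurd (Finset.mem_filter.mpr ⟨Finset.mem_univ _, Subgroup.one_mem _⟩) h
  have hdvd := dvd_prodCountIn hdeg (P : Subgroup G) z z⁻¹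
  rw [hS, prodCount_one, hPc, ← ha, ← Nat.ordProj_mul_ordCompl_eq_self (Nat.card G) p, ← ha]
    at hdvd
  have ha1 : 1 ≤ a := (hp.dvd_iff_one_le_factorization Nat.card_pos.ne').mp hpG
  have hC : ¬ p ∣ Nat.card (Subgroup.centralizer ({z} : Set G)) := by
    intro hdvdC
    obtain ⟨g, hg⟩ := exists_prime_orderOf_dvd_card' p hdvdC
    have hg1 : (g : G) ≠ 1 := by
      intro h
      apply hp.one_lt.ne'
      rw [← hg, ← Subgroup.orderOf_coe, h, orderOf_one]
    refine hC (g : G) hg1 ⟨1, by rw [pow_one, Subgroup.orderOf_coe, hg]⟩ ?_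
    obtain ⟨j, hj⟩ := hzq
    rcases j with _ | j
    · exact absurd (orderOf_eq_one_iff.mp (by simpa using hj)) hz1
    refine (dvd_pow_self q j.succ_ne_zero).trans (hj ▸ ?_)
    have hmem : z ∈ Subgroup.centralizer ({(g : G)} : Set G) :=
      Subgroup.mem_centralizer_singleton_iff.mpr (Subgroup.mem_centralizer_singleton_iff.mp g.2).symm
    rw [← Subgroup.orderOf_mk z hmem]
    exact orderOf_dvd_natCard _
  have hcop : Nat.Coprime (p ^ (a + a))
      (ordCompl[p] (Nat.card G) * Nat.card (Subgroup.centralizer ({z} : Set G))) :=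
    ((Nat.coprime_ordCompl hp Nat.card_pos.ne').mul_right
      (hp.coprime_iff_not_dvd.mpr hC)).pow_left _
  rw [← pow_add, mul_assoc, ← mul_assoc, ← pow_add] at hdvd
  have := Nat.pow_dvd_pow_iff_le_right hp.one_lt |>.mp (hcop.dvd_of_dvd_mul_right hdvd)
  omega

end Cfsg.Agent.S4742
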