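import Cfsg.Statements.S4743
import Cfsg.Agent.BlockChar.DefectZeroPQ

set_option autoImplicit false
open Cfsg Cfsg.Agent Cfsg.Agent.BlockChar

namespace Cfsg.Agent.S4743

/-- Let p ≠ q be primes dividing the order of the finite group G, suppose the centralizer of every non-identity p-element has order prime to q, and suppose G is p-solvable or q-solvable. Then G has an irreducible character of p-defect zero or an irreducible character of q-defect zero. -/
theorem result {G : Type*} [Group G] [Finite G] (p q : ℕ) [Fact p.Prime] [Fact q.Prime] (hppq : p ≠ q) (hpG : p ∣ Nat.card G) (hqG : q ∣ Nat.card G) (hC : ∀ g : G, g ≠ 1 → (∃ k : ℕ, orderOf g = p ^ k) → ¬ q ∣ Nat.card ↥(Subgroup.centralizer ({g} : Set G))) (hsolv : Cfsg.IsPSolvable p G ∨ Cfsg.IsPSolvable q G) : (∃ χ : Cfsg.IrrCharacter G, (Cfsg.charDegree (χ : G → ℂ)).factorization p = (Nat.card G).factorization p) ∨ (∃ χ : Cfsg.IrrCharacter G, (Cfsg.charDegree (χ : G → ℂ)).factorization q = (Nat.card G).factorization q) := by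
  classical
  haveI := Fintype.ofFinite G
  have hp : p.Prime := Fact.out
  have hq : q.Prime := Fact.out
  have hN : DefectZeroPQ.NoCommute p q G := by
    intro x y hx hy hc
    refine hC x (fun h => hp.one_lt.ne (by rw [← hx, h, orderOf_one])) ⟨1, by rw [hx, pow_one]⟩ ?_
    have hy' : y ∈ Subgroup.centralizer ({x} : Set G) :=
      Subgroup.mem_centralizer_singleton_iff.mpr hc.eq.symm
    rw [← hy, ← Subgroup.orderOf_mk y hy']
    exact orderOf_dvd_natCard _
  rcases hsolv with h | h
  · exact DefectZeroPQ.exists_of_isPSolvable hp hq hppq _ G rfl hpG hqG hN h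
  · exact (DefectZeroPQ.exists_of_isPSolvable hq hp hppq.symm _ G rfl hqG hpG
      (DefectZeroPQ.noCommute_symm hN) h).symm

end Cfsg.Agent.S4743
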