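import Cfsg.Statements.S4744
import Cfsg.Agent.BlockChar.InvolutionSylow

set_option autoImplicit false
open Cfsg Cfsg.Agent Cfsg.Agent.BlockChar

namespace Cfsg.Agent.S4744

/-- Let p be an odd prime and G a finite group of even order divisible by p in which the centralizer of every non-identity p-element has odd order. Then either G has an irreducible character of p-defect zero, or the normalizer of every Sylow p-subgroup P of G has even order and P is abelian. -/
theorem result {G : Type*} [Group G] [Finite G] (p : ℕ) [Fact p.Prime] (hp2 : p ≠ 2) (hpG : p ∣ Nat.card G) (h2G : 2 ∣ Nat.card G) (hC : ∀ g : G, g ≠ 1 → (∃ k : ℕ, orderOf g = p ^ k) → Odd (Nat.card ↥(Subgroup.centralizer ({g} : Set G)))) : (∃ χ : Cfsg.IrrCharacter G, (Cfsg.charDegree (χ : G → ℂ)).factorization p = (Nat.card G).factorization p) ∨ ∀ P : Sylow p G, Even (Nat.card ↥(Subgroup.normalizer ((P : Subgroup G) : Set G))) ∧ IsMulCommutative ↥(P : Subgroup G) := by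
  haveI := Fintype.ofFinite G
  refine or_iff_not_imp_left.2 fun hnd P => ?_
  push Not at hnd
  obtain ⟨s, hs⟩ := exists_prime_orderOf_dvd_card' 2 h2G
  obtain ⟨x, hx, hxx, hxi⟩ := exists_conj_inverting_sylow hpG hC hnd hs P
  refine ⟨?_, ⟨⟨fun a b => Subtype.ext (comm_of_inverted hxx hxi a.2 b.2)⟩⟩⟩
  have hxN : x ∈ Subgroup.normalizer ((P : Subgroup G) : Set G) := by
    have hx' : x⁻¹ = x := inv_eq_of_mul_eq_one_left hxx
    rw [Subgroup.mem_normalizer_iff]
    intro a
    rw [hx']
    constructor
    · intro ha; rw [hxi a ha]; exact inv_mem ha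
    · intro ha
      have h := hxi _ ha
      rw [show x * (x * a * x) * x = (x * x) * a * (x * x) by group, hxx, one_mul, mul_one] at h
      rw [h]; exact inv_mem ha
  have hox : orderOf x = 2 := by
    obtain ⟨g, rfl⟩ := isConj_iff.1 hx
    rw [← hs]
    exact orderOf_injective (MulAut.conj g).toMonoidHom (MulAut.conj g).injective s
  exact even_iff_two_dvd.2 (hox ▸ Subgroup.orderOf_dvd_natCard _ hxN)

end Cfsg.Agent.S4744
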