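import Cfsg.Statements.S4746
import Cfsg.Agent.Chars2.ClassSum
import Cfsg.Agent.Chars.Induced
import Cfsg.Agent.Chars.Eigen
import Cfsg.Agent.Blocks.Orth

set_option autoImplicit false
set_option linter.style.haveILetI false
open Cfsg Cfsg.Agent

namespace Cfsg.Agent.S4746

open scoped ComplexConjugate

/-- Squares of sums are sums of squares modulo two, integrally. -/
theorem sq_sum {ι : Type*} (s : Finset ι) (f : ι → ℂ) (hf : ∀ i, IsIntegral ℤ (f i)) :
    ∃ Y : ℂ, IsIntegral ℤ Y ∧ (∑ i ∈ s, f i) ^ 2 = ∑ i ∈ s, f i ^ 2 + 2 * Y := by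
  classical
  induction s using Finset.induction_on with
  | empty => exact ⟨0, isIntegral_zero, by simp⟩
  | @insert a t ha ih =>
    obtain ⟨Y, hY, he⟩ := ih
    refine ⟨Y + f a * ∑ i ∈ t, f i, hY.add ((hf a).mul (IsIntegral.sum _ fun i _ => hf i)), ?_⟩
    rw [Finset.sum_insert ha, Finset.sum_insert ha]
    linear_combination he

/-- A natural number that is a multiple by an algebraic integer is a multiple. -/
theorem dvd_of_eq_mul {a k : ℕ} (hk : k ≠ 0) {Y : ℂ} (hY : IsIntegral ℤ Y)
    (h : (a : ℂ) = (k : ℂ) * Y) : k ∣ a := by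
  have hk' : (k : ℂ) ≠ 0 := Nat.cast_ne_zero.2 hk
  have hq : Y = algebraMap ℚ ℂ ((a : ℚ) / k) := by
    rw [map_div₀, map_natCast, map_natCast]
    field_simp
    linear_combination -h
  rw [hq, isIntegral_algebraMap_iff (algebraMap ℚ ℂ).injective] at hY
  obtain ⟨z, hz⟩ := IsIntegrallyClosed.isIntegral_iff.1 hY
  have h1 : ((k : ℤ) * z : ℚ) = (a : ℤ) := by
    have e : (z : ℚ) = (a : ℚ) / k := by simpa using hz
    have hk2 : (k : ℚ) ≠ 0 := Nat.cast_ne_zero.2 hk
    push_cast
    rw [e]
    field_simp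
  exact Int.natCast_dvd_natCast.1 ⟨z, by exact_mod_cast h1.symm⟩

/-- Let p be an odd prime and G a finite group of even order divisible by p in which the centralizer of every non-identity p-element has odd order. Then G has an irreducible character of p-defect zero or an irreducible character of even degree. -/
theorem result {G : Type*} [Group G] [Finite G] (p : ℕ) [Fact p.Prime] (hp2 : p ≠ 2) (hpG : p ∣ Nat.card G) (h2G : 2 ∣ Nat.card G) (hC : ∀ g : G, g ≠ 1 → (∃ k : ℕ, orderOf g = p ^ k) → Odd (Nat.card ↥(Subgroup.centralizer ({g} : Set G)))) : (∃ χ : Cfsg.IrrCharacter G, (Cfsg.charDegree (χ : G → ℂ)).factorization p = (Nat.card G).factorization p) ∨ ∃ χ : Cfsg.IrrCharacter G, Even (Cfsg.charDegree (χ : G → ℂ)) := by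
  classical
  haveI : Fintype G := Fintype.ofFinite G
  have hint : ∀ (χ : IrrCharacter G) (g : G), IsIntegral ℤ ((χ : G → ℂ) g) := fun χ g =>
    Chars.isIntegral_of_isCharacter (Chars.irr_isCharacter χ) g
  by_cases hreal : ∃ x : G, x ≠ 1 ∧ (∃ k : ℕ, orderOf x = p ^ k) ∧ IsConj x x⁻¹
  · -- a real element with centralizer of odd order
    right
    obtain ⟨x, hx1, hxk, hxr⟩ := hreal
    by_contra hno
    push Not at hno
    have hne : ¬ IsConj x 1 := fun h => hx1 (isConj_one_left.1 h)
    have h1 : ∑ χ : IrrCharacter G, (χ : G → ℂ) x * (χ : G → ℂ) x =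
        (Nat.card (Subgroup.centralizer ({x} : Set G)) : ℂ) := by
      have h := Chars.column_orth (G := G) x x
      rw [if_pos (IsConj.refl x)] at h
      rw [← h]
      refine Finset.sum_congr rfl fun χ _ => ?_
      rw [← Chars.char_inv_eq_conj (Chars.irr_isCharacter χ),
        ← Blocks.isClassFunction_eq (Chars.isClassFunction_irr χ) hxr]
    have h2 : ∑ χ : IrrCharacter G, (χ : G → ℂ) x * (charDegree (χ : G → ℂ) : ℂ) = 0 := by
      have h := Chars.column_orth (G := G) x 1
      rw [if_neg hne] at h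
      rw [← h]
      refine Finset.sum_congr rfl fun χ _ => ?_
      rw [(Blocks.charDegree_eq χ.2).1, map_natCast]
    choose e he using fun χ : IrrCharacter G => Nat.not_even_iff_odd.1 (hno χ)
    have hW : ∑ χ : IrrCharacter G, (χ : G → ℂ) x =
        2 * ∑ χ : IrrCharacter G, -((e χ : ℂ) * (χ : G → ℂ) x) := by
      rw [← sub_zero (∑ χ : IrrCharacter G, (χ : G → ℂ) x), ← h2, Finset.mul_sum,
        ← Finset.sum_sub_distrib]
      refine Finset.sum_congr rfl fun χ _ => ?_
      rw [he χ]
      push_cast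
      ring
    set W := ∑ χ : IrrCharacter G, -((e χ : ℂ) * (χ : G → ℂ) x)
    have hWi : IsIntegral ℤ W := IsIntegral.sum _ fun χ _ =>
      ((isIntegral_algebraMap (x := (e χ : ℤ))).mul (hint χ x)).neg
    obtain ⟨Y, hY, hsq⟩ := sq_sum Finset.univ (fun χ : IrrCharacter G => (χ : G → ℂ) x)
      fun χ => hint χ x
    simp only [sq, h1] at hsq
    rw [hW] at hsq
    have h3 : ((Nat.card (Subgroup.centralizer ({x} : Set G))) : ℂ) = ((2 : ℕ) : ℂ) * (W * W + W * W - Y) := by
      push_cast
      linear_combination -hsq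
    exact Nat.not_even_iff_odd.2 (hC x hx1 hxk)
      (even_iff_two_dvd.2 (dvd_of_eq_mul two_ne_zero (((hWi.mul hWi).add (hWi.mul hWi)).sub hY) h3))
  · -- pairs of conjugate involutions never multiply to a nontrivial `p`-element
    left
    haveI : Fact (Nat.Prime 2) := ⟨Nat.prime_two⟩
    obtain ⟨t, ht⟩ := exists_prime_orderOf_dvd_card' (G := G) 2 h2G
    by_contra hno
    push Not at hno
    have hp : p.Prime := Fact.out
    set a := (Nat.card G).factorization p
    let P : Sylow p G := default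
    haveI : Fintype (P : Subgroup G) := Fintype.ofFinite _
    have hPc : Nat.card P = p ^ a := P.card_eq_multiplicity
    set L := (P : Subgroup G).index
    have hL : p ^ a * L = Nat.card G := hPc ▸ (P : Subgroup G).card_mul_index
    have hpL : ¬ p ∣ L := P.not_dvd_index
    set f : G → ℂ := indFun (P : Subgroup G) (fun _ => 1)
    have hfch : IsCharacter G f := Chars.isCharacter_indFun _ Chars.isCharacter_one
    have hf1 : f 1 = (L : ℂ) := by
      show indFun (P : Subgroup G) (fun _ => 1) 1 = _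
      rw [Chars.indFun_apply, Finset.sum_congr rfl fun x _ => by
        rw [mul_one, inv_mul_cancel, Chars.extendByZero_of_mem _ _ (one_mem _)], Finset.sum_const,
        Finset.card_univ, nsmul_eq_mul, mul_one, ← Nat.card_eq_fintype_card,
        ← (P : Subgroup G).card_mul_index, Nat.cast_mul, ← mul_assoc,
        inv_mul_cancel₀ Chars.card_ne_zero, one_mul]
    set K := Finset.univ.filter (IsConj t)
    set S := Finset.univ.filter (fun q : G × G => IsConj t q.1 ∧ IsConj t q.2)
    have hinv : ∀ s, IsConj t s → s⁻¹ = s := fun s hs => by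
      obtain ⟨c, rfl⟩ := isConj_iff.1 hs
      have h : t⁻¹ = t := by
        rw [inv_eq_iff_mul_eq_one, ← sq, ← ht, pow_orderOf_eq_one]
      rw [conj_inv, h]
    have hcount : ∑ q ∈ S, f (q.1 * q.2) = (K.card : ℂ) * (L : ℂ) := by
      have hsub : ∀ q ∈ S, f (q.1 * q.2) ≠ 0 → q.2 = q.1 := by
        intro q hq hfq
        obtain ⟨h1, h2⟩ := (Finset.mem_filter.1 hq).2
        by_contra hne
        set y := q.1 * q.2 with hy
        obtain ⟨c, hc⟩ : ∃ c : G, c⁻¹ * y * c ∈ (P : Subgroup G) := by
          by_contra hc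
          push Not at hc
          refine hfq ?_
          show indFun (P : Subgroup G) (fun _ => 1) y = 0
          rw [Chars.indFun_apply, Finset.sum_eq_zero fun x _ =>
            Chars.extendByZero_of_not_mem _ _ (hc x), mul_zero]
        obtain ⟨j, hj⟩ := IsPGroup.iff_orderOf.1 P.isPGroup' ⟨_, hc⟩
        rw [Subgroup.orderOf_mk] at hj
        have hord : orderOf y = p ^ j := by
          rw [← hj]
          conv_rhs => rw [show c⁻¹ * y * c = MulAut.conj c⁻¹ y by simp]
          rw [MulEquiv.orderOf_eq]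
        refine hreal ⟨y, fun h => hne ?_, ⟨j, hord⟩, isConj_iff.2 ⟨q.1, ?_⟩⟩
        · rw [hy] at h
          rw [eq_inv_of_mul_eq_one_right h, hinv _ h1]
        · have e1 : q.1 * q.1 = 1 := by nth_rw 2 [← hinv _ h1]; rw [mul_inv_cancel]
          rw [hy, hinv _ h1, mul_inv_rev, hinv _ h1, hinv _ h2, ← mul_assoc, e1, one_mul]
      rw [← Finset.sum_filter_ne_zero, Finset.sum_congr rfl (g := fun _ => (L : ℂ)) fun q hq => by
        obtain ⟨hq1, hq2⟩ := Finset.mem_filter.1 hq
        have e := hsub q hq1 hq2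
        have h1 := (Finset.mem_filter.1 hq1).2.1
        rw [e]; nth_rw 2 [← hinv _ h1]
        rw [mul_inv_cancel, hf1], Finset.sum_const, nsmul_eq_mul]
      congr 2
      refine Finset.card_bij (fun q _ => q.1) (fun q hq => ?_) (fun q hq q' hq' he => ?_)
        (fun s hs => ⟨(s, s), ?_, rfl⟩)
      · exact Finset.mem_filter.2 ⟨Finset.mem_univ _,
          (Finset.mem_filter.1 (Finset.mem_filter.1 hq).1).2.1⟩
      · obtain ⟨hq1, hq2⟩ := Finset.mem_filter.1 hq
        obtain ⟨hq1', hq2'⟩ := Finset.mem_filter.1 hq'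
        exact Prod.ext he (by rw [hsub q hq1 hq2, hsub q' hq1' hq2', he])
      · have h1 := (Finset.mem_filter.1 hs).2
        refine Finset.mem_filter.2 ⟨Finset.mem_filter.2 ⟨Finset.mem_univ _, h1, h1⟩, ?_⟩
        show f (s * s) ≠ 0
        nth_rw 2 [← hinv _ h1]
        rw [mul_inv_cancel, hf1]
        exact_mod_cast Subgroup.index_ne_zero_of_finite
    -- the centralizer of the involution has order prime to `p`
    have hKc : p ^ a ∣ K.card := by
      rw [Chars.card_filter_isConj]
      have hCt : ¬ p ∣ Nat.card (Subgroup.centralizer ({t} : Set G)) := by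
        intro hd
        obtain ⟨⟨y, hy⟩, hyo⟩ := exists_prime_orderOf_dvd_card' p hd
        rw [Subgroup.orderOf_mk] at hyo
        have hy1 : y ≠ 1 := fun h => hp.ne_one (by rw [← hyo, h, orderOf_one])
        refine Nat.not_even_iff_odd.2 (hC y hy1 ⟨1, by rw [hyo, pow_one]⟩) (even_iff_two_dvd.2 ?_)
        rw [← ht]
        have hty : t ∈ Subgroup.centralizer ({y} : Set G) := Subgroup.mem_centralizer_singleton_iff.2
          (Subgroup.mem_centralizer_singleton_iff.1 hy).symm
        exact (Subgroup.orderOf_mk t hty) ▸ orderOf_dvd_natCard _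
      refine ((Nat.Prime.coprime_iff_not_dvd hp).2 hCt).pow_left a |>.dvd_of_dvd_mul_left ?_
      rw [Subgroup.card_mul_index]
      exact Nat.ordProj_dvd _ _
    obtain ⟨K', hK'⟩ := hKc
    obtain ⟨c, hc, hsum⟩ := Chars.exists_eq_sum_nsmul hfch
    have hexp : (L : ℂ) = (K.card : ℂ) *
        ∑ χ : IrrCharacter G, (c χ : ℂ) * ((χ : G → ℂ) t) ^ 2 / (charDegree (χ : G → ℂ) : ℂ) := by
      have hK0 : (K.card : ℂ) ≠ 0 := by
        exact_mod_cast (Finset.card_pos.2 ⟨t, Finset.mem_filter.2
          ⟨Finset.mem_univ _, IsConj.refl t⟩⟩).ne'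
      refine mul_left_cancel₀ hK0 ?_
      rw [← hcount, hsum]
      simp only [Finset.sum_apply, Pi.smul_apply, nsmul_eq_mul, Pi.mul_apply, Pi.natCast_apply]
      rw [Finset.sum_comm, Finset.mul_sum, Finset.mul_sum]
      refine Finset.sum_congr rfl fun χ _ => ?_
      rw [← Finset.mul_sum]
      have h0 : (charDegree (χ : G → ℂ) : ℂ) ≠ 0 := by
        exact_mod_cast (Blocks.charDegree_eq χ.2).2.ne'
      have e : (∑ q ∈ S, (χ : G → ℂ) (q.1 * q.2)) * (χ : G → ℂ) 1 =
          (K.card : ℂ) * (K.card : ℂ) * (χ : G → ℂ) t * (χ : G → ℂ) t :=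
        Chars2.sum_class_class χ.2 t t
      rw [(Blocks.charDegree_eq χ.2).1] at e
      field_simp
      linear_combination (c χ : ℂ) * e
    have hdvd : ∀ χ : IrrCharacter G, ∃ n : ℕ, K.card * L = p * (charDegree (χ : G → ℂ) * n) := by
      intro χ
      set d := charDegree (χ : G → ℂ)
      have hd : d ∣ Nat.card G := Blocks.charDegree_dvd χ.2
      have hlt : d.factorization p < a :=
        lt_of_le_of_ne (Blocks.charDegree_factorization_le χ) (hno χ)
      have hpd : p * d ∣ p ^ a * L := by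
        rw [hL, ← Nat.factorization_le_iff_dvd (Nat.mul_ne_zero hp.ne_zero
          (Blocks.charDegree_eq χ.2).2.ne') Nat.card_pos.ne',
          Nat.factorization_mul hp.ne_zero (Blocks.charDegree_eq χ.2).2.ne', hp.factorization]
        intro r
        have hr := (Nat.factorization_le_iff_dvd (Blocks.charDegree_eq χ.2).2.ne'
          Nat.card_pos.ne').2 hd r
        rw [Finsupp.add_apply, Finsupp.single_apply]
        split_ifs with h
        · subst h; simp only [a, d] at hlt; omega
        · omega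
      obtain ⟨n, hn⟩ := hpd
      exact ⟨n * K', by rw [hK']; linear_combination K' * hn⟩
    choose n hn using hdvd
    have hfin : ((L * L : ℕ) : ℂ) = (p : ℂ) *
        ∑ χ : IrrCharacter G, (c χ : ℂ) * (n χ : ℂ) * ((χ : G → ℂ) t) ^ 2 := by
      push_cast
      nth_rw 2 [hexp]
      rw [Finset.mul_sum, Finset.mul_sum, Finset.mul_sum]
      refine Finset.sum_congr rfl fun χ _ => ?_
      have h0 : (charDegree (χ : G → ℂ) : ℂ) ≠ 0 := by
        exact_mod_cast (Blocks.charDegree_eq χ.2).2.ne'
      have e : (K.card : ℂ) * (L : ℂ) = (p : ℂ) * ((charDegree (χ : G → ℂ) : ℂ) * (n χ : ℂ)) := by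
        exact_mod_cast hn χ
      field_simp
      linear_combination ((c χ : ℂ) * ((χ : G → ℂ) t) ^ 2) * e
    have hint2 : IsIntegral ℤ
        (∑ χ : IrrCharacter G, (c χ : ℂ) * (n χ : ℂ) * ((χ : G → ℂ) t) ^ 2) :=
      IsIntegral.sum _ fun χ _ => ((isIntegral_algebraMap (x := (c χ : ℤ))).mul
        (isIntegral_algebraMap (x := (n χ : ℤ)))).mul ((hint χ t).pow 2)
    rcases hp.dvd_mul.1 (dvd_of_eq_mul hp.ne_zero hint2 hfin) with h | h <;> exact hpL h

end Cfsg.Agent.S4746
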