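import Cfsg.Statements.S4750
import Cfsg.Agent.Blocks.TIRestrictMain
import Cfsg.Agent.DegreeGraph.AbelianNormal
-- import your own Cfsg.Agent.* helpers here

set_option autoImplicit false
open scoped Pointwise
open Cfsg

namespace Cfsg.Agent.S4750

/-- Let P be a Sylow p-subgroup of the finite group G that meets each conjugate g P g⁻¹ with g outside N_G(P) trivially, χ a character of G with χ(1)² ≤ |P|, and H a subgroup of G containing N_G(P). Then the inner product of χ with itself over G equals the inner product over H of the restriction of χ to H. -/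
theorem result {G : Type*} [Group G] [Fintype G] [DecidableEq G] (p : ℕ) [Fact p.Prime] (P : Sylow p G) (hTI : ∀ g : G, g ∉ Subgroup.normalizer ((P : Subgroup G) : Set G) → (P : Subgroup G) ⊓ (MulAut.conj g • (P : Subgroup G)) = ⊥) (χ : G → ℂ) (hχ : Cfsg.IsCharacter G χ) (hdeg : Cfsg.charDegree χ ^ 2 ≤ Nat.card ↥(P : Subgroup G)) (H : Subgroup G) [Fintype ↥H] (hH : Subgroup.normalizer ((P : Subgroup G) : Set G) ≤ H) : Cfsg.classInner χ χ = Cfsg.classInner (fun h : ↥H => χ h) (fun h : ↥H => χ h) := by
  classical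
  obtain ⟨M, hmax, hpM⟩ := DegreeGraph.exists_isMaximal_mem p
  haveI := hmax
  refine Blocks.TIRestrict.norm_overgroup hpM P ?_ χ hχ hdeg H hH
  intro g hg u hu hu'
  have h : u ∈ (P : Subgroup G) ⊓ (MulAut.conj g • (P : Subgroup G)) := by
    refine ⟨hu, ?_⟩
    show u ∈ MulAut.conj g • (P : Subgroup G)
    rw [Subgroup.mem_pointwise_smul_iff_inv_smul_mem]
    simpa [MulAut.smul_def] using hu'
  rw [hTI g hg] at h
  exact Subgroup.mem_bot.1 h

end Cfsg.Agent.S4750
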