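import Cfsg.Statements.S4754
-- import your own Cfsg.Agent.* helpers here
import Cfsg.Agent.BlockChar.CharCount

set_option autoImplicit false
open Cfsg

namespace Cfsg.Agent.S4754

open Cfsg.Agent.Chars Cfsg.Agent.BlockChar

/-- For elements x, y of a finite group G, the conjugacy class of x y equals the set of all products of a conjugate of x with a conjugate of y if and only if χ(1) χ(a x a⁻¹ b y b⁻¹) = χ(x) χ(y) for all a, b ∈ G and every irreducible character χ. -/
theorem result {G : Type*} [Group G] [Finite G] (x y : G) : (∀ z : G, IsConj (x * y) z ↔ ∃ a b : G, z = a * x * a⁻¹ * (b * y * b⁻¹)) ↔ ∀ (a b : G) (χ : Cfsg.IrrCharacter G), (χ : G → ℂ) 1 * (χ : G → ℂ) (a * x * a⁻¹ * (b * y * b⁻¹)) = (χ : G → ℂ) x * (χ : G → ℂ) y := by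
  haveI := Fintype.ofFinite G
  constructor
  · intro h a b χ
    have hval : ∀ a b : G, (χ : G → ℂ) (a * x * a⁻¹ * (b * y * b⁻¹)) = (χ : G → ℂ) (x * y) := by
      intro a b
      obtain ⟨c, hc⟩ := isConj_iff.mp ((h _).mpr ⟨a, b, rfl⟩)
      rw [← hc, isCharacter_conj_apply (isCharacter_of_isIrr χ.2)]
    have h2 := sum_conj_mul χ.2 x y
    rw [Finset.sum_congr rfl (fun a _ => (by simpa using hval a 1 :
        (χ : G → ℂ) (a * x * a⁻¹ * y) = (χ : G → ℂ) (x * y))), Finset.sum_const, Finset.card_univ,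
      nsmul_eq_mul, ← Nat.card_eq_fintype_card, eq_div_iff (irr_apply_one_ne_zero χ.2),
      mul_assoc, mul_assoc] at h2
    rw [hval a b, mul_comm]
    exact mul_left_cancel₀ card_ne_zero h2
  · intro h z
    constructor
    · intro hz
      obtain ⟨c, hc⟩ := isConj_iff.mp hz
      exact ⟨c, c, by rw [← hc]; group⟩
    · rintro ⟨a, b, rfl⟩
      refine isConj_of_forall_irr fun χ => mul_left_cancel₀ (irr_apply_one_ne_zero χ.2) ?_
      rw [h a b χ]
      simpa using h 1 1 χ

end Cfsg.Agent.S4754
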