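import Cfsg.Statements.S4755
-- import your own Cfsg.Agent.* helpers here
import Cfsg.Agent.BlockChar.CharCount

set_option autoImplicit false
open Cfsg

namespace Cfsg.Agent.S4755

open Cfsg.Agent.Chars Cfsg.Agent.BlockChar

/-- Let x, y be non-identity elements of the finite group G such that χ(x' y') = χ(x') χ(y') for all conjugates x' of x, y' of y and every irreducible character χ. Then the conjugacy class of x y is the set of all products of a conjugate of x with a conjugate of y; every irreducible character of degree greater than 1 vanishes at x y; and the conjugacy class of x y is the coset of the commutator subgroup containing x y. -/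
theorem result {G : Type*} [Group G] [Finite G] (x y : G) (hx : x ≠ 1) (hy : y ≠ 1) (h : ∀ (a b : G) (χ : Cfsg.IrrCharacter G), (χ : G → ℂ) (a * x * a⁻¹ * (b * y * b⁻¹)) = (χ : G → ℂ) (a * x * a⁻¹) * (χ : G → ℂ) (b * y * b⁻¹)) : (∀ z : G, IsConj (x * y) z ↔ ∃ a b : G, z = a * x * a⁻¹ * (b * y * b⁻¹)) ∧ (∀ χ : Cfsg.IrrCharacter G, (χ : G → ℂ) 1 ≠ 1 → (χ : G → ℂ) (x * y) = 0) ∧ (∀ z : G, IsConj (x * y) z ↔ (x * y)⁻¹ * z ∈ commutator G) := by
  haveI := Fintype.ofFinite G
  have hval : ∀ (a b : G) (χ : Cfsg.IrrCharacter G),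
      (χ : G → ℂ) (a * x * a⁻¹ * (b * y * b⁻¹)) = (χ : G → ℂ) x * (χ : G → ℂ) y := fun a b χ => by
    rw [h a b χ, isCharacter_conj_apply (isCharacter_of_isIrr χ.2),
      isCharacter_conj_apply (isCharacter_of_isIrr χ.2)]
  have hxy : ∀ χ : Cfsg.IrrCharacter G, (χ : G → ℂ) (x * y) = (χ : G → ℂ) x * (χ : G → ℂ) y :=
    fun χ => by simpa using hval 1 1 χ
  have hclass : ∀ z : G, IsConj (x * y) z ↔ ∃ a b : G, z = a * x * a⁻¹ * (b * y * b⁻¹) := by
    intro z
    constructor
    · intro hz
      obtain ⟨c, hc⟩ := isConj_iff.mp hz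
      exact ⟨c, c, by rw [← hc]; group⟩
    · rintro ⟨a, b, rfl⟩
      exact isConj_of_forall_irr fun χ => by rw [hxy, hval]
  have hvan : ∀ χ : Cfsg.IrrCharacter G, (χ : G → ℂ) 1 ≠ 1 → (χ : G → ℂ) (x * y) = 0 := by
    intro χ hχ
    have h2 := sum_conj_mul χ.2 x y
    rw [Finset.sum_congr rfl (fun a _ => (by simpa using hval a 1 χ :
        (χ : G → ℂ) (a * x * a⁻¹ * y) = (χ : G → ℂ) x * (χ : G → ℂ) y)), Finset.sum_const,
      Finset.card_univ, nsmul_eq_mul, ← Nat.card_eq_fintype_card,
      eq_div_iff (irr_apply_one_ne_zero χ.2)] at h2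
    have h3 : (χ : G → ℂ) x * (χ : G → ℂ) y * (χ : G → ℂ) 1 = (χ : G → ℂ) x * (χ : G → ℂ) y :=
      mul_left_cancel₀ card_ne_zero (by linear_combination h2)
    rw [← hxy] at h3
    by_contra hne
    apply hχ
    exact mul_left_cancel₀ hne (h3.trans (mul_one _).symm)
  refine ⟨hclass, hvan, fun z => ?_⟩
  have hsub : ∀ z, IsConj (x * y) z → (x * y)⁻¹ * z ∈ commutator G := by
    intro z hz
    obtain ⟨c, hc⟩ := isConj_iff.mp hz
    rw [← hc, show (x * y)⁻¹ * (c * (x * y) * c⁻¹) = (x * y)⁻¹ * c * (x * y)⁻¹⁻¹ * c⁻¹ by group]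
    exact Subgroup.commutator_mem_commutator (H₁ := (⊤ : Subgroup G)) (H₂ := (⊤ : Subgroup G))
      (Subgroup.mem_top _) (Subgroup.mem_top _)
  refine ⟨hsub z, fun hz => ?_⟩
  have hcard : (Nat.card (Subgroup.centralizer ({x * y} : Set G)) : ℂ) =
      ((commutator G).index : ℂ) := by
    classical
    have horth := column_orth (x * y) (x * y)
    rw [if_pos (IsConj.refl (x * y))] at horth
    rw [← horth, ← card_linear, Nat.card_eq_fintype_card, Fintype.card_subtype,
      ← Finset.sum_boole]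
    refine Finset.sum_congr rfl fun χ _ => ?_
    split_ifs with h1
    · obtain ⟨φ, hφ⟩ := exists_hom_of_degree_one (isCharacter_of_isIrr χ.2) h1
      have hu : (φ (x * y) : ℂ) ^ Nat.card G = 1 := by
        rw [← Units.val_pow_eq_pow_val, ← map_pow, pow_card_eq_one', map_one, Units.val_one]
      rw [hφ, Complex.mul_conj, Complex.normSq_eq_norm_sq,
        norm_eq_one_of_pow_eq_one Nat.card_pos.ne' hu]
      simp
    · rw [hvan χ h1, zero_mul]
  have hcard' : Nat.card (Subgroup.centralizer ({x * y} : Set G)) = (commutator G).index :=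
    Nat.cast_injective hcard
  have hclasscard : Nat.card {z // IsConj (x * y) z} = Nat.card (commutator G) := by
    classical
    rw [Nat.card_eq_fintype_card, Fintype.card_subtype, card_filter_isConj]
    have h1 := Subgroup.card_mul_index (Subgroup.centralizer ({x * y} : Set G))
    have h2 := Subgroup.card_mul_index (commutator G)
    rw [hcard', ← h2, mul_comm] at h1
    exact Nat.eq_of_mul_eq_mul_right (Nat.pos_of_ne_zero Subgroup.index_ne_zero_of_finite) h1
  let f : {z // IsConj (x * y) z} → commutator G := fun z => ⟨(x * y)⁻¹ * z, hsub z z.2⟩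
  have hinj : Function.Injective f := fun a b hab =>
    Subtype.ext (mul_left_cancel (congrArg Subtype.val hab))
  obtain ⟨w, hw⟩ := ((Nat.bijective_iff_injective_and_card f).mpr ⟨hinj, hclasscard⟩).2 ⟨_, hz⟩
  have : (w : G) = z := mul_left_cancel (congrArg Subtype.val hw)
  exact this ▸ w.2

end Cfsg.Agent.S4755
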