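import Cfsg.Statements.S4757
import Cfsg.Agent.Chars.Linear
import Cfsg.Agent.Chars.Eigen
import Cfsg.Agent.Core.Cores

set_option autoImplicit false
open Cfsg Cfsg.Agent
open scoped ComplexConjugate

namespace Cfsg.Agent.S4757

/-- Let u ≠ 1 be an element of the finite group G and c a complex number such that every non-principal irreducible character χ satisfies χ(1) − χ(u) = c or χ(u) = 0. Then the following are equivalent: (a) u has order 2, G is generated by u together with O(G), the largest normal subgroup of G of odd order, and the centralizer of u is {1, u}; (b) G is not perfect; (c) c = 2. -/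
theorem result {G : Type*} [Group G] [Finite G] (u : G) (hu : u ≠ 1) (c : ℂ) (hyp : ∀ χ : Cfsg.IrrCharacter G, (χ : G → ℂ) ≠ (fun _ => (1 : ℂ)) → ((χ : G → ℂ) 1 - (χ : G → ℂ) u = c ∨ (χ : G → ℂ) u = 0)) : ((orderOf u = 2 ∧ Subgroup.zpowers u ⊔ Cfsg.oddCore G = ⊤ ∧ Subgroup.centralizer ({u} : Set G) = Subgroup.zpowers u) ↔ commutator G ≠ ⊤) ∧ (commutator G ≠ ⊤ ↔ c = 2) := by
  classical
  haveI := Fintype.ofFinite G
  have hdeg : ∀ χ : IrrCharacter G, ∃ n : ℕ, 0 < n ∧ (χ : G → ℂ) 1 = n :=
    fun χ => Chars.exists_irr_apply_one_eq χ.2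
  have hreg : ∑ χ : IrrCharacter G, (χ : G → ℂ) 1 * (χ : G → ℂ) u = 0 := by
    rw [Chars.sum_apply_one_mul u, if_neg hu]
  set one : IrrCharacter G := ⟨_, Chars.isIrrCharacter_one⟩
  -- no positive real solution
  have hneg : (∀ χ : IrrCharacter G, ∃ r : ℝ, 0 ≤ r ∧ (χ : G → ℂ) 1 * (χ : G → ℂ) u = r) → False := by
    intro h
    choose r hr0 hr using h
    simp only [hr] at hreg
    rw [← Complex.ofReal_sum, Complex.ofReal_eq_zero,
      Finset.sum_eq_zero_iff_of_nonneg fun χ _ => hr0 χ] at hreg
    have := hr one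
    rw [hreg one (Finset.mem_univ _)] at this
    simp [one] at this
  have hlin : ∀ χ : IrrCharacter G, (χ : G → ℂ) 1 = 1 → χ ≠ one → (χ : G → ℂ) u = 1 - c := by
    intro χ h1 hne
    rcases hyp χ fun h => hne (Subtype.ext h) with h | h
    · rw [h1] at h; rw [← h]; ring
    · obtain ⟨φ, hφ⟩ := Chars.exists_hom_of_degree_one (Chars.irr_isCharacter χ) h1
      rw [hφ] at h
      exact absurd h (φ u).ne_zero
  have himp : commutator G ≠ ⊤ → c = 2 ∧ (orderOf u = 2 ∧ Subgroup.zpowers u ⊔ Cfsg.oddCore G = ⊤ ∧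
      Subgroup.centralizer ({u} : Set G) = Subgroup.zpowers u) := by
    intro hG
    have hcard : 1 < Nat.card {χ : IrrCharacter G // (χ : G → ℂ) 1 = 1} := by
      rw [Chars.card_linear]
      have h0 := (commutator G).index_ne_zero_of_finite
      have h1 : (commutator G).index ≠ 1 := fun h => hG (Subgroup.index_eq_one.mp h)
      omega
    haveI := Finite.one_lt_card_iff_nontrivial.mp hcard
    obtain ⟨⟨lam, hlam1⟩, hlne⟩ := exists_ne (⟨one, rfl⟩ : {χ : IrrCharacter G // (χ : G → ℂ) 1 = 1})
    have hlne' : lam ≠ one := fun h => hlne (Subtype.ext h)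
    obtain ⟨φ, hφ⟩ := Chars.exists_hom_of_degree_one (Chars.irr_isCharacter lam) hlam1
    set lamb : IrrCharacter G := ⟨_, Chars.isIrrCharacter_star lam.2⟩
    have hlb : lamb ≠ one := fun h => hlne' (Subtype.ext (funext fun g => by
      have := congrFun (congrArg Subtype.val h) g
      simp only [lamb, one] at this
      show (lam : G → ℂ) g = 1
      rw [← Complex.conj_conj ((lam : G → ℂ) g), this, map_one]))
    have hv := hlin lam hlam1 hlne'
    have hv' : conj ((lam : G → ℂ) u) = 1 - c := hlin lamb (by simp [lamb, hlam1]) hlb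
    have hnorm : (lam : G → ℂ) u * conj ((lam : G → ℂ) u) = 1 := by
      have hn : ‖(lam : G → ℂ) u‖ = 1 := by
        rw [hφ]
        refine Chars.norm_eq_one_of_pow_eq_one (orderOf_pos u).ne' ?_
        rw [← Units.val_pow_eq_pow_val, ← map_pow, pow_orderOf_eq_one, map_one, Units.val_one]
      rw [Complex.mul_conj, Complex.normSq_eq_norm_sq, hn]
      norm_num
    rw [hv', hv] at hnorm
    have hc2 : c = 2 := by
      have h0 : c * (c - 2) = 0 := by linear_combination hnorm
      rcases mul_eq_zero.mp h0 with h | h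
      · refine (hneg fun χ => ?_).elim
        obtain ⟨n, -, hn⟩ := hdeg χ
        by_cases h1 : χ = one
        · exact ⟨1, zero_le_one, by subst h1; simp [one]⟩
        rcases hyp χ fun e => h1 (Subtype.ext e) with e | e
        · refine ⟨(n : ℝ) * n, by positivity, ?_⟩
          rw [h, sub_eq_zero] at e
          rw [← e, hn]; push_cast; ring
        · exact ⟨0, le_rfl, by rw [e]; simp⟩
      · linear_combination h
    subst hc2
    have hlu : ∀ χ : IrrCharacter G, (χ : G → ℂ) 1 = 1 → χ ≠ one → (χ : G → ℂ) u = -1 := fun χ h1 h2 => by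
      rw [hlin χ h1 h2]; norm_num
    have hnl : ∀ χ : IrrCharacter G, (χ : G → ℂ) u ≠ 0 → (χ : G → ℂ) 1 = 1 := by
      intro χ hχ
      by_contra hne
      set χ' : IrrCharacter G := ⟨_, Chars.isIrrCharacter_mul_hom χ.2 φ⟩
      have h1 : (χ' : G → ℂ) 1 = (χ : G → ℂ) 1 := by simp [χ']
      have hu' : (χ' : G → ℂ) u = -(χ : G → ℂ) u := by
        have := hlu lam hlam1 hlne'
        rw [hφ] at this
        simp only [χ', this]
        ring
      have e1 := (hyp χ fun e => hne (by rw [e])).resolve_right hχ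
      have e2 := (hyp χ' fun e => hne (by rw [← h1, e])).resolve_right (by rw [hu']; simpa using hχ)
      rw [h1, hu'] at e2
      exact hχ (by linear_combination (e2 - e1) / 2)
    have huni : ∀ χ : IrrCharacter G, (χ : G → ℂ) u ≠ 0 → χ = one ∨ χ = lam := by
      intro χ hχ
      by_cases h : χ = one
      · exact Or.inl h
      refine Or.inr (by_contra fun h' => ?_)
      obtain ⟨ψ, hψ⟩ := Chars.exists_hom_of_degree_one (Chars.irr_isCharacter χ) (hnl χ hχ)
      set μ : IrrCharacter G := ⟨_, Chars.isIrrCharacter_hom (ψ * φ⁻¹)⟩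
      have hμ : μ ≠ one := fun e => h' (Subtype.ext (by
        rw [hψ, hφ]
        funext g
        have := congrFun (congrArg Subtype.val e) g
        simp only [μ, one, MonoidHom.mul_apply, MonoidHom.inv_apply] at this
        have e1 : ψ g * (φ g)⁻¹ = 1 := Units.ext this
        rw [mul_inv_eq_one.mp e1]))
      have h3 := hlu μ (by simp [μ]) hμ
      have e1 := hlu χ (hnl χ hχ) h
      have e2 := hlu lam hlam1 hlne'
      rw [hψ] at e1
      rw [hφ] at e2
      simp only [μ, MonoidHom.mul_apply, MonoidHom.inv_apply, Units.val_mul, Units.val_inv_eq_inv_val,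
        e1, e2] at h3
      norm_num at h3
    have hC : Nat.card (Subgroup.centralizer ({u} : Set G)) = 2 := by
      have h := Chars.column_orth u u
      rw [if_pos (IsConj.refl u), ← Finset.sum_subset (Finset.subset_univ {one, lam})
        (fun χ _ hχ => ?_), Finset.sum_pair hlne'.symm, hlu lam hlam1 hlne'] at h
      · simp only [one, map_one, map_neg, mul_one, neg_mul_neg] at h
        norm_num at h
        rw [Nat.card_eq_fintype_card]
        exact_mod_cast h.symm
      · by_contra h0
        rcases huni χ (fun e => h0 (by rw [e, zero_mul])) with rfl | rfl <;> simp at hχ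
    have huC : Subgroup.zpowers u ≤ Subgroup.centralizer ({u} : Set G) :=
      Subgroup.zpowers_le.mpr (Subgroup.mem_centralizer_singleton_iff.mpr rfl)
    have hu2 : orderOf u = 2 := by
      have h := Subgroup.card_dvd_of_le huC
      rw [hC, Nat.card_zpowers] at h
      exact ((Nat.dvd_prime Nat.prime_two).mp h).resolve_left fun e => hu (orderOf_eq_one_iff.mp e)
    have hCu : Subgroup.centralizer ({u} : Set G) = Subgroup.zpowers u :=
      (Subgroup.eq_of_le_of_card_ge huC (by rw [hC, Nat.card_zpowers, hu2])).symm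
    refine ⟨rfl, hu2, ?_, hCu⟩
    -- the derived group has odd order
    haveI : Fact (Nat.Prime 2) := ⟨Nat.prime_two⟩
    obtain ⟨S, hS⟩ := (IsPGroup.of_card (p := 2) (G := Subgroup.zpowers u) (n := 1)
      (by rw [Nat.card_zpowers, hu2, pow_one])).exists_le_sylow
    have hSC : (S : Subgroup G) ≤ Subgroup.centralizer ({u} : Set G) := by
      haveI : Nontrivial (S : Subgroup G) := (Subgroup.nontrivial_iff_ne_bot _).mpr fun h =>
        hu (Subgroup.mem_bot.mp (h ▸ hS (Subgroup.mem_zpowers u)))
      haveI := S.isPGroup'.center_nontrivial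
      obtain ⟨⟨z, hz⟩, hz1⟩ := exists_ne (1 : Subgroup.center (S : Subgroup G))
      have hzu : (z : G) ∈ Subgroup.zpowers u := by
        rw [← hCu, Subgroup.mem_centralizer_singleton_iff]
        exact (congrArg Subtype.val (Subgroup.mem_center_iff.mp hz ⟨u, hS (Subgroup.mem_zpowers u)⟩)).symm
      have hzz : (z : G) = u := by
        obtain ⟨i, hi⟩ := Subgroup.mem_zpowers_iff.mp hzu
        rcases Int.even_or_odd i with ⟨j, hj⟩ | ⟨j, hj⟩
        · refine absurd ?_ hz1
          refine Subtype.ext (Subtype.ext ?_)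
          show (z : G) = 1
          rw [← hi, hj, ← two_mul, zpow_mul, show u ^ (2 : ℤ) = 1 by
            rw [show (2 : ℤ) = ((2 : ℕ) : ℤ) from rfl, zpow_natCast, ← hu2, pow_orderOf_eq_one], one_zpow]
        · rw [← hi, hj, zpow_add, zpow_mul, show u ^ (2 : ℤ) = 1 by
            rw [show (2 : ℤ) = ((2 : ℕ) : ℤ) from rfl, zpow_natCast, ← hu2, pow_orderOf_eq_one],
            one_zpow, one_mul, zpow_one]
      intro s hs
      rw [Subgroup.mem_centralizer_singleton_iff, ← hzz]
      exact congrArg Subtype.val (Subgroup.mem_center_iff.mp hz ⟨s, hs⟩)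
    have hindex : (commutator G).index = 2 := by
      rw [← Chars.card_linear]
      refine Nat.card_eq_two_iff.mpr ⟨⟨one, rfl⟩, ⟨lam, hlam1⟩, fun e => hlne' (congrArg Subtype.val e).symm,
        Set.eq_univ_iff_forall.mpr fun χ => ?_⟩
      rcases huni χ.1 (fun e => by
        obtain ⟨ψ, hψ⟩ := Chars.exists_hom_of_degree_one (Chars.irr_isCharacter χ.1) χ.2
        rw [hψ] at e
        exact (ψ u).ne_zero e) with h | h
      · exact Or.inl (Subtype.ext h)
      · exact Or.inr (Subtype.ext h)
    have huG : u ∉ commutator G := fun h => by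
      have hk : commutator G ≤ φ.ker := Abelianization.commutator_subset_ker φ
      have := hlu lam hlam1 hlne'
      rw [hφ] at this
      simp only [show φ u = 1 from hk h, Units.val_one] at this
      norm_num at this
    have hodd : Odd (Nat.card (commutator G)) := by
      rw [← Nat.not_even_iff_odd, even_iff_two_dvd]
      intro h2
      have h4 : 2 ^ 2 ∣ Nat.card G := by
        rw [← (commutator G).card_mul_index, hindex, pow_two]
        exact Nat.mul_dvd_mul_right h2 2
      have := ((Sylow.card_eq_multiplicity S).symm ▸ Subgroup.card_dvd_of_le hSC :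
        2 ^ (Nat.card G).factorization 2 ∣ _)
      rw [hC] at this
      have h3 := (Nat.Prime.pow_dvd_iff_le_factorization Nat.prime_two Nat.card_pos.ne').mp h4
      have h5 := (Nat.pow_dvd_pow 2 h3).trans this
      norm_num at h5
    refine eq_top_iff.mpr fun g _ => ?_
    by_cases hg : g ∈ commutator G
    · exact Subgroup.mem_sup_right (le_sSup (show commutator G ∈ {N : Subgroup G | N.Normal ∧ (Nat.card N).Coprime 2} from ⟨inferInstance, Nat.coprime_two_right.mpr hodd⟩) hg)
    · have h := (Subgroup.mul_mem_iff_of_index_two hindex (a := u⁻¹) (b := g)).mpr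
        (iff_of_false (fun h => huG ((Subgroup.inv_mem_iff _).mp h)) hg)
      have : g = u * (u⁻¹ * g) := (mul_inv_cancel_left u g).symm
      rw [this]
      exact Subgroup.mul_mem _ (Subgroup.mem_sup_left (Subgroup.mem_zpowers u))
        (Subgroup.mem_sup_right (le_sSup (show commutator G ∈ {N : Subgroup G | N.Normal ∧ (Nat.card N).Coprime 2} from ⟨inferInstance, Nat.coprime_two_right.mpr hodd⟩) h))
  refine ⟨⟨?_, fun h => (himp h).2⟩, fun h => (himp h).1, ?_⟩
  · rintro ⟨hu2, hsup, -⟩ hG
    set K := Cfsg.oddCore G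
    haveI : K.Normal := Subgroup.sSup_normal _ fun _ h => h.1
    have hgen : ∀ x : G ⧸ K, x ∈ Subgroup.zpowers (u : G ⧸ K) := by
      intro x
      obtain ⟨g, rfl⟩ := QuotientGroup.mk'_surjective K x
      obtain ⟨a, ⟨i, rfl⟩, b, hb, rfl⟩ := Subgroup.mem_sup_of_normal_right.mp (hsup ▸ Subgroup.mem_top g)
      refine ⟨i, ?_⟩
      simp [(QuotientGroup.eq_one_iff b).mpr hb]
    have hKodd : (Nat.card K).Coprime 2 := Core.card_pPrimeCore_coprime 2 G
    have hle : commutator G ≤ K := by
      rw [commutator_def, Subgroup.commutator_le]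
      intro a _ b _
      obtain ⟨i, hi⟩ := hgen a
      obtain ⟨j, hj⟩ := hgen b
      rw [← QuotientGroup.eq_one_iff, ← QuotientGroup.mk'_apply, map_commutatorElement,
        commutatorElement_eq_one_iff_mul_comm]
      simp only [QuotientGroup.mk'_apply, ← hi, ← hj]
      exact ((Commute.refl (u : G ⧸ K)).zpow_zpow i j).eq
    rw [hG] at hle
    have huK : u ∈ K := hle (Subgroup.mem_top u)
    have h2 : orderOf u ∣ Nat.card K := by
      rw [← Nat.card_zpowers]; exact Subgroup.card_dvd_of_le (Subgroup.zpowers_le.mpr huK)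
    rw [hu2] at h2
    exact (Nat.prime_two.coprime_iff_not_dvd.mp hKodd.symm) h2
  · intro hc hG
    refine hneg fun χ => ?_
    obtain ⟨n, hn0, hn⟩ := hdeg χ
    by_cases h1 : χ = one
    · exact ⟨1, zero_le_one, by subst h1; simp [one]⟩
    have hn2 : 2 ≤ n := by
      by_contra h
      have : n = 1 := by omega
      have hl : 1 < Nat.card {χ : IrrCharacter G // (χ : G → ℂ) 1 = 1} :=
        Finite.one_lt_card_iff_nontrivial.mpr ⟨⟨one, rfl⟩, ⟨χ, by rw [hn, this, Nat.cast_one]⟩,
          fun e => h1 (congrArg Subtype.val e).symm⟩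
      rw [Chars.card_linear, hG, Subgroup.index_top] at hl
      exact lt_irrefl _ hl
    rcases hyp χ fun e => h1 (Subtype.ext e) with e | e
    · refine ⟨(n : ℝ) * ((n : ℝ) - 2), mul_nonneg (Nat.cast_nonneg n) (by
        have : (2 : ℝ) ≤ n := by exact_mod_cast hn2
        linarith), ?_⟩
      rw [show (χ : G → ℂ) u = (χ : G → ℂ) 1 - c by rw [← e]; ring, hn, hc]
      push_cast; ring
    · exact ⟨0, le_rfl, by rw [e]; simp⟩

end Cfsg.Agent.S4757
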