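import Cfsg.Statements.S4763
import Cfsg.Agent.BlockChar.UniqueSingular
import Cfsg.Agent.Chars.PrimePowerDivisor

set_option autoImplicit false
open Cfsg Cfsg.Agent Cfsg.Agent.BlockChar

namespace Cfsg.Agent.S4763

/-- Let p be a prime and G a finite group that is not nilpotent and has a normal p-complement (a normal subgroup of order prime to p and index a power of p). If G has exactly one irreducible complex character of degree divisible by p, then G has exactly one conjugacy class whose size is divisible by p. -/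
theorem result {G : Type*} [Group G] [Finite G] (p : ℕ) [Fact p.Prime] (hnil : ¬ Group.IsNilpotent G) (N : Subgroup G) [N.Normal] (hN : (Nat.card N).Coprime p) (hidx : ∃ k : ℕ, N.index = p ^ k) (hone : Nat.card {χ : Cfsg.IrrCharacter G // p ∣ Cfsg.charDegree (χ : G → ℂ)} = 1) : Nat.card {C : ConjClasses G // p ∣ Nat.card C.carrier} = 1 := by
  classical
  haveI := Fintype.ofFinite G
  haveI := Fintype.ofFinite N
  have hp : p.Prime := Fact.out
  obtain ⟨k, hk⟩ := hidx
  haveI : Subsingleton {χ : IrrCharacter G // p ∣ charDegree (χ : G → ℂ)} :=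
    (Nat.card_eq_one_iff_unique.mp hone).1
  obtain ⟨⟨χ₀, hχ₀⟩⟩ := (Nat.card_eq_one_iff_unique.mp hone).2
  have huniq : ∀ χ χ' : IrrCharacter G, p ∣ charDegree (χ : G → ℂ) →
      p ∣ charDegree (χ' : G → ℂ) → χ = χ' := fun χ χ' h h' =>
    congrArg Subtype.val (Subsingleton.elim (⟨χ, h⟩ : {χ : IrrCharacter G // p ∣ charDegree (χ : G → ℂ)}) ⟨χ', h'⟩)
  have hcopI : (Nat.card N).Coprime N.index := hk ▸ hN.pow_right k
  obtain ⟨P, hNP⟩ := Subgroup.exists_right_complement'_of_coprime hcopI
  have hPc : Nat.card P = p ^ k := by rw [← hNP.symm.index_eq_card, hk]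
  have hPp : IsPGroup p P := IsPGroup.of_card hPc
  haveI := hPp.isNilpotent
  have hPs : Group.IsSolvable P := inferInstance
  have hcop : (Nat.card N).Coprime (Nat.card P) := hPc ▸ hN.pow_right k
  have hdec : ∀ g : G, ∃ n ∈ N, ∃ x ∈ P, n * x = g := fun g =>
    Subgroup.mem_sup_of_normal_left.mp (hNP.sup_eq_top ▸ Subgroup.mem_top g)
  set φ : P →* MulAut N := (MulAut.conjNormal (H := N)).comp P.subtype with hφ
  have hφv : ∀ (a : P) (n : N), ((φ a n : N) : G) = (a : G) * n * (a : G)⁻¹ := fun a n => rfl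
  have hinvP : ∀ θ : IrrCharacter N, Chars.InvFun φ (θ : N → ℂ) ↔
      Chars2.inertiaSub (G := G) (θ : N → ℂ) = ⊤ := by
    intro θ
    constructor
    · intro h
      refine top_unique fun g _ => ?_
      obtain ⟨n, hn, x, hx, rfl⟩ := hdec g
      refine Subgroup.mul_mem _ (Chars2.le_inertiaSub (Chars.isClassFunction_irr θ) hn) ?_
      refine Chars2.mem_inertiaSub.mpr (funext fun m => ?_)
      rw [Chars2.conjFun_apply]
      refine (congrArg (θ : N → ℂ) (Subtype.ext ?_)).trans (h ⟨x⁻¹, P.inv_mem hx⟩ m)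
      exact (hφv ⟨x⁻¹, P.inv_mem hx⟩ m).symm
    · intro h a m
      have := Chars.inv_of_inertia_top h (a : G) m
      exact this
  have hcount : Nat.card {K : ConjClasses N // ∀ a, ConjClasses.map (φ a).toMonoidHom K = K} =
      Nat.card {θ : IrrCharacter N // Chars2.inertiaSub (G := G) (θ : N → ℂ) = ⊤} := by
    obtain ⟨E⟩ := Chars.glauberman_solvable_equiv hPs φ hcop
    haveI := Fintype.ofFinite (Chars.fixSub φ)
    rw [Chars.card_fixed_classes hPs φ hcop, ← Chars.card_irr_eq_card_conjClasses, ← Nat.card_congr E]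
    exact Nat.card_congr (Equiv.subtypeEquivRight hinvP)
  have habel : ∀ h : IrrCharacter (G ⧸ N), ¬ (h : G ⧸ N → ℂ) 1 = 1 → ∀ θ : IrrCharacter N,
      (θ : N → ℂ) ≠ (fun _ => 1) → False := by
    intro β hβ θ hθ1
    have hs := QuotientGroup.mk'_surjective N
    set β' : IrrCharacter G := ⟨_, Chars.isIrrCharacter_comp_surjective β.2 _ hs⟩ with hβ'
    have hpQ : IsPGroup p (G ⧸ N) := IsPGroup.of_card (by rw [← Subgroup.index_eq_card]; exact hk)
    haveI := Fintype.ofFinite (G ⧸ N)
    have hβd : p ∣ charDegree (β' : G → ℂ) := by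
      have := UniqueSingular.dvd_degree_of_ne_one hpQ hβ
      simpa [charDegree, hβ'] using this
    have hres : ∀ n : N, (β' : G → ℂ) n = (β' : G → ℂ) 1 := fun n => by
      simp [hβ', (QuotientGroup.eq_one_iff (n : G)).mpr n.2]
    by_cases hinv : Chars2.inertiaSub (G := G) (θ : N → ℂ) = ⊤
    · obtain ⟨χ, hχ, hext⟩ := Chars.extends_of_coprime N hcopI θ.2 hinv
      have hg := Chars2.gallagher (N := N) (φ := 1) (ϑ := (θ : N → ℂ)) Chars.isIrrCharacter_one
        (Chars2.inertiaSub_eq_top fun g n => rfl) hinv (by rw [one_mul]; exact θ.2) hχ hext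
      have hmem : (β' : G → ℂ) ∈
          {b : G → ℂ | IsIrrCharacter G b ∧ classInner (indFun N 1) b ≠ 0} := by
        refine ⟨β'.2, ?_⟩
        rw [Chars.classInner_indFun N 1 (Chars.isClassFunction_irr β'),
          show (fun n : N => (β' : G → ℂ) n) = (β' : G → ℂ) 1 • (1 : N → ℂ) from
            funext fun n => by simp [hres n],
          Chars.classInner_smul_right, show classInner (1 : N → ℂ) 1 = 1 from
            Chars.classInner_self_irr Chars.isIrrCharacter_one, mul_one]
        simpa using Chars.irr_apply_one_ne_zero β'.2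
      obtain ⟨hirr, -⟩ := hg.mapsTo hmem
      obtain ⟨t, ht⟩ := Chars.exists_apply_one_eq (Chars.irr_isCharacter θ)
      have hd : p ∣ charDegree ((β' : G → ℂ) * χ) := by
        have hχ1 : χ 1 = t := by
          rw [show (1 : G) = ((1 : N) : G) from rfl, hext, ht]
        have e : charDegree ((β' : G → ℂ) * χ) = charDegree (β' : G → ℂ) * t := by
          rw [charDegree, Pi.mul_apply, ← EqualDegree.charDegree_eq' β'.2, hχ1, ← Nat.cast_mul]
          simp only [Complex.natCast_re, Nat.floor_natCast]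
        rw [e]
        exact hβd.mul_right t
      have h := congrArg Subtype.val (huniq β' ⟨_, hirr⟩ hβd hd)
      apply hθ1
      funext n
      have h1 := congrFun h (n : G)
      simp only [Pi.mul_apply, hres n, hext] at h1
      have h2 : (β' : G → ℂ) 1 * 1 = (β' : G → ℂ) 1 * (θ : N → ℂ) n := by rw [mul_one]; exact h1
      exact (mul_left_cancel₀ (Chars.irr_apply_one_ne_zero β'.2) h2).symm
    · obtain ⟨χ, hχ⟩ := Chars.exists_irr_above N θ.2
      have h := huniq β' χ hβd (UniqueSingular.dvd_degree_over ⟨k, hk⟩ θ.2 hinv hχ)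
      subst h
      apply hχ
      rw [show (fun n : N => (β' : G → ℂ) n) = (β' : G → ℂ) 1 • (fun _ : N => (1 : ℂ)) from
            funext fun n => by simp [hres n],
        Chars.classInner_smul_left, Chars.classInner_irr_of_ne Chars.isIrrCharacter_one θ.2 hθ1.symm,
        mul_zero]
  have hN1 : N ≠ ⊥ := by
    intro h
    refine hnil ?_
    have hG : Nat.card G = p ^ k := by rw [← hk, h, Subgroup.index_bot]
    exact (IsPGroup.of_card hG).isNilpotent
  have hGN : ∀ β : IrrCharacter (G ⧸ N), (β : G ⧸ N → ℂ) 1 = 1 := by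
    intro β
    by_contra hβ
    have hlt : 1 < Nat.card (IrrCharacter N) := by
      haveI : Nontrivial N := (Subgroup.nontrivial_iff_ne_bot N).mpr hN1
      rw [Chars.card_irr_eq_card_conjClasses]
      haveI : Nontrivial (ConjClasses N) := by
        obtain ⟨a, ha⟩ := exists_ne (1 : N)
        exact ⟨ConjClasses.mk a, ConjClasses.mk 1, fun h =>
          ha (isConj_one_right.mp (ConjClasses.mk_eq_mk_iff_isConj.mp h).symm)⟩
      exact Finite.one_lt_card
    haveI : Nontrivial (IrrCharacter N) := Finite.one_lt_card_iff_nontrivial.mp hlt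
    obtain ⟨θ, hθ⟩ := exists_ne (⟨_, Chars.isIrrCharacter_one⟩ : IrrCharacter N)
    exact habel β hβ θ fun h => hθ (Subtype.ext h)
  haveI : Fintype (G ⧸ N) := Fintype.ofFinite _
  have hPab : ∀ a b : P, (a : G) * b = b * a := by
    intro a b
    have h := Chars.comm_of_forall_linear hGN ((a : G) : G ⧸ N) ((b : G) : G ⧸ N)
    rw [← QuotientGroup.mk_mul, ← QuotientGroup.mk_mul] at h
    have h1 : ((a : G) * b)⁻¹ * (b * a) ∈ N ⊓ P :=
      ⟨QuotientGroup.eq.mp h, P.mul_mem (P.inv_mem (P.mul_mem a.2 b.2)) (P.mul_mem b.2 a.2)⟩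
    rw [Subgroup.inf_eq_bot_of_coprime hcop, Subgroup.mem_bot, inv_mul_eq_one] at h1
    exact h1
  have hcomm : ∀ g h : G, g⁻¹ * h⁻¹ * g * h ∈ N := by
    intro g h
    rw [← QuotientGroup.eq_one_iff]
    simp only [QuotientGroup.mk_mul, QuotientGroup.mk_inv]
    rw [mul_assoc, Chars.comm_of_forall_linear hGN ((g : G) : G ⧸ N) (h : G ⧸ N)]
    group
  obtain ⟨θ₀, hθ₀⟩ : ∃ θ : IrrCharacter N, Chars2.inertiaSub (G := G) (θ : N → ℂ) ≠ ⊤ := by
    by_contra hall
    push Not at hall
    obtain ⟨θ, hcon⟩ : ∃ θ : IrrCharacter N,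
        classInner (fun n : N => (χ₀ : G → ℂ) n) (θ : N → ℂ) ≠ 0 := by
      obtain ⟨θ, h⟩ := Chars.PrimePower.exists_constituent (Chars.irr_isCharacter χ₀)
        (Chars.irr_apply_one_ne_zero χ₀.2) N
      exact ⟨θ, by convert h⟩
    obtain ⟨χ, hχ, hext⟩ := Chars.extends_of_coprime N hcopI θ.2 (hall θ)
    have hg := Chars2.gallagher (N := N) (φ := 1) (ϑ := (θ : N → ℂ)) Chars.isIrrCharacter_one
      (Chars2.inertiaSub_eq_top fun g n => rfl) (hall θ) (by rw [one_mul]; exact θ.2) hχ hext
    obtain ⟨β, ⟨hβ, hβ1⟩, hβe⟩ := hg.surjOn (show (χ₀ : G → ℂ) ∈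
        {b : G → ℂ | IsIrrCharacter G b ∧ classInner (indFun N (1 * (θ : N → ℂ))) b ≠ 0} from by
      refine ⟨χ₀.2, ?_⟩
      rw [one_mul, Chars.classInner_indFun N _ (Chars.isClassFunction_irr χ₀),
        ← Chars.classInner_conj_symm]
      exact fun h => hcon ((map_eq_zero _).mp h))
    rw [Chars.classInner_indFun N 1 (Chars.isClassFunction_of_isCharacter (Chars.isCharacter_of_isIrr hβ)),
      ← Chars.classInner_conj_symm] at hβ1
    have hc : classInner (fun n : N => β n) (1 : N → ℂ) ≠ 0 := fun h => hβ1 (by rw [h, map_zero])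
    have hker : ∀ n : N, β n = β 1 := fun n => by
      have e1 := Chars2.clifford_invariant hβ Chars.isIrrCharacter_one
        (Chars2.inertiaSub_eq_top fun g n => rfl) hc n
      have e2 := Chars2.clifford_invariant hβ Chars.isIrrCharacter_one
        (Chars2.inertiaSub_eq_top fun g n => rfl) hc 1
      rw [Subgroup.coe_one] at e2
      rw [e1, e2]
    have hlin : β 1 = 1 := EqualDegree.linear_of_commutator (⟨β, hβ⟩ : IrrCharacter G) fun g hg' => by
      have hle : commutator G ≤ N := by
        rw [commutator_def, Subgroup.commutator_le]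
        intro a _ b _
        have := hcomm a⁻¹ b⁻¹
        simp only [inv_inv] at this
        exact this
      exact hker ⟨g, hle hg'⟩
    obtain ⟨t, -, ht, htd⟩ := Chars.irr_degree_dvd_card θ.2
    have hd : charDegree (χ₀ : G → ℂ) = t := by
      have h1 : (χ₀ : G → ℂ) 1 = t := by
        rw [← hβe]; simp only [Pi.mul_apply]; rw [hlin, one_mul, show (1 : G) = ((1 : N) : G) from rfl, hext, ht]
      simp [charDegree, h1]
    exact (hp.coprime_iff_not_dvd.mp hN.symm) ((hd ▸ hχ₀).trans htd)
  -- the noninvariant characters form one regular orbit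
  have hT : ∀ θ : IrrCharacter N, Chars2.inertiaSub (G := G) (θ : N → ℂ) ≠ ⊤ →
      Chars2.inertiaSub (G := G) (θ : N → ℂ) = N := fun θ h =>
    UniqueSingular.inertia_eq_of_unique hN ⟨k, hk⟩ huniq θ.2 h
  have hnum : Nat.card {θ : IrrCharacter N // ¬ Chars2.inertiaSub (G := G) (θ : N → ℂ) = ⊤} =
      Nat.card P := by
    rw [hPc, ← hk, show N.index = (Chars2.inertiaSub (G := G) (θ₀ : N → ℂ)).index by rw [hT θ₀ hθ₀],
      ← Chars2.card_orbitFinset θ₀.2, ← Nat.card_eq_finsetCard]
    refine Nat.card_congr (Equiv.subtypeEquivRight fun θ => ?_)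
    obtain ⟨χ, hχ⟩ := Chars.exists_irr_above N θ₀.2
    constructor
    · intro h
      obtain ⟨χ', hχ'⟩ := Chars.exists_irr_above N θ.2
      have he := huniq χ χ' (UniqueSingular.dvd_degree_over ⟨k, hk⟩ θ₀.2 hθ₀ hχ)
        (UniqueSingular.dvd_degree_over ⟨k, hk⟩ θ.2 h hχ')
      subst he
      obtain ⟨g, hg⟩ := Chars2.clifford_constituent χ.2 θ₀.2 hχ θ.2 hχ'
      exact (Chars2.mem_orbitFinset θ₀.2).mpr ⟨g, hg.symm⟩
    · intro h hinv
      obtain ⟨g, hg⟩ := (Chars2.mem_orbitFinset θ₀.2).mp h
      refine hθ₀ (Chars2.inertiaSub_eq_top fun y n => ?_)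
      have e1 : ∀ z : N, (θ₀ : N → ℂ) z = (θ : N → ℂ) (MulAut.conjNormal g z) := fun z => by
        rw [← hg]
        simp [Chars2.conjFun]
      rw [e1, e1]
      convert Chars.inv_of_inertia_top hinv (g * y * g⁻¹) (MulAut.conjNormal g n) using 2
      exact Subtype.ext (by simp [MulAut.conjNormal_apply, mul_assoc])
  -- an element fixing a class of `N` outside fixes it for all of `P`
  have hclass : ∀ x : P, x ≠ 1 → ∀ K : ConjClasses N, ConjClasses.map (φ x).toMonoidHom K = K →
      ∀ a, ConjClasses.map (φ a).toMonoidHom K = K := by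
    intro x hx
    set S := Subgroup.zpowers x
    haveI : Group.IsSolvable S := inferInstance
    have hcS : (Nat.card N).Coprime (Nat.card S) :=
      hcop.coprime_dvd_right (Subgroup.card_subgroup_dvd_card S)
    set ψ := φ.comp S.subtype
    have hinvS : ∀ θ : IrrCharacter N, Chars.InvFun ψ (θ : N → ℂ) ↔
        Chars2.inertiaSub (G := G) (θ : N → ℂ) = ⊤ := by
      intro θ
      refine ⟨fun h => ?_, fun h a m => (hinvP θ).mpr h a m⟩
      by_contra hne
      have hxT : ((x : G))⁻¹ ∈ Chars2.inertiaSub (G := G) (θ : N → ℂ) := by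
        refine Chars2.mem_inertiaSub.mpr (funext fun m => ?_)
        rw [Chars2.conjFun_apply]
        have := h ⟨x, Subgroup.mem_zpowers x⟩ m
        convert this using 2
        exact Subtype.ext (by simp [ψ, hφv])
      rw [hT θ hne] at hxT
      have : (x : G) ∈ N ⊓ P := ⟨by simpa using N.inv_mem hxT, x.2⟩
      rw [Subgroup.inf_eq_bot_of_coprime hcop, Subgroup.mem_bot] at this
      exact hx (Subtype.ext this)
    obtain ⟨E⟩ := Chars.glauberman_solvable_equiv (inferInstance : Group.IsSolvable S) ψ hcS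
    haveI := Fintype.ofFinite (Chars.fixSub ψ)
    have hS : Nat.card {K : ConjClasses N // ∀ a, ConjClasses.map (ψ a).toMonoidHom K = K} =
        Nat.card {K : ConjClasses N // ∀ a, ConjClasses.map (φ a).toMonoidHom K = K} := by
      rw [Chars.card_fixed_classes (inferInstance : Group.IsSolvable S) ψ hcS,
        ← Chars.card_irr_eq_card_conjClasses, ← Nat.card_congr E, hcount]
      exact Nat.card_congr (Equiv.subtypeEquivRight hinvS)
    have hset : {K : ConjClasses N | ∀ a, ConjClasses.map (φ a).toMonoidHom K = K} =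
        {K : ConjClasses N | ∀ a, ConjClasses.map (ψ a).toMonoidHom K = K} := by
      refine Set.eq_of_subset_of_ncard_le (fun K hK a => hK a) ?_ (Set.toFinite _)
      rw [← Nat.card_coe_set_eq, ← Nat.card_coe_set_eq]
      exact hS.le
    intro K hK
    refine (Set.ext_iff.mp hset K).mpr fun a => ?_
    let A : Subgroup P :=
      { carrier := {a | ConjClasses.map (φ a).toMonoidHom K = K}
        one_mem' := by
          obtain ⟨n, rfl⟩ := ConjClasses.mk_surjective K
          show ConjClasses.mk (φ 1 n) = _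
          rw [map_one]; rfl
        mul_mem' := fun {a b} ha hb => by
          obtain ⟨n, rfl⟩ := ConjClasses.mk_surjective K
          show ConjClasses.mk (φ (a * b) n) = _
          have hb' : ConjClasses.map (φ a).toMonoidHom (ConjClasses.mk (φ b n)) =
              ConjClasses.map (φ a).toMonoidHom (ConjClasses.mk n) := congrArg _ hb
          rw [map_mul]
          exact hb'.trans ha
        inv_mem' := fun {a} ha => by
          obtain ⟨n, rfl⟩ := ConjClasses.mk_surjective K
          show ConjClasses.mk (φ a⁻¹ n) = _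
          have ha' : ConjClasses.map (φ a⁻¹).toMonoidHom (ConjClasses.mk (φ a n)) =
              ConjClasses.map (φ a⁻¹).toMonoidHom (ConjClasses.mk n) := congrArg _ ha
          change ConjClasses.mk (φ a⁻¹ (φ a n)) = ConjClasses.mk (φ a⁻¹ n) at ha'
          rw [← MulAut.mul_apply, ← map_mul, inv_mul_cancel, map_one] at ha'
          exact ha'.symm }
    exact Subgroup.zpowers_le.mpr (show x ∈ A from hK) a.2
  -- the classes of `N` moved by `P` are conjugate
  have hmoved : Nat.card {K : ConjClasses N // ¬ ∀ a, ConjClasses.map (φ a).toMonoidHom K = K} =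
      Nat.card P := by
    have h1 := Chars.card_irr_eq_card_conjClasses (G := N)
    have h2 : ∀ {α : Type _} [Finite α] (q : α → Prop),
        Nat.card α = Nat.card {a // q a} + Nat.card {a // ¬ q a} := fun q =>
      (Nat.card_congr (Equiv.sumCompl q).symm).trans Nat.card_sum
    rw [h2 (fun θ : IrrCharacter N => Chars2.inertiaSub (G := G) (θ : N → ℂ) = ⊤),
      h2 (fun K : ConjClasses N => ∀ a, ConjClasses.map (φ a).toMonoidHom K = K), hcount, hnum] at h1
    omega
  have htrans : ∀ n m : N, (¬ ∀ a, ConjClasses.map (φ a).toMonoidHom (ConjClasses.mk n) = ConjClasses.mk n) →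
      (¬ ∀ a, ConjClasses.map (φ a).toMonoidHom (ConjClasses.mk m) = ConjClasses.mk m) →
      IsConj (n : G) (m : G) := by
    intro n m hn hm
    have hmap : ∀ (a b : P) (w : N), ConjClasses.map (φ a).toMonoidHom
        (ConjClasses.map (φ b).toMonoidHom (ConjClasses.mk w)) =
          ConjClasses.map (φ (a * b)).toMonoidHom (ConjClasses.mk w) := fun a b w => by
      show ConjClasses.mk (φ a (φ b w)) = ConjClasses.mk (φ (a * b) w)
      rw [map_mul]; rfl
    let f : P → {K : ConjClasses N // ¬ ∀ a, ConjClasses.map (φ a).toMonoidHom K = K} := fun a =>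
      ⟨ConjClasses.map (φ a).toMonoidHom (ConjClasses.mk n), fun h => hn fun b => by
        have h0 := h (b * a⁻¹)
        rw [hmap, inv_mul_cancel_right] at h0
        have h1 := h a⁻¹
        rw [hmap, inv_mul_cancel] at h1
        have h2 : ConjClasses.map (φ 1).toMonoidHom (ConjClasses.mk n) = ConjClasses.mk n := by
          show ConjClasses.mk (φ 1 n) = _
          rw [map_one]; rfl
        rw [h0, ← h1, h2]⟩
    have hf : Function.Injective f := by
      intro a b hab
      have h := congrArg (fun K => ConjClasses.map (φ b⁻¹).toMonoidHom K.1) hab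
      simp only [f, hmap, inv_mul_cancel] at h
      by_contra hne
      refine hn (hclass (b⁻¹ * a) (fun h' => hne (inv_mul_eq_one.mp h').symm) _ ?_)
      rw [h]
      show ConjClasses.mk (φ 1 n) = _
      rw [map_one]; rfl
    have hbij := (Nat.bijective_iff_injective_and_card f).mpr ⟨hf, hmoved.symm⟩
    obtain ⟨a, ha⟩ := hbij.2 ⟨ConjClasses.mk m, hm⟩
    have h : IsConj (φ a n) m := ConjClasses.mk_eq_mk_iff_isConj.mp (congrArg Subtype.val ha)
    refine IsConj.trans ?_ (N.subtype.map_isConj h)
    exact isConj_iff.mpr ⟨(a : G), by rw [Subgroup.coe_subtype, hφv]⟩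
  -- the elements centralised by a conjugate of `P`
  have hgood : ∀ g c : G, IsConj g c → (∀ y ∈ P, y * c = c * y) →
      ¬ p ∣ Nat.card (ConjClasses.mk g).carrier := by
    intro g c hgc hc hd
    rw [ConjClasses.mk_eq_mk_iff_isConj.mpr hgc, UniqueSingular.card_carrier_eq_index] at hd
    have hle : P ≤ Subgroup.centralizer ({c} : Set G) := fun y hy =>
      Subgroup.mem_centralizer_singleton_iff.mpr (hc y hy)
    have := hd.trans (Subgroup.index_dvd_of_le hle)
    rw [hNP.index_eq_card] at this
    exact (hp.coprime_iff_not_dvd.mp hN.symm) this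
  obtain ⟨hE, hU⟩ := Chars.glauberman_classes hPs φ hcop
  have hfixed : ∀ n : N, (∀ a, ConjClasses.map (φ a).toMonoidHom (ConjClasses.mk n) = ConjClasses.mk n) →
      ∃ c : N, c ∈ Chars.fixSub φ ∧ IsConj n c := fun n h => by
    obtain ⟨c, hc, hnc⟩ := hE n fun a => (ConjClasses.mk_eq_mk_iff_isConj.mp (h a)).symm
    exact ⟨c, hc, hnc⟩
  have hfixP : ∀ c : N, c ∈ Chars.fixSub φ → ∀ y ∈ P, y * (c : G) = c * y := fun c hc y hy => by
    have := congrArg Subtype.val (hc ⟨y, hy⟩)
    rw [hφv] at this
    exact mul_inv_eq_iff_eq_mul.mp this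
  have hchar : ∀ C : ConjClasses G, p ∣ Nat.card C.carrier ↔ ∃ n : N,
      C = ConjClasses.mk (n : G) ∧
        ¬ ∀ a, ConjClasses.map (φ a).toMonoidHom (ConjClasses.mk n) = ConjClasses.mk n := by
    intro C
    obtain ⟨g, rfl⟩ := ConjClasses.mk_surjective C
    constructor
    · intro hd
      by_cases hgN : g ∈ N
      · refine ⟨⟨g, hgN⟩, rfl, fun h => ?_⟩
        obtain ⟨c, hc, hnc⟩ := hfixed _ h
        exact hgood g c (N.subtype.map_isConj hnc) (hfixP c hc) hd
      · exfalso
        -- write `g` as a product of commuting parts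
        set u := g ^ (Nat.card N) with hu
        obtain ⟨α, hα⟩ : ∃ α : ℕ, u ^ p ^ α = 1 := ⟨k, by
          rw [hu, ← pow_mul, ← hk, N.card_mul_index, pow_card_eq_one']⟩
        obtain ⟨Q, hQ⟩ := (IsPGroup.of_card (p := p) (G := Subgroup.zpowers u) (n := ((orderOf u).factorization p)) (by
          rw [Nat.card_zpowers]
          obtain ⟨j, -, hj⟩ := (Nat.dvd_prime_pow hp).mp (orderOf_dvd_of_pow_eq_one hα)
          rw [hj, hp.factorization_pow, Finsupp.single_eq_same])).exists_le_sylow
        have hPS : Nat.card P = p ^ (Nat.card G).factorization p := by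
          rw [hPc, ← N.card_mul_index, hk, Nat.factorization_mul Nat.card_pos.ne' (pow_ne_zero _ hp.ne_zero),
            Finsupp.add_apply, hp.factorization_pow, Finsupp.single_eq_same,
            Nat.factorization_eq_zero_of_not_dvd (hp.coprime_iff_not_dvd.mp hN.symm), zero_add]
        set PS : Sylow p G := Sylow.ofCard P hPS
        obtain ⟨y, hy⟩ := MulAction.exists_smul_eq G Q PS
        set g' := y * g * y⁻¹ with hg'
        have hu' : g' ^ Nat.card N ∈ P := by
          rw [hg', conj_pow]
          have hmem : y * u * y⁻¹ ∈ (y • Q : Sylow p G).1 :=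
            ⟨u, hQ (Subgroup.mem_zpowers u), rfl⟩
          rw [hy] at hmem
          exact hmem
        obtain ⟨j, hj⟩ : ∃ j : ℕ, Nat.card N * j ≡ 1 [MOD p ^ k] :=
          ⟨(Nat.card N) ^ ((p ^ k).totient - 1), by
            rw [← pow_succ', Nat.sub_add_cancel (Nat.totient_pos.mpr (pow_pos hp.pos k))]
            exact Nat.ModEq.pow_totient (hN.pow_right k)⟩
        set x := (g' ^ Nat.card N) ^ j with hx
        have hxP : x ∈ P := P.pow_mem hu' j
        set m := g' * x⁻¹ with hm
        have hmN : m ∈ N := by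
          rw [← QuotientGroup.eq_one_iff, hm, QuotientGroup.mk_mul, QuotientGroup.mk_inv, hx,
            ← pow_mul, QuotientGroup.mk_pow, mul_inv_eq_one]
          have hcard : orderOf (g' : G ⧸ N) ∣ p ^ k := by
            rw [← hk, Subgroup.index_eq_card]; exact orderOf_dvd_natCard _
          conv_lhs => rw [← pow_one (g' : G ⧸ N)]
          exact pow_eq_pow_iff_modEq.mpr (hj.symm.of_dvd hcard)
        have hxc : Commute x g' := ((Commute.refl g').pow_left _).pow_left j
        have hgm : g' = m * x := by rw [hm, inv_mul_cancel_right]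
        have hxm : x * m = m * x := by
          have h1 : Commute x m := by rw [hm]; exact hxc.mul_right ((Commute.refl x).inv_right)
          exact h1.eq
        by_cases hx1 : x = 1
        · rw [hx1, mul_one] at hgm
          refine hgN ?_
          have : g = y⁻¹ * g' * y := by rw [hg']; group
          rw [this, hgm]
          simpa using Subgroup.Normal.conj_mem inferInstance m hmN y⁻¹
        set nm : N := ⟨m, hmN⟩
        have hxfix : φ ⟨x, hxP⟩ nm = nm := Subtype.ext (by
          rw [hφv]; exact mul_inv_eq_iff_eq_mul.mpr hxm)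
        have hK := hclass ⟨x, hxP⟩ (fun h => hx1 (congrArg Subtype.val h)) (ConjClasses.mk nm)
          (congrArg ConjClasses.mk hxfix)
        obtain ⟨c, hc, hnc⟩ := hfixed nm hK
        set S := Subgroup.zpowers (⟨x, hxP⟩ : P)
        haveI : Group.IsSolvable S := inferInstance
        obtain ⟨-, hUS⟩ := Chars.glauberman_classes (inferInstance : Group.IsSolvable S)
          (φ.comp S.subtype) (hcop.coprime_dvd_right (Subgroup.card_subgroup_dvd_card S))
        have hnS : nm ∈ Chars.fixSub (φ.comp S.subtype) := by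
          rintro ⟨a, ha⟩
          obtain ⟨i, rfl⟩ := ha
          show φ ((⟨x, hxP⟩ : P) ^ i) nm = nm
          refine Subtype.ext ?_
          rw [hφv, SubgroupClass.coe_zpow]
          exact mul_inv_eq_iff_eq_mul.mpr ((show Commute x m from hxm).zpow_left i).eq
        have hcS : c ∈ Chars.fixSub (φ.comp S.subtype) := fun a => hc _
        obtain ⟨d, hd', hdc⟩ := hUS nm hnS c hcS hnc
        have hdx : (x : G) * (d : G) = d * x := by
          have := congrArg Subtype.val (hd' ⟨⟨x, hxP⟩, Subgroup.mem_zpowers _⟩)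
          exact mul_inv_eq_iff_eq_mul.mp this
        refine hgood g ((c : G) * x) (isConj_iff.mpr ⟨(d : G) * y, ?_⟩) (fun z hz => ?_) hd
        · have e : (d : G) * y * g * ((d : G) * y)⁻¹ = (d : G) * g' * (d : G)⁻¹ := by
            rw [hg']; group
          rw [e, hgm, show (c : G) = (d : G) * m * (d : G)⁻¹ from (congrArg Subtype.val hdc).symm]
          calc (d : G) * (m * x) * (d : G)⁻¹ = (d : G) * m * (x * (d : G)⁻¹) := by group
            _ = (d : G) * m * ((d : G)⁻¹ * x) := by
              rw [((show Commute x (d : G) from hdx).inv_right).eq]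
            _ = (d : G) * m * (d : G)⁻¹ * x := by group
        · calc z * ((c : G) * x) = (c : G) * (z * x) := by rw [← mul_assoc, hfixP c hc z hz, mul_assoc]
            _ = (c : G) * x * z := by
              rw [show z * x = x * z from hPab ⟨z, hz⟩ ⟨x, hxP⟩, mul_assoc]
    · rintro ⟨n, hgn, hn⟩
      by_contra hd
      rw [hgn, UniqueSingular.card_carrier_eq_index] at hd
      set C := Subgroup.centralizer ({(n : G)} : Set G)
      have hCcard : p ^ k ∣ Nat.card C := by
        have h := C.card_mul_index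
        rw [← N.card_mul_index, hk] at h
        exact ((hp.coprime_iff_not_dvd.mpr hd).pow_left k).dvd_of_dvd_mul_right
          (h ▸ dvd_mul_left _ _)
      obtain ⟨Q, hQc⟩ := Sylow.exists_subgroup_card_pow_prime p hCcard
      have hPS : Nat.card P = p ^ (Nat.card G).factorization p := by
        rw [hPc, ← N.card_mul_index, hk, Nat.factorization_mul Nat.card_pos.ne' (pow_ne_zero _ hp.ne_zero),
          Finsupp.add_apply, hp.factorization_pow, Finsupp.single_eq_same,
          Nat.factorization_eq_zero_of_not_dvd (hp.coprime_iff_not_dvd.mp hN.symm), zero_add]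
      have hQS : Nat.card (Q.map C.subtype : Subgroup G) = p ^ (Nat.card G).factorization p := by
        rw [Subgroup.card_map_of_injective Subtype.val_injective, hQc, ← hPc, hPS]
      obtain ⟨y, hy⟩ := MulAction.exists_smul_eq G (Sylow.ofCard (Q.map C.subtype) hQS)
        (Sylow.ofCard P hPS)
      -- so `P` centralises a conjugate of `n`
      obtain ⟨a, ha, b, hb, hab⟩ := hdec y
      refine hn fun z => ?_
      have hcen : ∀ w ∈ P, w * (y * n * y⁻¹) = y * n * y⁻¹ * w := by
        intro w hw
        have hmem : w ∈ (y • Sylow.ofCard (Q.map C.subtype) hQS : Sylow p G).1 := by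
          rw [hy]; exact hw
        obtain ⟨v, hv, rfl⟩ := hmem
        obtain ⟨v', -, rfl⟩ := hv
        have hvn := Subgroup.mem_centralizer_singleton_iff.mp v'.2
        show y * (v' : G) * y⁻¹ * (y * n * y⁻¹) = y * n * y⁻¹ * (y * v' * y⁻¹)
        calc y * (v' : G) * y⁻¹ * (y * n * y⁻¹) = y * ((v' : G) * n) * y⁻¹ := by group
          _ = y * ((n : G) * v') * y⁻¹ := by rw [hvn]
          _ = y * n * y⁻¹ * (y * v' * y⁻¹) := by group
      set w : N := ⟨y * n * y⁻¹, Subgroup.Normal.conj_mem inferInstance (n : G) n.2 y⟩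
      have hw : w ∈ Chars.fixSub φ := fun t => Subtype.ext (by
        rw [hφv]; exact mul_inv_eq_iff_eq_mul.mpr (hcen t t.2))
      have hwn : ConjClasses.mk (φ ⟨b, hb⟩ n) = ConjClasses.mk w := by
        refine ConjClasses.mk_eq_mk_iff_isConj.mpr (isConj_iff.mpr ⟨⟨a, ha⟩, Subtype.ext ?_⟩)
        show a * (b * (n : G) * b⁻¹) * a⁻¹ = y * n * y⁻¹
        rw [← hab]; group
      have hb2 : ∀ t, ConjClasses.mk (φ t (φ ⟨b, hb⟩ n)) = ConjClasses.mk (φ ⟨b, hb⟩ n) := by
        intro t
        have := congrArg (ConjClasses.map (φ t).toMonoidHom) hwn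
        change ConjClasses.mk (φ t (φ ⟨b, hb⟩ n)) = ConjClasses.mk (φ t w) at this
        rw [this, hw t, hwn]
      show ConjClasses.mk (φ z n) = ConjClasses.mk n
      have h1 := hb2 (z * ⟨b, hb⟩⁻¹)
      have h2 := hb2 (⟨b, hb⟩ : P)⁻¹
      rw [← MulAut.mul_apply, ← map_mul] at h1 h2
      rw [inv_mul_cancel_right] at h1
      rw [inv_mul_cancel, map_one] at h2
      exact h1.trans h2.symm
  obtain ⟨⟨K, hK⟩⟩ : Nonempty {K : ConjClasses N // ¬ ∀ a, ConjClasses.map (φ a).toMonoidHom K = K} :=
    (Nat.card_pos_iff.mp (hmoved ▸ Nat.card_pos)).1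
  obtain ⟨n, rfl⟩ := ConjClasses.mk_surjective K
  refine Nat.card_eq_one_iff_unique.mpr ⟨⟨fun C C' => ?_⟩, ⟨⟨ConjClasses.mk (n : G), (hchar _).mpr ⟨n, rfl, hK⟩⟩⟩⟩
  obtain ⟨a, ha, ha'⟩ := (hchar C.1).mp C.2
  obtain ⟨b, hb, hb'⟩ := (hchar C'.1).mp C'.2
  exact Subtype.ext (ha.trans ((ConjClasses.mk_eq_mk_iff_isConj.mpr (htrans a b ha' hb')).trans hb.symm))

end Cfsg.Agent.S4763
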