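import Cfsg.Statements.S4765
import Cfsg.Agent.KnownA.GL2.SLTable
import Cfsg.Agent.DegreeGraph.ModFixBase
-- import your own Cfsg.Agent.* helpers here

set_option autoImplicit false
open Cfsg

namespace Cfsg.Agent.S4765

/-- Let F be a finite field of characteristic p with at least 4 elements. Then PSL(2,F) has exactly one irreducible complex character of degree divisible by p, and its degree is the order of F. -/
theorem result (p : ℕ) [Fact p.Prime] (F : Type*) [Field F] [Fintype F] [CharP F p] (hF : 4 ≤ Fintype.card F) : Nat.card {χ : Cfsg.IrrCharacter (Matrix.ProjectiveSpecialLinearGroup (Fin 2) F) // p ∣ Cfsg.charDegree (χ : Matrix.ProjectiveSpecialLinearGroup (Fin 2) F → ℂ)} = 1 ∧ ∀ χ : Cfsg.IrrCharacter (Matrix.ProjectiveSpecialLinearGroup (Fin 2) F), p ∣ Cfsg.charDegree (χ : Matrix.ProjectiveSpecialLinearGroup (Fin 2) F → ℂ) → Cfsg.charDegree (χ : Matrix.ProjectiveSpecialLinearGroup (Fin 2) F → ℂ) = Fintype.card F := by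
  classical
  let π : Matrix.SpecialLinearGroup (Fin 2) F →* Matrix.ProjectiveSpecialLinearGroup (Fin 2) F :=
    QuotientGroup.mk' (Subgroup.center _)
  have hπ : Function.Surjective π := QuotientGroup.mk'_surjective _
  have hp : p.Prime := Fact.out
  have hq : p ∣ Fintype.card F := by
    obtain ⟨n, hp', hn⟩ := FiniteField.card F p
    exact hn ▸ dvd_pow_self p n.2.ne'
  have hq1 : ¬ p ∣ 1 := hp.not_dvd_one
  -- inflation of a character of degree divisible by p is the Steinberg character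
  have key : ∀ χ : Cfsg.IrrCharacter (Matrix.ProjectiveSpecialLinearGroup (Fin 2) F),
      p ∣ Cfsg.charDegree (χ : Matrix.ProjectiveSpecialLinearGroup (Fin 2) F → ℂ) →
      (χ : Matrix.ProjectiveSpecialLinearGroup (Fin 2) F → ℂ) ∘ π = KnownA.GL2.stS ∧
        Cfsg.charDegree (χ : Matrix.ProjectiveSpecialLinearGroup (Fin 2) F → ℂ) = Fintype.card F := by
    intro χ hdiv
    obtain ⟨d, hd, k⟩ := KnownA.GL2.kinds (Chars.isIrrCharacter_comp_surjective χ.2 π hπ)
    have hd' : (χ : Matrix.ProjectiveSpecialLinearGroup (Fin 2) F → ℂ) 1 = d := by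
      rw [← hd, Function.comp_apply, map_one]
    have hcd : Cfsg.charDegree (χ : Matrix.ProjectiveSpecialLinearGroup (Fin 2) F → ℂ) = d := by
      rw [Cfsg.charDegree, hd']; simp
    rw [hcd] at hdiv ⊢
    rcases k with ⟨-, -, -, -, -, -, e⟩ | ⟨-, c, -, -, -, -, e⟩ | ⟨-, -, -, -, -, -, e⟩ |
      ⟨-, -, -, -, -, -, e⟩ | ⟨-, -, -, -, -, -, e⟩ | ⟨-, -, -, -, -, -, e⟩
    · exact absurd (e ▸ hdiv) hq1
    · exact ⟨c, e⟩
    · exact absurd ((Nat.dvd_add_right hq).1 (e ▸ hdiv)) hq1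
    · exact absurd ((Nat.dvd_add_right hq).1 (e ▸ hdiv.mul_left 2)) hq1
    · exact absurd ((Nat.dvd_add_right hdiv).1 (e.symm ▸ hq)) hq1
    · exact absurd ((Nat.dvd_add_right (hdiv.mul_left 2)).1 (e.symm ▸ hq)) hq1
  -- the Steinberg character is trivial on the centre
  have hcen : ∀ z ∈ π.ker, KnownA.GL2.stS z = KnownA.GL2.stS (1 : Matrix.SpecialLinearGroup (Fin 2) F) := by
    intro z hz
    rw [QuotientGroup.ker_mk'] at hz
    obtain ⟨r, hr, hrz⟩ := Matrix.SpecialLinearGroup.mem_center_iff.1 hz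
    have hr0 : r ≠ 0 := by
      rintro rfl
      simp at hr
    have h00 : z.1 0 0 = r := by rw [← hrz]; simp
    have h : KnownA.GL2.RS (1 : MulChar F ℂ) z = (Fintype.card F : ℂ) + 1 := by
      rw [KnownA.GL2.RS_eq, KnownA.GL2.Rval_scalar _ (by rw [← hrz]; simp) (by rw [← hrz]; simp)
        (by rw [← hrz]; simp), MulChar.one_apply (h00 ▸ hr0 : z.1 0 0 ≠ 0).isUnit, mul_one]
    rw [KnownA.GL2.stS, Pi.sub_apply, Pi.sub_apply, h, KnownA.GL2.RS_one_apply]
  obtain ⟨γ, hγ⟩ := DegreeGraph.ModFix.exists_deflate π hπ KnownA.GL2.isIrr_stS hcen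
  have hγd : p ∣ Cfsg.charDegree (γ : Matrix.ProjectiveSpecialLinearGroup (Fin 2) F → ℂ) := by
    have : (γ : Matrix.ProjectiveSpecialLinearGroup (Fin 2) F → ℂ) 1 = (Fintype.card F : ℂ) := by
      rw [← map_one π, hγ, KnownA.GL2.stS_one]
    rw [Cfsg.charDegree, this]
    simpa using hq
  refine ⟨Nat.card_eq_one_iff_unique.2 ⟨⟨fun a b => ?_⟩, ⟨⟨γ, hγd⟩⟩⟩, fun χ h => (key χ h).2⟩
  apply Subtype.ext
  apply Subtype.ext
  funext x
  obtain ⟨g, rfl⟩ := hπ x
  exact congrFun ((key a.1 a.2).1.trans (key b.1 b.2).1.symm) g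

end Cfsg.Agent.S4765
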