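import Cfsg.Statements.S4774
import Cfsg.Agent.BlockChar.PSL2Graph

set_option autoImplicit false
open Cfsg Cfsg.Agent Cfsg.Agent.BlockChar

namespace Cfsg.Agent.S4774

/-- Let F be a finite field of odd characteristic t with q > 5 elements and let S be isomorphic to PSL(2,F) or to SL(2,F). Then the vertices of the character degree graph of S are the primes dividing q(q²−1); the prime t is adjacent to no vertex; two distinct primes dividing q² − 1 are adjacent exactly when one of them is 2, or both divide q + 1, or both divide q − 1. -/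
theorem result (F : Type*) [Field F] [Fintype F] (t : ℕ) [Fact t.Prime] [CharP F t] (ht : t ≠ 2) (q : ℕ) (hq : Fintype.card F = q) (h5 : 5 < q) {S : Type*} [Group S] [Finite S] (hS : Nonempty (S ≃* Matrix.ProjectiveSpecialLinearGroup (Fin 2) F) ∨ Nonempty (S ≃* Matrix.SpecialLinearGroup (Fin 2) F)) : Cfsg.degreePrimes S = {r : ℕ | r.Prime ∧ r ∣ q * (q ^ 2 - 1)} ∧ ∀ r s : ℕ, (Cfsg.degreeGraph S).Adj r s ↔ (r ≠ s ∧ r.Prime ∧ s.Prime ∧ r ∣ q ^ 2 - 1 ∧ s ∣ q ^ 2 - 1 ∧ (r = 2 ∨ s = 2 ∨ (r ∣ q + 1 ∧ s ∣ q + 1) ∨ (r ∣ q - 1 ∧ s ∣ q - 1))) := by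
  classical
  subst hq
  obtain ⟨π, hπ, hker⟩ := PSL2Graph.exists_proj hS
  have hodd : Odd (Fintype.card F) := by
    rw [← Nat.not_even_iff_odd]
    intro h
    have h2 := FiniteField.even_card_iff_char_two (F := F)
    rw [ringChar.eq F t] at h2
    exact ht (h2.mpr (Nat.even_iff.mp h))
  obtain ⟨hprimes, hadj⟩ := PSL2Graph.graph_of_degrees (S := S) Fintype.one_lt_card
    (FiniteField.isPrimePow_card F) (fun d hd => PSL2Graph.degree_dvd hπ hd)
    (PSL2Graph.card_mem hπ hker) (PSL2Graph.succ_mem_odd hπ hker hodd h5)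
    (PSL2Graph.pred_mem_odd hπ hker hodd h5)
  refine ⟨hprimes, fun r s => ?_⟩
  rw [hadj r s]
  have hfac : Fintype.card F ^ 2 - 1 = (Fintype.card F + 1) * (Fintype.card F - 1) := by
    obtain ⟨k, hk⟩ : ∃ k, Fintype.card F = k + 1 := ⟨Fintype.card F - 1, by omega⟩
    rw [hk]
    simp only [Nat.add_sub_cancel]
    apply Nat.sub_eq_of_eq_add; ring
  obtain ⟨m, hm⟩ := hodd
  have h2p : 2 ∣ Fintype.card F + 1 := ⟨m + 1, by omega⟩
  have h2m : 2 ∣ Fintype.card F - 1 := ⟨m, by omega⟩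
  rw [hfac]
  constructor
  · rintro ⟨hne, hr, hs, h⟩
    rcases h with ⟨h1, h2⟩ | ⟨h1, h2⟩
    · exact ⟨hne, hr, hs, h1.mul_right _, h2.mul_right _, Or.inr (Or.inr (Or.inl ⟨h1, h2⟩))⟩
    · exact ⟨hne, hr, hs, h1.mul_left _, h2.mul_left _, Or.inr (Or.inr (Or.inr ⟨h1, h2⟩))⟩
  · rintro ⟨hne, hr, hs, h1, h2, h⟩
    refine ⟨hne, hr, hs, ?_⟩
    rcases h with rfl | rfl | h | h
    · rcases hs.dvd_mul.mp h2 with h | h
      · exact Or.inl ⟨h2p, h⟩
      · exact Or.inr ⟨h2m, h⟩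
    · rcases hr.dvd_mul.mp h1 with h | h
      · exact Or.inl ⟨h, h2p⟩
      · exact Or.inr ⟨h, h2m⟩
    · exact Or.inl h
    · exact Or.inr h

end Cfsg.Agent.S4774
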