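import Cfsg.Statements.S4775
import Cfsg.Agent.Chars.SzGraph

set_option autoImplicit false
open Cfsg

namespace Cfsg.Agent.S4775

/-- Let F be a finite field with q = 2^(2m+1) ≥ 8 elements and let S be isomorphic to the Suzuki group over F. Then the vertices of the character degree graph of S are 2 and the primes dividing (q − 1)(q² + 1); the primes dividing (q − 1)(q² + 1) are pairwise adjacent, and 2 is adjacent exactly to the primes dividing q − 1. -/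
theorem result (F : Type*) [Field F] [Fintype F] (m : ℕ) (hm : 1 ≤ m) (q : ℕ) (hq : Fintype.card F = q) (hqm : q = 2 ^ (2 * m + 1)) {S : Type*} [Group S] [Finite S] (hS : Nonempty (S ≃* ↥(Cfsg.Lie.Sz F (2 ^ (m + 1))))) : Cfsg.degreePrimes S = {r : ℕ | r.Prime ∧ (r = 2 ∨ r ∣ (q - 1) * (q ^ 2 + 1))} ∧ ∀ r s : ℕ, (Cfsg.degreeGraph S).Adj r s ↔ (r ≠ s ∧ r.Prime ∧ s.Prime ∧ ((r ∣ (q - 1) * (q ^ 2 + 1) ∧ s ∣ (q - 1) * (q ^ 2 + 1)) ∨ (r = 2 ∧ s ∣ q - 1) ∨ (s = 2 ∧ r ∣ q - 1))) := by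
  classical
  subst hq
  have hctx : Cfsg.Agent.Suzuki.Ctx F m :=
    ⟨hm, by rw [Nat.card_eq_fintype_card, hqm]⟩
  rw [hqm]
  haveI := Cfsg.Agent.Suzuki.finite_sz hctx
  letI := Fintype.ofFinite (Cfsg.Sz F m)
  letI := Fintype.ofFinite Fˣ
  obtain ⟨e⟩ := hS
  let e' : S ≃* Cfsg.Sz F m := e.trans (Cfsg.Agent.Suzuki.lieEquiv hctx).symm
  have hdeg : Cfsg.charDegrees S = Cfsg.charDegrees (Cfsg.Sz F m) := by
    ext d
    constructor
    · rintro ⟨χ, rfl⟩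
      refine ⟨Cfsg.Agent.Chars.irrEquiv e'.symm χ, ?_⟩
      simp [Cfsg.charDegree]
    · rintro ⟨χ, rfl⟩
      refine ⟨Cfsg.Agent.Chars.irrEquiv e' χ, ?_⟩
      simp [Cfsg.charDegree]
  obtain ⟨hsucc, ⟨de, hde, hded⟩, hmul, hno⟩ := Cfsg.Agent.Chars.SzD.degree_facts hctx
  simp only [Cfsg.Agent.Chars.SzD.qq] at hsucc hded hmul hno
  rw [← hdeg] at hsucc hde hmul hno
  obtain ⟨Q, hQ⟩ : ∃ Q, 2 ^ (2 * m + 1) = Q := ⟨_, rfl⟩
  have hdvd : ∀ d ∈ Cfsg.charDegrees S, ∀ r : ℕ, r.Prime → r ∣ d →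
      r = 2 ∨ r ∣ (Q - 1) * (Q ^ 2 + 1) := by
    intro d hd r hr hrd
    rw [hdeg] at hd
    obtain ⟨χ, rfl⟩ := hd
    have h1 := hrd.trans (Cfsg.Agent.Blocks.charDegree_dvd χ.2)
    rw [Cfsg.Agent.Suzuki.card_sz hctx, hQ] at h1
    rcases hr.dvd_mul.1 h1 with h2 | h2
    · rcases hr.dvd_mul.1 h2 with h3 | h3
      · rw [← hQ] at h3
        exact Or.inl ((Nat.prime_dvd_prime_iff_eq hr Nat.prime_two).1
          (hr.dvd_of_dvd_pow (hr.dvd_of_dvd_pow h3)))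
      · exact Or.inr (h3.mul_left _)
    · exact Or.inr (h2.mul_right _)
  rw [hQ] at hsucc hded hmul hno ⊢
  refine ⟨?_, fun r s => ?_⟩
  · ext r
    constructor
    · rintro ⟨hr, d, hd, hrd⟩
      exact ⟨hr, hdvd d hd r hr hrd⟩
    · rintro ⟨hr, hr'⟩
      refine ⟨hr, ?_⟩
      rcases hr' with rfl | hr'
      · exact ⟨de, hde, (dvd_mul_right 2 _).trans hded⟩
      rcases hr.dvd_mul.1 hr' with h1 | h1
      · exact ⟨de, hde, (h1.mul_left 2).trans hded⟩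
      · exact ⟨_, hsucc, h1⟩
  constructor
  · rintro ⟨hne, hr, hs, d, hd, hrs⟩
    refine ⟨hne, hr, hs, ?_⟩
    have key : ∀ a b : ℕ, a.Prime → b.Prime → a ≠ b → a * b ∣ d → a = 2 → b ∣ Q - 1 := by
      intro a b _ hb hab habd ha
      subst ha
      rcases hdvd d hd b hb ((dvd_mul_left b 2).trans habd) with h1 | h1
      · exact absurd h1.symm hab
      rcases hb.dvd_mul.1 h1 with h2 | h2
      · exact h2
      · exact absurd ⟨(dvd_mul_right 2 b).trans habd, (dvd_mul_left b 2).trans habd⟩ (hno b d hb h2 hd)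
    rcases hdvd d hd r hr ((dvd_mul_right r s).trans hrs) with h1 | h1
    · exact Or.inr (Or.inl ⟨h1, key r s hr hs hne hrs h1⟩)
    rcases hdvd d hd s hs ((dvd_mul_left s r).trans hrs) with h2 | h2
    · exact Or.inr (Or.inr ⟨h2, key s r hs hr hne.symm (by rwa [mul_comm]) h2⟩)
    · exact Or.inl ⟨h1, h2⟩
  · rintro ⟨hne, hr, hs, hcases⟩
    refine ⟨hne, hr, hs, ?_⟩
    rcases hcases with ⟨h1, h2⟩ | ⟨rfl, h2⟩ | ⟨rfl, h1⟩
    · have hco : ∀ n : ℕ, r ∣ n → s ∣ n → r * s ∣ n := fun n a b =>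
        ((Nat.coprime_primes hr hs).2 hne).mul_dvd_of_dvd_of_dvd a b
      rcases hr.dvd_mul.1 h1 with h3 | h3 <;> rcases hs.dvd_mul.1 h2 with h4 | h4
      · exact ⟨de, hde, ((hco _ h3 h4).mul_left 2).trans hded⟩
      · obtain ⟨d, hd, hdd⟩ := hmul s hs h4
        exact ⟨d, hd, (mul_dvd_mul_right h3 s).trans hdd⟩
      · obtain ⟨d, hd, hdd⟩ := hmul r hr h3
        exact ⟨d, hd, by rw [mul_comm]; exact (mul_dvd_mul_right h4 r).trans hdd⟩
      · exact ⟨_, hsucc, hco _ h3 h4⟩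
    · exact ⟨de, hde, (mul_dvd_mul_left 2 h2).trans hded⟩
    · exact ⟨de, hde, by rw [mul_comm]; exact (mul_dvd_mul_left 2 h1).trans hded⟩

end Cfsg.Agent.S4775
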