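import Cfsg.Statements.S4784
import Cfsg.Agent.DegreeGraph.Indicator
import Cfsg.Agent.OddChar.FrobSetup
import Cfsg.Agent.Chars.Induced

set_option autoImplicit false
open Cfsg

namespace Cfsg.Agent.S4784

/-- Let H be a subgroup of the finite group G and consider the permutation character of G on the cosets of H (the function induced from the principal character of H). Then exactly one irreducible constituent of it is real-valued with Frobenius–Schur indicator +1 (namely the principal character) if and only if the normal core of H has odd index in G. -/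
theorem result {G : Type*} [Group G] [Fintype G] (H : Subgroup G) : Nat.card {χ : Cfsg.IrrCharacter G // Cfsg.classInner (Cfsg.indFun H (fun _ : H => (1 : ℂ))) (χ : G → ℂ) ≠ 0 ∧ (∀ g : G, (starRingEnd ℂ) ((χ : G → ℂ) g) = (χ : G → ℂ) g) ∧ (Nat.card G : ℂ)⁻¹ * ∑ g : G, (χ : G → ℂ) (g * g) = 1} = 1 ↔ Odd H.normalCore.index := by
  classical
  set π := Cfsg.indFun H (fun _ : H => (1 : ℂ)) with hπ
  set K := H.normalCore with hK
  have hπc : Cfsg.IsCharacter G π := Chars.isCharacter_indFun H (Chars.isCharacter_one (G := H))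
  have happ : ∀ g, π g = (Nat.card H : ℂ)⁻¹ * ∑ a : G, if a⁻¹ * g * a ∈ H then 1 else 0 := fun g => by
    rw [hπ, Chars.indFun_apply]
    congr 1
    exact Finset.sum_congr rfl fun a _ => by rw [Chars.extendByZero_eq_ite]; exact dite_eq_ite
  have hHC : (Nat.card H : ℂ) ≠ 0 := Chars.subgroup_card_ne_zero H
  have hone : Cfsg.classInner π (fun _ => (1 : ℂ)) = 1 := by
    rw [hπ, Chars.classInner_indFun H _ (Chars.isClassFunction_of_isCharacter (Chars.isCharacter_one (G := G)))]
    exact Chars.classInner_self_irr Chars.isIrrCharacter_one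
  let triv : {χ : Cfsg.IrrCharacter G // Cfsg.classInner π (χ : G → ℂ) ≠ 0 ∧ (∀ g : G, (starRingEnd ℂ) ((χ : G → ℂ) g) = (χ : G → ℂ) g) ∧ (Nat.card G : ℂ)⁻¹ * ∑ g : G, (χ : G → ℂ) (g * g) = 1} :=
    ⟨⟨fun _ => 1, Chars.isIrrCharacter_one⟩, by rw [hone]; exact one_ne_zero, fun g => map_one _, by
      simp only [Finset.sum_const, Finset.card_univ, nsmul_eq_mul, mul_one, ← Nat.card_eq_fintype_card]
      exact inv_mul_cancel₀ Chars.card_ne_zero⟩
  constructor
  · intro h1
    haveI : Subsingleton _ := (Nat.card_eq_one_iff_unique.mp h1).1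
    -- the total indicator
    have hle : ∑ g : G, π (g * g) = (Nat.card G : ℂ) * ∑ χ : Cfsg.IrrCharacter G,
        Cfsg.classInner π (χ : G → ℂ) * ((Nat.card G : ℂ)⁻¹ * ∑ g : G, (χ : G → ℂ) (g * g)) := by
      conv_lhs => rw [Chars.eq_sum_classInner (Chars.isClassFunction_of_isCharacter hπc)]
      simp only [Finset.sum_apply, Pi.smul_apply, smul_eq_mul]
      rw [Finset.sum_comm, Finset.mul_sum]
      refine Finset.sum_congr rfl fun χ _ => ?_
      rw [← Finset.mul_sum]
      field_simp [Chars.card_ne_zero (G := G)]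
    have hterm : ∀ χ : Cfsg.IrrCharacter G, χ ≠ triv.1 → ∃ r : ℝ, r ≤ 0 ∧
        Cfsg.classInner π (χ : G → ℂ) * ((Nat.card G : ℂ)⁻¹ * ∑ g : G, (χ : G → ℂ) (g * g)) = (r : ℂ) := by
      intro χ hχ
      obtain ⟨m, hm⟩ := Chars.exists_classInner_eq_nat hπc (Chars.isCharacter_of_isIrr χ.2)
      by_cases h0 : ∑ g : G, (χ : G → ℂ) (g * g) = 0
      · exact ⟨0, le_rfl, by rw [h0, mul_zero, mul_zero, Complex.ofReal_zero]⟩
      have hr := DegreeGraph.real_of_indicator_ne_zero χ.2 h0
      rcases DegreeGraph.indicator_of_real χ.2 hr with h | h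
      · by_cases hm0 : Cfsg.classInner π (χ : G → ℂ) = 0
        · exact ⟨0, le_rfl, by rw [hm0, zero_mul, Complex.ofReal_zero]⟩
        · exact absurd (congrArg Subtype.val (Subsingleton.elim
            (⟨χ, hm0, fun g => congrFun hr g, h⟩ : {χ : Cfsg.IrrCharacter G // _}) triv)) hχ
      · exact ⟨-(m : ℝ), by simp, by rw [h, hm]; push_cast; ring⟩
    choose! r hr0 hr using hterm
    have hsq : ∀ g : G, g * g ∈ H → g ∈ H := by
      have hcount : ∑ g : G, π (g * g) = (Nat.card H : ℂ)⁻¹ * (Nat.card G : ℂ) *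
          ((Finset.univ.filter fun g : G => g * g ∈ H).card : ℂ) := by
        simp only [happ, ← Finset.mul_sum]
        rw [Finset.sum_comm, Finset.sum_congr rfl (g := fun _ => ((Finset.univ.filter fun g : G => g * g ∈ H).card : ℂ))
          (fun a _ => ?_), Finset.sum_const, Finset.card_univ, nsmul_eq_mul, ← Nat.card_eq_fintype_card]
        · ring
        rw [Finset.natCast_card_filter]
        refine Fintype.sum_equiv (MulAut.conj a⁻¹).toEquiv _ _ fun g => ?_
        simp only [MulEquiv.toEquiv_eq_coe, EquivLike.coe_coe, MulAut.conj_apply, inv_inv]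
        exact if_congr (by rw [show a⁻¹ * g * a * (a⁻¹ * g * a) = a⁻¹ * (g * g) * a by group]) rfl rfl
      rw [hcount, ← Finset.add_sum_erase _ _ (Finset.mem_univ triv.1), hone, triv.2.2.2,
        Finset.sum_congr rfl (fun χ hχ => hr χ (Finset.ne_of_mem_erase hχ)), ← Complex.ofReal_sum,
        mul_one] at hle
      have hsub : Finset.univ.filter (fun g : G => g ∈ H) ⊆ Finset.univ.filter (fun g : G => g * g ∈ H) :=
        fun g hg => by
          simp only [Finset.mem_filter, Finset.mem_univ, true_and] at hg ⊢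
          exact H.mul_mem hg hg
      have hH : (Finset.univ.filter fun g : G => g ∈ H).card = Nat.card H := by
        rw [← Fintype.card_subtype, ← Nat.card_eq_fintype_card]
      have hR : ((Finset.univ.filter fun g : G => g * g ∈ H).card : ℝ) =
          (Nat.card H : ℝ) * (1 + ∑ χ ∈ Finset.univ.erase triv.1, r χ) := by
        apply Complex.ofReal_injective
        push_cast
        field_simp [Chars.card_ne_zero (G := G)] at hle
        simp only [Complex.ofReal_sum] at hle ⊢
        linear_combination hle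
      have hS : ∑ χ ∈ Finset.univ.erase triv.1, r χ ≤ 0 :=
        Finset.sum_nonpos fun χ hχ => hr0 χ (Finset.ne_of_mem_erase hχ)
      have hle' : (Finset.univ.filter fun g : G => g * g ∈ H).card ≤ Nat.card H := by
        have h0 : (0 : ℝ) ≤ (Nat.card H : ℝ) := Nat.cast_nonneg _
        have : ((Finset.univ.filter fun g : G => g * g ∈ H).card : ℝ) ≤ (Nat.card H : ℝ) := by
          rw [hR]; nlinarith
        exact_mod_cast this
      intro g hg
      have heq := Finset.eq_of_subset_of_card_le hsub (hH ▸ hle')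
      have : g ∈ Finset.univ.filter fun g : G => g * g ∈ H := by simp [hg]
      rw [← heq] at this
      simpa using this
    rw [Nat.odd_iff, ← Nat.two_dvd_ne_zero]
    intro h2
    haveI : Fact (Nat.Prime 2) := ⟨Nat.prime_two⟩
    obtain ⟨q, hq⟩ := exists_prime_orderOf_dvd_card' (G := G ⧸ H.normalCore) 2 h2
    obtain ⟨x, rfl⟩ := QuotientGroup.mk'_surjective H.normalCore q
    have hx2 : x * x ∈ H.normalCore := by
      rw [← QuotientGroup.eq_one_iff, QuotientGroup.mk_mul, ← sq]
      exact orderOf_dvd_iff_pow_eq_one.mp (by rw [show orderOf (x : G ⧸ H.normalCore) = 2 from hq])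
    have hx : x ∈ H.normalCore := fun a => hsq _ (by
      rw [show a * x * a⁻¹ * (a * x * a⁻¹) = a * (x * x) * a⁻¹ by group]
      exact hx2 a)
    rw [show QuotientGroup.mk' H.normalCore x = 1 from (QuotientGroup.eq_one_iff x).mpr hx, orderOf_one] at hq
    exact absurd hq (by norm_num)
  · intro hodd
    refine Nat.card_eq_one_iff_unique.mpr ⟨⟨fun a b => ?_⟩, ⟨triv⟩⟩
    suffices h : ∀ χ : Cfsg.IrrCharacter G, Cfsg.classInner π (χ : G → ℂ) ≠ 0 →
        Cfsg.conjFun (χ : G → ℂ) = χ → χ = triv.1 by
      apply Subtype.ext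
      rw [h a.1 a.2.1 (funext a.2.2.1), h b.1 b.2.1 (funext b.2.2.1)]
    intro χ hχ hreal
    set mk := QuotientGroup.mk' H.normalCore with hmk
    have hinv : ∀ g k : G, k ∈ H.normalCore → π (g * k) = π g := by
      intro g k hk
      simp only [happ]
      congr 1
      refine Finset.sum_congr rfl fun a _ => if_congr ?_ rfl rfl
      have hk' : a⁻¹ * k * a ∈ H := by simpa using hk a⁻¹
      rw [show a⁻¹ * (g * k) * a = a⁻¹ * g * a * (a⁻¹ * k * a) by group, H.mul_mem_cancel_right hk']
    set f : G ⧸ H.normalCore → ℂ := fun q => π (Function.surjInv (QuotientGroup.mk'_surjective _) q) with hf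
    have hfg : ∀ g, f (mk g) = π g := fun g => by
      simp only [hf]
      have h1 := Function.surjInv_eq (QuotientGroup.mk'_surjective H.normalCore) (mk g)
      set g' := Function.surjInv (QuotientGroup.mk'_surjective H.normalCore) (mk g)
      rw [show g' = g * (g⁻¹ * g') by group, hinv g _ (QuotientGroup.eq.mp h1.symm)]
    have hfc : Cfsg.IsClassFunction (G ⧸ H.normalCore) f := by
      intro x y
      obtain ⟨x, rfl⟩ := QuotientGroup.mk'_surjective H.normalCore x
      obtain ⟨y, rfl⟩ := QuotientGroup.mk'_surjective H.normalCore y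
      rw [← map_mul, ← map_inv, ← map_mul, hfg, hfg]
      exact Chars.isClassFunction_of_isCharacter hπc x y
    haveI : Fintype (G ⧸ H.normalCore) := Fintype.ofFinite _
    obtain ⟨ψ, hψ⟩ : ∃ ψ : Cfsg.IrrCharacter (G ⧸ H.normalCore), (χ : G → ℂ) = fun g => (ψ : _ → ℂ) (mk g) := by
      by_contra hno
      push Not at hno
      apply hχ
      rw [show π = ∑ ψ : Cfsg.IrrCharacter (G ⧸ H.normalCore),
          Cfsg.classInner f (ψ : _ → ℂ) • (fun g => (ψ : _ → ℂ) (mk g)) from funext fun g => by
        rw [← hfg]; conv_lhs => rw [Chars.eq_sum_classInner hfc]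
        simp [Finset.sum_apply], Chars.classInner_sum_left]
      refine Finset.sum_eq_zero fun ψ _ => ?_
      have h0 : Cfsg.classInner (fun g => (ψ : G ⧸ H.normalCore → ℂ) (mk g)) (χ : G → ℂ) = 0 :=
        Chars.classInner_irr_of_ne
          (Chars.isIrrCharacter_comp_surjective ψ.2 mk (QuotientGroup.mk'_surjective _)) χ.2
          (fun h => hno ψ h.symm)
      rw [Chars.classInner_smul_left, h0, mul_zero]
    have h1 := OddChar.eq_one_of_real_of_odd (L := G ⧸ H.normalCore) hodd ψ.2 (funext fun q => by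
      obtain ⟨g, rfl⟩ := QuotientGroup.mk'_surjective H.normalCore q
      have h2 := congrFun hreal g
      simp only [Cfsg.conjFun, hψ] at h2 ⊢
      exact h2)
    exact Subtype.ext (by rw [hψ, h1])

end Cfsg.Agent.S4784
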