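import Cfsg.Statements.S4798
-- import your own Cfsg.Agent.* helpers here
import Cfsg.Agent.BlockChar.CharCount
import Mathlib.GroupTheory.Sylow

set_option autoImplicit false
set_option linter.style.haveILetI false
open Cfsg

namespace Cfsg.Agent.S4798

open Cfsg.Agent.Chars Cfsg.Agent.BlockChar

/-- Let p be a prime and χ a faithful irreducible complex character of the finite group G (χ(g) = χ(1) only for g = 1), so that its codegree is #G / χ(1). Then #G / χ(1) is a power of p if and only if χ is induced from a character of a Sylow p-subgroup of G. -/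
theorem result {G : Type*} [Group G] [Fintype G] (p : ℕ) [Fact p.Prime] (χ : Cfsg.IrrCharacter G) (hfaith : ∀ g : G, (χ : G → ℂ) g = (χ : G → ℂ) 1 → g = 1) : (∃ k : ℕ, Nat.card G = p ^ k * Cfsg.charDegree (χ : G → ℂ)) ↔ ∃ (P : Sylow p G) (θ : ↥(P : Subgroup G) → ℂ), Cfsg.IsCharacter ↥(P : Subgroup G) θ ∧ (χ : G → ℂ) = Cfsg.indFun (P : Subgroup G) θ := by
  classical
  constructor
  · rintro ⟨j, hj⟩
    obtain ⟨P⟩ := (inferInstance : Nonempty (Sylow p G))
    have hd := charDegree_pos χ.2
    set e := (Cfsg.charDegree (χ : G → ℂ)).factorization p with he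
    have hres := isCharacter_restrict (isCharacter_of_isIrr χ.2) (P : Subgroup G)
    obtain ⟨m, hm, hdec⟩ := exists_eq_sum_nsmul hres
    have hdeg : Cfsg.charDegree (χ : G → ℂ) =
        ∑ ψ : Cfsg.IrrCharacter ↥(P : Subgroup G), m ψ * Cfsg.charDegree (ψ : ↥(P : Subgroup G) → ℂ) := by
      apply Nat.cast_injective (R := ℂ)
      rw [charDegree_cast (isCharacter_of_isIrr χ.2), Nat.cast_sum]
      refine (congrFun hdec 1).trans ?_
      simp only [Finset.sum_apply, Pi.smul_apply, nsmul_eq_mul, Nat.cast_mul, Pi.mul_apply, Pi.natCast_apply]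
      exact Finset.sum_congr rfl fun ψ _ => by rw [charDegree_cast (isCharacter_of_isIrr ψ.2)]
    obtain ⟨θ, hθm, hθle⟩ : ∃ θ : Cfsg.IrrCharacter ↥(P : Subgroup G), m θ ≠ 0 ∧
        Cfsg.charDegree (θ : ↥(P : Subgroup G) → ℂ) ≤ p ^ e := by
      by_contra hno
      push Not at hno
      apply (Nat.pow_succ_factorization_not_dvd hd.ne' (Fact.out : p.Prime))
      show p ^ (e + 1) ∣ Cfsg.charDegree (χ : G → ℂ)
      rw [hdeg]
      refine Finset.dvd_sum fun ψ _ => ?_
      by_cases hψ : m ψ = 0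
      · simp [hψ]
      · refine Dvd.dvd.mul_left ?_ _
        obtain ⟨n, hn⟩ := IsPGroup.iff_card.mp P.isPGroup'
        obtain ⟨i, -, hi⟩ := (Nat.dvd_prime_pow (Fact.out : p.Prime)).mp
          (hn ▸ charDegree_dvd_card ψ.2)
        rw [hi]
        refine pow_dvd_pow p ((Nat.pow_lt_pow_iff_right (Fact.out : p.Prime).one_lt).mp ?_)
        rw [← hi]; exact hno ψ hψ
    refine ⟨P, θ, isCharacter_of_isIrr θ.2, ?_⟩
    have hind := isCharacter_indFun (P : Subgroup G) (isCharacter_of_isIrr θ.2)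
    obtain ⟨c, hc, hcdec⟩ := exists_eq_sum_nsmul hind
    have hcχ : c χ ≠ 0 := by
      intro h0
      apply hθm
      apply Nat.cast_injective (R := ℂ)
      rw [Nat.cast_zero, ← hm θ, ← classInner_indFun_right _ _ (isClassFunction_irr χ),
        ← classInner_conj_symm, hc χ, h0, Nat.cast_zero, map_zero]
    have hsum : (P : Subgroup G).index * Cfsg.charDegree (θ : ↥(P : Subgroup G) → ℂ) =
        ∑ ψ : Cfsg.IrrCharacter G, c ψ * Cfsg.charDegree (ψ : G → ℂ) := by
      apply Nat.cast_injective (R := ℂ)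
      rw [Nat.cast_mul, Nat.cast_sum, charDegree_cast (isCharacter_of_isIrr θ.2),
        ← indFun_apply_one]
      refine (congrFun hcdec 1).trans ?_
      simp only [Finset.sum_apply, Pi.smul_apply, nsmul_eq_mul, Nat.cast_mul, Pi.mul_apply, Pi.natCast_apply]
      exact Finset.sum_congr rfl fun ψ _ => by rw [charDegree_cast (isCharacter_of_isIrr ψ.2)]
    have hup : (P : Subgroup G).index * p ^ e = Cfsg.charDegree (χ : G → ℂ) := by
      have hfac := Nat.ordProj_mul_ordCompl_eq_self (Cfsg.charDegree (χ : G → ℂ)) p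
      have hq := Nat.coprime_ordCompl (Fact.out : p.Prime) hd.ne'
      set q := Cfsg.charDegree (χ : G → ℂ) / p ^ e with hq'
      rw [← he] at hfac
      have hidx : (P : Subgroup G).index = q := by
        have hcop : Nat.Coprime (P : Subgroup G).index p :=
          ((Fact.out : p.Prime).coprime_iff_not_dvd.mpr P.not_dvd_index).symm
        obtain ⟨n, hn⟩ := IsPGroup.iff_card.mp P.isPGroup'
        have h1 : p ^ n * (P : Subgroup G).index = p ^ (j + e) * q := by
          rw [← hn, Subgroup.card_mul_index, hj, pow_add, mul_assoc, hfac]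
        apply Nat.dvd_antisymm
        · exact (hcop.pow_right (j + e)).dvd_of_dvd_mul_left (h1 ▸ dvd_mul_left _ _)
        · exact (hq.symm.pow_right n).dvd_of_dvd_mul_left (h1 ▸ dvd_mul_left _ _)
      rw [hidx, mul_comm, hfac]
    have hle : ∑ ψ : Cfsg.IrrCharacter G, c ψ * Cfsg.charDegree (ψ : G → ℂ) ≤
        Cfsg.charDegree (χ : G → ℂ) := by
      rw [← hsum, ← hup]; exact Nat.mul_le_mul_left _ hθle
    rw [← Finset.add_sum_erase _ _ (Finset.mem_univ χ)] at hle
    have hc1 : c χ = 1 := by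
      by_contra hne
      have : 2 * Cfsg.charDegree (χ : G → ℂ) ≤ c χ * Cfsg.charDegree (χ : G → ℂ) :=
        Nat.mul_le_mul_right _ (by omega)
      omega
    rw [hc1, one_mul] at hle
    have hrest : ∀ ψ ∈ Finset.univ.erase χ, c ψ = 0 := fun ψ hψ => by
      have h0 := Finset.sum_eq_zero_iff.mp (Nat.le_zero.mp (Nat.le_of_add_le_add_left hle)) ψ hψ
      exact (Nat.mul_eq_zero.mp h0).resolve_right (charDegree_pos ψ.2).ne'
    rw [hcdec, ← Finset.add_sum_erase _ _ (Finset.mem_univ χ), hc1, one_nsmul,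
      Finset.sum_eq_zero fun ψ hψ => by rw [hrest ψ hψ, zero_nsmul], add_zero]
  · rintro ⟨P, θ, hθ, hχ⟩
    obtain ⟨n, hn⟩ := IsPGroup.iff_card.mp P.isPGroup'
    obtain ⟨t, ht⟩ := exists_apply_one_eq hθ
    have hd : Cfsg.charDegree (χ : G → ℂ) = (P : Subgroup G).index * t := by
      apply Nat.cast_injective (R := ℂ)
      rw [charDegree_cast (isCharacter_of_isIrr χ.2), hχ, indFun_apply_one, ht, Nat.cast_mul]
    have hdvd := charDegree_dvd_card χ.2
    rw [hd, ← Subgroup.card_mul_index (P : Subgroup G), mul_comm _ t,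
      Nat.mul_dvd_mul_iff_right (Nat.pos_of_ne_zero Subgroup.index_ne_zero_of_finite), hn] at hdvd
    obtain ⟨i, hi, rfl⟩ := (Nat.dvd_prime_pow (Fact.out : p.Prime)).mp hdvd
    refine ⟨n - i, ?_⟩
    rw [hd, ← Subgroup.card_mul_index (P : Subgroup G), hn, mul_left_comm,
      ← pow_add, Nat.sub_add_cancel hi, mul_comm]

end Cfsg.Agent.S4798
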