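import Cfsg.Statements.S4801
-- import your own Cfsg.Agent.* helpers here
import Cfsg.Agent.BlockChar.CharCount

set_option autoImplicit false
open Cfsg

namespace Cfsg.Agent.S4801

open Cfsg.Agent.Chars Cfsg.Agent.BlockChar

/-- The codegree of an irreducible complex character χ of a finite group G is [G : ker χ] / χ(1), where ker χ is the set of elements at which χ takes the value χ(1). Let S be a finite simple group and G a finite group such that every codegree of an irreducible character of S is a codegree of an irreducible character of G. Then the order of S divides the order of G. -/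
theorem result {S : Type*} [Group S] [Finite S] (hS : IsSimpleGroup S) {G : Type*} [Group G] [Finite G] (hsub : ∀ χ : Cfsg.IrrCharacter S, ∃ ψ : Cfsg.IrrCharacter G, (Nat.card S / (Nat.card {g : S // (χ : S → ℂ) g = (χ : S → ℂ) 1} * Cfsg.charDegree (χ : S → ℂ))) = (Nat.card G / (Nat.card {g : G // (ψ : G → ℂ) g = (ψ : G → ℂ) 1} * Cfsg.charDegree (ψ : G → ℂ)))) : Nat.card S ∣ Nat.card G := by
  classical
  haveI := Fintype.ofFinite S
  haveI := Fintype.ofFinite G
  haveI := hS
  rw [← Nat.factorization_le_iff_dvd Nat.card_pos.ne' Nat.card_pos.ne']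
  intro r
  by_cases hr : r ∈ (Nat.card S).primeFactors
  swap
  · rw [← Nat.support_factorization, Finsupp.notMem_support_iff] at hr
    rw [hr]; exact Nat.zero_le _
  obtain ⟨hrp, hrdvd, -⟩ := Nat.mem_primeFactors.mp hr
  haveI := Fact.mk hrp
  let one : Cfsg.IrrCharacter S := ⟨fun _ => 1, isIrrCharacter_one⟩
  obtain ⟨χ, hχ1, hχr⟩ : ∃ χ : Cfsg.IrrCharacter S, χ ≠ one ∧
      ¬ r ∣ Cfsg.charDegree (χ : S → ℂ) := by
    by_contra hno
    push Not at hno
    have h : Nat.card S = ∑ χ : Cfsg.IrrCharacter S, Cfsg.charDegree (χ : S → ℂ) ^ 2 := by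
      apply Nat.cast_injective (R := ℂ)
      rw [← sum_sq_apply_one, Nat.cast_sum]
      exact Finset.sum_congr rfl fun χ _ => by
        rw [Nat.cast_pow, charDegree_cast (isCharacter_of_isIrr χ.2)]
    rw [← Finset.add_sum_erase _ _ (Finset.mem_univ one),
      show Cfsg.charDegree (one : S → ℂ) = 1 by simp [one, Cfsg.charDegree], one_pow] at h
    have h2 : r ∣ ∑ χ ∈ Finset.univ.erase one, Cfsg.charDegree (χ : S → ℂ) ^ 2 :=
      Finset.dvd_sum fun χ hχ => dvd_pow (hno χ (Finset.ne_of_mem_erase hχ)) two_ne_zero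
    exact hrp.one_lt.ne' (Nat.dvd_one.mp ((Nat.dvd_add_iff_left h2).mpr (h ▸ hrdvd)))
  set K := charKer (isCharacter_of_isIrr χ.2) with hK
  have hKbot : K = ⊥ := by
    refine ((charKer_normal _).eq_bot_or_eq_top).resolve_right fun htop => hχ1 (Subtype.ext ?_)
    have hd : Cfsg.charDegree (χ : S → ℂ) = 1 := Nat.dvd_one.mp (by
      rw [← Subgroup.index_top (G := S), ← htop]; exact charDegree_dvd_index_charKer χ)
    funext x
    have hx : x ∈ K := by rw [hK, htop]; exact Subgroup.mem_top x
    have h1 := charDegree_cast (isCharacter_of_isIrr χ.2)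
    rw [hd, Nat.cast_one] at h1
    exact (show (χ : S → ℂ) x = (χ : S → ℂ) 1 from hx).trans h1.symm
  obtain ⟨ψ, hψ⟩ := hsub χ
  have hk1 : Nat.card {g : S // (χ : S → ℂ) g = (χ : S → ℂ) 1} = 1 := by
    show Nat.card K = 1
    rw [hKbot, Subgroup.card_bot]
  rw [hk1, one_mul] at hψ
  have hdvd : Nat.card S / Cfsg.charDegree (χ : S → ℂ) ∣ Nat.card G := by
    rw [hψ]
    refine Nat.div_dvd_of_dvd ?_
    show Nat.card (charKer (isCharacter_of_isIrr ψ.2)) * _ ∣ _
    rw [← Subgroup.card_mul_index (charKer (isCharacter_of_isIrr ψ.2))]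
    exact mul_dvd_mul_left _ (charDegree_dvd_index_charKer ψ)
  have hdS := charDegree_dvd_card χ.2
  obtain ⟨q, hq⟩ := hdS
  rw [hq, Nat.mul_div_cancel_left _ (charDegree_pos χ.2)] at hdvd
  rw [hq, Nat.factorization_mul (charDegree_pos χ.2).ne'
    (fun h => Nat.card_pos.ne' (by rw [hq, h, mul_zero] : Nat.card S = 0)), Finsupp.add_apply,
    Nat.factorization_eq_zero_of_not_dvd hχr, zero_add]
  exact (Nat.factorization_le_iff_dvd
    (fun h => Nat.card_pos.ne' (by rw [hq, h, mul_zero] : Nat.card S = 0)) Nat.card_pos.ne').mpr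
    hdvd r

end Cfsg.Agent.S4801
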