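import Cfsg.Statements.S4802
import Cfsg.Agent.BlockChar.InvolutionPairs

set_option autoImplicit false
open Cfsg Cfsg.Agent Cfsg.Agent.BlockChar

namespace Cfsg.Agent.S4802

/-- Let N < M be normal subgroups of the finite group G and g ∈ M ∖ N. Then the conjugacy class of g is exactly M ∖ N if and only if every irreducible complex character of G whose kernel contains N takes the same value at all elements of M ∖ N, and every irreducible complex character of G whose kernel does not contain N vanishes at g. -/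
theorem result {G : Type*} [Group G] [Finite G] (N M : Subgroup G) [N.Normal] [M.Normal] (hNM : N < M) (g : G) (hgM : g ∈ M) (hgN : g ∉ N) : {h : G | IsConj g h} = (M : Set G) \ (N : Set G) ↔ ((∀ χ : Cfsg.IrrCharacter G, (∀ x ∈ N, (χ : G → ℂ) x = (χ : G → ℂ) 1) → ∀ x ∈ M, x ∉ N → ∀ y ∈ M, y ∉ N → (χ : G → ℂ) x = (χ : G → ℂ) y) ∧ (∀ χ : Cfsg.IrrCharacter G, (∃ x ∈ N, (χ : G → ℂ) x ≠ (χ : G → ℂ) 1) → (χ : G → ℂ) g = 0)) := by
  classical
  haveI := Fintype.ofFinite G
  constructor
  · intro hcl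
    have hcj : ∀ x ∈ M, x ∉ N → IsConj g x := fun x hxM hxN =>
      (Set.ext_iff.1 hcl x).2 ⟨hxM, hxN⟩
    have hval : ∀ (χ : Cfsg.IrrCharacter G), ∀ x ∈ M, x ∉ N → (χ : G → ℂ) x = (χ : G → ℂ) g := by
      intro χ x hxM hxN
      obtain ⟨c, rfl⟩ := isConj_iff.1 (hcj x hxM hxN)
      exact Chars.isClassFunction_irr χ g c
    refine ⟨fun χ _ x hx hxN y hy hyN => (hval χ x hx hxN).trans (hval χ y hy hyN).symm, ?_⟩
    rintro χ ⟨a, haN, ha⟩
    let f : G → ℂ := fun k => if k ∈ N then 1 else 0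
    have hf : IsClassFunction G f := fun k c => by
      refine if_congr ⟨fun h => ?_, fun h => ‹N.Normal›.conj_mem k h c⟩ rfl rfl
      have := ‹N.Normal›.conj_mem _ h c⁻¹
      simpa [mul_assoc] using this
    have hsum : ∀ y : G, ∑ k : G, f k * (χ : G → ℂ) (k * y) =
        Blocks.omega (χ : G → ℂ) f * (χ : G → ℂ) y := fun y => Blocks.sum_mul_shift χ hf y
    have hω : Blocks.omega (χ : G → ℂ) f = 0 := by
      have h1 := hsum 1
      have h2 := hsum a
      have h3 : ∑ k : G, f k * (χ : G → ℂ) (k * a) = ∑ k : G, f k * (χ : G → ℂ) (k * 1) := by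
        refine Fintype.sum_equiv (Equiv.mulRight a) _ _ fun k => ?_
        show f k * (χ : G → ℂ) (k * a) = f (k * a) * (χ : G → ℂ) (k * a * 1)
        rw [mul_one, show f (k * a) = f k from if_congr (N.mul_mem_cancel_right haN) rfl rfl]
      rw [h3, h1] at h2
      have : Blocks.omega (χ : G → ℂ) f * ((χ : G → ℂ) 1 - (χ : G → ℂ) a) = 0 := by
        rw [mul_sub, h2, sub_self]
      exact (mul_eq_zero.1 this).resolve_right (sub_ne_zero.2 (Ne.symm ha))
    have h := hsum g
    rw [hω, zero_mul, Finset.sum_congr rfl (g := fun k => f k * (χ : G → ℂ) g) fun k _ => ?_,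
      ← Finset.sum_mul] at h
    · refine (mul_eq_zero.1 h).resolve_left ?_
      simp only [f, ← Finset.sum_filter, Finset.sum_const, nsmul_eq_mul, mul_one]
      exact Nat.cast_ne_zero.2 (Finset.card_pos.2
        ⟨1, Finset.mem_filter.2 ⟨Finset.mem_univ _, N.one_mem⟩⟩).ne'
    · simp only [f]
      split_ifs with hk
      · rw [hval χ (k * g) (M.mul_mem (hNM.le hk) hgM) fun h' =>
          hgN ((N.mul_mem_cancel_left hk).1 h')]
      · simp
  · rintro ⟨h1, h2⟩
    ext x
    simp only [Set.mem_ofPred_eq, Set.mem_sdiff, SetLike.mem_coe]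
    constructor
    · intro h
      obtain ⟨c, rfl⟩ := isConj_iff.1 h
      refine ⟨‹M.Normal›.conj_mem g hgM c, fun h' => hgN ?_⟩
      have := ‹N.Normal›.conj_mem _ h' c⁻¹
      simpa [mul_assoc] using this
    · rintro ⟨hxM, hxN⟩
      by_contra hne
      have h0 := Chars.column_orth (G := G) g x
      rw [if_neg hne, Finset.sum_congr rfl (g := fun χ : Cfsg.IrrCharacter G =>
        ((Complex.normSq ((χ : G → ℂ) g) : ℝ) : ℂ)) fun χ _ => ?_, ← Complex.ofReal_sum,
        Complex.ofReal_eq_zero, Finset.sum_eq_zero_iff_of_nonneg fun χ _ => Complex.normSq_nonneg _] at h0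
      · have := h0 (Blocks.oneChar G) (Finset.mem_univ _)
        simp [Blocks.oneChar] at this
      · rw [← Complex.mul_conj]
        by_cases hχ : ∀ a ∈ N, (χ : G → ℂ) a = (χ : G → ℂ) 1
        · rw [h1 χ hχ x hxM hxN g hgM hgN]
        · push Not at hχ
          rw [h2 χ hχ, zero_mul, zero_mul]

end Cfsg.Agent.S4802
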