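import Cfsg.Statements.S4808
-- import your own Cfsg.Agent.* helpers here
import Cfsg.Agent.BlockChar.CharCount

set_option autoImplicit false
set_option linter.style.haveILetI false
open Cfsg

namespace Cfsg.Agent.S4808

open Cfsg.Agent.Chars Cfsg.Agent.BlockChar

/-- The codegree of an irreducible complex character χ of a finite group G is [G : ker χ] / χ(1), where ker χ is the set of elements at which χ takes the value χ(1). A prime divides the order of G if and only if it divides the codegree of some irreducible complex character of G. -/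
theorem result {G : Type*} [Group G] [Finite G] (p : ℕ) (hp : p.Prime) : p ∣ Nat.card G ↔ ∃ χ : Cfsg.IrrCharacter G, p ∣ (Nat.card G / (Nat.card {g : G // (χ : G → ℂ) g = (χ : G → ℂ) 1} * Cfsg.charDegree (χ : G → ℂ))) := by
  classical
  haveI := Fintype.ofFinite G
  have hcard : ∀ χ : Cfsg.IrrCharacter G, Nat.card {g : G // (χ : G → ℂ) g = (χ : G → ℂ) 1} =
      Nat.card (charKer (isCharacter_of_isIrr χ.2)) := fun χ => rfl
  constructor
  · intro hp'
    by_contra hno
    push Not at hno
    have hidx : ∀ χ : Cfsg.IrrCharacter G, ¬ p ∣ Cfsg.charDegree (χ : G → ℂ) →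
        ¬ p ∣ (charKer (isCharacter_of_isIrr χ.2)).index := by
      intro χ hd hdvd
      apply hno χ
      obtain ⟨m, hm, hmdvd⟩ : ∃ m, (charKer (isCharacter_of_isIrr χ.2)).index = m ∧ p ∣ m :=
        ⟨_, rfl, hdvd⟩
      have hc := Subgroup.card_mul_index (charKer (isCharacter_of_isIrr χ.2))
      rw [hcard, ← hc, hm, mul_comm _ (Cfsg.charDegree (χ : G → ℂ)),
        mul_comm (Nat.card (charKer (isCharacter_of_isIrr χ.2))) m,
        Nat.mul_div_mul_right _ _ Nat.card_pos]
      have hdm : Cfsg.charDegree (χ : G → ℂ) ∣ m := hm ▸ charDegree_dvd_index_charKer χ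
      obtain ⟨q, rfl⟩ := hdm
      rw [Nat.mul_div_cancel_left _ (charDegree_pos χ.2)]
      exact (hp.dvd_mul.mp hmdvd).resolve_left hd
    set good := Finset.univ.filter
      (fun χ : Cfsg.IrrCharacter G => ¬ p ∣ Cfsg.charDegree (χ : G → ℂ)) with hgood
    have hN : ∀ S : Finset (Cfsg.IrrCharacter G), S ⊆ good →
        ∃ N : Subgroup G, ¬ p ∣ N.index ∧ ∀ χ ∈ S, ∀ n ∈ N, (χ : G → ℂ) n = (χ : G → ℂ) 1 := by
      intro S
      induction S using Finset.induction_on with
      | empty => exact fun _ => ⟨⊤, by simpa using hp.one_lt.ne', by simp⟩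
      | @insert χ S hχ ih =>
        intro hS
        obtain ⟨N, hN1, hN2⟩ := ih fun x hx => hS (Finset.mem_insert_of_mem hx)
        have hχg := (Finset.mem_filter.mp (hS (Finset.mem_insert_self χ S))).2
        haveI := charKer_normal (isCharacter_of_isIrr χ.2)
        refine ⟨N ⊓ charKer (isCharacter_of_isIrr χ.2), ?_, ?_⟩
        · rw [← Subgroup.relIndex_mul_index (inf_le_left (b := charKer (isCharacter_of_isIrr χ.2))),
            Subgroup.inf_relIndex_left]
          intro hdvd
          rcases hp.dvd_mul.mp hdvd with h' | h'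
          · exact hidx χ hχg (h'.trans (Subgroup.relIndex_dvd_index_of_normal _ _))
          · exact hN1 h'
        · intro ψ hψ n hn
          rcases Finset.mem_insert.mp hψ with rfl | hψ
          · exact hn.2
          · exact hN2 ψ hψ n hn.1
    obtain ⟨N, hN1, hN2⟩ := hN good subset_rfl
    apply hN1
    have h1 : ∀ χ : Cfsg.IrrCharacter G, ∃ m : ℕ, ∑ n : N, (χ : G → ℂ) n = Nat.card N * m := by
      intro χ
      obtain ⟨m, hm⟩ := exists_classInner_eq_nat
        (isCharacter_restrict (isCharacter_of_isIrr χ.2) N) (isCharacter_one (G := N))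
      refine ⟨m, ?_⟩
      rw [← hm, classInner_def, ← mul_assoc, mul_inv_cancel₀ card_ne_zero, one_mul]
      exact Finset.sum_congr rfl fun n _ => by rw [map_one, mul_one]
    choose m hm using h1
    have h2 : (Nat.card G : ℂ) = ∑ χ : Cfsg.IrrCharacter G,
        (χ : G → ℂ) 1 * ((Nat.card N : ℂ) * (m χ : ℂ)) := by
      simp only [← hm, Finset.mul_sum]
      rw [Finset.sum_comm, Finset.sum_eq_single (1 : N)]
      · rw [sum_apply_one_mul]; simp
      · intro n _ hn
        rw [sum_apply_one_mul, if_neg]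
        exact fun h => hn (Subtype.ext h)
      · simp
    have h3 : N.index = ∑ χ : Cfsg.IrrCharacter G, Cfsg.charDegree (χ : G → ℂ) * m χ := by
      apply Nat.cast_injective (R := ℂ)
      apply mul_left_cancel₀ (card_ne_zero (G := N))
      rw [← Nat.cast_mul, Subgroup.card_mul_index, h2, Nat.cast_sum, Finset.mul_sum]
      refine Finset.sum_congr rfl fun χ _ => ?_
      rw [Nat.cast_mul, charDegree_cast (isCharacter_of_isIrr χ.2)]
      ring
    have h4 : ∀ χ ∈ good, m χ = Cfsg.charDegree (χ : G → ℂ) := by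
      intro χ hχ
      apply Nat.cast_injective (R := ℂ)
      rw [charDegree_cast (isCharacter_of_isIrr χ.2)]
      apply mul_left_cancel₀ (card_ne_zero (G := N))
      rw [← hm, Finset.sum_congr rfl (fun (n : N) _ => hN2 χ hχ n n.2), Finset.sum_const,
        Finset.card_univ, nsmul_eq_mul, Nat.card_eq_fintype_card]
    have h5 : (Nat.card G : ℕ) = ∑ χ : Cfsg.IrrCharacter G, Cfsg.charDegree (χ : G → ℂ) ^ 2 := by
      apply Nat.cast_injective (R := ℂ)
      rw [← sum_sq_apply_one, Nat.cast_sum]
      exact Finset.sum_congr rfl fun χ _ => by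
        rw [Nat.cast_pow, charDegree_cast (isCharacter_of_isIrr χ.2)]
    rw [← ZMod.natCast_eq_zero_iff, h3, Nat.cast_sum,
      ← (ZMod.natCast_eq_zero_iff _ p).mpr hp', h5, Nat.cast_sum]
    refine Finset.sum_congr rfl fun χ _ => ?_
    by_cases hχ : p ∣ Cfsg.charDegree (χ : G → ℂ)
    · rw [Nat.cast_mul, Nat.cast_pow, (ZMod.natCast_eq_zero_iff _ p).mpr hχ, zero_mul,
        zero_pow two_ne_zero]
    · rw [h4 χ (Finset.mem_filter.mpr ⟨Finset.mem_univ _, hχ⟩), sq]
  · rintro ⟨χ, hχ⟩
    refine hχ.trans (Nat.div_dvd_of_dvd ?_)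
    rw [hcard, ← Subgroup.card_mul_index (charKer (isCharacter_of_isIrr χ.2))]
    exact mul_dvd_mul_left _ (charDegree_dvd_index_charKer χ)

end Cfsg.Agent.S4808
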