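import Cfsg.Statements.S4812
import Cfsg.Agent.BlockChar.PSL2Graph

set_option autoImplicit false
open Cfsg Cfsg.Agent Cfsg.Agent.BlockChar

namespace Cfsg.Agent.S4812

/-- Let F be a finite field of characteristic 2 with q ≥ 4 elements and let S be isomorphic to PSL(2,F) or to SL(2,F). Then the vertices of the character degree graph of S are the primes dividing q(q²−1), and two distinct primes are adjacent exactly when both divide q + 1 or both divide q − 1; so the graph has the three connected components {2}, the primes dividing q + 1 and the primes dividing q − 1, each complete. -/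
theorem result (F : Type*) [Field F] [Fintype F] [CharP F 2] (q : ℕ) (hq : Fintype.card F = q) (h4 : 4 ≤ q) {S : Type*} [Group S] [Finite S] (hS : Nonempty (S ≃* Matrix.ProjectiveSpecialLinearGroup (Fin 2) F) ∨ Nonempty (S ≃* Matrix.SpecialLinearGroup (Fin 2) F)) : Cfsg.degreePrimes S = {r : ℕ | r.Prime ∧ r ∣ q * (q ^ 2 - 1)} ∧ ∀ r s : ℕ, (Cfsg.degreeGraph S).Adj r s ↔ (r ≠ s ∧ r.Prime ∧ s.Prime ∧ ((r ∣ q + 1 ∧ s ∣ q + 1) ∨ (r ∣ q - 1 ∧ s ∣ q - 1))) := by
  classical
  subst hq
  obtain ⟨π, hπ, hker⟩ := PSL2Graph.exists_proj hS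
  have h2 : (2 : F) = 0 := by simpa using CharP.cast_eq_zero F 2
  obtain ⟨hP, hB⟩ := KnownA.GL2.counts_even (F := F) h2
  exact PSL2Graph.graph_of_degrees (S := S) Fintype.one_lt_card (FiniteField.isPrimePow_card F)
    (fun d hd => PSL2Graph.degree_dvd hπ hd) (PSL2Graph.card_mem hπ hker)
    (PSL2Graph.mem_even hπ hker h2 (P := KnownA.GL2.KP) (by omega) fun h _ hd => KnownA.GL2.degP h hd)
    (PSL2Graph.mem_even hπ hker h2 (P := KnownA.GL2.KB) (by omega) fun h d hd => by
      have := KnownA.GL2.degB h hd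
      omega)

end Cfsg.Agent.S4812
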