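import Cfsg.Statements.S4814
-- import your own Cfsg.Agent.* helpers here
import Cfsg.Agent.BlockChar.CharCount

set_option autoImplicit false
set_option linter.style.haveILetI false
open Cfsg

namespace Cfsg.Agent.S4814

open Cfsg.Agent.Chars Cfsg.Agent.BlockChar
open scoped ComplexConjugate

/-- Let G be a finite group such that the sum, over the irreducible complex characters χ of G, of 1/χ(1)² is less than 2. Then every element of G is a product of two commutators. -/
theorem result {G : Type*} [Group G] [Finite G]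
    (h : ∑ᶠ χ : Cfsg.IrrCharacter G, 1 / ‖(χ : G → ℂ) 1‖ ^ 2 < (2 : ℝ)) (g : G) :
    ∃ a b c d : G, (a * b * a⁻¹ * b⁻¹) * (c * d * c⁻¹ * d⁻¹) = g := by
  classical
  haveI := Fintype.ofFinite G
  let N : G → ℕ := fun z => ((Finset.univ : Finset (G × G)).filter
    fun ab => ab.1 * ab.2 * ab.1⁻¹ * ab.2⁻¹ = z).card
  by_contra hno
  push Not at hno
  have hzero : ∑ z : G, (N z : ℂ) * (N (z⁻¹ * g) : ℂ) = 0 := by
    refine Finset.sum_eq_zero fun z _ => ?_
    by_contra hne
    obtain ⟨h1, h2⟩ := mul_ne_zero_iff.mp hne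
    obtain ⟨⟨a, b⟩, hab⟩ := Finset.card_ne_zero.mp (Nat.cast_ne_zero.mp h1)
    obtain ⟨⟨c, d⟩, hcd⟩ := Finset.card_ne_zero.mp (Nat.cast_ne_zero.mp h2)
    simp only [Finset.mem_filter, Finset.mem_univ, true_and] at hab hcd
    exact hno a b c d (by rw [hab, hcd, mul_inv_cancel_left])
  have hsum : ∑ χ : Cfsg.IrrCharacter G, (χ : G → ℂ) g / (χ : G → ℂ) 1 ^ 3 = 0 := by
    have hexp : ∑ z : G, (N z : ℂ) * (N (z⁻¹ * g) : ℂ) = (Nat.card G : ℂ) ^ 3 *
        ∑ χ : Cfsg.IrrCharacter G, (χ : G → ℂ) g / (χ : G → ℂ) 1 ^ 3 := by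
      calc ∑ z : G, (N z : ℂ) * (N (z⁻¹ * g) : ℂ)
          = ∑ χ : Cfsg.IrrCharacter G, ∑ ψ : Cfsg.IrrCharacter G,
              (Nat.card G : ℂ) ^ 2 / ((χ : G → ℂ) 1 * (ψ : G → ℂ) 1) *
                ∑ z : G, (χ : G → ℂ) z * (ψ : G → ℂ) (z⁻¹ * g) := by
            simp only [N, commutator_count]
            simp only [Finset.mul_sum, Finset.sum_mul]
            rw [Finset.sum_comm]
            conv_lhs => arg 2; intro j; rw [Finset.sum_comm]
            rw [Finset.sum_comm]
            refine Finset.sum_congr rfl fun χ _ => Finset.sum_congr rfl fun ψ _ =>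
              Finset.sum_congr rfl fun z _ => ?_
            ring
        _ = _ := by
            rw [Finset.mul_sum]
            refine Finset.sum_congr rfl fun χ _ => ?_
            rw [Finset.sum_eq_single χ]
            · rw [sum_mul_apply, if_pos rfl]; ring
            · intro ψ _ hne
              rw [sum_mul_apply, if_neg hne.symm]; ring
            · simp
    rw [hzero] at hexp
    exact (mul_eq_zero.mp hexp.symm).resolve_left (pow_ne_zero _ card_ne_zero)
  rw [finsum_eq_sum_of_fintype] at h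
  let one : Cfsg.IrrCharacter G := ⟨fun _ => 1, isIrrCharacter_one⟩
  rw [← Finset.add_sum_erase _ _ (Finset.mem_univ one)] at h hsum
  simp only [one] at h hsum
  rw [norm_one, one_pow, div_one] at h
  rw [one_pow, div_one] at hsum
  set R := ∑ χ ∈ Finset.univ.erase one, (χ : G → ℂ) g / (χ : G → ℂ) 1 ^ 3 with hR
  have hR1 : ‖R‖ = 1 := by
    have h1 : R = -1 := by linear_combination hsum
    rw [h1, norm_neg, norm_one]
  have hR2 : ‖R‖ ≤ ∑ χ ∈ Finset.univ.erase one, 1 / ‖(χ : G → ℂ) 1‖ ^ 2 := by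
    refine (norm_sum_le _ _).trans (Finset.sum_le_sum fun χ _ => ?_)
    obtain ⟨n, hn, hn'⟩ := exists_irr_apply_one_eq χ.2
    rw [norm_div, norm_pow, hn', Complex.norm_natCast]
    have hle := norm_le_of_isCharacter (isCharacter_of_isIrr χ.2) g
    rw [hn', Complex.natCast_re] at hle
    have hpos : (0 : ℝ) < n := Nat.cast_pos.mpr hn
    rw [div_le_div_iff₀ (by positivity) (by positivity)]
    nlinarith [pow_pos hpos 2]
  rw [hR1] at hR2
  simp only [one] at hR2
  linarith

end Cfsg.Agent.S4814
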