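import Cfsg.Statements.S4825
import Cfsg.Agent.Blocks.BlockPartInduced
import Cfsg.Agent.Chars2.Clifford
-- import your own Cfsg.Agent.* helpers here

set_option autoImplicit false
open Cfsg

namespace Cfsg.Agent.S4825

/-- Let p be a prime, G a finite group with Sylow p-subgroup P, M a maximal ideal of the algebraic integers containing p, and B a p-block of G with defect group P. Let N be a normal subgroup of G not containing P and θ an irreducible character of N. Then the number of irreducible characters in B of degree prime to p lying over θ (having θ as a constituent on restriction to N) is either 0 or at least 2, and when p ≤ 3 it is divisible by p. -/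
theorem result {G : Type*} [Group G] [Fintype G] (p : ℕ) [Fact p.Prime] (P : Sylow p G) (M : Ideal Cfsg.AlgInt) (hM : Cfsg.IsPModular p M) (B : Set (Cfsg.IrrCharacter G)) (hB : Cfsg.IsPBlock M B) (hBP : Cfsg.IsDefectGroup p M B P) (N : Subgroup G) [N.Normal] [Fintype N] (hPN : ¬ (P : Subgroup G) ≤ N) (θ : Cfsg.IrrCharacter N) :
    (Nat.card {χ : Cfsg.IrrCharacter G // χ ∈ B ∧ ¬ p ∣ Cfsg.charDegree (χ : G → ℂ) ∧ Cfsg.classInner (fun n : N => (χ : G → ℂ) n) (θ : N → ℂ) ≠ 0} = 0 ∨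
      2 ≤ Nat.card {χ : Cfsg.IrrCharacter G // χ ∈ B ∧ ¬ p ∣ Cfsg.charDegree (χ : G → ℂ) ∧ Cfsg.classInner (fun n : N => (χ : G → ℂ) n) (θ : N → ℂ) ≠ 0}) ∧
    (p ≤ 3 → p ∣ Nat.card {χ : Cfsg.IrrCharacter G // χ ∈ B ∧ ¬ p ∣ Cfsg.charDegree (χ : G → ℂ) ∧ Cfsg.classInner (fun n : N => (χ : G → ℂ) n) (θ : N → ℂ) ≠ 0}) := by
  classical
  haveI : M.IsMaximal := hM.2.1
  have hpM : (p : Cfsg.AlgInt) ∈ M := hM.2.2
  have hp := (Fact.out : p.Prime)
  obtain ⟨u, huP, huN⟩ := SetLike.not_le_iff_exists.1 hPN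
  obtain ⟨j, hj⟩ := IsPGroup.iff_orderOf.1 P.2 ⟨u, huP⟩
  rw [Subgroup.orderOf_mk] at hj
  choose c hc using fun χ : Cfsg.IrrCharacter G => Cfsg.Agent.Chars.exists_classInner_eq_nat
    (Cfsg.Agent.Chars.isCharacter_restrict (Cfsg.Agent.Chars.irr_isCharacter χ) N)
    (Cfsg.Agent.Chars.irr_isCharacter θ)
  have hsum := Cfsg.Agent.Blocks.dvd_sum_mult_degree hpM hB N (θ : N → ℂ) c (fun χ => by
    rw [Cfsg.Agent.Chars.classInner_indFun _ _ (Cfsg.Agent.Chars.isClassFunction_irr _),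
      ← Cfsg.Agent.Chars.classInner_conj_symm, hc, Complex.conj_natCast]) hj huN
  set S := Finset.univ.filter (fun χ : Cfsg.IrrCharacter G => χ ∈ B ∧
    ¬ p ∣ Cfsg.charDegree (χ : G → ℂ) ∧
    Cfsg.classInner (fun n : N => (χ : G → ℂ) n) (θ : N → ℂ) ≠ 0) with hS
  have hScard : Nat.card {χ : Cfsg.IrrCharacter G // χ ∈ B ∧ ¬ p ∣ Cfsg.charDegree (χ : G → ℂ) ∧
      Cfsg.classInner (fun n : N => (χ : G → ℂ) n) (θ : N → ℂ) ≠ 0} = S.card := by
    rw [hS, Nat.card_eq_fintype_card, Fintype.card_subtype]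
  set t := (Cfsg.Agent.Chars2.inertiaSub (G := G) (θ : N → ℂ)).index with ht
  set d := Cfsg.charDegree (θ : N → ℂ) with hd
  have hterm : ∀ χ ∈ S, c χ * Cfsg.charDegree (χ : G → ℂ) = t * d * c χ ^ 2 ∧
      ¬ p ∣ c χ ∧ ¬ p ∣ t * d := by
    intro χ hχ
    obtain ⟨-, -, hndvd, hne⟩ := Finset.mem_filter.1 hχ
    have h := Cfsg.Agent.Chars2.clifford_degree χ.2 θ.2 hne
    rw [hc χ, (Cfsg.Agent.Blocks.charDegree_eq χ.2).1, (Cfsg.Agent.Blocks.charDegree_eq θ.2).1,
      ← Nat.cast_mul, ← Nat.cast_mul, Nat.cast_inj] at h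
    refine ⟨by rw [h]; ring, fun hd' => hndvd ?_, fun hd' => hndvd ?_⟩
    · rw [h]; exact Dvd.dvd.mul_right (Dvd.dvd.mul_left hd' _) _
    · rw [h, mul_right_comm]; exact Dvd.dvd.mul_right hd' _
  have hSsum : p ∣ ∑ χ ∈ S, c χ * Cfsg.charDegree (χ : G → ℂ) := by
    have hrest : p ∣ ∑ χ ∈ (Cfsg.Agent.BlockChar.bf B).filter (fun χ => χ ∉ S),
        c χ * Cfsg.charDegree (χ : G → ℂ) := by
      refine Finset.dvd_sum fun χ hχ => ?_
      obtain ⟨hχB, hχS⟩ := Finset.mem_filter.1 hχ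
      by_cases h0 : c χ = 0
      · rw [h0, zero_mul]; exact dvd_zero _
      by_cases hd' : p ∣ Cfsg.charDegree (χ : G → ℂ)
      · exact hd'.mul_left _
      · exact absurd (Finset.mem_filter.2 ⟨Finset.mem_univ _, Cfsg.Agent.BlockChar.mem_bf.1 hχB, hd',
          by rw [hc χ, Nat.cast_ne_zero]; exact h0⟩) hχS
    have hSsub : (Cfsg.Agent.BlockChar.bf B).filter (· ∈ S) = S := by
      ext χ
      simp [hS, Cfsg.Agent.BlockChar.mem_bf]
    rw [← Finset.sum_filter_add_sum_filter_not _ (· ∈ S), hSsub] at hsum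
    exact (Nat.dvd_add_left hrest).1 hsum
  rw [hScard]
  refine ⟨?_, fun hp3 => ?_⟩
  · by_contra hne
    push Not at hne
    obtain ⟨χ, hχ⟩ := Finset.card_eq_one.1 (show S.card = 1 by omega)
    obtain ⟨e, h1, h2⟩ := hterm χ (hχ ▸ Finset.mem_singleton_self χ)
    rw [hχ, Finset.sum_singleton, e] at hSsum
    rcases hp.dvd_mul.1 hSsum with h | h
    · exact h2 h
    · exact h1 (hp.dvd_of_dvd_pow h)
  · rcases S.eq_empty_or_nonempty with h | ⟨χ₀, hχ₀⟩
    · rw [h]; simp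
    have hsq : ∀ χ ∈ S, ((t * d * c χ ^ 2 : ℕ) : ZMod p) = ((t * d : ℕ) : ZMod p) := by
      intro χ hχ
      have h1 : (c χ : ZMod p) ≠ 0 := by
        rw [Ne, ZMod.natCast_eq_zero_iff]
        exact (hterm χ hχ).2.1
      have h2 : ∀ x : ZMod p, x ≠ 0 → x ^ 2 = 1 := by
        intro x hx
        have h := ZMod.pow_card_sub_one_eq_one hx
        have := hp.two_le
        interval_cases p
        · simp only [show (2 : ℕ) - 1 = 1 from rfl, pow_one] at h
          rw [h, one_pow]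
        · exact h
      rw [Nat.cast_mul, Nat.cast_pow, h2 _ h1, mul_one]
    have h := (ZMod.natCast_eq_zero_iff _ p).2 hSsum
    rw [Finset.sum_congr rfl fun χ hχ => (hterm χ hχ).1, Nat.cast_sum,
      Finset.sum_congr rfl hsq, Finset.sum_const, nsmul_eq_mul, ← Nat.cast_mul,
      ZMod.natCast_eq_zero_iff] at h
    exact (hp.dvd_mul.1 h).resolve_right (hterm χ₀ hχ₀).2.2

end Cfsg.Agent.S4825
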