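import Cfsg.Statements.S4828
import Cfsg.Agent.BlockChar.LocalBlock
import Cfsg.Agent.BlockChar.CentralDefectGroup
import Cfsg.Agent.BlockChar.PairDict
import Cfsg.Agent.BlockChar.CharCount
import Cfsg.Agent.Blocks.Height
import Cfsg.Agent.Chars.Linear

set_option autoImplicit false
open Cfsg Cfsg.Agent Cfsg.Agent.BlockChar

namespace Cfsg.Agent.S4828

/-- Let p be a prime, M a maximal ideal of the algebraic integers containing p, and (Q, e) a Brauer pair of the finite group G (Q a p-subgroup, e a block of C_G(Q)). Then (Q, e) is a maximal Brauer pair of some block of G if and only if e contains an irreducible character θ such that θ takes the value θ(1) at every element of Z(Q) = Q ∩ C_G(Q), the p-part of θ(1) times the p-part of the order of Z(Q) equals the p-part of the order of C_G(Q) (θ has defect zero as a character of C_G(Q)/Z(Q)), and every element of N_G(Q) of p-power order that stabilizes e lies in Q·C_G(Q) (the stabilizer of e in N_G(Q) has index prime to p over Q·C_G(Q)). -/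
theorem result {G : Type*} [Group G] [Finite G] (p : ℕ) [Fact p.Prime] (M : Ideal Cfsg.AlgInt) (hM : Cfsg.IsPModular p M) (Q : Subgroup G) (e : Set (Cfsg.IrrCharacter (Subgroup.centralizer (Q : Set G)))) (he : Cfsg.IsBrauerPair p M Q e) :
    (∃ B : Set (Cfsg.IrrCharacter G), Cfsg.IsMaximalBrauerPair p M B Q e) ↔
      ∃ θ ∈ e, (∀ z : Subgroup.centralizer (Q : Set G), (z : G) ∈ Q → (θ : Subgroup.centralizer (Q : Set G) → ℂ) z = (θ : Subgroup.centralizer (Q : Set G) → ℂ) 1) ∧
        (Cfsg.charDegree (θ : Subgroup.centralizer (Q : Set G) → ℂ)).factorization p + (Nat.card ↥(Q ⊓ Subgroup.centralizer (Q : Set G))).factorization p = (Nat.card (Subgroup.centralizer (Q : Set G))).factorization p ∧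
        (∀ g : G, g ∈ Subgroup.normalizer (Q : Set G) → Cfsg.StabilizesBlock (Subgroup.centralizer (Q : Set G)) e g → (∃ k : ℕ, orderOf g = p ^ k) → g ∈ Q ⊔ Subgroup.centralizer (Q : Set G)) := by
  classical
  haveI := hM.2.1
  haveI := Fintype.ofFinite G
  have hpM := hM.2.2
  haveI := charP_res (p := p) hpM
  haveI := Fintype.ofFinite Q
  have hQp : IsPGroup p Q := he.1
  have heB := he.2
  have hpair := (isBrauerPair_iff hpM heB).mp he
  have hCN : (Subgroup.centralizer (Q : Set G)) ≤ Subgroup.normalizer (Q : Set G) := centralizer_le_normalizer Q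
  have hmaxiff : (∃ B : Set (IrrCharacter G), IsMaximalBrauerPair p M B Q e) ↔
      IsMaxPair p Q (idemS M e) := by
    constructor
    · rintro ⟨B, hB⟩
      exact ((isMaximalBrauerPair_iff hpM).mp hB).2
    · intro h
      obtain ⟨B, hB, -⟩ := existsUnique_brauerPairOf hpM he
      exact ⟨B, (isMaximalBrauerPair_iff hpM).mpr ⟨hB, h⟩⟩
  rw [hmaxiff]
  set Z : Subgroup G := Q ⊓ (Subgroup.centralizer (Q : Set G)) with hZ
  have hZC : Z ≤ (Subgroup.centralizer (Q : Set G)) := inf_le_right
  have hZp : IsPGroup p (Z.subgroupOf (Subgroup.centralizer (Q : Set G))) :=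
    ((hQp.to_le inf_le_left).comap_of_injective (Subgroup.centralizer (Q : Set G)).subtype Subtype.val_injective)
  have hZcen : ∀ z ∈ Z, ∀ c ∈ (Subgroup.centralizer (Q : Set G)), c * z = z * c := fun z hz c hc =>
    (Subgroup.mem_centralizer_iff.mp hc z hz.1).symm
  have hZcenter : Z.subgroupOf (Subgroup.centralizer (Q : Set G)) ≤ Subgroup.center (Subgroup.centralizer (Q : Set G)) := fun z hz =>
    Subgroup.mem_center_iff.mpr fun c => Subtype.ext (hZcen z (Subgroup.mem_subgroupOf.mp hz) c c.2)
  have hZn : (Z.subgroupOf (Subgroup.centralizer (Q : Set G))).Normal := ⟨fun a ha b => by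
    rw [Subgroup.mem_center_iff.1 (hZcenter ha) b, mul_inv_cancel_right]; exact ha⟩
  have hcardZ : Nat.card (Z.subgroupOf (Subgroup.centralizer (Q : Set G))) = Nat.card Z :=
    Nat.card_congr (Subgroup.subgroupOfEquivOfLe hZC).toEquiv
  constructor
  · intro hmax
    obtain ⟨D0, hD0⟩ := Blocks.exists_isDefectGroup hpM heB
    have hD0p : IsPGroup p D0 := Blocks.isPGroup_defect hD0
    obtain ⟨X, hX⟩ : ∃ X : Subgroup G, D0.map (Subgroup.centralizer (Q : Set G)).subtype = X := ⟨_, rfl⟩
    have hXC : X ≤ (Subgroup.centralizer (Q : Set G)) := hX ▸ Subgroup.map_subtype_le D0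
    have hXeq : X.subgroupOf (Subgroup.centralizer (Q : Set G)) = D0 := by
      rw [← hX]; exact Subgroup.comap_map_eq_self_of_injective Subtype.val_injective D0
    have hdef : IsDef p (Subgroup.centralizer (Q : Set G)) (idemS M e) X :=
      (isDefectGroup_subgroupOf_iff hpM hXC heB).mp (hXeq ▸ hD0)
    have hbrX : br X (idemS M e) ≠ 0 := hdef.ne_zero
    have hQX : Q ⊔ X ≤ stab Q (idemS M e) :=
      sup_le hpair.le_stab (hXC.trans hpair.centralizer_le_stab)
    have hbr : br (Q ⊔ X) (idemS M e) ≠ 0 := by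
      rw [br_sup_eq Q X hpair.blk.supp]; exact hbrX
    obtain ⟨g, hg⟩ := exists_nstep_of_br hpair (isPGroup_sup_centralizer hQp hdef.pgroup hXC)
      le_sup_left hQX hbr
    have hXQ : X ≤ Q := (le_sup_right : X ≤ Q ⊔ X).trans (hmax.max _ g hg).le
    have hD0Z : D0 = Z.subgroupOf (Subgroup.centralizer (Q : Set G)) := le_antisymm
      (hXeq ▸ fun u hu => Subgroup.mem_subgroupOf.mpr
        ⟨hXQ (Subgroup.mem_subgroupOf.mp hu), u.2⟩)
      (Blocks.le_defect_of_normal hpM heB hD0 hZn hZp)
    subst hD0Z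
    have hG : Z.subgroupOf (Subgroup.centralizer (Q : Set G)) ⊔ Subgroup.centralizer ((Z.subgroupOf (Subgroup.centralizer (Q : Set G)) : Subgroup (Subgroup.centralizer (Q : Set G))) : Set (Subgroup.centralizer (Q : Set G))) = ⊤ := by
      rw [eq_top_iff]
      intro c _
      refine Subgroup.mem_sup_right (Subgroup.mem_centralizer_iff.mpr fun z hz => ?_)
      exact (Subgroup.mem_center_iff.1 (hZcenter hz) c).symm
    obtain ⟨θ, hθ, hθZ⟩ := central_block_structure hpM hZp hG heB hD0
    refine ⟨θ, hθ, fun z hz => hθZ z (Subgroup.mem_subgroupOf.mpr ⟨hz, z.2⟩), ?_, ?_⟩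
    · obtain ⟨ζ, hζ, -⟩ := central_block_regular hpM hZp hG heB hD0 hθ hθZ
      obtain ⟨ψ, hψ, hψ0⟩ := Blocks.exists_height_zero (p := p) heB
      have h1 := hζ ψ hψ 1 1 (by simp [(Fact.out : p.Prime).ne_one])
      rw [Chars.irr_apply_one_of_comm (fun a b => Subtype.ext
          (Subgroup.mem_center_iff.1 (hZcenter b.2) a)) (ζ ψ).2, one_mul, OneMemClass.coe_one,
        one_mul] at h1
      have hd : charDegree (ψ : (Subgroup.centralizer (Q : Set G)) → ℂ) = charDegree (θ : (Subgroup.centralizer (Q : Set G)) → ℂ) := by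
        have := (charDegree_cast (Chars.irr_isCharacter ψ)).trans
          (h1.trans (charDegree_cast (Chars.irr_isCharacter θ)).symm)
        exact_mod_cast this
      have h2 := Blocks.degree_eq_height (p := p) hpM heB hψ
      rw [hψ0, add_zero, hd] at h2
      rw [← h2, ← hcardZ, Blocks.card_defectGroup hpM heB hD0,
        Nat.Prime.factorization_pow (Fact.out : p.Prime), Finsupp.single_eq_same]
    · rintro g hgN hgst ⟨n, hn⟩
      refine mem_sup_of_isPElement (n := n) hmax
        (mem_stab.mpr ⟨hgN, ((stabilizesBlock_iff hpM heB g).mp hgst).2⟩) ?_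
      rw [← hn]; exact pow_orderOf_eq_one g
  · rintro ⟨θ, hθ, -, hdeg, hp⟩
    have hD : IsDefectGroup p M e (Z.subgroupOf (Subgroup.centralizer (Q : Set G))) := by
      rw [Blocks.block_eq_of_mem heB hθ]
      refine Blocks.central_defect hpM _ hZp hZcenter θ ?_
      have hmul := (Z.subgroupOf (Subgroup.centralizer (Q : Set G))).index_mul_card
      rw [hcardZ] at hmul
      have h := congrArg (fun n : ℕ => n.factorization p) hmul
      simp only [Nat.factorization_mul Subgroup.index_ne_zero_of_finite Nat.card_pos.ne',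
        Finsupp.add_apply] at h
      change (charDegree (θ : (Subgroup.centralizer (Q : Set G)) → ℂ)).factorization p + (Nat.card Z).factorization p =
        (Nat.card (Subgroup.centralizer (Q : Set G))).factorization p at hdeg
      omega
    have hdef := (isDefectGroup_subgroupOf_iff hpM hZC heB).mp hD
    refine ⟨hpair, fun R g hs => le_antisymm ?_ hs.le⟩
    have hRp := hs.right.pgroup
    have hbrR : br R (idemS M e) ≠ 0 := pair_ne_zero_of_nstep hs
    have hRQC : R ≤ Q ⊔ (Subgroup.centralizer (Q : Set G)) := fun x hx => by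
      refine hp x (hs.norm hx) ((stabilizesBlock_iff hpM heB x).mpr
        ⟨normalizer_le_normalizer_centralizer Q (hs.norm hx), hs.stable x hx⟩) ?_
      obtain ⟨k, hk⟩ := IsPGroup.iff_orderOf.1 hRp ⟨x, hx⟩
      exact ⟨k, by rwa [← Subgroup.orderOf_coe] at hk⟩
    have hR : R = Q ⊔ (R ⊓ (Subgroup.centralizer (Q : Set G))) := by
      refine le_antisymm (fun x hx => ?_) (sup_le hs.le inf_le_left)
      have hmem : x ∈ ((Q ⊔ (Subgroup.centralizer (Q : Set G)) : Subgroup G) : Set G) := hRQC hx
      rw [Subgroup.coe_mul_of_right_le_normalizer_left Q (Subgroup.centralizer (Q : Set G)) hCN] at hmem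
      obtain ⟨q, hq, c, hc, rfl⟩ := hmem
      exact Subgroup.mul_mem_sup hq
        ⟨by simpa [mul_assoc] using R.mul_mem (R.inv_mem (hs.le hq)) hx, hc⟩
    have hne : br (R ⊓ (Subgroup.centralizer (Q : Set G))) (idemS M e) ≠ 0 := by
      rwa [← br_sup_eq Q (R ⊓ (Subgroup.centralizer (Q : Set G))) hpair.blk.supp, ← hR]
    obtain ⟨y, hy, hle⟩ := hdef.maximal (R ⊓ (Subgroup.centralizer (Q : Set G))) inf_le_right (hRp.to_le inf_le_left) hne
    rw [hR]
    refine sup_le le_rfl fun a ha => ?_
    have h2 : y⁻¹ * a * y ∈ Z := mem_conjS.mp (hle ha)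
    have h3 : a = y⁻¹ * a * y := by
      have h4 := hZcen _ h2 y hy
      calc a = (y * (y⁻¹ * a * y)) * y⁻¹ := by group
        _ = ((y⁻¹ * a * y) * y) * y⁻¹ := by rw [h4]
        _ = y⁻¹ * a * y := mul_inv_cancel_right _ _
    exact h3.symm ▸ h2.1

end Cfsg.Agent.S4828
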