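import Cfsg.Statements.S4839
import Cfsg.Agent.Chars.Orth
import Cfsg.Agent.Core.Cores
import Cfsg.Agent.Components.BaerSuzuki

/-!
Irreducible characters nonzero on exactly two classes whose support is the p-core: the group is a
doubly transitive Frobenius group. The key fact is that every coset of `N` outside `N` lies inside
one conjugacy class.
-/

set_option autoImplicit false
set_option linter.style.haveILetI false

open scoped Pointwise ComplexConjugate

namespace Cfsg.Agent.S4839

section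
variable {G : Type*} [Group G] [Finite G]

theorem sum_zero_or_const {φ : G → ℂ} (hφ : Cfsg.IsIrrCharacter G φ) (N : Subgroup G) [N.Normal]
    [Fintype ↥N] : (∑ m : ↥N, φ m) = 0 ∨ ∀ g : G, ∀ m ∈ N, φ (g * m) = φ g := by
  obtain ⟨k, ρ, hirr, rfl⟩ := hφ
  set A : Module.End ℂ (Fin k → ℂ) := ∑ m : ↥N, ρ (m : G) with hA
  have hcomm : ∀ g, A * ρ g = ρ g * A := by
    intro g
    rw [hA, Finset.sum_mul, Finset.mul_sum]
    refine Fintype.sum_equiv (MulAut.conjNormal (H := N) g⁻¹).toEquiv _ _ fun m => ?_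
    simp only [MulEquiv.toEquiv_eq_coe, EquivLike.coe_coe, ← map_mul]
    congr 1
    rw [MulAut.conjNormal_apply]
    group
  obtain ⟨c, hc⟩ := Chars.scalar_of_commute ρ A hcomm
  by_cases h0 : c = 0
  · left
    rw [h0, zero_smul] at hc
    have := congrArg (LinearMap.trace ℂ (Fin k → ℂ)) hc
    rw [hA, map_sum, map_zero] at this
    exact this
  · right
    intro g m hm
    have habs : A * ρ m = A := by
      rw [hA, Finset.sum_mul]
      refine Fintype.sum_equiv (Equiv.mulRight (⟨m, hm⟩ : ↥N)) _ _ fun a => ?_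
      simp [map_mul]
    rw [hc, smul_mul_assoc, one_mul] at habs
    have h1 : ρ m = 1 := smul_right_injective _ h0 habs
    show LinearMap.trace ℂ _ (ρ (g * m)) = LinearMap.trace ℂ _ (ρ g)
    rw [map_mul, h1, mul_one]

/-- All the nonidentity elements of `N` are conjugate, and every coset outside `N` lies in one
conjugacy class. -/
theorem two_class {χ : G → ℂ} (hG : 2 < Nat.card G) (hirr : Cfsg.IsIrrCharacter G χ)
    (hχ : Nat.card {C : ConjClasses G // ∃ g ∈ C.carrier, χ g ≠ 0} = 2) (p : ℕ) [Fact p.Prime]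
    (N : Subgroup G) [N.Normal] (hN : ∀ g : G, g ∈ N ↔ χ g ≠ 0) (hNp : IsPGroup p N)
    (hN1 : N ≠ ⊥) :
    (∀ a ∈ N, a ≠ 1 → ∀ b ∈ N, b ≠ 1 → IsConj a b) ∧
      ∀ x : G, x ∉ N → ∀ m ∈ N, IsConj x (x * m) := by
  classical
  haveI := Fintype.ofFinite G
  have hclass : ∀ a ∈ N, a ≠ 1 → ∀ b ∈ N, b ≠ 1 → IsConj a b := by
    intro a ha ha1 b hb hb1
    by_contra hab
    let c : Fin 3 → {C : ConjClasses G // ∃ g ∈ C.carrier, χ g ≠ 0} :=
      ![⟨ConjClasses.mk 1, 1, ConjClasses.mem_carrier_mk, (hN 1).mp N.one_mem⟩,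
        ⟨ConjClasses.mk a, a, ConjClasses.mem_carrier_mk, (hN a).mp ha⟩,
        ⟨ConjClasses.mk b, b, ConjClasses.mem_carrier_mk, (hN b).mp hb⟩]
    have hinj : Function.Injective c := by
      have n1 : ConjClasses.mk (1 : G) ≠ ConjClasses.mk a := fun h =>
        ha1 (isConj_one_right.mp (ConjClasses.mk_eq_mk_iff_isConj.mp h))
      have n2 : ConjClasses.mk (1 : G) ≠ ConjClasses.mk b := fun h =>
        hb1 (isConj_one_right.mp (ConjClasses.mk_eq_mk_iff_isConj.mp h))
      have n3 : ConjClasses.mk a ≠ ConjClasses.mk b := fun h =>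
        hab (ConjClasses.mk_eq_mk_iff_isConj.mp h)
      intro i j hij
      have h' := congrArg Subtype.val hij
      fin_cases i <;> fin_cases j <;>
        first
        | rfl
        | exact absurd h' n1
        | exact absurd h' n1.symm
        | exact absurd h' n2
        | exact absurd h' n2.symm
        | exact absurd h' n3
        | exact absurd h' n3.symm
    have := Nat.card_le_card_of_injective c hinj
    rw [hχ, Nat.card_fin] at this
    omega
  refine ⟨hclass, ?_⟩
  have hcf : Cfsg.IsClassFunction G χ :=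
    Chars.isClassFunction_of_isCharacter (Chars.isCharacter_of_isIrr hirr)
  obtain ⟨n₀, hn₀, hn₀1⟩ : ∃ x ∈ N, x ≠ 1 := by
    by_contra h
    push Not at h
    exact hN1 (N.eq_bot_iff_forall.mpr h)
  set e := χ n₀ with he
  obtain ⟨d, -, hd⟩ := Chars.exists_irr_apply_one_eq hirr
  have hd0 : χ 1 ≠ 0 := Chars.irr_apply_one_ne_zero hirr
  have hval : ∀ m ∈ N, m ≠ 1 → χ m = e := by
    intro m hm hm1
    obtain ⟨g, rfl⟩ := isConj_iff.mp (hclass n₀ hn₀ hn₀1 m hm hm1)
    exact hcf n₀ g
  have hsumN : ∀ F : G → ℂ, (∀ g, g ∉ N → F g = 0) → ∑ g : G, F g = ∑ m : ↥N, F m := by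
    intro F hF
    have e : ∑ g ∈ Finset.univ.filter (fun g => g ∈ N), F g = ∑ m : ↥N, F m :=
      Finset.sum_subtype _ (fun g => by simp) F
    rw [← e, Finset.sum_filter]
    refine Finset.sum_congr rfl fun g _ => ?_
    by_cases hg : g ∈ N
    · rw [if_pos hg]
    · rw [if_neg hg, hF g hg]
  have hoff : ∀ g, g ∉ N → χ g = 0 := fun g hg => by
    by_contra h
    exact hg ((hN g).mpr h)
  have hnN : (Fintype.card ↥N : ℂ) ≠ 0 := by exact_mod_cast Fintype.card_ne_zero
  have hsum : (∑ m : ↥N, χ m) = 0 := by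
    refine (sum_zero_or_const hirr N).resolve_right fun hconst => ?_
    have hc : ∀ m : ↥N, χ m = χ 1 := fun m => by
      have := hconst 1 m m.2
      rwa [one_mul] at this
    have hne : χ = fun _ => (1 : ℂ) := by
      by_contra hne
      have h0 := Chars.classInner_irr_of_ne hirr Chars.isIrrCharacter_one hne
      rw [Chars.classInner_def, mul_eq_zero, inv_eq_zero, or_iff_right Chars.card_ne_zero] at h0
      simp only [map_one, mul_one] at h0
      rw [hsumN χ hoff, Finset.sum_congr rfl (fun m _ => hc m), Finset.sum_const, nsmul_eq_mul,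
        Finset.card_univ] at h0
      exact mul_ne_zero hnN hd0 h0
    have htop : ∀ g : G, g ∈ N := fun g => (hN g).mpr (by rw [hne]; exact one_ne_zero)
    have hGp : IsPGroup p G := fun g => by
      obtain ⟨i, hi⟩ := hNp ⟨g, htop g⟩
      exact ⟨i, congrArg Subtype.val hi⟩
    haveI : Nontrivial G := ⟨n₀, 1, hn₀1⟩
    haveI := hGp.center_nontrivial
    obtain ⟨⟨z, hz⟩, hz1⟩ := exists_ne (1 : ↥(Subgroup.center G))
    have hz1' : z ≠ 1 := fun h => hz1 (Subtype.ext h)
    have hall : ∀ g : G, g = 1 ∨ g = z := by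
      intro g
      by_cases hg : g = 1
      · exact Or.inl hg
      · right
        obtain ⟨c, hc⟩ := isConj_iff.mp (hclass z (htop z) hz1' g (htop g) hg)
        rw [← hc, Subgroup.mem_center_iff.mp hz c]
        group
    have : Nat.card G ≤ Nat.card (Fin 2) :=
      Nat.card_le_card_of_surjective (![1, z] : Fin 2 → G) (fun g => by
        rcases hall g with h | h
        · exact ⟨0, h.symm⟩
        · exact ⟨1, h.symm⟩)
    rw [Nat.card_fin] at this
    omega
  have hsplit : ∀ F : G → ℂ, (∀ m : ↥N, m ≠ 1 → F m = F n₀) →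
      ∑ m : ↥N, F m = F 1 + ((Fintype.card ↥N : ℂ) - 1) * F n₀ := by
    intro F hF
    rw [← Finset.add_sum_erase _ _ (Finset.mem_univ (1 : ↥N)),
      Finset.sum_congr rfl (fun m hm => hF m (Finset.ne_of_mem_erase hm)), Finset.sum_const,
      Finset.card_erase_of_mem (Finset.mem_univ _), Finset.card_univ, nsmul_eq_mul,
      Nat.cast_sub Fintype.card_pos, Nat.cast_one]
    rfl
  have hval' : ∀ m : ↥N, m ≠ 1 → χ m = χ n₀ := fun m hm =>
    hval m m.2 fun h => hm (Subtype.ext h)
  have hS1 : χ 1 + ((Fintype.card ↥N : ℂ) - 1) * e = 0 := by rw [← hsplit χ hval', hsum]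
  set n : ℂ := (Fintype.card ↥N : ℂ) with hn
  have hn1 : n - 1 ≠ 0 := by
    intro h
    rw [h, zero_mul, add_zero] at hS1
    exact hd0 hS1
  have hreal : conj e = e := by
    have h := congrArg (starRingEnd ℂ) hS1
    rw [map_add, map_mul, map_sub, map_one, map_zero, hn, map_natCast, hd, map_natCast] at h
    refine mul_left_cancel₀ hn1 ?_
    rw [hd] at hS1
    linear_combination h - hS1
  have hnorm : χ 1 * χ 1 + (n - 1) * (e * e) = (Nat.card G : ℂ) := by
    have h := Chars.classInner_self_irr hirr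
    rw [Chars.classInner_def, inv_mul_eq_one₀ Chars.card_ne_zero,
      hsumN _ (fun g hg => by rw [hoff g hg, zero_mul]),
      hsplit (fun g => χ g * conj (χ g)) (fun m hm => by simp only [hval' m hm])] at h
    rw [h]
    simp only [← he, hreal]
    rw [hd, map_natCast]
  have hconst : ∀ φ : G → ℂ, Cfsg.IsIrrCharacter G φ → φ ≠ χ → ∀ g, ∀ m ∈ N,
      φ (g * m) = φ g := by
    intro φ hφ hne
    refine (sum_zero_or_const hφ N).resolve_left fun h0 => ?_
    let f₀ : G → ℂ := fun g =>
      (if g = 1 then (Nat.card G : ℂ) else 0) + if g ∈ N then χ 1 * e else 0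
    have hf : f₀ = χ 1 • χ := by
      funext g
      simp only [f₀, Pi.smul_apply, smul_eq_mul]
      by_cases hg : g = 1
      · subst hg
        rw [if_pos rfl, if_pos N.one_mem]
        linear_combination e * hS1 - hnorm
      · rw [if_neg hg, zero_add]
        by_cases hgN : g ∈ N
        · rw [if_pos hgN, hval g hgN hg]
        · rw [if_neg hgN, hoff g hgN, mul_zero]
    have h1 : Cfsg.classInner f₀ φ = 0 := by
      rw [hf, Chars.classInner_smul_left, Chars.classInner_irr_of_ne hirr hφ (Ne.symm hne),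
        mul_zero]
    rw [Chars.classInner_def, mul_eq_zero, inv_eq_zero, or_iff_right Chars.card_ne_zero] at h1
    simp only [f₀, add_mul, ite_mul, zero_mul, Finset.sum_add_distrib] at h1
    rw [Finset.sum_ite_eq' Finset.univ (1 : G), if_pos (Finset.mem_univ _),
      hsumN (fun g => if g ∈ N then χ 1 * e * conj (φ g) else 0) (fun g hg => if_neg hg)] at h1
    simp only [SetLike.coe_mem, if_true] at h1
    rw [← Finset.mul_sum, ← map_sum, h0, map_zero, mul_zero, add_zero] at h1
    rcases mul_eq_zero.mp h1 with h | h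
    · exact Chars.card_ne_zero h
    · exact Chars.irr_apply_one_ne_zero hφ ((map_eq_zero _).mp h)
  intro x hx m hm
  let f : G → ℂ := fun g => if IsConj x g then 1 else 0
  have hfcf : Cfsg.IsClassFunction G f := by
    intro g h
    have : IsConj x (h * g * h⁻¹) ↔ IsConj x g :=
      ⟨fun hh => hh.trans (isConj_iff.mpr ⟨h⁻¹, by group⟩),
        fun hh => hh.trans (isConj_iff.mpr ⟨h, rfl⟩)⟩
    simp only [f, this]
  have hfχ : Cfsg.classInner f χ = 0 := by
    rw [Chars.classInner_def, Finset.sum_eq_zero, mul_zero]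
    intro g _
    by_cases hg : IsConj x g
    · have hgN : g ∉ N := by
        intro hgN
        obtain ⟨c, hc⟩ := isConj_iff.mp hg.symm
        exact hx (hc ▸ ‹N.Normal›.conj_mem g hgN c)
      rw [hoff g hgN, map_zero, mul_zero]
    · simp only [f, if_neg hg, zero_mul]
  have heq : f (x * m) = f x := by
    have h := Chars.eq_sum_classInner hfcf
    rw [congrFun h (x * m), congrFun h x]
    simp only [Finset.sum_apply, Pi.smul_apply, smul_eq_mul]
    refine Finset.sum_congr rfl fun ψ _ => ?_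
    by_cases hψ : (ψ : G → ℂ) = χ
    · rw [hψ, hfχ, zero_mul, zero_mul]
    · rw [hconst _ ψ.2 hψ x m hm]
  by_contra hnc
  simp only [f, if_pos (IsConj.refl x), if_neg hnc] at heq
  exact one_ne_zero heq.symm

end

section
variable {G : Type*} [Group G] [Finite G] {p : ℕ} [Fact p.Prime] {N : Subgroup G}

theorem orderOf_eq_of_isConj {a b : G} (h : IsConj a b) : orderOf b = orderOf a := by
  obtain ⟨c, rfl⟩ := isConj_iff.mp h
  exact MulEquiv.orderOf_eq (MulAut.conj c) a

theorem fpf (hNp : IsPGroup p N) (hcoset : ∀ x : G, x ∉ N → ∀ m ∈ N, IsConj x (x * m)) {g : G}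
    (hg : ∀ i, orderOf g ≠ p ^ i) {m : G} (hm : m ∈ N) (hgm : Commute g m) : m = 1 := by
  have hp : p.Prime := Fact.out
  have hpos : 0 < orderOf g := orderOf_pos g
  obtain ⟨q, hq, hqg, hqp⟩ : ∃ q : ℕ, q.Prime ∧ q ∣ orderOf g ∧ q ≠ p := by
    by_contra h
    push Not at h
    exact hg _ (Nat.eq_prime_pow_of_unique_prime_dvd hpos.ne' (fun {d} hd hdd => h d hd hdd))
  set x := g ^ (orderOf g / q) with hx
  have hox : orderOf x = q := orderOf_pow_orderOf_div hpos.ne' hqg
  have hxN : x ∉ N := by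
    intro hxN
    obtain ⟨i, hi⟩ := IsPGroup.iff_orderOf.mp hNp ⟨x, hxN⟩
    rw [Subgroup.orderOf_mk, hox] at hi
    have hqi : q ∣ p ^ i := by rw [← hi]
    exact hqp ((Nat.prime_dvd_prime_iff_eq hq hp).mp (hq.dvd_of_dvd_pow hqi))
  obtain ⟨i, hi⟩ := IsPGroup.iff_orderOf.mp hNp ⟨m, hm⟩
  rw [Subgroup.orderOf_mk] at hi
  have hcop : (orderOf x).Coprime (orderOf m) := by
    rw [hox, hi]
    exact Nat.Coprime.pow_right _ ((Nat.coprime_primes hq hp).mpr hqp)
  have hcm : Commute x m := hgm.pow_left _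
  have h := orderOf_eq_of_isConj (hcoset x hxN m hm)
  rw [hcm.orderOf_mul_eq_mul_orderOf_of_coprime hcop, hox] at h
  exact orderOf_eq_one_iff.mp (Nat.eq_of_mul_eq_mul_left hq.pos (by rw [h, mul_one]))

theorem conj_mem_symm [N.Normal] {m : G} (hm : m ∈ N) (x : G) : x⁻¹ * m * x ∈ N := by
  simpa using ‹N.Normal›.conj_mem m hm x⁻¹

theorem centralizer_le [N.Normal] (hNp : IsPGroup p N) (hN1 : N ≠ ⊥)
    (hcoset : ∀ x : G, x ∉ N → ∀ m ∈ N, IsConj x (x * m)) (hcore : N = Cfsg.pCore p G) :
    Subgroup.centralizer (N : Set G) ≤ N := by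
  obtain ⟨n₀, hn₀, hn₀1⟩ : ∃ x ∈ N, x ≠ 1 := by
    by_contra h
    push Not at h
    exact hN1 (N.eq_bot_iff_forall.mpr h)
  have hpg : IsPGroup p ↥(Subgroup.centralizer (N : Set G)) := by
    rintro ⟨g, hg⟩
    by_contra hno
    push Not at hno
    have h : ∀ i, orderOf g ≠ p ^ i := fun i hi =>
      hno i (Subtype.ext (by simp [← hi, pow_orderOf_eq_one]))
    exact hn₀1 (fpf hNp hcoset h hn₀ (Subgroup.mem_centralizer_iff.mp hg n₀ hn₀).symm)
  have hle := Core.le_pCore (p := p) (Subgroup.normal_centralizer (H := N)) hpg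
  exact hle.trans hcore.ge

/-- Odd `p`: an involution inverts `N` and its centralizer is a complement. -/
theorem complement_odd [N.Normal] (hp2 : p ≠ 2) (hNp : IsPGroup p N) (hN1 : N ≠ ⊥)
    (hclass : ∀ a ∈ N, a ≠ 1 → ∀ b ∈ N, b ≠ 1 → IsConj a b)
    (hcoset : ∀ x : G, x ∉ N → ∀ m ∈ N, IsConj x (x * m)) (hcore : N = Cfsg.pCore p G)
    (hab : ∀ a ∈ N, ∀ b ∈ N, a * b = b * a) :
    ∃ H : Subgroup G, H ⊓ N = ⊥ ∧ ∀ g : G, ∃ m ∈ N, ∃ h ∈ H, g = m * h := by
  classical
  haveI := Fintype.ofFinite G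
  have hp : p.Prime := Fact.out
  have hodd : Odd (Nat.card ↥N) := by
    obtain ⟨k, hk⟩ := hNp.exists_card_eq
    rw [hk]
    exact (hp.odd_of_ne_two hp2).pow
  obtain ⟨n₀, hn₀, hn₀1⟩ : ∃ x ∈ N, x ≠ 1 := by
    by_contra h
    push Not at h
    exact hN1 (N.eq_bot_iff_forall.mpr h)
  have hset : {x : G | IsConj n₀ x} = (N : Set G) \ {1} := by
    ext x
    constructor
    · intro hx
      obtain ⟨c, rfl⟩ := isConj_iff.mp hx
      refine ⟨‹N.Normal›.conj_mem n₀ hn₀ c, ?_⟩
      simpa using hn₀1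
    · rintro ⟨hx, hx1⟩
      exact hclass n₀ hn₀ hn₀1 x hx hx1
  have h2 : 2 ∣ Nat.card G := by
    have hdvd : {x : G | IsConj n₀ x}.ncard ∣ Nat.card G := by
      have hidx := MulAction.index_stabilizer (ConjAct G) n₀
      rw [ConjAct.orbit_eq_carrier_conjClasses] at hidx
      have hcar : (ConjClasses.mk n₀).carrier = {x : G | IsConj n₀ x} := by
        ext x
        rw [ConjClasses.mem_carrier_iff_mk_eq, ConjClasses.mk_eq_mk_iff_isConj]
        exact ⟨fun h => h.symm, fun h => h.symm⟩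
      rw [hcar] at hidx
      rw [← hidx]
      exact (Subgroup.index_dvd_card _).trans (Nat.card_congr ConjAct.ofConjAct.toEquiv).dvd
    refine dvd_trans ?_ hdvd
    rw [hset, Set.ncard_diff (Set.singleton_subset_iff.mpr N.one_mem), Set.ncard_singleton,
      ← Nat.card_coe_set_eq, SetLike.coe_sort_coe]
    obtain ⟨j, hj⟩ := hodd
    exact ⟨j, by omega⟩
  haveI : Fact (Nat.Prime 2) := ⟨Nat.prime_two⟩
  obtain ⟨t, ht⟩ := exists_prime_orderOf_dvd_card' 2 h2
  have htfix : ∀ m ∈ N, t * m = m * t → m = 1 := fun m hm h =>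
    fpf hNp hcoset (fun i hi => by
      have h2i : 2 ∣ p ^ i := by rw [← hi, ht]
      exact hp2 ((Nat.prime_dvd_prime_iff_eq Nat.prime_two hp).mp
        (Nat.prime_two.dvd_of_dvd_pow h2i)).symm) hm h
  have htt : t * t = 1 := by rw [← sq, ← ht, pow_orderOf_eq_one]
  have htinv : t⁻¹ = t := inv_eq_of_mul_eq_one_right htt
  have hinv : ∀ m ∈ N, t * m * t = m⁻¹ := by
    intro m hm
    have hm' : t * m * t ∈ N := by
      have := ‹N.Normal›.conj_mem m hm t
      rwa [htinv] at this
    have h := htfix _ (N.mul_mem hm' hm) (by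
      calc t * (t * m * t * m) = (t * t) * (m * (t * m)) := by group
        _ = m * (t * m) := by rw [htt, one_mul]
        _ = m * (t * m * (t * t)) := by rw [htt, mul_one]
        _ = (m * (t * m * t)) * t := by group
        _ = t * m * t * m * t := by rw [hab m hm _ hm'])
    exact eq_inv_of_mul_eq_one_left h
  refine ⟨Subgroup.centralizer {t}, ?_, ?_⟩
  · rw [Subgroup.eq_bot_iff_forall]
    rintro x ⟨hx, hxN⟩
    exact htfix x hxN (Subgroup.mem_centralizer_singleton_iff.mp hx).symm
  · intro g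
    set s := g * t * g⁻¹ with hs
    have hsinv : ∀ m ∈ N, s * m * s⁻¹ = m⁻¹ := by
      intro m hm
      have h := hinv _ (conj_mem_symm hm g)
      calc s * m * s⁻¹ = g * (t * (g⁻¹ * m * g) * t⁻¹) * g⁻¹ := by rw [hs]; group
        _ = g * (g⁻¹ * m * g)⁻¹ * g⁻¹ := by rw [htinv, h]
        _ = m⁻¹ := by group
    have hst : s * t ∈ Subgroup.centralizer (N : Set G) := by
      rw [Subgroup.mem_centralizer_iff]
      intro m hm
      have h1 := hinv m hm
      have h2' := hsinv _ (N.inv_mem hm)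
      rw [inv_inv, ← h1] at h2'
      calc m * (s * t) = s * (t * m * t) * s⁻¹ * (s * t) := by rw [h2']
        _ = s * t * m * (t * t) := by group
        _ = s * t * m := by rw [htt, mul_one]
    have hm : s * t ∈ N := centralizer_le hNp hN1 hcoset hcore hst
    set m₀ := s * t with hm₀
    obtain ⟨j, hj⟩ := hodd
    set r := m₀ ^ (j + 1) with hr
    have hr2 : r * r = m₀ := by
      have h1 : m₀ ^ Nat.card ↥N = 1 := by
        have h := congrArg Subtype.val (pow_card_eq_one' (x := (⟨m₀, hm⟩ : ↥N)))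
        exact h
      rw [hr, ← pow_add, show j + 1 + (j + 1) = Nat.card ↥N + 1 by omega, pow_succ, h1, one_mul]
    have hrN : r ∈ N := N.pow_mem hm _
    have hrs : r * t * r⁻¹ = g * t * g⁻¹ := by
      have h1 := hinv _ (N.inv_mem hrN)
      rw [inv_inv] at h1
      calc r * t * r⁻¹ = r * (t * r⁻¹ * t) * t⁻¹ := by group
        _ = r * r * t := by rw [h1, htinv]
        _ = s * (t * t) := by rw [hr2, hm₀]; group
        _ = g * t * g⁻¹ := by rw [htt, mul_one]
    refine ⟨r, hrN, r⁻¹ * g, ?_, by group⟩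
    rw [Subgroup.mem_centralizer_singleton_iff]
    calc r⁻¹ * g * t = r⁻¹ * (g * t * g⁻¹) * g := by group
      _ = r⁻¹ * (r * t * r⁻¹) * g := by rw [hrs]
      _ = t * (r⁻¹ * g) := by group

/-- `p = 2`: the quotient by `N` has odd order. -/
theorem not_two_dvd_index [N.Normal] (hp2 : p = 2) (hNp : IsPGroup p N) (hN1 : N ≠ ⊥)
    (hcoset : ∀ x : G, x ∉ N → ∀ m ∈ N, IsConj x (x * m)) (hcore : N = Cfsg.pCore p G)
    (hab : ∀ a ∈ N, ∀ b ∈ N, a * b = b * a) (hsq : ∀ a ∈ N, a * a = 1) :
    ¬ 2 ∣ N.index := by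
  classical
  subst hp2
  intro h2
  haveI : Fact (Nat.Prime 2) := ⟨Nat.prime_two⟩
  rw [Subgroup.index_eq_card] at h2
  obtain ⟨t, ht⟩ := exists_prime_orderOf_dvd_card' 2 h2
  have hCN := centralizer_le hNp hN1 hcoset hcore
  have hnsq : ∀ x : G, x ∉ N → x * x ≠ 1 := by
    intro x hx hxx
    refine hx (hCN (Subgroup.mem_centralizer_iff.mpr fun m hm => ?_))
    obtain ⟨c, hc⟩ := isConj_iff.mp (hcoset x hx m hm)
    have h1 : (x * m) * (x * m) = 1 := by
      rw [← hc, show c * x * c⁻¹ * (c * x * c⁻¹) = c * (x * x) * c⁻¹ by group, hxx]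
      group
    calc m * x = x * x * (m * x) * (m * m) := by rw [hsq m hm, hxx, mul_one, one_mul]
      _ = x * (x * m * (x * m)) * m := by group
      _ = x * m := by rw [h1, mul_one]
  -- the fixed points in `N` of a lift of an involution
  let K : G → Subgroup ↥N := fun x => (Subgroup.centralizer {x}).subgroupOf N
  have hK : ∀ x : G, x ∉ N → x * x ∈ N → Nat.card ↥N < Nat.card ↥(K x) * Nat.card ↥(K x) := by
    intro x hx hxx
    let δ : ↥N →* ↥N :=
      { toFun := fun m => ⟨x⁻¹ * m * x * m, N.mul_mem (conj_mem_symm m.2 x) m.2⟩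
        map_one' := Subtype.ext (by simp)
        map_mul' := fun a b => Subtype.ext (by
          show x⁻¹ * ((a : G) * b) * x * ((a : G) * b) =
            x⁻¹ * (a : G) * x * a * (x⁻¹ * (b : G) * x * b)
          calc x⁻¹ * ((a : G) * b) * x * ((a : G) * b)
              = x⁻¹ * a * x * ((x⁻¹ * b * x) * a) * b := by group
            _ = x⁻¹ * a * x * (a * (x⁻¹ * b * x)) * b := by
              rw [hab _ (conj_mem_symm b.2 x) _ a.2]
            _ = x⁻¹ * (a : G) * x * a * (x⁻¹ * (b : G) * x * b) := by group) }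
    have hker : δ.ker = K x := by
      ext m
      rw [MonoidHom.mem_ker, Subgroup.mem_subgroupOf, Subgroup.mem_centralizer_singleton_iff,
        Subtype.ext_iff]
      show x⁻¹ * (m : G) * x * m = 1 ↔ (m : G) * x = x * m
      constructor
      · intro h
        calc (m : G) * x = x * (x⁻¹ * m * x * m) * (m : G)⁻¹ := by group
          _ = x * (m : G)⁻¹ := by rw [h, mul_one]
          _ = x * m := by rw [inv_eq_of_mul_eq_one_right (hsq _ m.2)]
      · intro h
        calc x⁻¹ * (m : G) * x * m = x⁻¹ * (x * m) * m := by rw [mul_assoc x⁻¹, h]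
          _ = (m : G) * m := by group
          _ = 1 := hsq _ m.2
    have hle : δ.range ≤ δ.ker := by
      rintro _ ⟨m, rfl⟩
      rw [MonoidHom.mem_ker]
      refine Subtype.ext ?_
      show x⁻¹ * (x⁻¹ * (m : G) * x * m) * x * (x⁻¹ * m * x * m) = 1
      have hxm : (x * x)⁻¹ * (m : G) * (x * x) = m := by
        rw [mul_assoc, ← hab _ hxx _ m.2]; group
      have hb := conj_mem_symm m.2 x
      calc x⁻¹ * (x⁻¹ * (m : G) * x * m) * x * (x⁻¹ * m * x * m)
          = ((x * x)⁻¹ * m * (x * x)) * ((x⁻¹ * m * x) * (x⁻¹ * m * x)) * m := by group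
        _ = 1 := by rw [hxm, hsq _ hb, mul_one, hsq _ m.2]
    have hne : δ.range ≠ δ.ker := by
      intro heq
      have hmem : (⟨x * x, hxx⟩ : ↥N) ∈ δ.ker := by
        rw [hker, Subgroup.mem_subgroupOf, Subgroup.mem_centralizer_singleton_iff]
        simp [mul_assoc]
      rw [← heq] at hmem
      obtain ⟨m, hm⟩ := hmem
      have hm' : x⁻¹ * (m : G) * x * m = x * x := congrArg Subtype.val hm
      have hxm : x * m ∉ N := fun h => hx (by simpa using N.mul_mem h (N.inv_mem m.2))
      apply hnsq _ hxm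
      calc x * (m : G) * (x * m) = (x * x) * (x⁻¹ * m * x * m) := by group
        _ = x * x * (x * x) := by rw [hm']
        _ = 1 := hsq _ hxx
    have hlt : Nat.card ↥δ.range < Nat.card ↥δ.ker := by
      refine lt_of_le_of_ne (Subgroup.card_le_of_le hle) fun hc => hne ?_
      exact Subgroup.eq_of_le_of_card_ge hle hc.ge
    rw [← hker, Subgroup.card_eq_card_quotient_mul_card_subgroup δ.ker,
      Nat.card_congr (QuotientGroup.quotientKerEquivRange δ).toEquiv]
    exact Nat.mul_lt_mul_of_pos_right hlt Nat.card_pos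
  -- two involutions of the quotient generate a 2-group
  let D : Set (Subgroup (G ⧸ N)) := {X | ∃ z : G ⧸ N, orderOf z = 2 ∧ X = Subgroup.zpowers z}
  have hD : ∀ X ∈ D, ∀ g : G ⧸ N, X.map (MulAut.conj g).toMonoidHom ∈ D := by
    rintro _ ⟨z, hz, rfl⟩ g
    exact ⟨MulAut.conj g z, by rw [MulEquiv.orderOf_eq, hz],
      by rw [MonoidHom.map_zpowers]; rfl⟩
  have hpair : ∀ X ∈ D, ∀ Y ∈ D, IsPGroup 2 ↥(X ⊔ Y) := by
    rintro _ ⟨a, ha, rfl⟩ _ ⟨b, hb, rfl⟩
    have haa : a * a = 1 := by rw [← sq, ← ha, pow_orderOf_eq_one]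
    have hbb : b * b = 1 := by rw [← sq, ← hb, pow_orderOf_eq_one]
    obtain ⟨x, rfl⟩ := QuotientGroup.mk_surjective a
    obtain ⟨y, rfl⟩ := QuotientGroup.mk_surjective b
    have hpow : ∃ i, orderOf ((x : G ⧸ N) * y) = 2 ^ i := by
      by_contra hno
      push Not at hno
      have hxN : x ∉ N := fun h => by
        rw [(QuotientGroup.eq_one_iff x).mpr h, orderOf_one] at ha
        omega
      have hyN : y ∉ N := fun h => by
        rw [(QuotientGroup.eq_one_iff y).mpr h, orderOf_one] at hb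
        omega
      have hord : ∀ i, orderOf (x * y) ≠ 2 ^ i := by
        intro i hi
        have hdvd := orderOf_map_dvd (QuotientGroup.mk' N) (x * y)
        rw [hi, QuotientGroup.mk'_apply, QuotientGroup.mk_mul] at hdvd
        obtain ⟨j, -, hj⟩ := (Nat.dvd_prime_pow Nat.prime_two).mp hdvd
        exact hno j hj
      have hdisj : K x ⊓ K y = ⊥ := by
        rw [Subgroup.eq_bot_iff_forall]
        rintro ⟨m, hm⟩ ⟨hmx, hmy⟩
        replace hmx : (m : G) * x = x * m :=
          Subgroup.mem_centralizer_singleton_iff.mp (Subgroup.mem_subgroupOf.mp hmx)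
        replace hmy : (m : G) * y = y * m :=
          Subgroup.mem_centralizer_singleton_iff.mp (Subgroup.mem_subgroupOf.mp hmy)
        refine Subtype.ext (fpf hNp hcoset hord hm ?_)
        have e1 : Commute m x := hmx
        have e2 : Commute m y := hmy
        exact (e1.mul_right e2).symm
      have hle : Nat.card ↥(K x) * Nat.card ↥(K y) ≤ Nat.card ↥N := by
        rw [← Nat.card_prod]
        refine Nat.card_le_card_of_injective
          (fun q : ↥(K x) × ↥(K y) => (q.1 : ↥N) * q.2) ?_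
        rintro ⟨a, b⟩ ⟨a', b'⟩ h
        have h' : (a : ↥N) * b = a' * b' := h
        have h2 : (a' : ↥N)⁻¹ * a = b' * (b : ↥N)⁻¹ := by
          rw [eq_mul_inv_iff_mul_eq, mul_assoc, h', inv_mul_cancel_left]
        have h3 : (a' : ↥N)⁻¹ * a ∈ K x ⊓ K y :=
          ⟨(K x).mul_mem ((K x).inv_mem a'.2) a.2,
            h2 ▸ (K y).mul_mem b'.2 ((K y).inv_mem b.2)⟩
        rw [hdisj, Subgroup.mem_bot] at h3
        rw [h3] at h2
        exact Prod.ext (Subtype.ext (inv_mul_eq_one.mp h3).symm)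
          (Subtype.ext (mul_inv_eq_one.mp h2.symm).symm)
      have h1 := hK x hxN ((QuotientGroup.eq_one_iff _).mp (by rw [QuotientGroup.mk_mul]; exact haa))
      have h2 := hK y hyN ((QuotientGroup.eq_one_iff _).mp (by rw [QuotientGroup.mk_mul]; exact hbb))
      have h3 := Nat.mul_lt_mul_of_lt_of_lt h1 h2
      nlinarith [Nat.mul_le_mul hle hle]
    obtain ⟨i, hi⟩ := hpow
    set u : G ⧸ N := (x : G ⧸ N) * y with hu
    have hnorm : Subgroup.zpowers (x : G ⧸ N) ≤
        Subgroup.normalizer (Subgroup.zpowers u : Set (G ⧸ N)) := by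
      rw [Subgroup.zpowers_le]
      have hxu : MulAut.conj (x : G ⧸ N) u = u⁻¹ := by
        rw [MulAut.conj_apply, hu, mul_inv_rev, inv_eq_of_mul_eq_one_right haa,
          inv_eq_of_mul_eq_one_right hbb, ← mul_assoc (x : G ⧸ N) x y, haa, one_mul]
      have hmap : (Subgroup.zpowers u).map (MulAut.conj (x : G ⧸ N)).toMonoidHom =
          Subgroup.zpowers u := by
        rw [MonoidHom.map_zpowers, MulEquiv.coe_toMonoidHom, hxu, Subgroup.zpowers_inv]
      rw [Subgroup.mem_normalizer_iff]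
      intro z
      constructor
      · intro hz
        exact hmap ▸ Subgroup.mem_map_of_mem (MulAut.conj (x : G ⧸ N)).toMonoidHom hz
      · intro hz
        replace hz := hmap.symm ▸ hz
        obtain ⟨w, hw, hwe⟩ := hz
        exact (mul_left_cancel (mul_right_cancel hwe) : w = z) ▸ hw
    have hpa : IsPGroup 2 ↥(Subgroup.zpowers (x : G ⧸ N)) :=
      IsPGroup.of_card (n := 1) (by rw [Nat.card_zpowers, ha, pow_one])
    have hpu : IsPGroup 2 ↥(Subgroup.zpowers u) :=
      IsPGroup.of_card (n := i) (by rw [Nat.card_zpowers, hi])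
    refine (IsPGroup.to_sup_of_normal_right' hpa hpu hnorm).to_le (sup_le le_sup_left ?_)
    rw [Subgroup.zpowers_le]
    have : (y : G ⧸ N) = (x : G ⧸ N) * u := by rw [hu, ← mul_assoc, haa, one_mul]
    rw [this]
    exact Subgroup.mul_mem_sup (Subgroup.mem_zpowers _) (Subgroup.mem_zpowers _)
  have hBS := Components.baer_suzuki_sylow D hD hpair
  obtain ⟨P⟩ : Nonempty (Sylow 2 (G ⧸ N)) := inferInstance
  have hnormal : (sSup D).Normal := by
    refine ⟨fun a ha g => ?_⟩
    have hle : sSup D ≤ (sSup D).comap (MulAut.conj g).toMonoidHom :=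
      sSup_le fun X hX => Subgroup.map_le_iff_le_comap.mp (le_sSup (hD X hX g))
    exact hle ha
  have hp' : IsPGroup 2 ↥(sSup D) := P.2.to_le (sSup_le fun X hX => hBS X hX P)
  have hpre : IsPGroup 2 ↥((sSup D).comap (QuotientGroup.mk' N)) :=
    hp'.comap_of_ker_isPGroup _ (by rw [QuotientGroup.ker_mk']; exact hNp)
  have hle := Core.le_pCore (p := 2) (hnormal.comap (QuotientGroup.mk' N)) hpre
  obtain ⟨x, rfl⟩ := QuotientGroup.mk_surjective t
  have hxN : x ∈ N := by
    rw [hcore]
    exact hle ((le_sSup (show Subgroup.zpowers (x : G ⧸ N) ∈ D from ⟨_, ht, rfl⟩))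
      (Subgroup.mem_zpowers _))
  rw [(QuotientGroup.eq_one_iff x).mpr hxN, orderOf_one] at ht
  omega

end

/-- Let G be a finite group of order greater than 2 with an irreducible character χ nonzero on exactly two conjugacy classes, and let N be the normal p-subgroup of elements where χ is nonzero. Then N is the whole p-core O_p(G) if and only if G is a doubly transitive Frobenius group with kernel N: G has a Frobenius complement H whose Frobenius kernel is N and whose order is one less than that of N. -/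
theorem result {G : Type*} [Group G] [Finite G] (hG : 2 < Nat.card G) (χ : Cfsg.IrrCharacter G) (hχ : Nat.card {C : ConjClasses G // ∃ g ∈ C.carrier, (χ : G → ℂ) g ≠ 0} = 2) (p : ℕ) [Fact p.Prime] (N : Subgroup G) [N.Normal] (hN : ∀ g : G, g ∈ N ↔ (χ : G → ℂ) g ≠ 0) (hNp : IsPGroup p N) (hN1 : N ≠ ⊥) :
    N = Cfsg.pCore p G ↔ ∃ H : Subgroup G, Cfsg.IsFrobeniusComplement H ∧ Cfsg.frobeniusKernel H = (N : Set G) ∧ Nat.card H + 1 = Nat.card N := by
  classical
  obtain ⟨hclass, hcoset⟩ := two_class hG χ.2 hχ p N hN hNp hN1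
  have hp : p.Prime := Fact.out
  haveI := Fintype.ofFinite G
  obtain ⟨n₀, hn₀, hn₀1⟩ : ∃ x ∈ N, x ≠ 1 := by
    by_contra h
    push Not at h
    exact hN1 (N.eq_bot_iff_forall.mpr h)
  constructor
  · intro hcore
    haveI : Nontrivial ↥N := ⟨⟨n₀, hn₀⟩, 1, fun h => hn₀1 (congrArg Subtype.val h)⟩
    haveI := hNp.center_nontrivial
    obtain ⟨⟨⟨z, hz⟩, hzc⟩, hz1⟩ := exists_ne (1 : ↥(Subgroup.center ↥N))
    have hz1' : z ≠ 1 := fun h => hz1 (Subtype.ext (Subtype.ext h))
    have hzcomm : ∀ a ∈ N, a * z = z * a := fun a ha =>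
      congrArg Subtype.val (Subgroup.mem_center_iff.mp hzc ⟨a, ha⟩)
    have hab : ∀ a ∈ N, ∀ b ∈ N, a * b = b * a := by
      intro a ha b hb
      by_cases hb1 : b = 1
      · simp [hb1]
      obtain ⟨c, rfl⟩ := isConj_iff.mp (hclass z hz hz1' b hb hb1)
      have h := hzcomm _ (conj_mem_symm ha c)
      calc a * (c * z * c⁻¹) = c * ((c⁻¹ * a * c) * z) * c⁻¹ := by group
        _ = c * (z * (c⁻¹ * a * c)) * c⁻¹ := by rw [h]
        _ = c * z * c⁻¹ * a := by group
    obtain ⟨H, hHN, hfac⟩ :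
        ∃ H : Subgroup G, H ⊓ N = ⊥ ∧ ∀ g : G, ∃ m ∈ N, ∃ h ∈ H, g = m * h := by
      by_cases hp2 : p = 2
      · obtain ⟨k, hk⟩ := hNp.exists_card_eq
        have hpdvd : p ∣ Nat.card ↥N := by
          rw [hk]
          refine dvd_pow_self p fun h0 => ?_
          rw [h0, pow_zero] at hk
          exact absurd hk (Finite.one_lt_card.ne')
        obtain ⟨w, hw⟩ := exists_prime_orderOf_dvd_card' p hpdvd
        have hw' : orderOf (w : G) = p := by rw [Subgroup.orderOf_coe, hw]
        have hw1 : (w : G) ≠ 1 := fun h => hp.one_lt.ne' (by rw [← hw', h, orderOf_one])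
        have hsq : ∀ a ∈ N, a * a = 1 := by
          intro a ha
          by_cases ha1 : a = 1
          · simp [ha1]
          have h := orderOf_eq_of_isConj (hclass w w.2 hw1 a ha ha1)
          rw [hw', hp2] at h
          rw [← sq, ← h, pow_orderOf_eq_one]
        have hnd := not_two_dvd_index hp2 hNp hN1 hcoset hcore hab hsq
        have hcop : (Nat.card ↥N).Coprime N.index := by
          rw [hk, hp2]
          exact Nat.Coprime.pow_left _ (Nat.prime_two.coprime_iff_not_dvd.mpr hnd)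
        obtain ⟨H, hH⟩ := Subgroup.exists_right_complement'_of_coprime hcop
        refine ⟨H, by rw [inf_comm]; exact disjoint_iff.mp hH.disjoint, fun g => ?_⟩
        obtain ⟨⟨a, b⟩, hab'⟩ := hH.2 g
        exact ⟨a, a.2, b, b.2, hab'.symm⟩
      · exact complement_odd hp2 hNp hN1 hclass hcoset hcore hab
    have hbot : ∀ h ∈ H, h ∈ N → h = 1 := fun h h1 h2 =>
      Subgroup.eq_bot_iff_forall _ |>.mp hHN h ⟨h1, h2⟩
    -- the coset property turns `m ↦ h⁻¹ m h m⁻¹` into a surjection
    have hsurj : ∀ h ∈ H, h ≠ 1 → ∀ n ∈ N, ∃ m ∈ N, m * h * m⁻¹ = h * n := by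
      intro h hh hh1 n hn
      obtain ⟨c, hc⟩ := isConj_iff.mp (hcoset h (fun h' => hh1 (hbot h hh h')) n hn)
      obtain ⟨m, hm, k, hk, rfl⟩ := hfac c
      refine ⟨m, hm, ?_⟩
      have e1 : k * h * k⁻¹ = h * (h⁻¹ * (m⁻¹ * h * (n * m * 1))) := by
        rw [mul_one, ← mul_assoc h, mul_inv_cancel, one_mul]
        calc k * h * k⁻¹ = m⁻¹ * (m * k * h * (m * k)⁻¹) * m := by group
          _ = m⁻¹ * (h * n) * m := by rw [hc]
          _ = m⁻¹ * h * (n * m) := by group
      have e2 : h⁻¹ * (m⁻¹ * h * (n * m * 1)) ∈ N := by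
        rw [mul_one, ← mul_assoc, ← mul_assoc h⁻¹ m⁻¹ h]
        exact N.mul_mem (conj_mem_symm (N.inv_mem hm) h) (N.mul_mem hn hm)
      have e3 : h⁻¹ * (k * h * k⁻¹) = 1 :=
        hbot _ (H.mul_mem (H.inv_mem hh) (H.mul_mem (H.mul_mem hk hh) (H.inv_mem hk)))
          (by rw [e1, inv_mul_cancel_left]; exact e2)
      calc m * h * m⁻¹ = m * (h * (h⁻¹ * (k * h * k⁻¹))) * m⁻¹ := by rw [e3, mul_one]
        _ = m * k * h * (m * k)⁻¹ := by group
        _ = h * n := hc
    have hfix : ∀ h ∈ H, h ≠ 1 → ∀ m ∈ N, m * h = h * m → m = 1 := by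
      intro h hh hh1
      let f : ↥N → ↥N := fun m => ⟨h⁻¹ * m * h * (m : G)⁻¹,
        N.mul_mem (conj_mem_symm m.2 h) (N.inv_mem m.2)⟩
      have hs : Function.Surjective f := by
        rintro ⟨n, hn⟩
        obtain ⟨m, hm, e⟩ := hsurj h hh hh1 n hn
        refine ⟨⟨m, hm⟩, Subtype.ext ?_⟩
        show h⁻¹ * m * h * m⁻¹ = n
        rw [mul_assoc h⁻¹ m h, mul_assoc, e, inv_mul_cancel_left]
      have hi := (Finite.injective_iff_surjective).mpr hs
      intro m hm hcm
      have : f ⟨m, hm⟩ = f 1 := Subtype.ext (by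
        show h⁻¹ * m * h * m⁻¹ = h⁻¹ * (1 : G) * h * (1 : G)⁻¹
        rw [mul_assoc h⁻¹ m h, hcm]
        group)
      exact congrArg Subtype.val (hi this)
    have hHne : H ≠ ⊥ := by
      intro hH
      have hall : ∀ g : G, g ∈ N := fun g => by
        obtain ⟨m, hm, h, hh, rfl⟩ := hfac g
        rw [hH, Subgroup.mem_bot] at hh
        simpa [hh] using hm
      have htwo : ∀ g : G, g = 1 ∨ g = z := fun g => by
        by_cases hg : g = 1
        · exact Or.inl hg
        right
        obtain ⟨c, hc⟩ := isConj_iff.mp (hclass z hz hz1' g (hall g) hg)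
        rw [← hc, hzcomm c (hall c)]
        group
      have : Nat.card G ≤ Nat.card (Fin 2) :=
        Nat.card_le_card_of_surjective (![1, z] : Fin 2 → G) (fun g => by
          rcases htwo g with h | h
          · exact ⟨0, h.symm⟩
          · exact ⟨1, h.symm⟩)
      rw [Nat.card_fin] at this
      omega
    have hout : ∀ g : G, ∀ x ∈ N, x ∈ MulAut.conj g • H → x = 1 := by
      intro g x hx hxg
      rw [Subgroup.mem_pointwise_smul_iff_inv_smul_mem] at hxg
      simp only [MulAut.smul_def, MulAut.inv_def, MulAut.conj_symm_apply] at hxg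
      have := hbot _ hxg (conj_mem_symm hx g)
      calc x = g * (g⁻¹ * x * g) * g⁻¹ := by group
        _ = 1 := by rw [this]; group
    refine ⟨H, ⟨hHne, ?_, ?_⟩, ?_, ?_⟩
    · intro hH
      exact hn₀1 (hbot n₀ (hH ▸ Subgroup.mem_top _) hn₀)
    · intro g hg
      obtain ⟨m, hm, k, hk, rfl⟩ := hfac g
      rw [Subgroup.eq_bot_iff_forall]
      rintro x ⟨hx, hxg⟩
      replace hxg : x ∈ MulAut.conj (m * k) • H := hxg
      replace hx : x ∈ H := hx
      rw [Subgroup.mem_pointwise_smul_iff_inv_smul_mem] at hxg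
      simp only [MulAut.smul_def, MulAut.inv_def, MulAut.conj_symm_apply] at hxg
      by_contra hx1
      have hk' : m⁻¹ * x * m ∈ H := by
        have := H.mul_mem (H.mul_mem hk hxg) (H.inv_mem hk)
        convert this using 1
        group
      have hmem : x⁻¹ * (m⁻¹ * x * m) ∈ N := by
        rw [← mul_assoc, ← mul_assoc x⁻¹ m⁻¹ x]
        exact N.mul_mem (conj_mem_symm (N.inv_mem hm) x) hm
      have he := hbot _ (H.mul_mem (H.inv_mem hx) hk') hmem
      rw [inv_mul_eq_one] at he
      have hcm : m * x = x * m := by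
        calc m * x = m * (m⁻¹ * x * m) := by rw [← he]
          _ = x * m := by group
      exact hg (by simpa [hfix x hx hx1 m hm hcm] using hk)
    · ext x
      constructor
      · rintro (rfl | hx)
        · exact N.one_mem
        by_contra hxN
        obtain ⟨m, hm, h, hh, rfl⟩ := hfac x
        have hhN : h ∉ N := fun h' => hxN (N.mul_mem hm h')
        obtain ⟨c, hc⟩ := isConj_iff.mp (hcoset h hhN _ (conj_mem_symm hm h))
        refine hx c ?_
        rw [Subgroup.mem_pointwise_smul_iff_inv_smul_mem]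
        simp only [MulAut.smul_def, MulAut.inv_def, MulAut.conj_symm_apply]
        have : c⁻¹ * (m * h) * c = h := by
          rw [show m * h = h * (h⁻¹ * m * h) by group, ← hc]
          group
        rwa [this]
      · intro hx
        by_cases hx1 : x = 1
        · exact Or.inl hx1
        · exact Or.inr fun g hg => hx1 (hout g x hx hg)
    · let f : Option ↥H → ↥N := fun o => o.elim 1
        fun h => ⟨(h : G) * n₀ * (h : G)⁻¹, ‹N.Normal›.conj_mem n₀ hn₀ h⟩
      have hf : Function.Bijective f := by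
        constructor
        · rintro (_ | a) (_ | b) hab'
          · rfl
          · exact absurd (congrArg Subtype.val hab').symm (by simpa [f] using hn₀1)
          · exact absurd (congrArg Subtype.val hab') (by simpa [f] using hn₀1)
          · have e : (a : G) * n₀ * (a : G)⁻¹ = (b : G) * n₀ * (b : G)⁻¹ :=
              congrArg Subtype.val hab'
            by_contra hne
            have hne' : (b : G)⁻¹ * a ≠ 1 := fun h =>
              hne (by rw [Subtype.ext (inv_mul_eq_one.mp h).symm])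
            refine hn₀1 (hfix _ (H.mul_mem (H.inv_mem b.2) a.2) hne' n₀ hn₀ ?_)
            calc n₀ * ((b : G)⁻¹ * a)
                = (b : G)⁻¹ * ((b : G) * n₀ * (b : G)⁻¹) * a := by group
              _ = (b : G)⁻¹ * ((a : G) * n₀ * (a : G)⁻¹) * a := by rw [e]
              _ = (b : G)⁻¹ * a * n₀ := by group
        · rintro ⟨x, hx⟩
          by_cases hx1 : x = 1
          · exact ⟨none, Subtype.ext hx1.symm⟩
          obtain ⟨c, hc⟩ := isConj_iff.mp (hclass n₀ hn₀ hn₀1 x hx hx1)
          obtain ⟨m, hm, h, hh, rfl⟩ := hfac c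
          refine ⟨some ⟨h, hh⟩, Subtype.ext ?_⟩
          show h * n₀ * h⁻¹ = x
          have hy : h * n₀ * h⁻¹ ∈ N := ‹N.Normal›.conj_mem n₀ hn₀ h
          calc h * n₀ * h⁻¹ = h * n₀ * h⁻¹ * (m * m⁻¹) := by group
            _ = (h * n₀ * h⁻¹ * m) * m⁻¹ := by group
            _ = (m * (h * n₀ * h⁻¹)) * m⁻¹ := by rw [hab _ hy m hm]
            _ = x := by rw [← hc]; group
      rw [← Nat.card_congr (Equiv.ofBijective f hf), Finite.card_option]
  · rintro ⟨H, -, hker, hcard⟩
    refine le_antisymm (Core.le_pCore ‹N.Normal› hNp) fun x hx => ?_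
    by_contra hxN
    have hnk : x ∉ Cfsg.frobeniusKernel H := by rw [hker]; exact hxN
    simp only [Cfsg.frobeniusKernel, Set.mem_setOf_eq, not_or, not_forall, not_not] at hnk
    obtain ⟨hx1, g, hg⟩ := hnk
    rw [Subgroup.mem_pointwise_smul_iff_inv_smul_mem] at hg
    simp only [MulAut.smul_def, MulAut.inv_def, MulAut.conj_symm_apply] at hg
    obtain ⟨i, hi⟩ := IsPGroup.iff_orderOf.mp (Core.isPGroup_pCore p G) ⟨x, hx⟩
    rw [Subgroup.orderOf_mk] at hi
    have ho : orderOf (g⁻¹ * x * g) = p ^ i := by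
      rw [← hi]
      simpa using MulEquiv.orderOf_eq (MulAut.conj g⁻¹) x
    have hdvd : p ^ i ∣ Nat.card ↥H := ho ▸ Subgroup.orderOf_dvd_natCard H hg
    obtain ⟨k, hk⟩ := hNp.exists_card_eq
    rcases Nat.eq_zero_or_pos i with rfl | hipos
    · exact hx1 (orderOf_eq_one_iff.mp (by simpa using hi))
    rcases Nat.eq_zero_or_pos k with rfl | hkpos
    · exact hN1 (Subgroup.card_eq_one.mp (by simpa using hk))
    have h1 : p ∣ Nat.card ↥H := (dvd_pow_self p hipos.ne').trans hdvd
    have h2 : p ∣ Nat.card ↥H + 1 := by rw [hcard, hk]; exact dvd_pow_self p hkpos.ne'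
    exact hp.one_lt.ne' (Nat.dvd_one.mp ((Nat.dvd_add_right h1).mp h2))

end Cfsg.Agent.S4839
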