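import Cfsg.Statements.S4843
import Cfsg.Agent.Chars.GaloisValues
import Cfsg.Agent.Chars.Eigen
import Cfsg.Agent.Core.Fitting
import Cfsg.Agent.Chars.Orth

set_option autoImplicit false
open Cfsg Cfsg.Agent

namespace Cfsg.Agent.S4843

/-- Let G be a finite group with a faithful irreducible character χ (taking the value χ(1) only at the identity) and let k be prime to the order of G, so that g ↦ χ(g^k) is a Galois conjugate of χ. If the pointwise product g ↦ χ(g)·χ(g^k) is again an irreducible character, then the Fitting subgroup of G equals its centre. -/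
theorem result {G : Type*} [Group G] [Finite G] (χ : Cfsg.IrrCharacter G) (hfaith : ∀ g : G, (χ : G → ℂ) g = (χ : G → ℂ) 1 → g = 1) (k : ℕ) (hk : Nat.Coprime k (Nat.card G)) (hirr : Cfsg.IsIrrCharacter G (fun g => (χ : G → ℂ) g * (χ : G → ℂ) (g ^ k))) : Cfsg.fittingSubgroup G = Subgroup.center G := by
  classical
  haveI := Fintype.ofFinite G
  obtain ⟨χf, hχ⟩ := χ
  dsimp only at hfaith hirr ⊢
  have hχc := Chars.isCharacter_of_isIrr hχ
  obtain ⟨n, ρ, hρ, hρχ⟩ := hχ
  haveI := hρ
  obtain ⟨σ, hσ⟩ := Chars.exists_aut_of_coprime (G := G) hk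
  obtain ⟨m, ρ', hρ', hρχ'⟩ := OddChar.isIrrCharacter_map σ ⟨n, ρ, hρ, hρχ⟩
  have hval : ∀ g : G, ρ'.character g = χf (g ^ k) := fun g => by rw [hρχ']; exact hσ χf hχc g
  haveI hτ : (ρ.tprod ρ').IsIrreducible := by
    refine Chars.isIrreducible_of_character _ ?_
    rw [Representation.char_tensor]
    convert hirr using 1
    funext g
    rw [Pi.mul_apply, hρχ, hval]
  obtain ⟨j, hjk⟩ : ∃ j : ℕ, ∀ g : G, (g ^ j) ^ k = g := by
    refine ⟨k ^ ((Nat.card G).totient - 1), fun g => ?_⟩
    have h := (Nat.ModEq.pow_totient hk).of_dvd (orderOf_dvd_natCard g)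
    rw [← pow_mul, ← pow_succ, Nat.sub_add_cancel (Nat.totient_pos.mpr Nat.card_pos)]
    exact (pow_eq_pow_iff_modEq.mpr h).trans (pow_one g)
  have hd : (Module.finrank ℂ (Fin n → ℂ) : ℂ) ≠ 0 := by
    exact_mod_cast (Chars.finrank_pos_of_isIrreducible ρ).ne'
  have hscal : ∀ g : G, ∀ c : ℂ, ρ g = c • (1 : Module.End ℂ (Fin n → ℂ)) →
      ∀ x : G, g * x = x * g := by
    intro g c hc x
    have h : g * x * g⁻¹ * x⁻¹ = 1 := by
      refine hfaith _ ?_
      have h1 : ρ (g * x * g⁻¹ * x⁻¹) = 1 := by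
        have h2 : ρ g * ρ x = ρ x * ρ g := by
          rw [hc, smul_mul_assoc, one_mul, mul_smul_comm, mul_one]
        rw [show g * x * g⁻¹ * x⁻¹ = (g * x) * (g⁻¹ * x⁻¹) by group, map_mul, map_mul ρ g x, h2,
          ← map_mul, ← map_mul, show x * g * (g⁻¹ * x⁻¹) = 1 by group, map_one]
      rw [← hρχ, Representation.character, h1, Representation.char_one, LinearMap.trace_one]
    calc g * x = g * x * g⁻¹ * x⁻¹ * (x * g) := by group
      _ = x * g := by rw [h, one_mul]
  -- a normal subgroup on which nonvanishing forces commutation is central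
  have key : ∀ A : Subgroup G, A.Normal →
      (∀ a ∈ A, ∀ b ∈ A, χf (a * b⁻¹) ≠ 0 → a * b = b * a) → A ≤ Subgroup.center G := by
    intro A hA hcomm b hb
    set X : Module.End ℂ (TensorProduct ℂ (Fin n → ℂ) (Fin m → ℂ)) :=
      ∑ a : A, TensorProduct.map (ρ (a : G)⁻¹) (ρ' ((a : G) ^ j)) with hX
    obtain ⟨c, hc⟩ := Chars.scalar_of_commute (ρ.tprod ρ') X (fun g => by
      rw [hX, Finset.sum_mul, Finset.mul_sum]
      refine Fintype.sum_equiv (MulAut.conjNormal (H := A) g⁻¹).toEquiv _ _ fun a => ?_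
      simp only [Representation.tprod_apply, ← TensorProduct.map_mul, MulEquiv.toEquiv_eq_coe,
        EquivLike.coe_coe, MulAut.conjNormal_apply, inv_inv, ← map_mul, conj_pow]
      congr 2
      · group
      · have h : (g⁻¹ * (a : G) * g) ^ j = g⁻¹ * (a : G) ^ j * g := by
          have h := conj_pow (a := g⁻¹) (b := (a : G)) (i := j)
          rwa [inv_inv] at h
        rw [h]; group)
    have htr : ∀ x y : G, ∑ a : A, χf ((a : G)⁻¹ * x) * χf (((a : G) ^ j * y) ^ k) =
        c * (χf x * χf (y ^ k)) := by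
      intro x y
      have h := congrArg (fun T => LinearMap.trace ℂ _ (T * TensorProduct.map (ρ x) (ρ' y))) hc
      simp only [hX, Finset.sum_mul, map_sum, ← TensorProduct.map_mul, ← map_mul, smul_mul_assoc,
        one_mul, map_smul, smul_eq_mul, LinearMap.trace_tensorProduct'] at h
      convert h using 1
      · refine Finset.sum_congr rfl fun a _ => ?_
        rw [← hval, ← hρχ]; rfl
      · rw [← hval, ← hρχ]; rfl
    have h1 := htr 1 1
    simp only [mul_one, one_pow, hjk] at h1
    have h2 := htr b (b ^ j)⁻¹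
    rw [inv_pow, hjk] at h2
    set S := ∑ a : A, χf (a : G)⁻¹ * χf (a : G) with hS
    have h3 : S = c * (χf b * χf b⁻¹) := by
      rw [← h2, hS]
      refine Fintype.sum_equiv (Equiv.mulRight ⟨b, hb⟩) _ _ fun a => ?_
      simp only [Equiv.coe_mulRight, Subgroup.coe_mul, mul_inv_rev]
      by_cases h0 : χf (a : G) = 0
      · have h0' : χf (a : G)⁻¹ = 0 := by rw [Chars.char_inv_eq_conj hχc, h0, map_zero]
        rw [h0', zero_mul, mul_assoc, ← Chars.isCharacter_conj_apply hχc ((b⁻¹ * ((a : G)⁻¹ * b))) b,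
          show b * (b⁻¹ * ((a : G)⁻¹ * b)) * b⁻¹ = (a : G)⁻¹ by group, h0', zero_mul]
      · have hab := hcomm ((a : G) * b) (A.mul_mem a.2 hb) b hb (by rwa [mul_inv_cancel_right])
        have hab' : Commute (a : G) b := by
          show (a : G) * b = b * a
          exact mul_right_cancel (hab.trans (mul_assoc b (a : G) b).symm)
        congr 2
        · rw [mul_assoc, hab'.inv_left.eq, inv_mul_cancel_left]
        · rw [hab'.mul_pow, mul_assoc, mul_inv_cancel, mul_one, hjk]
    have hnorm : ∀ g : G, χf g * χf g⁻¹ = (((‖χf g‖ ^ 2 : ℝ)) : ℂ) := fun g => by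
      rw [Chars.char_inv_eq_conj hχc, Complex.mul_conj, Complex.normSq_eq_norm_sq]
    have hS0 : S ≠ 0 := by
      have hSr : S = ((∑ a : A, ‖χf (a : G)‖ ^ 2 : ℝ) : ℂ) := by
        rw [hS, Complex.ofReal_sum]
        exact Finset.sum_congr rfl fun a _ => (mul_comm _ _).trans (hnorm (a : G))
      rw [hSr, Complex.ofReal_ne_zero]
      refine (Finset.sum_pos' (fun a _ => sq_nonneg _) ⟨1, Finset.mem_univ _, ?_⟩).ne'
      refine pow_pos (norm_pos_iff.mpr ?_) 2
      rw [Subgroup.coe_one, ← hρχ, Representation.char_one]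
      exact hd
    have hc0 : c ≠ 0 := fun h => hS0 (by rw [h3, h, zero_mul])
    have hb1 : χf b * χf b⁻¹ = χf 1 * χf 1⁻¹ := by
      rw [inv_one]
      exact mul_left_cancel₀ hc0 (h3.symm.trans h1)
    rw [hnorm, hnorm, Complex.ofReal_inj, sq_eq_sq₀ (norm_nonneg _) (norm_nonneg _), ← hρχ,
      Representation.char_one, Complex.norm_natCast, Chars.rep_norm_char_eq_iff] at hb1
    obtain ⟨e, he⟩ := hb1
    exact Subgroup.mem_center_iff.mpr fun x => (hscal b e he x).symm
  refine le_antisymm ?_ (Core.le_fittingSubgroup inferInstance (by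
    open scoped IsMulCommutative in exact CommGroup.isNilpotent))
  set Z := Subgroup.center G with hZ
  set F := Cfsg.fittingSubgroup G
  by_contra hFZ
  set Fb := F.map (QuotientGroup.mk' Z)
  haveI : Fb.Normal := Subgroup.Normal.map inferInstance _ (QuotientGroup.mk'_surjective Z)
  set A := F ⊓ (Subgroup.centralizer (Fb : Set (G ⧸ Z))).comap (QuotientGroup.mk' Z) with hA
  haveI hAn : A.Normal := by rw [hA]; infer_instance
  have hAc : ∀ a ∈ A, ∀ b ∈ A, a * b * a⁻¹ * b⁻¹ ∈ Z := by
    intro a ha b hb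
    rw [← QuotientGroup.eq_one_iff]
    have h := Subgroup.mem_centralizer_iff.mp ha.2 _ (Subgroup.mem_map_of_mem _ hb.1)
    simp only [QuotientGroup.mk'_apply] at h
    simp only [QuotientGroup.mk_mul, QuotientGroup.mk_inv]
    rw [← h]; group
  have hAle : A ≤ Z := key A hAn fun a ha b hb hne => by
    have hx : a * b⁻¹ ∈ A := A.mul_mem ha (A.inv_mem hb)
    set z := b * (a * b⁻¹) * b⁻¹ * (a * b⁻¹)⁻¹ with hz
    have hzc : z ∈ Z := hAc b hb _ hx
    have hz1 : z = 1 := by
      obtain ⟨e, he⟩ := Chars.scalar_of_commute ρ (ρ z) fun g => by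
        rw [← map_mul, ← map_mul, Subgroup.mem_center_iff.mp hzc g]
      have h1 : χf (z * (a * b⁻¹)) = χf (a * b⁻¹) := by
        rw [hz, inv_mul_cancel_right, Chars.isCharacter_conj_apply hχc]
      rw [← hρχ, Representation.character, map_mul, he, smul_mul_assoc, one_mul, map_smul,
        smul_eq_mul] at h1
      rw [← hρχ] at hne
      have he1 : e = 1 := mul_right_cancel₀ hne (h1.trans (one_mul _).symm)
      rw [he1, one_smul] at he
      refine hfaith z ?_
      rw [← hρχ, Representation.char_one, Representation.character, he, LinearMap.trace_one]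
    have h2 : b * (a * b⁻¹) = (a * b⁻¹) * b := by
      calc b * (a * b⁻¹) = z * ((a * b⁻¹) * b) := by rw [hz]; group
        _ = _ := by rw [hz1, one_mul]
    calc a * b = (a * b⁻¹ * b) * b := by group
      _ = b * (a * b⁻¹) * b := by rw [h2]
      _ = b * a := by group
  haveI : Nontrivial Fb := by
    rw [Subgroup.nontrivial_iff_ne_bot, Ne, Subgroup.map_eq_bot_iff, QuotientGroup.ker_mk']
    exact hFZ
  haveI : Group.IsNilpotent Fb :=
    Core.isNilpotent_map (Core.isNilpotent_fittingSubgroup G) _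
  haveI : Nontrivial (Subgroup.center Fb) :=
    (Subgroup.nontrivial_iff_ne_bot _).mpr (Group.IsNilpotent.center_ne_bot Fb)
  obtain ⟨⟨⟨y, a, haF, rfl⟩, hyc⟩, hy⟩ := exists_ne (1 : Subgroup.center Fb)
  have haA : a ∈ A := by
    refine ⟨haF, Subgroup.mem_centralizer_iff.mpr fun w hw => ?_⟩
    exact congrArg Subtype.val (Subgroup.mem_center_iff.mp hyc ⟨w, hw⟩)
  exact hy (Subtype.ext (Subtype.ext ((QuotientGroup.eq_one_iff a).mpr (hAle haA))))

end Cfsg.Agent.S4843
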