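import Cfsg.Statements.S4845
import Cfsg.Agent.BlockChar.EqualDegree

set_option autoImplicit false
open Cfsg Cfsg.Agent Cfsg.Agent.BlockChar

namespace Cfsg.Agent.S4845

/-- Let p be a prime and P a finite non-commutative p-group. Then every two irreducible characters of P of the same degree greater than 1 are Galois conjugate (one is obtained from the other by composing with g ↦ g^k for some k prime to the order of P) if and only if the centre of P is cyclic and the derived subgroup of P has order p. -/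
theorem result {P : Type*} [Group P] [Finite P] (p : ℕ) [Fact p.Prime] (hP : IsPGroup p P) (hna : ¬ IsMulCommutative P) :
    (∀ χ ψ : Cfsg.IrrCharacter P, Cfsg.charDegree (χ : P → ℂ) ≠ 1 → Cfsg.charDegree (χ : P → ℂ) = Cfsg.charDegree (ψ : P → ℂ) → ∃ k : ℕ, Nat.Coprime k (Nat.card P) ∧ ∀ g : P, (ψ : P → ℂ) g = (χ : P → ℂ) (g ^ k)) ↔
      (IsCyclic (Subgroup.center P) ∧ Nat.card (commutator P) = p) := by
  classical
  haveI := Fintype.ofFinite P
  have hdeg : ∀ χ : IrrCharacter P, (charDegree (χ : P → ℂ) : ℂ) = (χ : P → ℂ) 1 :=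
    fun χ => EqualDegree.charDegree_eq' χ.2
  have hne : commutator P ≠ ⊥ := fun h => hna ⟨⟨fun a b => commutatorElement_eq_one_iff_mul_comm.mp
    (Subgroup.mem_bot.mp (h ▸ Subgroup.commutator_mem_commutator (Subgroup.mem_top a)
      (Subgroup.mem_top b)))⟩⟩
  constructor
  · intro h
    have H : EqualDegree.EqualDeg P := fun χ ψ h1 he => h χ ψ
      (fun hd => h1 (by rw [← hdeg χ, hd, Nat.cast_one]))
      (by have := he; rw [← hdeg χ, ← hdeg ψ] at this; exact_mod_cast this)
    have hp := EqualDegree.card_commutator hP H hne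
    exact ⟨EqualDegree.isCyclic_center hP hp H fun hc => hna ⟨⟨hc⟩⟩, hp⟩
  rintro ⟨hcyc, hp⟩ χ ψ hχ he
  have hχ1 : (χ : P → ℂ) 1 ≠ 1 := fun h => hχ (by exact_mod_cast (hdeg χ).trans h)
  have he' : (χ : P → ℂ) 1 = (ψ : P → ℂ) 1 := by rw [← hdeg χ, ← hdeg ψ, he]
  have hψ1 : (ψ : P → ℂ) 1 ≠ 1 := he' ▸ hχ1
  set Z := Subgroup.center P with hZdef
  have hcom := EqualDegree.commutator_le_center hP hp
  have hinj : ∀ (ξ : IrrCharacter P), (ξ : P → ℂ) 1 ≠ 1 → ∀ φ : Z →* ℂˣ,
      (∀ (z : Z) (g : P), (ξ : P → ℂ) ((z : P) * g) = (φ z : ℂ) * (ξ : P → ℂ) g) →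
      Function.Injective φ := by
    intro ξ h1 φ hφ
    refine (injective_iff_map_eq_one _).mpr fun z hz => by_contra fun hz1 => ?_
    set C := (commutator P).subgroupOf Z
    have hCc : Nat.card C = p := by
      rw [Nat.card_congr (Subgroup.subgroupOfEquivOfLe hcom).toEquiv, hp]
    obtain ⟨s, hs⟩ := IsPGroup.iff_orderOf.mp (hP.to_subgroup Z) z
    have hs0 : s ≠ 0 := fun h => hz1 (by rwa [h, pow_zero, orderOf_eq_one_iff] at hs)
    have hle : C ≤ Subgroup.zpowers z := by
      intro w hw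
      have hwp : w ^ p = 1 := by
        rw [← hCc]; exact congrArg Subtype.val (pow_card_eq_one' (x := (⟨w, hw⟩ : C)))
      have hle := IsCyclic.card_pow_eq_one_le (α := Z) (orderOf_pos z)
      have hsub : Finset.univ.filter (fun w => w ∈ Subgroup.zpowers z) ⊆
          Finset.univ.filter (fun w => w ^ orderOf z = 1) := fun w hw => by
        obtain ⟨i, rfl⟩ := (Finset.mem_filter.mp hw).2
        refine Finset.mem_filter.mpr ⟨Finset.mem_univ _, ?_⟩
        rw [← zpow_natCast, ← zpow_mul, mul_comm, zpow_mul, zpow_natCast, pow_orderOf_eq_one,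
          one_zpow]
      have heq := Finset.eq_of_subset_of_card_le hsub (hle.trans (le_of_eq (by
        rw [← Nat.card_zpowers, Nat.card_eq_fintype_card, Fintype.card_subtype])))
      have hwm : w ∈ Finset.univ.filter (fun w => w ^ orderOf z = 1) := by
        refine Finset.mem_filter.mpr ⟨Finset.mem_univ _, ?_⟩
        obtain ⟨c, hc⟩ : p ∣ orderOf z := hs ▸ dvd_pow_self p hs0
        rw [hc, pow_mul, hwp, one_pow]
      rw [← heq] at hwm
      exact (Finset.mem_filter.mp hwm).2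
    refine h1 (EqualDegree.linear_of_commutator ξ fun g hg => ?_)
    obtain ⟨i, hi⟩ := hle (show (⟨g, hcom hg⟩ : Z) ∈ C from hg)
    have := hφ ⟨g, hcom hg⟩ 1
    rw [← hi, map_zpow, hz, one_zpow, Units.val_one, one_mul, mul_one] at this
    show (ξ : P → ℂ) g = _
    rw [← this]
    exact congrArg _ (congrArg Subtype.val hi).symm
  obtain ⟨φ, hφ⟩ := Chars2.exists_central_hom χ.2 (le_refl Z)
  obtain ⟨φ', hφ'⟩ := Chars2.exists_central_hom ψ.2 (le_refl Z)
  obtain ⟨z, hz⟩ := hcyc.exists_generator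
  have hord : ∀ (f : Z →* ℂˣ), Function.Injective f → IsPrimitiveRoot (f z : ℂ) (orderOf z) := by
    intro f hf
    rw [IsPrimitiveRoot.iff_orderOf, orderOf_units, orderOf_injective f hf]
  haveI : NeZero (orderOf z) := ⟨(orderOf_pos z).ne'⟩
  obtain ⟨k, -, hk, hkz⟩ := (hord φ (hinj χ hχ1 φ hφ)).isPrimitiveRoot_iff.mp
    (hord φ' (hinj ψ hψ1 φ' hφ'))
  obtain ⟨i, hi⟩ := IsPGroup.iff_card.mp hP
  have hkP : k.Coprime (Nat.card P) := by
    rw [hi]
    refine Nat.Coprime.pow_right _ ?_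
    obtain ⟨s, hs⟩ := IsPGroup.iff_orderOf.mp (hP.to_subgroup Z) z
    have hs0 : s ≠ 0 := fun h => by
      rw [h, pow_zero, orderOf_eq_one_iff] at hs
      obtain ⟨a, ha, ha1⟩ := (Subgroup.bot_or_exists_ne_one (commutator P)).resolve_left hne
      obtain ⟨j, hj⟩ := hz ⟨a, hcom ha⟩
      rw [hs] at hj
      exact ha1 (by simpa using (congrArg Subtype.val hj).symm)
    exact hk.coprime_dvd_right (hs ▸ dvd_pow_self p hs0)
  refine ⟨k, hkP, fun g => ?_⟩
  by_cases hg : g ∈ Z
  · have hφk : φ' = φ ^ k := by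
      refine MonoidHom.ext fun w => ?_
      obtain ⟨j, rfl⟩ := hz w
      show φ' (z ^ j) = φ (z ^ j) ^ k
      rw [map_zpow, map_zpow, show φ' z = φ z ^ k from Units.ext (by simp [hkz])]
      rw [← zpow_natCast, ← zpow_mul, ← zpow_natCast, ← zpow_mul, mul_comm]
    have h1 := hφ' ⟨g, hg⟩ 1
    have h2 := hφ ((⟨g, hg⟩ : Z) ^ k) 1
    rw [mul_one] at h1
    rw [mul_one, SubmonoidClass.coe_pow] at h2
    rw [h1, h2, hφk, map_pow, ← he']
    rfl
  · rw [EqualDegree.eq_zero_off_center hP hp ψ hψ1 hg, EqualDegree.eq_zero_off_center hP hp χ hχ1]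
    intro h
    refine hg ?_
    obtain ⟨j, hj⟩ := exists_pow_eq_self_of_coprime (Nat.Coprime.coprime_dvd_right (orderOf_dvd_natCard g) hkP)
    rw [← hj]
    exact Subgroup.pow_mem _ h j

end Cfsg.Agent.S4845
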