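import Cfsg.Statements.S4850
import Cfsg.Agent.VanishOrder.Main
import Cfsg.Agent.FGS4.Subnormal
-- import your own Cfsg.Agent.* helpers here

set_option autoImplicit false
open Cfsg Cfsg.Agent

namespace Cfsg.Agent.S4850

/-- Let p be a prime and G a finite solvable group whose vanishing elements (elements at which some irreducible character is zero) of order divisible by p all have the same order, with at least one such element. Let P be a Sylow p-subgroup of G. Then the derived subgroup of P is subnormal in G and the image of P in G/O_p(G) is cyclic. -/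
theorem result {G : Type*} [Group G] [Finite G] [hs : Group.IsSolvable G] (p : ℕ) [Fact p.Prime] (b : ℕ) (hvo : {n : ℕ | p ∣ n ∧ ∃ (g : G) (χ : Cfsg.IrrCharacter G), orderOf g = n ∧ (χ : G → ℂ) g = 0} = {b}) (P : Sylow p G) :
    ((commutator ↥(P : Subgroup G)).map (P : Subgroup G).subtype).IsSubnormal ∧ IsCyclic ↥((P : Subgroup G).map (QuotientGroup.mk' (Cfsg.pCore p G))) := by
  haveI := hs
  have hdvd := VanishOrder.sylow_le_pCore (p := p) b (fun g h1 h2 => by
    obtain ⟨χ, hχ⟩ := h2
    exact (Set.ext_iff.mp hvo (orderOf g)).mp ⟨h1, g, χ, rfl, hχ⟩) P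
  set A := (P : Subgroup G).map (QuotientGroup.mk' (Cfsg.pCore p G))
  haveI hcyc : IsCyclic A := by
    rcases (Nat.dvd_prime (Fact.out : p.Prime)).mp hdvd with h | h
    · haveI : Subsingleton A := (Nat.card_eq_one_iff_unique.mp h).1
      infer_instance
    · exact isCyclic_of_prime_card h
  refine ⟨?_, hcyc⟩
  letI : CommGroup A := IsCyclic.commGroup
  set D := (commutator ↥(P : Subgroup G)).map (P : Subgroup G).subtype with hD
  have hle : D ≤ Cfsg.pCore p G := by
    rintro _ ⟨x, hx, rfl⟩
    have h := Abelianization.commutator_subset_ker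
      ((QuotientGroup.mk' (Cfsg.pCore p G)).subgroupMap (P : Subgroup G)) hx
    exact (QuotientGroup.eq_one_iff _).mp (congrArg Subtype.val (MonoidHom.mem_ker.mp h))
  haveI : Group.IsNilpotent (Cfsg.pCore p G) := (Core.isPGroup_pCore p G).isNilpotent
  haveI : (Cfsg.pCore p G).Normal := inferInstance
  exact Subgroup.IsSubnormal.trans hle (FGS4.isSubnormal_of_isNilpotent _)
    (Subgroup.IsSubnormal.step _ ⊤ le_top Subgroup.IsSubnormal.top inferInstance)

end Cfsg.Agent.S4850
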