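import Cfsg.Statements.S4862
import Cfsg.Agent.Chars.RealPPrimeCentral

set_option autoImplicit false
open Cfsg

namespace Cfsg.Agent.S4862

/-- Let p be an odd prime and G a finite group such that the subgroup generated by the p-elements of G is solvable and every real-valued irreducible complex character of G has degree prime to p. Let K be the subgroup generated by the 2-elements of G and P a Sylow p-subgroup of G. Then every normal subgroup M of G contained in K and in the derived subgroup of P is centralized by K. -/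
theorem result {G : Type*} [Group G] [Finite G] (p : ℕ) [Fact p.Prime] (hp : p ≠ 2) (hsolv : Group.IsSolvable ↥(Subgroup.closure {g : G | ∃ k : ℕ, orderOf g = p ^ k})) (hreal : ∀ χ : Cfsg.IrrCharacter G, (∀ g : G, ((χ : G → ℂ) g).im = 0) → ¬ p ∣ Cfsg.charDegree (χ : G → ℂ)) (P : Sylow p G) (M : Subgroup G) (hM : M.Normal) (hMK : M ≤ (Subgroup.closure {g : G | ∃ k : ℕ, orderOf g = 2 ^ k})) (hMP : M ≤ ⁅(P : Subgroup G), (P : Subgroup G)⁆) : (Subgroup.closure {g : G | ∃ k : ℕ, orderOf g = 2 ^ k}) ≤ Subgroup.centralizer (M : Set G) := by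
  haveI := Fact.mk Nat.prime_two
  rw [Subgroup.closure_le]
  rintro g ⟨k, hk⟩
  refine Subgroup.mem_centralizer_iff.2 fun m hm => ?_
  have h := Chars.RealPPrime.gen_le_centralizer hp hreal P _ M rfl hM hMP g
    ⟨k, hk ▸ pow_orderOf_eq_one g⟩ m hm
  calc m * g = g * (g⁻¹ * m * g) := by group
    _ = g * m := by rw [h]

end Cfsg.Agent.S4862
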