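import Cfsg.Statements.S4871
import Cfsg.Agent.DegreeGraph.LinearTwist
import Cfsg.Agent.DegreeGraph.Indicator
import Mathlib.GroupTheory.PGroup
import Mathlib.GroupTheory.FiniteAbelian.Duality
-- import your own Cfsg.Agent.* helpers here

set_option autoImplicit false
open Cfsg

namespace Cfsg.Agent.S4871

/-- Let G be a finite group that is the semidirect product of a normal elementary abelian subgroup N of odd order by a non-trivial 2-subgroup P, with N the unique minimal normal subgroup of G. Consider the strongly real irreducible complex characters of G (Frobenius–Schur indicator +1) whose degree is 1 or even. Then their average degree is at least 4/3: four times their number is at most three times the sum of their degrees. -/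
theorem result {G : Type*} [Group G] [Finite G] (N P : Subgroup G) (hN : N.Normal) (q : ℕ) [Fact q.Prime] (hq : q ≠ 2) (hNel : Cfsg.IsElementaryAbelian q N) (hP : IsPGroup 2 ↥P) (hP1 : P ≠ ⊥) (hdisj : N ⊓ P = ⊥) (hprod : N ⊔ P = ⊤) (hmin : N ≠ ⊥ ∧ ∀ M : Subgroup G, M.Normal → M ≠ ⊥ → N ≤ M) : 4 * Nat.card {χ : Cfsg.IrrCharacter G // (Cfsg.charDegree (χ : G → ℂ) = 1 ∨ 2 ∣ Cfsg.charDegree (χ : G → ℂ)) ∧ (Nat.card G : ℂ)⁻¹ * ∑ᶠ g : G, (χ : G → ℂ) (g * g) = 1} ≤ 3 * (∑ᶠ χ : {χ : Cfsg.IrrCharacter G // (Cfsg.charDegree (χ : G → ℂ) = 1 ∨ 2 ∣ Cfsg.charDegree (χ : G → ℂ)) ∧ (Nat.card G : ℂ)⁻¹ * ∑ᶠ g : G, (χ : G → ℂ) (g * g) = 1}, Cfsg.charDegree (χ.1 : G → ℂ)) := by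
  classical
  haveI := hN
  haveI : Fintype G := Fintype.ofFinite G
  haveI : Finite (Cfsg.IrrCharacter G) := Chars.irr_finite
  obtain ⟨hNc, hNq⟩ := hNel
  obtain ⟨hN1, hmin⟩ := hmin
  haveI := hNc
  have hqodd : Odd q := (Fact.out : q.Prime).odd_of_ne_two hq
  obtain ⟨kq, hkq⟩ := hqodd
  have hsqN : ∀ n : N, n * n = 1 → n = 1 := fun n h => by
    have h1 : n ^ q = 1 := Subtype.ext (by simpa using hNq n n.2)
    rw [hkq, pow_succ, pow_mul, sq, h, one_pow, one_mul] at h1
    exact h1
  -- a central involution of `P` inverts `N`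
  haveI : Nontrivial P := P.nontrivial_iff_ne_bot.2 hP1
  haveI : Nontrivial (Subgroup.center P) := hP.center_nontrivial
  have h2z : 2 ∣ Nat.card (Subgroup.center P) := by
    obtain ⟨k, hk⟩ := IsPGroup.iff_card.1 (hP.to_subgroup (Subgroup.center P))
    rcases k with - | k
    · rw [pow_zero] at hk
      exact absurd hk Finite.one_lt_card.ne'
    · exact hk ▸ dvd_pow_self 2 k.succ_ne_zero
  obtain ⟨z, hz⟩ := exists_prime_orderOf_dvd_card' 2 h2z
  have hz1 : ((z : P) : G) ≠ 1 := fun h => by
    have : z = 1 := Subtype.ext (Subtype.ext h)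
    rw [this, orderOf_one] at hz; omega
  have hz2 : ((z : P) : G) * ((z : P) : G) = 1 := by
    have h := pow_orderOf_eq_one z
    rw [hz, sq] at h
    exact congrArg (fun x : Subgroup.center P => ((x : P) : G)) h
  have hzc : ∀ u : P, (u : G) * ((z : P) : G) = ((z : P) : G) * (u : G) := fun u =>
    congrArg (fun x : P => (x : G)) (Subgroup.mem_center_iff.1 z.2 u)
  have hNcomm : ∀ a b : N, a * b = b * a := fun a b => mul_comm' a b
  -- decomposition
  have hmulset : ∀ g : G, ∃ n ∈ N, ∃ u ∈ P, n * u = g := fun g =>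
    Subgroup.mem_sup_of_normal_left.1 (hprod ▸ Subgroup.mem_top g)
  let π' : ↥P →* G ⧸ N := (QuotientGroup.mk' N).comp P.subtype
  have hπinj : Function.Injective π' := by
    rw [injective_iff_map_eq_one]
    intro x hx
    rw [MonoidHom.comp_apply, ← MonoidHom.mem_ker, QuotientGroup.ker_mk'] at hx
    exact Subtype.ext (Subgroup.mem_bot.1 (hdisj.le ⟨hx, x.2⟩))
  have hπsurj : Function.Surjective π' := by
    intro y
    obtain ⟨g, rfl⟩ := QuotientGroup.mk'_surjective N y
    obtain ⟨n, hn, u, hu, rfl⟩ := hmulset g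
    refine ⟨⟨u, hu⟩, ?_⟩
    show QuotientGroup.mk' N u = _
    rw [map_mul, show QuotientGroup.mk' N n = 1 by
      rw [← MonoidHom.mem_ker, QuotientGroup.ker_mk']; exact hn, one_mul]
  let e : ↥P ≃* G ⧸ N := MulEquiv.ofBijective π' ⟨hπinj, hπsurj⟩
  let π : G →* ↥P := e.symm.toMonoidHom.comp (QuotientGroup.mk' N)
  have hπs : Function.Surjective π := e.symm.surjective.comp (QuotientGroup.mk'_surjective N)
  have hπP : ∀ u : P, π (u : G) = u := fun u => e.symm_apply_apply u
  have hπN : ∀ g, g * (π g : G)⁻¹ ∈ N := fun g => by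
    rw [← QuotientGroup.ker_mk' N, MonoidHom.mem_ker, map_mul, map_inv, mul_inv_eq_one]
    exact (e.apply_symm_apply (QuotientGroup.mk' N g)).symm
  have hπker : ∀ n : N, π (n : G) = 1 := fun n => by
    show e.symm (QuotientGroup.mk' N n) = 1
    rw [show QuotientGroup.mk' N (n : G) = 1 by
      rw [← MonoidHom.mem_ker, QuotientGroup.ker_mk']; exact n.2, map_one]
  have hcz : ∀ n : N, ((z : P) : G) * (n : G) * ((z : P) : G)⁻¹ = (n : G)⁻¹ := by
    let K : Subgroup G := N ⊓ Subgroup.centralizer {((z : P) : G)}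
    have hKn : K.Normal := ⟨fun x hx g => by
      obtain ⟨n, hn, u, hu, rfl⟩ := hmulset g
      obtain ⟨hxN, hxz⟩ := hx
      replace hxz := Subgroup.mem_centralizer_singleton_iff.1 hxz
      have hy : u * x * u⁻¹ ∈ N := hN.conj_mem x hxN u
      have e1 : n * u * x * (n * u)⁻¹ = u * x * u⁻¹ := by
        have := congrArg Subtype.val (hNcomm ⟨n, hn⟩ ⟨_, hy⟩)
        simp only [Subgroup.coe_mul] at this
        calc n * u * x * (n * u)⁻¹ = n * (u * x * u⁻¹) * n⁻¹ := by group
          _ = _ := by rw [this, mul_inv_cancel_right]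
      rw [e1]
      refine ⟨hy, ?_⟩
      refine Subgroup.mem_centralizer_singleton_iff.2 ?_
      have h1 : u * ((z : P) : G) = ((z : P) : G) * u := hzc ⟨u, hu⟩
      have h2 : u⁻¹ * ((z : P) : G) = ((z : P) : G) * u⁻¹ := hzc (⟨u, hu⟩⁻¹)
      calc u * x * u⁻¹ * ((z : P) : G) = u * x * (u⁻¹ * ((z : P) : G)) := by group
        _ = u * (x * ((z : P) : G)) * u⁻¹ := by rw [h2]; group
        _ = u * ((z : P) : G) * x * u⁻¹ := by rw [hxz]; group
        _ = ((z : P) : G) * (u * x * u⁻¹) := by rw [h1]; group⟩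
    have hKbot : K = ⊥ := by
      by_contra hK
      -- otherwise `z` centralizes `N`, and then the centralizer of `N` in `P` is normal
      have hzN : ∀ n ∈ N, n * ((z : P) : G) = ((z : P) : G) * n := fun n hn =>
        Subgroup.mem_centralizer_singleton_iff.1 ((hmin K hKn hK) hn).2
      let L : Subgroup G := P ⊓ Subgroup.centralizer (N : Set G)
      have hLn : L.Normal := ⟨fun x hx g => by
        obtain ⟨n, hn, u, hu, rfl⟩ := hmulset g
        obtain ⟨hxP, hxC⟩ := hx
        have hy : u * x * u⁻¹ ∈ Subgroup.centralizer (N : Set G) :=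
          Subgroup.Normal.conj_mem inferInstance x hxC u
        have e1 : n * u * x * (n * u)⁻¹ = u * x * u⁻¹ := by
          calc n * u * x * (n * u)⁻¹ = n * (u * x * u⁻¹) * n⁻¹ := by group
            _ = _ := by rw [Subgroup.mem_centralizer_iff.1 hy n hn, mul_inv_cancel_right]
        rw [e1]
        exact ⟨P.mul_mem (P.mul_mem hu hxP) (P.inv_mem hu), hy⟩⟩
      have hzL : ((z : P) : G) ∈ L := ⟨(z : P).2, Subgroup.mem_centralizer_iff.2 hzN⟩
      have hL1 : L ≠ ⊥ := fun h => hz1 (Subgroup.mem_bot.1 (h ▸ hzL))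
      exact hN1 (le_bot_iff.1 (fun n hn => hdisj.le ⟨hn, (hmin L hLn hL1 hn).1⟩))
    intro n
    let z' : N := ⟨((z : P) : G) * (n : G) * ((z : P) : G)⁻¹, hN.conj_mem _ n.2 _⟩
    have hzi : ((z : P) : G)⁻¹ = ((z : P) : G) := inv_eq_of_mul_eq_one_right hz2
    have hmem : ((n * z' : N) : G) ∈ K := by
      refine ⟨(n * z').2, ?_⟩
      refine Subgroup.mem_centralizer_singleton_iff.2 ?_
      have h3 := congrArg Subtype.val (hNcomm n z')
      simp only [Subgroup.coe_mul, z', hzi] at h3 ⊢
      calc (n : G) * (((z : P) : G) * (n : G) * ((z : P) : G)) * ((z : P) : G)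
          = (n : G) * ((z : P) : G) * (n : G) * (((z : P) : G) * ((z : P) : G)) := by group
        _ = (n : G) * ((z : P) : G) * (n : G) := by rw [hz2, mul_one]
        _ = ((z : P) : G) * ((z : P) : G) * ((n : G) * ((z : P) : G) * (n : G)) := by
            rw [hz2, one_mul]
        _ = ((z : P) : G) * (((z : P) : G) * (n : G) * ((z : P) : G) * (n : G)) := by group
        _ = _ := by rw [h3]
    rw [hKbot, Subgroup.mem_bot, Subgroup.coe_mul] at hmem
    exact eq_inv_of_mul_eq_one_right hmem
  -- a non-trivial character of `N` and its stabilizer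
  obtain ⟨n₀, hn₀⟩ : ∃ n : N, n ≠ 1 := by
    by_contra h
    push Not at h
    exact hN1 ((Subgroup.eq_bot_iff_forall _).2 fun x hx => congrArg Subtype.val (h ⟨x, hx⟩))
  letI cgN : CommGroup N := { (inferInstance : Group N) with mul_comm := hNcomm }
  obtain ⟨lam, hlam⟩ := CommGroup.exists_apply_ne_one_of_hasEnoughRootsOfUnity N ℂ hn₀
  let act : P →* MulAut N := MulAut.conjNormal.comp P.subtype
  let S : Subgroup P :=
    { carrier := {u | ∀ n : N, lam ((act u).symm n) = lam n}
      one_mem' := fun n => by rw [map_one]; rfl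
      mul_mem' := fun {a b} ha hb n => by
        rw [map_mul]
        exact (hb _).trans (ha n)
      inv_mem' := fun {a} ha n => by
        rw [map_inv]
        have := ha (act a n)
        rw [MulEquiv.symm_apply_apply] at this
        exact this.symm }
  let T : Subgroup G := S.comap π
  have hdec : ∀ (g : G) (n : N), ((MulAut.conjNormal g).symm n) = (act (π g)).symm n := by
    intro g n
    have hm := hπN g
    refine Subtype.ext ?_
    show _ = (((MulAut.conjNormal ((π g : P) : G)).symm n : N) : G)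
    rw [MulAut.conjNormal_symm_apply, MulAut.conjNormal_symm_apply]
    have h1 : (g * (π g : G)⁻¹)⁻¹ * (n : G) * (g * (π g : G)⁻¹) = (n : G) := by
      have := congrArg Subtype.val (hNcomm n ⟨_, hm⟩)
      simp only [Subgroup.coe_mul] at this
      rw [mul_assoc, this, inv_mul_cancel_left]
    calc g⁻¹ * (n : G) * g
        = (π g : G)⁻¹ * ((g * (π g : G)⁻¹)⁻¹ * (n : G) * (g * (π g : G)⁻¹)) * (π g : G) := by group
      _ = _ := by rw [h1]
  have hT : ∀ g : G, g ∈ T ↔ ∀ n : N, lam ((MulAut.conjNormal g).symm n) = lam n := fun g =>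
    ⟨fun h n => by rw [hdec]; exact h n, fun h n => by rw [← hdec]; exact h n⟩
  have hNT : N ≤ T := fun n hn => by
    show π n ∈ S
    rw [hπker ⟨n, hn⟩]; exact S.one_mem
  have hzS : (z : P) ∉ S := fun h => by
    apply hlam
    have h1 : (act (z : P)).symm n₀ = n₀⁻¹ := by
      refine (MulEquiv.symm_apply_eq _).2 (Subtype.ext ?_)
      show _ = ((z : P) : G) * ((n₀⁻¹ : N) : G) * ((z : P) : G)⁻¹
      rw [hcz, Subgroup.coe_inv, inv_inv]
    have h2 := h n₀
    rw [h1, map_inv, inv_eq_iff_mul_eq_one, ← map_mul] at h2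
    -- `lam` of the square is trivial and the order is odd
    have h3 : n₀ ^ q = 1 := Subtype.ext (by simpa using hNq n₀ n₀.2)
    have h4 := congrArg lam h3
    rw [hkq, pow_succ, pow_mul, sq, map_mul, map_pow, h2, one_pow, one_mul, map_one] at h4
    exact h4
  let d := T.index
  have hd : d = S.index := Subgroup.index_comap_of_surjective S hπs
  have hd2 : 2 ∣ d ∧ 2 ≤ d := by
    obtain ⟨k, hk⟩ := hP.index S
    rw [hd, hk]
    rcases k with - | k
    · rw [pow_zero] at hk
      exact absurd (Subgroup.index_eq_one.1 hk ▸ Subgroup.mem_top _) hzS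
    · exact ⟨dvd_pow_self 2 k.succ_ne_zero, Nat.le_self_pow k.succ_ne_zero 2⟩
  -- the induced characters
  let mkψ : {ν : S →* ℂˣ // ∀ s, ν (s * s) = 1} → (T →* ℂˣ) := fun ν =>
    MonoidHom.mk' (fun t => lam ⟨_, hπN t.1⟩ * ν.1 ⟨π t.1, t.2⟩) fun a b => by
      have h1 : (⟨(a * b : T).1 * (π (a * b : T).1 : G)⁻¹, hπN _⟩ : N) =
          ⟨_, hπN a.1⟩ * act (π a.1) ⟨_, hπN b.1⟩ := by
        refine Subtype.ext ?_
        show (a.1 * b.1) * ((π (a.1 * b.1) : P) : G)⁻¹ = a.1 * ((π a.1 : P) : G)⁻¹ *
          ((π a.1 : G) * (b.1 * (π b.1 : G)⁻¹) * (π a.1 : G)⁻¹)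
        rw [map_mul, Subgroup.coe_mul, mul_inv_rev]
        group
      have h2 : lam (act (π a.1) ⟨_, hπN b.1⟩) = lam ⟨_, hπN b.1⟩ := by
        have := a.2 (act (π a.1) ⟨_, hπN b.1⟩)
        rw [MulEquiv.symm_apply_apply] at this
        exact this.symm
      have h3 : (⟨π (a * b : T).1, (a * b).2⟩ : S) = ⟨π a.1, a.2⟩ * ⟨π b.1, b.2⟩ :=
        Subtype.ext (map_mul π a.1 b.1)
      simp only [h1, h3, map_mul, h2]
      rw [mul_mul_mul_comm]
  have hψN : ∀ ν (n : N), mkψ ν (Subgroup.inclusion hNT n) = lam n := fun ν n => by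
    show lam ⟨(n : G) * (π (n : G) : G)⁻¹, _⟩ * ν.1 ⟨π (n : G), _⟩ = lam n
    simp only [hπker n, OneMemClass.coe_one, inv_one, mul_one]
    rw [show ν.1 ⟨1, _⟩ = 1 from map_one ν.1, mul_one]
  let Λ : Cfsg.IrrCharacter N := ⟨_, Chars.isIrrCharacter_hom lam⟩
  have hT' : ∀ g : G, g ∈ T ↔ DegreeGraph.irrPerm (MulAut.conjNormal g) Λ = Λ := fun g => by
    rw [hT g]
    refine ⟨fun h => Subtype.ext (funext fun n => congrArg (fun u : ℂˣ => (u : ℂ)) (h n)),
      fun h n => Units.ext (congrFun (congrArg Subtype.val h) n)⟩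
  haveI : Fintype N := Fintype.ofFinite N
  haveI : Fintype T := Fintype.ofFinite T
  have hirr : ∀ ν, Cfsg.IsIrrCharacter G (indFun T fun x => (mkψ ν x : ℂ)) := fun ν =>
    (DegreeGraph.irr_indFun_of_extension N Λ T hT' hNT ⟨_, Chars.isIrrCharacter_hom (mkψ ν)⟩
      fun n => congrArg Units.val (hψN ν n)).1
  have hind : ∀ ν, (Nat.card G : ℂ)⁻¹ *
      ∑ g : G, indFun T (fun x => (mkψ ν x : ℂ)) (g * g) = 1 := by
    intro ν
    -- the sum over the elements with square in `T`
    have hzlam : ∀ n : N, lam (act (z : P) n) = (lam n)⁻¹ := fun n => by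
      rw [← map_inv]
      exact congrArg lam (Subtype.ext (hcz n))
    have hterm : ∀ u : P, ∑ n : N, extendByZero T (fun x => (mkψ ν x : ℂ))
        ((n : G) * (u : G) * ((n : G) * (u : G))) =
          if (z : P) * u ∈ S then (Nat.card N : ℂ) else 0 := by
      intro u
      have he : ∀ n : N, (n : G) * (u : G) * ((n : G) * (u : G)) =
          ((n * act u n : N) : G) * ((u * u : P) : G) := fun n => by
        simp only [Subgroup.coe_mul, act, MonoidHom.comp_apply, MulAut.conjNormal_apply,
          Subgroup.coe_subtype]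
        group
      have hpi : ∀ (m : N) (w : P), π ((m : G) * (w : G)) = w := fun m w => by
        rw [map_mul, hπker, hπP, one_mul]
      by_cases huu : u * u ∈ S
      · have hval : ∀ n : N, extendByZero T (fun x => (mkψ ν x : ℂ))
            ((n : G) * (u : G) * ((n : G) * (u : G))) =
            (lam n : ℂ) * (lam (act u n) : ℂ) * (ν.1 ⟨u * u, huu⟩ : ℂ) := fun n => by
          rw [he]
          rw [Chars.extendByZero_of_mem T _ (show _ ∈ T by
            show π _ ∈ S
            rw [hpi]; exact huu)]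
          show ((lam ⟨_, _⟩ * ν.1 ⟨π _, _⟩ : ℂˣ) : ℂ) = _
          simp only [hpi, mul_inv_cancel_right]
          rw [Units.val_mul, Subtype.coe_eta, map_mul, Units.val_mul]
        simp only [hval, ← Finset.sum_mul]
        let μ : N →* ℂ := (Units.coeHom ℂ).comp (lam * lam.comp (act u).toMonoidHom)
        have hμ : ∀ n, μ n = (lam n : ℂ) * (lam (act u n) : ℂ) := fun n => rfl
        have hμ1 : μ = 1 ↔ (z : P) * u ∈ S := by
          constructor
          · intro h n
            have h1 := congrFun (congrArg DFunLike.coe h) ((act ((z : P) * u)).symm n)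
            rw [hμ, MonoidHom.one_apply] at h1
            have h2 : lam ((act ((z : P) * u)).symm n) * lam (act u ((act ((z : P) * u)).symm n)) =
                1 := Units.ext h1
            have h3 : act u ((act ((z : P) * u)).symm n) = act (z : P) n := by
              rw [map_mul]
              show act u ((act u).symm ((act (z : P)).symm n)) = _
              rw [MulEquiv.apply_symm_apply]
              refine (MulEquiv.symm_apply_eq _).2 ?_
              rw [← MulAut.mul_apply, ← map_mul, show (z : P) * (z : P) = 1 from Subtype.ext hz2,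
                map_one]
              rfl
            rw [h3, hzlam, mul_inv_eq_one] at h2
            exact h2
          · intro h
            refine MonoidHom.ext fun n => ?_
            rw [hμ, MonoidHom.one_apply, ← Units.val_mul, Units.val_eq_one]
            have h1 := h (act (z : P) (act u n))
            rw [show (act ((z : P) * u)).symm (act (z : P) (act u n)) = n by
              rw [MulEquiv.symm_apply_eq, map_mul]; rfl, hzlam] at h1
            rw [h1, inv_mul_cancel]
        have hs := sum_hom_units μ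
        simp only [hμ] at hs
        rw [hs]
        split_ifs with h1 h2 h2
        · have h3 : ν.1 ⟨u * u, huu⟩ = 1 := by
            rw [show (⟨u * u, huu⟩ : S) = ⟨(z : P) * u, h2⟩ * ⟨(z : P) * u, h2⟩ from
              Subtype.ext (by
                show u * u = (z : P) * u * ((z : P) * u)
                have h4 : u * (z : P) = (z : P) * u := Subtype.ext (hzc u)
                calc u * u = ((z : P) * (z : P)) * (u * u) := by
                      rw [show (z : P) * (z : P) = 1 from Subtype.ext hz2, one_mul]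
                  _ = _ := by rw [mul_assoc (z : P) u, ← mul_assoc u, h4]; group)]
            exact ν.2 _
          rw [h3, Units.val_one, mul_one, Nat.card_eq_fintype_card]
        · exact absurd (hμ1.1 h1) h2
        · exact absurd (hμ1.2 h2) h1
        · simp
      · rw [if_neg]
        · refine Finset.sum_eq_zero fun n _ => ?_
          rw [he]
          refine Chars.extendByZero_of_not_mem T _ fun hmem => huu ?_
          have : π _ ∈ S := hmem
          rwa [hpi] at this
        · intro h
          refine huu ?_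
          have h4 : u * (z : P) = (z : P) * u := Subtype.ext (hzc u)
          have : u * u = (z : P) * u * ((z : P) * u) := by
            calc u * u = ((z : P) * (z : P)) * (u * u) := by
                  rw [show (z : P) * (z : P) = 1 from Subtype.ext hz2, one_mul]
              _ = _ := by rw [mul_assoc (z : P) u, ← mul_assoc u, h4]; group
          exact this ▸ S.mul_mem h h
    haveI : Fintype P := Fintype.ofFinite P
    have hsum : ∑ g : G, extendByZero T (fun x => (mkψ ν x : ℂ)) (g * g) = (Nat.card T : ℂ) := by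
      rw [← Fintype.sum_equiv (Equiv.ofBijective (fun x : N × P => (x.1 : G) * (x.2 : G))
        ⟨fun x y h => ?_, fun g => ?_⟩)
        (fun x : N × P => extendByZero T (fun t => (mkψ ν t : ℂ))
          ((x.1 : G) * (x.2 : G) * ((x.1 : G) * (x.2 : G)))) _ fun x => rfl]
      · rw [Fintype.sum_prod_type_right]
        simp only [hterm]
        rw [← Finset.sum_filter, Finset.sum_const, nsmul_eq_mul]
        have hTc : Nat.card T = Nat.card N * Nat.card S := by
          have h1 := T.card_mul_index
          rw [show T.index = S.index from hd, ← N.card_mul_index,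
            Subgroup.index_eq_card N, ← Nat.card_congr e.toEquiv, ← S.card_mul_index,
            ← mul_assoc] at h1
          exact Nat.eq_of_mul_eq_mul_right
            (Nat.pos_of_ne_zero Subgroup.index_ne_zero_of_finite) h1
        rw [hTc, Nat.cast_mul, mul_comm (Nat.card N : ℂ)]
        congr 2
        rw [Nat.card_eq_fintype_card]
        rw [← Fintype.card_subtype]
        exact Fintype.card_congr (Equiv.subtypeEquiv (Equiv.mulLeft (z : P)) fun u => by simp)
      · have h1 : π ((x.1 : G) * (x.2 : G)) = π ((y.1 : G) * (y.2 : G)) := congrArg π h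
        simp only [map_mul, hπker, hπP, one_mul] at h1
        have h2 : (x.1 : G) * (x.2 : G) = (y.1 : G) * (y.2 : G) := h
        rw [h1] at h2
        exact Prod.ext (Subtype.ext (mul_right_cancel h2)) h1
      · exact ⟨(⟨_, hπN g⟩, π g), inv_mul_cancel_right _ _⟩
    have hrw : ∀ x : G, ∑ g : G, extendByZero T (fun t => (mkψ ν t : ℂ))
        (x⁻¹ * (g * g) * x) = (Nat.card T : ℂ) := fun x => by
      rw [← hsum]
      refine Fintype.sum_equiv (MulAut.conj x⁻¹).toEquiv _ _ fun g => ?_
      congr 1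
      simp only [MulEquiv.toEquiv_eq_coe, EquivLike.coe_coe, MulAut.conj_apply]
      group
    simp only [Chars.indFun_apply, ← Finset.mul_sum]
    rw [Finset.sum_comm]
    simp only [hrw, Finset.sum_const, Finset.card_univ, nsmul_eq_mul, ← Nat.card_eq_fintype_card]
    field_simp [Chars.card_ne_zero (G := G), Chars.subgroup_card_ne_zero T]
  -- the two parts of the family
  let A := {χ : Cfsg.IrrCharacter G //
    (Cfsg.charDegree (χ : G → ℂ) = 1 ∨ 2 ∣ Cfsg.charDegree (χ : G → ℂ)) ∧
      (Nat.card G : ℂ)⁻¹ * ∑ᶠ g : G, (χ : G → ℂ) (g * g) = 1}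
  let V := {ν : S →* ℂˣ // ∀ s, ν (s * s) = 1}
  haveI : Finite (S →* ℂˣ) := Finite.of_equiv _ (Chars.homEquivLinear (G := S)).symm
  haveI : Fintype V := Fintype.ofFinite V
  haveI : Fintype A := Fintype.ofFinite A
  have hdeg : ∀ ν, Cfsg.charDegree (indFun T fun x => (mkψ ν x : ℂ)) = d := fun ν => by
    simp [charDegree, Chars.indFun_apply_one, d]
  let F : V → A := fun ν => ⟨⟨_, hirr ν⟩, Or.inr (by rw [hdeg]; exact hd2.1),
    by rw [finsum_eq_sum_of_fintype]; exact hind ν⟩
  have hF : Function.Injective F := by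
    intro ν ν' h
    have h1 := DegreeGraph.eq_of_indFun_eq N lam T hT hNT (mkψ ν) (mkψ ν') (hψN ν) (hψN ν')
      (congrArg (fun x : A => (x.1 : G → ℂ)) h)
    refine Subtype.ext (MonoidHom.ext fun s => ?_)
    have hs : ((s : P) : G) ∈ T := by
      show π _ ∈ S
      rw [hπP]; exact s.2
    have h2 := congrFun (congrArg DFunLike.coe h1) ⟨((s : P) : G), hs⟩
    change lam ⟨_, _⟩ * ν.1 ⟨π _, _⟩ = lam ⟨_, _⟩ * ν'.1 ⟨π _, _⟩ at h2
    simp only [hπP, Subtype.coe_eta] at h2
    exact mul_left_cancel h2
  -- the linear members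
  let Lin := {a : A // Cfsg.charDegree (a.1 : G → ℂ) = 1}
  have hLin : Nat.card Lin ≤ d * Nat.card V := by
    have hhom : ∀ a : Lin, ∃ Φ : G →* ℂˣ, (a.1.1 : G → ℂ) = fun g => (Φ g : ℂ) := fun a =>
      Chars.exists_hom_of_degree_one (Chars.irr_isCharacter a.1.1) (by
        rw [(Blocks.charDegree_eq a.1.1.2).1, a.2, Nat.cast_one])
    choose Φ hΦ using hhom
    have hsq : ∀ a g, Φ a (g * g) = 1 := fun a g => by
      refine DegreeGraph.sq_eq_one_of_indicator (Φ a) ?_ g
      have h1 := a.1.2.2
      rw [finsum_eq_sum_of_fintype, hΦ a] at h1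
      exact h1
    have hΦN : ∀ a (n : N), Φ a (n : G) = 1 := fun a n => by
      have h1 : (n : G) = ((n ^ (kq + 1) : N) : G) * ((n ^ (kq + 1) : N) : G) := by
        rw [← Subgroup.coe_mul, ← pow_add, show kq + 1 + (kq + 1) = q + 1 by omega, pow_succ,
          show n ^ q = 1 from Subtype.ext (by simpa using hNq n n.2), one_mul]
      rw [h1]
      exact hsq a _
    let rest : Lin → (P →* ℂˣ) := fun a => (Φ a).comp P.subtype
    let G2 : Lin → V := fun a => ⟨(rest a).comp S.subtype, fun s => hsq a _⟩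
    rw [Nat.card_eq_fintype_card (α := Lin), Nat.card_eq_fintype_card (α := V),
      ← Finset.card_univ (α := Lin), ← Finset.card_univ (α := V)]
    refine Finset.card_le_mul_card_image_of_maps_to (f := G2) (fun _ _ => Finset.mem_univ _) _
      fun ν _ => ?_
    by_cases hν : ∃ a₁, G2 a₁ = ν
    · obtain ⟨a₁, rfl⟩ := hν
      refine le_trans ?_ (hd.symm ▸ DegreeGraph.card_hom_trivial_le S)
      haveI : Finite (P →* ℂˣ) := Finite.of_equiv _ (Chars.homEquivLinear (G := P)).symm
      rw [← Fintype.card_subtype, ← Nat.card_eq_fintype_card]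
      refine Nat.card_le_card_of_injective (fun a => ⟨rest a.1 / rest a₁, fun u hu => ?_⟩) ?_
      · have e1 : rest a.1 u = rest a₁ u :=
          congrFun (congrArg (fun x : V => (x.1 : S → ℂˣ)) a.2) ⟨u, hu⟩
        rw [MonoidHom.div_apply, e1, div_self']
      · intro a b h
        have e1 : rest a.1 = rest b.1 := div_left_injective (b := rest a₁) (congrArg Subtype.val h)
        refine Subtype.ext (Subtype.ext (Subtype.ext (Subtype.ext ?_)))
        rw [hΦ a.1, hΦ b.1]
        funext g
        congr 1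
        have hg : g = ((⟨_, hπN g⟩ : N) : G) * (π g : G) := (inv_mul_cancel_right _ _).symm
        have hc : ∀ a' : Lin, Φ a' g = rest a' (π g) := fun a' => by
          conv_lhs => rw [hg]
          rw [map_mul, hΦN, one_mul]
          rfl
        rw [hc, hc, e1]
    · rw [Finset.filter_eq_empty_iff.2 fun a _ h => hν ⟨a, h⟩]
      exact Nat.zero_le _
  -- the count
  have hsum : (4 : ℤ) * Fintype.card A ≤ 3 * ∑ a : A, (Cfsg.charDegree (a.1 : G → ℂ) : ℤ) := by
    have key : ∀ a : A, Cfsg.charDegree (a.1 : G → ℂ) ≠ 1 →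
        (0 : ℤ) ≤ 3 * (Cfsg.charDegree (a.1 : G → ℂ) : ℤ) - 4 := fun a ha => by
      have := Nat.le_of_dvd (Blocks.charDegree_eq a.1.2).2 (a.2.1.resolve_left ha)
      omega
    have h0 : 0 ≤ ∑ a : A, (3 * (Cfsg.charDegree (a.1 : G → ℂ) : ℤ) - 4) := by
      rw [← Finset.sum_filter_add_sum_filter_not Finset.univ
        (fun a : A => Cfsg.charDegree (a.1 : G → ℂ) = 1)]
      rw [Finset.sum_congr rfl (g := fun _ => (-1 : ℤ)) (fun a ha => by
        rw [(Finset.mem_filter.1 ha).2]; norm_num), Finset.sum_const, smul_neg, nsmul_eq_mul,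
        mul_one, ← Fintype.card_subtype]
      have h1 : ((Fintype.card V : ℤ)) * (3 * (d : ℤ) - 4) ≤
          ∑ a ∈ Finset.univ.filter (fun a : A => ¬ Cfsg.charDegree (a.1 : G → ℂ) = 1),
            (3 * (Cfsg.charDegree (a.1 : G → ℂ) : ℤ) - 4) := by
        have himg : ∑ a ∈ Finset.univ.image F, (3 * (Cfsg.charDegree (a.1 : G → ℂ) : ℤ) - 4) =
            (Fintype.card V : ℤ) * (3 * (d : ℤ) - 4) := by
          rw [Finset.sum_image hF.injOn]
          simp only [F, hdeg, Finset.sum_const, Finset.card_univ, nsmul_eq_mul]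
        rw [← himg]
        refine Finset.sum_le_sum_of_subset_of_nonneg (fun a ha => ?_)
          fun a ha _ => key a (Finset.mem_filter.1 ha).2
        obtain ⟨ν, -, rfl⟩ := Finset.mem_image.1 ha
        refine Finset.mem_filter.2 ⟨Finset.mem_univ _, ?_⟩
        rw [show Cfsg.charDegree ((F ν).1 : G → ℂ) = d from hdeg ν]
        omega
      have h2 : (Nat.card Lin : ℤ) ≤ (d : ℤ) * (Fintype.card V : ℤ) := by
        rw [← Nat.card_eq_fintype_card (α := V)]; exact_mod_cast hLin
      rw [Nat.card_eq_fintype_card] at h2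
      have h3 : (d : ℤ) * (Fintype.card V : ℤ) ≤ (Fintype.card V : ℤ) * (3 * (d : ℤ) - 4) := by
        rw [mul_comm]
        exact mul_le_mul_of_nonneg_left (by omega) (Int.natCast_nonneg _)
      linarith
    rw [Finset.sum_sub_distrib, ← Finset.mul_sum, Finset.sum_const, Finset.card_univ,
      nsmul_eq_mul] at h0
    linarith
  rw [finsum_eq_sum_of_fintype, Nat.card_eq_fintype_card]
  exact_mod_cast hsum

end Cfsg.Agent.S4871
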