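import Cfsg.Statements.S4872
import Cfsg.Agent.S0165
import Cfsg.Agent.Chars2.OddMultIndicator
import Cfsg.Agent.Chars2.Clifford
import Cfsg.Agent.Chars2.DegreeRatio
import Cfsg.Agent.Blocks.Orth
import Mathlib.Algebra.CharP.Two

set_option autoImplicit false
set_option linter.style.haveILetI false
open Cfsg Cfsg.Agent

namespace Cfsg.Agent.S4872

open scoped ComplexConjugate

/-- Let N be a normal subgroup of the finite group G with G/N a 2-group, and let φ be an irreducible complex character of N of 2-defect zero (the 2-part of #N divides φ(1)) whose complex conjugate is G-conjugate to φ. Then some irreducible character of G with Frobenius–Schur indicator +1 contains φ with multiplicity exactly one on restriction to N. -/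
theorem result {G : Type*} [Group G] [Finite G] (N : Subgroup G) [N.Normal] (h2 : IsPGroup 2 (G ⧸ N)) (φ : Cfsg.IrrCharacter ↥N) (hdef : 2 ^ (Nat.card ↥N).factorization 2 ∣ Cfsg.charDegree (φ : ↥N → ℂ)) (hconj : ∃ g : G, ∀ n n' : ↥N, (n' : G) = g * (n : G) * g⁻¹ → (φ : ↥N → ℂ) n' = (starRingEnd ℂ) ((φ : ↥N → ℂ) n)) : ∃ χ : Cfsg.IrrCharacter G, (Nat.card G : ℂ)⁻¹ * ∑ᶠ g : G, (χ : G → ℂ) (g * g) = 1 ∧ (Nat.card ↥N : ℂ)⁻¹ * ∑ᶠ n : ↥N, (χ : G → ℂ) n * (starRingEnd ℂ) ((φ : ↥N → ℂ) n) = 1 := by
  classical
  haveI : Fintype G := Fintype.ofFinite G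
  haveI : Fintype N := Fintype.ofFinite N
  haveI : Fact (Nat.Prime 2) := ⟨Nat.prime_two⟩
  simp only [finsum_eq_sum_of_fintype]
  let P : Sylow 2 G := default
  haveI : Fintype (P : Subgroup G) := Fintype.ofFinite _
  set v := (Nat.card N).factorization 2 with hv
  obtain ⟨k, hk⟩ := IsPGroup.iff_card.mp h2
  rw [← Subgroup.index_eq_card] at hk
  obtain ⟨hd1, hd0⟩ := Blocks.charDegree_eq φ.2
  set d := charDegree (φ : N → ℂ) with hd
  obtain ⟨m, hm⟩ := hdef
  have hdN : d ∣ Nat.card N := Blocks.charDegree_dvd φ.2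
  have hmodd : Odd m := by
    by_contra hc
    rw [Nat.not_odd_iff_even, even_iff_two_dvd] at hc
    have h1 : 2 ^ (v + 1) ∣ Nat.card N := (by
      rw [hm, pow_succ]; exact Nat.mul_dvd_mul_left _ hc : 2 ^ (v + 1) ∣ d).trans hdN
    exact absurd ((Nat.prime_two.pow_dvd_iff_le_factorization Nat.card_pos.ne').1 h1) (by omega)
  -- the index of `P` is the odd part of the order of `N`
  have hPidx : (P : Subgroup G).index * 2 ^ v = Nat.card N := by
    have h1 := (P : Subgroup G).card_mul_index
    rw [Sylow.card_eq_multiplicity] at h1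
    have hG : Nat.card G = Nat.card N * 2 ^ k := by rw [← hk]; exact N.card_mul_index.symm
    have hf : (Nat.card G).factorization 2 = v + k := by
      rw [hG, Nat.factorization_mul Nat.card_pos.ne' (by positivity), Finsupp.add_apply,
        Nat.Prime.factorization_pow Nat.prime_two, Finsupp.single_eq_same]
    rw [hf, hG, pow_add] at h1
    refine Nat.eq_of_mul_eq_mul_right (show 0 < 2 ^ k by positivity) ?_
    linarith
  -- the permutation character and its inner product with `φ`
  set f : G → ℂ := indFun (P : Subgroup G) (fun _ => 1) with hf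
  have hfch : IsCharacter G f := Chars.isCharacter_indFun _ Chars.isCharacter_one
  have hvan : ∀ n : N, n ≠ 1 → f n * conj ((φ : N → ℂ) n) = 0 := by
    intro n hn
    by_cases hfn : f n = 0
    · rw [hfn, zero_mul]
    obtain ⟨x, hx⟩ : ∃ x : G, x⁻¹ * (n : G) * x ∈ (P : Subgroup G) := by
      by_contra hc
      push Not at hc
      refine hfn ?_
      rw [hf, Chars.indFun_apply, Finset.sum_eq_zero fun x _ => ?_, mul_zero]
      exact Chars.extendByZero_of_not_mem _ _ (hc x)
    obtain ⟨j, hj⟩ := P.isPGroup' ⟨_, hx⟩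
    have h1 : (x⁻¹ * (n : G) * x) ^ (2 ^ j) = 1 := congrArg Subtype.val hj
    have h2' : (n : N) ^ (2 ^ j) = 1 := by
      refine Subtype.ext ?_
      rw [Subgroup.coe_pow, Subgroup.coe_one]
      calc (n : G) ^ (2 ^ j) = (x * (x⁻¹ * (n : G) * x) * x⁻¹) ^ (2 ^ j) := by group
        _ = 1 := by rw [conj_pow, h1, mul_one, mul_inv_cancel]
    obtain ⟨i, -, hi⟩ := (Nat.dvd_prime_pow Nat.prime_two).1 (orderOf_dvd_of_pow_eq_one h2')
    have hi0 : i ≠ 0 := by
      rintro rfl
      exact hn (orderOf_eq_one_iff.1 (by simpa using hi))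
    obtain ⟨a, ρ, hρ, hρe⟩ := φ.2
    haveI := hρ
    have ha : d = a := by
      have h := congrFun hρe.symm 1
      rw [hd1, Representation.char_one, Module.finrank_fin_fun] at h
      exact_mod_cast h
    have h0 : ρ.character n = 0 := Cfsg.Agent.S0165.result ρ 2 v Nat.prime_two
      (Nat.ordProj_dvd _ _) (Nat.pow_succ_factorization_not_dvd Nat.card_pos.ne' Nat.prime_two)
      (by rw [Module.finrank_fin_fun, ← ha, hm]; exact dvd_mul_right _ _) n
      (by rw [hi]; exact dvd_pow_self 2 hi0)
    rw [← hρe, h0, map_zero, mul_zero]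
  have hf1 : f 1 = ((P : Subgroup G).index : ℂ) := by
    rw [hf, Chars.indFun_apply, Finset.sum_congr rfl fun x _ => by
      rw [mul_one, inv_mul_cancel, Chars.extendByZero_of_mem _ _ (one_mem _)], Finset.sum_const,
      Finset.card_univ, nsmul_eq_mul, mul_one, ← Nat.card_eq_fintype_card,
      ← (P : Subgroup G).card_mul_index, Nat.cast_mul, ← mul_assoc,
      inv_mul_cancel₀ Chars.card_ne_zero, one_mul]
  have hfφ : classInner (fun n : N => f n) (φ : N → ℂ) = (m : ℂ) := by
    rw [Chars.classInner_def, Finset.sum_eq_single_of_mem (1 : N) (Finset.mem_univ _)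
      fun n _ hn => hvan n hn, hd1, map_natCast, Subgroup.coe_one, hf1, ← hPidx, hm]
    push_cast
    have hi : ((P : Subgroup G).index : ℂ) ≠ 0 := by
      exact_mod_cast Subgroup.index_ne_zero_of_finite
    field_simp
  obtain ⟨c, hc, hsum⟩ := Chars.exists_eq_sum_nsmul hfch
  have he' : ∀ χ : IrrCharacter G, ∃ e : ℕ,
      classInner (fun n : N => (χ : G → ℂ) n) (φ : N → ℂ) = e := fun χ =>
    Chars.exists_classInner_eq_nat (Chars.isCharacter_restrict (Chars.irr_isCharacter χ) N)
      (Chars.irr_isCharacter φ)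
  choose e he using he'
  have hce : ∑ χ : IrrCharacter G, c χ * e χ = m := by
    have h1 : (fun n : N => f n) =
        ∑ χ : IrrCharacter G, (c χ : ℂ) • fun n : N => (χ : G → ℂ) n := by
      funext n
      rw [hsum]
      simp [Finset.sum_apply, nsmul_eq_mul]
    rw [h1, Chars.classInner_sum_left] at hfφ
    simp only [Chars.classInner_smul_left, he] at hfφ
    exact_mod_cast hfφ
  have hcP : ∀ χ : IrrCharacter G,
      classInner (fun x : (P : Subgroup G) => (χ : G → ℂ) x) (fun _ => 1) = (c χ : ℂ) := fun χ => by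
    rw [← Chars.classInner_indFun_right _ _ (Chars.isClassFunction_irr χ),
      ← Chars.classInner_conj_symm, ← hf, hc χ, map_natCast]
  -- complex conjugation preserves both multiplicities
  have hsc : ∀ χ : IrrCharacter G, c (DegreeGraph.irrStar χ) = c χ := by
    intro χ
    have h1 := hcP (DegreeGraph.irrStar χ)
    have h3 : classInner (fun x : (P : Subgroup G) => (DegreeGraph.irrStar χ : G → ℂ) x) (fun _ => 1) =
        conj (c χ : ℂ) := by
      rw [← hcP χ, Chars.classInner_def, Chars.classInner_def, map_mul, map_inv₀, map_natCast, map_sum]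
      simp only [map_one, mul_one]
      rfl
    rw [h3, map_natCast] at h1
    exact_mod_cast h1.symm
  obtain ⟨g, hg⟩ := hconj
  have hφconj : Chars2.conjFun (φ : N → ℂ) g⁻¹ = fun n => conj ((φ : N → ℂ) n) := by
    funext n
    refine hg n _ ?_
    simp
  have hse : ∀ χ : IrrCharacter G, e (DegreeGraph.irrStar χ) = e χ := by
    intro χ
    have h1 := he (DegreeGraph.irrStar χ)
    have h3 : classInner (fun n : N => (DegreeGraph.irrStar χ : G → ℂ) n) (φ : N → ℂ) =
        conj (classInner (fun n : N => (χ : G → ℂ) n) (Chars2.conjFun (φ : N → ℂ) g⁻¹)) := by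
      rw [hφconj, Chars.classInner_def, Chars.classInner_def, map_mul, map_inv₀, map_natCast, map_sum]
      congr 1
      refine Finset.sum_congr rfl fun n _ => ?_
      rw [map_mul, Complex.conj_conj]
      rfl
    rw [h3, Chars2.classInner_restrict_conjFun (Chars.isClassFunction_irr χ), he, map_natCast] at h1
    exact_mod_cast h1.symm
  -- a real character with both multiplicities odd
  obtain ⟨χ, hfix, hoc, hoe⟩ : ∃ χ : IrrCharacter G,
      DegreeGraph.irrStar χ = χ ∧ Odd (c χ) ∧ Odd (e χ) := by
    by_contra hno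
    push Not at hno
    have h0 : ∑ χ : IrrCharacter G, ((c χ * e χ : ℕ) : ZMod 2) = 0 := by
      refine Finset.sum_involution (fun χ _ => DegreeGraph.irrStar χ) (fun χ _ => ?_) (fun χ _ hne => ?_)
        (fun χ _ => Finset.mem_univ _) (fun χ _ => ?_)
      · rw [hsc, hse]
        exact CharTwo.add_self_eq_zero _
      · intro hfix
        apply hne
        rw [ZMod.natCast_eq_zero_iff_even, Nat.even_mul]
        by_contra hodd
        push Not at hodd
        simp only [Nat.not_even_iff_odd] at hodd
        exact absurd hodd.2 (hno χ hfix hodd.1)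
      · exact Subtype.ext (funext fun x => Complex.conj_conj _)
    rw [← Nat.cast_sum, hce, ZMod.natCast_eq_zero_iff_even] at h0
    exact (Nat.not_even_iff_odd.2 hmodd) h0
  refine ⟨χ, Chars2.indicator_eq_one_of_odd_mult χ.2 ((DegreeGraph.irrStar_eq_iff χ).1 hfix) _
    (hcP χ) hoc, ?_⟩
  have hone : e χ = 1 := by
    have hne : classInner (fun n : N => (χ : G → ℂ) n) (φ : N → ℂ) ≠ 0 := by
      rw [he]; exact_mod_cast hoe.pos.ne'
    have hdeg := Chars2.clifford_degree χ.2 φ.2 hne
    rw [he] at hdeg
    obtain ⟨a, ρ, hρ, hρe⟩ := φ.2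
    obtain ⟨b, σ, hσ, hσe⟩ := χ.2
    haveI := hρ
    haveI := hσ
    have hnt := Chars2.nontrivial_of_classInner (N := N) (σ := σ) ρ (by rw [hρe, hσe]; exact hne)
    obtain ⟨-, hdvd⟩ := Chars2.finrank_dvd_of_constituent ρ σ hnt
    rw [Module.finrank_fin_fun, Module.finrank_fin_fun, hk] at hdvd
    rw [← congrFun hσe 1, ← congrFun hρe 1, Representation.char_one, Representation.char_one,
      Module.finrank_fin_fun, Module.finrank_fin_fun] at hdeg
    have hb : b = (Chars2.inertiaSub (φ : N → ℂ)).index * e χ * a := by exact_mod_cast hdeg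
    have ha : 0 < a := by
      have h := congrFun hρe 1
      rw [Representation.char_one, Module.finrank_fin_fun, hd1] at h
      have : a = d := by exact_mod_cast h
      omega
    rw [hb, Nat.mul_div_cancel _ ha] at hdvd
    obtain ⟨i, -, hi⟩ := (Nat.dvd_prime_pow Nat.prime_two).1 ((dvd_mul_left _ _).trans hdvd)
    rcases i with _ | i
    · simpa using hi
    · exact absurd hoe (Nat.not_odd_iff_even.2 ⟨2 ^ i, by rw [hi, pow_succ]; ring⟩)
  rw [← Chars.classInner_def, he, hone, Nat.cast_one]

end Cfsg.Agent.S4872
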