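import Cfsg.Statements.S4885
import Cfsg.Agent.DegreeGraph.Principal
import Cfsg.Agent.DegreeGraph.PPrimeDegree
import Cfsg.Agent.Core.PiSeparable
-- import your own Cfsg.Agent.* helpers here

set_option autoImplicit false
open Cfsg

namespace Cfsg.Agent.S4885

open Cfsg

/-- One direction of the hypothesis: the quotient by `O_{p'} O_{q'}` has trivial `p'`-core and is
trivial only if `p` does not divide the order. -/
theorem one_side {G : Type*} [Group G] [Finite G] (p q : ℕ) [Fact p.Prime] [Fact q.Prime]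
    (hps : IsPSolvable p G) (Mp Mq : Ideal AlgInt) [Mp.IsMaximal] [Mq.IsMaximal]
    (hMp : (p : AlgInt) ∈ Mp) (hMq : (q : AlgInt) ∈ Mq)
    (h : ∀ χ : IrrCharacter G, χ ∈ principalBlock Mp G → ¬ p ∣ charDegree (χ : G → ℂ) →
      χ ∈ principalBlock Mq G) :
    pPrimeCore p (G ⧸ (pPrimeCore p G ⊔ pPrimeCore q G)) = ⊥ ∧
      (pPrimeCore p G ⊔ pPrimeCore q G = ⊤ → ¬ p ∣ Nat.card G) := by
  classical
  set M := pPrimeCore p G with hM
  set L := pPrimeCore q G with hL
  set π := QuotientGroup.mk' M with hπdef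
  have hπ : Function.Surjective π := QuotientGroup.mk'_surjective M
  have hc : pPrimeCore p (G ⧸ M) = ⊥ := Core.pPrimeCore_quotient_pPrimeCore p G
  have hQ := Core.centralizer_pCore_le (Core.isPSolvable_quotient hps M) hc
  obtain ⟨P⟩ : Nonempty (Sylow p (G ⧸ M)) := inferInstance
  set C := (commutator (P : Subgroup (G ⧸ M))).map (P : Subgroup (G ⧸ M)).subtype with hC
  have hCP : C ≤ (P : Subgroup (G ⧸ M)) := Subgroup.map_subtype_le _
  -- all characters of degree prime to `p` of the quotient are trivial on the image of `L`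
  have htriv : ∀ χ : IrrCharacter (G ⧸ M), ¬ p ∣ charDegree (χ : (G ⧸ M) → ℂ) → ∀ x ∈ L,
      (χ : (G ⧸ M) → ℂ) (π x) = (χ : (G ⧸ M) → ℂ) 1 := by
    intro χ hχ x hx
    have hψ : IsIrrCharacter G (fun g => (χ : (G ⧸ M) → ℂ) (π g)) :=
      Chars.isIrrCharacter_comp_surjective χ.2 π hπ
    have hmem := DegreeGraph.mem_principal_of_surjective π hπ
      (DegreeGraph.mem_principal_of_centralizer_le hMp (Core.isPGroup_pCore p (G ⧸ M)) hQ hχ)
      (ψ := ⟨_, hψ⟩) rfl
    have hdeg : charDegree (fun g => (χ : (G ⧸ M) → ℂ) (π g)) =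
        charDegree (χ : (G ⧸ M) → ℂ) := by
      simp [charDegree]
    have := DegreeGraph.apply_eq_of_mem_principal hMq (K := L)
      (Core.not_dvd_card_pPrimeCore q G) (h ⟨_, hψ⟩ hmem (by rw [hdeg]; exact hχ)) hx
    simpa using this
  have hN : L.map π ≤ C := by
    have : (L.map π).Normal := Subgroup.Normal.map inferInstance π hπ
    refine DegreeGraph.le_commutator_of_inf_le P hc _ ?_
    rintro y ⟨⟨x, hx, rfl⟩, hyP⟩
    exact ⟨⟨π x, hyP⟩, DegreeGraph.mem_commutator_of_forall_ker P hyP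
      (fun χ hχ => htriv χ hχ x hx), rfl⟩
  have hML : ∀ x ∈ M ⊔ L, π x ∈ C := by
    intro x hx
    refine hN ?_
    rw [← Subgroup.mem_comap, Subgroup.comap_map_eq, QuotientGroup.ker_mk']
    rwa [sup_comm] at hx
  refine ⟨?_, fun htop hdvd => ?_⟩
  · set π₁ := QuotientGroup.mk' (M ⊔ L) with hπ₁def
    set Y := (pPrimeCore p (G ⧸ (M ⊔ L))).comap π₁ with hY
    have : (Y.map π).Normal := Subgroup.Normal.map inferInstance π hπ
    have hYC : Y.map π ≤ C := by
      refine DegreeGraph.le_commutator_of_inf_le P hc _ ?_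
      rintro y ⟨⟨a, ha, rfl⟩, hyP⟩
      obtain ⟨k, hk⟩ := IsPGroup.iff_orderOf.1 P.isPGroup' ⟨π a, hyP⟩
      rw [Subgroup.orderOf_mk] at hk
      have h1 : a ^ p ^ k ∈ M := by
        rw [← QuotientGroup.ker_mk' M, MonoidHom.mem_ker, map_pow, ← hk]
        exact pow_orderOf_eq_one _
      have h2 : orderOf (π₁ a) ∣ p ^ k := by
        refine orderOf_dvd_of_pow_eq_one ?_
        rw [← map_pow, ← MonoidHom.mem_ker, QuotientGroup.ker_mk']
        exact le_sup_left (a := M) h1
      have h3 : orderOf (π₁ a) ∣ Nat.card (pPrimeCore p (G ⧸ (M ⊔ L))) :=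
        Subgroup.orderOf_dvd_natCard _ ha
      have h4 : orderOf (π₁ a) = 1 :=
        Nat.eq_one_of_dvd_coprimes
          ((Core.card_pPrimeCore_coprime p (G ⧸ (M ⊔ L))).symm.pow_left k) h2 h3
      rw [orderOf_eq_one_iff, ← MonoidHom.mem_ker, QuotientGroup.ker_mk'] at h4
      exact hML a h4
    rw [← le_bot_iff]
    intro z hz
    obtain ⟨a, rfl⟩ := QuotientGroup.mk'_surjective (M ⊔ L) z
    have hb := hYC ⟨a, hz, rfl⟩
    obtain ⟨k, hk⟩ := IsPGroup.iff_orderOf.1 P.isPGroup' ⟨π a, hCP hb⟩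
    rw [Subgroup.orderOf_mk] at hk
    have h1 : a ^ p ^ k ∈ M := by
      rw [← QuotientGroup.ker_mk' M, MonoidHom.mem_ker, map_pow, ← hk]
      exact pow_orderOf_eq_one _
    have h2 : orderOf (π₁ a) ∣ p ^ k := by
      refine orderOf_dvd_of_pow_eq_one ?_
      rw [← map_pow, ← MonoidHom.mem_ker, QuotientGroup.ker_mk']
      exact le_sup_left (a := M) h1
    have h3 : orderOf (π₁ a) ∣ Nat.card (pPrimeCore p (G ⧸ (M ⊔ L))) :=
        Subgroup.orderOf_dvd_natCard _ hz
    rw [Subgroup.mem_bot]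
    exact orderOf_eq_one_iff.1 (Nat.eq_one_of_dvd_coprimes
      ((Core.card_pPrimeCore_coprime p (G ⧸ (M ⊔ L))).symm.pow_left k) h2 h3)
  · have hPtop : C = ⊤ := eq_top_iff.2 fun y _ => by
      obtain ⟨x, rfl⟩ := hπ y
      exact hML x (htop ▸ Subgroup.mem_top x)
    have hcomm : commutator (P : Subgroup (G ⧸ M)) = ⊤ := by
      rw [eq_top_iff]
      intro x _
      obtain ⟨z, hz, hze⟩ : (x : G ⧸ M) ∈ C := hPtop ▸ Subgroup.mem_top _
      rwa [Subtype.ext hze] at hz
    have hnil : Group.IsNilpotent (P : Subgroup (G ⧸ M)) := P.isPGroup'.isNilpotent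
    have htriv' : Subsingleton (P : Subgroup (G ⧸ M)) := by
      by_contra hns
      rw [not_subsingleton_iff_nontrivial] at hns
      exact (Group.IsSolvable.commutator_lt_top_of_nontrivial
        (P : Subgroup (G ⧸ M))).ne hcomm
    have hcard : Nat.card (P : Subgroup (G ⧸ M)) = 1 := Nat.card_unique
    have h5 : ¬ p ∣ Nat.card (G ⧸ M) := by
      rw [← (P : Subgroup (G ⧸ M)).card_mul_index, hcard, one_mul]
      exact P.not_dvd_index
    rw [Subgroup.card_eq_card_quotient_mul_card_subgroup M] at hdvd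
    rcases (Fact.out : p.Prime).dvd_mul.1 hdvd with h6 | h6
    · exact h5 h6
    · exact Core.not_dvd_card_pPrimeCore p G h6

/-- Let p and q be primes dividing the order of the finite group G, and suppose G is p-solvable and q-solvable. Fix maximal ideals of the algebraic integers containing p and q, defining the principal p-block and the principal q-block. If the irreducible characters of degree prime to p in the principal p-block are exactly the irreducible characters of degree prime to q in the principal q-block, then p = q. -/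
theorem result {G : Type*} [Group G] [Finite G] (p q : ℕ) [Fact p.Prime] [Fact q.Prime] (hp : p ∣ Nat.card G) (hq : q ∣ Nat.card G) (hps : Cfsg.IsPSolvable p G) (hqs : Cfsg.IsPSolvable q G) (Mp Mq : Ideal Cfsg.AlgInt) (hMp : Cfsg.IsPModular p Mp) (hMq : Cfsg.IsPModular q Mq) (h : ∀ χ : Cfsg.IrrCharacter G, (χ ∈ Cfsg.principalBlock Mp G ∧ ¬ p ∣ Cfsg.charDegree (χ : G → ℂ)) ↔ (χ ∈ Cfsg.principalBlock Mq G ∧ ¬ q ∣ Cfsg.charDegree (χ : G → ℂ))) : p = q := by
  by_contra hne
  haveI := hMp.2.1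
  haveI := hMq.2.1
  obtain ⟨h1, h2⟩ := one_side p q hps Mp Mq hMp.2.2 hMq.2.2
    (fun χ hχ hd => ((h χ).1 ⟨hχ, hd⟩).1)
  obtain ⟨h3, -⟩ := one_side q p hqs Mq Mp hMq.2.2 hMp.2.2
    (fun χ hχ hd => ((h χ).2 ⟨hχ, hd⟩).1)
  set W := pPrimeCore p G ⊔ pPrimeCore q G with hW
  have h3' : pPrimeCore q (G ⧸ W) = ⊥ := by
    rw [Core.pPrimeCore_eq_bot_congr (QuotientGroup.quotientMulEquivOfEq
      (hW.trans (sup_comm _ _)))]
    exact h3
  have hO : pCore p (G ⧸ W) = ⊥ :=
    le_bot_iff.1 ((Core.pCore_le_pPrimeCore_of_ne hne).trans h3'.le)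
  have hC := Core.centralizer_pCore_le (Core.isPSolvable_quotient hps W) h1
  rw [hO] at hC
  refine h2 ?_ hp
  rw [eq_top_iff]
  intro x _
  have hx : (QuotientGroup.mk' W x) = 1 := Subgroup.mem_bot.1 (hC (by
    rw [Subgroup.mem_centralizer_iff]
    intro y hy
    rw [SetLike.mem_coe, Subgroup.mem_bot] at hy
    rw [hy, one_mul, mul_one]))
  rwa [← MonoidHom.mem_ker, QuotientGroup.ker_mk'] at hx

end Cfsg.Agent.S4885
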