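import Cfsg.Statements.S4888
import Cfsg.Agent.DegreeGraph.Principal
import Cfsg.Agent.DegreeGraph.PrincipalUnit
import Cfsg.Agent.DegreeGraph.PPrimeDegree
-- import your own Cfsg.Agent.* helpers here

set_option autoImplicit false
open Cfsg

namespace Cfsg.Agent.S4888

open Cfsg
open scoped ComplexConjugate

/-- The easy direction: trivial on a normal complement of a Sylow subgroup and of degree prime to
`p` implies linear. -/
theorem degree_one {G : Type*} [Group G] [Finite G] (p : ℕ) [Fact p.Prime] (P : Sylow p G)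
    (N : Subgroup G) (hc : N.IsComplement' (P : Subgroup G)) (χ : IrrCharacter G)
    (htriv : ∀ n ∈ N, (χ : G → ℂ) n = (χ : G → ℂ) 1) (hd : ¬ p ∣ charDegree (χ : G → ℂ)) :
    charDegree (χ : G → ℂ) = 1 := by
  classical
  have := Fintype.ofFinite G
  have hres : IsIrrCharacter (P : Subgroup G) (fun x => (χ : G → ℂ) x) := by
    refine Chars.isIrrCharacter_of_norm_one
      (Chars.isCharacter_restrict (Chars.irr_isCharacter χ) (P : Subgroup G)) ?_
    have h1 := Chars.classInner_self_irr χ.2
    rw [Chars.classInner_def] at h1 ⊢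
    rw [← h1, ← Subgroup.IsComplement'.card_mul hc, Nat.cast_mul, mul_inv]
    rw [mul_comm (Nat.card N : ℂ)⁻¹, mul_assoc]
    congr 1
    rw [← Equiv.sum_comp (Equiv.ofBijective _ hc), Fintype.sum_prod_type]
    have : ∀ a : N, (∑ b : (P : Subgroup G),
        (χ : G → ℂ) ((a : G) * b) * conj ((χ : G → ℂ) ((a : G) * b))) =
        ∑ b : (P : Subgroup G), (χ : G → ℂ) b * conj ((χ : G → ℂ) b) := fun a =>
      Finset.sum_congr rfl fun b _ => by
        rw [Chars.apply_mul_of_mem_charKer (Chars.irr_isCharacter χ) _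
          ((Chars.mem_charKer (Chars.irr_isCharacter χ)).2 (htriv _ a.2))]
    refine Eq.symm ((congrArg _ (Finset.sum_congr rfl fun a _ => this a)).trans ?_)
    rw [Finset.sum_const, Finset.card_univ, nsmul_eq_mul, ← Nat.card_eq_fintype_card,
      inv_mul_cancel_left₀ (Chars.subgroup_card_ne_zero N)]
  obtain ⟨n, hn, h1, hdvd⟩ := Chars.irr_degree_dvd_card hres
  have hdeg : charDegree (χ : G → ℂ) = n := by
    have : (χ : G → ℂ) 1 = n := by simpa using h1
    simp [charDegree, this]
  obtain ⟨k, hk⟩ := IsPGroup.iff_card.1 P.isPGroup'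
  obtain ⟨j, -, hj⟩ := (Nat.dvd_prime_pow (Fact.out : p.Prime)).1 (hk ▸ hdvd)
  rw [hdeg] at hd ⊢
  rcases j with - | j
  · simpa using hj
  · exact absurd (hj ▸ dvd_pow_self p j.succ_ne_zero) hd

/-- Let G be a finite group, p a prime and M a maximal ideal of the algebraic integers containing p. Then all height-zero irreducible characters of the principal p-block of G (equivalently, all its characters of degree prime to p) have the same degree if and only if G has a normal p-complement. -/
theorem result {G : Type*} [Group G] [Finite G] (p : ℕ) [Fact p.Prime] (M : Ideal Cfsg.AlgInt) (hM : Cfsg.IsPModular p M) : (∃ d : ℕ, ∀ χ : Cfsg.IrrCharacter G, χ ∈ (Cfsg.principalBlock M G) → Cfsg.blockHeight p (Cfsg.principalBlock M G) (χ : G → ℂ) = 0 → Cfsg.charDegree (χ : G → ℂ) = d) ↔ Cfsg.HasNormalPComplement p G := by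
  classical
  have := Fintype.ofFinite G
  have hp := (Fact.out : p.Prime)
  obtain ⟨-, hMmax, hpM⟩ := hM
  haveI := hMmax
  set B := Cfsg.principalBlock M G with hB
  have h1deg : charDegree ((Blocks.oneChar G : IrrCharacter G) : G → ℂ) = 1 := by
    simp [charDegree, Blocks.coe_oneChar]
  have hinf : sInf ((fun ψ : IrrCharacter G =>
      (charDegree (ψ : G → ℂ)).factorization p) '' B) = 0 := by
    refine Nat.sInf_eq_zero.2 (Or.inl ⟨Blocks.oneChar G, Blocks.one_mem_principal, ?_⟩)
    show (charDegree _).factorization p = 0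
    rw [h1deg]; simp
  have hht : ∀ χ : IrrCharacter G,
      blockHeight p B (χ : G → ℂ) = 0 ↔ ¬ p ∣ charDegree (χ : G → ℂ) := by
    intro χ
    rw [blockHeight, hinf, Nat.sub_zero, Nat.factorization_eq_zero_iff]
    constructor
    · rintro (h | h | h)
      · exact absurd hp h
      · exact h
      · exact absurd h (Blocks.charDegree_eq χ.2).2.ne'
    · exact fun h => Or.inr (Or.inl h)
  constructor
  · rintro ⟨d, hd⟩
    have hd1 : d = 1 := (hd (Blocks.oneChar G) Blocks.one_mem_principal
      ((hht _).2 (by rw [h1deg]; exact hp.not_dvd_one))).symm.trans h1deg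
    obtain ⟨P⟩ : Nonempty (Sylow p G) := inferInstance
    have hsub : pResidual p G ⊓ (P : Subgroup G) ≤
        (commutator (P : Subgroup G)).map (P : Subgroup G).subtype := by
      rintro x ⟨hxR, hxP⟩
      refine ⟨⟨x, hxP⟩, DegreeGraph.mem_commutator_of_forall_hom fun φ => ?_, rfl⟩
      obtain ⟨χ, hχB, hχd, hne⟩ := DegreeGraph.exists_principal_over_linear hpM P φ
      have h1 : (χ : G → ℂ) 1 = 1 := by
        rw [(Blocks.charDegree_eq χ.2).1, hd χ hχB ((hht χ).2 hχd), hd1, Nat.cast_one]
      obtain ⟨Φ, hΦ⟩ := Chars.exists_hom_of_degree_one (Chars.irr_isCharacter χ) h1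
      have hres : ∀ y : (P : Subgroup G), Φ y = φ y := by
        intro y
        by_contra hy
        refine hne ?_
        rw [Chars.classInner_irr (Chars.isIrrCharacter_hom φ) (Chars.isIrrCharacter_of_degree_one
          (Chars.isCharacter_restrict (Chars.irr_isCharacter χ) (P : Subgroup G))
          (by simpa using h1)), if_neg]
        intro he
        exact hy (Units.ext ((congrFun hΦ (y : G)).symm.trans (congrFun he y).symm))
      let Ψ : G →* ℂˣ := (powMonoidHom (Blocks.ppExp p G)).comp Φ
      have hΨ : IsPGroup p Ψ.range := by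
        rintro ⟨_, g, rfl⟩
        obtain ⟨k, hk⟩ := Blocks.exists_orderOf_ppart (p := p) g
        refine ⟨k, Subtype.ext ?_⟩
        simp only [SubmonoidClass.coe_pow, OneMemClass.coe_one, Ψ, MonoidHom.comp_apply,
          powMonoidHom_apply]
        rw [← map_pow, ← map_pow, ← hk]
        show Φ (Blocks.ppart p g ^ orderOf (Blocks.ppart p g)) = 1
        rw [pow_orderOf_eq_one, map_one]
      have h2 := Transfer.pResidual_le_ker hΨ Ψ.rangeRestrict hxR
      rw [MonoidHom.mem_ker, Subtype.ext_iff, MonoidHom.coe_rangeRestrict] at h2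
      have h3 : x ^ Blocks.ppExp p G = x := by
        obtain ⟨k, hk⟩ := IsPGroup.iff_orderOf.1 P.isPGroup' ⟨x, hxP⟩
        exact Blocks.pow_ppExp_of_ppow ⟨k, by rw [← hk, Subgroup.orderOf_mk]⟩
      simp only [Ψ, MonoidHom.comp_apply, powMonoidHom_apply, OneMemClass.coe_one] at h2
      rw [← map_pow, h3] at h2
      rw [← hres ⟨x, hxP⟩, h2]
    have hR := Transfer.hasNormalPComplement_of_inf_le_frattini P (pResidual p G)
      (hsub.trans (Subgroup.map_mono (FGS3.commutator_le_frattini P.isPGroup')))
    rw [Transfer.hasNormalPComplement_iff_coprime_pResidual] at hR ⊢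
    rwa [Transfer.pResidual_subgroup_eq_top, Subgroup.card_top] at hR
  · rintro ⟨P, N, hN, hc⟩
    refine ⟨1, fun χ hχ h0 => degree_one p P N hc χ (fun n hn =>
      DegreeGraph.apply_eq_of_mem_principal hpM ?_ hχ hn) ((hht χ).1 h0)⟩
    rw [← hc.index_eq_card]
    exact P.not_dvd_index

end Cfsg.Agent.S4888
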