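import Cfsg.Statements.S4911
import Cfsg.Agent.DegreeGraph.PermutationMod
-- import your own Cfsg.Agent.* helpers here

set_option autoImplicit false
open Cfsg

namespace Cfsg.Agent.S4911

/-- Let P and K be subgroups of a finite group with P a p-group normalizing K and K of order prime to p. Then the number of P-invariant real-valued irreducible complex characters of K equals the number of conjugacy classes of K that are real (closed under inversion) and P-invariant. Moreover, if every real-valued irreducible character of K is P-invariant, then every real element of K (one conjugate in K to its inverse) is conjugate in K to an element centralized by P. -/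
theorem result {G : Type*} [Group G] [Finite G] (p : ℕ) [Fact p.Prime] (P K : Subgroup G) (hP : IsPGroup p ↥P) (hK : ¬ p ∣ Nat.card ↥K) (hPK : P ≤ Subgroup.normalizer (K : Set G)) : Nat.card {θ : Cfsg.IrrCharacter ↥K // (∀ k : ↥K, ((θ : ↥K → ℂ) k).im = 0) ∧ (∀ x ∈ P, ∀ k k' : ↥K, (k' : G) = x * (k : G) * x⁻¹ → (θ : ↥K → ℂ) k' = (θ : ↥K → ℂ) k)} = Nat.card {c : ConjClasses ↥K // (∀ k : ↥K, ConjClasses.mk k = c → IsConj k k⁻¹) ∧ ∀ k : ↥K, ConjClasses.mk k = c → ∀ x ∈ P, ∀ k' : ↥K, (k' : G) = x * (k : G) * x⁻¹ → ConjClasses.mk k' = c} ∧ ((∀ θ : Cfsg.IrrCharacter ↥K, (∀ k : ↥K, ((θ : ↥K → ℂ) k).im = 0) → (∀ x ∈ P, ∀ k k' : ↥K, (k' : G) = x * (k : G) * x⁻¹ → (θ : ↥K → ℂ) k' = (θ : ↥K → ℂ) k)) → ∀ k : ↥K, IsConj k k⁻¹ → ∃ k' : ↥K, IsConj k k' ∧ ∀ x ∈ P, x * (k' : G) * x⁻¹ = (k' : G)) := by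
  classical
  haveI : Fintype K := Fintype.ofFinite K
  haveI : Finite (Cfsg.IrrCharacter K) := Chars.irr_finite
  let φ : ↥P →* MulAut ↥K :=
    (Subgroup.normalizerMonoidHom K).comp (Subgroup.inclusion hPK)
  have hφ : ∀ (u : P) (k : K), ((φ u k : K) : G) = (u : G) * (k : G) * (u : G)⁻¹ :=
    fun u k => rfl
  have hirr : ∀ θ : Cfsg.IrrCharacter K,
      (∀ u, DegreeGraph.irrPerm (φ u) θ = θ) ↔
        (∀ x ∈ P, ∀ k k' : ↥K, (k' : G) = x * (k : G) * x⁻¹ →
          (θ : ↥K → ℂ) k' = (θ : ↥K → ℂ) k) := by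
    intro θ
    constructor
    · intro h x hx k k' hk
      have h1 := congrFun (congrArg Subtype.val (h ⟨x, hx⟩)) k'
      rw [DegreeGraph.irrPerm_apply] at h1
      rw [← h1]
      refine congrArg (θ : K → ℂ) ((MulEquiv.symm_apply_eq _).2 (Subtype.ext ?_))
      rw [hφ]; exact hk
    · intro h u
      refine Subtype.ext (funext fun k => ?_)
      rw [DegreeGraph.irrPerm_apply]
      refine (h u u.2 _ k ?_).symm
      rw [← hφ, MulEquiv.apply_symm_apply]
  have hcls : ∀ c : ConjClasses K,
      (∀ u, DegreeGraph.clsPerm (φ u) c = c) ↔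
        (∀ k : ↥K, ConjClasses.mk k = c → ∀ x ∈ P, ∀ k' : ↥K,
          (k' : G) = x * (k : G) * x⁻¹ → ConjClasses.mk k' = c) := by
    intro c
    constructor
    · intro h k hk x hx k' hk'
      have h1 := h ⟨x, hx⟩
      rw [← hk, DegreeGraph.clsPerm_mk] at h1
      rw [← hk, ← h1]
      exact congrArg ConjClasses.mk (Subtype.ext (hk'.trans (hφ ⟨x, hx⟩ k).symm))
    · intro h u
      induction c using Quotient.inductionOn with | h k => ?_
      exact h k rfl u u.2 (φ u k) (hφ u k)
  have hclsr : ∀ c : ConjClasses K, DegreeGraph.clsInv c = c ↔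
      ∀ k : ↥K, ConjClasses.mk k = c → IsConj k k⁻¹ := by
    intro c
    constructor
    · intro h k hk
      exact (DegreeGraph.clsInv_mk_eq_iff k).1 (hk ▸ h)
    · intro h
      have h1 := h _ (Blocks.mk_clsRep c)
      rw [← Blocks.mk_clsRep c]
      exact (DegreeGraph.clsInv_mk_eq_iff _).2 h1
  obtain ⟨-, hreal⟩ := DegreeGraph.card_fixed_real_eq hP hK φ
  refine ⟨?_, ?_⟩
  · refine ((Nat.card_congr (Equiv.subtypeEquivRight fun θ => ?_)).trans hreal).trans
      (Nat.card_congr (Equiv.subtypeEquivRight fun c => ?_))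
    · rw [hirr θ, DegreeGraph.irrStar_eq_iff]
    · rw [hcls c, hclsr c]
  · intro hall k hk
    have h1 : Nat.card {χ : Cfsg.IrrCharacter K // DegreeGraph.irrStar χ = χ} =
        Nat.card {χ : Cfsg.IrrCharacter K //
          DegreeGraph.irrStar χ = χ ∧ ∀ u, DegreeGraph.irrPerm (φ u) χ = χ} :=
      Nat.card_congr (Equiv.subtypeEquivRight fun χ => ⟨fun h =>
        ⟨h, (hirr χ).2 (hall χ ((DegreeGraph.irrStar_eq_iff χ).1 h))⟩, fun h => h.1⟩)
    rw [DegreeGraph.card_real_eq, hreal] at h1
    -- so every real class is invariant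
    have hinv : ∀ C : ConjClasses K, DegreeGraph.clsInv C = C →
        ∀ u, DegreeGraph.clsPerm (φ u) C = C := by
      intro C hC u
      simp only [Nat.card_eq_fintype_card, Fintype.card_subtype] at h1
      have hsub : (Finset.univ.filter fun C : ConjClasses K =>
          DegreeGraph.clsInv C = C ∧ ∀ u, DegreeGraph.clsPerm (φ u) C = C) =
          Finset.univ.filter fun C : ConjClasses K => DegreeGraph.clsInv C = C :=
        Finset.eq_of_subset_of_card_le
          (fun C h => Finset.mem_filter.2 ⟨Finset.mem_univ _, (Finset.mem_filter.1 h).2.1⟩)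
          h1.le
      exact (Finset.mem_filter.1 ((Finset.ext_iff.1 hsub C).2
        (Finset.mem_filter.2 ⟨Finset.mem_univ C, hC⟩))).2.2 u
    have hC := hinv _ ((DegreeGraph.clsInv_mk_eq_iff k).2 hk)
    let act : MulAction P {y : K // IsConj k y} :=
      { smul := fun u y => ⟨φ u y.1, by
          have h2 := hC u
          rw [DegreeGraph.clsPerm_mk, ConjClasses.mk_eq_mk_iff_isConj] at h2
          exact h2.symm.trans ((φ u).toMonoidHom.map_isConj y.2)⟩
        one_smul := fun y => Subtype.ext (by show φ 1 y.1 = y.1; rw [map_one]; rfl)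
        mul_smul := fun u w y => Subtype.ext (by
          show φ (u * w) y.1 = φ u (φ w y.1)
          rw [map_mul]; rfl) }
    have key := @IsPGroup.card_modEq_card_fixedPoints p P _ hP _ {y : K // IsConj k y} act _
    have hne : (@MulAction.fixedPoints P {y : K // IsConj k y} _ act).Nonempty := by
      by_contra hempty
      rw [Set.not_nonempty_iff_eq_empty] at hempty
      rw [hempty] at key
      simp only [Nat.card_eq_fintype_card, Set.card_empty] at key
      refine hK (Nat.dvd_trans ?_ (Subgroup.index_dvd_card (Subgroup.centralizer ({k} : Set K))))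
      rw [← Chars.card_filter_isConj k, ← Fintype.card_subtype]
      exact Nat.modEq_zero_iff_dvd.1 key
    obtain ⟨y, hy⟩ := hne
    exact ⟨y.1, y.2, fun x hx =>
      (hφ ⟨x, hx⟩ y.1).symm.trans (congrArg (fun z : K => (z : G)) (congrArg Subtype.val (hy ⟨x, hx⟩)))⟩

end Cfsg.Agent.S4911
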