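import Cfsg.Statements.S4912
import Cfsg.Agent.DegreeGraph.LinearTwist
import Cfsg.Agent.DegreeGraph.Indicator
-- import your own Cfsg.Agent.* helpers here

set_option autoImplicit false
open Cfsg

namespace Cfsg.Agent.S4912

/-- Let G be a finite group with a non-abelian minimal normal subgroup N, and let φ be an irreducible complex character of N with stabilizer I in G such that φ extends to an irreducible character of I with Frobenius–Schur indicator +1. Put d = φ(1)·[G : I]. Then the number of linear characters of G with Frobenius–Schur indicator +1 is at most [G : I] times the number of irreducible characters of G of degree d with Frobenius–Schur indicator +1. -/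
theorem result {G : Type*} [Group G] [Finite G] (N : Subgroup G) (hN : N.Normal) (hN1 : N ≠ ⊥) (hmin : ∀ M : Subgroup G, M.Normal → M ≤ N → M = ⊥ ∨ M = N) (hna : ¬ IsMulCommutative ↥N) (φ : Cfsg.IrrCharacter ↥N) (I : Subgroup G) (hI : ∀ g : G, g ∈ I ↔ ∀ n n' : ↥N, (n' : G) = g * (n : G) * g⁻¹ → (φ : ↥N → ℂ) n' = (φ : ↥N → ℂ) n) (hNI : N ≤ I) (hext : ∃ ψ : Cfsg.IrrCharacter ↥I, (Nat.card ↥I : ℂ)⁻¹ * ∑ᶠ g : ↥I, (ψ : ↥I → ℂ) (g * g) = 1 ∧ ∀ n : ↥N, (ψ : ↥I → ℂ) (Subgroup.inclusion hNI n) = (φ : ↥N → ℂ) n) : Nat.card {χ : Cfsg.IrrCharacter G // Cfsg.charDegree (χ : G → ℂ) = 1 ∧ (Nat.card G : ℂ)⁻¹ * ∑ᶠ g : G, (χ : G → ℂ) (g * g) = 1} ≤ I.index * Nat.card {χ : Cfsg.IrrCharacter G // Cfsg.charDegree (χ : G → ℂ) = Cfsg.charDegree (φ : ↥N → ℂ) * I.index ∧ (Nat.card G : ℂ)⁻¹ * ∑ᶠ g : G, (χ : G → ℂ) (g * g) = 1} := by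
  classical
  haveI := hN
  haveI : Fintype G := Fintype.ofFinite G
  haveI : Fintype I := Fintype.ofFinite I
  have hI' : ∀ g : G, g ∈ I ↔ DegreeGraph.irrPerm (MulAut.conjNormal g) φ = φ := by
    intro g
    rw [hI g]
    constructor
    · intro h
      refine Subtype.ext (funext fun k => ?_)
      rw [DegreeGraph.irrPerm_apply]
      refine (h _ k ?_).symm
      rw [← MulAut.conjNormal_apply, MulEquiv.apply_symm_apply]
    · intro h n n' hn
      have h1 := congrFun (congrArg Subtype.val h) n'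
      rw [DegreeGraph.irrPerm_apply] at h1
      rw [← h1]
      refine congrArg (φ : N → ℂ) ((MulEquiv.symm_apply_eq _).2 (Subtype.ext ?_))
      rw [MulAut.conjNormal_apply]; exact hn
  obtain ⟨ψ, hν, hψ⟩ := hext
  rw [finsum_eq_sum_of_fintype] at hν
  obtain ⟨h0, hstab⟩ := DegreeGraph.irr_indFun_of_extension N φ I hI' hNI ψ hψ
  refine DegreeGraph.card_linear_twist_le I h0 (fun Φ => hstab Φ fun n hn =>
    DegreeGraph.hom_eq_one_of_minimal N hmin hna Φ hn) _ _ (fun χ h => h.1) fun χ hχ η hη => ⟨?_, ?_⟩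
  · have h1 : (η : G → ℂ) 1 = ((charDegree (φ : ↥N → ℂ) * I.index : ℕ) : ℂ) := by
      rw [hη]
      show (χ : G → ℂ) 1 * indFun I (ψ : I → ℂ) 1 = _
      rw [Chars.indFun_apply_one, Nat.cast_mul]
      have e1 := (Blocks.charDegree_eq χ.2).1
      rw [hχ.1, Nat.cast_one] at e1
      have e2 : (ψ : I → ℂ) 1 = (charDegree (φ : ↥N → ℂ) : ℂ) := by
        rw [← (Blocks.charDegree_eq φ.2).1, ← hψ 1, map_one]
      rw [e1, e2]; ring
    have h2 := (Blocks.charDegree_eq η.2).1
    rw [h1] at h2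
    exact_mod_cast h2.symm
  · have e1 := (Blocks.charDegree_eq χ.2).1
    rw [hχ.1, Nat.cast_one] at e1
    obtain ⟨Φ, hΦ⟩ := Chars.exists_hom_of_degree_one (Chars.irr_isCharacter χ) e1
    have hsq := hχ.2
    rw [finsum_eq_sum_of_fintype] at hsq ⊢
    simp only [hΦ] at hsq
    simp only [hη, hΦ, DegreeGraph.sq_eq_one_of_indicator Φ hsq, Units.val_one, one_mul]
    exact DegreeGraph.indicator_indFun N φ I hI' hNI ψ hψ hν

end Cfsg.Agent.S4912
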