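import Cfsg.Statements.S4916
import Cfsg.Agent.Blocks.Orth
-- import your own Cfsg.Agent.* helpers here

set_option autoImplicit false
open Cfsg

namespace Cfsg.Agent.S4916

/-- Let G be a finite group, p a prime and M a maximal ideal of the algebraic integers containing p. Then the principal character is the only irreducible character of degree prime to p in the principal p-block of G if and only if p does not divide the order of G. -/
theorem result {G : Type*} [Group G] [Finite G] (p : ℕ) [Fact p.Prime] (M : Ideal Cfsg.AlgInt) (hM : Cfsg.IsPModular p M) : (∀ χ : Cfsg.IrrCharacter G, χ ∈ Cfsg.principalBlock M G → ¬ p ∣ Cfsg.charDegree (χ : G → ℂ) → (χ : G → ℂ) = fun _ => (1 : ℂ)) ↔ ¬ p ∣ Nat.card G := by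
  classical
  have := Fintype.ofFinite G
  have hp := (Fact.out : p.Prime)
  obtain ⟨-, hMmax, hpM⟩ := hM
  haveI := hMmax
  set B := Cfsg.principalBlock M G with hB
  constructor
  · intro h hdvd
    obtain ⟨y, hy⟩ := exists_prime_orderOf_dvd_card' p hdvd
    let Z : Subgroup G := Subgroup.zpowers y
    let F : Finset (Cfsg.IrrCharacter G) := Finset.univ.filter (· ∈ B)
    let g : G → ℂ := ∑ χ ∈ F, (χ : G → ℂ) 1 • (χ : G → ℂ)
    have hnd : ∀ χ : Cfsg.IrrCharacter G, χ ∈ B → χ ≠ Cfsg.Agent.Blocks.oneChar G →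
        p ∣ Cfsg.charDegree (χ : G → ℂ) := fun χ hχ hne => by
      by_contra hd
      exact hne (Subtype.ext (h χ hχ hd))
    have hnum : ∀ x : G, (∑ χ ∈ F, (χ : G → ℂ) x * (χ : G → ℂ) 1) = g x := fun x => by
      simp [g, Finset.sum_apply, mul_comm]
    have hvan : ∀ z : Z, z ≠ 1 → g (z : G) = 0 := fun z hz => by
      have ho : p ∣ orderOf (z : G) := by
        have h1 : orderOf (z : G) ∣ p := hy ▸ orderOf_dvd_of_mem_zpowers z.2
        rcases (Nat.dvd_prime hp).1 h1 with h2 | h2
        · exact absurd (Subtype.ext (orderOf_eq_one_iff.1 h2)) hz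
        · rw [h2]
      have h3 := congrArg (starRingEnd ℂ) (Cfsg.Agent.Blocks.block_orth_weak hpM
        (Cfsg.Agent.Blocks.isPBlock_principal (M := M) (G := G)) (x := 1)
        (by rw [orderOf_one]; exact hp.not_dvd_one) ho)
      rw [map_sum, map_zero] at h3
      rw [← hnum, ← h3]
      refine Finset.sum_congr rfl fun χ _ => ?_
      rw [map_mul, Complex.conj_conj, Chars.irr_apply_one_conj (Chars.irr_isCharacter χ), mul_comm]
    have hgc : Cfsg.IsCharacter G (∑ χ ∈ F, Cfsg.charDegree (χ : G → ℂ) • (χ : G → ℂ)) :=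
      Chars.isCharacter_sum _ _ fun χ _ => Chars.isCharacter_nsmul (Chars.irr_isCharacter χ) _
    have hg : (∑ χ ∈ F, Cfsg.charDegree (χ : G → ℂ) • (χ : G → ℂ)) = g :=
      Finset.sum_congr rfl fun χ _ => by
        rw [← Nat.cast_smul_eq_nsmul ℂ, ← (Cfsg.Agent.Blocks.charDegree_eq χ.2).1]
    rw [hg] at hgc
    obtain ⟨k, hk⟩ := Chars.exists_classInner_eq_nat (G := Z) (Chars.isCharacter_restrict hgc Z)
      (Chars.isCharacter_one (G := Z))
    rw [Chars.classInner_def, Finset.sum_eq_single (1 : Z) (fun z _ hz => by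
      show g (z : G) * _ = 0
      rw [hvan z hz, zero_mul]) (fun h => absurd (Finset.mem_univ _) h)] at hk
    simp only [map_one, mul_one, OneMemClass.coe_one] at hk
    rw [Nat.card_zpowers, hy, inv_mul_eq_iff_eq_mul₀ (Nat.cast_ne_zero.2 hp.ne_zero)] at hk
    have hsum : (∑ χ ∈ F, Cfsg.charDegree (χ : G → ℂ) ^ 2) = p * k := by
      have : ((∑ χ ∈ F, Cfsg.charDegree (χ : G → ℂ) ^ 2 : ℕ) : ℂ) = ((p * k : ℕ) : ℂ) := by
        rw [Nat.cast_sum, Nat.cast_mul, ← hk, ← hnum]
        refine Finset.sum_congr rfl fun χ _ => ?_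
        rw [Nat.cast_pow, ← (Cfsg.Agent.Blocks.charDegree_eq χ.2).1, sq]
      exact_mod_cast this
    have h1F : Cfsg.Agent.Blocks.oneChar G ∈ F :=
      Finset.mem_filter.2 ⟨Finset.mem_univ _, Cfsg.Agent.Blocks.one_mem_principal⟩
    rw [← Finset.add_sum_erase _ _ h1F] at hsum
    have hrest : p ∣ ∑ χ ∈ F.erase (Cfsg.Agent.Blocks.oneChar G),
        Cfsg.charDegree (χ : G → ℂ) ^ 2 := Finset.dvd_sum fun χ hχ => by
      obtain ⟨hne, hF⟩ := Finset.mem_erase.1 hχ
      exact dvd_pow (hnd χ (Finset.mem_filter.1 hF).2 hne) two_ne_zero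
    have h1 := (Nat.dvd_add_left hrest).1 (hsum ▸ dvd_mul_right p k)
    rw [show Cfsg.charDegree ((Cfsg.Agent.Blocks.oneChar G : Cfsg.IrrCharacter G) : G → ℂ) = 1 by
      simp [Cfsg.charDegree, Cfsg.Agent.Blocks.coe_oneChar], one_pow] at h1
    exact hp.not_dvd_one h1
  · intro hnd χ hχ _
    by_contra hne
    have hne' : χ ≠ Cfsg.Agent.Blocks.oneChar G := fun h => hne (congrArg Subtype.val h)
    let f : G → ℂ := fun _ => 1
    have h1 := Cfsg.Agent.Blocks.omega_congr (M := M)
      (Cfsg.Agent.Blocks.sameBlock_of_mem Cfsg.Agent.Blocks.isPBlock_principal hχ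
        Cfsg.Agent.Blocks.one_mem_principal) (f := f) (fun _ _ => rfl)
        (fun _ => Cfsg.Agent.Blocks.memR_one)
    have h2 : Cfsg.Agent.Blocks.omega (χ : G → ℂ) f = 0 := by
      have h3 := Chars.classInner_irrCharacter χ (Cfsg.Agent.Blocks.oneChar G)
      rw [if_neg hne', Chars.classInner_def, Cfsg.Agent.Blocks.coe_oneChar] at h3
      simp only [map_one, mul_one, mul_eq_zero, inv_eq_zero] at h3
      simp [Cfsg.Agent.Blocks.omega, f, h3.resolve_left Chars.card_ne_zero]
    rw [h2] at h1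
    have h4 : Cfsg.Agent.Blocks.omega
        ((Cfsg.Agent.Blocks.oneChar G : Cfsg.IrrCharacter G) : G → ℂ) f = Nat.card G := by
      simp [Cfsg.Agent.Blocks.omega, f, Cfsg.Agent.Blocks.coe_oneChar, Nat.card_eq_fintype_card]
    rw [h4, zero_sub] at h1
    have := Cfsg.Agent.Blocks.memI_neg h1
    rw [neg_neg] at this
    exact hnd ((Cfsg.Agent.Blocks.memI_natCast_iff hpM _).1 this)

end Cfsg.Agent.S4916
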