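import Cfsg.Statements.S4923
import Cfsg.Agent.Chars.ColumnField
import Cfsg.Agent.Chars.IndexTwoFusion
import Cfsg.Agent.Screen.CyclicIndexTwo
import Cfsg.Agent.OddChar.GaloisAut

set_option autoImplicit false
set_option linter.style.haveILetI false
open Cfsg Cfsg.Agent Cfsg.Agent.Chars

namespace Cfsg.Agent.S4923

open Subgroup

variable {G : Type*} [Group G] [Finite G]

theorem root_pow_eq_iff {ζ : ℂ} {N : ℕ} (hζ : IsPrimitiveRoot ζ N) (hN : 0 < N) (i j : ℕ) :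
    ζ ^ i = ζ ^ j ↔ i ≡ j [MOD N] := by
  rw [pow_eq_pow_mod i hζ.pow_eq_one, pow_eq_pow_mod j hζ.pow_eq_one]
  exact ⟨fun h => hζ.pow_inj (Nat.mod_lt _ hN) (Nat.mod_lt _ hN) h, fun h => by rw [h]⟩

theorem root_data {ζ : ℂ} {m : ℕ} (hζ : IsPrimitiveRoot ζ (2 ^ m)) (hm : 2 ≤ m) :
    ζ⁻¹ = ζ ^ (2 ^ m - 1) ∧ -ζ⁻¹ = ζ ^ (2 ^ (m - 1) - 1) := by
  obtain ⟨c, rfl⟩ : ∃ c, m = c + 1 := ⟨m - 1, by omega⟩
  have h1 := hζ.pow_eq_one
  have h0 : ζ ≠ 0 := hζ.ne_zero (by positivity)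
  have h2 : ζ ^ (2 ^ c) = -1 :=
    (hζ.pow (by positivity) (pow_succ 2 c)).eq_neg_one_of_two_right
  have e : ∀ j : ℕ, 1 ≤ j → ζ ^ (j - 1) = ζ ^ j * ζ⁻¹ := fun j hj => by
    conv_rhs => rw [← Nat.sub_add_cancel hj, pow_succ]
    rw [mul_inv_cancel_right₀ h0]
  refine ⟨?_, ?_⟩
  · rw [e _ Nat.one_le_two_pow, h1, one_mul]
  · rw [Nat.add_sub_cancel, e _ Nat.one_le_two_pow, h2]
    ring

theorem exists_coprime (u : ℕ) (hu : Odd u) :
    ∃ K : ℕ, K.Coprime (Nat.card G) ∧ K ≡ u [MOD 2 ^ (Nat.card G).factorization 2] := by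
  set A := 2 ^ (Nat.card G).factorization 2 with hA
  set r := Nat.card G / A with hr
  have hG : A * r = Nat.card G := Nat.ordProj_mul_ordCompl_eq_self _ _
  have hco : A.Coprime r := Nat.Coprime.pow_left _ (Nat.coprime_ordCompl Nat.prime_two Nat.card_pos.ne')
  obtain ⟨K, hK1, hK2⟩ := Nat.chineseRemainder hco u 1
  refine ⟨K, ?_, hK1⟩
  rw [← hG]
  refine Nat.Coprime.mul_right ?_ ?_
  · exact (hK1.gcd_eq.trans (Nat.Coprime.pow_right _ hu.coprime_two_right) :)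
  · exact (hK2.gcd_eq.trans (Nat.gcd_one_left r) :)

theorem exists_aut_nat {K : ℕ} (hK : K.Coprime (Nat.card G)) :
    ∃ σ : ℂ ≃+* ℂ, (∀ z : ℂ, z ^ Nat.card G = 1 → σ z = z ^ K) ∧
      ∀ χ : G → ℂ, IsCharacter G χ → ∀ g : G, σ (χ g) = χ (g ^ K) := by
  obtain ⟨σ, hσ⟩ := OddChar.exists_aut_pow Nat.card_pos.ne' hK
  obtain ⟨k, -, hk, hk'⟩ := exists_aut_apply_root (G := G) σ
  refine ⟨σ, hσ, fun χ hχ g => ?_⟩
  rw [hk' χ hχ g]
  congr 1
  have hω := Complex.isPrimitiveRoot_exp (Nat.card G) Nat.card_pos.ne'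
  have h : k ≡ K [MOD Nat.card G] :=
    (root_pow_eq_iff hω Nat.card_pos k K).mp ((hk _ hω.pow_eq_one).symm.trans (hσ _ hω.pow_eq_one))
  exact pow_eq_pow_iff_modEq.mpr (h.of_dvd (orderOf_dvd_natCard g))

theorem fixes_adjoin {T : Set ℂ} {σ : ℂ ≃+* ℂ} (h : ∀ x ∈ T, σ x = x) {y : ℂ}
    (hy : y ∈ IntermediateField.adjoin ℚ T) : σ y = y := by
  induction hy using IntermediateField.adjoin_induction with
  | mem z hz => exact h z hz
  | algebraMap q => exact map_ratCast σ q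
  | add a b _ _ ha hb => rw [map_add, ha, hb]
  | inv a _ ha => rw [map_inv₀, ha]
  | mul a b _ _ ha hb => rw [map_mul, ha, hb]

theorem commutator_index_eight {P : Type*} [Group P] [Finite P] (hP : Nat.card P = 2 ^ 3)
    (hna : ¬ ∀ x y : P, x * y = y * x) : (commutator P).index = 4 := by
  haveI : Fact (Nat.Prime 2) := ⟨Nat.prime_two⟩
  have hp : IsPGroup 2 P := IsPGroup.of_card hP
  haveI : Nontrivial P := Finite.one_lt_card_iff_nontrivial.mp (by rw [hP]; norm_num)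
  set Z := Subgroup.center P with hZdef
  have hbot : (⊥ : Subgroup P) < Z := hp.bot_lt_center
  have hZ1 : Nat.card Z ≠ 1 := fun h => hbot.ne' (Subgroup.eq_bot_of_card_eq _ h)
  obtain ⟨i, hi, hZ⟩ := (Nat.dvd_prime_pow Nat.prime_two).mp (hP ▸ Z.card_subgroup_dvd_card)
  have hZi : Z.index = 2 ^ (3 - i) := by
    have := Z.card_mul_index
    rw [hZ, hP, ← Nat.pow_div hi two_pos] at *
    rw [← this, Nat.mul_div_cancel_left _ (by positivity)]
  have h2 : i = 1 := by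
    rcases (show i = 0 ∨ i = 1 ∨ i = 2 ∨ i = 3 by omega) with rfl | rfl | rfl | rfl
    · exact absurd hZ (by simpa using hZ1)
    · rfl
    · haveI : IsCyclic (P ⧸ Z) := isCyclic_of_prime_card (p := 2) (by
        rw [← Subgroup.index_eq_card, hZi]; rfl)
      exact absurd (fun x y => commutative_of_cyclic_center_quotient (QuotientGroup.mk' Z)
        (QuotientGroup.ker_mk' Z).le x y) hna
    · have : Z = ⊤ := Subgroup.eq_top_of_card_eq _ (hZ.trans hP.symm)
      exact absurd (fun x y => ((Subgroup.mem_center_iff.mp (this ▸ mem_top x : x ∈ Z)) y).symm) hna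
  subst h2
  have hle : commutator P ≤ Z := by
    rw [_root_.commutator_def, Subgroup.commutator_le]
    intro x _ y _
    rw [← QuotientGroup.ker_mk' Z, MonoidHom.mem_ker, map_commutatorElement,
      commutatorElement_eq_one_iff_commute]
    exact IsPGroup.commutative_of_card_eq_prime_sq (p := 2)
      (show Nat.card (P ⧸ Z) = 2 ^ 2 by rw [← Subgroup.index_eq_card, hZi]) _ _
  have hne : commutator P ≠ ⊥ := by
    intro h
    refine hna fun x y => commutatorElement_eq_one_iff_commute.mp ?_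
    rw [← Subgroup.mem_bot, ← h, _root_.commutator_def]
    exact commutator_mem_commutator (mem_top x) (mem_top y)
  have hcard : Nat.card (commutator P) = 2 := by
    have hd := Subgroup.card_dvd_of_le hle
    rw [hZ, pow_one] at hd
    exact ((Nat.dvd_prime Nat.prime_two).mp hd).resolve_left fun h => hne (Subgroup.eq_bot_of_card_eq _ h)
  have := (commutator P).card_mul_index
  rw [hcard, hP] at this
  omega

/-- Necessity, with the exponent of the action. -/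
theorem exists_element (P : Sylow 2 G) {m u : ℕ} {ζ x : ℂ} (hm : 2 ≤ m) (hP : Nat.card P = 2 ^ (m + 1))
    (hζ : IsPrimitiveRoot ζ (2 ^ m)) (hx : IsIntegral ℤ x) (hu : 1 < u) (hu' : u < 2 ^ m)
    (hfix : ∀ σ : ℂ ≃+* ℂ, σ x = x ↔ σ ζ = ζ ∨ σ ζ = ζ ^ u)
    (a b : ↥(P : Subgroup G)) (ha : orderOf a = 2 ^ m) (hb : b ∉ zpowers a)
    (hab : b * a * b⁻¹ = a ^ u) :
    ∃ g : G, g ∈ (P : Subgroup G) ∧ 2 ∣ (Subgroup.centralizer ({g} : Set G)).index ∧
      IntermediateField.adjoin ℚ {z : ℂ | ∃ χ : IrrCharacter G, (χ : G → ℂ) g = z} =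
        IntermediateField.adjoin ℚ ({x} : Set ℂ) := by
  haveI : Fact (Nat.Prime 2) := ⟨Nat.prime_two⟩
  set g : G := (a : G) with hg
  have hgo : orderOf g = 2 ^ m := (Subgroup.orderOf_coe a).trans ha
  have hbg : (b : G) * g * (b : G)⁻¹ = g ^ u := by
    have := congrArg (Subtype.val : ↥(P : Subgroup G) → G) hab
    simpa using this
  have hne : g ^ u ≠ g := by
    intro h
    have h1 : g ^ u = g ^ 1 := by rw [pow_one]; exact h
    have := pow_eq_pow_iff_modEq.mp h1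
    rw [hgo, Nat.ModEq, Nat.mod_eq_of_lt hu', Nat.mod_eq_of_lt (by omega)] at this
    omega
  refine ⟨g, a.2, ?_, adjoin_column_eq g hx fun σ => ?_⟩
  · by_contra hodd
    exact hne (hbg ▸ IndexTwo.comm_of_odd_index hgo hodd (IndexTwo.mem_normalizer_of_conj hbg))
  have hA : (zpowers a).index = 2 := by
    have := (zpowers a).card_mul_index
    rw [Nat.card_zpowers, ha, hP, pow_succ 2 m] at this
    exact Nat.eq_of_mul_eq_mul_left (by positivity) this
  have hact : ∀ s ∈ (P : Subgroup G), s * g * s⁻¹ = g ∨ s * g * s⁻¹ = g ^ u := by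
    intro s hs
    have hc : ∀ y ∈ zpowers a, (y : G) * g * (y : G)⁻¹ = g := by
      rintro _ ⟨i, rfl⟩
      rw [show ((fun i : ℤ => a ^ i) i : ↥(P : Subgroup G)).1 = g ^ i by simp [hg],
        ((Commute.refl g).zpow_left i).eq, mul_inv_cancel_right]
    by_cases hsa : (⟨s, hs⟩ : ↥(P : Subgroup G)) ∈ zpowers a
    · exact .inl (hc _ hsa)
    · refine .inr ?_
      have hy : b⁻¹ * ⟨s, hs⟩ ∈ zpowers a := by
        rw [Subgroup.mul_mem_iff_of_index_two hA, inv_mem_iff]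
        simp [hb, hsa]
      have h1 := hc _ hy
      simp only [Subgroup.coe_mul, Subgroup.coe_inv] at h1
      calc s * g * s⁻¹ = (b : G) * (((b : G)⁻¹ * s) * g * ((b : G)⁻¹ * s)⁻¹) * (b : G)⁻¹ := by group
        _ = g ^ u := by rw [h1, hbg]
  have hPN : (P : Subgroup G) ≤ normalizer (zpowers g : Set G) := by
    intro s hs
    rcases hact s hs with h | h
    · exact IndexTwo.mem_normalizer_of_conj (k := 1) (by rwa [pow_one])
    · exact IndexTwo.mem_normalizer_of_conj h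
  obtain ⟨k, hk, hroot, hchar⟩ := exists_aut_apply_root (G := G) σ
  have hz : ζ ^ Nat.card G = 1 := by
    obtain ⟨c, hc⟩ := hgo ▸ orderOf_dvd_natCard g
    rw [hc, pow_mul, hζ.pow_eq_one, one_pow]
  rw [fixes_column_iff g hchar, hfix σ, hroot ζ hz]
  have e : ∀ j : ℕ, ζ ^ k = ζ ^ j ↔ g ^ k = g ^ j := fun j => by
    rw [root_pow_eq_iff hζ (by positivity), pow_eq_pow_iff_modEq, hgo]
  constructor
  · rintro (h | h)
    · have := (e 1).mp (by rwa [pow_one])
      rw [this, pow_one]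
    · rw [(e u).mp h]
      exact isConj_iff.mpr ⟨b, hbg⟩
  · intro h
    obtain ⟨y, hy⟩ := isConj_iff.mp h
    obtain ⟨s, hs, hse⟩ := IndexTwo.exists_mem_same_action hgo (P.subtype hPN)
      (IndexTwo.mem_normalizer_of_conj hy)
    have hsP : (s : G) ∈ (P : Subgroup G) := hs
    rw [hy] at hse
    rcases hact _ hsP with h1 | h1
    · left
      have := (e 1).mpr (by rw [pow_one, ← hse, h1])
      rwa [pow_one] at this
    · exact .inr ((e u).mpr (by rw [← hse, h1]))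

/-- Sufficiency, with the exponent attached to the field. -/
theorem index_four (P : Sylow 2 G) {m u : ℕ} {ζ x : ℂ} (hm : 2 ≤ m) (hP : Nat.card P = 2 ^ (m + 1))
    (hζ : IsPrimitiveRoot ζ (2 ^ m)) (hu : u = 2 ^ m - 1 ∨ u = 2 ^ (m - 1) - 1)
    (hfix : ∀ σ : ℂ ≃+* ℂ, σ x = x ↔ σ ζ = ζ ∨ σ ζ = ζ ^ u) {g : G} (hg : g ∈ (P : Subgroup G))
    (heven : 2 ∣ (Subgroup.centralizer ({g} : Set G)).index)
    (hfield : IntermediateField.adjoin ℚ {z : ℂ | ∃ χ : IrrCharacter G, (χ : G → ℂ) g = z} =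
      IntermediateField.adjoin ℚ ({x} : Set ℂ)) :
    (commutator ↥P).index = 4 := by
  haveI : Fact (Nat.Prime 2) := ⟨Nat.prime_two⟩
  have hna : ¬ ∀ y z : ↥(P : Subgroup G), y * z = z * y := by
    intro hc
    have hle : (P : Subgroup G) ≤ centralizer ({g} : Set G) := fun y hy =>
      mem_centralizer_singleton_iff.mpr (congrArg Subtype.val (hc ⟨y, hy⟩ ⟨g, hg⟩))
    exact P.not_dvd_index (heven.trans (Subgroup.index_dvd_of_le hle))
  rcases (show m = 2 ∨ 3 ≤ m by omega) with rfl | hm3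
  · exact commutator_index_eight hP hna
  have hkey : ∀ K : ℕ, K.Coprime (Nat.card G) →
      (IsConj g (g ^ K) ↔ ζ ^ K = ζ ∨ ζ ^ K = ζ ^ u) := by
    intro K hK
    obtain ⟨σ, hσ, hchar⟩ := exists_aut_nat (G := G) hK
    have hz : ζ ^ Nat.card G = 1 := by
      obtain ⟨c, hc⟩ := (pow_dvd_pow 2 (Nat.le_succ m)).trans
        (hP ▸ (P : Subgroup G).card_subgroup_dvd_card)
      rw [hc, pow_mul, hζ.pow_eq_one, one_pow]
    rw [← fixes_column_iff g hchar, ← hσ ζ hz, ← hfix σ]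
    constructor
    · intro h
      refine fixes_adjoin ?_ (hfield ▸ IntermediateField.mem_adjoin_simple_self ℚ x)
      rintro _ ⟨χ, rfl⟩
      exact h χ
    · intro h χ
      refine fixes_adjoin (T := {x}) (fun y hy => hy ▸ h) ?_
      rw [← hfield]
      exact IntermediateField.subset_adjoin ℚ _ ⟨χ, rfl⟩
  have hA : m + 1 ≤ (Nat.card G).factorization 2 :=
    (Nat.prime_two.pow_dvd_iff_le_factorization Nat.card_pos.ne').mp
      (hP ▸ (P : Subgroup G).card_subgroup_dvd_card)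
  obtain ⟨e, he, hord⟩ := (Nat.dvd_prime_pow Nat.prime_two).mp
    (hP ▸ (Subgroup.orderOf_coe (⟨g, hg⟩ : ↥(P : Subgroup G))).symm ▸ orderOf_dvd_natCard _ :
      orderOf g ∣ 2 ^ (m + 1))
  have hu1 : 1 < u ∧ u < 2 ^ m ∧ Odd u := by
    obtain ⟨c, rfl⟩ : ∃ c, m = c + 3 := ⟨m - 3, by omega⟩
    have h1 : 8 ≤ 2 ^ (c + 3) := by
      calc 8 = 2 ^ 3 := rfl
        _ ≤ _ := Nat.pow_le_pow_right two_pos (by omega)
    have h2 : 2 ^ (c + 3) = 2 * 2 ^ (c + 3 - 1) := by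
      rw [show c + 3 - 1 = c + 2 by omega, ← pow_succ']
    have h3 : Even (2 ^ (c + 3 - 1)) := (Nat.even_pow.mpr ⟨even_two, by omega⟩)
    rw [Nat.odd_iff]
    rw [Nat.even_iff] at h3
    omega
  rcases (show e = m ∨ e = m + 1 ∨ e ≤ m - 1 by omega) with rfl | rfl | he'
  · obtain ⟨K, hK, hKu⟩ := exists_coprime (G := G) u hu1.2.2
    have hKu' : K ≡ u [MOD 2 ^ e] := hKu.of_dvd (pow_dvd_pow 2 (by omega))
    have hgK : g ^ K = g ^ u := pow_eq_pow_iff_modEq.mpr (hord.symm ▸ hKu')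
    obtain ⟨y, hy⟩ := isConj_iff.mp ((hkey K hK).mpr
      (.inr ((root_pow_eq_iff hζ (by positivity) K u).mpr hKu')))
    rw [hgK] at hy
    have hgN : zpowers g ≤ normalizer (zpowers g : Set G) := Subgroup.le_normalizer
    have hp : IsPGroup 2 ↥((zpowers g).subgroupOf (normalizer (zpowers g : Set G))) :=
      (IsPGroup.of_card (n := e) (by rw [Nat.card_zpowers, hord])).of_equiv
        (Subgroup.subgroupOfEquivOfLe hgN).symm
    obtain ⟨S, hS⟩ := hp.exists_le_sylow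
    obtain ⟨s, hs, hse⟩ := IndexTwo.exists_mem_same_action hord S
      (IndexTwo.mem_normalizer_of_conj hy)
    rw [hy] at hse
    obtain ⟨Q, hQ⟩ := (S.isPGroup'.map (normalizer (zpowers g : Set G)).subtype).exists_le_sylow
    have hgQ : g ∈ (Q : Subgroup G) := hQ (Subgroup.mem_map.mpr
      ⟨⟨g, hgN (mem_zpowers g)⟩, hS (mem_subgroupOf.mpr (mem_zpowers g)), rfl⟩)
    have hsQ : (s : G) ∈ (Q : Subgroup G) := hQ (Subgroup.mem_map.mpr ⟨s, hs, rfl⟩)
    have hQc : Nat.card Q = 2 ^ (e + 1) :=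
      (Nat.card_congr (Q.equiv P).toEquiv).trans hP
    have := IndexTwo.index_commutator (n := e + 1) (by omega) (a := (⟨g, hgQ⟩ : ↥(Q : Subgroup G)))
      (b := ⟨s, hsQ⟩) hQc ((Subgroup.orderOf_mk g hgQ).trans (by simpa using hord)) (u := u)
      (by simpa using hu) (Subtype.ext (by simpa using hse))
    rw [Subgroup.index_eq_card] at this ⊢
    exact (Nat.card_congr (P.equiv Q).abelianizationCongr.toEquiv).trans this
  · -- a cyclic Sylow subgroup is abelian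
    exfalso
    haveI : IsCyclic ↥(P : Subgroup G) := isCyclic_of_orderOf_eq_card ⟨g, hg⟩ (by
      rw [Subgroup.orderOf_mk, hord, hP])
    exact hna fun y z => mul_comm' y z
  · exfalso
    have hodd : Odd (1 + 2 ^ (m - 1)) := by
      rw [Nat.odd_iff]
      have : Even (2 ^ (m - 1)) := Nat.even_pow.mpr ⟨even_two, by omega⟩
      rw [Nat.even_iff] at this
      omega
    obtain ⟨K, hK, hK1⟩ := exists_coprime (G := G) (1 + 2 ^ (m - 1)) hodd
    have hKm : K ≡ 1 + 2 ^ (m - 1) [MOD 2 ^ m] := hK1.of_dvd (pow_dvd_pow 2 (by omega))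
    have hg1 : g ^ K = g := by
      conv_rhs => rw [← pow_one g]
      refine pow_eq_pow_iff_modEq.mpr (hord.symm ▸ ?_)
      refine (hKm.of_dvd (pow_dvd_pow 2 (show e ≤ m by omega))).trans ?_
      exact ((Nat.modEq_iff_dvd' (Nat.le_add_right 1 _)).mpr (by
        rw [Nat.add_sub_cancel_left]; exact pow_dvd_pow 2 he')).symm
    have h1 := (hkey K hK).mp (by rw [hg1])
    have hlt : 1 + 2 ^ (m - 1) < 2 ^ m := by
      have : 2 ^ m = 2 * 2 ^ (m - 1) := by rw [← pow_succ']; congr 1; omega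
      have := Nat.one_lt_two_pow (n := m - 1) (by omega)
      omega
    have h4 : 4 ≤ 2 ^ (m - 1) := by
      calc 4 = 2 ^ 2 := rfl
        _ ≤ _ := Nat.pow_le_pow_right two_pos (by omega)
    rcases h1 with h | h
    · have h' : ζ ^ K = ζ ^ 1 := by rw [pow_one]; exact h
      have := hKm.symm.trans ((root_pow_eq_iff hζ (by positivity) K 1).mp h')
      rw [Nat.ModEq, Nat.mod_eq_of_lt hlt, Nat.mod_eq_of_lt (by omega)] at this
      omega
    · have := hKm.symm.trans ((root_pow_eq_iff hζ (by positivity) K u).mp h)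
      rw [Nat.ModEq, Nat.mod_eq_of_lt hlt, Nat.mod_eq_of_lt hu1.2.1] at this
      have h5 : 2 ^ m = 2 * 2 ^ (m - 1) := by rw [← pow_succ']; congr 1; omega
      omega

/-- Let G be a finite group with Sylow 2-subgroup P of order 2^n ≥ 8, and let ζ be a primitive 2^(n−1)-th root of unity in ℂ. Then the commutator subgroup of P has index 4 in P if and only if there is an element g of P whose conjugacy class in G has even size and such that the field generated over ℚ by the values at g of all irreducible complex characters of G equals ℚ(ζ + ζ⁻¹) or ℚ(ζ − ζ⁻¹). -/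
theorem result {G : Type*} [Group G] [Finite G] (P : Sylow 2 G) (n : ℕ) (hn : 3 ≤ n) (hP : Nat.card P = 2 ^ n) (ζ : ℂ) (hζ : IsPrimitiveRoot ζ (2 ^ (n - 1))) :
    (commutator ↥P).index = 4 ↔
      ∃ g : G, g ∈ (P : Subgroup G) ∧ 2 ∣ (Subgroup.centralizer ({g} : Set G)).index ∧
        (IntermediateField.adjoin ℚ {z : ℂ | ∃ χ : Cfsg.IrrCharacter G, (χ : G → ℂ) g = z} = IntermediateField.adjoin ℚ ({ζ + ζ⁻¹} : Set ℂ) ∨
          IntermediateField.adjoin ℚ {z : ℂ | ∃ χ : Cfsg.IrrCharacter G, (χ : G → ℂ) g = z} = IntermediateField.adjoin ℚ ({ζ - ζ⁻¹} : Set ℂ)) := by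
  obtain ⟨m, rfl⟩ : ∃ m, n = m + 1 := ⟨n - 1, by omega⟩
  rw [Nat.add_sub_cancel] at hζ
  have hm : 2 ≤ m := by omega
  obtain ⟨e1, e2⟩ := root_data hζ hm
  have h0 : ζ ≠ 0 := hζ.ne_zero (by positivity)
  have hiζ : IsIntegral ℤ ζ := hζ.isIntegral (by positivity)
  have hi1 : IsIntegral ℤ ζ⁻¹ := by rw [e1]; exact hiζ.pow _
  have hf1 : ∀ σ : ℂ ≃+* ℂ, σ (ζ + ζ⁻¹) = ζ + ζ⁻¹ ↔ σ ζ = ζ ∨ σ ζ = ζ ^ (2 ^ m - 1) :=
    fun σ => e1 ▸ fixes_sum_iff h0 σ
  have hf2 : ∀ σ : ℂ ≃+* ℂ, σ (ζ - ζ⁻¹) = ζ - ζ⁻¹ ↔ σ ζ = ζ ∨ σ ζ = ζ ^ (2 ^ (m - 1) - 1) :=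
    fun σ => e2 ▸ fixes_sub_iff h0 σ
  constructor
  · intro hi
    have h8 : 2 ^ 3 ≤ 2 ^ (m + 1) := Nat.pow_le_pow_right two_pos hn
    obtain ⟨k, a, b, hk, ha, hb, hcase⟩ := Screen.CyclicIndexTwo.cases_of_index_le_four
      P.isPGroup' hi.le (by rw [hP]; omega)
    obtain rfl : m = k + 2 := by
      have := Nat.pow_right_injective le_rfl (hP.symm.trans hk)
      omega
    have hinv : b * a * b⁻¹ = a⁻¹ → b * a * b⁻¹ = a ^ (2 ^ (k + 2) - 1) := by
      intro h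
      rw [h, inv_eq_iff_mul_eq_one, ← pow_succ', Nat.sub_add_cancel Nat.one_le_two_pow, ← ha,
        pow_orderOf_eq_one]
    have h4 : 4 ≤ 2 ^ (k + 2) := by
      calc 4 = 2 ^ 2 := rfl
        _ ≤ _ := Nat.pow_le_pow_right two_pos (by omega)
    rcases hcase with ⟨-, h⟩ | ⟨-, h⟩ | ⟨hk1, -, h⟩
    · obtain ⟨g, h1, h2, h3⟩ := exists_element P hm hP hζ (hiζ.add hi1)
        (by omega) (by omega) hf1 a b ha hb (hinv h)
      exact ⟨g, h1, h2, .inl h3⟩
    · obtain ⟨g, h1, h2, h3⟩ := exists_element P hm hP hζ (hiζ.add hi1)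
        (by omega) (by omega) hf1 a b ha hb (hinv h)
      exact ⟨g, h1, h2, .inl h3⟩
    · have h4' : 4 ≤ 2 ^ (k + 1) := by
        calc 4 = 2 ^ 2 := rfl
          _ ≤ _ := Nat.pow_le_pow_right two_pos (by omega)
      have hlt : 2 ^ (k + 1) - 1 < 2 ^ (k + 2) := by rw [pow_succ 2 (k + 1)]; omega
      obtain ⟨g, h1, h2, h3⟩ := exists_element P hm hP hζ (hiζ.sub hi1)
        (u := 2 ^ (k + 1) - 1) (by omega) hlt hf2 a b ha hb h
      exact ⟨g, h1, h2, .inr h3⟩
  · rintro ⟨g, hg, heven, h | h⟩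
    · exact index_four P hm hP hζ (.inl rfl) hf1 hg heven h
    · exact index_four P hm hP hζ (.inr rfl) hf2 hg heven h

end Cfsg.Agent.S4923
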