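import Cfsg.Statements.S4931
import Cfsg.Agent.DegreeGraph.PPrimeDegree
import Cfsg.Agent.Chars2.DegreeRatio
import Cfsg.Agent.Transfer.Burnside
-- import your own Cfsg.Agent.* helpers here

set_option autoImplicit false
open Cfsg

namespace Cfsg.Agent.S4931

open Cfsg
open scoped ComplexConjugate commutatorElement

/-- A character of degree prime to `p` is trivial on the derived group of a normal `p`-subgroup. -/
theorem apply_eq_of_mem_commutator {N : Type*} [Group N] [Finite N] (p : ℕ) [Fact p.Prime]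
    (P : Subgroup N) [P.Normal] (hP : IsPGroup p P) {θ : N → ℂ} (hθ : IsIrrCharacter N θ)
    (hd : ¬ p ∣ charDegree θ) {x : P} (hx : x ∈ commutator P) : θ x = θ 1 := by
  classical
  have := Fintype.ofFinite N
  obtain ⟨hθ1, -⟩ := Blocks.charDegree_eq hθ
  obtain ⟨m, hm, hsum⟩ := Chars.exists_eq_sum_nsmul
    (Chars.isCharacter_restrict (Chars.isCharacter_of_isIrr hθ) P)
  have hval : ∀ y : P, θ y = ∑ ψ : IrrCharacter P, (m ψ : ℂ) * (ψ : P → ℂ) y := fun y => by
    have := congrFun hsum y
    simpa [Finset.sum_apply, nsmul_eq_mul] using this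
  have h1 := hval 1
  rw [OneMemClass.coe_one] at h1
  rw [hval, h1]
  refine Finset.sum_congr rfl fun ψ _ => ?_
  by_cases h0 : m ψ = 0
  · simp [h0]
  congr 1
  have hne := hm ψ
  obtain ⟨⟨_, e, ρ, hρ, rfl⟩, rfl⟩ : ∃ ψ' : IrrCharacter P, ψ' = ψ := ⟨ψ, rfl⟩
  obtain ⟨d, σ, hσ, rfl⟩ := hθ
  haveI := hρ
  haveI := hσ
  have hnt := Chars2.nontrivial_of_classInner σ ρ (by rw [hne]; exact_mod_cast h0)
  have hdvd := (Chars2.finrank_dvd_of_constituent ρ σ hnt).1
  rw [Module.finrank_fin_fun, Module.finrank_fin_fun] at hdvd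
  have hdeg : charDegree σ.character = d := by
    simp [charDegree, Representation.char_one]
  obtain ⟨n, hn, hρ1, hndvd⟩ := Chars.irr_degree_dvd_card (χ := ρ.character) ⟨e, ρ, hρ, rfl⟩
  have hen : e = n := by
    have : (e : ℂ) = n := by rw [← hρ1, Representation.char_one, Module.finrank_fin_fun]
    exact_mod_cast this
  subst hen
  obtain ⟨k, hk⟩ := IsPGroup.iff_card.1 hP
  obtain ⟨j, -, rfl⟩ := (Nat.dvd_prime_pow (Fact.out : p.Prime)).1 (hk ▸ hndvd)
  rcases j with - | j
  · obtain ⟨φ, hφ⟩ := Chars.exists_hom_of_degree_one (χ := ρ.character) ⟨_, ρ, rfl⟩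
      (by simpa using hρ1)
    show ρ.character x = ρ.character 1
    rw [hφ]
    show (φ x : ℂ) = (φ 1 : ℂ)
    rw [← Abelianization.lift_apply_of φ x]
    rw [show Abelianization.of x = 1 from (QuotientGroup.eq_one_iff x).2 hx, map_one]
    simp
  · rw [hdeg] at hd
    exact absurd ((dvd_pow_self p j.succ_ne_zero).trans hdvd) hd

/-- The kernel argument: a subgroup `U` with trivial fusion at the normalizer. -/
theorem hasNormalPComplement_core {U : Type*} [Group U] [Finite U] (p : ℕ) [Fact p.Prime]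
    (P : Sylow p U) (K : Subgroup U) [K.Normal]
    (hN : Subgroup.normalizer ((P : Subgroup U) : Set U) ≤ (P : Subgroup U))
    (hPK : (commutator (P : Subgroup U)).map (P : Subgroup U).subtype ≤ K)
    (hKP : K ⊓ (P : Subgroup U) ≤ (commutator (P : Subgroup U)).map (P : Subgroup U).subtype) :
    HasNormalPComplement p U := by
  classical
  set π := QuotientGroup.mk' K with hπdef
  have hπ : Function.Surjective π := QuotientGroup.mk'_surjective K
  set Pb : Sylow p (U ⧸ K) := P.mapSurjective hπ with hPb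
  have hPbc : (Pb : Subgroup (U ⧸ K)) = (P : Subgroup U).map π := rfl
  have habel : ∀ a ∈ (Pb : Subgroup (U ⧸ K)), ∀ b ∈ (Pb : Subgroup (U ⧸ K)), a * b = b * a := by
    rw [hPbc]
    rintro _ ⟨a, ha, rfl⟩ _ ⟨b, hb, rfl⟩
    have hmem : (⁅a, b⁆ : U) ∈ K := hPK ⟨⁅(⟨a, ha⟩ : (P : Subgroup U)), ⟨b, hb⟩⁆,
      Subgroup.commutator_mem_commutator (Subgroup.mem_top _) (Subgroup.mem_top _), rfl⟩
    rw [← QuotientGroup.ker_mk' K, MonoidHom.mem_ker, map_commutatorElement] at hmem
    exact commutatorElement_eq_one_iff_mul_comm.1 hmem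
  have hB : HasNormalPComplement p (U ⧸ K) := by
    refine Transfer.hasNormalPComplement_of_normalizer_le_centralizer Pb fun y hy => ?_
    obtain ⟨u, rfl⟩ := hπ y
    set H : Subgroup U := (Pb : Subgroup (U ⧸ K)).comap π with hH
    have hPH : (P : Subgroup U) ≤ H := fun x hx => by
      show π x ∈ (Pb : Subgroup (U ⧸ K))
      rw [hPbc]; exact Subgroup.mem_map_of_mem π hx
    have hPuH : ((u • P : Sylow p U) : Subgroup U) ≤ H := by
      rintro z hz
      rw [Sylow.coe_subgroup_smul, Subgroup.mem_smul_pointwise_iff_exists] at hz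
      obtain ⟨x, hx, rfl⟩ := hz
      show π (MulAut.conj u x) ∈ (Pb : Subgroup (U ⧸ K))
      rw [MulAut.conj_apply, map_mul, map_mul, map_inv]
      exact (Subgroup.mem_normalizer_iff.1 hy (π x)).1 (hPH hx)
    obtain ⟨h, hh⟩ := MulAction.exists_smul_eq H ((u • P : Sylow p U).subtype hPuH)
      (P.subtype hPH)
    rw [Sylow.smul_subtype] at hh
    have hh' := Sylow.subtype_injective hh
    rw [Subgroup.smul_def, ← mul_smul, Sylow.smul_eq_iff_mem_normalizer] at hh'
    have hu : u ∈ H := by
      have h1 : (h : U) * u ∈ H := hPH (hN hh')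
      exact (H.mul_mem_cancel_left h.2).1 h1
    rw [Subgroup.mem_centralizer_iff]
    exact fun z hz => habel z hz _ hu
  have hRK : pResidual p U ⊓ (P : Subgroup U) ≤ K := by
    rintro x ⟨hxR, hxP⟩
    have h1 : π x ∈ (Pb : Subgroup (U ⧸ K)) ⊓ pResidual p (U ⧸ K) :=
      ⟨hPbc ▸ Subgroup.mem_map_of_mem π hxP,
        Transfer.pResidual_map_le π (Subgroup.mem_map_of_mem π hxR)⟩
    rw [(Transfer.inf_pResidual_eq_bot_iff Pb).2 hB, Subgroup.mem_bot] at h1
    rwa [← MonoidHom.mem_ker, QuotientGroup.ker_mk'] at h1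
  have hR := Transfer.hasNormalPComplement_of_inf_le_frattini P (pResidual p U)
    (fun x hx => Subgroup.map_mono (FGS3.commutator_le_frattini P.isPGroup')
      (hKP ⟨hRK hx, hx.2⟩))
  rw [Transfer.hasNormalPComplement_iff_coprime_pResidual] at hR ⊢
  rwa [Transfer.pResidual_subgroup_eq_top, Subgroup.card_top] at hR

/-- Let G be a finite group, p a prime and P a Sylow p-subgroup of G with normalizer N. Then every irreducible complex character of N of degree not divisible by p is the restriction of an irreducible character of G if and only if there is a normal subgroup K of G with KN = G and K ∩ N = 1. -/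
theorem result {G : Type*} [Group G] [Finite G] (p : ℕ) [Fact p.Prime] (P : Sylow p G) :
    (∀ θ : Cfsg.IrrCharacter ↥(Subgroup.normalizer ((P : Subgroup G) : Set G)), ¬ p ∣ Cfsg.charDegree (θ : ↥(Subgroup.normalizer ((P : Subgroup G) : Set G)) → ℂ) →
        ∃ χ : Cfsg.IrrCharacter G, ∀ x : ↥(Subgroup.normalizer ((P : Subgroup G) : Set G)), (χ : G → ℂ) x = (θ : ↥(Subgroup.normalizer ((P : Subgroup G) : Set G)) → ℂ) x) ↔
      ∃ K : Subgroup G, K.Normal ∧ K ⊔ Subgroup.normalizer ((P : Subgroup G) : Set G) = ⊤ ∧ K ⊓ Subgroup.normalizer ((P : Subgroup G) : Set G) = ⊥ := by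
  classical
  have := Fintype.ofFinite G
  have hp := (Fact.out : p.Prime)
  set N := Subgroup.normalizer ((P : Subgroup G) : Set G) with hN
  have hPN : (P : Subgroup G) ≤ N := Subgroup.le_normalizer
  constructor
  · intro h
    let P0 : Sylow p N := P.subtype hPN
    have hP0n : (P0 : Subgroup N).Normal := inferInstanceAs ((P : Subgroup G).subgroupOf N).Normal
    -- extensions of characters of degree prime to p
    let S : Set (IrrCharacter G) := {χ | ∃ θ : IrrCharacter N,
      ¬ p ∣ charDegree (θ : N → ℂ) ∧ ∀ x : N, (χ : G → ℂ) x = (θ : N → ℂ) x}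
    let T : Set (IrrCharacter G) :=
      {χ | χ ∈ S ∧ ∀ x ∈ (P : Subgroup G), (χ : G → ℂ) x = (χ : G → ℂ) 1}
    let K : Subgroup G := ⨅ χ : S, Chars.charKer (Chars.irr_isCharacter χ.1)
    let U : Subgroup G := ⨅ χ : T, Chars.charKer (Chars.irr_isCharacter χ.1)
    have hKn : K.Normal := Subgroup.normal_iInf_normal fun χ => Chars.charKer_normal _
    have hUn : U.Normal := Subgroup.normal_iInf_normal fun χ => Chars.charKer_normal _
    have hKmem : ∀ x, x ∈ K ↔ ∀ χ ∈ S, (χ : G → ℂ) x = (χ : G → ℂ) 1 := fun x => by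
      simp only [K, Subgroup.mem_iInf, Chars.mem_charKer, Subtype.forall]
    have hUmem : ∀ x, x ∈ U ↔ ∀ χ ∈ T, (χ : G → ℂ) x = (χ : G → ℂ) 1 := fun x => by
      simp only [U, Subgroup.mem_iInf, Chars.mem_charKer, Subtype.forall]
    have hPU : (P : Subgroup G) ≤ U := fun x hx => (hUmem x).2 fun χ hχ => hχ.2 x hx
    have hKU : K ≤ U := fun x hx => (hUmem x).2 fun χ hχ => (hKmem x).1 hx χ hχ.1
    have hUN : U ⊓ N ≤ (P : Subgroup G) := by
      rintro x ⟨hxU, hxN⟩
      let π := QuotientGroup.mk' (P0 : Subgroup N)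
      have hall : ∀ ψ : IrrCharacter (N ⧸ (P0 : Subgroup N)),
          (ψ : N ⧸ (P0 : Subgroup N) → ℂ) (π ⟨x, hxN⟩) = (ψ : N ⧸ (P0 : Subgroup N) → ℂ) 1 := by
        intro ψ
        let θ : IrrCharacter N := ⟨_, Chars.isIrrCharacter_comp_surjective ψ.2 π
          (QuotientGroup.mk'_surjective _)⟩
        have hθd : ¬ p ∣ charDegree (θ : N → ℂ) := by
          intro hd
          have h1 := Blocks.charDegree_dvd ψ.2
          have : charDegree (θ : N → ℂ) = charDegree (ψ : N ⧸ (P0 : Subgroup N) → ℂ) := by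
            simp [θ, charDegree]
          exact P0.not_dvd_index (Subgroup.index_eq_card (P0 : Subgroup N) ▸
            ((this ▸ hd).trans h1))
        obtain ⟨χ, hχ⟩ := h θ hθd
        have hχT : χ ∈ T := ⟨⟨θ, hθd, hχ⟩, fun y hy => by
          rw [hχ ⟨y, hPN hy⟩, show (χ : G → ℂ) 1 = (θ : N → ℂ) 1 from hχ 1]
          show (ψ : N ⧸ (P0 : Subgroup N) → ℂ) (π ⟨y, hPN hy⟩) = (ψ : N ⧸ (P0 : Subgroup N) → ℂ) (π 1)
          rw [map_one]
          refine congrArg _ ?_
          rw [← MonoidHom.mem_ker, QuotientGroup.ker_mk']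
          exact hy⟩
        have h2 := (hUmem x).1 hxU χ hχT
        rw [hχ ⟨x, hxN⟩, show (χ : G → ℂ) 1 = (θ : N → ℂ) 1 from hχ 1] at h2
        exact h2.trans (by simp [θ])
      have hone : π ⟨x, hxN⟩ = 1 := by
        by_contra hne
        haveI : Fintype (N ⧸ (P0 : Subgroup N)) := Fintype.ofFinite _
        have h1 := Chars.sum_apply_one_mul (π ⟨x, hxN⟩)
        rw [if_neg hne] at h1
        have h2 := Chars.sum_apply_one_mul (1 : N ⧸ (P0 : Subgroup N))
        rw [if_pos rfl] at h2
        simp only [hall] at h1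
        rw [h1] at h2
        exact Chars.card_ne_zero h2.symm
      rw [← MonoidHom.mem_ker, QuotientGroup.ker_mk'] at hone
      exact hone
    have hNU : Subgroup.normalizer (((P.subtype hPU : Sylow p U) : Subgroup U) : Set U) ≤
        ((P.subtype hPU : Sylow p U) : Subgroup U) := by
      intro u hu
      refine Subgroup.mem_subgroupOf.2 (hUN ⟨u.2, ?_⟩)
      show (u : G) ∈ N
      rw [hN, Subgroup.mem_normalizer_iff]
      intro y
      have h1 := Subgroup.mem_normalizer_iff.1 hu
      constructor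
      · intro hy
        exact Subgroup.mem_subgroupOf.1 ((h1 ⟨y, hPU hy⟩).1 (Subgroup.mem_subgroupOf.2 hy))
      · intro hy
        have hyU : y ∈ U := by
          have := hUn.conj_mem _ (hPU hy) (u : G)⁻¹
          simpa [mul_assoc] using this
        exact Subgroup.mem_subgroupOf.1
          ((h1 ⟨y, hyU⟩).2 (Subgroup.mem_subgroupOf.2 (by simpa using hy)))
    have hPK : (commutator ((P.subtype hPU : Sylow p U) : Subgroup U)).map
        ((P.subtype hPU : Sylow p U) : Subgroup U).subtype ≤ K.subgroupOf U := by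
      rintro _ ⟨z, hz, rfl⟩
      rw [Subgroup.mem_subgroupOf, hKmem]
      rintro χ ⟨θ, hθd, hχ⟩
      let e : ((P.subtype hPU : Sylow p U) : Subgroup U) →* (P0 : Subgroup N) :=
        { toFun := fun a => ⟨⟨((a : U) : G), hPN (Subgroup.mem_subgroupOf.1 a.2)⟩,
            Subgroup.mem_subgroupOf.2 (Subgroup.mem_subgroupOf.1 a.2)⟩
          map_one' := rfl
          map_mul' := fun _ _ => rfl }
      have hez : e z ∈ commutator (P0 : Subgroup N) := by
        have := Subgroup.mem_map_of_mem e hz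
        rw [commutator_def, Subgroup.map_commutator] at this
        exact Subgroup.commutator_mono le_top le_top this
      have h1 := apply_eq_of_mem_commutator p (P0 : Subgroup N) P0.isPGroup' θ.2 hθd hez
      rw [show (χ : G → ℂ) 1 = (θ : N → ℂ) 1 from hχ 1, ← h1]
      exact hχ (e z : N)
    have hKP : K.subgroupOf U ⊓ ((P.subtype hPU : Sylow p U) : Subgroup U) ≤
        (commutator ((P.subtype hPU : Sylow p U) : Subgroup U)).map
          ((P.subtype hPU : Sylow p U) : Subgroup U).subtype := by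
      rintro x ⟨hxK, hxP⟩
      have hxK : (x : G) ∈ K := hxK
      have hxP' : (x : G) ∈ (P : Subgroup G) := Subgroup.mem_subgroupOf.1 hxP
      have hc : (⟨⟨(x : G), hPN hxP'⟩, Subgroup.mem_subgroupOf.2 hxP'⟩ : (P0 : Subgroup N)) ∈
          commutator (P0 : Subgroup N) := by
        refine DegreeGraph.mem_commutator_of_forall_ker (x := (⟨(x : G), hPN hxP'⟩ : N)) P0
          (Subgroup.mem_subgroupOf.2 hxP') fun θ hθd => ?_
        obtain ⟨χ, hχ⟩ := h θ hθd
        have := (hKmem x).1 hxK χ ⟨θ, hθd, hχ⟩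
        rwa [hχ ⟨x, hPN hxP'⟩, show (χ : G → ℂ) 1 = (θ : N → ℂ) 1 from hχ 1] at this
      let e : (P0 : Subgroup N) →* ((P.subtype hPU : Sylow p U) : Subgroup U) :=
        { toFun := fun a => ⟨⟨((a : N) : G), hPU (Subgroup.mem_subgroupOf.1 a.2)⟩,
            Subgroup.mem_subgroupOf.2 (Subgroup.mem_subgroupOf.1 a.2)⟩
          map_one' := rfl
          map_mul' := fun _ _ => rfl }
      have := Subgroup.mem_map_of_mem e hc
      rw [commutator_def, Subgroup.map_commutator] at this
      exact ⟨_, Subgroup.commutator_mono le_top le_top this, rfl⟩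
    have hU := hasNormalPComplement_core p (P.subtype hPU) (K.subgroupOf U) hNU hPK hKP
    refine ⟨(pResidual p U).map U.subtype,
      Core.normal_map_subtype_of_characteristic (pResidual p U), ?_, ?_⟩
    · have h1 := congrArg (Subgroup.map U.subtype)
        (Transfer.sylow_sup_pResidual (P.subtype hPU : Sylow p U))
      rw [Subgroup.map_sup, ← MonoidHom.range_eq_map, Subgroup.range_subtype] at h1
      have h2 : N ⊔ U = ⊤ := by
        have := Sylow.normalizer_sup_eq_top (P.subtype hPU : Sylow p U)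
        rwa [Sylow.coe_subtype, Subgroup.subgroupOf_map_subtype, inf_eq_left.2 hPU] at this
      rw [Sylow.coe_subtype, Subgroup.subgroupOf_map_subtype, inf_eq_left.2 hPU] at h1
      exact eq_top_iff.2 (h2.ge.trans (sup_le le_sup_right
        (h1.ge.trans (sup_le (hPN.trans le_sup_right) le_sup_left))))
    · rw [eq_bot_iff]
      rintro _ ⟨⟨u, hu, rfl⟩, huN⟩
      have huP := hUN ⟨u.2, huN⟩
      have h3 := (Transfer.inf_pResidual_eq_bot_iff (P.subtype hPU : Sylow p U)).2 hU
      have h4 : u = 1 := Subgroup.mem_bot.1 (h3.le ⟨Subgroup.mem_subgroupOf.2 huP, hu⟩)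
      rw [h4]; simp
  · rintro ⟨K, hK, htop, hbot⟩ θ -
    let f : N →* G ⧸ K := (QuotientGroup.mk' K).comp N.subtype
    have hinj : Function.Injective f := by
      rw [injective_iff_map_eq_one]
      intro x hx
      rw [MonoidHom.comp_apply, ← MonoidHom.mem_ker, QuotientGroup.ker_mk'] at hx
      exact Subtype.ext (Subgroup.mem_bot.1 (hbot.le ⟨hx, x.2⟩))
    have hsurj : Function.Surjective f := by
      intro y
      obtain ⟨g, rfl⟩ := QuotientGroup.mk'_surjective K y
      obtain ⟨a, ha, b, hb, rfl⟩ := Subgroup.mem_sup_of_normal_left.1 (htop ▸ Subgroup.mem_top g)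
      refine ⟨⟨b, hb⟩, ?_⟩
      show QuotientGroup.mk' K b = _
      rw [map_mul, show QuotientGroup.mk' K a = 1 by
        rw [← MonoidHom.mem_ker, QuotientGroup.ker_mk']; exact ha, one_mul]
    let e : N ≃* G ⧸ K := MulEquiv.ofBijective f ⟨hinj, hsurj⟩
    refine ⟨⟨_, Chars.isIrrCharacter_comp_surjective θ.2
      (e.symm.toMonoidHom.comp (QuotientGroup.mk' K))
      (e.symm.surjective.comp (QuotientGroup.mk'_surjective K))⟩, fun x => ?_⟩
    show (θ : N → ℂ) (e.symm (QuotientGroup.mk' K x)) = _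
    exact congrArg (θ : N → ℂ) (e.symm_apply_apply x)

end Cfsg.Agent.S4931
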