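import Cfsg.Statements.S4989
import Cfsg.Agent.Chars.Orth
import Cfsg.Agent.DegreeGraph.GaloisMean
-- import your own Cfsg.Agent.* helpers here

set_option autoImplicit false
open Cfsg

namespace Cfsg.Agent.S4989

/-- Let H be a subgroup of the finite group G and χ an irreducible complex character of G. Then the inner product of the restriction of χ to H with itself, (1/#H)·Σ_{h ∈ H} |χ(h)|², is at most 1 + #(Z ∖ H)/#H, where Z is the set of zeros of χ in G. -/
theorem result {G : Type*} [Group G] [Finite G] (H : Subgroup G) (χ : Cfsg.IrrCharacter G) : (Nat.card ↥H : ℝ)⁻¹ * ∑ᶠ h : ↥H, ‖(χ : G → ℂ) h‖ ^ 2 ≤ 1 + (Set.ncard ({x : G | (χ : G → ℂ) x = 0} \ (H : Set G)) : ℝ) / (Nat.card ↥H : ℝ) := by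
  classical
  have := Fintype.ofFinite G
  let s : Finset G := Finset.univ.filter fun x => x ∉ H ∧ (χ : G → ℂ) x ≠ 0
  let z : Finset G := Finset.univ.filter fun x => x ∉ H ∧ (χ : G → ℂ) x = 0
  have hχc : Cfsg.IsCharacter G (χ : G → ℂ) := Cfsg.Agent.Chars.irr_isCharacter χ
  have hs : (s.card : ℝ) ≤ ∑ x ∈ s, ‖(χ : G → ℂ) x‖ ^ 2 := by
    refine DegreeGraph.card_le_sum_norm_sq s (fun _ => (χ : G → ℂ)) (fun _ => hχc) id
      (fun x hx => (Finset.mem_filter.mp hx).2.2) fun j hj hne => ?_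
    refine ⟨fun x => x ^ j, (DegreeGraph.pow_coprime_injective hj).injOn, fun x hx => ?_,
      fun x _ => rfl⟩
    obtain ⟨-, hxH, hx0⟩ := Finset.mem_filter.mp hx
    refine Finset.mem_filter.mpr ⟨Finset.mem_univ _, fun hmem => hxH ?_, hne _ hχc x hx0⟩
    obtain ⟨m, hm⟩ := exists_pow_eq_self_of_coprime
      (Nat.Coprime.coprime_dvd_right (orderOf_dvd_natCard x) hj)
    exact hm ▸ H.pow_mem hmem m
  have hsplit : ∑ x ∈ Finset.univ.filter (fun x => x ∈ H), ‖(χ : G → ℂ) x‖ ^ 2 +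
      ∑ x ∈ s, ‖(χ : G → ℂ) x‖ ^ 2 = Nat.card G := by
    have h1 : ∑ x ∈ s, ‖(χ : G → ℂ) x‖ ^ 2 =
        ∑ x ∈ Finset.univ.filter (fun x => x ∉ H), ‖(χ : G → ℂ) x‖ ^ 2 :=
      Finset.sum_subset (fun x hx => by simp_all [s]) fun x hx hxs => by simp_all [s]
    rw [h1, Finset.sum_filter_add_sum_filter_not]
    have h2 := Cfsg.Agent.Chars.classInner_self_irr χ.2
    rw [Cfsg.Agent.Chars.classInner_def,
      inv_mul_eq_iff_eq_mul₀ Cfsg.Agent.Chars.card_ne_zero, mul_one] at h2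
    apply Complex.ofReal_injective
    rw [Complex.ofReal_sum, Complex.ofReal_natCast, ← h2]
    exact Finset.sum_congr rfl fun x _ => by rw [Complex.mul_conj', Complex.ofReal_pow]
  have hH : ∑ᶠ h : ↥H, ‖(χ : G → ℂ) h‖ ^ 2 =
      ∑ x ∈ Finset.univ.filter (fun x => x ∈ H), ‖(χ : G → ℂ) x‖ ^ 2 := by
    rw [finsum_eq_sum_of_fintype]
    exact (Finset.sum_subtype _ (fun x => by simp) (fun x => ‖(χ : G → ℂ) x‖ ^ 2)).symm
  have hz : Set.ncard ({x : G | (χ : G → ℂ) x = 0} \ (H : Set G)) = z.card := by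
    rw [← Set.ncard_coe_finset]
    congr 1
    ext x
    simp [z, and_comm]
  have hcard : Nat.card G = Nat.card ↥H + z.card + s.card := by
    rw [Nat.card_eq_fintype_card, Nat.card_eq_fintype_card, Fintype.card_subtype, ← Finset.card_univ,
      ← Finset.card_filter_add_card_filter_not (fun x => x ∈ H), add_assoc]
    congr 1
    rw [← Finset.card_filter_add_card_filter_not (fun x => (χ : G → ℂ) x = 0),
      Finset.filter_filter, Finset.filter_filter]
  have hpos : (0 : ℝ) < Nat.card ↥H := Nat.cast_pos.mpr Nat.card_pos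
  rw [hH, hz, inv_mul_le_iff₀ hpos, mul_add, mul_one, mul_div_cancel₀ _ hpos.ne']
  have : (Nat.card G : ℝ) = Nat.card ↥H + z.card + s.card := by exact_mod_cast hcard
  linarith

end Cfsg.Agent.S4989
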