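import Cfsg.Statements.S4996
import Mathlib.Tactic.Group
import Cfsg.Agent.Chars.Orth
import Cfsg.Agent.DegreeGraph.GaloisMean
-- import your own Cfsg.Agent.* helpers here

set_option autoImplicit false
open Cfsg
open scoped ComplexConjugate

namespace Cfsg.Agent.S4996

/-- Let N be a normal subgroup of the finite group G and χ an irreducible complex character of G. Then the restriction of χ to N is not irreducible if and only if χ vanishes on some whole coset Nx of N in G. -/
theorem result {G : Type*} [Group G] [Finite G] (N : Subgroup G) [N.Normal] (χ : Cfsg.IrrCharacter G) : ¬ Cfsg.IsIrrCharacter ↥N (fun n : ↥N => (χ : G → ℂ) n) ↔ ∃ x : G, ∀ n : ↥N, (χ : G → ℂ) ((n : G) * x) = 0 := by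
  classical
  have := Fintype.ofFinite G
  have := Fintype.ofFinite (G ⧸ N)
  have hχc : Cfsg.IsCharacter G (χ : G → ℂ) := Cfsg.Agent.Chars.irr_isCharacter χ
  let ψ : ↥N → ℂ := fun n => (χ : G → ℂ) n
  have hψc : Cfsg.IsCharacter ↥N ψ := by
    obtain ⟨d, ρ, hρ⟩ := hχc
    exact ⟨d, ρ.comp N.subtype, funext fun n => congrFun hρ (n : G)⟩
  have hFc : Cfsg.IsCharacter G (fun g => (χ : G → ℂ) g * conj ((χ : G → ℂ) g)) := by
    obtain ⟨d, ρ, hρ⟩ := hχc
    have hc : (Representation.tprod ρ.dual ρ).character =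
        fun g => (χ : G → ℂ) g * conj ((χ : G → ℂ) g) := funext fun g => by
      rw [Representation.char_tensor, Pi.mul_apply, Representation.char_dual, mul_comm,
        Cfsg.Agent.Chars.char_inv_eq_conj (Cfsg.Agent.Chars.isCharacter_of_rep ρ), hρ]
    exact hc ▸ Cfsg.Agent.Chars.isCharacter_of_rep _
  -- the mean square over the cosets
  let Φ : G ⧸ N → ℂ := fun q => (Nat.card N : ℂ)⁻¹ *
    ∑ g ∈ Finset.univ.filter (fun g : G => (g : G ⧸ N) = q), (χ : G → ℂ) g * conj ((χ : G → ℂ) g)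
  have hΦcl : Cfsg.IsClassFunction (G ⧸ N) Φ := by
    intro q r
    obtain ⟨r, rfl⟩ := QuotientGroup.mk_surjective r
    simp only [Φ]
    congr 1
    refine Finset.sum_nbij' (fun g => r⁻¹ * g * r) (fun g => r * g * r⁻¹) ?_ ?_ ?_ ?_ ?_
    · intro g hg
      rw [Finset.mem_filter] at hg ⊢
      refine ⟨Finset.mem_univ _, ?_⟩
      replace hg := hg.2
      rw [QuotientGroup.mk_mul, QuotientGroup.mk_mul, hg, QuotientGroup.mk_inv]; group
    · intro g hg
      rw [Finset.mem_filter] at hg ⊢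
      refine ⟨Finset.mem_univ _, ?_⟩
      replace hg := hg.2
      rw [QuotientGroup.mk_mul, QuotientGroup.mk_mul, hg, QuotientGroup.mk_inv]
    · intro g _; group
    · intro g _; group
    · intro g _
      have := Cfsg.Agent.Chars.isCharacter_conj_apply hχc g r⁻¹
      rw [inv_inv] at this
      rw [this]
  have hinner : ∀ φ : G ⧸ N → ℂ, Cfsg.classInner Φ φ =
      Cfsg.classInner (fun g => (χ : G → ℂ) g * conj ((χ : G → ℂ) g))
        (φ ∘ QuotientGroup.mk) := by
    intro φ
    rw [Cfsg.Agent.Chars.classInner_def, Cfsg.Agent.Chars.classInner_def,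
      ← Finset.sum_fiberwise_of_maps_to (s := (Finset.univ : Finset G))
        (t := (Finset.univ : Finset (G ⧸ N))) (g := QuotientGroup.mk) fun g _ => Finset.mem_univ _,
      Subgroup.card_eq_card_quotient_mul_card_subgroup N, Nat.cast_mul, mul_inv, mul_assoc]
    congr 1
    rw [Finset.mul_sum]
    refine Finset.sum_congr rfl fun q _ => ?_
    simp only [Φ]
    rw [mul_assoc, Finset.sum_mul]
    congr 1
    exact Finset.sum_congr rfl fun g hg => by rw [Function.comp_apply, (Finset.mem_filter.mp hg).2]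
  have hΦc : Cfsg.IsCharacter (G ⧸ N) Φ := by
    refine Cfsg.Agent.Chars.isCharacter_of_classInner_nat hΦcl fun φ hφ => ?_
    rw [hinner]
    obtain ⟨d, σ, _, hσ⟩ := hφ
    refine Cfsg.Agent.Chars.exists_classInner_eq_nat hFc ⟨d, σ.comp (QuotientGroup.mk' N), ?_⟩
    exact funext fun g => congrFun hσ (g : G ⧸ N)
  have hΦ1 : Φ 1 = Cfsg.classInner ψ ψ := by
    rw [Cfsg.Agent.Chars.classInner_def]
    simp only [Φ, ψ]
    congr 1
    symm
    refine Finset.sum_bij (fun (n : ↥N) _ => (n : G)) (fun n _ => ?_) (fun a _ b _ => Subtype.ext)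
      (fun g hg => ?_) fun n _ => rfl
    · simp [QuotientGroup.eq_one_iff]
    · exact ⟨⟨g, (QuotientGroup.eq_one_iff g).mp (Finset.mem_filter.mp hg).2⟩, Finset.mem_univ _, rfl⟩
  obtain ⟨m, hm⟩ := Cfsg.Agent.Chars.exists_classInner_eq_nat hψc hψc
  have hre : ∀ q, ((Φ q).re : ℂ) = Φ q ∧ 0 ≤ (Φ q).re ∧
      ((Φ q).re = 0 ↔ ∀ g : G, (g : G ⧸ N) = q → (χ : G → ℂ) g = 0) := by
    intro q
    have h : Φ q = (((Nat.card N : ℝ)⁻¹ * ∑ g ∈ Finset.univ.filter (fun g : G => (g : G ⧸ N) = q),
        ‖(χ : G → ℂ) g‖ ^ 2 : ℝ) : ℂ) := by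
      simp only [Φ, Complex.ofReal_mul, Complex.ofReal_inv, Complex.ofReal_natCast,
        Complex.ofReal_sum, Complex.ofReal_pow, Complex.mul_conj']
    rw [h, Complex.ofReal_re]
    refine ⟨rfl, by positivity, ?_⟩
    rw [mul_eq_zero, inv_eq_zero, or_iff_right (Nat.cast_ne_zero.mpr Nat.card_pos.ne'),
      Finset.sum_eq_zero_iff_of_nonneg fun g _ => sq_nonneg _]
    simp
  constructor
  · intro hnot
    by_contra hcon
    push Not at hcon
    have hnz : ∀ q, 0 < (Φ q).re := by
      intro q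
      refine (hre q).2.1.lt_of_ne' fun h0 => ?_
      obtain ⟨x, rfl⟩ := QuotientGroup.mk_surjective q
      obtain ⟨n, hn⟩ := hcon x
      refine hn ((hre _).2.2.mp h0 _ ?_)
      rw [QuotientGroup.mk_mul, (QuotientGroup.eq_one_iff _).mpr n.2, one_mul]
    have hsum : ∑ q, (Φ q).re = Nat.card (G ⧸ N) := by
      have h1 := hinner (fun _ => 1)
      have h2 : Cfsg.classInner (fun g => (χ : G → ℂ) g * conj ((χ : G → ℂ) g))
          ((fun _ : G ⧸ N => (1 : ℂ)) ∘ QuotientGroup.mk) = 1 := by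
        refine Eq.trans ?_ (Cfsg.Agent.Chars.classInner_self_irr χ.2)
        simp [Cfsg.Agent.Chars.classInner_def]
      rw [h2, Cfsg.Agent.Chars.classInner_def,
        inv_mul_eq_iff_eq_mul₀ Cfsg.Agent.Chars.card_ne_zero] at h1
      simp only [map_one, mul_one] at h1
      apply Complex.ofReal_injective
      rw [Complex.ofReal_sum, Complex.ofReal_natCast, ← h1]
      exact Finset.sum_congr rfl fun q _ => (hre q).1
    have := DegreeGraph.finiteDimensional_fieldG (G := G ⧸ N)
    have hmem : ∀ q, (((Φ q).re : ℝ) : ℂ) ∈ DegreeGraph.fieldG (G ⧸ N) := fun q => by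
      rw [(hre q).1]; exact DegreeGraph.value_mem hΦc q
    have hle : (((Finset.univ : Finset (G ⧸ N)).erase 1).card : ℝ) ≤
        ∑ q ∈ (Finset.univ : Finset (G ⧸ N)).erase 1, (Φ q).re := by
      refine DegreeGraph.card_le_sum_of_galois _ (DegreeGraph.fieldG (G ⧸ N))
        (fun q => (Φ q).re) (fun q _ => hnz q)
        (fun q _ => by rw [(hre q).1]; exact DegreeGraph.isIntegral_value hΦc q) hmem fun σ => ?_
      obtain ⟨j, hj, hσ⟩ := DegreeGraph.exists_pow_of_embedding σ
      refine ⟨fun q => q ^ j, (DegreeGraph.pow_coprime_injective hj).injOn, fun q hq => ?_,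
        fun q _ => ?_⟩
      · refine Finset.mem_erase.mpr ⟨fun h => (Finset.mem_erase.mp hq).1 ?_, Finset.mem_univ _⟩
        exact DegreeGraph.pow_coprime_injective hj (by simpa using h)
      · rw [(hre (q ^ j)).1, ← hσ Φ hΦc q]
        congr 1
        exact Subtype.ext (hre q).1
    rw [Finset.card_erase_of_mem (Finset.mem_univ _), Finset.card_univ,
      Finset.sum_erase_eq_sub (Finset.mem_univ _), hsum, ← Nat.card_eq_fintype_card,
      Nat.cast_sub Nat.card_pos, Nat.cast_one, hΦ1, hm, Complex.natCast_re] at hle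
    have hm1 : m ≤ 1 := by exact_mod_cast (by linarith : (m : ℝ) ≤ 1)
    have hm0 : 0 < (m : ℝ) := by
      have := hnz 1
      rwa [hΦ1, hm, Complex.natCast_re] at this
    have hmeq : m = 1 := le_antisymm hm1 (Nat.cast_pos.mp hm0)
    exact hnot (Cfsg.Agent.Chars.isIrrCharacter_of_norm_one hψc (by rw [hm, hmeq, Nat.cast_one]))
  · rintro ⟨x, hx⟩ hirr
    have h1 : Φ 1 = 1 := hΦ1.trans (Cfsg.Agent.Chars.classInner_self_irr hirr)
    have h0 : Φ (x : G ⧸ N) = 0 := by
      rw [← (hre _).1, (hre _).2.2.mpr fun g hg => ?_, Complex.ofReal_zero]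
      have hn : g * x⁻¹ ∈ N := by
        rw [← QuotientGroup.eq_one_iff, QuotientGroup.mk_mul, hg, QuotientGroup.mk_inv,
          mul_inv_cancel]
      simpa using hx ⟨g * x⁻¹, hn⟩
    obtain ⟨c, hc⟩ := DegreeGraph.isCharacter_exists_mult hΦc (x : G ⧸ N)
    have e0 := hc 0
    rw [pow_zero, h1] at e0
    simp only [mul_zero, pow_zero, mul_one] at e0
    have e0' : ∑ i, c i = 1 := by exact_mod_cast e0.symm
    obtain ⟨i, -, hi⟩ := Finset.exists_ne_zero_of_sum_ne_zero (e0'.trans_ne one_ne_zero)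
    have hrest : ∀ k, k ≠ i → c k = 0 := fun k hk => by
      have h := Finset.add_sum_erase Finset.univ c (Finset.mem_univ i)
      rw [e0'] at h
      have : c k ≤ ∑ l ∈ Finset.univ.erase i, c l :=
        Finset.single_le_sum (fun l _ => Nat.zero_le _)
          (Finset.mem_erase.mpr ⟨hk, Finset.mem_univ k⟩)
      omega
    have e1 := hc 1
    rw [pow_one, h0, Finset.sum_eq_single i (fun k _ hk => by simp [hrest k hk]) (by simp)] at e1
    rcases mul_eq_zero.mp e1.symm with h | h
    · exact hi (Nat.cast_eq_zero.mp h)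
    · exact pow_ne_zero _ DegreeGraph.rootG_ne_zero h

end Cfsg.Agent.S4996
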