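import Cfsg.Statements.S5001
import Cfsg.Agent.Blocks.DefectMore
import Cfsg.Agent.DegreeGraph.AbelianNormal
import Cfsg.Agent.Chars2.Ramified

set_option autoImplicit false
open Cfsg

namespace Cfsg.Agent.S5001

/-- Let p be a prime, G a finite group and B a p-block of G (relative to a maximal ideal M of the algebraic integers containing p) with defect group D. Let Z be a central p-subgroup of G contained in D and λ a linear character of Z (a homomorphism to the nonzero complex numbers). Say an irreducible character χ of G lies over λ when χ(z) = χ(1)λ(z) for all z ∈ Z. If some irreducible character in B lying over λ has height zero, then λ extends to a linear character of D. -/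
theorem result {G : Type*} [Group G] [Finite G] (p : ℕ) [Fact p.Prime] (M : Ideal Cfsg.AlgInt) (hM : Cfsg.IsPModular p M) (B : Set (Cfsg.IrrCharacter G)) (hB : Cfsg.IsPBlock M B) (D : Subgroup G) (hD : Cfsg.IsDefectGroup p M B D) (Z : Subgroup G) (hZc : Z ≤ Subgroup.center G) (hZp : IsPGroup p ↥Z) (hZD : Z ≤ D) (lam : ↥Z →* ℂˣ) (χ : Cfsg.IrrCharacter G) (hχ : χ ∈ B) (hover : (∀ z : ↥Z, (χ : G → ℂ) z = (χ : G → ℂ) 1 * (lam z : ℂ))) (h0 : Cfsg.blockHeight p B (χ : G → ℂ) = 0) : (∃ μ : ↥D →* ℂˣ, ∀ z : ↥Z, μ ⟨(z : G), hZD z.2⟩ = lam z) := by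
  classical
  haveI := Fintype.ofFinite G
  haveI : M.IsMaximal := hM.2.1
  have hpM : (p : AlgInt) ∈ M := hM.2.2
  obtain ⟨g, hg, hgD⟩ := Blocks.isDefectGroup_iff.1 hD
  have hunit := Blocks.not_memI_value_of_height_zero hpM hB hχ h0 hg
  have hDp : IsPGroup p D := Blocks.isPGroup_defect hD
  have hcomm : ∀ d ∈ D, g * d = d * g := fun d hd =>
    (Subgroup.mem_centralizer_singleton_iff.1 (hgD.1 hd)).symm
  set H : Subgroup G := D ⊔ Subgroup.zpowers g with hH
  have hgH : g ∈ H := Subgroup.mem_sup_right (Subgroup.mem_zpowers g)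
  have hDH : D ≤ H := le_sup_left
  have hcen : ∀ h ∈ H, g * h = h * g := by
    intro h hh
    have : H ≤ Subgroup.centralizer ({g} : Set G) := sup_le hgD.1
      (Subgroup.zpowers_le.2 (Subgroup.mem_centralizer_singleton_iff.2 rfl))
    exact (Subgroup.mem_centralizer_singleton_iff.1 (this hh)).symm
  let g' : ↥H := ⟨g, hgH⟩
  let C : Subgroup ↥H := Subgroup.zpowers g'
  have hCc : C ≤ Subgroup.center ↥H :=
    Subgroup.zpowers_le.2 (Subgroup.mem_center_iff.2 fun h => Subtype.ext (hcen h h.2).symm)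
  haveI hCn : C.Normal := ⟨fun a ha x => by
    rwa [Subgroup.mem_center_iff.1 (hCc ha) x, mul_inv_cancel_right]⟩
  have hab : ∀ a ∈ C, ∀ b ∈ C, a * b = b * a := fun a ha b _ =>
    (Subgroup.mem_center_iff.1 (hCc ha) b).symm
  obtain ⟨k, hk⟩ : ∃ k, C.index ∣ p ^ k := by
    obtain ⟨k, hk⟩ := IsPGroup.iff_card.1 hDp
    refine ⟨k, hk ▸ Subgroup.card_dvd_of_surjective
      ((QuotientGroup.mk' C).comp (Subgroup.inclusion hDH)) ?_⟩
    intro x
    obtain ⟨⟨h, hh⟩, rfl⟩ := QuotientGroup.mk'_surjective C x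
    have hh' : h ∈ D ⊔ Subgroup.zpowers g := hh
    have key : ∀ y ∈ D ⊔ Subgroup.zpowers g, ∃ d : D, ∃ n : ℤ, y = (d : G) * g ^ n := by
      intro y hy
      have hnorm : Subgroup.zpowers g ≤ Subgroup.normalizer (D : Set G) := by
        refine Subgroup.zpowers_le.2 (Subgroup.mem_normalizer_iff.2 fun d => ?_)
        constructor
        · intro hd
          rwa [hcomm d hd, mul_inv_cancel_right]
        · intro hd
          have := hcomm _ hd
          have h2 : d = g * d * g⁻¹ :=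
            (mul_left_cancel (this.trans (inv_mul_cancel_right (g * d) g))).symm
          rwa [h2]
      rw [← SetLike.mem_coe, Subgroup.coe_mul_of_right_le_normalizer_left D _ hnorm] at hy
      obtain ⟨d, hd, z, ⟨n, rfl⟩, rfl⟩ := hy
      exact ⟨⟨d, hd⟩, n, rfl⟩
    obtain ⟨d, n, hd⟩ := key h hh'
    refine ⟨d, ?_⟩
    rw [MonoidHom.comp_apply, QuotientGroup.mk'_apply, QuotientGroup.mk'_apply,
      QuotientGroup.eq]
    exact ⟨n, Subtype.ext (by simp [g', hd])⟩
  have hres : Cfsg.IsCharacter ↥H (fun h : ↥H => (χ : G → ℂ) h) :=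
    Chars.isCharacter_restrict (Chars.isCharacter_of_isIrr χ.2) H
  have hcl : Cfsg.IsClassFunction ↥H (fun h : ↥H => (χ : G → ℂ) h) := fun a b =>
    Chars.isClassFunction_irr χ (a : G) (b : G)
  obtain ⟨η, hη⟩ : ∃ η : Cfsg.IrrCharacter ↥H,
      classInner (fun h : ↥H => (χ : G → ℂ) h) (η : ↥H → ℂ) ≠ 0 ∧ (η : ↥H → ℂ) 1 = 1 := by
    by_contra hcon
    push Not at hcon
    refine hunit ?_
    show MemLocalIdeal M ((fun h : ↥H => (χ : G → ℂ) h) g')
    rw [Chars.eq_sum_classInner hcl, Finset.sum_apply]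
    refine Blocks.memI_sum _ _ fun η _ => ?_
    rw [Pi.smul_apply, smul_eq_mul]
    by_cases h0' : classInner (fun h : ↥H => (χ : G → ℂ) h) (η : ↥H → ℂ) = 0
    · rw [h0', zero_mul]; exact Blocks.memI_zero
    obtain ⟨m, hm⟩ := Chars.exists_classInner_eq_nat hres (Chars.isCharacter_of_isIrr η.2)
    rw [hm]
    refine Blocks.memI_mul_left (Blocks.memR_natCast m) ?_
    obtain ⟨d, hd1, hd⟩ := DegreeGraph.exists_degree_dvd_index C hab η.2
    obtain ⟨i, -, hi⟩ := (Nat.dvd_prime_pow Fact.out).1 (hd.trans hk)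
    have hi0 : i ≠ 0 := fun h => hcon η h0' (by rw [hd1, hi, h, pow_zero, Nat.cast_one])
    obtain ⟨φ, hφ⟩ := Chars2.exists_central_hom η.2 hCc
    have e := hφ ⟨g', Subgroup.mem_zpowers g'⟩ 1
    rw [mul_one] at e
    rw [show (η : ↥H → ℂ) g' = _ from e]
    refine Blocks.memI_mul_left (Blocks.memR_of_isIntegral ?_) ?_
    · refine IsIntegral.of_pow (n := orderOf (⟨g', Subgroup.mem_zpowers g'⟩ : C)) (orderOf_pos _) ?_
      rw [← Units.val_pow_eq_pow_val, ← map_pow, pow_orderOf_eq_one, map_one, Units.val_one]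
      exact isIntegral_one
    · rw [hd1, Blocks.memI_natCast_iff hpM, hi]
      exact dvd_pow_self p hi0
  obtain ⟨φ, hφ⟩ := Chars.exists_hom_of_degree_one (Chars.isCharacter_of_isIrr η.2) hη.2
  refine ⟨φ.comp (Subgroup.inclusion hDH), fun z => ?_⟩
  obtain ⟨ψ, hψ⟩ := Chars2.exists_central_hom χ.2 hZc
  have hlam : ∀ y : G, (χ : G → ℂ) ((z : G) * y) = (lam z : ℂ) * (χ : G → ℂ) y := by
    intro y
    have e := hψ z 1
    rw [mul_one, hover z, mul_comm] at e
    rw [hψ z y, ← mul_right_cancel₀ (Chars.irr_apply_one_ne_zero χ.2) e]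
  let z' : ↥H := ⟨(z : G), hDH (hZD z.2)⟩
  have hsum : ∀ f : ↥H → ℂ, ∑ h : ↥H, f (z' * h) = ∑ h : ↥H, f h := fun f =>
    Equiv.sum_comp (Equiv.mulLeft z') f
  have key : classInner (fun h : ↥H => (χ : G → ℂ) h) (η : ↥H → ℂ) =
      (lam z : ℂ) * (starRingEnd ℂ) (φ z' : ℂ) *
        classInner (fun h : ↥H => (χ : G → ℂ) h) (η : ↥H → ℂ) := by
    conv_lhs => rw [Chars.classInner_def, ← hsum]
    rw [Chars.classInner_def, Finset.mul_sum, Finset.mul_sum, Finset.mul_sum]
    refine Finset.sum_congr rfl fun h _ => ?_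
    have e1 : (χ : G → ℂ) ((z' * h : ↥H) : G) = (lam z : ℂ) * (χ : G → ℂ) h := hlam h
    have e2 : (η : ↥H → ℂ) (z' * h) = (φ z' : ℂ) * (η : ↥H → ℂ) h := by
      rw [hφ]; simp
    rw [e1, e2, map_mul]
    ring
  have h1 : (lam z : ℂ) * (starRingEnd ℂ) (φ z' : ℂ) = 1 :=
    (mul_eq_right₀ hη.1).1 key.symm
  have h2 : (φ z' : ℂ) * (starRingEnd ℂ) (φ z' : ℂ) = 1 := by
    have hfin : (φ z' : ℂ) ^ orderOf z' = 1 := by
      rw [← Units.val_pow_eq_pow_val, ← map_pow, pow_orderOf_eq_one, map_one, Units.val_one]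
    rw [Complex.mul_conj, Complex.normSq_eq_norm_sq,
      Complex.norm_eq_one_of_pow_eq_one hfin (orderOf_pos _).ne']
    simp
  have hc : (starRingEnd ℂ) (φ z' : ℂ) ≠ 0 := right_ne_zero_of_mul (h2.trans_ne one_ne_zero)
  exact Units.ext (mul_right_cancel₀ hc (h2.trans h1.symm))

end Cfsg.Agent.S5001
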