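import Cfsg.Statements.S5011
-- import your own Cfsg.Agent.* helpers here

set_option autoImplicit false
open Cfsg

namespace Cfsg.Agent.S5011

/-- Let G be a finite non-abelian simple group and ρ an irreducible complex representation of G on a space of dimension greater than one (irreducible in the sense that the only subspaces invariant under every ρ(x) are 0 and the whole space). Then for every non-identity element g of G, the centralizer of g does not act irreducibly: there is a non-zero proper subspace invariant under ρ(c) for every c commuting with g. -/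
theorem result {G : Type*} [Group G] [Finite G] [IsSimpleGroup G]
    (hG : ¬ IsMulCommutative G) {V : Type*} [AddCommGroup V] [Module ℂ V] [FiniteDimensional ℂ V]
    (ρ : Representation ℂ G V)
    (hirr : ∀ W : Submodule ℂ V, (∀ x : G, ∀ v ∈ W, ρ x v ∈ W) → W = ⊥ ∨ W = ⊤)
    (hdim : 1 < Module.finrank ℂ V) (g : G) (hg : g ≠ 1) :
    ∃ W : Submodule ℂ V, W ≠ ⊥ ∧ W ≠ ⊤ ∧ ∀ c ∈ Subgroup.centralizer ({g} : Set G), ∀ v ∈ W, ρ c v ∈ W := by
  classical
  have : Nontrivial V := Module.nontrivial_of_finrank_pos (R := ℂ) (by omega)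
  obtain ⟨μ, hμ⟩ := Module.End.exists_eigenvalue (ρ g : Module.End ℂ V)
  by_contra hcon
  push Not at hcon
  have hinv : ∀ c ∈ Subgroup.centralizer ({g} : Set G), ∀ v ∈ Module.End.eigenspace (ρ g) μ,
      ρ c v ∈ Module.End.eigenspace (ρ g) μ := by
    intro c hc v hv
    rw [Module.End.mem_eigenspace_iff] at hv ⊢
    have hcg : c * g = g * c := Subgroup.mem_centralizer_singleton_iff.mp hc
    calc ρ g (ρ c v) = ρ c (ρ g v) := by
          rw [← Module.End.mul_apply, ← map_mul, ← hcg, map_mul, Module.End.mul_apply]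
      _ = μ • ρ c v := by rw [hv, map_smul]
  have htop : Module.End.eigenspace (ρ g) μ = ⊤ := by
    by_contra hne
    obtain ⟨c, hc, v, hv, hnot⟩ := hcon _ hμ hne
    exact hnot (hinv c hc v hv)
  have hscal : ∀ v : V, ρ g v = μ • v := fun v =>
    Module.End.mem_eigenspace_iff.mp (htop ▸ Submodule.mem_top)
  have hker : ∀ x : G, x * g * x⁻¹ * g⁻¹ ∈ (ρ : G →* Module.End ℂ V).ker := by
    intro x
    rw [MonoidHom.mem_ker]
    apply LinearMap.ext
    intro v
    rw [map_mul, map_mul, map_mul, Module.End.mul_apply, Module.End.mul_apply, Module.End.mul_apply,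
      hscal, map_smul, ← Module.End.mul_apply (ρ x), ← map_mul, mul_inv_cancel, map_one,
      Module.End.one_apply, ← hscal, ← Module.End.mul_apply, ← map_mul, mul_inv_cancel, map_one]
  rcases (MonoidHom.normal_ker (ρ : G →* Module.End ℂ V)).eq_bot_or_eq_top with h | h
  · have hgc : g ∈ Subgroup.center G := Subgroup.mem_center_iff.mpr fun x => by
      have := hker x
      rw [h, Subgroup.mem_bot, mul_inv_eq_one, mul_inv_eq_iff_eq_mul] at this
      exact this
    rcases (inferInstance : (Subgroup.center G).Normal).eq_bot_or_eq_top with hc | hc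
    · exact hg (by rwa [hc, Subgroup.mem_bot] at hgc)
    · apply hG
      refine ⟨⟨fun a b => ?_⟩⟩
      exact Subgroup.mem_center_iff.mp (hc ▸ Subgroup.mem_top b) a
  · obtain ⟨v, hv⟩ := exists_ne (0 : V)
    have hfix : ∀ x : G, ∀ w ∈ (ℂ ∙ v), ρ x w ∈ (ℂ ∙ v) := fun x w hw => by
      have hx : ρ x = 1 := MonoidHom.mem_ker.mp (h ▸ Subgroup.mem_top x)
      rw [hx]; exact hw
    rcases hirr _ hfix with h0 | h1
    · exact hv (Submodule.span_singleton_eq_bot.mp h0)
    · have h2 := finrank_span_singleton (K := ℂ) hv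
      rw [h1, finrank_top] at h2
      omega

end Cfsg.Agent.S5011
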