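import Cfsg.Statements.S5012
import Cfsg.Agent.Forms.CharPLieType
import Cfsg.Agent.Blocks.FirstMain
import Cfsg.Agent.Blocks.Orth

set_option autoImplicit false
open Cfsg

namespace Cfsg.Agent.S5012

/-- Let G be a finite simple group of Lie type in characteristic p. Then every p-block of G has defect zero or full defect: its defect is 0 or the exponent of p in the order of G (its defect groups are trivial or Sylow p-subgroups). -/
theorem result {G : Type*} [Group G] [Finite G] (p : ℕ) [Fact p.Prime] (hG : Cfsg.IsLieTypeChar p G) (M : Ideal Cfsg.AlgInt) (hM : Cfsg.IsPModular p M) (B : Set (Cfsg.IrrCharacter G)) (hB : Cfsg.IsPBlock M B) : Cfsg.blockDefect p B = 0 ∨ Cfsg.blockDefect p B = (Nat.card G).factorization p := by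
  classical
  have hloc := Agent.Forms.CharP.localFix_lieType hG
  haveI := Fintype.ofFinite G
  have hpM : (p : Cfsg.AlgInt) ∈ M := hM.2.2
  haveI := hM.2.1
  obtain ⟨D, hD⟩ := Agent.Blocks.exists_isDefectGroup hpM hB
  by_cases hbot : D = ⊥
  · left
    have h := Agent.Blocks.card_defectGroup hpM hB hD
    rw [hbot, Subgroup.card_bot] at h
    exact ((Nat.pow_eq_one.mp h.symm).resolve_left (Fact.out : p.Prime).ne_one)
  · right
    obtain ⟨g, hg, hgD⟩ := Agent.Blocks.isDefectGroup_iff.1 hD
    have h1 : g = 1 := hloc.centralizer_radical hgD.2.1 hbot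
      (Agent.Blocks.defect_radical hpM hB hD)
      (fun t ht => (Subgroup.mem_centralizer_singleton_iff.mp (hgD.1 ht)))
      (Agent.Blocks.isPRegular_of_isDefectClass hpM hB hg)
    rw [(Agent.Blocks.blockDefect_eq hpM hB hg).1, h1]
    congr 1
    rw [show Subgroup.centralizer ({(1 : G)} : Set G) = ⊤ from eq_top_iff.mpr fun x _ =>
      Subgroup.mem_centralizer_singleton_iff.mpr (by simp), Subgroup.card_top]

end Cfsg.Agent.S5012
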