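import Cfsg.Statements.S5075
import Cfsg.Agent.TransvGroup.Dual

set_option autoImplicit false
open Cfsg Cfsg.Agent.TransvGroup

namespace Cfsg.Agent.S5075

/-- Let p be an odd prime, V a finite-dimensional vector space over the field with p elements, and H a group of linear automorphisms of V generated by transvections (elements of order p fixing a hyperplane pointwise) and having no nontrivial normal p-subgroup. Then for some n ≥ 1 there are a decomposition V = V₀ ⊕ V₁ ⊕ ⋯ ⊕ Vₙ into H-invariant subspaces and a decomposition of H as the internal direct product of normal subgroups H₁, …, Hₙ such that Hⱼ acts trivially on every Vᵢ with i ≠ j, and Hⱼ induces on Vⱼ exactly the special linear group of Vⱼ or exactly the isometry group of a non-degenerate alternating form on Vⱼ. -/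
theorem result {p : ℕ} [Fact p.Prime] (hp : Odd p) {V : Type*} [AddCommGroup V] [Module (ZMod p) V] [Finite V]
    (H : Subgroup (V ≃ₗ[ZMod p] V)) (T : Set (V ≃ₗ[ZMod p] V)) (hHT : H = Subgroup.closure T)
    (hT : ∀ t ∈ T, orderOf t = p ∧
      Module.finrank (ZMod p) ↥(LinearMap.ker ((t : V →ₗ[ZMod p] V) - LinearMap.id)) + 1 =
        Module.finrank (ZMod p) V)
    (hOp : Cfsg.pCore p ↥H = ⊥) :
    ∃ (n : ℕ) (W : Fin (n + 1) → Submodule (ZMod p) V) (K : Fin n → Subgroup (V ≃ₗ[ZMod p] V)),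
      1 ≤ n ∧ DirectSum.IsInternal W ∧
      (∀ h ∈ H, ∀ i, (W i).map (h : V →ₗ[ZMod p] V) = W i) ∧
      (∀ j, K j ≤ H ∧ ((K j).subgroupOf H).Normal) ∧ ⨆ j, K j = H ∧
      (∀ j, K j ⊓ (⨆ j' ∈ {j' : Fin n | j' ≠ j}, K j') = ⊥) ∧
      (∀ j j', j ≠ j' → ∀ a ∈ K j, ∀ b ∈ K j', a * b = b * a) ∧
      (∀ j, ∀ h ∈ K j, ∀ i : Fin (n + 1), i ≠ j.succ → ∀ v ∈ W i, h v = v) ∧
      (∀ j, ∃ ρ : ↥(K j) →* (↥(W j.succ) ≃ₗ[ZMod p] ↥(W j.succ)),
        (∀ (h : ↥(K j)) (v : ↥(W j.succ)), ((ρ h v : ↥(W j.succ)) : V) = (h : V ≃ₗ[ZMod p] V) (v : V)) ∧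
        ((ρ.range : Set (↥(W j.succ) ≃ₗ[ZMod p] ↥(W j.succ))) =
            {f : ↥(W j.succ) ≃ₗ[ZMod p] ↥(W j.succ) | LinearMap.det (f : ↥(W j.succ) →ₗ[ZMod p] ↥(W j.succ)) = 1} ∨
          ∃ B : LinearMap.BilinForm (ZMod p) ↥(W j.succ), B.IsAlt ∧ B.Nondegenerate ∧
            (ρ.range : Set (↥(W j.succ) ≃ₗ[ZMod p] ↥(W j.succ))) = {f : ↥(W j.succ) ≃ₗ[ZMod p] ↥(W j.succ) | ∀ x y, B (f x) (f y) = B x y})) := by
  classical
  have h2 : (2 : ZMod p) ≠ 0 := by
    intro h
    have h' : ((2 : ℕ) : ZMod p) = 0 := by exact_mod_cast h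
    rw [CharP.cast_eq_zero_iff (ZMod p) p] at h'
    have hp2 : p = 2 := (Nat.prime_dvd_prime_iff_eq Fact.out Nat.prime_two).1 h'
    rw [hp2] at hp
    exact absurd hp (by decide)
  have htv : ∀ t ∈ T, ∃ v φ, IsTv t v φ := by
    intro t ht
    obtain ⟨hord, hker⟩ := hT t ht
    set D : V →ₗ[ZMod p] V := (t : V →ₗ[ZMod p] V) - LinearMap.id
    have h1 := LinearMap.finrank_range_add_finrank_ker D
    obtain ⟨⟨v, hv⟩, hv0, hall⟩ := finrank_eq_one_iff'.1 (show Module.finrank (ZMod p) (LinearMap.range D) = 1 by omega)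
    obtain ⟨β, hβ⟩ := (not_forall.1 fun h => hv0 (Subtype.ext ((Module.forall_dual_apply_eq_zero_iff (ZMod p) v).1 h)) :
      ∃ β : Module.Dual (ZMod p) V, ¬ β v = 0)
    set φ : Module.Dual (ZMod p) V := (β v)⁻¹ • (β ∘ₗ D)
    have hx : ∀ x, t x = x + φ x • v := by
      intro x
      obtain ⟨c, hc⟩ := hall ⟨D x, LinearMap.mem_range_self D x⟩
      have hc' : c • v = D x := congrArg Subtype.val hc
      have hφ : φ x = c := by
        show (β v)⁻¹ * β (D x) = c
        rw [← hc', map_smul, smul_eq_mul, mul_comm c, inv_mul_cancel_left₀ hβ]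
      rw [hφ, hc']
      simp [D]
    refine ⟨v, φ, ?_, hx⟩
    by_contra ha
    have hpow : ∀ n : ℕ, (t ^ n) v = (1 + φ v) ^ n • v := by
      intro n
      induction n with
      | zero => simp
      | succ n ih =>
        rw [pow_succ' t, LinearEquiv.mul_apply, ih, map_smul, hx v, pow_succ, mul_smul, add_smul, one_smul]
    have h := hpow p
    rw [show t ^ p = 1 from orderOf_dvd_iff_pow_eq_one.1 (dvd_of_eq hord), ZMod.pow_card, add_smul, one_smul] at h
    have h' : φ v • v = 0 := by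
      have : v = v + φ v • v := h
      exact left_eq_add.1 this
    exact hv0 (Subtype.ext ((smul_eq_zero.1 h').resolve_left ha))
  have hgood : Good H := by
    refine ⟨le_antisymm ((Subgroup.closure_le _).2 fun t ht => ht.1) ?_, fun N hN hNp hNn => ?_, h2⟩
    · conv_lhs => rw [hHT]
      exact Subgroup.closure_mono fun t ht => ⟨hHT ▸ Subgroup.subset_closure ht, htv t ht⟩
    · have hn : (N.subgroupOf H).Normal := ⟨fun n hn g => hNn g g.2 n hn⟩
      have hp' : IsPGroup p ↥(N.subgroupOf H) := hNp.of_equiv (Subgroup.subgroupOfEquivOfLe hN).symm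
      have hle : N.subgroupOf H ≤ Cfsg.pCore p ↥H := le_sSup ⟨hn, hp'⟩
      rw [hOp, le_bot_iff, Subgroup.subgroupOf_eq_bot] at hle
      exact hle.eq_bot_of_le hN
  obtain ⟨F, hF⟩ := exists_parts _ H hgood rfl
  haveI : Finite (V ≃ₗ[ZMod p] V) := Finite.of_injective _ DFunLike.coe_injective
  by_cases hne : F.Nonempty
  swap
  · -- the trivial group
    have hbot : H = ⊥ := le_bot_iff.1 (hF.gen ⊥ fun K hK => absurd ⟨K, hK⟩ hne)
    have htriv : ∀ h ∈ H, h = 1 := fun h hh => by rw [hbot, Subgroup.mem_bot] at hh; exact hh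
    let W : Fin 2 → Submodule (ZMod p) V := Fin.cons ⊤ fun _ => ⊥
    have hW : W (0 : Fin 1).succ = ⊥ := by simp [W]
    haveI : Subsingleton ↥(W (0 : Fin 1).succ) := ⟨fun a b => by
      have ha := a.2; have hb := b.2
      simp only [hW, Submodule.mem_bot] at ha hb
      exact Subtype.ext (ha.trans hb.symm)⟩
    refine ⟨1, W, fun _ => ⊥, le_rfl, ?_, fun h hh i => ?_, fun j => ⟨bot_le, by
      rw [Subgroup.bot_subgroupOf]; infer_instance⟩, by rw [hbot]; simp, fun j => bot_inf_eq _, ?_, ?_, ?_⟩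
    · rw [DirectSum.isInternal_submodule_iff_iSupIndep_and_iSup_eq_top]
      refine ⟨?_, top_le_iff.1 (le_iSup_of_le 0 (by simp [W]))⟩
      intro i
      fin_cases i
      · have : (⨆ (j : Fin 2) (_ : j ≠ 0), W j) = ⊥ := by
          refine iSup₂_eq_bot.2 fun j hj => ?_
          obtain ⟨j, rfl⟩ := Fin.exists_succ_eq.2 hj
          simp [W]
        simp only [this, Fin.zero_eta]
        exact disjoint_bot_right
      · simp [W]
    · rw [htriv h hh]; ext x; simp
    · intro j j' h a ha b hb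
      rw [(Subgroup.mem_bot.1 ha)]; simp
    · intro j h hh i _ v _
      rw [Subgroup.mem_bot.1 hh]; rfl
    · intro j
      obtain rfl : j = 0 := Subsingleton.elim _ _
      refine ⟨1, fun h v => ?_, Or.inl ?_⟩
      · rw [show (h : V ≃ₗ[ZMod p] V) = 1 from Subgroup.mem_bot.1 h.2]; rfl
      · ext f
        refine ⟨?_, fun _ => ⟨1, LinearEquiv.ext fun v => Subsingleton.elim _ _⟩⟩
        rintro ⟨x, rfl⟩
        show LinearMap.det _ = 1
        exact LinearMap.det_id
  haveI : Finite ↥F := Subtype.finite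
  let e := (Finite.equivFin ↥F).symm
  set n := Nat.card ↥F
  let K : Fin n → Subgroup (V ≃ₗ[ZMod p] V) := fun i => (e i : ↥F)
  have hK : ∀ i, K i ∈ F := fun i => (e i).2
  have hKinj : ∀ i j, i ≠ j → K i ≠ K j := fun i j h he => h (e.injective (Subtype.ext he))
  have hKsurj : ∀ L ∈ F, ∃ i, K i = L := fun L hL => by
    obtain ⟨i, hi⟩ := e.surjective ⟨L, hL⟩
    exact ⟨i, congrArg Subtype.val hi⟩
  let W : Fin (n + 1) → Submodule (ZMod p) V := Fin.cons (TransvGroup.Fix H) fun i => Wsp (K i)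
  have hfixK : ∀ j, ∀ h ∈ K j, ∀ i : Fin (n + 1), i ≠ j.succ → ∀ v ∈ W i, h v = v := by
    intro j h hh i
    refine Fin.cases ?_ (fun i => ?_) i
    · intro _ v hv; simp only [W, Fin.cons_zero] at hv; exact hv h (hF.le _ (hK j) hh)
    · intro hne v hv
      simp only [W, Fin.cons_succ] at hv
      exact hF.orth _ (hK j) _ (hK i) (hKinj j i fun e => hne (e ▸ rfl)) h hh v hv
  have hWH : ∀ j, Wsp (K j) ≤ Wsp H := fun j => Submodule.span_mono fun v hv =>
    ⟨hv.1, hv.2.imp fun _ h' => ⟨h'.1, h'.2.mono (hF.le _ (hK j))⟩⟩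
  have hsup : (⨆ i, W i) = ⊤ := by
    rw [eq_top_iff, ← hgood.sup_eq_top]
    refine sup_le (le_iSup_of_le 0 (by simp [W])) (hF.span.trans (iSup₂_le fun L hL => ?_))
    obtain ⟨i, rfl⟩ := hKsurj L hL
    exact le_iSup_of_le i.succ (by simp [W])
  have hext : ∀ g : V ≃ₗ[ZMod p] V, (∀ i, ∀ v ∈ W i, g v = v) → g = 1 := fun g hg =>
    LinearEquiv.ext fun v => by
      have hv : v ∈ ⨆ i, W i := hsup ▸ Submodule.mem_top
      induction hv using Submodule.iSup_induction' with
      | mem i x hx => exact hg i x hx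
      | zero => simp
      | add a b _ _ ha hb => rw [map_add, ha, hb]; rfl
  have hcommK : ∀ j j', j ≠ j' → ∀ a ∈ K j, ∀ b ∈ K j', a * b = b * a := by
    intro j j' hjj a ha b hb
    have key : a * b * a⁻¹ * b⁻¹ = 1 := by
      refine hext _ fun i v hv => ?_
      have hinvK : ∀ l g, g ∈ K l → ∀ w ∈ W l.succ, g w ∈ W l.succ := fun l g hg w hw => by
        simp only [W, Fin.cons_succ] at hw ⊢
        exact inv_Wsp (hF.atom _ (hK l)).good.gen g hg w hw
      simp only [LinearEquiv.mul_apply]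
      by_cases hi : i = j.succ
      · subst hi
        have hne : j.succ ≠ j'.succ := fun h => hjj (Fin.succ_injective _ h)
        rw [hfixK j' _ (inv_mem hb) _ hne v hv, hfixK j' b hb _ hne _ (hinvK j _ (inv_mem ha) v hv)]
        exact a.apply_symm_apply v
      · by_cases hi' : i = j'.succ
        · subst hi'
          rw [hfixK j _ (inv_mem ha) _ hi _ (hinvK j' _ (inv_mem hb) v hv),
            show b (b⁻¹ v) = v from b.apply_symm_apply v, hfixK j a ha _ hi v hv]
        · rw [hfixK j' _ (inv_mem hb) _ hi' v hv, hfixK j _ (inv_mem ha) _ hi v hv, hfixK j' b hb _ hi' v hv,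
            hfixK j a ha _ hi v hv]
    rwa [mul_inv_eq_one, mul_inv_eq_iff_eq_mul] at key
  have hinv : ∀ h ∈ H, ∀ i, ∀ v ∈ W i, h v ∈ W i := by
    intro h hh i
    refine Fin.cases ?_ (fun i => ?_) i
    · intro v hv; simp only [W, Fin.cons_zero] at hv ⊢; rw [hv h hh]; exact hv
    · intro v hv
      simp only [W, Fin.cons_succ] at hv ⊢
      let N : Subgroup (V ≃ₗ[ZMod p] V) :=
        { carrier := {g | (∀ v ∈ Wsp (K i), g v ∈ Wsp (K i)) ∧ ∀ v ∈ Wsp (K i), g⁻¹ v ∈ Wsp (K i)}
          one_mem' := ⟨fun v hv => hv, fun v hv => by rwa [inv_one]⟩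
          mul_mem' := fun {a b} ha hb => ⟨fun v hv => ha.1 _ (hb.1 v hv), fun v hv => by
            rw [mul_inv_rev]; exact hb.2 _ (ha.2 v hv)⟩
          inv_mem' := fun {a} ha => ⟨ha.2, fun v hv => by rw [inv_inv]; exact ha.1 v hv⟩ }
      have hN : ∀ L ∈ F, L ≤ N := by
        intro L hL g hg
        by_cases he : L = K i
        · subst he
          exact ⟨inv_Wsp (hF.atom _ hL).good.gen g hg, inv_Wsp (hF.atom _ hL).good.gen _ (inv_mem hg)⟩
        · exact ⟨fun v hv => by rw [hF.orth L hL _ (hK i) he g hg v hv]; exact hv,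
            fun v hv => by rw [hF.orth L hL _ (hK i) he _ (inv_mem hg) v hv]; exact hv⟩
      exact (hF.gen N hN hh).1 v hv
  refine ⟨n, W, K, ?_, ?_, fun h hh i => ?_, fun j => ⟨hF.le _ (hK j), ?_⟩, ?_, fun j => ?_, hcommK, hfixK,
    fun j => ?_⟩
  · haveI : Nonempty ↥F := hne.to_subtype
    exact Nat.card_pos
  · rw [DirectSum.isInternal_submodule_iff_iSupIndep_and_iSup_eq_top]
    refine ⟨fun i => ?_, hsup⟩
    rw [disjoint_iff, eq_bot_iff]
    rintro x ⟨hx1, hx2⟩
    rw [Submodule.mem_bot]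
    revert hx1 hx2
    refine Fin.cases ?_ (fun i => ?_) i
    · intro hx1 hx2
      have hle : (⨆ (j : Fin (n + 1)) (_ : j ≠ 0), W j) ≤ Wsp H := iSup₂_le fun j hj => by
        obtain ⟨j, rfl⟩ := Fin.exists_succ_eq.2 hj
        simp only [W, Fin.cons_succ]
        exact hWH j
      simp only [W, Fin.cons_zero, SetLike.mem_coe] at hx1
      have : x ∈ TransvGroup.Fix H ⊓ Wsp H := ⟨hx1, hle hx2⟩
      rwa [hF.fix, Submodule.mem_bot] at this
    · intro hx1 hx2
      simp only [W, Fin.cons_succ, SetLike.mem_coe] at hx1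
      have hle : (⨆ (j : Fin (n + 1)) (_ : j ≠ i.succ), W j) ≤ TransvGroup.Fix (K i) :=
        iSup₂_le fun j hj v hv g hg => hfixK i g hg j hj v hv
      have : x ∈ TransvGroup.Fix (K i) ⊓ Wsp (K i) := ⟨hle hx2, hx1⟩
      rwa [(hF.atom _ (hK i)).fix, Submodule.mem_bot] at this
  · refine le_antisymm ?_ fun v hv => ?_
    · rintro _ ⟨v, hv, rfl⟩; exact hinv h hh i v hv
    · exact ⟨h⁻¹ v, hinv _ (inv_mem hh) i v hv, h.apply_symm_apply v⟩
  · refine ⟨fun x hx g => ?_⟩
    have hle : H ≤ Subgroup.normalizer (K j : Set (V ≃ₗ[ZMod p] V)) := hF.gen _ fun L hL => by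
      obtain ⟨l, rfl⟩ := hKsurj L hL
      by_cases hl : l = j
      · rw [hl]; exact Subgroup.le_normalizer
      · intro y hy
        rw [Subgroup.mem_normalizer_iff]
        intro z
        constructor
        · intro hz; rwa [← hcommK j l (Ne.symm hl) z hz y hy, mul_inv_cancel_right]
        · intro hz
          have e := hcommK j l (Ne.symm hl) _ hz y hy
          rw [inv_mul_cancel_right, ← mul_assoc, ← mul_assoc] at e
          have : z = y * z * y⁻¹ := by
            calc z = y⁻¹ * (y * z) := (inv_mul_cancel_left y z).symm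
              _ = y⁻¹ * (y * y * z * y⁻¹) := by rw [e]
              _ = y * z * y⁻¹ := by group
          rw [this]; exact hz
    exact (Subgroup.mem_normalizer_iff.1 (hle g.2) _).1 hx
  · refine le_antisymm (iSup_le fun i => hF.le _ (hK i)) (hF.gen _ fun L hL => ?_)
    obtain ⟨i, rfl⟩ := hKsurj L hL
    exact le_iSup K i
  · rw [eq_bot_iff]
    rintro x ⟨hx1, hx2⟩
    rw [Subgroup.mem_bot]
    refine hext x fun i v hv => ?_
    by_cases hi : i = j.succ
    · subst hi
      have : (⨆ j' ∈ {j' : Fin n | j' ≠ j}, K j') ≤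
          ({ carrier := {g | ∀ v ∈ W j.succ, g v = v}
             one_mem' := fun v _ => rfl
             mul_mem' := fun {a b} ha hb v hv => by rw [LinearEquiv.mul_apply, hb v hv, ha v hv]
             inv_mem' := fun {a} ha v hv => by
               conv_lhs => rw [← ha v hv]
               exact a.symm_apply_apply v } : Subgroup (V ≃ₗ[ZMod p] V)) :=
        iSup₂_le fun l hl g hg => hfixK l g hg j.succ fun h => hl (Fin.succ_injective _ h).symm
      exact this hx2 v hv
    · exact hfixK j x hx1 i hi v hv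
  · have hA := hF.atom _ (hK j)
    have hWj : W j.succ = Wsp (K j) := by simp [W]
    rw [hWj]
    refine ⟨restrict hA.good.gen, fun h v => rfl, ?_⟩
    rcases hA.classify with h | ⟨B, hB1, hB2, h⟩
    · exact Or.inl (Set.ext h)
    · exact Or.inr ⟨B, hB1, hB2, Set.ext h⟩

end Cfsg.Agent.S5075
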