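import Cfsg.Statements.S5125
import Cfsg.Agent.Fusion.Series

set_option autoImplicit false
open Cfsg Cfsg.Agent.Fusion Cfsg.FusionSystem
open scoped commutatorElement

namespace Cfsg.Agent.S5125

/-- Let F be a saturated fusion system over a finite p-group S and Q a subgroup strongly closed in F. If Q has a subgroup Q₁ that is normal in F, with Q/Q₁ abelian and Aut_F(Q₁) a p-group, then Q is normal in F. -/
theorem result {Ω : Type*} [Group Ω] {S : Subgroup Ω} [Finite S] (p : ℕ) [Fact p.Prime] (hS : IsPGroup p S) (F : Cfsg.FusionSystem S) (hF : F.IsSaturated p) (Q Q₁ : Subgroup Ω) (hQ : F.StronglyClosed Q) (hQ₁Q : Q₁ ≤ Q) (hQ₁ : F.IsNormal Q₁) (hab : ⁅Q, Q⁆ ≤ Q₁) (hAut : IsPGroup p ↥(F.autGroup Q₁)) : F.IsNormal Q := by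
  haveI := finite_of_le hQ₁.1
  obtain ⟨n, W, h0, hn, hm, hinv, hst⟩ := exists_stabilized_series (hS.to_le hQ₁.1) hAut
  let C : ℕ → Subgroup Ω := fun i => if i ≤ n then (W i).map Q₁.subtype else Q
  have hC1 : ∀ i ≤ n, C i = (W i).map Q₁.subtype := fun i h => if_pos h
  have hC2 : C (n + 1) = Q := if_neg (by omega)
  have hCn : C n = Q₁ := by rw [hC1 n le_rfl, hn, ← MonoidHom.range_eq_map, Subgroup.range_subtype]
  have hsc : ∀ i ≤ n, F.StronglyClosed (C i) := fun i hi => by
    rw [hC1 i hi]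
    refine stronglyClosed_of_mor ((Subgroup.map_subtype_le _).trans hQ₁.1) fun P f hf x hxP hx => ?_
    obtain ⟨g, hg, e, m⟩ := ExtStab.of_isNormal hQ₁ hf
    have hi' : Iso F g Q₁ Q₁ := (hg.restrict le_sup_right).iso_of_card m le_rfl
    obtain ⟨y, hy, rfl⟩ := hx
    exact ⟨_, hinv _ hi'.equiv_mem_autGroup i y hy, e _ hxP⟩
  refine isNormal_of_chain hS hF hQ (n + 1) C (by rw [hC1 0 (Nat.zero_le _), h0, Subgroup.map_bot]) hC2
    ?_ (fun i hi => weaklyClosed_of_stronglyClosed (hsc i (by omega))) ?_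
  · intro i hi
    rcases Nat.lt_or_ge i n with h | h
    · rw [hC1 i h.le, hC1 (i + 1) h]
      exact Subgroup.map_mono (hm (Nat.le_succ i))
    · rw [show i = n by omega, hCn, hC2]; exact hQ₁Q
  · intro i hi x hx q hq
    rcases Nat.lt_or_ge i n with h | h
    · rw [hC1 (i + 1) h] at hx
      rw [hC1 i h.le]
      obtain ⟨y, hy, rfl⟩ := hx
      have hn' := stronglyClosed_normalizer (isNormal_stronglyClosed hQ₁) (hQ.1 hq)
      have hi' := Iso.conj_self (F := F) hQ₁.1 (hQ.1 hq) hn'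
      refine ⟨_, inv_mem (hst _ hi'.equiv_mem_autGroup i y hy), ?_⟩
      show ((hi'.equiv y * y⁻¹ : Q₁)⁻¹ : Q₁).1 = ⁅(y : Ω), q⁆
      simp only [Subgroup.coe_mul, InvMemClass.coe_inv, Iso.equiv_apply, cj_apply, commutatorElement_def]
      group
    · rw [show i = n by omega, hC2] at hx
      rw [show i = n by omega, hCn]
      exact hab (Subgroup.commutator_mem_commutator hx hq)

end Cfsg.Agent.S5125
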