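import Cfsg.Statements.S5135
import Cfsg.Agent.Fusion.GroupLift

set_option autoImplicit false
open Cfsg Cfsg.Agent.Fusion Cfsg.FusionSystem

namespace Cfsg.Agent.S5135

/-- Let G be a finite group, S a Sylow p-subgroup and H a normal subgroup of G. Then the fusion system of G/H on the image SH/H of S is the factor system of the fusion system of G on S modulo S ∩ H, read through the quotient map restricted to S: for each subgroup P' of SH/H, the conjugation maps by elements of G/H defined on P' with values in SH/H are exactly the homomorphisms induced by the conjugation maps by elements of G defined on the full preimage of P' in S with values in S. -/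
theorem result {G : Type*} [Group G] [Finite G] (p : ℕ) [Fact p.Prime] (S : Sylow p G) (H : Subgroup G) [H.Normal] : (Cfsg.groupFusionSystem (S : Subgroup G)).IsFactorSystem ((S : Subgroup G) ⊓ H) ((QuotientGroup.mk' H).comp (S : Subgroup G).subtype) (Cfsg.groupFusionSystem ((S : Subgroup G).map (QuotientGroup.mk' H))) := by
  set S0 := (S : Subgroup G) with hS0
  set π := QuotientGroup.mk' H with hπ
  set θ := π.comp S0.subtype with hθ
  refine ⟨inf_le_left, fun s => ?_, ?_, fun P' φ' => ?_⟩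
  · show ((s : G) : G ⧸ H) = 1 ↔ (s : G) ∈ S0 ⊓ H
    rw [QuotientGroup.eq_one_iff]
    exact ⟨fun h => ⟨s.2, h⟩, fun h => h.2⟩
  · rw [hθ, MonoidHom.range_comp, Subgroup.range_subtype]
  have memPre : ∀ x : G, x ∈ preimageAlong θ P' ↔ x ∈ S0 ∧ π x ∈ P' := fun x =>
    ⟨fun ⟨s, hs, e⟩ => e ▸ ⟨s.2, hs⟩, fun h => ⟨⟨x, h.1⟩, h.2, rfl⟩⟩
  constructor
  · rintro ⟨hP', hv, γ, hγ⟩
    refine ⟨hP', ?_⟩
    obtain ⟨a, rfl⟩ := QuotientGroup.mk_surjective γ
    have hle : preimageAlong θ P' ≤ S0 := fun x hx => ((memPre x).mp hx).1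
    obtain ⟨m, hm, hg⟩ := exists_lift_conj S H (S.isPGroup'.to_le hle) a fun x hx => by
      obtain ⟨s, hs, e⟩ := hv ⟨π x, ((memPre x).mp hx).2⟩
      rw [hγ] at e
      have e' : (s : G ⧸ H) = ((a * x * a⁻¹ : G) : G ⧸ H) := e
      have := Subgroup.mul_mem_sup (T := H) hs (QuotientGroup.eq.mp e')
      rwa [mul_inv_cancel_left] at this
    have hmor : Mor (groupFusionSystem S0) (preimageAlong θ P') (cj (m * a)) :=
      (groupFusion_inducedBy S0 _ _).mpr ⟨hle, hg, m * a, trivial, fun _ _ => rfl⟩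
    refine ⟨hmor.hom, hmor.hom_mem, hle, fun x => hg x x.2, fun x => ((memPre x).mp x.2).2, fun x => ?_⟩
    rw [hγ]
    show π a * π (x : G) * (π a)⁻¹ = π (m * a * (x : G) * (m * a)⁻¹)
    have : π m = 1 := (QuotientGroup.eq_one_iff m).mpr hm
    simp [map_mul, map_inv, this]
  · rintro ⟨hP', φ, ⟨hQ, hv, g, hg⟩, hQS, hφS, hθP, hind⟩
    have key : ∀ y : P', ∃ x : ↥(preimageAlong θ P'), θ ⟨x, hQS x.2⟩ = (y : G ⧸ H) := fun y => by
      obtain ⟨s, hs, e⟩ := hP' y.2
      exact ⟨⟨s, (memPre s).mpr ⟨hs, e ▸ y.2⟩⟩, e⟩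
    refine ⟨hP', fun y => ?_, π g, fun y => ?_⟩
    · obtain ⟨x, hx⟩ := key y
      rw [show y = ⟨θ ⟨x, hQS x.2⟩, hθP x⟩ from Subtype.ext hx.symm, hind x]
      exact ⟨φ x, hφS x, rfl⟩
    · obtain ⟨x, hx⟩ := key y
      rw [show y = ⟨θ ⟨x, hQS x.2⟩, hθP x⟩ from Subtype.ext hx.symm, hind x]
      show π (φ x) = π g * π (x : G) * (π g)⁻¹
      rw [hg x, map_mul, map_mul, map_inv]

end Cfsg.Agent.S5135
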