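import Cfsg.Statements.S5146
import Cfsg.Agent.Fusion.ComponentExists

set_option autoImplicit false
open Cfsg Cfsg.Agent.Fusion Cfsg.FusionSystem

namespace Cfsg.Agent.S5146

/-- A saturated fusion system over a finite p-group S is constrained (some subgroup normal in it is centric) if and only if it has no component (no subnormal subsystem that is quasisimple). -/
theorem result {Ω : Type*} [Group Ω] {S : Subgroup Ω} [Finite S] (p : ℕ) [Fact p.Prime] (hS : IsPGroup p S) (F : Cfsg.FusionSystem S) (hF : F.IsSaturated p) : F.IsConstrained p ↔ ¬ ∃ (T : Subgroup Ω) (C : Cfsg.FusionSystem T), C.IsComponentIn F p := by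
  constructor
  · rintro hc ⟨T, C, hC⟩
    have hTS : T ≤ S := subnormal_le hC.1
    haveI := finite_of_le hTS
    have hTp := hS.to_le hTS
    obtain ⟨-, Q, hQ, hQc⟩ := subnormal_constrained hC.1 hS hc
    have hQZ := ComponentCore.quasisimple_fix hTp hC.2 hQ
    refine quasisimple_nonabelian hTp hC.2 ⟨⟨fun a b => Subtype.ext ?_⟩⟩
    have ha : (a : Ω) ∈ C.center := hQZ (hQc.2 Q (isConj_refl hQ.1)
      ⟨a.2, fun q hq => (C.center_le_centralizer (hQZ hq) a a.2).symm⟩)
    exact (C.center_le_centralizer ha b b.2).symm
  · intro h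
    by_contra hnc
    exact h (ComponentExists.exists_component _ rfl _ F rfl hS hF hnc)

end Cfsg.Agent.S5146
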