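import Cfsg.Statements.S5155
import Cfsg.Agent.Fusion.CentESystem

set_option autoImplicit false
open Cfsg Cfsg.Agent.Fusion Cfsg.FusionSystem

namespace Cfsg.Agent.S5155

/-- Let F be a saturated fusion system over a finite p-group S, E a normal subsystem over T, and Y the largest subgroup of C_S(T) such that E is a subsystem of the centralizer system of Y (every map of E extends to a map of F fixing Y elementwise). Then there is a normal subsystem of F over Y that is a subsystem of the centralizer system of T. -/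
theorem result {Ω : Type*} [Group Ω] {S : Subgroup Ω} [Finite S] (p : ℕ) [Fact p.Prime] (hS : IsPGroup p S) (F : Cfsg.FusionSystem S) (hF : F.IsSaturated p) {T : Subgroup Ω} (E : Cfsg.FusionSystem T) (hE : E.IsNormalIn F p) (Y : Subgroup Ω) (hY : Y ≤ Cfsg.FusionSystem.centralizerIn S T) (hEY : ∀ P : Subgroup Ω, E.Hom P ⊆ F.centralizerHom Y P) (hmax : ∀ Y' : Subgroup Ω, Y' ≤ Cfsg.FusionSystem.centralizerIn S T → (∀ P : Subgroup Ω, E.Hom P ⊆ F.centralizerHom Y' P) → Y' ≤ Y) : ∃ D : Cfsg.FusionSystem Y, D.IsNormalIn F p ∧ ∀ P : Subgroup Ω, D.Hom P ⊆ F.centralizerHom T P := by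
  have c := Cfsg.Agent.Fusion.CentE.Ctx.of_normal hS hE
  have hsub : E.IsSubsystemOf F := hE.1.2.2.1
  have hY' : Y = Cfsg.Agent.Fusion.CentE.centE F E := le_antisymm
    (le_sSup ⟨hY, (Cfsg.Agent.Fusion.CentE.fix_iff_centralizerHom hsub hY).mpr hEY⟩)
    (hmax _ Cfsg.Agent.Fusion.CentE.centE_le
      ((Cfsg.Agent.Fusion.CentE.fix_iff_centralizerHom hsub Cfsg.Agent.Fusion.CentE.centE_le).mp c.good_centE))
  subst hY'
  haveI : Finite ↥(Cfsg.FusionSystem.centralizerIn S T) := finite_of_le centralizerIn_le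
  obtain ⟨CT, hCT⟩ := exists_centralizerSystem F T c.tle
  have hCsat := centralizerSystem_saturated hS hF c.fullyCentralizedT hCT
  obtain ⟨D, hD, hDi⟩ := exists_pPower_system _ rfl (hS.to_le centralizerIn_le) CT hCsat _ hY
    (hyperfocal_le_focal.trans (c.focal_le hCT))
  exact ⟨D, Cfsg.Agent.Fusion.CentESystem.normal c hCT hD hDi hY c.centE_stronglyClosed,
    fun P φ hφ => hCT P ▸ hDi.1 P hφ⟩

end Cfsg.Agent.S5155
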