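import Cfsg.Statements.S5196
import Cfsg.Agent.FusionZJ.FunctorControl
-- import your own Cfsg.Agent.* helpers here

set_option autoImplicit false
universe u
open Cfsg Cfsg.FusionSystem Cfsg.Agent Cfsg.Agent.Fusion Cfsg.Agent.FusionZJ

namespace Cfsg.Agent.S5196

/-- Let p be an odd prime and W a positive characteristic p-functor: W assigns to every finite p-group Q (in a fixed universe) a subgroup W(Q), nontrivial when Q is, carried to W(R) by every isomorphism Q ≅ R; assume also Z(Q) ≤ W(Q) for every finite p-group Q. Suppose W satisfies the local condition: for every finite group G with Sylow p-subgroup P, O_p(G) ∩ Z(G) = O_p(G) ∩ Z(N_G(W(P))). Then W controls weak closure of elements in every saturated fusion system F over a finite p-group S: the centre of the normalizer fusion system of W(S) in F equals the centre of F. (For p = 2 no functor satisfies the local condition, so p is taken odd.) -/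
theorem result {p : ℕ} [Fact p.Prime] (hp : p ≠ 2) (W : ∀ (Q : Type u) [Group Q], Subgroup Q) (hW1 : ∀ (Q : Type u) [Group Q] [Finite Q], IsPGroup p Q → Nontrivial Q → W Q ≠ ⊥) (hW2 : ∀ (Q R : Type u) [Group Q] [Group R] [Finite Q], IsPGroup p Q → ∀ φ : Q ≃* R, (W Q).map φ.toMonoidHom = W R) (hWZ : ∀ (Q : Type u) [Group Q] [Finite Q], IsPGroup p Q → Subgroup.center Q ≤ W Q) (hC : ∀ (G : Type u) [Group G] [Finite G] (P : Sylow p G), Cfsg.pCore p G ⊓ Subgroup.center G = Cfsg.pCore p G ⊓ (Subgroup.center ↥(Subgroup.normalizer (((W ↥(P : Subgroup G)).map (P : Subgroup G).subtype : Subgroup G) : Set G))).map (Subgroup.normalizer (((W ↥(P : Subgroup G)).map (P : Subgroup G).subtype : Subgroup G) : Set G)).subtype) {Ω : Type u} [Group Ω] {S : Subgroup Ω} [Finite S] (hS : IsPGroup p S) (F : Cfsg.FusionSystem S) (hF : F.IsSaturated p) (N : Cfsg.FusionSystem (Cfsg.FusionSystem.normalizerIn S ((W ↥S).map S.subtype))) (hN : F.IsNormalizerSystem ((W ↥S).map S.subtype) N) : N.center = F.center := by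
  haveI : Finite ↥(normalizerIn S ((W ↥S).map S.subtype)) := finite_of_le normalizerIn_le
  have hZS : F.center ≤ wOf W S := fun z hz => by
    exact mem_wOf_of_center hS hWZ (F.center_le_centralizer hz) le_rfl
      ((center_isCentral (F := F)).1 hz)
  refine le_antisymm ?_ (center_le_center_normalizerSystem hS hF (wOf_le W S) hZS hN)
  refine mem_center_of_fixed_powers hS hF ((center_isCentral (F := N)).1.trans normalizerIn_le)
    fun x hx P f hf hxP => ?_
  have hxS : x ∈ S := normalizerIn_le ((center_isCentral (F := N)).1 hx)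
  have hSn : S ≤ normalizerIn S (wOf W S) := le_inf le_rfl
    (normalizerIn_self.ge.trans (normalizerIn_le_wOf hS hW2 le_rfl))
  have hxc : ∀ s ∈ S, s * x = x * s := fun s hs =>
    N.center_le_centralizer hx s (hSn hs)
  have h := fixed_of_group_condition hS hF hW2 hWZ 1 (fun G _ _ T _ _ z hz hzc hzO hfix g => ?_)
    hxS hxc (N := N) hN (by rwa [pow_one]) P f hf (by rwa [pow_one])
  · rwa [pow_one] at h
  rw [pow_one] at hzO hfix ⊢
  set M := Subgroup.normalizer ((wOf W (T : Subgroup G)) : Set G) with hM
  have hzM : z ∈ M := (normalizerIn_self.ge.trans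
    (normalizerIn_le_wOf (S := (T : Subgroup G)) T.isPGroup' hW2 le_rfl)) hz
  have h1 : z ∈ pCore p G ⊓ (Subgroup.center ↥M).map M.subtype :=
    ⟨hzO, ⟨z, hzM⟩, Subgroup.mem_center_iff.mpr fun k => Subtype.ext (by
      show (k : G) * z = z * k
      conv_rhs => rw [← hfix k k.2, inv_mul_cancel_right]), rfl⟩
  change z ∈ pCore p G ⊓ (Subgroup.center ↥(Subgroup.normalizer
    (((W ↥(T : Subgroup G)).map (T : Subgroup G).subtype : Subgroup G) : Set G))).map
      (Subgroup.normalizer (((W ↥(T : Subgroup G)).map (T : Subgroup G).subtype : Subgroup G) :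
        Set G)).subtype at h1
  rw [← hC G T] at h1
  rw [(Subgroup.mem_center_iff.mp h1.2 g), mul_inv_cancel_right]

end Cfsg.Agent.S5196
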