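import Cfsg.Statements.S5197
import Cfsg.Agent.FusionZJ.TransferControl
import Cfsg.Agent.Fusion.TateMore

set_option autoImplicit false
set_option linter.style.haveILetI false
universe u
open Cfsg Cfsg.FusionSystem Cfsg.Agent Cfsg.Agent.Fusion Cfsg.Agent.FusionZJ

namespace Cfsg.Agent.S5197

/-- Let p be a prime and W a positive characteristic p-functor: W assigns to every finite p-group Q (in a fixed universe) a subgroup W(Q), nontrivial when Q is, carried to W(R) by every isomorphism Q ≅ R. Suppose W satisfies the local condition: for every finite group G with Sylow p-subgroup P such that C_G(O_p(G)) ≤ O_p(G), one has O_p(G) ∩ [G, G] = O_p(G) ∩ [N, N] for N = N_G(W(P)). Then W controls transfer in every saturated fusion system F over a finite p-group S: the focal subgroup of F equals the focal subgroup of the normalizer fusion system of W(S) in F. -/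
theorem result {p : ℕ} [Fact p.Prime] (W : ∀ (Q : Type u) [Group Q], Subgroup Q) (hW1 : ∀ (Q : Type u) [Group Q] [Finite Q], IsPGroup p Q → Nontrivial Q → W Q ≠ ⊥) (hW2 : ∀ (Q R : Type u) [Group Q] [Group R] [Finite Q], IsPGroup p Q → ∀ φ : Q ≃* R, (W Q).map φ.toMonoidHom = W R) (hT : ∀ (G : Type u) [Group G] [Finite G] (P : Sylow p G), Subgroup.centralizer ((Cfsg.pCore p G : Subgroup G) : Set G) ≤ Cfsg.pCore p G → Cfsg.pCore p G ⊓ commutator G = Cfsg.pCore p G ⊓ (commutator ↥(Subgroup.normalizer (((W ↥(P : Subgroup G)).map (P : Subgroup G).subtype : Subgroup G) : Set G))).map (Subgroup.normalizer (((W ↥(P : Subgroup G)).map (P : Subgroup G).subtype : Subgroup G) : Set G)).subtype) {Ω : Type u} [Group Ω] {S : Subgroup Ω} [Finite S] (hS : IsPGroup p S) (F : Cfsg.FusionSystem S) (hF : F.IsSaturated p) (N : Cfsg.FusionSystem (Cfsg.FusionSystem.normalizerIn S ((W ↥S).map S.subtype))) (hN : F.IsNormalizerSystem ((W ↥S).map S.subtype) N) : N.focalSubgroup = F.focalSubgroup := by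
  have hWS : (W ↥S).map S.subtype ≤ S := wOf_le W S
  have hSW : S ≤ normalizerIn S ((W ↥S).map S.subtype) := fun s hs =>
    ⟨hs, normalizerIn_le_wOf hS hW2 le_rfl ⟨hs, Subgroup.le_normalizer hs⟩⟩
  refine le_antisymm (focal_mono fun P φ hφ => ?_) ?_
  · rw [hN P] at hφ
    exact hφ.1
  refine (Subgroup.closure_le _).mpr ?_
  rintro _ ⟨P, φ, x, hφ, rfl⟩
  have h := focal_le_of_stab hW1 hW2 hT _ _ Ω S hS F hF rfl rfl N.focalSubgroup
    (fun P f hf hWP hfW y hy => ?_) P _ (mor_of_mem hφ) x x.2
  · rwa [extFun_coe] at h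
  · haveI : Finite ↥((W ↥S).map S.subtype) := finite_of_le hWS
    exact mem_focal_gen (mor_normalizerSystem hN (hf.restrict (sup_le le_rfl hWP)) (fun _ _ => rfl)
      (image_eq_of_iso (F := F) ((hf.restrict hWP).iso_of_card hfW le_rfl))
      (hf.dom_le.trans hSW) (fun z hz => hSW (hf.map_mem hz))) hy

end Cfsg.Agent.S5197
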