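import Cfsg.Statements.S5200
import Cfsg.Agent.Fusion.CentOdd.Main

set_option autoImplicit false
open Cfsg
open scoped commutatorElement

namespace Cfsg.Agent.S5200

open Cfsg.FusionSystem Cfsg.Agent.Fusion Cfsg.Agent.Fusion.CentE Cfsg.Agent.Fusion.SatCrit

/-- Let F be a saturated fusion system over a finite p-group S and E a normal subsystem of F over T whose centralizer in S lies in T: every subgroup Y of C_S(T) such that E is contained in the centralizer fusion system of Y in F satisfies Y ≤ T. Then T·C_S(T)/T is abelian (the commutator subgroup of T·C_S(T) lies in T), and if p is odd then C_S(T) ≤ T. -/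
theorem result {Ω : Type*} [Group Ω] {S : Subgroup Ω} [Finite S] (p : ℕ) [Fact p.Prime] (hS : IsPGroup p S) (F : Cfsg.FusionSystem S) (hF : F.IsSaturated p) {T : Subgroup Ω} (E : Cfsg.FusionSystem T) (hE : E.IsNormalIn F p) (hCE : ∀ Y : Subgroup Ω, Y ≤ Cfsg.FusionSystem.centralizerIn S T → (∀ C : Cfsg.FusionSystem (Cfsg.FusionSystem.centralizerIn S Y), F.IsCentralizerSystem Y C → E.IsSubsystemOf C) → Y ≤ T) : ⁅T ⊔ Cfsg.FusionSystem.centralizerIn S T, T ⊔ Cfsg.FusionSystem.centralizerIn S T⁆ ≤ T ∧ (p ≠ 2 → Cfsg.FusionSystem.centralizerIn S T ≤ T) := by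
  have c : Ctx F E p := Ctx.of_normal hS hE
  have hle : centE F E ≤ T := hCE _ centE_le fun C hC P φ hφ => by
    rw [hC P]
    exact (fix_iff_centralizerHom c.hinv.1 centE_le).mp c.good_centE P hφ
  refine ⟨?_, fun hp y hy => ?_⟩
  · obtain ⟨D, hD⟩ := exists_centralizerSystem F T c.tle
    haveI : Finite (centralizerIn S T) := finite_of_le centralizerIn_le
    have hQ : ⁅centralizerIn S T, centralizerIn S T⁆ ≤ T := by
      refine le_trans ?_ ((c.focal_le hD).trans hle)
      rw [focal_eq (p := p) (c.hS.to_le centralizerIn_le)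
        (centralizerSystem_saturated c.hS c.hF c.fullyCentralizedT hD)]
      exact le_sup_right
    have hn : T ≤ Subgroup.normalizer ((centralizerIn S T : Subgroup Ω) : Set Ω) := fun t ht =>
      Subgroup.mem_normalizer_iff.mpr fun x => ⟨fun hx => c.toWCtx.cn (c.tle ht) hx, fun hx => by
        have := c.toWCtx.cn (c.tle (T.inv_mem ht)) hx
        simpa [cj_apply, mul_assoc] using this⟩
    rw [Subgroup.commutator_le]
    intro a ha b hb
    rw [← SetLike.mem_coe, Subgroup.coe_mul_of_left_le_normalizer_right _ _ hn] at ha hb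
    obtain ⟨t, ht, q, hq, rfl⟩ := ha
    obtain ⟨t', ht', q', hq', rfl⟩ := hb
    have e : ⁅t * q, t' * q'⁆ = t * t' * ⁅q, q'⁆ * t⁻¹ * t'⁻¹ := by
      have e1 : Commute q t' := (hq.2 t' ht').symm
      have e0 : Commute t q' := hq'.2 t ht
      have e2 : Commute t⁻¹ q'⁻¹ := e0.inv_left.inv_right
      have e3 : Commute t' q := e1.symm
      calc ⁅t * q, t' * q'⁆ = t * (q * t') * q' * q⁻¹ * (t⁻¹ * q'⁻¹) * t'⁻¹ := by
            rw [commutatorElement_def]; group
        _ = t * (t' * q) * q' * q⁻¹ * (q'⁻¹ * t⁻¹) * t'⁻¹ := by rw [e1.eq, e2.eq]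
        _ = t * t' * ⁅q, q'⁆ * t⁻¹ * t'⁻¹ := by rw [commutatorElement_def]; group
    show ⁅t * q, t' * q'⁆ ∈ T
    rw [e]
    exact T.mul_mem (T.mul_mem (T.mul_mem (T.mul_mem ht ht')
      (hQ (Subgroup.commutator_mem_commutator hq hq'))) (T.inv_mem ht)) (T.inv_mem ht')
  · obtain ⟨z, hz, h⟩ := CentOdd.exists_mul_mem_centE c hp hy
    have := T.mul_mem (hle h) (T.inv_mem hz)
    rwa [mul_inv_cancel_right] at this

end Cfsg.Agent.S5200
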