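import Cfsg.Statements.S5201
import Cfsg.Agent.Fusion.Envelope

set_option autoImplicit false
open Cfsg Cfsg.Agent.Fusion Cfsg.FusionSystem

namespace Cfsg.Agent.S5201

/-- A reduction to normal subsystems. Let F be a saturated fusion system over a finite p-group S and E a normal subsystem of F over T whose centralizer in S lies in T (every subgroup Y of C_S(T) with E contained in the centralizer fusion system of Y in F satisfies Y ≤ T), and suppose Aut_F(T)/Aut_E(T) is p-solvable. Then F and E have the same residual limit: if F∞ is the residual limit of F (reached by alternately passing to the p-residual and the p'-residual subsystem until nothing changes) and E∞ that of E, then F∞ and E∞ have the same maps. -/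
theorem result {Ω : Type*} [Group Ω] {S : Subgroup Ω} [Finite S] (p : ℕ) [Fact p.Prime] (hS : IsPGroup p S) (F : Cfsg.FusionSystem S) (hF : F.IsSaturated p) {T : Subgroup Ω} (E : Cfsg.FusionSystem T) (hE : E.IsNormalIn F p) (hCE : ∀ Y : Subgroup Ω, Y ≤ Cfsg.FusionSystem.centralizerIn S T → (∀ C : Cfsg.FusionSystem (Cfsg.FusionSystem.centralizerIn S Y), F.IsCentralizerSystem Y C → E.IsSubsystemOf C) → Y ≤ T) [hn : ((E.autGroup T).subgroupOf (F.autGroup T)).Normal] (hsolv : Cfsg.IsPSolvable p (↥(F.autGroup T) ⧸ (E.autGroup T).subgroupOf (F.autGroup T))) {U V : Subgroup Ω} (Finf : Cfsg.FusionSystem U) (hFinf : Finf.IsResidualLimitOf F p) (Einf : Cfsg.FusionSystem V) (hEinf : Einf.IsResidualLimitOf E p) : ∀ P : Subgroup Ω, Finf.Hom P = Einf.Hom P := by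
  obtain ⟨M, F₀, h⟩ := Cfsg.Agent.Fusion.Envelope.exists_red _ hS F rfl hE
    (fun a ha b hb => hn.conj_mem ⟨b, Cfsg.Agent.Fusion.Limit.autGroup_mono hE.1.2.2.1 le_rfl hb⟩ hb ⟨a, ha⟩)
    (by
      haveI := finite_of_le hE.1.2.2.2.1.1
      haveI := finite_mulAut (G := T)
      exact Cfsg.Agent.Fusion.Envelope.solv_of_isPSolvable
        (fun x hx => Cfsg.Agent.Fusion.Limit.autGroup_mono hE.1.2.2.1 le_rfl hx) hsolv)
  obtain rfl := h.dom
  have hMS := subsystem_dom_le h.wn.2.2.1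
  haveI := finite_of_le hMS
  have hM : IsPGroup p _ := hS.to_le hMS
  have hC := Cfsg.Agent.Fusion.Envelope.centralizerIn_eq (T := T) hMS le_sup_right
  have hinv : E.IsInvariantIn F₀ := h.en.1.2.2
  have c : Cfsg.Agent.Fusion.CentFix.Base F₀ E p :=
    ⟨⟨hM, h.wn.1, h.en.1.1, hinv⟩, by rw [hC],
      fun α hα => h.aut hα, fun a ha => Cfsg.Agent.Fusion.Envelope.hf_of_normal h.en ha⟩
  have hidx := c.pPower fun Y hY hfix => hCE Y (hC ▸ hY) fun C hC' P φ hφ => by
    have hTC : T ≤ centralizerIn S Y := fun t ht => ⟨hE.1.2.2.2.1.1 ht, fun y hy =>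
      ((hY hy).2 t ht).symm⟩
    obtain ⟨ψ, hψ, e, hy⟩ := hfix P _ (mor_of_mem hφ)
    rw [hC' P]
    exact ⟨hE.1.2.2.1 P hφ, ((E.le_of_mem hφ).1).trans hTC, fun x => hTC ((E.le_of_mem hφ).2 x),
      (fixExt_iff (φ := φ)).mpr ⟨ψ, subsystem_mor h.wn.2.2.1 hψ, fun x => (e x x.2).trans (extFun_coe φ x), hy⟩⟩
  obtain ⟨W, L, hL⟩ := Cfsg.Agent.Fusion.Limit.exists_limit hM h.wn.1
  intro P
  rw [← (h.lim Finf L hFinf hL).2 P]
  exact ((residualLimit_eq hL hM h.wn.1 E hinv.2.1 h.en.1.1 hidx Einf hEinf).2 P).symm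

end Cfsg.Agent.S5201
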