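import Cfsg.Statements.S5202
import Cfsg.Agent.Fusion.Envelope

set_option autoImplicit false
open Cfsg Cfsg.Agent.Fusion Cfsg.FusionSystem

namespace Cfsg.Agent.S5202

/-- Let F be a saturated fusion system over a finite p-group S and E a normal subsystem of F over T such that Aut_F(T)/Aut_E(T) is p-solvable. Then there is a normal subsystem F₀ of F over T·C_S(T) containing E, with Aut_{F₀}(T) = Aut_E(T), containing every residual limit of F, and whose residual limits have the same maps as those of F. -/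
theorem result {Ω : Type*} [Group Ω] {S : Subgroup Ω} [Finite S] (p : ℕ) [Fact p.Prime] (hS : IsPGroup p S) (F : Cfsg.FusionSystem S) (hF : F.IsSaturated p) {T : Subgroup Ω} (E : Cfsg.FusionSystem T) (hE : E.IsNormalIn F p) [hn : ((E.autGroup T).subgroupOf (F.autGroup T)).Normal] (hsolv : Cfsg.IsPSolvable p (↥(F.autGroup T) ⧸ (E.autGroup T).subgroupOf (F.autGroup T))) : ∃ F₀ : Cfsg.FusionSystem (T ⊔ Cfsg.FusionSystem.centralizerIn S T), F₀.IsNormalIn F p ∧ E.IsSubsystemOf F₀ ∧ F₀.autGroup T = E.autGroup T ∧ ∀ {U : Subgroup Ω} (Finf : Cfsg.FusionSystem U), Finf.IsResidualLimitOf F p → Finf.IsSubsystemOf F₀ ∧ ∀ {V : Subgroup Ω} (L : Cfsg.FusionSystem V), L.IsResidualLimitOf F₀ p → ∀ P : Subgroup Ω, L.Hom P = Finf.Hom P := by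
  obtain ⟨M, F₀, h⟩ := Cfsg.Agent.Fusion.Envelope.exists_red _ hS F rfl hE
    (fun a ha b hb => hn.conj_mem ⟨b, Cfsg.Agent.Fusion.Limit.autGroup_mono hE.1.2.2.1 le_rfl hb⟩ hb ⟨a, ha⟩)
    (by
      haveI := finite_of_le hE.1.2.2.2.1.1
      haveI := finite_mulAut (G := T)
      exact Cfsg.Agent.Fusion.Envelope.solv_of_isPSolvable (fun x hx => Cfsg.Agent.Fusion.Limit.autGroup_mono hE.1.2.2.1 le_rfl hx) hsolv)
  obtain rfl := h.dom
  haveI := finite_of_le (subsystem_dom_le h.wn.2.2.1)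
  refine ⟨F₀, h.normal, h.en.1.2.2.1, le_antisymm h.aut
    (Cfsg.Agent.Fusion.Limit.autGroup_mono h.en.1.2.2.1 le_rfl), fun Finf hFinf => ⟨?_, fun L hL P => ?_⟩⟩
  · obtain ⟨V, L, hL⟩ := Cfsg.Agent.Fusion.Limit.exists_limit (hS.to_le (subsystem_dom_le h.wn.2.2.1)) h.wn.1
    intro P φ hφ
    rw [← (h.lim Finf L hFinf hL).2 P] at hφ
    exact Cfsg.Agent.Fusion.Limit.limit_le hL P hφ
  · exact (h.lim Finf L hFinf hL).2 P

end Cfsg.Agent.S5202
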