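import Cfsg.Statements.S5214
import Cfsg.Agent.Fusion.Series
import Cfsg.Agent.Suzuki.TwoGroupClassTwo
-- import your own Cfsg.Agent.* helpers here

set_option autoImplicit false
open Cfsg Cfsg.FusionSystem Cfsg.Agent.Fusion

namespace Cfsg.Agent.S5214

/-- Let S be a Suzuki 2-group (a finite nonabelian 2-group with more than one involution admitting a cyclic group of automorphisms permuting its involutions regularly). Then S is normal in every saturated fusion system over S (such a group is resistant). -/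
theorem result {Ω : Type*} [Group Ω] {S : Subgroup Ω} [Finite S] (hS : IsPGroup 2 S) (F : Cfsg.FusionSystem S) (hF : F.IsSaturated 2) (hsz : Cfsg.IsSuzukiTwoGroup ↥S) : F.IsNormal S := by
  obtain ⟨K, _, _, _, ⟨d⟩⟩ := Cfsg.Agent.Suzuki.TwoGroup.exists_data hsz
  have hk : ∃ k : Kˣ, k ≠ 1 := by
    obtain ⟨-, -, -, ⟨x, y, hxy, hx1, hxx, hy1, hyy⟩, -⟩ := hsz
    obtain ⟨k, hk⟩ := d.exists_μ (fun e => hy1 (d.eq_one_of_co hyy e)) hxx hx1
    rw [d.e_co hyy] at hk
    exact ⟨k, fun e => hxy (by rw [← hk, e, map_one, MulAut.one_apply])⟩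
  obtain ⟨-, hdl⟩ := d.sq_dl_central hk hsz.2.2.1
  haveI := Fact.mk Nat.prime_two
  refine isNormal_self_of_no_essential hS hF fun R hR => ?_
  obtain ⟨a, ha, haR⟩ := SetLike.exists_of_lt (lt_normalizerIn hS (essential_lt hS hF hR))
  have hRS : R ≤ S := hR.1.1
  let Om : Subgroup R :=
    { carrier := {x | (⟨x.1, hRS x.2⟩ : S) * ⟨x.1, hRS x.2⟩ = 1}
      one_mem' := Subtype.ext (one_mul 1)
      mul_mem' := fun {x y} hx hy => by
        have hc := d.sq_central hx ⟨y.1, hRS y.2⟩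
        show (⟨x.1, hRS x.2⟩ * ⟨y.1, hRS y.2⟩ : S) * (⟨x.1, hRS x.2⟩ * ⟨y.1, hRS y.2⟩) = 1
        rw [mul_assoc, ← mul_assoc (⟨y.1, hRS y.2⟩ : S), hc, mul_assoc, ← mul_assoc,
          show (⟨x.1, hRS x.2⟩ : S) * ⟨x.1, hRS x.2⟩ = 1 from hx, one_mul]
        exact hy
      inv_mem' := fun {x} hx => by
        show (⟨x.1, hRS x.2⟩ : S)⁻¹ * (⟨x.1, hRS x.2⟩ : S)⁻¹ = 1
        rw [← mul_inv_rev, show (⟨x.1, hRS x.2⟩ : S) * ⟨x.1, hRS x.2⟩ = 1 from hx, inv_one] }
  have hOm : ∀ x : R, x ∈ Om ↔ x * x = 1 := fun x => by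
    show (⟨x.1, hRS x.2⟩ : S) * ⟨x.1, hRS x.2⟩ = 1 ↔ _
    rw [Subtype.ext_iff, Subtype.ext_iff]
    rfl
  refine haR (mem_of_stabilizes hS hR.1 (essential_radical hS hR) ha
    (fun j => if j = 0 then ⊥ else if j = 1 then Om else ⊤) 2 (by simp) (by simp)
    (fun j hj => by interval_cases j <;> simp) (fun α _ j hj x hx => ?_) (fun j hj x hx => ?_))
  · interval_cases j
    · simp only [if_true, Subgroup.mem_bot] at hx ⊢
      rw [hx, map_one]
    · simp only [one_ne_zero, if_false, if_true] at hx ⊢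
      rw [hOm] at hx ⊢
      rw [← map_mul, hx, map_one]
    · simp
  · interval_cases j
    · simp only [zero_add, one_ne_zero, if_false, if_true, Subgroup.mem_bot] at hx ⊢
      refine inv_mul_eq_one.2 (Subtype.ext ?_)
      have h1 := congrArg Subtype.val (d.sq_central hx ⟨a, ha.1⟩)
      rw [actHom_apply]
      change a * x.1 = x.1 * a at h1
      show x.1 = a * x.1 * a⁻¹
      rw [h1, mul_inv_cancel_right]
    · simp only [one_ne_zero, if_false, if_true] at hx ⊢
      rw [hOm]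
      have h1 := d.center_sq hsz.2.2.1 (hdl ⟨x.1, hRS x.2⟩⁻¹ ⟨a, ha.1⟩)
      have h2 := congrArg Subtype.val h1
      apply Subtype.ext
      simp only [Subgroup.coe_mul, Subgroup.coe_inv, Subgroup.coe_one, actHom_apply, cj_apply,
        Cfsg.Agent.Suzuki.TwoGroup.Data.dl, inv_inv] at h2 ⊢
      simpa [mul_assoc] using h2

end Cfsg.Agent.S5214
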