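import Cfsg.Statements.S5218
import Cfsg.Agent.FusionZJ.Generation
import Cfsg.Agent.FusionZJ.SmallClass

set_option autoImplicit false
set_option linter.style.haveILetI false
universe u
open Cfsg Cfsg.FusionSystem Cfsg.Agent Cfsg.Agent.Fusion Cfsg.Agent.FusionZJ

namespace Cfsg.Agent.S5218

/-- Let p be a prime, n a natural number, S a nontrivial finite p-group of nilpotence class at most n(p−1)+1, and F a saturated fusion system over S. Then the subgroup generated by the pⁿ-th powers of the elements of Z(S) is normal in F. -/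
theorem result {Ω : Type*} [Group Ω] {S : Subgroup Ω} [Finite S] (p : ℕ) [Fact p.Prime] (hS : IsPGroup p S) (F : Cfsg.FusionSystem S) (hF : F.IsSaturated p) (n : ℕ) (hS1 : S ≠ ⊥) (hcl : Subgroup.lowerCentralSeries S (n * (p - 1) + 1) = ⊥) : F.IsNormal (Cfsg.powerClosure p n (S ⊓ Subgroup.centralizer (S : Set Ω))) := by
  set V := Cfsg.powerClosure p n (S ⊓ Subgroup.centralizer (S : Set Ω)) with hV
  have hVle : V ≤ S ⊓ Subgroup.centralizer (S : Set Ω) := by
    refine (Subgroup.closure_le _).mpr ?_
    rintro _ ⟨z, hz, rfl⟩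
    exact pow_mem hz _
  have hVS : V ≤ S := hVle.trans inf_le_left
  have hSV : S ≤ Subgroup.normalizer (V : Set Ω) := fun s hs =>
    Subgroup.centralizer_le_normalizer _ fun v hv => ((hVle hv).2 s hs).symm
  refine isNormal_of_extStab hVS fun P f hf => ?_
  refine generated_by_fixing_of (W := fun Q _ => (⊤ : Subgroup Q))
    (fun Q R _ _ _ _ φ => Subgroup.map_top_of_surjective _ φ.surjective) (fun Q _ _ _ => le_top)
    (e := p ^ n) (Good := fun Q _ => (⊤ : Subgroup Q).lowerCentralSeries (n * (p - 1) + 1) = ⊥)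
    ?_ ?_ _ _ _ S hS F hF ?_ rfl rfl (ExtStab F V) (closed_extStab hVS hSV) ?_ ?_ P f hf
  · intro Q R _ _ φ hφ h
    refine (Subgroup.map_eq_bot_iff_of_injective _ hφ).mp (le_bot_iff.mp ?_)
    rw [Subgroup.map_lowerCentralSeries, ← h]
    exact Subgroup.lowerCentralSeries_mono _ le_top
  · intro G _ _ T hC hgood hn
    refine exists_normal_fixing_class G T hC ?_ ?_
    · rw [← Subgroup.top_subtype_lowerCentralSeries, hgood, Subgroup.map_bot]
    · rwa [wOf, ← MonoidHom.range_eq_map, Subgroup.range_subtype] at hn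
  · refine (Subgroup.map_eq_bot_iff_of_injective _ S.subtype_injective).mp ?_
    rw [Subgroup.top_subtype_lowerCentralSeries, hcl]
  · intro P f hf hfix
    have hVP : V ≤ P := by
      refine (Subgroup.closure_le _).mpr ?_
      rintro _ ⟨z, hz, rfl⟩
      exact (hfix z hz.1 hz.2).1
    refine ⟨f, hf.restrict (sup_le le_rfl hVP), fun _ _ => rfl, fun x hx => ?_⟩
    suffices h : f x = x by rwa [h]
    induction hx using Subgroup.closure_induction with
    | mem y hy =>
      obtain ⟨z, hz, rfl⟩ := hy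
      exact (hfix z hz.1 hz.2).2
    | one => exact hf.map_one
    | mul a b ha hb e1 e2 => rw [hf.map_mul (hVP ha) (hVP hb), e1, e2]
    | inv a ha e1 => rw [hf.map_inv (hVP ha), e1]
  · intro P f hf hle hst
    have hw : wOf (fun Q _ => (⊤ : Subgroup Q)) S = S := by
      rw [wOf, ← MonoidHom.range_eq_map, Subgroup.range_subtype]
    rw [hw] at hle hst
    obtain rfl : P = S := le_antisymm hf.dom_le hle
    have hiso : Iso F f P P := hf.iso_of_card hst le_rfl
    refine ⟨f, hf.restrict (sup_le le_rfl hVS), fun _ _ => rfl, fun x hx => ?_⟩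
    induction hx using Subgroup.closure_induction with
    | mem y hy =>
      obtain ⟨z, hz, rfl⟩ := hy
      refine Subgroup.subset_closure ⟨f z, ⟨hf.map_mem hz.1, fun s hs => ?_⟩, hf.map_pow hz.1 _⟩
      obtain ⟨t, ht, rfl⟩ := hiso.surj hs
      rw [← hf.map_mul ht hz.1, ← hf.map_mul hz.1 ht, hz.2 t ht]
    | one => rw [hf.map_one]; exact V.one_mem
    | mul a b ha hb e1 e2 => rw [hf.map_mul (hVS ha) (hVS hb)]; exact V.mul_mem e1 e2
    | inv a ha e1 => rw [hf.map_inv (hVS ha)]; exact V.inv_mem e1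

end Cfsg.Agent.S5218
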