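import Cfsg.Statements.S5219
import Cfsg.Agent.S5218
import Mathlib.GroupTheory.Exponent

set_option autoImplicit false
set_option linter.style.haveILetI false
open Cfsg Cfsg.FusionSystem

namespace Cfsg.Agent.S5219

theorem pow_mem_upperCentralSeries {G : Type*} [Group G] (e : ℕ)
    (hZ : ∀ x ∈ Subgroup.center G, x ^ e = 1) :
    ∀ (k : ℕ) (x : G), x ∈ Subgroup.upperCentralSeries G (k + 1) →
      x ^ e ∈ Subgroup.upperCentralSeries G k := by
  intro k
  induction k with
  | zero =>
    intro x hx
    rw [Subgroup.upperCentralSeries_one] at hx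
    rw [Subgroup.upperCentralSeries_zero, Subgroup.mem_bot]
    exact hZ x hx
  | succ k ih =>
    intro x hx
    refine Subgroup.mem_upperCentralSeries_succ_iff.mpr fun s => ?_
    have hc := Subgroup.mem_upperCentralSeries_succ_iff.mp hx s
    rw [commutatorElement_def] at hc ⊢
    set c := x * s * x⁻¹ * s⁻¹ with hcd
    let q := QuotientGroup.mk' (Subgroup.upperCentralSeries G k)
    have hq : ∀ y : G, q y = 1 ↔ y ∈ Subgroup.upperCentralSeries G k := fun y =>
      QuotientGroup.eq_one_iff y
    have hcom : ∀ y : G, Commute (q c) (q y) := fun y => by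
      have h := (hq _).mpr (Subgroup.mem_upperCentralSeries_succ_iff.mp hc y)
      rw [commutatorElement_def, map_mul, map_mul, map_mul, map_inv, map_inv, mul_inv_eq_one,
        mul_inv_eq_iff_eq_mul] at h
      exact h
    have hi : ∀ i : ℕ, q x ^ i * q s * (q x ^ i)⁻¹ = q c ^ i * q s := by
      intro i
      induction i with
      | zero => simp
      | succ i hi =>
        have h1 : q c * q s = q x * q s * (q x)⁻¹ := by
          rw [hcd, map_mul _ (x * s * x⁻¹), map_inv, inv_mul_cancel_right, map_mul, map_mul, map_inv]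
        calc q x ^ (i + 1) * q s * (q x ^ (i + 1))⁻¹
            = q x ^ i * (q x * q s * (q x)⁻¹) * (q x ^ i)⁻¹ := by
              rw [pow_succ, mul_inv_rev]; group
          _ = q x ^ i * q c * (q x ^ i)⁻¹ * (q x ^ i * q s * (q x ^ i)⁻¹) := by rw [← h1]; group
          _ = q c * (q c ^ i * q s) := by
              rw [← ((hcom x).pow_right i).eq, mul_inv_cancel_right, hi]
          _ = q c ^ (i + 1) * q s := by rw [pow_succ', mul_assoc]
    refine (hq _).mp ?_
    rw [map_mul, map_mul, map_mul, map_inv, map_inv, map_pow, hi, mul_inv_cancel_right, ← map_pow]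
    exact (hq _).mpr (ih c hc)

/-- Let p be a prime, n a natural number, S a nontrivial finite p-group of nilpotence class at most n(p−1)+1, and F a saturated fusion system over S with no nontrivial normal subgroup (O_p(F) = 1). Then S has exponent dividing p^(n²(p−1)+n). -/
theorem result {Ω : Type*} [Group Ω] {S : Subgroup Ω} [Finite S] (p : ℕ) [Fact p.Prime] (hS : IsPGroup p S) (F : Cfsg.FusionSystem S) (hF : F.IsSaturated p) (n : ℕ) (hS1 : S ≠ ⊥) (hcl : Subgroup.lowerCentralSeries S (n * (p - 1) + 1) = ⊥) (hcore : F.core = ⊥) : Monoid.exponent ↥S ∣ p ^ (n ^ 2 * (p - 1) + n) := by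
  have hV : Cfsg.powerClosure p n (S ⊓ Subgroup.centralizer (S : Set Ω)) ≤ ⊥ :=
    hcore ▸ le_sSup (S5218.result p hS F hF n hS1 hcl)
  have hZ : ∀ z ∈ Subgroup.center ↥S, z ^ p ^ n = 1 := fun z hz => Subtype.ext (by
    refine Subgroup.mem_bot.mp (hV ?_)
    exact Subgroup.subset_closure ⟨z, ⟨z.2, fun s hs =>
      congrArg Subtype.val (Subgroup.mem_center_iff.mp hz ⟨s, hs⟩)⟩, rfl⟩)
  have htop : Subgroup.upperCentralSeries ↥S (n * (p - 1) + 1) = ⊤ := by
    refine Subgroup.lowerCentralSeries_eq_bot_iff_upperCentralSeries_eq_top.mp ?_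
    refine (Subgroup.map_eq_bot_iff_of_injective _ S.subtype_injective).mp ?_
    rw [Subgroup.top_subtype_lowerCentralSeries, hcl]
  have key : ∀ k, ∀ x ∈ Subgroup.upperCentralSeries ↥S k, x ^ ((p ^ n) ^ k) = 1 := by
    intro k
    induction k with
    | zero =>
      intro x hx
      rw [Subgroup.upperCentralSeries_zero, Subgroup.mem_bot] at hx
      rw [hx, one_pow]
    | succ k ih =>
      intro x hx
      rw [pow_succ' (p ^ n) k, pow_mul]
      exact ih _ (pow_mem_upperCentralSeries _ hZ k x hx)
  refine Monoid.exponent_dvd_of_forall_pow_eq_one fun x => ?_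
  have h := key _ x (htop.symm ▸ Subgroup.mem_top x)
  rw [← pow_mul, show n * (n * (p - 1) + 1) = n ^ 2 * (p - 1) + n by ring] at h
  exact h

end Cfsg.Agent.S5219
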