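import Cfsg.Statements.S5220
import Cfsg.Agent.FusionZJ.Generation
import Cfsg.Agent.FusionZJ.CenterGroup

set_option autoImplicit false
set_option linter.style.haveILetI false
open Cfsg Cfsg.FusionSystem Cfsg.Agent Cfsg.Agent.Fusion Cfsg.Agent.FusionZJ

namespace Cfsg.Agent.S5220

/-- Let F be a saturated fusion system over a nontrivial finite p-group S, let J(S) be the subgroup generated by the abelian subgroups of S of largest order, and let V be the subgroup generated by the p-th powers of the elements of Z(S). Then F is generated by the centralizer fusion system of V and the normalizer fusion system of J(S): every fusion system over S containing the maps of both contains every map of F. -/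
theorem result {Ω : Type*} [Group Ω] {S : Subgroup Ω} [Finite S] (p : ℕ) [Fact p.Prime] (hS : IsPGroup p S) (F : Cfsg.FusionSystem S) (hF : F.IsSaturated p) (hS1 : S ≠ ⊥) (C : Cfsg.FusionSystem (Cfsg.FusionSystem.centralizerIn S (Cfsg.powerClosure p 1 (S ⊓ Subgroup.centralizer (S : Set Ω))))) (hC : F.IsCentralizerSystem (Cfsg.powerClosure p 1 (S ⊓ Subgroup.centralizer (S : Set Ω))) C) (N : Cfsg.FusionSystem (Cfsg.FusionSystem.normalizerIn S (Cfsg.thompsonSubgroupAOf S))) (hN : F.IsNormalizerSystem (Cfsg.thompsonSubgroupAOf S) N) (E : Cfsg.FusionSystem S) (hCE : C.IsSubsystemOf E) (hNE : N.IsSubsystemOf E) : F.IsSubsystemOf E := by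
  set V := Cfsg.powerClosure p 1 (S ⊓ Subgroup.centralizer (S : Set Ω)) with hV
  have hVle : V ≤ S ⊓ Subgroup.centralizer (S : Set Ω) := by
    refine (Subgroup.closure_le _).mpr ?_
    rintro _ ⟨z, hz, rfl⟩
    exact pow_mem hz _
  have hSV : S ≤ centralizerIn S V := fun s hs => ⟨hs, fun v hv => ((hVle hv).2 s hs).symm⟩
  have hJS : thompsonSubgroupAOf S ≤ S := wOf_le jA S
  have hSJ : S ≤ normalizerIn S (thompsonSubgroupAOf S) := fun s hs =>
    ⟨hs, normalizerIn_le_wOf (W := jA) hS jA_equiv le_rfl ⟨hs, Subgroup.le_normalizer hs⟩⟩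
  intro P φ hφ
  refine mem_iff_mor.mpr (generated_by_fixing (W := jA) jA_equiv center_le_jA
    (fun G _ _ T h => jA_quadratic G T h) _ _ Ω S hS F hF rfl rfl
    (fun P f => Mor E P f) (Closed.of_system E) ?_ ?_ P _ (mor_of_mem hφ))
  · intro P f hf hfix
    have hVP : V ≤ P := by
      refine (Subgroup.closure_le _).mpr ?_
      rintro _ ⟨z, hz, rfl⟩
      rw [pow_one]
      exact (hfix z hz.1 hz.2).1
    have hfV : ∀ x ∈ V, f x = x := by
      intro x hx
      induction hx using Subgroup.closure_induction with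
      | mem y hy =>
        obtain ⟨z, hz, rfl⟩ := hy
        rw [pow_one]
        exact (hfix z hz.1 hz.2).2
      | one => exact hf.map_one
      | mul a b ha hb e1 e2 => rw [hf.map_mul (hVP ha) (hVP hb), e1, e2]
      | inv a ha e1 => rw [hf.map_inv (hVP ha), e1]
    refine ⟨hf.hom, hCE P ?_, fun _ => rfl⟩
    rw [hC P]
    exact ⟨hf.hom_mem, hf.dom_le.trans hSV, fun x => hSV (hf.map_mem x.2),
      (fixExt_iff (φ := hf.hom)).mpr ⟨f, hf.restrict (sup_le le_rfl hVP), fun _ => rfl, hfV⟩⟩
  · intro P f hf hJP hfJ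
    haveI : Finite ↥(thompsonSubgroupAOf S) := finite_of_le hJS
    have hJ : f '' ((thompsonSubgroupAOf S : Subgroup Ω) : Set Ω) = thompsonSubgroupAOf S :=
      image_eq_of_iso (F := F) ((hf.restrict hJP).iso_of_card hfJ le_rfl)
    have h1 : Mor N P f := mor_normalizerSystem hN (hf.restrict (sup_le le_rfl hJP)) (fun _ _ => rfl)
      hJ (hf.dom_le.trans hSJ) (fun x hx => hSJ (hf.map_mem hx))
    exact ⟨h1.hom, hNE P h1.hom_mem, fun _ => rfl⟩

end Cfsg.Agent.S5220
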