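import Cfsg.Statements.S5222
import Cfsg.Agent.Fusion.TateMore
import Cfsg.Agent.Fusion.NormalizerSat

set_option autoImplicit false
open Cfsg Cfsg.Agent.Fusion Cfsg.FusionSystem

namespace Cfsg.Agent.S5222

/-- Let F be a saturated fusion system over a finite p-group S whose normalizer fusion system of S is the inner fusion system of S (Aut_F(S) is a p-group). Then for every subgroup Q of S with [S, S] ≤ Q ≤ Φ(S), the normalizer fusion system of Q in F is the inner fusion system of N_S(Q) = S. -/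
theorem result {Ω : Type*} [Group Ω] {S : Subgroup Ω} [Finite S] (p : ℕ) [Fact p.Prime] (hS : IsPGroup p S) (F : Cfsg.FusionSystem S) (hF : F.IsSaturated p) (hN : ∀ N : Cfsg.FusionSystem (Cfsg.FusionSystem.normalizerIn S S), F.IsNormalizerSystem S N → ∀ P : Subgroup Ω, N.Hom P = (Cfsg.innerFusionSystem (Cfsg.FusionSystem.normalizerIn S S)).Hom P) (Q : Subgroup Ω) (h1 : (commutator ↥S).map S.subtype ≤ Q) (h2 : Q ≤ (frattini ↥S).map S.subtype) : ∀ N : Cfsg.FusionSystem (Cfsg.FusionSystem.normalizerIn S Q), F.IsNormalizerSystem Q N → ∀ P : Subgroup Ω, N.Hom P = (Cfsg.innerFusionSystem (Cfsg.FusionSystem.normalizerIn S Q)).Hom P := by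
  intro N hNS
  have hQS : Q ≤ S := h2.trans (Subgroup.map_subtype_le _)
  have hcomm : ∀ x ∈ S, ∀ y ∈ S, x * y * x⁻¹ * y⁻¹ ∈ Q := fun x hx y hy =>
    h1 ⟨_, Subgroup.commutator_mem_commutator (g₁ := (⟨x, hx⟩ : S)) (g₂ := ⟨y, hy⟩)
      (Subgroup.mem_top _) (Subgroup.mem_top _), rfl⟩
  have hSn : S ≤ Subgroup.normalizer (Q : Set Ω) := by
    intro s hs
    refine Subgroup.mem_normalizer_iff.mpr fun x => ⟨fun hx => ?_, fun hx => ?_⟩
    · have := Q.mul_mem (hcomm s hs x (hQS hx)) hx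
      rwa [inv_mul_cancel_right] at this
    · have hxS : x ∈ S := by
        have := S.mul_mem (S.mul_mem (S.inv_mem hs) (hQS hx)) hs
        simpa [mul_assoc] using this
      have := Q.mul_mem (Q.inv_mem (hcomm s hs x hxS)) hx
      simpa [mul_assoc] using this
  have hSQ : normalizerIn S Q = S := inf_eq_left.mpr hSn
  have hQn : F.IsFullyNormalized Q := ⟨hQS, fun R _ => by
    rw [hSQ]; exact card_le_of_le normalizerIn_le⟩
  have hNs := normalizerSystem_saturated hS hF hQn hNS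
  haveI : Finite ↥(normalizerIn S Q) := finite_of_le normalizerIn_le
  have hS' : IsPGroup p ↥(normalizerIn S Q) := hS.to_le normalizerIn_le
  have hinn := autGroup_self_le_inn_of_normalizer hN
  have hAut : N.autGroup (normalizerIn S Q) ≤ Inn (normalizerIn S Q) := by
    intro α hα
    obtain ⟨f, hf, e⟩ := (mem_autGroup_iff le_rfl).mp hα
    have hfS : Iso F f S S := by
      have h := (normalizerSystem_mor hNS hf.mor).1
      rw [hSQ] at h
      refine h.iso_of_card (fun x hx => ?_) le_rfl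
      have h2 := hf.mapsTo (hSQ.ge hx)
      exact hSQ.le h2
    obtain ⟨c, hc⟩ := hinn hfS.equiv_mem_autGroup
    refine ⟨⟨c, hSQ.ge c.2⟩, MulEquiv.ext fun x => Subtype.ext ?_⟩
    rw [← e x]
    exact congrArg (fun β : MulAut S => ((β ⟨(x : Ω), hSQ.le x.2⟩ : S) : Ω)) hc
  have hclosed : N.StronglyClosed Q := by
    refine stronglyClosed_of_mor (hSQ.ge.trans' hQS) fun R f hf x hxR hx => ?_
    obtain ⟨φ, hφ, e⟩ := hf
    rw [hNS R] at hφ
    obtain ⟨-, -, -, ψ, -, eψ, mψ⟩ := hφ
    rw [← e ⟨x, hxR⟩, ← eψ ⟨x, hxR⟩]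
    exact mψ.le ⟨Subgroup.inclusion le_sup_left ⟨x, hxR⟩, hx, rfl⟩
  have hle := hyperfocal_le_of_abelian_quotient hS' hNs hclosed
    (fun x hx y hy => hcomm x (hSQ.le hx) y (hSQ.le hy)) hAut
  have hfr : Q ≤ (frattini ↥(normalizerIn S Q)).map (normalizerIn S Q).subtype := by
    rw [hSQ]; exact h2
  exact fun P => by rw [eq_inner_of_hyperfocal_le_frattini hS' hNs (hle.trans hfr)]

end Cfsg.Agent.S5222
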