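import Cfsg.Statements.S5223
import Cfsg.Agent.Fusion.NormalMore

set_option autoImplicit false
open Cfsg Cfsg.Agent.Fusion Cfsg.FusionSystem

namespace Cfsg.Agent.S5223

/-- Let F be a saturated fusion system over a finite p-group S. Suppose there are subgroups Q₀ = S, Q₁, …, Qₙ = 1 (not required to be nested) such that for each i < n the focal subgroup of Qᵢ (generated by the elements x⁻¹φ(x), x ∈ Qᵢ, φ a map of F defined on the cyclic group generated by x) lies in Qᵢ₊₁. Then F is the inner fusion system of S. -/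
theorem result {Ω : Type*} [Group Ω] {S : Subgroup Ω} [Finite S] (p : ℕ) [Fact p.Prime] (hS : IsPGroup p S) (F : Cfsg.FusionSystem S) (hF : F.IsSaturated p) (n : ℕ) (Q : Fin (n + 1) → Subgroup Ω) (hQ0 : Q 0 = S) (hQn : Q (Fin.last n) = ⊥) (hstep : ∀ i : Fin n, Subgroup.closure {y : Ω | ∃ x ∈ Q i.castSucc, ∃ φ ∈ F.Hom (Subgroup.zpowers x), y = x⁻¹ * φ ⟨x, Subgroup.mem_zpowers x⟩} ≤ Q i.succ) : ∀ P : Subgroup Ω, F.Hom P = (Cfsg.innerFusionSystem S).Hom P := by
  have h : F = innerFusionSystem S := by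
    refine eq_inner_of_isPGroup hS hF fun P hP ⟨α, hα⟩ => ?_
    haveI := finite_of_le hP
    obtain ⟨f, hf, ef⟩ := (mem_autGroup_iff hP).mp hα
    let D : ℕ → Subgroup P := fun j =>
      ⨅ (i : Fin (n + 1)) (_ : (i : ℕ) ≤ n - j), (Q i).subgroupOf P
    have hmem : ∀ (j : ℕ) (x : P), x ∈ D j ↔ ∀ i : Fin (n + 1), (i : ℕ) ≤ n - j → (x : Ω) ∈ Q i := by
      intro j x
      simp only [D, Subgroup.mem_iInf, Subgroup.mem_subgroupOf]
    suffices hh : D 0 = ⊥ ∧ D n = ⊤ ∧ (∀ j < n, D j ≤ D (j + 1)) ∧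
        ∀ j < n, ∀ x ∈ D (j + 1), x⁻¹ * α x ∈ D j by
      obtain ⟨k, hk⟩ := stabilizes_pow_eq_one (hS.to_le hP) α D n hh.1 hh.2.1 hh.2.2.1 hh.2.2.2
      exact ⟨k, Subtype.ext hk⟩
    refine ⟨?_, ?_, ?_, ?_⟩
    · rw [eq_bot_iff]
      intro x hx
      have h1 := (hmem 0 x).mp hx (Fin.last n) (by simp)
      rw [hQn, Subgroup.mem_bot] at h1
      exact Subtype.ext h1
    · rw [eq_top_iff]
      intro x _
      refine (hmem n x).mpr fun i hi => ?_
      obtain rfl : i = 0 := Fin.ext (by simpa using hi)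
      exact hQ0 ▸ hP x.2
    · intro j _ x hx
      exact (hmem (j + 1) x).mpr fun i hi => (hmem j x).mp hx i (by omega)
    · intro j hj x hx
      refine (hmem j _).mpr fun i hi => ?_
      show (x : Ω)⁻¹ * ((α x : P) : Ω) ∈ Q i
      rw [← ef]
      refine Fin.cases ?_ (fun i' hi' => ?_) i hi
      · intro _
        rw [hQ0]; exact mul_mem (inv_mem (hP x.2)) (hf.mor.map_mem x.2)
      · refine hstep i' (Subgroup.subset_closure ⟨x, ?_, _,
          (hf.mor.restrict (Subgroup.zpowers_le.mpr x.2)).hom_mem, rfl⟩)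
        exact (hmem (j + 1) x).mp hx i'.castSucc (by simp at hi' ⊢; omega)
  subst h
  exact fun P => rfl

end Cfsg.Agent.S5223
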