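import Cfsg.Statements.S5226
import Cfsg.Agent.Fusion.NormalMore

set_option autoImplicit false
open Cfsg Cfsg.Agent.Fusion Cfsg.FusionSystem

namespace Cfsg.Agent.S5226

/-- Let F be a saturated fusion system over a finite p-group S and Q a subgroup of S. Then Q is normal in F (F equals the normalizer system of Q) if and only if Q is strongly closed in F and admits a central series 1 = Q₀ ≤ Q₁ ≤ ⋯ ≤ Qₙ = Q ([Qᵢ₊₁, Q] ≤ Qᵢ) all of whose proper terms are weakly closed in F. -/
theorem result {Ω : Type*} [Group Ω] {S : Subgroup Ω} [Finite S] (p : ℕ) [Fact p.Prime] (hS : IsPGroup p S) (F : Cfsg.FusionSystem S) (hF : F.IsSaturated p) (Q : Subgroup Ω) : F.IsNormal Q ↔ F.StronglyClosed Q ∧ ∃ (n : ℕ) (C : Fin (n + 1) → Subgroup Ω), C 0 = ⊥ ∧ C (Fin.last n) = Q ∧ Monotone C ∧ (∀ i : Fin n, ⁅C i.succ, Q⁆ ≤ C i.castSucc) ∧ ∀ i : Fin n, F.WeaklyClosed (C i.castSucc) := by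
  constructor
  · intro hQ
    obtain ⟨n, C, h0, hn, hm, hC, hcm⟩ := exists_normal_chain hS hQ
    refine ⟨isNormal_stronglyClosed hQ, n, fun i => C i, h0, hn, fun i j h => hm h, fun i => ?_,
      fun i => weaklyClosed_of_stronglyClosed (isNormal_stronglyClosed (hC _))⟩
    rw [Subgroup.commutator_le]
    exact fun x hx q hq => hcm i x hx q hq
  · rintro ⟨hQ, n, C, h0, hn, hmono, hc, hw⟩
    refine isNormal_of_chain hS hF hQ n (fun i => C ⟨min i n, by omega⟩) ?_ ?_ ?_ ?_ ?_
    · simpa using h0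
    · simpa [Fin.last] using hn
    · exact fun i hi => hmono (show min i n ≤ min (i + 1) n by omega)
    · intro i hi
      rw [show (⟨min i n, by omega⟩ : Fin (n + 1)) = (⟨i, hi⟩ : Fin n).castSucc from
        Fin.ext (by show min i n = i; omega)]
      exact hw _
    · intro i hi x hx q hq
      have h2 := hc ⟨i, hi⟩
      rw [Subgroup.commutator_le] at h2
      have e1 : (⟨min (i + 1) n, by omega⟩ : Fin (n + 1)) = (⟨i, hi⟩ : Fin n).succ :=
        Fin.ext (by show min (i + 1) n = i + 1; omega)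
      have e2 : (⟨min i n, by omega⟩ : Fin (n + 1)) = (⟨i, hi⟩ : Fin n).castSucc :=
        Fin.ext (by show min i n = i; omega)
      simp only [e1, e2] at hx ⊢
      exact h2 x hx q hq

end Cfsg.Agent.S5226
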