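import Cfsg.Statements.S5233
import Cfsg.Agent.Fusion.GenExtraspecial
import Cfsg.Agent.FGS3.FrattiniAction

set_option autoImplicit false
open Cfsg Cfsg.Agent.Fusion Cfsg.FusionSystem

namespace Cfsg.Agent.S5233

theorem extraspecial_of_equiv {X Y : Type*} [Group X] [Group Y] {p : ℕ} (e : X ≃* Y)
    (h : Cfsg.IsExtraspecial p X) : Cfsg.IsExtraspecial p Y := by
  obtain ⟨⟨hp, hf, hc⟩, hz⟩ := h
  have hfm : (frattini X).map e.toMonoidHom = frattini Y := by
    refine le_antisymm (FGS3.map_frattini_le_of_surjective (f := e.toMonoidHom) e.surjective) fun y hy => ?_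
    exact ⟨e.symm y, FGS3.map_frattini_le_of_surjective (f := e.symm.toMonoidHom) e.symm.surjective ⟨y, hy, rfl⟩,
      e.apply_symm_apply y⟩
  have hzm : (Subgroup.center X).map e.toMonoidHom = Subgroup.center Y := by
    ext y
    constructor
    · rintro ⟨x, hx, rfl⟩
      refine Subgroup.mem_center_iff.mpr fun w => ?_
      obtain ⟨v, rfl⟩ := e.surjective w
      show e v * e x = e x * e v
      rw [← map_mul, ← map_mul, Subgroup.mem_center_iff.mp hx v]
    · intro hy
      refine ⟨e.symm y, Subgroup.mem_center_iff.mpr fun v => e.injective ?_, e.apply_symm_apply y⟩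
      rw [map_mul, map_mul, e.apply_symm_apply, Subgroup.mem_center_iff.mp hy (e v)]
  have hcm : (commutator X).map e.toMonoidHom = commutator Y := by
    rw [commutator_def, commutator_def, Subgroup.map_commutator, Subgroup.map_top_of_surjective _ e.surjective]
  refine ⟨⟨hp.of_equiv e, ?_, ?_⟩, ?_⟩
  · rw [← hfm, ← hzm, hf]
  · rw [← hcm, ← hzm, hc]
  · rw [← hzm, ← Nat.card_congr ((Subgroup.center X).equivMapOfInjective e.toMonoidHom e.injective).toEquiv, hz]

/-- Let F be a saturated fusion system over a finite p-group S and P a subgroup of S strongly closed in F that is generalized extraspecial (its Frattini subgroup equals its commutator subgroup and has order p) and not isomorphic to E × A with A elementary abelian and E dihedral of order 8 (p = 2) or extraspecial of order p³ and exponent p (p odd). Then P is normal in F. -/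
theorem result {Ω : Type*} [Group Ω] {S : Subgroup Ω} [Finite S] (p : ℕ) [Fact p.Prime] (hS : IsPGroup p S) (F : Cfsg.FusionSystem S) (hF : F.IsSaturated p) (P : Subgroup Ω) (hP : F.StronglyClosed P) (hge : frattini ↥P = commutator ↥P ∧ Nat.card ↥(commutator ↥P) = p) (h2 : p = 2 → ¬ ∃ (A : Type) (_ : CommGroup A), (∀ a : A, a ^ 2 = 1) ∧ Nonempty (↥P ≃* DihedralGroup 4 × A)) (hodd : p ≠ 2 → ¬ ∃ (E : Type) (_ : Group E) (A : Type) (_ : CommGroup A), Cfsg.IsExtraspecial p E ∧ Nat.card E = p ^ 3 ∧ Monoid.exponent E = p ∧ (∀ a : A, a ^ p = 1) ∧ Nonempty (↥P ≃* E × A)) : F.IsNormal P := by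
  haveI := Fusion.finite_of_le hP.1
  rcases Fusion.GenExtra.isNormal_or_split hS hF hP hge.1 hge.2 with h | ⟨z, y, b, A, hs, hb⟩
  · exact h
  exfalso
  have hPp : IsPGroup p P := hS.to_le hP.1
  letI : CommGroup A := { (inferInstance : Group A) with mul_comm := fun a c => Subtype.ext (hs.Ac a a.2 c) }
  haveI : Small.{0} A := inferInstance
  let eA : Shrink.{0} A ≃* A := Shrink.mulEquiv
  have hAel : ∀ a : Shrink.{0} A, a ^ p = 1 := fun a => eA.injective (by
    rw [map_pow, map_one]; exact Subtype.ext (hs.Ael _ (eA a).2))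
  by_cases hp2 : p = 2
  · subst hp2
    obtain ⟨e⟩ := hs.to_dihedral hPp rfl
    exact h2 rfl ⟨Shrink.{0} A, inferInstance, hAel,
      ⟨e.trans (MulEquiv.prodCongr (MulEquiv.refl _) eA.symm)⟩⟩
  · obtain ⟨E, hE, hEc, hEe, ⟨e⟩⟩ := hs.to_extraspecial hPp hp2 (hb hp2)
    haveI : Small.{0} E := inferInstance
    let eE : Shrink.{0} E ≃* E := Shrink.mulEquiv
    refine hodd hp2 ⟨Shrink.{0} E, inferInstance, Shrink.{0} A, inferInstance, ?_, ?_, ?_, hAel,
      ⟨e.trans (MulEquiv.prodCongr eE.symm eA.symm)⟩⟩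
    · exact extraspecial_of_equiv eE.symm hE
    · rw [Nat.card_congr eE.toEquiv, hEc]
    · rw [Monoid.exponent_eq_of_mulEquiv eE, hEe]

end Cfsg.Agent.S5233
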