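import Cfsg.Statements.S5244
import Cfsg.Agent.Fusion.UniqueAbelianCore

set_option autoImplicit false
open Cfsg Cfsg.Agent.Fusion Cfsg.FusionSystem

namespace Cfsg.Agent.S5244

/-- Let p be an odd prime, S a finite nonabelian p-group with a unique abelian subgroup A of index p, and F a saturated fusion system over S with no nontrivial normal subgroup (O_p(F) = 1) in which A is not F-essential. Then some subgroup Z(S)⟨x⟩ with x ∈ S outside A is F-essential, the centre Z(S) is contained in the commutator subgroup of S, and S has maximal nilpotency class (if S has order pⁿ with n ≥ 3, the term of index n − 2 of its lower central series, counting S itself as the term of index 0, is nontrivial). -/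
theorem result {Ω : Type*} [Group Ω] {S : Subgroup Ω} [Finite S] (p : ℕ) [Fact p.Prime] (hS : IsPGroup p S) (F : Cfsg.FusionSystem S) (hF : F.IsSaturated p) (hp : p ≠ 2) (hna : ¬ IsMulCommutative ↥S) (A : Subgroup Ω) (hA : A ≤ S ∧ IsMulCommutative ↥A ∧ (A.subgroupOf S).index = p) (huniq : ∀ B : Subgroup Ω, B ≤ S → IsMulCommutative ↥B → (B.subgroupOf S).index = p → B = A) (hcore : F.core = ⊥) (hAe : ¬ F.IsEssential p A) : (∃ x ∈ S, x ∉ A ∧ F.IsEssential p ((S ⊓ Subgroup.centralizer (S : Set Ω)) ⊔ Subgroup.zpowers x)) ∧ (S ⊓ Subgroup.centralizer (S : Set Ω)) ≤ (commutator ↥S).map S.subtype ∧ ∀ n : ℕ, Nat.card S = p ^ n → 3 ≤ n → Subgroup.lowerCentralSeries S (n - 2) ≠ ⊥ := by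
  have h := Agent.Fusion.UniqAb.UA.mk' hS hna hA huniq
  obtain ⟨P, x, hs, hB⟩ := h.exists_abelian_essential hF hcore hAe
  have hxS := h.xS hs
  have hZU := h.zS_le_uU hs hF hp hcore hAe hB
  have hsplit : P = Agent.Fusion.CenterSq.zS S ⊔ Subgroup.zpowers x := by
    refine le_antisymm (fun w hw => ?_) (sup_le (h.zS_le_P hs) (Subgroup.zpowers_le.mpr hs.xP))
    obtain ⟨b, hb, i, rfl⟩ := h.P_decomp hs hw
    rw [hB] at hb
    exact mul_mem (Subgroup.mem_sup_left hb) (pow_mem (Subgroup.mem_sup_right (Subgroup.mem_zpowers x)) i)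
  refine ⟨⟨x, hxS, hs.xA, ?_⟩, hZU.trans inf_le_right, fun n hn hn3 => ?_⟩
  · show F.IsEssential p (Agent.Fusion.CenterSq.zS S ⊔ Subgroup.zpowers x)
    rw [← hsplit]; exact hs.ess
  · have hZc : Nat.card (Agent.Fusion.CenterSq.zS S) = p := by
      rw [show Agent.Fusion.CenterSq.zS S = Agent.Fusion.UniqAb.uU S from le_antisymm hZU inf_le_left]
      exact h.card_uU hs hF
    have hm : Nat.card S = p ^ (n - 1) * Nat.card (Agent.Fusion.CenterSq.zS S) := by
      rw [hZc, ← pow_succ, hn]; congr 1; omega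
    obtain ⟨B, -, hBl, hBc⟩ := h.lcs_large hs hF hm (n - 2) (by omega)
    intro e
    rw [e, le_bot_iff] at hBl
    rw [hBl, Subgroup.card_bot, show n - 1 - (n - 2) = 1 by omega, pow_one] at hBc
    have := (Fact.out : p.Prime).two_le
    omega

end Cfsg.Agent.S5244
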