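import Cfsg.Statements.S5245
import Cfsg.Agent.Fusion.AutSystem
import Cfsg.Agent.Fusion.Series
import Cfsg.Agent.Fusion.HypFocal

set_option autoImplicit false
open Cfsg Cfsg.FusionSystem Cfsg.Agent Cfsg.Agent.Fusion

namespace Cfsg.Agent.S5245

/-- Let F be an extremely sparse fusion system over a finite p-group S (saturated, not the inner system, and every saturated fusion system over any subgroup T of S contained in F is F itself or the inner system of T). Then S is normal in F, the focal and hyperfocal subgroups of F are both S, and Aut_F(S) is generated by the inner automorphisms of S together with a single automorphism of prime order q ≠ p (F is the fusion system of the semidirect product of S by a cyclic group of prime order). -/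
theorem result {Ω : Type*} [Group Ω] {S : Subgroup Ω} [Finite S] (p : ℕ) [Fact p.Prime] (hS : IsPGroup p S) (F : Cfsg.FusionSystem S) (hF : F.IsSaturated p) (hxs : ¬ (∀ P : Subgroup Ω, F.Hom P = (Cfsg.innerFusionSystem S).Hom P) ∧ ∀ (T : Subgroup Ω) (E : Cfsg.FusionSystem T), E.IsSaturated p → E.IsSubsystemOf F → (T = S ∧ ∀ P : Subgroup Ω, E.Hom P = F.Hom P) ∨ (∀ P : Subgroup Ω, E.Hom P = (Cfsg.innerFusionSystem T).Hom P)) : F.IsNormal S ∧ F.focalSubgroup = S ∧ F.hyperfocalSubgroup p = S ∧ ∃ (q : ℕ) (β : MulAut ↥S), q.Prime ∧ q ≠ p ∧ β ∈ F.autGroup S ∧ orderOf β = q ∧ (F.autGroup S : Subgroup (MulAut ↥S)) = Cfsg.Inn ↥S ⊔ Subgroup.zpowers β := by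
  classical
  obtain ⟨hne, hsub⟩ := hxs
  have hcz : ∀ {R : Subgroup Ω} (α : MulAut R), (orderOf α).Coprime p →
      (Nat.card (Subgroup.zpowers α)).Coprime p := fun α h => by rwa [Nat.card_zpowers]
  -- a nontrivial automorphism of order prime to `p` lives on `S` and generates the system
  have key : ∀ R, R ≤ S → ∀ α ∈ F.autGroup R, (orderOf α).Coprime p → α ≠ 1 →
      R = S ∧ ∀ P, (autSystem R (Subgroup.zpowers α)).Hom P = F.Hom P := by
    intro R hR α hα hc hα1
    haveI := finite_of_le hR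
    rcases hsub R _ (autSystem_saturated (hS.to_le hR) (hcz α hc))
      (autSystem_le hR (Subgroup.zpowers_le.mpr hα)) with h | h
    · exact h
    · exact absurd (eq_one_of_mem_inn (hS.to_le hR) (autSystem_mem_inn h (Subgroup.mem_zpowers α)) hc) hα1
  have hprime : ∀ R, R ≤ S → ¬ IsPGroup p (F.autGroup R) →
      ∃ (q : ℕ) (α : MulAut R), q.Prime ∧ q ≠ p ∧ α ∈ F.autGroup R ∧ orderOf α = q := by
    intro R hR hnp
    haveI := finite_of_le hR
    haveI := finite_mulAut (G := R)
    by_contra hcon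
    push Not at hcon
    apply hnp
    refine IsPGroup.of_card (n := (Nat.card (F.autGroup R)).primeFactorsList.length) ?_
    refine Nat.eq_prime_pow_of_unique_prime_dvd Nat.card_pos.ne' fun {d} hd hdvd => ?_
    haveI := Fact.mk hd
    obtain ⟨a, ha⟩ := exists_prime_orderOf_dvd_card' (G := F.autGroup R) d hdvd
    by_contra hdp
    exact hcon d a hd hdp a.2 (by rw [Subgroup.orderOf_coe, ha])
  have hcop : ∀ {q : ℕ}, q.Prime → q ≠ p → q.Coprime p := fun hq hqp =>
    (Nat.coprime_primes hq Fact.out).mpr hqp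
  have hlt : ∀ R, R ≤ S → R ≠ S → IsPGroup p (F.autGroup R) := by
    intro R hR hRS
    by_contra hnp
    obtain ⟨q, α, hq, hqp, hα, ho⟩ := hprime R hR hnp
    exact hRS (key R hR α hα (ho ▸ hcop hq hqp) fun e => hq.ne_one (by rw [← ho, e, orderOf_one])).1
  have hnorm : F.IsNormal S := isNormal_self_of_no_essential hS hF fun P hP =>
    not_essential_of_normal_pGroup hS hF hP ⊤ inferInstance
      ((hlt P hP.1.1 (essential_lt hS hF hP).ne).of_equiv Subgroup.topEquiv.symm) le_top
  obtain ⟨q, α, hq, hqp, hα, ho⟩ : ∃ (q : ℕ) (α : MulAut S),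
      q.Prime ∧ q ≠ p ∧ α ∈ F.autGroup S ∧ orderOf α = q := by
    refine hprime S le_rfl fun hp' => hne fun P => ?_
    rw [eq_inner_of_isPGroup hS hF fun R hR => if h : R = S then h ▸ hp' else hlt R hR h]
  have hc : (orderOf α).Coprime p := ho ▸ hcop hq hqp
  have hα1 : α ≠ 1 := fun e => hq.ne_one (by rw [← ho, e, orderOf_one])
  obtain ⟨f, hf, ef⟩ := (mem_autGroup_iff le_rfl).mp hα
  have hiter : ∀ n : ℕ, ∀ x : S, f^[n] x = (((α ^ n) x : S) : Ω) := fun n x => by
    have h1 := equiv_pow_apply hf n x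
    rw [show (hf.equiv : MulAut S) = α from MulEquiv.ext fun z => Subtype.ext (ef z)] at h1
    exact h1.symm
  have hgen : ∀ x : S, ((x⁻¹ * α x : S) : Ω) ∈ F.hyperfocalSubgroup p := fun x => by
    have h1 := mem_hyperfocal_gen hf hc (fun y hy => by
      rw [hiter _ ⟨y, hy⟩, pow_orderOf_eq_one]; rfl) x.2
    rwa [ef] at h1
  -- the commutator `[S, α]`
  set C : Subgroup S := Subgroup.closure {y | ∃ x : S, y = x⁻¹ * α x} with hC
  set T : Subgroup Ω := C.map S.subtype with hT
  have hTh : T ≤ F.hyperfocalSubgroup p := by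
    rw [hT, Subgroup.map_le_iff_le_comap, hC, Subgroup.closure_le]
    rintro _ ⟨x, rfl⟩
    exact hgen x
  have hTS : T ≤ S := Subgroup.map_subtype_le _
  have hTfull : T = S := by
    by_contra hTne
    haveI := finite_of_le hTS
    have hCi : C ≤ C.comap α.toMonoidHom := (Subgroup.closure_le _).mpr (by
      rintro _ ⟨x, rfl⟩
      exact Subgroup.subset_closure ⟨α x, by simp⟩)
    have hfT : Iso F f T T := (hf.mor.restrict hTS).iso_of_card (fun y hy => by
      obtain ⟨x, hx, rfl⟩ := hy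
      exact ⟨α x, hCi hx, (ef x).symm⟩) le_rfl
    set β : MulAut T := hfT.equiv with hβ
    have hβq : β ^ orderOf α = 1 := MulEquiv.ext fun y => Subtype.ext (by
      rw [hβ, equiv_pow_apply hfT _ y]
      exact (hiter _ ⟨y, hTS y.2⟩).trans (by rw [pow_orderOf_eq_one]; rfl))
    have hβ1 : β = 1 := by
      by_contra h
      exact hTne (key T hTS β hfT.equiv_mem_autGroup (hc.coprime_dvd_left (orderOf_dvd_of_pow_eq_one hβq)) h).1
    have hfix : ∀ c ∈ C, α c = c := fun c hcC => Subtype.ext (by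
      have h1 : ((β ⟨c, c, hcC, rfl⟩ : T) : Ω) = ((⟨c, c, hcC, rfl⟩ : T) : Ω) := by rw [hβ1]; rfl
      rw [← ef]
      exact h1)
    apply hα1
    refine MulEquiv.ext fun x => ?_
    have hpow : ∀ n : ℕ, (α ^ n) x = x * (x⁻¹ * α x) ^ n := fun n => by
      induction n with
      | zero => simp
      | succ n ih =>
        rw [pow_succ', MulAut.mul_apply, ih, map_mul, map_pow,
          hfix _ (Subgroup.subset_closure ⟨x, rfl⟩), pow_succ', ← mul_assoc, mul_inv_cancel_left]
    have h1 := hpow (orderOf α)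
    rw [pow_orderOf_eq_one, MulAut.one_apply, left_eq_mul] at h1
    obtain ⟨e, he⟩ := IsPGroup.iff_orderOf.mp hS (x⁻¹ * α x)
    have h2 : orderOf (x⁻¹ * α x) = 1 := Nat.eq_one_of_dvd_coprimes
      ((hc.pow_right e)) (orderOf_dvd_of_pow_eq_one h1) (dvd_of_eq he)
    rw [orderOf_eq_one_iff, inv_mul_eq_one] at h2
    exact h2.symm
  have hhyp : F.hyperfocalSubgroup p = S := le_antisymm hyperfocal_le (hTfull.ge.trans hTh)
  refine ⟨hnorm, le_antisymm ?_ (hhyp.ge.trans hyperfocal_le_focal), hhyp, q, α, hq, hqp, hα, ho, ?_⟩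
  · refine (Subgroup.closure_le _).mpr ?_
    rintro _ ⟨P, φ, x, hφ, rfl⟩
    exact S.mul_mem (S.inv_mem ((F.le_of_mem hφ).1 x.2)) ((F.le_of_mem hφ).2 x)
  refine le_antisymm (fun β hβ => ?_) (sup_le (inn_le_autGroup le_rfl) (Subgroup.zpowers_le.mpr hα))
  have h1 := (autGroup_set_eq le_rfl).mp hβ
  rw [← (key S le_rfl α hα hc hα1).2 S] at h1
  obtain ⟨hP', g, hg, eg⟩ := mem_autSystem.mp h1
  have hbg : β = g := MulEquiv.ext fun x => Subtype.ext (eg x)
  rw [hbg]
  exact hg

end Cfsg.Agent.S5245
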