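import Cfsg.Statements.S5253
import Cfsg.Agent.FusionZJ.FunctorControl
-- import your own Cfsg.Agent.* helpers here

set_option autoImplicit false
universe u
open Cfsg Cfsg.FusionSystem Cfsg.Agent Cfsg.Agent.Fusion Cfsg.Agent.FusionZJ

namespace Cfsg.Agent.S5253

/-- Let p be a prime and W a positive characteristic p-functor with Z(Q) ≤ W(Q): W assigns to every finite p-group Q (in a fixed universe) a subgroup W(Q), nontrivial when Q is, carried to W(R) by every isomorphism Q ≅ R, and containing the centre of Q. Suppose that for every finite group G with Sylow p-subgroup P in which W(P) is not normal there is g ∈ P outside O_p(G) with [Z(O_p(G)), g, g] = 1. Then for every saturated fusion system F over a finite p-group S and every normalizer fusion system N of W(S) in F, every p-th power of an element of Z(S) that lies in the centre of N lies in the centre of F. -/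
theorem result {p : ℕ} [Fact p.Prime] (W : ∀ (Q : Type u) [Group Q], Subgroup Q) (hW1 : ∀ (Q : Type u) [Group Q] [Finite Q], IsPGroup p Q → Nontrivial Q → W Q ≠ ⊥) (hW2 : ∀ (Q R : Type u) [Group Q] [Group R] [Finite Q], IsPGroup p Q → ∀ φ : Q ≃* R, (W Q).map φ.toMonoidHom = W R) (hWZ : ∀ (Q : Type u) [Group Q] [Finite Q], IsPGroup p Q → Subgroup.center Q ≤ W Q) (hq : ∀ (G : Type u) [Group G] [Finite G] (P : Sylow p G), ¬ (((W ↥(P : Subgroup G)).map (P : Subgroup G).subtype : Subgroup G)).Normal → ∃ g : G, g ∈ (P : Subgroup G) ∧ g ∉ Cfsg.pCore p G ∧ ⁅⁅Subgroup.center ↥(Cfsg.pCore p G) |>.map (Cfsg.pCore p G).subtype, Subgroup.zpowers g⁆, Subgroup.zpowers g⁆ = ⊥) {Ω : Type u} [Group Ω] {S : Subgroup Ω} [Finite S] (hS : IsPGroup p S) (F : Cfsg.FusionSystem S) (hF : F.IsSaturated p) (N : Cfsg.FusionSystem (Cfsg.FusionSystem.normalizerIn S ((W ↥S).map S.subtype))) (hN : F.IsNormalizerSystem ((W ↥S).map S.subtype) N) : Subgroup.closure ((fun z => z ^ p) '' ((S ⊓ Subgroup.centralizer (S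 : Set Ω) : Subgroup Ω) : Set Ω)) ⊓ N.center ≤ F.center := by
  have hroot : ∀ y ∈ Subgroup.closure ((fun z => z ^ p) ''
      ((S ⊓ Subgroup.centralizer (S : Set Ω) : Subgroup Ω) : Set Ω)),
      ∃ z ∈ S ⊓ Subgroup.centralizer (S : Set Ω), y = z ^ p := by
    intro y hy
    induction hy using Subgroup.closure_induction with
    | mem y hy => obtain ⟨z, hz, rfl⟩ := hy; exact ⟨z, hz, rfl⟩
    | one => exact ⟨1, Subgroup.one_mem _, (one_pow p).symm⟩
    | mul a b _ _ iha ihb =>
      obtain ⟨c, hc, rfl⟩ := iha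
      obtain ⟨d, hd, rfl⟩ := ihb
      exact ⟨c * d, Subgroup.mul_mem _ hc hd,
        (Commute.mul_pow (hd.2 c hc.1 : Commute c d) p).symm⟩
    | inv a _ iha =>
      obtain ⟨c, hc, rfl⟩ := iha
      exact ⟨c⁻¹, Subgroup.inv_mem _ hc, (inv_pow c p).symm⟩
  refine mem_center_of_fixed_powers hS hF
    (fun y hy => by
      obtain ⟨z, hz, rfl⟩ := hroot y hy.1
      exact S.pow_mem hz.1 p) fun y hy P f hf hyP => ?_
  obtain ⟨z, hz, rfl⟩ := hroot y hy.1
  exact fixed_of_group_condition hS hF hW2 hWZ p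
    (fun G _ _ T hc _ z hz hzc _ hfix => pow_fixed_of_quadratic W hW2 hq G T hc z hz hzc hfix)
    hz.1 (fun s hs => hz.2 s hs) (N := N) hN hy.2 P f hf hyP

end Cfsg.Agent.S5253
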