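import Cfsg.Statements.S5254
import Cfsg.Agent.Fusion.UniqueAbelianMain

set_option autoImplicit false
open Cfsg Cfsg.Agent.Fusion Cfsg.FusionSystem

namespace Cfsg.Agent.S5254

/-- Let p be an odd prime, S a finite nonabelian p-group with a unique abelian subgroup A of index p, and F a saturated fusion system over S. Then every F-essential subgroup P is A, or Z(S)⟨x⟩ for some x ∈ S outside A, or (when the second centre Z₂(S) lies in A) Z₂(S)⟨x⟩ for some x ∈ S outside A; and P has index p in its normalizer in S. -/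
theorem result {Ω : Type*} [Group Ω] {S : Subgroup Ω} [Finite S] (p : ℕ) [Fact p.Prime] (hS : IsPGroup p S) (F : Cfsg.FusionSystem S) (hF : F.IsSaturated p) (hp : p ≠ 2) (hna : ¬ IsMulCommutative ↥S) (A : Subgroup Ω) (hA : A ≤ S ∧ IsMulCommutative ↥A ∧ (A.subgroupOf S).index = p) (huniq : ∀ B : Subgroup Ω, B ≤ S → IsMulCommutative ↥B → (B.subgroupOf S).index = p → B = A) (P : Subgroup Ω) (hP : F.IsEssential p P) : (P = A ∨ (∃ x ∈ S, x ∉ A ∧ P = (S ⊓ Subgroup.centralizer (S : Set Ω)) ⊔ Subgroup.zpowers x) ∨ (((upperCentralSeries ↥S 2).map S.subtype) ≤ A ∧ ∃ x ∈ S, x ∉ A ∧ P = ((upperCentralSeries ↥S 2).map S.subtype) ⊔ Subgroup.zpowers x)) ∧ (P.subgroupOf (S ⊓ Subgroup.normalizer (P : Set Ω))).index = p := by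
  have h := Agent.Fusion.UniqAb.UA.mk' hS hna hA huniq
  by_cases hPA : P = A
  · refine ⟨Or.inl hPA, ?_⟩
    subst hPA
    have e : S ⊓ Subgroup.normalizer (P : Set Ω) = S := inf_eq_left.mpr fun g hg =>
      Subgroup.mem_normalizer_iff.mpr fun a => ⟨fun ha => h.normal hg ha, fun ha => by
        have := h.normal (S.inv_mem hg) ha
        simpa [Agent.Fusion.cj, mul_assoc] using this⟩
    rw [e]; exact hA.2.2
  · obtain ⟨x, hs⟩ := h.exists_shape hF hP hPA
    refine ⟨Or.inr ?_, h.index_normalizer hs hF⟩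
    rcases h.shape_cases hs hF with e | ⟨hz, e⟩
    · exact Or.inl ⟨x, h.xS hs, hs.xA, e⟩
    · exact Or.inr ⟨hz, x, h.xS hs, hs.xA, e⟩

end Cfsg.Agent.S5254
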