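import Cfsg.Statements.S5257
import Cfsg.Agent.Fusion.UniqueAbelianMain

set_option autoImplicit false
open Cfsg Cfsg.Agent.Fusion Cfsg.FusionSystem

namespace Cfsg.Agent.S5257

/-- Let p be an odd prime, S a finite nonabelian p-group with a unique abelian subgroup A of index p, and F a saturated fusion system over S having an F-essential subgroup other than A. Then the second centre Z₂(S) lies in A; Z(S) ∩ [S, S] has order p; Z(S)[S, S] has index p in A; Z(S) has index p in Z₂(S); and S/Z(S) has maximal nilpotency class (if S/Z(S) has order pᵐ with m ≥ 3 then the term of index m − 2 of the lower central series of S, counting S as index 0, is not contained in Z(S)). -/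
theorem result {Ω : Type*} [Group Ω] {S : Subgroup Ω} [Finite S] (p : ℕ) [Fact p.Prime] (hS : IsPGroup p S) (F : Cfsg.FusionSystem S) (hF : F.IsSaturated p) (hp : p ≠ 2) (hna : ¬ IsMulCommutative ↥S) (A : Subgroup Ω) (hA : A ≤ S ∧ IsMulCommutative ↥A ∧ (A.subgroupOf S).index = p) (huniq : ∀ B : Subgroup Ω, B ≤ S → IsMulCommutative ↥B → (B.subgroupOf S).index = p → B = A) (P : Subgroup Ω) (hP : F.IsEssential p P) (hPA : P ≠ A) : ((upperCentralSeries ↥S 2).map S.subtype) ≤ A ∧ Nat.card ↥((S ⊓ Subgroup.centralizer (S : Set Ω)) ⊓ ((commutator ↥S).map S.subtype)) = p ∧ (((S ⊓ Subgroup.centralizer (S : Set Ω)) ⊔ ((commutator ↥S).map S.subtype)).subgroupOf A).index = p ∧ (((S ⊓ Subgroup.centralizer (S : Set Ω))).subgroupOf ((upperCentralSeries ↥S 2).map S.subtype)).index = p ∧ ∀ m : ℕ, ((S ⊓ Subgroup.centralizer (S : Set Ω)).subgroupOf S).index = p ^ m → 3 ≤ m → ¬ Subgroup.lowerCentralSeries S (m - 2) ≤ (S ⊓ Subgroup.centralizer (S : Set Ω)) := by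
  have h := Agent.Fusion.UniqAb.UA.mk' hS hna hA huniq
  obtain ⟨x, hs⟩ := h.exists_shape hF hP hPA
  have hxS := h.xS hs
  have hD := h.commutator_eq hxS hs.xA
  have hZf : Finite (Agent.Fusion.CenterSq.zS S) := Agent.Fusion.finite_of_le Agent.Fusion.CenterSq.zS_le
  refine ⟨h.z2_le hs hF, ?_, ?_, ?_, fun m hm hm3 => ?_⟩
  · rw [hD]; exact h.card_inter hs hF
  · rw [hD]
    have h1 := Agent.Fusion.UniqAb.card_mul_rel (sup_le h.zS_le (h.dimg_le hxS A))
    have h2 := h.card_sup hs hF
    have hfin : Finite (Agent.Fusion.CenterSq.zS S ⊔ h.dimg hxS A : Subgroup Ω) :=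
      Agent.Fusion.finite_of_le ((sup_le h.zS_le (h.dimg_le hxS A)).trans hA.1)
    exact Nat.eq_of_mul_eq_mul_left Nat.card_pos (h1.trans h2.symm)
  · have h1 := Agent.Fusion.UniqAb.card_mul_rel (h.zS_le_z2 hs hF)
    rw [h.card_z2 hs hF, mul_comm p] at h1
    exact Nat.eq_of_mul_eq_mul_left Nat.card_pos h1
  · have h1 : Nat.card S = p ^ m * Nat.card (Agent.Fusion.CenterSq.zS S) := by
      have := Agent.Fusion.UniqAb.card_mul_rel (Agent.Fusion.CenterSq.zS_le (S := S))
      rw [Subgroup.relIndex, show ((Agent.Fusion.CenterSq.zS S).subgroupOf S).index = p ^ m from hm] at this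
      rw [← this, mul_comm]
    obtain ⟨B, hBD, hBl, hBc⟩ := h.lcs_large hs hF h1 (m - 2) (by omega)
    intro hle
    change Subgroup.lowerCentralSeries S (m - 2) ≤ Agent.Fusion.CenterSq.zS S at hle
    have hfin : Finite (Agent.Fusion.CenterSq.zS S ⊓ h.dimg hxS A : Subgroup Ω) :=
      Agent.Fusion.finite_of_le (inf_le_left.trans Agent.Fusion.CenterSq.zS_le)
    have h2 := hBc.trans ((Agent.Fusion.card_le_of_le (le_inf (hBl.trans hle) hBD)).trans (h.card_inter hs hF).le)
    rw [show m - (m - 2) = 2 by omega] at h2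
    have h3 := (Fact.out : p.Prime).two_le
    nlinarith

end Cfsg.Agent.S5257
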