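import Cfsg.Statements.S5271
import Cfsg.Agent.Fusion.WeakEmbedded

set_option autoImplicit false
open Cfsg

namespace Cfsg.Agent.S5271

/-- A nilpotency criterion for fusion systems. Let F be a saturated fusion system over a finite p-group S of order at least p². Call a subgroup Q of S weakly embedded in F when there is a subgroup P of S strongly closed in F such that both the product QP and the intersection Q ∩ P are strongly closed in F. Then F is the inner fusion system of S if and only if there is a subgroup D of S with 1 < D < S such that every subgroup of S of the same order as D is weakly embedded in F and, for every fully normalized subgroup H of S of that order, the normalizer fusion system of H in F is the inner fusion system of N_S(H). -/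
theorem result {Ω : Type*} [Group Ω] {S : Subgroup Ω} [Finite S] (p : ℕ) [Fact p.Prime] (hS : IsPGroup p ↥S) (F : Cfsg.FusionSystem S) (hF : F.IsSaturated p) (hcard : p ^ 2 ≤ Nat.card S) : (∀ P : Subgroup Ω, F.Hom P = (Cfsg.innerFusionSystem S).Hom P) ↔ ∃ D : Subgroup Ω, ⊥ < D ∧ D < S ∧ (∀ Q : Subgroup Ω, Q ≤ S → Nat.card ↥Q = Nat.card ↥D → ∃ P : Subgroup Ω, F.StronglyClosed P ∧ F.StronglyClosed (Q ⊔ P) ∧ F.StronglyClosed (Q ⊓ P)) ∧ (∀ H : Subgroup Ω, F.IsFullyNormalized H → Nat.card ↥H = Nat.card ↥D → ∀ N : Cfsg.FusionSystem (Cfsg.FusionSystem.normalizerIn S H), F.IsNormalizerSystem H N → ∀ P : Subgroup Ω, N.Hom P = (Cfsg.innerFusionSystem (Cfsg.FusionSystem.normalizerIn S H)).Hom P) := by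
  obtain ⟨b, hb⟩ := IsPGroup.iff_card.mp hS
  have hp1 : 1 < p := (Fact.out : p.Prime).one_lt
  have hb2 : 2 ≤ b := (Nat.pow_le_pow_iff_right hp1).mp (hb ▸ hcard)
  constructor
  · intro hI
    obtain ⟨D, -, hDS, hD⟩ := Agent.Fusion.exists_card_between (p := p) hS (bot_le : ⊥ ≤ S)
      (c := b - 1) (by rw [Subgroup.card_bot]; exact Nat.one_le_pow _ _ (by omega))
      (hb ▸ Nat.pow_le_pow_right hp1.le (Nat.sub_le _ _))
    haveI := Agent.Fusion.finite_of_le hDS
    have hDlt : Nat.card D < Nat.card S := by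
      rw [hD, hb]; exact Nat.pow_lt_pow_right hp1 (by omega)
    have hmul : ∀ Q : Subgroup Ω, Nat.card Q = Nat.card D → Nat.card Q * p = Nat.card S := fun Q h => by
      rw [h, hD, hb, ← pow_succ, Nat.sub_add_cancel (by omega)]
    refine ⟨D, bot_lt_iff_ne_bot.mpr fun e => ?_, lt_of_le_of_ne hDS fun e => ?_, fun Q hQS hQ => ?_,
      fun H hH hHc N hN => ?_⟩
    · subst e
      rw [Subgroup.card_bot] at hD
      exact absurd ((Nat.pow_eq_one.mp hD.symm).resolve_left (by omega)) (by omega)
    · subst e; omega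
    · have h := (Agent.Fusion.inner_stronglyClosed_of_index hS hI hQS (hmul Q hQ)).1
      exact ⟨⊥, Agent.Fusion.stronglyClosed_bot F, by rwa [sup_bot_eq],
        by rw [inf_bot_eq]; exact Agent.Fusion.stronglyClosed_bot F⟩
    · exact Agent.Fusion.normalizerSystem_inner
        (Agent.Fusion.inner_stronglyClosed_of_index hS hI hH.1 (hmul H hHc)).2 hI hN
  · rintro ⟨D, -, hDS, hw, hn⟩
    haveI := Agent.Fusion.finite_of_le hDS.le
    obtain ⟨c, hc⟩ := IsPGroup.iff_card.mp (hS.to_le hDS.le)
    have hlt : p ^ c < Nat.card S := hc ▸ Agent.Fusion.card_lt_of_lt hDS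
    have h := Agent.Fusion.hyperfocal_eq_bot_of_weaklyEmbedded hS hF hlt
      (fun Q hQ hQc => hw Q hQ (hQc.trans hc.symm))
      (fun H hH hHc N hN => hn H hH (hHc.trans hc.symm) N hN)
    rw [Agent.Fusion.eq_inner_of_hyperfocal_le_frattini hS hF (h ▸ bot_le)]
    exact fun P => rfl

end Cfsg.Agent.S5271
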