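import Cfsg.Statements.S5274
import Cfsg.Agent.Fusion.NormalMore

set_option autoImplicit false
open Cfsg

namespace Cfsg.Agent.S5274

open Cfsg.Agent.Fusion Cfsg.FusionSystem
open scoped commutatorElement

variable {Ω : Type*} [Group Ω] {S : Subgroup Ω} {F : FusionSystem S}

/-- If every element is conjugate into the centre, conjugation in `S` acts trivially on each cyclic
subgroup it normalizes. -/
theorem cyclic_fixed [Finite S] (hS : IsPGroup 2 ↥S) (hF : F.IsSaturated 2)
    (h : ∀ x ∈ S, ∃ z ∈ S ⊓ Subgroup.centralizer (S : Set Ω), F.IsConjElt x z)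
    {r y : Ω} (hr : r ∈ S) (hy : y ∈ S) (hyr : y * r * y⁻¹ ∈ Subgroup.zpowers r) :
    y * r * y⁻¹ = r := by
  haveI : Fact (Nat.Prime 2) := ⟨Nat.prime_two⟩
  have hP : Subgroup.zpowers r ≤ S := Subgroup.zpowers_le.2 hr
  obtain ⟨z, ⟨hzS, hzc⟩, φ, hφ, hφz⟩ := h r hr
  obtain ⟨Q, hPQ, ⟨hQS, R, hR⟩, hrec⟩ := hF (Subgroup.zpowers r) hP
  obtain ⟨f, hfmem, hfQ⟩ := hPQ
  have hf : Fusion.Iso F (extFun f) (Subgroup.zpowers r) Q := by
    refine ⟨mor_of_mem hfmem, fun x hx => ?_, (mor_of_mem hfmem).injOn, fun q hq => ?_⟩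
    · rw [extFun_apply f hx, ← hfQ]; exact ⟨_, rfl⟩
    · rw [← hfQ] at hq
      obtain ⟨x, rfl⟩ := hq
      exact ⟨x, x.2, extFun_coe f x⟩
  obtain ⟨g, hg, hgf, hfg⟩ := hf.exists_symm
  -- `Q` is conjugate to a central subgroup, hence central by receptivity
  have hr' : r ∈ Subgroup.zpowers r := Subgroup.mem_zpowers r
  have hφz' : extFun φ r = z := by rw [extFun_apply φ hr', hφz]
  have hk : Fusion.Iso F (extFun φ) (Subgroup.zpowers r) (Subgroup.zpowers z) := by
    have hm := (mor_of_mem hφ)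
    refine ⟨hm, fun x hx => ?_, hm.injOn, fun q hq => ?_⟩
    · obtain ⟨n, rfl⟩ := hx
      show extFun φ (r ^ n) ∈ _
      have hn : r ^ n = ((⟨r, hr'⟩ ^ n : ↥(Subgroup.zpowers r)) : Ω) := rfl
      rw [hn, extFun_coe, map_zpow, hφz]
      exact ⟨n, rfl⟩
    · obtain ⟨n, rfl⟩ := hq
      refine ⟨((⟨r, hr'⟩ ^ n : ↥(Subgroup.zpowers r)) : Ω), Subtype.mem _, ?_⟩
      rw [extFun_coe, map_zpow, hφz]
  obtain ⟨k, hk', hkf, hfk⟩ := hk.exists_symm
  have hzQ : Fusion.Iso F (extFun f ∘ k) (Subgroup.zpowers z) Q := hk'.comp hf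
  have hrange : hzQ.mor.hom.range = Q := by
    ext q
    constructor
    · rintro ⟨x, rfl⟩; exact hzQ.mapsTo x.2
    · intro hq
      obtain ⟨x, hx, rfl⟩ := hzQ.surj hq
      exact ⟨⟨x, hx⟩, rfl⟩
  obtain ⟨ψ, hψ, hψe⟩ := hrec.2 _ _ hzQ.mor.hom_mem hrange
  have hzcomm : ∀ x ∈ Subgroup.zpowers z, ∀ s ∈ S, s * x = x * s := by
    intro x hx s hs
    obtain ⟨n, rfl⟩ := hx
    exact (Commute.zpow_right (show Commute s z from hzc s hs) n).eq
  have hSext : S ≤ extender S (Subgroup.zpowers z) hzQ.mor.hom := by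
    intro s hs
    refine Subgroup.subset_closure ⟨hs, ?_, 1, S.one_mem, fun x hx => ?_⟩
    · refine Subgroup.mem_normalizer_iff.2 fun x => ⟨fun hx => ?_, fun hx => ?_⟩
      · rwa [hzcomm x hx s hs, mul_inv_cancel_right]
      · have := hzcomm _ hx s hs
        rw [show s * (s * x * s⁻¹) = s * x * s⁻¹ * s ↔ s * x * s⁻¹ = x from
          ⟨fun e => mul_left_cancel (e.trans (inv_mul_cancel_right _ _)),
            fun e => by rw [e, ← inv_mul_cancel_right (s * x) s, e]⟩] at this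
        rwa [this] at hx
    · rw [one_mul, inv_one, mul_one]
      congr 1
      exact Subtype.ext (show s * (x : Ω) * s⁻¹ = x by rw [hzcomm x x.2 s hs, mul_inv_cancel_right])
  have hQc : ∀ q ∈ Q, ∀ s ∈ S, s * q = q * s := by
    let Ψ : ↥S →* ↥S :=
      (ψ.comp (Subgroup.inclusion hSext)).codRestrict S fun x => (F.le_of_mem hψ).2 _
    have hinj : Function.Injective Ψ := fun a b hab => by
      have := F.injective_of_mem hψ (congrArg Subtype.val hab)
      exact Subgroup.inclusion_injective _ this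
    intro q hq s hs
    obtain ⟨x, hx, rfl⟩ := hzQ.surj hq
    obtain ⟨s', hs'⟩ := (Finite.surjective_of_injective hinj) ⟨s, hs⟩
    have hxS : x ∈ S := (Subgroup.zpowers_le.2 hzS) hx
    have e1 : Ψ ⟨x, hxS⟩ = ⟨(extFun f ∘ k) x, hzQ.mor.map_mem hx⟩ :=
      Subtype.ext (hψe x hx (hSext hxS))
    have e2 : s' * ⟨x, hxS⟩ = ⟨x, hxS⟩ * s' := Subtype.ext (hzcomm x hx s' s'.2)
    have e3 := congrArg Ψ e2
    rw [map_mul, map_mul, hs', e1] at e3
    exact congrArg Subtype.val e3
  -- hence `Aut_F(Q)` has odd order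
  have haut : autInducedBy S Q = ⊥ := by
    rw [autInducedBy, Subgroup.closure_eq_bot_iff]
    rintro α ⟨s, hs, e⟩
    refine MulEquiv.ext fun x => Subtype.ext ?_
    rw [e x, hQc x x.2 s hs, mul_inv_cancel_right]
    rfl
  have hodd : ¬ 2 ∣ Nat.card (F.autGroup Q) := by
    intro hd
    haveI : Finite ↥Q := finite_of_le hQS
    have h1 := R.card_eq_multiplicity
    rw [hR, haut, Subgroup.bot_subgroupOf, Subgroup.card_bot] at h1
    have h2 : 0 < (Nat.card (F.autGroup Q)).factorization 2 :=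
      Nat.Prime.factorization_pos_of_dvd Nat.prime_two Nat.card_pos.ne' hd
    exact absurd h1.symm (Nat.one_lt_pow h2.ne' one_lt_two).ne'
  -- transport the conjugation to `Q`
  have hn : y ∈ Subgroup.normalizer (Subgroup.zpowers r : Set Ω) := by
    haveI : Finite ↥(Subgroup.zpowers r) := finite_of_le hP
    refine Subgroup.mem_normalizer_fintype fun x hx => ?_
    obtain ⟨n, rfl⟩ := hx
    show y * r ^ n * y⁻¹ ∈ _
    rw [← conj_zpow]
    exact zpow_mem hyr n
  have hcy : Fusion.Iso F (cj y) (Subgroup.zpowers r) (Subgroup.zpowers r) :=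
    Iso.conj_self hP hy hn
  have hT : Fusion.Iso F (extFun f ∘ cj y ∘ g) Q Q := (hg.comp hcy).comp hf
  obtain ⟨j, hj⟩ := hS ⟨y, hy⟩
  have hyj : y ^ 2 ^ j = 1 := congrArg Subtype.val hj
  have hpow : ∀ n : ℕ, ∀ q : Q, ((hT.equiv ^ n : MulAut Q) q : Ω) = extFun f (cj (y ^ n) (g q)) := by
    intro n
    induction n with
    | zero => intro q; simp [hfg q q.2]
    | succ n ih =>
      intro q
      rw [pow_succ', pow_succ', MulAut.mul_apply, Iso.equiv_apply, ih]
      have hm : cj (y ^ n) (g q) ∈ Subgroup.zpowers r :=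
        (cj_mem_iff (pow_mem hn n) _).2 (hg.mapsTo q.2)
      show extFun f (cj y (g (extFun f (cj (y ^ n) (g q))))) = _
      rw [hgf _ hm, ← cj_mul]
  have htriv : hT.equiv = 1 := by
    haveI : Finite ↥Q := finite_of_le hQS
    have h1 : orderOf hT.equiv ∣ 2 ^ j := orderOf_dvd_of_pow_eq_one (MulEquiv.ext fun q =>
      Subtype.ext (by rw [hpow, hyj, cj_one, hfg q q.2]; rfl))
    have h2 : orderOf hT.equiv ∣ Nat.card (F.autGroup Q) :=
      Subgroup.orderOf_dvd_natCard _ hT.equiv_mem_autGroup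
    obtain ⟨i, -, hi⟩ := (Nat.dvd_prime_pow Nat.prime_two).1 h1
    rcases Nat.eq_zero_or_pos i with h0 | h0
    · rw [h0, pow_zero] at hi; exact orderOf_eq_one_iff.1 hi
    · exact absurd ((dvd_pow_self 2 h0.ne').trans (hi ▸ h2)) hodd
  have hfr : extFun f r ∈ Q := hf.mapsTo hr'
  have h3 : extFun f (cj y (g (extFun f r))) = extFun f r := by
    have := congrArg (fun α : MulAut Q => ((α ⟨_, hfr⟩ : Q) : Ω)) htriv
    simpa using this
  rw [hgf r hr'] at h3
  exact hf.bij.injOn hyr hr' h3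


/-- Let F be a saturated fusion system over a finite 2-group S. Suppose that every element of S is F-conjugate to an element of the centre Z(S) (some map of F defined on the cyclic subgroup it generates sends it into Z(S)). Then S is abelian. -/
theorem result {Ω : Type*} [Group Ω] {S : Subgroup Ω} [Finite S] (hS : IsPGroup 2 ↥S) (F : Cfsg.FusionSystem S) (hF : F.IsSaturated 2) (h : ∀ x ∈ S, ∃ z ∈ S ⊓ Subgroup.centralizer (S : Set Ω), F.IsConjElt x z) : IsMulCommutative ↥S := by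
  haveI : Fact (Nat.Prime 2) := ⟨Nat.prime_two⟩
  -- by induction on `i`, elements of exponent `2 ^ i` are central
  suffices key : ∀ i : ℕ, ∀ x ∈ S, x ^ 2 ^ i = 1 → ∀ y ∈ S, y * x = x * y by
    refine ⟨⟨fun a b => Subtype.ext ?_⟩⟩
    obtain ⟨j, hj⟩ := hS b
    exact key j b b.2 (congrArg Subtype.val hj) a a.2
  intro i
  induction i with
  | zero => intro x _ hx y _; simp at hx; simp [hx]
  | succ i ih =>
    have hsq : ∀ x ∈ S, x ^ 2 ^ (i + 1) = 1 → ∀ y ∈ S, y * (x * x) = (x * x) * y := by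
      intro x hx hx1 y hy
      refine ih _ (mul_mem hx hx) ?_ y hy
      rw [← pow_two, ← pow_mul, ← pow_succ']
      exact hx1
    -- the commutator of two such elements
    have hw : ∀ x ∈ S, x ^ 2 ^ (i + 1) = 1 → ∀ y ∈ S, y ^ 2 ^ (i + 1) = 1 →
        (x⁻¹ * y * x * y⁻¹) ^ 2 = 1 ∧ (x⁻¹ * y * x * y⁻¹) ^ 2 ^ i = 1 := by
      intro x hx hx1 y hy hy1
      set w := x⁻¹ * y * x * y⁻¹ with hwdef
      have hwS : w ∈ S := mul_mem (mul_mem (mul_mem (inv_mem hx) hy) hx) (inv_mem hy)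
      have hinv : x * w * x⁻¹ = w⁻¹ := by
        have h1 := hsq x hx hx1 y hy
        calc x * w * x⁻¹ = y * x * y⁻¹ * x⁻¹ := by rw [hwdef]; group
          _ = y * x⁻¹ * (x * x) * y⁻¹ * x⁻¹ := by group
          _ = y * x⁻¹ * (y⁻¹ * y) * (x * x) * y⁻¹ * x⁻¹ := by group
          _ = y * x⁻¹ * y⁻¹ * (y * (x * x)) * y⁻¹ * x⁻¹ := by group
          _ = y * x⁻¹ * y⁻¹ * ((x * x) * y) * y⁻¹ * x⁻¹ := by rw [h1]
          _ = w⁻¹ := by rw [hwdef]; group
      have hw2 : w ^ 2 = 1 := by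
        have := cyclic_fixed hS hF h hwS hx (by rw [hinv]; exact inv_mem (Subgroup.mem_zpowers w))
        rw [hinv] at this
        rw [pow_two]
        nth_rw 2 [← this]
        exact mul_inv_cancel w
      refine ⟨hw2, ?_⟩
      rcases Nat.eq_zero_or_pos i with rfl | hi
      · -- two involutions
        simp only [zero_add, pow_one] at hx1 hy1
        have hxi : x⁻¹ = x := inv_eq_of_mul_eq_one_right (by rw [← pow_two, hx1])
        have hyi : y⁻¹ = y := inv_eq_of_mul_eq_one_right (by rw [← pow_two, hy1])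
        have hr : x * (x * y) * x⁻¹ = (x * y)⁻¹ := by
          rw [mul_inv_rev, hxi, hyi, ← mul_assoc x x y, ← pow_two, hx1, one_mul]
        have := cyclic_fixed hS hF h (mul_mem hx hy) hx
          (by rw [hr]; exact inv_mem (Subgroup.mem_zpowers _))
        rw [hr] at this
        rw [pow_zero, pow_one, hwdef, hxi, hyi, mul_assoc (x * y)]
        nth_rw 1 [← this]
        exact inv_mul_cancel _
      · obtain ⟨i', rfl⟩ := Nat.exists_eq_succ_of_ne_zero hi.ne'
        rw [pow_succ', pow_mul, hw2, one_pow]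
    have hwc : ∀ x ∈ S, x ^ 2 ^ (i + 1) = 1 → ∀ y ∈ S, y ^ 2 ^ (i + 1) = 1 →
        ∀ s ∈ S, s * (x⁻¹ * y * x * y⁻¹) = (x⁻¹ * y * x * y⁻¹) * s := fun x hx hx1 y hy hy1 =>
      ih _ (mul_mem (mul_mem (mul_mem (inv_mem hx) hy) hx) (inv_mem hy)) (hw x hx hx1 y hy hy1).2
    let T : Subgroup Ω :=
      { carrier := {x | x ∈ S ∧ x ^ 2 ^ (i + 1) = 1}
        one_mem' := ⟨one_mem S, one_pow _⟩
        inv_mem' := fun {x} hx => ⟨inv_mem hx.1, by rw [inv_pow, hx.2, inv_one]⟩
        mul_mem' := fun {x y} hx hy => by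
          refine ⟨mul_mem hx.1 hy.1, ?_⟩
          obtain ⟨-, hw2⟩ := hw x hx.1 hx.2 y hy.1 hy.2
          have hc := hwc x hx.1 hx.2 y hy.1 hy.2
          set w := x⁻¹ * y * x * y⁻¹ with hwdef
          have e : (x * y) ^ 2 = w * (x * x) * (y * y) := by
            calc (x * y) ^ 2 = x * (y * x) * y := by rw [pow_two]; group
              _ = x * (x * w * y) * y := by rw [hwdef]; group
              _ = (x * x * w) * (y * y) := by group
              _ = w * (x * x) * (y * y) := by rw [hc _ (mul_mem hx.1 hx.1)]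
          have c1 : Commute w (x * x) := (hc _ (mul_mem hx.1 hx.1)).symm
          have c2 : Commute (w * (x * x)) (y * y) :=
            Commute.mul_left (hc _ (mul_mem hy.1 hy.1)).symm
              (hsq y hy.1 hy.2 _ (mul_mem hx.1 hx.1))
          rw [pow_succ' 2 i, pow_mul, e, c2.mul_pow, c1.mul_pow, hw2, one_mul, ← pow_two, ← pow_two,
            ← pow_mul, ← pow_mul, ← pow_succ', hx.2, hy.2, one_mul] }
    let U : Subgroup Ω :=
      { carrier := {x | x ∈ S ∧ x ^ 2 = 1 ∧ x ^ 2 ^ i = 1}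
        one_mem' := ⟨one_mem S, one_pow _, one_pow _⟩
        inv_mem' := fun {x} hx => ⟨inv_mem hx.1, by rw [inv_pow, hx.2.1, inv_one],
          by rw [inv_pow, hx.2.2, inv_one]⟩
        mul_mem' := fun {x y} hx hy => by
          have hc : Commute x y := ih y hy.1 hy.2.2 x hx.1
          exact ⟨mul_mem hx.1 hy.1, by rw [hc.mul_pow, hx.2.1, hy.2.1, one_mul],
            by rw [hc.mul_pow, hx.2.2, hy.2.2, one_mul]⟩ }
    have hTsc : F.StronglyClosed T := stronglyClosed_of_mor (fun x hx => hx.1)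
      fun P f hf x hxP hx => ⟨hf.map_mem hxP, by rw [← hf.map_pow hxP, hx.2, hf.map_one]⟩
    have hUsc : F.StronglyClosed U := stronglyClosed_of_mor (fun x hx => hx.1)
      fun P f hf x hxP hx => ⟨hf.map_mem hxP, by rw [← hf.map_pow hxP, hx.2.1, hf.map_one],
        by rw [← hf.map_pow hxP, hx.2.2, hf.map_one]⟩
    have hUT : U ≤ T := fun x hx => ⟨hx.1, by rw [pow_succ, pow_mul, hx.2.2, one_pow]⟩
    have hN : F.IsNormal T := by
      refine isNormal_of_chain hS hF hTsc 2
        (fun j => if j = 0 then ⊥ else if j = 1 then U else T) rfl rfl ?_ ?_ ?_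
      · intro j hj
        interval_cases j
        · exact bot_le
        · exact hUT
      · intro j hj
        interval_cases j
        · exact weaklyClosed_of_stronglyClosed (stronglyClosed_bot F)
        · exact weaklyClosed_of_stronglyClosed hUsc
      · intro j hj x hx q hq
        interval_cases j
        · exact Subgroup.mem_bot.mpr (commutatorElement_eq_one_iff_mul_comm.mpr
            (ih x hx.1 hx.2.2 q hq.1).symm)
        · change ⁅x, q⁆ ∈ U
          have hxi : x⁻¹ ∈ T := T.inv_mem hx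
          obtain ⟨h2, h3⟩ := hw x⁻¹ hxi.1 hxi.2 q hq.1 hq.2
          have e : ⁅x, q⁆ = x⁻¹⁻¹ * q * x⁻¹ * q⁻¹ := by rw [inv_inv, commutatorElement_def]
          rw [e]
          exact ⟨mul_mem (mul_mem (mul_mem (inv_mem hxi.1) hq.1) hxi.1) (inv_mem hq.1), h2, h3⟩
    -- a normal subgroup is central
    intro x hx hx1 y hy
    obtain ⟨z, ⟨hzS, hzc⟩, φ, hφ, hφz⟩ := h y hy
    obtain ⟨g, hg, e, m⟩ := ExtStab.of_isNormal hN (mor_of_mem hφ)
    have hyP : y ∈ Subgroup.zpowers y ⊔ T := Subgroup.mem_sup_left (Subgroup.mem_zpowers y)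
    have hxP : x ∈ Subgroup.zpowers y ⊔ T := Subgroup.mem_sup_right ⟨hx, hx1⟩
    refine hg.injOn (mul_mem hyP hxP) (mul_mem hxP hyP) ?_
    rw [hg.map_mul hyP hxP, hg.map_mul hxP hyP, e y (Subgroup.mem_zpowers y),
      extFun_apply φ (Subgroup.mem_zpowers y), hφz]
    exact (hzc _ (hg.map_mem hxP)).symm

end Cfsg.Agent.S5274
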