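import Cfsg.Statements.S5276
import Cfsg.Agent.Fusion.TateMore

set_option autoImplicit false
open Cfsg Cfsg.Agent.Fusion Cfsg.FusionSystem

namespace Cfsg.Agent.S5276

/-- Let p be a prime and F a saturated fusion system over a finite p-group S. Then F is the inner fusion system of S if and only if the normalizer fusion system of S itself in F is the inner fusion system (equivalently, Aut_F(S) is induced by S) and the Frattini subgroup Φ(S) is strongly closed in F. -/
theorem result {Ω : Type*} [Group Ω] {S : Subgroup Ω} [Finite S] (p : ℕ) [Fact p.Prime] (hS : IsPGroup p ↥S) (F : Cfsg.FusionSystem S) (hF : F.IsSaturated p) : (∀ P : Subgroup Ω, F.Hom P = (Cfsg.innerFusionSystem S).Hom P) ↔ (∀ N : Cfsg.FusionSystem (Cfsg.FusionSystem.normalizerIn S S), F.IsNormalizerSystem S N → ∀ P : Subgroup Ω, N.Hom P = (Cfsg.innerFusionSystem (Cfsg.FusionSystem.normalizerIn S S)).Hom P) ∧ F.StronglyClosed ((frattini ↥S).map S.subtype) := by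
  have hchar : ∀ g ∈ S, ∀ x ∈ (frattini ↥S).map S.subtype, g * x * g⁻¹ ∈ (frattini ↥S).map S.subtype := by
    rintro g hg _ ⟨y, hy, rfl⟩
    exact ⟨⟨g, hg⟩ * y * ⟨g, hg⟩⁻¹,
      (inferInstance : (frattini ↥S).Normal).conj_mem y hy ⟨g, hg⟩, rfl⟩
  constructor
  · intro hI
    refine ⟨fun N hN P => normalizerSystem_inner Subgroup.le_normalizer hI hN P,
      Subgroup.map_subtype_le _, fun R hR φ hφ x => ?_⟩
    rw [hI R] at hφ
    obtain ⟨-, g, hg, eg⟩ := hφ
    rw [eg x]
    exact hchar g hg _ (hR x.2)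
  · rintro ⟨hN, hΦ⟩ P
    rw [eq_inner_of_hyperfocal_le_frattini hS hF (hyperfocal_le_of_abelian_quotient hS hF hΦ
      (fun x hx y hy => commutator_le_frattini_mem hS hx hy) (autGroup_self_le_inn_of_normalizer hN))]

end Cfsg.Agent.S5276
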