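import Cfsg.Statements.S5281
import Cfsg.Agent.Fusion.PStable
import Cfsg.Agent.FusionZJ.CenterControl
import Cfsg.Agent.FusionZJ.Extend

set_option autoImplicit false
open Cfsg Cfsg.FusionSystem Cfsg.Agent Cfsg.Agent.Fusion Cfsg.Agent.FusionZJ Cfsg.Agent.Fusion.PStable

namespace Cfsg.Agent.S5281

/-- Let p be an odd prime and F a saturated fusion system over a finite p-group S. Call a fusion system E (over any subgroup) p-stable when, for every fully E-normalized subgroup Q and every χ in Aut_E(Q) with χ(a⁻¹)·a·χ(a⁻¹)·χ(χ(a)) = 1 for all a in Q (χ acts quadratically), χ lies in O_p(Aut_E(Q)). Then F is p-stable if and only if the normalizer fusion system of R in F is p-stable for every fully F-normalized, F-centric, F-radical subgroup R of S. -/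
theorem result {Ω : Type*} [Group Ω] {S : Subgroup Ω} [Finite S] (p : ℕ) [Fact p.Prime] (hS : IsPGroup p ↥S) (F : Cfsg.FusionSystem S) (hF : F.IsSaturated p) (hp : p ≠ 2) : (∀ Q : Subgroup Ω, F.IsFullyNormalized Q → ∀ χ : MulAut ↥Q, χ ∈ F.autGroup Q → (∀ a : ↥Q, (χ a⁻¹) * a * (χ a⁻¹) * (χ (χ a)) = 1) → χ ∈ ((Cfsg.pCore p ↥(F.autGroup Q)).map (F.autGroup Q).subtype : Subgroup (MulAut ↥Q))) ↔ ∀ R : Subgroup Ω, F.IsFullyNormalized R → F.IsCentric R → F.IsRadical p R → ∀ N : Cfsg.FusionSystem (Cfsg.FusionSystem.normalizerIn S R), F.IsNormalizerSystem R N → (∀ Q : Subgroup Ω, N.IsFullyNormalized Q → ∀ χ : MulAut ↥Q, χ ∈ N.autGroup Q → (∀ a : ↥Q, (χ a⁻¹) * a * (χ a⁻¹) * (χ (χ a)) = 1) → χ ∈ ((Cfsg.pCore p ↥(N.autGroup Q)).map (N.autGroup Q).subtype : Subgroup (MulAut ↥Q))) := by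
  refine ⟨fun h R _ _ _ N hN Q hQ χ hχ hq => ?_, fun h Q hQ χ hχ hq => ?_⟩
  · have hle := normalizerSystem_autGroup_le hN hQ.1
    exact (inCore_of_fullyNormalized h (hQ.1.trans normalizerIn_le) (hle hχ) hq).mono hle hχ
  have key : ∀ (k : ℕ) (U : Subgroup Ω), Nat.card S - Nat.card U = k → F.IsCentric U →
      ∀ (Q : Subgroup Ω), Q ≤ U → (∀ f, Iso F f Q Q → ∃ g, Iso F g U U ∧ ∀ x ∈ Q, g x = f x) →
      ∀ χ : MulAut Q, χ ∈ F.autGroup Q → Quad χ → InCore F p Q χ := by
    intro k
    induction k using Nat.strong_induction_on with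
    | _ k IH =>
    intro U₀ hk hU₀ Q₀ hQU₀ hext₀ χ₀ hχ₀ hq₀
    obtain ⟨U, hconj, hUn⟩ := exists_fullyNormalized (F := F) hU₀.1
    obtain ⟨r, hr⟩ := Fusion.isConj_iff.mp hconj
    have hUc : F.IsCentric U := isCentric_conj hU₀ hconj
    have hcard := hr.card_eq
    obtain ⟨rinv, hrinv, hri1, -⟩ := hr.exists_symm
    set Q := (hr.mor.restrict hQU₀).img with hQdef
    have hrQ : Iso F r Q₀ Q := hr.restrict hQU₀
    have hQU : Q ≤ U := hr.restrict_img_le hQU₀
    have hext : ∀ f, Iso F f Q Q → ∃ g, Iso F g U U ∧ ∀ x ∈ Q, g x = f x := by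
      intro f hf
      obtain ⟨s, hs, hs1, hs2⟩ := hrQ.exists_symm
      obtain ⟨g, hg, eg⟩ := hext₀ _ ((hrQ.comp hf).comp hs)
      refine ⟨_, (hrinv.comp hg).comp hr, fun y hy => ?_⟩
      obtain ⟨x, hx, rfl⟩ := hrQ.surj hy
      simp only [Function.comp_apply]
      rw [hri1 x (hQU₀ hx), eg x hx, Function.comp_apply, Function.comp_apply,
        hs2 _ (hf.mapsTo (hrQ.mapsTo hx))]
    refine InCore.transport hrQ ?_
    have hχ := hrQ.transport_mem hχ₀
    have hq : Quad (hrQ.transport χ₀) := hq₀.map _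
    generalize hrQ.transport χ₀ = χ at hχ hq
    obtain ⟨E, L, _, ι, hE, hM, hle⟩ := exists_local_model hS hF hUn hUc
    haveI : Finite L := hM.1
    haveI : Finite ↥(normalizerIn S U) := finite_of_le normalizerIn_le
    obtain ⟨T, hT⟩ := hM.2.2.1
    have hOr : pCore p L ≤ ι.range := hT ▸ Core.pCore_le_sylow T
    have hOn : (pCore p L).Normal := inferInstance
    set W := ((pCore p L).comap ι).map (normalizerIn S U).subtype with hW
    have hWD : W ≤ normalizerIn S U := Subgroup.map_subtype_le _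
    have hUD : U ≤ normalizerIn S U := le_normalizerIn hUc.1
    have hmem : ∀ x (hx : x ∈ normalizerIn S U), x ∈ W ↔ ι ⟨x, hx⟩ ∈ pCore p L := fun x hx =>
      ⟨fun ⟨y, hy, e⟩ => by
        rw [show (⟨x, hx⟩ : ↥(normalizerIn S U)) = y from Subtype.ext e.symm]; exact hy,
        fun h => ⟨_, h, rfl⟩⟩
    have hUW : U ≤ W := fun x hx => (hmem x (hUD hx)).mpr (hle ⟨_, hx, rfl⟩)
    haveI := finite_of_le hUc.1
    by_cases hUWeq : W ≤ U
    · have hrad : F.IsRadical p U := by
        refine ⟨hUc.1, ?_⟩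
        rw [← Fusion.normalizerSystem_autGroup hUc.1 hE]
        let M : ModelData E p := ⟨U, Fact.out, inferInstance, hS.to_le normalizerIn_le,
          normalizerSystem_saturated hS hF hUn hE, Fusion.normalizerSystem_isNormal hUc.1 hE,
          Fusion.normalizerSystem_isCentric hE hUc⟩
        haveI := inn_normal_autGroup E U
        refine le_antisymm ?_ fun α hα =>
          ⟨⟨α, inn_le_autGroup hUD hα⟩, Core.le_pCore (inferInstance :
            ((Inn U).subgroupOf (E.autGroup U)).Normal) ?_ hα, rfl⟩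
        · haveI := finite_mulAut (G := U)
          haveI : Finite M.L := inferInstanceAs (Finite ↥(E.autGroup U))
          obtain ⟨θ, hθι, hθs, hθk, -⟩ := M.exists_θ hM
          rintro _ ⟨α, hα, rfl⟩
          obtain ⟨x, rfl⟩ := hθs α
          have hK : (pCore p M.L).comap θ ≤ pCore p L := by
            refine Core.le_pCore inferInstance
              (Core.ThompsonComplement.isPGroup_of_forall_coprime fun c hc hcp => ?_)
            have h1 : θ c = 1 := Core.ThompsonComplement.eq_one_of_mem (Core.isPGroup_pCore p M.L) hc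
              (hcp.coprime_dvd_left (orderOf_map_dvd θ c))
            obtain ⟨a, rfl⟩ := hθk c h1
            exact Core.ThompsonComplement.eq_one_of_mem (hT ▸ T.isPGroup' : IsPGroup p ι.range)
              ⟨_, rfl⟩ hcp
          obtain ⟨s, hs⟩ := hOr (hK hα)
          have hsU : (s : Ω) ∈ U := hUWeq ((hmem s s.2).mpr (hs ▸ hK hα))
          rw [← hs, hθι]
          exact ⟨⟨s, hsU⟩, MulEquiv.ext fun y => Subtype.ext rfl⟩
        · exact (((hS.to_le hUc.1).of_surjective _
            (MulAut.conj : U →* MulAut U).rangeRestrict_surjective)).comap_subtype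
      have hQD : Q ≤ normalizerIn S U := hQU.trans hUD
      have hQS : Q ≤ S := hQD.trans normalizerIn_le
      have hge : F.autGroup Q ≤ E.autGroup Q := fun α hα => by
        obtain ⟨f, hf, ef⟩ := (mem_autGroup_iff hQS).mp hα
        obtain ⟨g, hg, eg⟩ := hext f hf
        refine (mem_autGroup_iff hQD).mpr ⟨f, ⟨?_, hf.bij⟩, ef⟩
        exact mor_normalizerSystem hE (hg.mor.restrict (sup_le hQU le_rfl)) eg hg.bij.image_eq hQD
          fun x hx => hQD (hf.mapsTo hx)
      have hE' : InCore E p Q χ :=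
        inCore_of_fullyNormalized (fun Q' hQ' ψ hψ hψq => h U hUn hUc hrad E hE Q' hQ' ψ hψ hψq) hQD
          (hge hχ) hq
      exact hE'.mono hge hχ
    · have hlt : U < W := lt_of_le_not_ge hUW hUWeq
      have hWS : W ≤ S := hWD.trans normalizerIn_le
      haveI := finite_of_le hWS
      refine IH _ ?_ W rfl (isCentric_mono hUc hUW hWS) Q (hQU.trans hUW) (fun f hf => ?_) χ hχ hq
      · have h1 := card_lt_of_lt hlt
        have h2 := card_le_of_le hWS
        omega
      obtain ⟨g, hg, eg⟩ := hext f hf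
      obtain ⟨c, hc⟩ := model_lift hE hM hUc.1 hg
      obtain ⟨h', hh'E, hh', hh'ι⟩ := model_mor hE hM hWD c fun w =>
        hOr (hOn.conj_mem _ ((hmem _ (hWD w.2)).mp w.2) c)
      refine ⟨h', hh'.iso_of_card (fun w hw => ?_) le_rfl, fun x hx => ?_⟩
      · rw [hmem _ (hh'E.map_mem hw), hh'ι w hw]
        exact hOn.conj_mem _ ((hmem _ (hWD hw)).mp hw) c
      · have h1 := (hh'ι x (hUW (hQU hx)) (hh'E.map_mem (hUW (hQU hx)))).trans (hc x (hQU hx)).symm
        exact (congrArg Subtype.val (hM.2.1.1 h1)).trans (eg x hx)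
  obtain ⟨hfc, -, hrec⟩ := IsSaturated_fullyNormalized hS hF hQ
  set R₂ := Q ⊔ centralizerIn S Q with hR₂
  have hR₂S : R₂ ≤ S := sup_le hQ.1 centralizerIn_le
  refine key _ R₂ rfl (FusionZJ.isCentric_sup_centralizer (p := p) hfc) Q le_sup_left (fun f hf => ?_) χ hχ hq
  obtain ⟨g, hg, eg⟩ := (receptive_iff.mp hrec).2 Q f hf
  have hsub : R₂ ≤ nphi S Q f := sup_le hf.mor.le_nphi centralizerIn_le_nphi
  haveI := finite_of_le hR₂S
  exact ⟨g, (hg.restrict hsub).iso_of_card
    ((hg.restrict hsub).map_sup (fun y hy => Subgroup.mem_sup_left ((eg y hy).symm ▸ hf.mapsTo hy))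
      fun y hy => Subgroup.mem_sup_right
        (hf.map_centralizer hg hf.mor.le_nphi eg (centralizerIn_le_nphi hy) hy)) le_rfl, eg⟩

end Cfsg.Agent.S5281
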