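import Cfsg.Statements.S5284
import Cfsg.Agent.Fusion.SupersolSystem
import Cfsg.Agent.Fusion.Abelian
import Mathlib.GroupTheory.FiniteAbelian.Basic

set_option autoImplicit false
open Cfsg Cfsg.FusionSystem Cfsg.Agent Cfsg.Agent.Fusion

namespace Cfsg.Agent.S5284

/-- Two equal invariants split off. -/
theorem exists_split {ι : Type} [Fintype ι] {n : ι → ℕ} {q : ℕ} {k l : ι} (hkl : k ≠ l) (hk : n k = q)
    (hl : n l = q) : Nonempty ((∀ i, Multiplicative (ZMod (n i))) ≃*
      (Multiplicative (ZMod q) × Multiplicative (ZMod q)) ×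
        (∀ i : {i : ι // i ≠ k ∧ i ≠ l}, Multiplicative (ZMod (n i)))) := by
  classical
  let ek : Multiplicative (ZMod (n k)) ≃* Multiplicative (ZMod q) :=
    (ZMod.ringEquivCongr hk).toAddEquiv.toMultiplicative
  let el : Multiplicative (ZMod (n l)) ≃* Multiplicative (ZMod q) :=
    (ZMod.ringEquivCongr hl).toAddEquiv.toMultiplicative
  let φ : (∀ i, Multiplicative (ZMod (n i))) →* (Multiplicative (ZMod q) × Multiplicative (ZMod q)) ×
        (∀ i : {i : ι // i ≠ k ∧ i ≠ l}, Multiplicative (ZMod (n i))) :=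
    MonoidHom.mk' (fun f => ((ek (f k), el (f l)), fun i => f i.1)) fun f g => by
      simp only [Pi.mul_apply, map_mul]
      rfl
  refine ⟨MulEquiv.ofBijective φ ⟨fun f g h => funext fun i => ?_, fun y => ?_⟩⟩
  · rcases eq_or_ne i k with rfl | hik
    · exact ek.injective (congrArg (fun z => z.1.1) h)
    rcases eq_or_ne i l with rfl | hil
    · exact el.injective (congrArg (fun z => z.1.2) h)
    exact congrFun (congrArg (fun z => z.2) h) ⟨i, hik, hil⟩
  · obtain ⟨⟨a, b⟩, r⟩ := y
    refine ⟨Function.update (Function.update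
      (fun i => if h : i ≠ k ∧ i ≠ l then r ⟨i, h⟩ else 1) k (ek.symm a)) l (el.symm b), ?_⟩
    refine Prod.ext (Prod.ext ?_ ?_) (funext fun i => ?_)
    · simp [φ, Function.update_of_ne hkl]
    · simp [φ]
    · simp [φ, Function.update_of_ne i.2.2, Function.update_of_ne i.2.1, i.2.1, i.2.2]

/-- A repeated invariant gives a bad group of automorphisms of order prime to `p`. -/
theorem not_repeated {p : ℕ} [Fact p.Prime] {A C H : Type*} [Group A] [Finite A] [CommGroup C] [CommGroup H]
    (e : A ≃* (C × C) × H) {a : C} (ha : a ≠ 1) (hp2 : p ≠ 2 → a⁻¹ ≠ a)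
    (hall : ∀ K : Subgroup (MulAut A), (Nat.card K).Coprime p →
      IsMulCommutative K ∧ ∀ k ∈ K, k ^ (p - 1) = 1) : False := by
  haveI : Finite (MulAut A) := Finite.of_injective (fun a : MulAut A => (a : A → A)) fun _ _ h =>
    MulEquiv.ext (congrFun h)
  let E : MulAut ((C × C) × H) ≃* MulAut A := MulAut.congr e.symm
  by_cases hp : p = 2
  · subst hp
    let r : MulAut ((C × C) × H) :=
      { toFun := fun x => ((x.1.2, (x.1.1 * x.1.2)⁻¹), x.2)
        invFun := fun x => (((x.1.1 * x.1.2)⁻¹, x.1.1), x.2)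
        left_inv := fun x => by ext <;> simp [mul_comm]
        right_inv := fun x => by ext <;> simp [mul_comm]
        map_mul' := fun x y => by ext <;> simp [mul_comm, mul_left_comm, mul_assoc] }
    have hr3 : r ^ 3 = 1 := MulEquiv.ext fun x => by
      simp only [pow_succ, pow_zero, one_mul, MulAut.mul_apply, MulAut.one_apply]
      ext <;> simp [r, mul_comm]
    have hr1 : r ≠ 1 := fun h => ha (by
      simpa [r] using congrArg (fun z => z.1.1) (DFunLike.congr_fun h (((1 : C), a), (1 : H))))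
    have hc : (Nat.card (Subgroup.zpowers (E r))).Coprime 2 := by
      rw [Nat.card_zpowers]
      exact (by norm_num : Nat.Coprime 3 2).coprime_dvd_left
        (orderOf_dvd_of_pow_eq_one (by rw [← map_pow, hr3, map_one]))
    have h1 := (hall _ hc).2 _ (Subgroup.mem_zpowers (E r))
    rw [Nat.add_one_sub_one, pow_one, map_eq_one_iff _ E.injective] at h1
    exact hr1 h1
  · let r : MulAut ((C × C) × H) :=
      { toFun := fun x => ((x.1.2, x.1.1⁻¹), x.2)
        invFun := fun x => ((x.1.2⁻¹, x.1.1), x.2)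
        left_inv := fun x => by ext <;> simp
        right_inv := fun x => by ext <;> simp
        map_mul' := fun x y => by ext <;> simp [mul_comm] }
    let s : MulAut ((C × C) × H) :=
      { toFun := fun x => ((x.1.2, x.1.1), x.2)
        invFun := fun x => ((x.1.2, x.1.1), x.2)
        left_inv := fun x => rfl
        right_inv := fun x => rfl
        map_mul' := fun x y => rfl }
    have hr4 : r ^ 4 = 1 := MulEquiv.ext fun x => by
      simp only [pow_succ, pow_zero, one_mul, MulAut.mul_apply, MulAut.one_apply]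
      ext <;> simp [r]
    have hs2 : s ^ 2 = 1 := MulEquiv.ext fun x => by
      simp only [pow_succ, pow_zero, one_mul, MulAut.mul_apply, MulAut.one_apply]
      rfl
    have hsr : s * r * s⁻¹ = r⁻¹ := MulEquiv.ext fun x => rfl
    have hne : s * r ≠ r * s := fun h => hp2 hp (by
      simpa [r, s, MulAut.mul_apply] using congrArg (fun z => z.1.1) (DFunLike.congr_fun h ((a, (1 : C)), (1 : H))))
    have hn : Subgroup.zpowers (E s) ≤ Subgroup.normalizer (Subgroup.zpowers (E r) : Set (MulAut A)) := by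
      rw [Subgroup.zpowers_le]
      refine Subgroup.mem_normalizer_iff_map_conj_eq.mpr ?_
      rw [MonoidHom.map_zpowers]
      show Subgroup.zpowers (E s * E r * (E s)⁻¹) = _
      rw [← map_inv, ← map_mul, ← map_mul, hsr, map_inv, Subgroup.zpowers_inv]
    have h2 : ∀ {g : MulAut A} {k : ℕ}, g ^ 2 ^ k = 1 → IsPGroup 2 (Subgroup.zpowers g) := by
      intro g k hg
      obtain ⟨i, -, hi⟩ := (Nat.dvd_prime_pow Nat.prime_two).mp (orderOf_dvd_of_pow_eq_one hg)
      exact IsPGroup.of_card (n := i) (by rw [Nat.card_zpowers, hi])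
    have hK : IsPGroup 2 ↥(Subgroup.zpowers (E r) ⊔ Subgroup.zpowers (E s)) :=
      (h2 (k := 2) (by rw [← map_pow]; norm_num [hr4])).to_sup_of_normal_left'
        (h2 (k := 1) (by rw [← map_pow]; norm_num [hs2])) hn
    haveI := Fact.mk Nat.prime_two
    obtain ⟨i, hi⟩ := IsPGroup.iff_card.mp hK
    have hc : (Nat.card ↥(Subgroup.zpowers (E r) ⊔ Subgroup.zpowers (E s))).Coprime p := by
      rw [hi]
      exact ((Nat.coprime_primes Nat.prime_two Fact.out).mpr (Ne.symm hp)).pow_left i
    haveI := (hall _ hc).1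
    refine hne (E.injective ?_)
    rw [map_mul, map_mul]
    exact setLike_mul_comm (Subgroup.mem_sup_right (Subgroup.mem_zpowers (E s)))
      (Subgroup.mem_sup_left (Subgroup.mem_zpowers (E r)))

/-- Distinct invariants give a series with cyclic factors. -/
theorem coprime_aut {p : ℕ} [Fact p.Prime] {A : Type*} [CommGroup A] [Finite A] (hA : IsPGroup p A)
    {ι : Type} [Fintype ι] (ε : ι → ℕ) (hε : Function.Injective ε)
    (φ : A ≃* ((i : ι) → Multiplicative (ZMod (p ^ ε i))))
    (H : Subgroup (MulAut A)) (hc : (Nat.card H).Coprime p) :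
    IsMulCommutative H ∧ ∀ a ∈ H, a ^ (p - 1) = 1 := by
  classical
  obtain ⟨e, he⟩ := IsPGroup.iff_card.mp hA
  let Om : ℕ → Subgroup A := fun i => (powMonoidHom (p ^ i)).ker
  let Ag : ℕ → Subgroup A := fun j => (powMonoidHom (p ^ j)).range
  let M : ℕ → ℕ → Subgroup A := fun i j => Om i ⊔ (Om (i + 1) ⊓ Ag j)
  have hOm : ∀ i, Om i ≤ Om (i + 1) := fun i x hx => by
    show x ^ p ^ (i + 1) = 1
    rw [pow_succ, pow_mul, show x ^ p ^ i = 1 from hx, one_pow]
  have hM : ∀ i j, M i (j + 1) ≤ M i j := fun i j => by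
    refine sup_le_sup_left (inf_le_inf_left _ ?_) _
    rintro _ ⟨z, rfl⟩
    exact ⟨z ^ p, by show (z ^ p) ^ p ^ j = z ^ p ^ (j + 1); rw [← pow_mul, pow_succ']⟩
  have hMe : ∀ i, M i e = Om i := fun i => by
    refine sup_eq_left.mpr ?_
    rintro x ⟨-, z, rfl⟩
    rw [show powMonoidHom (p ^ e) z = 1 from by rw [powMonoidHom_apply, ← he, pow_card_eq_one']]
    exact one_mem _
  have hM0 : ∀ i, M i 0 = Om (i + 1) := fun i => by
    refine le_antisymm (sup_le (hOm i) inf_le_left) fun x hx => Subgroup.mem_sup_right ⟨hx, x, ?_⟩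
    simp
  have hinv : ∀ α : MulAut A, ∀ i j, ∀ x ∈ M i j, α x ∈ M i j := by
    intro α i j x hx
    obtain ⟨y, hy, z, ⟨hz, w, hw⟩, rfl⟩ := Subgroup.mem_sup.mp hx
    rw [map_mul]
    refine Subgroup.mul_mem_sup ?_ ⟨?_, α w, ?_⟩
    · show α y ^ p ^ i = 1
      rw [← map_pow, show y ^ p ^ i = 1 from hy, map_one]
    · show α z ^ p ^ (i + 1) = 1
      rw [← map_pow, show z ^ p ^ (i + 1) = 1 from hz, map_one]
    · rw [← hw]; exact (map_pow α w (p ^ j)).symm
  have hstep : ∀ i j, ∃ x ∈ M i j, M i j ≤ M i (j + 1) ⊔ Subgroup.zpowers x := by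
    intro i j
    let g : ι → A := fun k => φ.symm (Pi.mulSingle k (Multiplicative.ofAdd 1))
    let x : A := if h : ∃ k, ε k = i + j + 1 then g h.choose ^ p ^ j else 1
    have hgord : ∀ k, g k ^ p ^ ε k = 1 := fun k => by
      refine φ.injective ?_
      rw [map_pow, map_one, MulEquiv.apply_symm_apply, ← Pi.mulSingle_pow, ← ofAdd_nsmul, nsmul_one,
        ZMod.natCast_self, ofAdd_zero, Pi.mulSingle_one]
    have hx : x ∈ M i j := by
      simp only [x]
      split_ifs with h
      · refine Subgroup.mem_sup_right ⟨?_, g h.choose, rfl⟩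
        show (g h.choose ^ p ^ j) ^ p ^ (i + 1) = 1
        rw [← pow_mul, ← pow_add, show j + (i + 1) = ε h.choose from by rw [h.choose_spec]; omega, hgord]
      · exact one_mem _
    refine ⟨x, hx, sup_le ((le_sup_left : Om i ≤ M i (j + 1)).trans le_sup_left) ?_⟩
    rintro y ⟨hy, z, rfl⟩
    have hz : z ^ p ^ (i + j + 1) = 1 := by
      rw [show i + j + 1 = j + (i + 1) by omega, pow_add, pow_mul]; exact hy
    have hdec : z = ∏ k, g k ^ ((Multiplicative.toAdd (φ z k)).val) := by
      refine φ.injective ?_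
      rw [map_prod]
      refine funext fun l => ?_
      rw [Finset.prod_apply]
      haveI : ∀ k, NeZero (p ^ ε k) := fun k => ⟨(pow_pos (Fact.out : p.Prime).pos _).ne'⟩
      rw [Finset.prod_eq_single l (fun k _ hkl => by
          rw [map_pow, Pi.pow_apply, MulEquiv.apply_symm_apply, Pi.mulSingle_eq_of_ne hkl.symm, one_pow])
        (fun h => absurd (Finset.mem_univ l) h)]
      rw [map_pow, Pi.pow_apply, MulEquiv.apply_symm_apply, Pi.mulSingle_eq_same, ← ofAdd_nsmul,
        nsmul_one, ZMod.natCast_zmod_val, ofAdd_toAdd]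
    show z ^ p ^ j ∈ _
    rw [hdec, ← Finset.prod_pow]
    refine Subgroup.prod_mem _ fun k _ => ?_
    rw [← pow_mul]
    set c := (Multiplicative.toAdd (φ z k)).val with hc'
    rcases lt_trichotomy (ε k) (i + j + 1) with hlt | heq | hgt
    · refine Subgroup.mem_sup_left (Subgroup.mem_sup_left ?_)
      show (g k ^ (c * p ^ j)) ^ p ^ i = 1
      rw [← pow_mul, mul_assoc, ← pow_add, show j + i = ε k + (j + i - ε k) by omega, pow_add,
        mul_left_comm, pow_mul, hgord, one_pow]
    · refine Subgroup.mem_sup_right ?_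
      have hex : ∃ k, ε k = i + j + 1 := ⟨k, heq⟩
      have hxk : x = g k ^ p ^ j := by
        simp only [x, dif_pos hex]
        rw [show hex.choose = k from hε (hex.choose_spec.trans heq.symm)]
      rw [hxk, mul_comm, pow_mul]
      exact Subgroup.npow_mem_zpowers _ c
    · refine Subgroup.mem_sup_left ?_
      haveI : NeZero (p ^ ε k) := ⟨(pow_pos (Fact.out : p.Prime).pos _).ne'⟩
      have h1 := congrFun (congrArg φ hz) k
      rw [map_pow, map_one, Pi.pow_apply, Pi.one_apply] at h1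
      have h2 : p ^ ε k ∣ c * p ^ (i + j + 1) := by
        rw [← ZMod.natCast_eq_zero_iff, Nat.cast_mul, hc', ZMod.natCast_zmod_val, mul_comm, ← nsmul_eq_mul]
        exact congrArg Multiplicative.toAdd h1
      obtain ⟨c', hc''⟩ : p ∣ c := by
        rw [show ε k = (ε k - (i + j + 1)) + (i + j + 1) by omega, pow_add] at h2
        exact dvd_trans (dvd_pow_self p (by omega)) (Nat.dvd_of_mul_dvd_mul_right (pow_pos (Fact.out : p.Prime).pos _) h2)
      refine Subgroup.mem_sup_right ⟨?_, g k ^ c', ?_⟩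
      · show (g k ^ (c * p ^ j)) ^ p ^ (i + 1) = 1
        rw [← pow_mul, mul_assoc, ← pow_add, show j + (i + 1) = i + j + 1 by omega]
        obtain ⟨d, hd⟩ := h2
        rw [hd, pow_mul, hgord, one_pow]
      · show (g k ^ c') ^ p ^ (j + 1) = g k ^ (c * p ^ j)
        rw [← pow_mul, hc'', pow_succ]
        ring_nf
  let D : ℕ → Subgroup A := fun s => M (s / (e + 1)) (e - s % (e + 1))
  have hsucc : ∀ s, (s % (e + 1) < e ∧ (s + 1) / (e + 1) = s / (e + 1) ∧ (s + 1) % (e + 1) = s % (e + 1) + 1) ∨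
      (s % (e + 1) = e ∧ (s + 1) / (e + 1) = s / (e + 1) + 1 ∧ (s + 1) % (e + 1) = 0) := by
    intro s
    have h1 := Nat.div_add_mod s (e + 1)
    have h2 : s % (e + 1) < e + 1 := Nat.mod_lt s (Nat.succ_pos e)
    rcases Nat.lt_or_ge (s % (e + 1)) e with h | h
    · refine Or.inl ⟨h, ?_⟩
      have h3 : s + 1 = (s % (e + 1) + 1) + (e + 1) * (s / (e + 1)) := by omega
      rw [h3, Nat.add_mul_div_left _ _ (Nat.succ_pos e), Nat.add_mul_mod_self_left,
        Nat.div_eq_of_lt (by omega), Nat.mod_eq_of_lt (a := s % (e + 1) + 1) (by omega), Nat.zero_add]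
      exact ⟨rfl, rfl⟩
    · refine Or.inr ⟨by omega, ?_⟩
      have h3 : s + 1 = 0 + (e + 1) * (s / (e + 1) + 1) := by rw [Nat.mul_add]; omega
      rw [h3, Nat.add_mul_div_left _ _ (Nat.succ_pos e), Nat.add_mul_mod_self_left]
      simp
  have hstep' : ∀ s, D s ≤ D (s + 1) ∧ ∃ x ∈ D (s + 1), D (s + 1) ≤ D s ⊔ Subgroup.zpowers x := by
    intro s
    simp only [D]
    rcases hsucc s with ⟨h1, h2, h3⟩ | ⟨h1, h2, h3⟩
    · rw [h2, h3, show e - s % (e + 1) = (e - (s % (e + 1) + 1)) + 1 by omega]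
      exact ⟨hM _ _, hstep _ _⟩
    · rw [h2, h3, h1, Nat.sub_self, Nat.sub_zero, hM0, hMe]
      exact ⟨le_rfl, 1, one_mem _, le_sup_left⟩
  refine cyclicSeries_coprime hA H hc D ((e + 1) * e) ?_ ?_ (fun j _ => (hstep' j).1)
    (fun α _ j _ => hinv α _ _) (fun j => inferInstance) fun j _ => (hstep' j).2
  · simp only [D, Nat.zero_div, Nat.zero_mod, Nat.sub_zero, hMe]
    refine (Subgroup.eq_bot_iff_forall _).mpr fun x hx => ?_
    have hx' : x ^ p ^ 0 = 1 := hx
    simpa using hx'
  · simp only [D, Nat.mul_div_cancel_left _ (Nat.succ_pos e), Nat.mul_mod_right, Nat.sub_zero, hMe]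
    exact eq_top_iff.mpr fun x _ => show x ^ p ^ e = 1 by rw [← he, pow_card_eq_one']

/-- Let S be a finite abelian p-group. Every saturated fusion system over S is supersoluble (S has a chain of F-strongly closed subgroups from 1 to S with cyclic steps) if and only if the invariants of S are pairwise distinct, that is, S is not isomorphic to a direct product (Z/p^n × Z/p^n) × H with n ≥ 1. -/
theorem result {Ω : Type*} [Group Ω] {S : Subgroup Ω} [Finite S] (p : ℕ) [Fact p.Prime] (hS : IsPGroup p ↥S) (hab : IsMulCommutative ↥S) : (∀ F : Cfsg.FusionSystem S, F.IsSaturated p → (∃ (m : ℕ) (c : Fin (m + 1) → Subgroup Ω), c 0 = ⊥ ∧ c (Fin.last m) = S ∧ (∀ i : Fin (m + 1), F.StronglyClosed (c i)) ∧ ∀ i : Fin m, c i.castSucc ≤ c i.succ ∧ ∃ x ∈ S, c i.succ = c i.castSucc ⊔ Subgroup.zpowers x)) ↔ ¬ ∃ (n : ℕ) (H : Type) (_ : CommGroup H), 0 < n ∧ Nonempty (↥S ≃* (Multiplicative (ZMod (p ^ n)) × Multiplicative (ZMod (p ^ n))) × H) := by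
  have hcomm : ∀ x ∈ S, ∀ y ∈ S, x * y = y * x := fun x hx y hy =>
    congrArg Subtype.val (mul_comm' (⟨x, hx⟩ : S) ⟨y, hy⟩)
  constructor
  · rintro h ⟨n, H, _, hn, ⟨e⟩⟩
    have hall : ∀ K : Subgroup (MulAut ↥S), (Nat.card K).Coprime p →
        IsMulCommutative K ∧ ∀ k ∈ K, k ^ (p - 1) = 1 := fun K hK =>
      HasCyclicChain.aut_coprime hS (h _ (autSystem_saturated hS hK)) (fun a ha =>
        (autGroup_set_eq le_rfl).mpr (autSystem_aut (Subgroup.mem_sup_right ha))) hK
    haveI : Fact (1 < p ^ n) := ⟨Nat.one_lt_pow hn.ne' (Fact.out : p.Prime).one_lt⟩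
    refine not_repeated (p := p) e (a := Multiplicative.ofAdd (1 : ZMod (p ^ n))) ?_ ?_ hall
    · simp
    · intro hp heq
      have h2 : ((2 : ℕ) : ZMod (p ^ n)) = 0 := by
        have h3 := congrArg Multiplicative.toAdd heq
        simp only [toAdd_inv, toAdd_ofAdd] at h3
        rw [Nat.cast_two, ← one_add_one_eq_two]
        linear_combination -h3
      rw [ZMod.natCast_eq_zero_iff] at h2
      exact hp ((Nat.prime_dvd_prime_iff_eq Fact.out Nat.prime_two).mp ((dvd_pow_self p hn.ne').trans h2))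
  · intro hno F hF
    letI : CommGroup ↥S := { (inferInstance : Group ↥S) with mul_comm := fun x y => mul_comm' x y }
    obtain ⟨ι, hι, m, hm, ⟨φ⟩⟩ := CommGroup.equiv_prod_multiplicative_zmod_of_finite ↥S
    obtain ⟨k, hk⟩ := IsPGroup.iff_card.mp hS
    have hexp : ∀ i, ∃ ε, 0 < ε ∧ m i = p ^ ε := fun i => by
      have hd : m i ∣ p ^ k := by
        rw [← hk, Nat.card_congr φ.toEquiv, Nat.card_pi]
        refine dvd_trans (dvd_of_eq ?_) (Finset.dvd_prod_of_mem _ (Finset.mem_univ i))
        rw [Nat.card_congr Multiplicative.toAdd, Nat.card_zmod]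
      obtain ⟨ε, -, hε⟩ := (Nat.dvd_prime_pow (Fact.out : p.Prime)).mp hd
      exact ⟨ε, Nat.pos_of_ne_zero (fun h0 => (hm i).ne' (by rw [hε, h0, pow_zero])), hε⟩
    choose ε hε0 hε using hexp
    have hinj : Function.Injective ε := by
      intro a b hab
      by_contra hne
      obtain ⟨ψ⟩ := exists_split (n := m) hne (hε a) (hab ▸ hε b)
      exact hno ⟨ε a, _, inferInstance, hε0 a, ⟨φ.trans ψ⟩⟩
    obtain rfl : m = fun i => p ^ ε i := funext hε
    exact hasCyclicChain_of_normal hS hF (abelian_isNormal_self hS hF hcomm)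
      fun H hH => coprime_aut hS ε hinj φ H hH

end Cfsg.Agent.S5284
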