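import Cfsg.Statements.S5292
import Cfsg.Agent.Fusion.ModelUniq
import Cfsg.Agent.Fusion.GroupLift
import Cfsg.Agent.Fusion.Joins
import Cfsg.Agent.Core.PiSeparable

set_option autoImplicit false
universe u
open Cfsg Cfsg.Agent.Fusion Cfsg.FusionSystem

namespace Cfsg.Agent.S5292

/-- Let F be a saturated fusion system over a finite p-group S. Then F is the fusion system of some finite p-solvable group on a Sylow p-subgroup if and only if F is constrained (some subgroup normal in F is centric in F) and the group of automorphisms that F induces on its largest normal subgroup O_p(F) is p-solvable. -/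
theorem result {Ω : Type u} [Group Ω] {S : Subgroup Ω} [Finite S] (p : ℕ) [Fact p.Prime] (hS : IsPGroup p S)
    (F : Cfsg.FusionSystem S) (hF : F.IsSaturated p) :
    (∃ (G : Type u) (_ : Group G) (_ : Finite G) (ι : S →* G), Cfsg.IsPSolvable p G ∧ F.IsRealizedBy ι ∧
        ∃ T : Sylow p G, (T : Subgroup G) = ι.range) ↔
      (F.IsConstrained p ∧ Cfsg.IsPSolvable p ↥(F.autGroup F.core)) := by
  classical
  constructor
  · rintro ⟨G, _, _, ι, hsol, hR, T, hT⟩
    haveI : Finite G := ‹_›
    set N := pPrimeCore p G with hNdef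
    haveI hNn : N.Normal := by rw [hNdef]; infer_instance
    set π := QuotientGroup.mk' N with hπ
    have hker : ∀ x : G, x ∈ (T : Subgroup G) → π x = 1 → x = 1 := by
      intro x hx h1
      obtain ⟨k, hk⟩ := IsPGroup.iff_orderOf.mp T.isPGroup' ⟨x, hx⟩
      rw [Subgroup.orderOf_mk] at hk
      have h2 : orderOf (⟨x, (QuotientGroup.eq_one_iff x).mp h1⟩ : N) ∣ Nat.card N := orderOf_dvd_natCard _
      rw [Subgroup.orderOf_mk, hk] at h2
      rw [← orderOf_eq_one_iff, hk]
      exact Nat.eq_one_of_dvd_coprimes (a := Nat.card N) (b := p ^ k)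
        ((Core.card_pPrimeCore_coprime p G).pow_right k) h2 dvd_rfl
    let ι₁ : S →* G ⧸ N := π.comp ι
    have hι₁ : Function.Injective ι₁ := (injective_iff_map_eq_one _).mpr fun s hs =>
      hR.1 ((hker _ (hT ▸ ⟨s, rfl⟩) hs).trans ι.map_one.symm)
    have hR₁ : F.IsRealizedBy ι₁ := by
      refine ⟨hι₁, fun P hP φ hφ => (hR.2 P hP φ hφ).trans ⟨fun ⟨g, hg⟩ => ⟨π g, fun x => ?_⟩, fun ⟨g', hg⟩ => ?_⟩⟩
      · show π (ι _) = _
        rw [hg x, map_mul, map_mul, map_inv]
        rfl
      · obtain ⟨g, rfl⟩ := QuotientGroup.mk'_surjective N g'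
        set P₁ : Subgroup G := (P.subgroupOf S).map ι
        have hP₁ : IsPGroup p P₁ := (hS.to_subgroup _).map ι
        have hv : ∀ x ∈ P₁, cj g x ∈ (T : Subgroup G) ⊔ N := by
          rintro _ ⟨s, hs, rfl⟩
          have h1 : π (ι ⟨φ ⟨s, hs⟩, hφ _⟩) = π (cj g (ι s)) := by
            refine (hg ⟨s, hs⟩).trans ?_
            rw [cj_apply, map_mul, map_mul, map_inv]
            rfl
          have h2 : (ι ⟨φ ⟨s, hs⟩, hφ _⟩)⁻¹ * cj g (ι s) ∈ N := QuotientGroup.eq.mp h1
          rw [← mul_inv_cancel_left (ι ⟨φ ⟨s, hs⟩, hφ _⟩) (cj g (ι s))]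
          exact mul_mem (Subgroup.mem_sup_left (hT ▸ ⟨_, rfl⟩)) (Subgroup.mem_sup_right h2)
        obtain ⟨m, hm, hmS⟩ := exists_lift_conj T N hP₁ g hv
        refine ⟨m * g, fun x => ?_⟩
        have h1 := hmS _ ⟨⟨x, hP x.2⟩, x.2, rfl⟩
        obtain ⟨t, ht⟩ := (hT ▸ (show _ ∈ (T : Subgroup G) from h1) :)
        rw [← cj_apply, ← ht]
        refine congrArg ι (hι₁ ?_)
        show π (ι _) = π (ι t)
        rw [ht]
        refine (hg x).trans ?_
        rw [cj_apply, map_mul, map_mul, map_inv, map_mul, show π m = 1 from (QuotientGroup.eq_one_iff m).mpr hm, one_mul]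
        rfl
    have hM : F.IsModel p (G ⧸ N) ι₁ := by
      have hsurj : Function.Surjective π := QuotientGroup.mk'_surjective N
      refine ⟨inferInstance, hR₁, ⟨(T.isPGroup'.map π).toSylow fun hd =>
        T.not_dvd_index (hd.trans ((T : Subgroup G).index_map_dvd hsurj)), ?_⟩, ?_⟩
      · rw [IsPGroup.toSylow_coe, hT, MonoidHom.map_range]
      · exact Core.centralizer_pCore_le (Core.isPSolvable_quotient hsol N)
          (Core.pPrimeCore_quotient_pPrimeCore p G)
    have hC := model_constrained hS hM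
    obtain ⟨-, Q, hQ, hQc⟩ := hC
    refine ⟨⟨hF, Q, hQ, hQc⟩, ?_⟩
    have hle : Q ≤ F.core := le_sSup hQ
    let M : ModelData F p := ⟨F.core, Fact.out, inferInstance, hS, hF, core_isNormal,
      isCentric_mono hQc hle core_isNormal.1⟩
    obtain ⟨θ, -, hθ, -, -⟩ := M.exists_θ hM
    exact Core.isPSolvable_congr (QuotientGroup.quotientKerEquivOfSurjective θ hθ)
      (Core.isPSolvable_quotient (Core.isPSolvable_quotient hsol N) θ.ker)
  · rintro ⟨hC, hsol⟩
    obtain ⟨G, _, ι, hM⟩ := exists_model hS hC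
    obtain ⟨-, Q, hQ, hQc⟩ := hC
    have hle : Q ≤ F.core := le_sSup hQ
    let M : ModelData F p := ⟨F.core, Fact.out, inferInstance, hS, hF, core_isNormal,
      isCentric_mono hQc hle core_isNormal.1⟩
    obtain ⟨θ, -, hθ, hk, -⟩ := M.exists_θ hM
    haveI : Finite G := hM.1
    haveI := M.finL
    refine ⟨G, inferInstance, inferInstance, ι, ?_, hM.2.1, hM.2.2.1⟩
    have hkp : IsPGroup p θ.ker := by
      refine (hS.of_surjective ι.rangeRestrict ι.rangeRestrict_surjective).to_le fun x hx => ?_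
      obtain ⟨a, rfl⟩ := hk x hx
      exact ⟨_, rfl⟩
    haveI : Group.IsNilpotent θ.ker := hkp.isNilpotent
    exact Core.isPSolvable_of_normal θ.ker Core.isPSolvable_of_isSolvable
      (Core.isPSolvable_congr (QuotientGroup.quotientKerEquivOfSurjective θ hθ).symm hsol)

end Cfsg.Agent.S5292
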