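import Cfsg.Statements.S5293
import Cfsg.Agent.Fusion.CentEStrong

set_option autoImplicit false
open Cfsg Cfsg.Agent.Fusion Cfsg.FusionSystem

namespace Cfsg.Agent.S5293

/-- Let F be a saturated fusion system over a finite p-group S, E a normal subsystem of F over T ≤ S, and C the join of the subgroups X ≤ C_S(T) such that E is contained in the centralizer system C_F(X). Then for the centralizer fusion system C_F(T) over C_S(T), the focal subgroup of C_F(T) is contained in C. -/
theorem result {Ω : Type*} [Group Ω] {S : Subgroup Ω} [Finite S] (p : ℕ) [Fact p.Prime] (hS : IsPGroup p S)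
    (F : Cfsg.FusionSystem S) (hF : F.IsSaturated p)
    {T : Subgroup Ω} (E : Cfsg.FusionSystem T) (hE : E.IsNormalIn F p)
    (C : Subgroup Ω)
    (hC : C = sSup {X : Subgroup Ω | X ≤ Cfsg.FusionSystem.centralizerIn S T ∧ ∀ P : Subgroup Ω, E.Hom P ⊆ F.centralizerHom X P})
    (D : Cfsg.FusionSystem (Cfsg.FusionSystem.centralizerIn S T)) (hD : F.IsCentralizerSystem T D) :
    D.focalSubgroup ≤ C := by
  have c := Cfsg.Agent.Fusion.CentE.Ctx.of_normal hS hE
  have hsub : E.IsSubsystemOf F := hE.1.2.2.1
  refine (c.focal_le hD).trans (sSup_le fun X hX => ?_)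
  rw [hC]
  exact le_sSup ⟨hX.1, (Cfsg.Agent.Fusion.CentE.fix_iff_centralizerHom hsub hX.1).mp hX.2⟩

end Cfsg.Agent.S5293
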