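import Cfsg.Statements.S5296
import Cfsg.Agent.FusionZJ.AbelianControl
-- import your own Cfsg.Agent.* helpers here

set_option autoImplicit false
universe u
open Cfsg Cfsg.FusionSystem Cfsg.Agent Cfsg.Agent.Fusion Cfsg.Agent.FusionZJ
set_option linter.style.haveILetI false

namespace Cfsg.Agent.S5296

/-- Small-exponent abelian subgroups of the hyperfocal subgroup control fusion. Let E and F be saturated fusion systems over the same finite p-group S with E contained in F. Suppose that E and F have the same maps between A and B for all subgroups A, B of the hyperfocal subgroup of F that are elementary abelian when p is odd, respectively abelian of exponent dividing 4 when p = 2. Then E = F. -/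
theorem result {Ω : Type u} [Group Ω] {S : Subgroup Ω} [Finite S] (p : ℕ) [Fact p.Prime] (hS : IsPGroup p S)
    (E F : Cfsg.FusionSystem S) (hE : E.IsSaturated p) (hF : F.IsSaturated p) (hEF : E.IsSubsystemOf F)
    (hodd : p ≠ 2 → ∀ A B : Subgroup Ω, A ≤ (F.hyperfocalSubgroup p) → B ≤ (F.hyperfocalSubgroup p) →
      Cfsg.IsElementaryAbelian p A → Cfsg.IsElementaryAbelian p B → E.homSet A B = F.homSet A B)
    (htwo : p = 2 → ∀ A B : Subgroup Ω, A ≤ (F.hyperfocalSubgroup p) → B ≤ (F.hyperfocalSubgroup p) →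
      IsMulCommutative ↥A → IsMulCommutative ↥B → (∀ a ∈ A, a ^ 4 = 1) → (∀ b ∈ B, b ^ 4 = 1) → E.homSet A B = F.homSet A B) :
    ∀ P : Subgroup Ω, E.Hom P = F.Hom P := by
  have hEF' : E ≤ F := hEF
  have hag : ∀ (A : Subgroup Ω) (f : Ω → Ω), A ≤ F.hyperfocalSubgroup p → IsMulCommutative A →
      (∀ a ∈ A, a ^ (if p = 2 then 4 else p) = 1) → Mor F A f → Mor E A f := by
    intro A f hA hAc hAq hf
    have himH : hf.img ≤ F.hyperfocalSubgroup p := fun y hy => by
      obtain ⟨x, hx, rfl⟩ := hf.mem_img.mp hy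
      exact stronglyClosed_mem (hyperfocal_stronglyClosed hS hF) hf hx (hA hx)
    have himc : IsMulCommutative hf.img := ⟨⟨fun u v => by
      obtain ⟨a, ha, eu⟩ := hf.mem_img.mp u.2
      obtain ⟨b, hb, ev⟩ := hf.mem_img.mp v.2
      refine Subtype.ext ?_
      show (u : Ω) * v = v * u
      rw [← eu, ← ev, ← hf.map_mul ha hb, ← hf.map_mul hb ha,
        show a * b = b * a from congrArg Subtype.val (hAc.is_comm.comm ⟨a, ha⟩ ⟨b, hb⟩)]⟩⟩
    have himq : ∀ b ∈ hf.img, b ^ (if p = 2 then 4 else p) = 1 := fun y hy => by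
      obtain ⟨b, hb, rfl⟩ := hf.mem_img.mp hy
      rw [← hf.map_pow hb, hAq b hb, hf.map_one]
    have hmem : hf.hom ∈ F.homSet A hf.img := ⟨hf.hom_mem, fun x => hf.mem_img.mpr ⟨x, x.2, rfl⟩⟩
    have hE' : hf.hom ∈ E.homSet A hf.img := by
      by_cases h2 : p = 2
      · rw [htwo h2 A hf.img hA himH hAc himc]
        · exact hmem
        · exact fun a ha => by simpa [h2] using hAq a ha
        · exact fun a ha => by simpa [h2] using himq a ha
      · rw [hodd h2 A hf.img hA himH]
        · exact hmem
        · exact ⟨hAc, fun a ha => by simpa [h2] using hAq a ha⟩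
        · exact ⟨himc, fun a ha => by simpa [h2] using himq a ha⟩
    exact (mor_of_mem hE'.1).congr fun x hx => by rw [extFun_apply _ hx]; rfl
  intro P
  ext φ
  exact ⟨fun h => hEF P h, fun h =>
    mem_of_mor (mor_of_small_agree hS hF hE hEF' hag P _ (mor_of_mem h)) fun x => (extFun_coe φ x).symm⟩

end Cfsg.Agent.S5296
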