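import Cfsg.Statements.S5298
import Cfsg.Agent.FusionZJ.SmallControl
import Cfsg.Agent.FusionZJ.FunctorNormal

set_option autoImplicit false
universe u
set_option linter.style.haveILetI false
open Cfsg Cfsg.FusionSystem Cfsg.Agent Cfsg.Agent.Fusion Cfsg.Agent.FusionZJ

namespace Cfsg.Agent.S5298

/-- Let F be a saturated fusion system over a finite p-group S. If every map of F between cyclic subgroups of the hyperfocal subgroup of F of order p or 4 is conjugation by an element of S, then F is the inner fusion system of S. -/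
theorem result {Ω : Type u} [Group Ω] {S : Subgroup Ω} [Finite S] (p : ℕ) [Fact p.Prime] (hS : IsPGroup p S)
    (F : Cfsg.FusionSystem S) (hF : F.IsSaturated p)
    (h : ∀ A B : Subgroup Ω, A ≤ (F.hyperfocalSubgroup p) → B ≤ (F.hyperfocalSubgroup p) → IsCyclic ↥A → (Nat.card ↥A = p ∨ Nat.card ↥A = 4) → IsCyclic ↥B → (Nat.card ↥B = p ∨ Nat.card ↥B = 4) →
      F.homSet A B ⊆ (Cfsg.innerFusionSystem S).Hom A) :
    ∀ P : Subgroup Ω, F.Hom P = (Cfsg.innerFusionSystem S).Hom P := by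
  have h' : ∀ A B : Subgroup Ω, A ≤ F.hyperfocalSubgroup p → B ≤ F.hyperfocalSubgroup p → IsCyclic ↥A →
      (Nat.card ↥A = p ∨ Nat.card ↥A = 4) → IsCyclic ↥B → (Nat.card ↥B = p ∨ Nat.card ↥B = 4) →
        F.homSet A B ⊆ F.normalizerHom S A := by
    intro A B hA hB hAc hAo hBc hBo φ hφ
    obtain ⟨hAS, s, hs, es⟩ := h A B hA hB hAc hAo hBc hBo hφ
    refine ⟨hφ.1, fun x hx => ⟨hAS hx, Subgroup.le_normalizer (hAS hx)⟩, fun x => ?_,
      (stabExt_iff (φ := φ)).mpr ⟨cj s, Mor.conj (sup_le hAS le_rfl) hs, fun x => (es x).symm, ?_⟩⟩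
    · exact ⟨(F.le_of_mem hφ.1).2 x, Subgroup.le_normalizer ((F.le_of_mem hφ.1).2 x)⟩
    · exact image_eq_of_iso (F := F) ((Mor.conj le_rfl hs).iso_of_card
        (fun z hz => S.mul_mem (S.mul_mem hs hz) (S.inv_mem hs)) le_rfl)
  obtain ⟨C, hC, hsmall, hCinv, hfaith⟩ := exists_small_subgroup hS hF (le_refl S)
  have htop := isPGroup_of_series hS le_rfl (hC.trans inf_le_left) hCinv hfaith ⊤ fun a _ i x hx => by
    by_cases hx1 : (x : Ω) = 1
    · have h1 : x = 1 := Subtype.ext hx1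
      simp [h1]
    obtain ⟨A, B, φ, hxA, hA, hB, hAc, hAo, hBc, hBo, hφ, hφx⟩ :=
      exists_small_hom le_rfl (hC.trans inf_le_right) hsmall hCinv a x hx.1 hx1
    obtain ⟨-, s, hs, es⟩ := h A B hA hB hAc hAo hBc hBo hφ
    rw [← hφx, es]
    have h2 := upperSeries_comm S i ((zLevel S (i + 1)).inv_mem hx.2) hs
    rw [commutatorElement_def, inv_inv] at h2
    simpa [zLevel, mul_assoc] using h2
  intro P
  rw [eq_inner_of hS hF (autGroup_self_le_inn hS hF (htop.of_equiv Subgroup.topEquiv))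
    (not_essential_of_small hS hF h')]

end Cfsg.Agent.S5298
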