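import Cfsg.Statements.S5300
import Cfsg.Agent.FusionZJ.SmallControl

set_option autoImplicit false
universe u
set_option linter.style.haveILetI false
open Cfsg Cfsg.FusionSystem Cfsg.Agent Cfsg.Agent.Fusion Cfsg.Agent.FusionZJ

namespace Cfsg.Agent.S5300

/-- Let F be a saturated fusion system over a finite p-group S. If every cyclic subgroup of the focal subgroup of F of order p (of order 2 or 4 when p = 2) is normal in S, then S is normal in F. -/
theorem result {Ω : Type u} [Group Ω] {S : Subgroup Ω} [Finite S] (p : ℕ) [Fact p.Prime] (hS : IsPGroup p S)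
    (F : Cfsg.FusionSystem S) (hF : F.IsSaturated p)
    (hnorm : ∀ x ∈ F.focalSubgroup, (x ^ p = 1 ∨ (p = 2 ∧ x ^ 4 = 1)) → ∀ s ∈ S, s * x * s⁻¹ ∈ Subgroup.zpowers x) :
    F.IsNormal S := by
  refine isNormal_self_of_no_essential hS hF fun Q hQ => ?_
  have hQS := hQ.1.1
  haveI := finite_of_le hQS
  haveI := finite_mulAut (G := Q)
  obtain ⟨C, hC, hsmall, hCinv, hfaith⟩ := exists_small_subgroup hS hF hQS
  have hCf : C ≤ F.focalSubgroup := hC.trans (inf_le_right.trans hyperfocal_le_focal)
  -- the automorphisms fixing the elements of order `p` and stabilizing cyclic subgroups of order four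
  let K : Subgroup (F.autGroup Q) :=
    { carrier := {a | ∀ x : Q, (x : Ω) ∈ C →
        ((x ^ p = 1 → (a : MulAut Q) x = x) ∧ (a : MulAut Q) x ∈ Subgroup.zpowers x)}
      one_mem' := fun x _ => ⟨fun _ => rfl, Subgroup.mem_zpowers x⟩
      mul_mem' := by
        intro a b ha hb x hx
        refine ⟨fun hxp => ?_, ?_⟩
        · rw [Subgroup.coe_mul, MulAut.mul_apply, (hb x hx).1 hxp, (ha x hx).1 hxp]
        · obtain ⟨k, hk⟩ := Subgroup.mem_zpowers_iff.mp (hb x hx).2
          rw [Subgroup.coe_mul, MulAut.mul_apply, ← hk, map_zpow]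
          exact Subgroup.zpow_mem _ (ha x hx).2 k
      inv_mem' := by
        intro a ha x hx
        have hy := ha _ (hCinv a⁻¹ x hx)
        simp only [Subgroup.coe_inv, MulAut.apply_inv_self] at hy
        refine ⟨fun hxp => (hy.1 (by rw [← map_pow, hxp, map_one])).symm, ?_⟩
        obtain ⟨k, hk⟩ := Subgroup.mem_zpowers_iff.mp hy.2
        have heq : Subgroup.zpowers ((a : MulAut Q)⁻¹ x) = Subgroup.zpowers x :=
          (Subgroup.eq_of_le_of_card_ge (Subgroup.zpowers_le.mpr hy.2)
            (by rw [Nat.card_zpowers, Nat.card_zpowers, MulEquiv.orderOf_eq])).symm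
        rw [Subgroup.coe_inv, ← heq]
        exact Subgroup.mem_zpowers _ }
  refine not_essential_of_normal_pGroup hS hF hQ K ⟨fun a ha g x hx => ?_⟩ ?_ ?_
  · obtain ⟨h1, h2⟩ := ha _ (hCinv g⁻¹ x hx)
    simp only [Subgroup.coe_mul, Subgroup.coe_inv, MulAut.mul_apply] at h1 h2 ⊢
    refine ⟨fun hxp => ?_, ?_⟩
    · rw [h1 (by rw [← map_pow, hxp, map_one]), MulAut.apply_inv_self]
    · obtain ⟨k, hk⟩ := Subgroup.mem_zpowers_iff.mp h2
      rw [← hk, map_zpow, MulAut.apply_inv_self]
      exact Subgroup.zpow_mem _ (Subgroup.mem_zpowers x) k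
  · refine Core.ThompsonComplement.isPGroup_of_forall_coprime fun a ha hcop => hfaith a hcop ?_
    intro x hx
    rcases hsmall _ hx with h1 | ⟨h2, h4⟩
    · exact (ha x hx).1 (Subtype.ext h1)
    · obtain ⟨k, hk⟩ := Subgroup.mem_zpowers_iff.mp (ha x hx).2
      have hx4 : x ^ 4 = 1 := Subtype.ext h4
      have hfix2 : (a : MulAut Q) ((a : MulAut Q) x) = x := by
        rcases Int.even_or_odd k with ⟨j, rfl⟩ | ⟨j, rfl⟩
        · have hx2 : x ^ 2 = 1 := by
            have h3 : ((a : MulAut Q) x) ^ 2 = 1 := by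
              rw [← hk, ← zpow_natCast (x ^ (j + j)), ← zpow_mul,
                show (j + j) * ((2 : ℕ) : ℤ) = ((4 : ℕ) : ℤ) * j by push_cast; ring,
                zpow_mul, zpow_natCast, hx4, one_zpow]
            rw [← map_pow] at h3
            exact (a : MulAut Q).injective (h3.trans (map_one _).symm)
          have hax := (ha x hx).1 (by rw [h2]; exact hx2)
          rw [hax, hax]
        · rw [← hk, map_zpow, ← hk, ← zpow_mul,
            show (2 * j + 1) * (2 * j + 1) = ((4 : ℕ) : ℤ) * (j * j + j) + 1 by push_cast; ring,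
            zpow_add, zpow_mul, zpow_natCast, hx4, one_zpow, one_mul, zpow_one]
      obtain ⟨l, hl⟩ : ∃ l, orderOf a = 2 * l + 1 := ⟨orderOf a / 2, by
        have : ¬ 2 ∣ orderOf a := fun hd => by
          have := Nat.eq_one_of_dvd_coprimes hcop hd (h2 ▸ dvd_rfl)
          omega
        omega⟩
      have hpow : ∀ m : ℕ, ((a : MulAut Q) ^ (2 * m)) x = x := by
        intro m
        induction m with
        | zero => rfl
        | succ m ih =>
          rw [show 2 * (m + 1) = 2 * m + 1 + 1 by ring, pow_succ, pow_succ, MulAut.mul_apply,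
            MulAut.mul_apply, hfix2, ih]
      have hone : ((a : MulAut Q) ^ orderOf a) x = x := by
        rw [← SubmonoidClass.coe_pow, pow_orderOf_eq_one]; rfl
      rw [hl, pow_succ', MulAut.mul_apply, hpow] at hone
      exact hone
  · intro a ha x hx
    obtain ⟨s, hs, -, es⟩ := mem_autInducedBy.mp (show (a : MulAut Q) ∈ autInducedBy S Q from ha)
    have hz : ∀ t ∈ S, t * (x : Ω) * t⁻¹ ∈ Subgroup.zpowers (x : Ω) := fun t ht =>
      hnorm x (hCf hx) (hsmall _ hx) t ht
    refine ⟨fun hxp => Subtype.ext ?_, ?_⟩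
    · rw [es]
      by_cases hx1 : (x : Ω) = 1
      · rw [hx1, cj_apply, mul_one, mul_inv_cancel]
      obtain ⟨k, hk⟩ := Subgroup.mem_zpowers_iff.mp (hz s hs)
      have hit : ∀ m : ℕ, s ^ m * (x : Ω) * (s ^ m)⁻¹ = (x : Ω) ^ (k ^ m) := by
        intro m
        induction m with
        | zero => simp
        | succ m ih =>
          calc s ^ (m + 1) * (x : Ω) * (s ^ (m + 1))⁻¹ = s * (s ^ m * x * (s ^ m)⁻¹) * s⁻¹ := by
                rw [pow_succ', mul_inv_rev]; group
            _ = (x : Ω) ^ (k ^ (m + 1)) := by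
                rw [ih, ← conj_zpow, ← hk, ← zpow_mul, pow_succ']
      obtain ⟨m, hm⟩ := hS ⟨s, hs⟩
      have h1 := hit (p ^ m)
      rw [show s ^ p ^ m = 1 from congrArg Subtype.val hm, one_mul, inv_one, mul_one] at h1
      have hxord : orderOf (x : Ω) = p := orderOf_eq_prime (congrArg Subtype.val hxp) hx1
      have hcast : ((k ^ p ^ m : ℤ) : ZMod p) = ((1 : ℤ) : ZMod p) := by
        rw [ZMod.intCast_eq_intCast_iff, Int.modEq_comm]
        have h3 := zpow_eq_zpow_iff_modEq.mp ((zpow_one _).trans h1)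
        rwa [hxord] at h3
      rw [Int.cast_pow, ZMod.pow_card_pow] at hcast
      rw [cj_apply, ← hk]
      refine (zpow_eq_zpow_iff_modEq.mpr ?_).trans (zpow_one _)
      rw [hxord]
      exact (ZMod.intCast_eq_intCast_iff _ _ _).mp hcast
    · obtain ⟨k, hk⟩ := Subgroup.mem_zpowers_iff.mp (hz s hs)
      exact Subgroup.mem_zpowers_iff.mpr ⟨k, Subtype.ext (by rw [Subgroup.coe_zpow, hk, es]; rfl)⟩

end Cfsg.Agent.S5300
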