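import Cfsg.Statements.S5310
import Cfsg.Agent.Fusion.ComponentExists
import Cfsg.Agent.S5146
import Cfsg.Agent.Fusion.Product

set_option autoImplicit false
open Cfsg Cfsg.Agent.Fusion Cfsg.FusionSystem

namespace Cfsg.Agent.S5310

/-- A saturated fusion system F over a finite p-group S is constrained (its largest normal subgroup O_p(F) is centric) if and only if the inner fusion system of O_p(F) is itself a generalized Fitting subsystem of F (that is, F*(F) = O_p(F)). -/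
theorem result {Ω : Type*} [Group Ω] {S : Subgroup Ω} [Finite S] (p : ℕ) [Fact p.Prime] (hS : IsPGroup p S) (F : Cfsg.FusionSystem S) (hF : F.IsSaturated p) :
    F.IsConstrained p ↔ (Cfsg.innerFusionSystem F.core).IsGeneralizedFittingOf F p := by
  classical
  constructor
  · intro hc
    have hnoc := (S5146.result p hS F hF).mp hc
    set Q := F.core
    have hQ : F.IsNormal Q := core_isNormal
    refine ⟨⊥, innerFusionSystem ⊥, ⟨ComponentCore.inner_normalIn hS hF isNormal_bot,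
      fun U C hC => absurd ⟨U, C, hC⟩ hnoc, ?_⟩, ?_⟩
    · intro R D hD _
      rintro P φ ⟨hP, g, hg, e⟩
      have hm : Mor D P (cj g) := Mor.conj (hP.trans bot_le) ((Subgroup.mem_bot.mp hg).symm ▸ R.one_mem)
      obtain ⟨ψ, hψ, eψ⟩ := hm
      rwa [show φ = ψ from MonoidHom.ext fun x => ((eψ x).trans (e x).symm).symm]
    · refine ⟨prodSystem (innerFusionSystem Q) (innerFusionSystem ⊥), prodSystem_isProduct _ _, ⊥,
        ((MonoidHom.fst Ω Ω).comp (Q.prod ⊥).subtype), bot_le, bot_inf_eq _, bot_inf_eq _,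
        fun x hx => rfl, fun y hy => ?_, ⟨bot_le, fun s => ?_, ?_, fun P' φ' => ?_⟩⟩
      · exact (Subgroup.mem_bot.mp hy.2).symm
      · show (s : Ω × Ω).1 = 1 ↔ (s : Ω × Ω) ∈ ⊥
        rw [Subgroup.mem_bot]
        exact ⟨fun h => Prod.ext h (Subgroup.mem_bot.mp s.2.2), fun h => congrArg Prod.fst h⟩
      · ext y
        exact ⟨fun ⟨s, hs⟩ => hs ▸ s.2.1, fun hy => ⟨⟨(y, 1), hy, Subgroup.one_mem _⟩, rfl⟩⟩
      set θ := (MonoidHom.fst Ω Ω).comp (Q.prod ⊥).subtype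
      have hpre : ∀ z, z ∈ preimageAlong θ P' ↔ z ∈ Q.prod ⊥ ∧ z.1 ∈ P' := fun z => by
        constructor
        · rintro ⟨s, hs, rfl⟩
          exact ⟨s.2, hs⟩
        · rintro ⟨h1, h2⟩
          exact ⟨⟨z, h1⟩, h2, rfl⟩
      constructor
      · rintro ⟨hP, g, hg, e⟩
        refine ⟨hP, conjHom _ (g, 1),
          ⟨fun z hz => ((hpre z).mp hz).1, cj g, cj 1, Mor.conj ?_ hg, Mor.conj ?_ (Subgroup.one_mem _), fun x => rfl⟩,
          fun z hz => ((hpre z).mp hz).1,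
          fun x => (Q.prod ⊥).mul_mem ((Q.prod ⊥).mul_mem ⟨hg, Subgroup.one_mem _⟩ ((hpre x).mp x.2).1)
            ((Q.prod ⊥).inv_mem ⟨hg, Subgroup.one_mem _⟩),
          fun x => ((hpre x).mp x.2).2, fun x => ?_⟩
        · rintro _ ⟨z, hz, rfl⟩; exact ((hpre z).mp hz).1.1
        · rintro _ ⟨z, hz, rfl⟩; exact ((hpre z).mp hz).1.2
        · exact e _
      · rintro ⟨hP, φ, ⟨-, f₁, f₂, h₁, -, e⟩, hPle, hφ, hP', e'⟩
        obtain ⟨-, -, g, hg, eg⟩ := (innerFusion_inducedBy Q _ _).mp h₁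
        refine ⟨hP, g, hg, fun y => ?_⟩
        have hz : ((y : Ω), (1 : Ω)) ∈ preimageAlong θ P' :=
          (hpre _).mpr ⟨⟨hP y.2, Subgroup.one_mem _⟩, y.2⟩
        refine (e' ⟨_, hz⟩).trans ?_
        show (φ ⟨_, hz⟩).1 = _
        rw [e ⟨_, hz⟩]
        exact (eg _ ⟨_, hz, rfl⟩ : _)
  · rintro ⟨T, E, hE, D₀, -, Z, θ, -, -, -, -, hy, hfac⟩
    refine (S5146.result p hS F hF).mpr ?_
    rintro ⟨U, C, hC⟩
    have hTQ : T ≤ F.core := fun t ht => by
      have hmem : ((1, t) : Ω × Ω) ∈ F.core.prod T := ⟨F.core.one_mem, ht⟩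
      exact hfac.2.2.1 ▸ ⟨⟨(1, t), hmem⟩, hy t hmem⟩
    have hUT : U ≤ T := subsystem_dom_le (hE.2.1 U C hC)
    obtain ⟨hU, -⟩ := ComponentCore.component_fix hC.1 hS hF hC.2 F.core core_isNormal
    have hUS : U ≤ S := subnormal_le hC.1
    haveI := finite_of_le hUS
    exact quasisimple_nonabelian (hS.to_le hUS) hC.2
      ⟨⟨fun a b => Subtype.ext ((hU b.2).2 a (hTQ (hUT a.2)))⟩⟩

end Cfsg.Agent.S5310
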