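import Cfsg.Statements.S5317
import Cfsg.Agent.Fusion.SimpleCriterion
import Cfsg.Agent.Fusion.QuatDihedral
import Cfsg.Agent.Linear.PSL2FourCyclic
import Cfsg.Agent.Linear.SylowSL2
import Cfsg.Agent.S3116

set_option autoImplicit false
open Cfsg Cfsg.Agent.Fusion Cfsg.FusionSystem

namespace Cfsg.Agent.S5317

/-- Let F be a finite field of odd order q with q² ≡ 1 mod 16 (so that a Sylow 2-subgroup of PSL(2,q), dihedral of order the 2-part of (q²−1)/2, has order at least 8). Then the 2-fusion system of PSL(2,F) on a Sylow 2-subgroup is simple: saturated, over a nontrivial 2-group, with no normal subsystem other than the trivial one and itself. -/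
theorem result {F : Type*} [Field F] [Fintype F] (hodd : Fintype.card F % 2 = 1) (h16 : 16 ∣ Fintype.card F ^ 2 - 1)
    (S : Sylow 2 (Matrix.ProjectiveSpecialLinearGroup (Fin 2) F)) :
    (Cfsg.groupFusionSystem (S : Subgroup (Matrix.ProjectiveSpecialLinearGroup (Fin 2) F))).IsSimple 2 := by
  classical
  obtain ⟨p, hchar⟩ := CharP.exists F
  haveI := hchar
  haveI hp : Fact p.Prime := ⟨CharP.char_is_prime F p⟩
  haveI : Fact (Nat.Prime 2) := ⟨Nat.prime_two⟩
  have hp2 : p ≠ 2 := fun h => by
    subst h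
    have := FiniteField.even_card_of_char_two (F := F) (ringChar.eq F 2)
    omega
  have h2 : (2 : F) ≠ 0 := fun h =>
    hp2 ((Nat.prime_dvd_prime_iff_eq hp.out Nat.prime_two).mp ((CharP.cast_eq_zero_iff F p 2).mp
      (by exact_mod_cast h)))
  obtain ⟨Q, rfl⟩ := Sylow.mapSurjective_surjective Linear.toPSL_surjective 2 S
  obtain ⟨k, -, ⟨e⟩⟩ := Linear.sylow_two_SL2 p hp2 Q
  haveI : NeZero (2 ^ k) := ⟨pow_ne_zero _ two_ne_zero⟩
  set S := Q.mapSurjective Linear.toPSL_surjective with hSdef
  -- the Sylow subgroup is dihedral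
  have hk : 2 ≤ k := by
    have hd : 2 ^ 4 ∣ Nat.card (Matrix.SpecialLinearGroup (Fin 2) F) := by
      rw [Linear.card_SL_two]
      exact Dvd.dvd.mul_left h16 _
    rw [Nat.prime_two.pow_dvd_iff_le_factorization Nat.card_pos.ne'] at hd
    replace hd := Nat.pow_le_pow_right two_pos hd
    rw [← Q.card_eq_multiplicity] at hd
    rw [Nat.card_congr e.toEquiv, Nat.card_eq_fintype_card, QuaternionGroup.card] at hd
    by_contra hk
    interval_cases k <;> norm_num at hd
  let θ : (Q : Subgroup (Matrix.SpecialLinearGroup (Fin 2) F)) →*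
      (S : Subgroup (Matrix.ProjectiveSpecialLinearGroup (Fin 2) F)) :=
    MonoidHom.codRestrict (Linear.toPSL.comp (Q : Subgroup (Matrix.SpecialLinearGroup (Fin 2) F)).subtype)
      (S : Subgroup (Matrix.ProjectiveSpecialLinearGroup (Fin 2) F)) fun x => by
      rw [hSdef, Sylow.coe_mapSurjective]; exact Subgroup.mem_map_of_mem _ x.2
  have hθ : Function.Surjective θ := fun y => by
    obtain ⟨x, hx, hy⟩ := Subgroup.mem_map.mp
      ((SetLike.ext_iff.mp (Sylow.coe_mapSurjective Linear.toPSL_surjective Q) _).mp y.2)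
    exact ⟨⟨x, hx⟩, Subtype.ext hy⟩
  let ψ : (Q : Subgroup (Matrix.SpecialLinearGroup (Fin 2) F)) →* DihedralGroup (2 ^ k) := (quatToDihedral (2 ^ k)).comp e.toMonoidHom
  have hψ : Function.Surjective ψ := (quatToDihedral_surjective _).comp e.surjective
  have hker : θ.ker = ψ.ker := by
    ext x
    rw [MonoidHom.mem_ker, MonoidHom.mem_ker]
    have h1 : θ x = 1 ↔ x * x = 1 := by
      rw [← Subtype.coe_inj]
      show Linear.toPSL (x : Matrix.SpecialLinearGroup (Fin 2) F) = 1 ↔ _
      rw [Linear.toPSL_eq_one_iff]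
      constructor
      · rintro (h | h) <;> refine Subtype.ext ?_
        · show (x : Matrix.SpecialLinearGroup (Fin 2) F) * x = 1
          rw [h, one_mul]
        · show (x : Matrix.SpecialLinearGroup (Fin 2) F) * x = 1
          rw [h]
          exact Subtype.ext (by simp)
      · intro h
        exact Dickson.eq_one_or_of_sq hp2 (congrArg Subtype.val h)
    rw [h1]
    show _ ↔ quatToDihedral _ (e x) = 1
    rw [quatToDihedral_eq_one_iff, ← map_mul, MulEquiv.map_eq_one_iff]
  let eS : (S : Subgroup (Matrix.ProjectiveSpecialLinearGroup (Fin 2) F)) ≃* DihedralGroup (2 ^ k) :=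
    (QuotientGroup.quotientKerEquivOfSurjective θ hθ).symm.trans
      ((QuotientGroup.quotientMulEquivOfEq hker).trans
        (QuotientGroup.quotientKerEquivOfSurjective ψ hψ))
  have h4 : 4 ≤ 2 ^ k := le_trans (by norm_num) (Nat.pow_le_pow_right two_pos hk)
  have hS1 : (S : Subgroup (Matrix.ProjectiveSpecialLinearGroup (Fin 2) F)) ≠ ⊥ := fun h => by
    have := Nat.card_congr eS.toEquiv
    rw [h, Subgroup.card_bot, DihedralGroup.nat_card] at this
    omega
  refine group_isSimple_of_pAut S hS1 (fun T hT => stronglyClosed_trivial_of_classes S.isPGroup' ?_ hT) ?_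
  · intro z _ hz _ x hx
    set C := Subgroup.closure {s | s ∈ (S : Subgroup (Matrix.ProjectiveSpecialLinearGroup (Fin 2) F)) ∧ _root_.IsConj z s}
    have hmem : ∀ i, ((eS.symm (DihedralGroup.sr i) : (S : Subgroup (Matrix.ProjectiveSpecialLinearGroup (Fin 2) F))) : Matrix.ProjectiveSpecialLinearGroup (Fin 2) F) ∈ C := fun i => by
      refine Subgroup.subset_closure ⟨SetLike.coe_mem _, Linear.involutions_conj h2 z _ hz ?_⟩
      rw [Subgroup.orderOf_coe, MulEquiv.orderOf_eq, DihedralGroup.orderOf_sr]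
    suffices ∀ d, ((eS.symm d : (S : Subgroup (Matrix.ProjectiveSpecialLinearGroup (Fin 2) F))) : Matrix.ProjectiveSpecialLinearGroup (Fin 2) F) ∈ C by simpa using this (eS ⟨x, hx⟩)
    rintro (i | i)
    · rw [show DihedralGroup.r i = DihedralGroup.sr 0 * DihedralGroup.sr i by simp, map_mul]
      exact C.mul_mem (hmem 0) (hmem i)
    · exact hmem i
  · exact (S3116.result S.isPGroup' (Or.inl ⟨2 ^ k, h4, ⟨eS⟩⟩)).to_subgroup _

end Cfsg.Agent.S5317
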