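import Cfsg.Statements.S5320
import Cfsg.Agent.Fusion.SpFour.Main

set_option autoImplicit false
open Cfsg

namespace Cfsg.Agent.S5320

open Cfsg.Agent.Fusion Cfsg.Agent.Fusion.SpFour

/-- For a finite field F of odd order, the 2-fusion system of the projective symplectic group PSp(4,F) on a Sylow 2-subgroup is simple. -/
theorem result {F : Type*} [Field F] [Fintype F] (hodd : Fintype.card F % 2 = 1) (S : Sylow 2 (Cfsg.PSp 2 F)) :
    (Cfsg.groupFusionSystem (S : Subgroup (Cfsg.PSp 2 F))).IsSimple 2 := by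
  classical
  haveI : Fact (Nat.Prime 2) := ⟨Nat.prime_two⟩
  let π₀ := QuotientGroup.mk' (Subgroup.center (Matrix.symplecticGroup (Fin 2) F))
  have hπ₀ : Function.Surjective π₀ := QuotientGroup.mk'_surjective _
  obtain ⟨Q⟩ : Nonempty (Sylow 2 (Matrix.SpecialLinearGroup (Fin 2) F)) := inferInstance
  let W : Sylow 2 (Matrix.symplecticGroup (Fin 2) F) := Sylow.ofCard _ (isSylow_wr hodd Q)
  obtain ⟨g, hg⟩ := MulAction.exists_smul_eq (Cfsg.PSp 2 F) (W.mapSurjective hπ₀) S
  let π : Matrix.symplecticGroup (Fin 2) F →* Cfsg.PSp 2 F := (MulAut.conj g).toMonoidHom.comp π₀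
  have hπ : Function.Surjective π := (MulAut.conj g).surjective.comp hπ₀
  have hker : ∀ x, π x = 1 ↔ x = 1 ∨ x = ng := fun x => by
    show (MulAut.conj g) (π₀ x) = 1 ↔ _
    rw [MulEquiv.map_eq_one_iff, QuotientGroup.mk'_apply, QuotientGroup.eq_one_iff,
      mem_center_iff hodd]
  have hS : (S : Subgroup (Cfsg.PSp 2 F)) = (wr (Q : Subgroup _)).map π := by
    rw [← hg, Sylow.coe_subgroup_smul, Subgroup.pointwise_smul_def, Sylow.coe_mapSurjective,
      ← Subgroup.map_map]
    rfl
  have h2 : (2 : F) ≠ 0 := two_ne_zero_of_odd hodd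
  refine group_isSimple' S (fun h => ?_) (fun T hT => closed_trivial hker hodd (exists_qfacts hodd Q)
    hS S.isPGroup' hT) (aut_le_target hπ hker hodd (exists_qfacts hodd Q) Q.isPGroup' hS)
  have : π dz = 1 := by
    rw [← Subgroup.mem_bot, ← h, hS]
    exact ⟨dz, Φ_mem_wr (one_mem _) (exists_qfacts hodd Q).neg, rfl⟩
  rcases (hker _).mp this with e | e
  · rw [dz, ← map_one Φ] at e
    exact neg_one_ne h2 (congrArg Prod.snd (Φ_injective e))
  · exact neg_one_ne h2 (congrArg Prod.fst (Φ_injective e)).symm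

end Cfsg.Agent.S5320
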