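import Cfsg.Statements.S5331
import Cfsg.Agent.LeadWork.DistinctCyclic

set_option autoImplicit false
open Cfsg

namespace Cfsg.Agent.S5331

/-- Let S be a finite abelian 2-group that is a direct product of cyclic groups of pairwise distinct orders 2^{a_1} < 2^{a_2} < ⋯ < 2^{a_n} (all a_i ≥ 1). Then every saturated fusion system over S is the inner one: its maps are exactly the conjugations by elements of S. -/
theorem result {Ω : Type*} [Group Ω] {S : Subgroup Ω} [Finite S] (n : ℕ) (a : Fin n → ℕ) (ha : StrictMono a) (ha1 : ∀ i, 1 ≤ a i) (e : ↥S ≃* Multiplicative ((i : Fin n) → ZMod (2 ^ a i))) (F : Cfsg.FusionSystem S) (hF : F.IsSaturated 2) (P : Subgroup Ω) : F.Hom P = (Cfsg.innerFusionSystem S).Hom P := by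
  haveI hfin := Cfsg.Agent.Fusion.finite_mulAut (G := S)
  have hS : IsPGroup 2 S := by
    refine IsPGroup.of_equiv ?_ e.symm
    intro x
    refine ⟨∑ i, a i, Multiplicative.toAdd.injective (funext fun j => ?_)⟩
    rw [toAdd_pow, toAdd_one, Pi.smul_apply, nsmul_eq_mul, Pi.zero_apply,
      (ZMod.natCast_eq_zero_iff _ _).2 (pow_dvd_pow 2 (Finset.single_le_sum (fun _ _ => Nat.zero_le _)
        (Finset.mem_univ j))), zero_mul]
  have hab : ∀ x ∈ S, ∀ y ∈ S, x * y = y * x := fun x hx y hy =>
    congrArg Subtype.val (e.injective (by rw [map_mul, map_mul, mul_comm]) :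
      (⟨x, hx⟩ : S) * ⟨y, hy⟩ = ⟨y, hy⟩ * ⟨x, hx⟩)
  have hodd : ∀ β : MulAut S, Odd (orderOf β) → β = 1 := by
    intro β hβ
    let α : AddAut ((i : Fin n) → ZMod (2 ^ a i)) :=
      (MulEquiv.toAdditive (e.symm.trans (β.trans e)) :)
    have hit : ∀ (k : ℕ) z, (α : ((i : Fin n) → ZMod (2 ^ a i)) → _)^[k] z =
        Multiplicative.toAdd (e ((β ^ k) (e.symm (Multiplicative.ofAdd z)))) := by
      intro k
      induction k with
      | zero => intro z; simp
      | succ k ih =>
        intro z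
        rw [Function.iterate_succ_apply', ih, pow_succ']
        show Multiplicative.toAdd (e (β (e.symm (Multiplicative.ofAdd (Multiplicative.toAdd
          (e ((β ^ k) (e.symm (Multiplicative.ofAdd z))))))))) = _
        simp
    have hid := Cfsg.Agent.LeadWork.DistinctCyclic.eq_id_of_odd α ha hβ fun z => by
      rw [hit, pow_orderOf_eq_one]; simp
    ext x
    have h := hid (Multiplicative.toAdd (e x))
    have h' : Multiplicative.toAdd (e (β (e.symm (e x)))) = Multiplicative.toAdd (e x) := h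
    rw [MulEquiv.symm_apply_apply] at h'
    exact congrArg Subtype.val (e.injective (Multiplicative.toAdd.injective h'))
  haveI : Fact (Nat.Prime 2) := ⟨Nat.prime_two⟩
  have hp : IsPGroup 2 (F.autGroup S) := by
    intro α
    obtain ⟨k, m, hm, hkm⟩ := Nat.exists_eq_two_pow_mul_odd (orderOf_pos α).ne'
    refine ⟨k, Subtype.ext (hodd _ ?_)⟩
    rw [SubmonoidClass.coe_pow, orderOf_pow' _ (pow_ne_zero _ two_ne_zero), Subgroup.orderOf_coe, hkm,
      Nat.gcd_eq_right (dvd_mul_right _ _), Nat.mul_div_cancel_left _ (by positivity)]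
    exact hm
  have h := Cfsg.Agent.Fusion.eq_inner_of hS hF (Cfsg.Agent.Fusion.autGroup_self_le_inn hS hF hp)
    fun Q hQ => by
      obtain ⟨x, hxS, hxP⟩ := SetLike.exists_of_lt (Cfsg.Agent.Fusion.essential_lt hS hF hQ)
      exact hxP (hQ.1.2 Q (Cfsg.Agent.Fusion.isConj_refl hQ.1.1)
        ⟨hxS, fun y hy => hab y (hQ.1.1 hy) x hxS⟩)
  rw [h]

end Cfsg.Agent.S5331
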