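import Cfsg.Statements.S5396
import Cfsg.Agent.FGS3.Extraspecial
import Cfsg.Agent.LocalEven.ExtraspecialCount
-- import your own Cfsg.Agent.* helpers here

set_option autoImplicit false
open Cfsg
open scoped commutatorElement

namespace Cfsg.Agent.S5396

theorem two_eq : (2 : ZMod 2) = 0 := rfl

theorem pair_comm_zero : ∀ x y : ZMod 2 × ZMod 2, x + y + x + y = 0 := by decide

theorem eq_of_add_ne_one : ∀ p q : ZMod 2, p + q ≠ 1 → q = p := by decide

/-- the bilinear form of one hyperbolic (`false`) or elliptic (`true`) block -/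
def blk (b : Bool) (u v : ZMod 2 × ZMod 2) : ZMod 2 :=
  u.1 * v.2 + if b then u.1 * v.1 + u.2 * v.2 else 0

abbrev Vec (n : ℕ) : Type := Fin n → ZMod 2 × ZMod 2

def form {n : ℕ} (s : Fin n → Bool) (u v : Vec n) : ZMod 2 := ∑ i, blk (s i) (u i) (v i)

theorem blk_add_left (b : Bool) (u u' v : ZMod 2 × ZMod 2) :
    blk b (u + u') v = blk b u v + blk b u' v := by
  cases b <;> simp [blk] <;> ring

theorem blk_add_right (b : Bool) (u v v' : ZMod 2 × ZMod 2) :
    blk b u (v + v') = blk b u v + blk b u v' := by
  cases b <;> simp [blk] <;> ring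

theorem form_add_left {n : ℕ} (s : Fin n → Bool) (u u' v : Vec n) :
    form s (u + u') v = form s u v + form s u' v := by
  simp [form, blk_add_left, Finset.sum_add_distrib]

theorem form_add_right {n : ℕ} (s : Fin n → Bool) (u v v' : Vec n) :
    form s u (v + v') = form s u v + form s u v' := by
  simp [form, blk_add_right, Finset.sum_add_distrib]

theorem form_zero_left {n : ℕ} (s : Fin n → Bool) (v : Vec n) : form s 0 v = 0 := by
  simp [form, blk]

theorem form_zero_right {n : ℕ} (s : Fin n → Bool) (v : Vec n) : form s v 0 = 0 := by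
  simp [form, blk]

/-- the central extension of the vectors by `ZMod 2` with cocycle `form s` -/
@[ext] structure Ext {n : ℕ} (s : Fin n → Bool) where
  v : Vec n
  a : ZMod 2

variable {n : ℕ} {s : Fin n → Bool}

instance : Mul (Ext s) := ⟨fun g h => ⟨g.v + h.v, g.a + h.a + form s g.v h.v⟩⟩
instance : One (Ext s) := ⟨⟨0, 0⟩⟩
instance : Inv (Ext s) := ⟨fun g => ⟨g.v, g.a + form s g.v g.v⟩⟩

@[simp] theorem mul_v (g h : Ext s) : (g * h).v = g.v + h.v := rfl
@[simp] theorem mul_a (g h : Ext s) : (g * h).a = g.a + h.a + form s g.v h.v := rfl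
@[simp] theorem one_v : (1 : Ext s).v = 0 := rfl
@[simp] theorem one_a : (1 : Ext s).a = 0 := rfl
@[simp] theorem inv_v (g : Ext s) : g⁻¹.v = g.v := rfl
@[simp] theorem inv_a (g : Ext s) : g⁻¹.a = g.a + form s g.v g.v := rfl

instance : Group (Ext s) where
  mul_assoc g h k := by
    ext : 1
    · simp [add_assoc]
    · simp [form_add_left, form_add_right]; ring
  one_mul g := by
    ext : 1
    · simp
    · simp [form_zero_left]
  mul_one g := by
    ext : 1
    · simp
    · simp [form_zero_right]
  inv_mul_cancel g := by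
    ext : 1
    · simp [← two_smul (ZMod 2), two_eq]
    · simp only [mul_a, inv_a, inv_v, one_a]
      linear_combination (g.a + form s g.v g.v) * two_eq

def equiv : Ext s ≃ Vec n × ZMod 2 where
  toFun g := (g.v, g.a)
  invFun p := ⟨p.1, p.2⟩
  left_inv _ := rfl
  right_inv _ := rfl

instance : Finite (Ext s) := Finite.of_equiv _ equiv.symm

theorem card_ext : Nat.card (Ext s) = 2 ^ (2 * n + 1) := by
  rw [Nat.card_congr equiv, Nat.card_prod, Nat.card_fun, Nat.card_prod]
  simp [pow_succ, pow_mul]

theorem sq_eq (g : Ext s) : g ^ 2 = ⟨0, form s g.v g.v⟩ := by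
  ext : 1
  · rw [sq, mul_v]; simp [← two_smul (ZMod 2), two_eq]
  · rw [sq, mul_a]
    linear_combination g.a * two_eq

theorem commute_iff (g h : Ext s) : g * h = h * g ↔ form s g.v h.v = form s h.v g.v := by
  constructor
  · intro e
    have := congrArg Ext.a e
    simp only [mul_a] at this
    linear_combination this
  · intro e
    ext : 1
    · simp [add_comm]
    · simp only [mul_a]; linear_combination e

theorem mem_center_iff' {g : Ext s} : g ∈ Subgroup.center (Ext s) ↔ g.v = 0 := by
  rw [Subgroup.mem_center_iff]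
  constructor
  · intro h
    funext i
    have h1 : ∀ w, blk (s i) w (g.v i) = blk (s i) (g.v i) w := by
      intro w
      have := (commute_iff _ _).1 (h ⟨Pi.single i w, 0⟩)
      simp only [form] at this
      rwa [Finset.sum_eq_single i, Finset.sum_eq_single i, Pi.single_eq_same] at this
      · intro j _ hj; simp [Pi.single_eq_of_ne hj, blk]
      · simp
      · intro j _ hj; simp [Pi.single_eq_of_ne hj, blk]
      · simp
    show g.v i = 0
    revert h1
    generalize s i = b
    generalize g.v i = u
    revert b u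
    decide
  · intro h x
    rw [commute_iff, h, form_zero_left, form_zero_right]

theorem card_center : Nat.card (Subgroup.center (Ext s)) = 2 := by
  rw [show 2 = Nat.card (ZMod 2) by simp]
  refine Nat.card_congr
    { toFun := fun g => g.1.a
      invFun := fun a => ⟨⟨0, a⟩, mem_center_iff'.2 rfl⟩
      left_inv := ?_
      right_inv := fun a => rfl }
  rintro ⟨g, hg⟩
  apply Subtype.ext
  ext : 1
  · exact (mem_center_iff'.1 hg).symm
  · rfl

theorem isExtraspecial (hn : 1 ≤ n) : Cfsg.IsExtraspecial 2 (Ext s) := by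
  haveI := Fact.mk Nat.prime_two
  have hP : IsPGroup 2 (Ext s) := IsPGroup.of_card card_ext
  have hle : commutator (Ext s) ≤ Subgroup.center (Ext s) := by
    rw [commutator_eq_closure, Subgroup.closure_le]
    rintro _ ⟨a, b, rfl⟩
    rw [SetLike.mem_coe, mem_center_iff', commutatorElement_def]
    simp only [mul_v, inv_v]
    funext i
    exact pair_comm_zero (a.v i) (b.v i)
  have hne : commutator (Ext s) ≠ ⊥ := by
    intro h
    let g : Ext s := ⟨Pi.single ⟨0, hn⟩ (1, 0), 0⟩
    have hg : g.v ≠ 0 := by
      intro e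
      have := congrArg Prod.fst (congrFun e ⟨0, hn⟩)
      simp [g] at this
    apply hg
    rw [← mem_center_iff', Subgroup.mem_center_iff]
    intro x
    rw [← commutatorElement_eq_one_iff_mul_comm, ← Subgroup.mem_bot, ← h]
    exact Subgroup.commutator_mem_commutator (Subgroup.mem_top _) (Subgroup.mem_top _)
  have hcm : commutator (Ext s) = Subgroup.center (Ext s) := by
    refine Subgroup.eq_of_le_of_card_ge hle ?_
    rw [card_center]
    exact (Subgroup.one_lt_card_iff_ne_bot _).2 hne
  refine ⟨⟨hP, le_antisymm ?_ (hcm ▸ FGS3.commutator_le_frattini hP), hcm⟩, card_center⟩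
  exact FGS3.frattini_le_of_elementary (p := 2) hle fun g => by
    rw [sq_eq, mem_center_iff']

/-- the elementary abelian subgroup with all second coordinates zero and first vanishing on `s` -/
def coordSub (s : Fin n → Bool) : Subgroup (Ext s) where
  carrier := {g | ∀ i, (g.v i).2 = 0 ∧ (s i = true → (g.v i).1 = 0)}
  one_mem' := fun i => by simp
  mul_mem' := fun {g h} hg hh i => by
    refine ⟨by simp [(hg i).1, (hh i).1], fun hi => ?_⟩
    simp [(hg i).2 hi, (hh i).2 hi]
  inv_mem' := fun {g} hg => hg

theorem coordSub_form {g h : Ext s} (hg : g ∈ coordSub s) (hh : h ∈ coordSub s) :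
    form s g.v h.v = 0 := by
  refine Finset.sum_eq_zero fun i _ => ?_
  have h1 := hg i
  have h2 := hh i
  cases hb : s i <;> simp [blk, h1.1, h2.1, hb]
  simp [h1.2 hb]

theorem coordSub_elem : Cfsg.IsElementaryAbelian 2 (coordSub s) := by
  refine ⟨⟨⟨fun a b => Subtype.ext ((commute_iff _ _).2 ?_)⟩⟩, fun a ha => ?_⟩
  · rw [coordSub_form a.2 b.2, coordSub_form b.2 a.2]
  · rw [sq_eq, coordSub_form ha ha]
    rfl

theorem coordSub_card : Nat.card (coordSub s) =
    2 ^ ((Finset.univ.filter fun i => s i = false).card + 1) := by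
  classical
  have e : coordSub s ≃ ({i // s i = false} → ZMod 2) × ZMod 2 :=
    { toFun := fun g => (fun i => (g.1.v i.1).1, g.1.a)
      invFun := fun p => ⟨⟨fun i => (if h : s i = false then p.1 ⟨i, h⟩ else 0, 0), p.2⟩,
        fun i => ⟨rfl, fun hi => by simp [hi]⟩⟩
      left_inv := ?_
      right_inv := ?_ }
  · rw [Nat.card_congr e, Nat.card_prod, Nat.card_fun]
    simp [Fintype.card_subtype, pow_succ]
  · rintro ⟨g, hg⟩
    apply Subtype.ext
    ext : 1
    · funext i
      refine Prod.ext ?_ (hg i).1.symm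
      cases hi : s i
      · simp [hi]
      · simp [hi, (hg i).2 hi]
    · rfl
  · rintro ⟨f, a⟩
    refine Prod.ext (funext fun i => ?_) rfl
    simp [i.2]

/-- sign of a value in `ZMod 2` -/
def sgn (a : ZMod 2) : ℤ := if a = 0 then 1 else -1

theorem sgn_add : ∀ a b : ZMod 2, sgn (a + b) = sgn a * sgn b := by decide

theorem sgn_sum {ι : Type*} (t : Finset ι) (f : ι → ZMod 2) :
    sgn (∑ i ∈ t, f i) = ∏ i ∈ t, sgn (f i) := by
  classical
  induction t using Finset.induction_on with
  | empty => simp [sgn]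
  | insert a t ha ih => rw [Finset.sum_insert ha, Finset.prod_insert ha, sgn_add, ih]

theorem sum_sgn (s : Fin n → Bool) :
    ∑ v : Vec n, sgn (form s v v) = ∏ i, (if s i then -2 else 2 : ℤ) := by
  simp only [form, sgn_sum]
  rw [← Fintype.prod_sum fun i (u : ZMod 2 × ZMod 2) => sgn (blk (s i) u u)]
  refine Finset.prod_congr rfl fun i _ => ?_
  generalize s i = b
  revert b
  decide

theorem card_elem_le (hn : 1 ≤ n) {A : Subgroup (Ext s)} (hA : Cfsg.IsElementaryAbelian 2 A) :
    Nat.card A ≤ 2 ^ (n + 1) ∧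
      (Nat.card A = 2 ^ (n + 1) → 0 < ∑ v : Vec n, sgn (form s v v)) := by
  classical
  haveI := Fact.mk Nat.prime_two
  have hAc := hA.1.is_comm.comm
  set Z := Subgroup.center (Ext s)
  set B := A ⊔ Z with hBdef
  have hcount := LocalEven.card_centralizer_mul_card (isExtraspecial (s := s) hn)
    (show Subgroup.center (Ext s) ≤ B from le_sup_right)
  rw [card_ext] at hcount
  have hBC : B ≤ Subgroup.centralizer (B : Set (Ext s)) := by
    rw [Subgroup.le_centralizer_iff]
    refine sup_le ?_ ?_
    · rw [Subgroup.le_centralizer_iff]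
      refine sup_le ?_ ?_
      · intro a ha b hb
        exact (congrArg Subtype.val (hAc ⟨a, ha⟩ ⟨b, hb⟩)).symm
      · intro z hz b hb
        exact Subgroup.mem_center_iff.1 hz b
    · intro z hz b hb
      exact Subgroup.mem_center_iff.1 hz b
  have hsq : Nat.card B * Nat.card B ≤ 2 ^ (n + 1) * 2 ^ (n + 1) := by
    calc Nat.card B * Nat.card B
        ≤ Nat.card (Subgroup.centralizer (B : Set (Ext s))) * Nat.card B :=
          Nat.mul_le_mul_right _ (Subgroup.card_le_of_le hBC)
      _ = 2 ^ (2 * n + 1) * 2 := hcount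
      _ = _ := by rw [← pow_succ, ← pow_add]; ring_nf
  have hBle : Nat.card B ≤ 2 ^ (n + 1) := Nat.mul_self_le_mul_self_iff.1 hsq
  refine ⟨(Subgroup.card_le_of_le le_sup_left).trans hBle, fun hcard => ?_⟩
  have hAB : A = B := Subgroup.eq_of_le_of_card_ge le_sup_left (hBle.trans hcard.ge)
  have hCB : Subgroup.centralizer (B : Set (Ext s)) = B := by
    refine (Subgroup.eq_of_le_of_card_ge hBC ?_).symm
    refine Nat.le_of_mul_le_mul_right (c := Nat.card B) ?_ Nat.card_pos
    rw [hcount, ← hAB, hcard, ← pow_succ, ← pow_add]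
    exact le_of_eq (by ring_nf)
  set U : Finset (Vec n) := Finset.univ.filter fun u => (⟨u, 0⟩ : Ext s) ∈ A
  have hZA : Z ≤ A := hAB ▸ le_sup_right
  have hmemU : ∀ g : Ext s, g ∈ A ↔ g.v ∈ U := by
    intro g
    have : g = (⟨g.v, 0⟩ : Ext s) * ⟨0, g.a⟩ := by
      ext : 1
      · simp
      · simp [form_zero_right]
    have hz : (⟨0, g.a⟩ : Ext s) ∈ A := hZA (mem_center_iff'.2 rfl)
    simp only [U, Finset.mem_filter, Finset.mem_univ, true_and]
    conv_lhs => rw [this]
    exact A.mul_mem_cancel_right hz
  have hQ : ∀ u ∈ U, form s u u = 0 := by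
    intro u hu
    have := hA.2 _ ((hmemU ⟨u, 0⟩).2 hu)
    rw [sq_eq] at this
    exact congrArg Ext.a this
  have hself : ∀ v : Vec n, v ∉ U → ∃ u ∈ U, form s v u + form s u v = 1 := by
    intro v hv
    by_contra hcon
    push Not at hcon
    apply hv
    have : (⟨v, 0⟩ : Ext s) ∈ Subgroup.centralizer (B : Set (Ext s)) := by
      intro x hx
      rw [← hAB] at hx
      rw [commute_iff]
      have h1 := hcon x.v ((hmemU x).1 hx)
      exact eq_of_add_ne_one _ _ h1
    rw [hCB, ← hAB] at this
    exact (hmemU _).1 this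
  have hUadd : ∀ u ∈ U, ∀ w ∈ U, u + w ∈ U := by
    intro u hu w hw
    simpa using (hmemU ((⟨u, 0⟩ : Ext s) * ⟨w, 0⟩)).1
      (mul_mem ((hmemU ⟨u, 0⟩).2 hu) ((hmemU ⟨w, 0⟩).2 hw))
  have hself2 : ∀ w : Vec n, w + w = 0 := fun w => by
    simp [← two_smul (ZMod 2), two_eq]
  have hcoset : ∀ v : Vec n, ∑ u ∈ U, sgn (form s (v + u) (v + u)) =
      if v ∈ U then (U.card : ℤ) else 0 := by
    intro v
    have e : ∀ u ∈ U, sgn (form s (v + u) (v + u)) =
        sgn (form s v v) * sgn (form s v u + form s u v) := by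
      intro u hu
      rw [← sgn_add, form_add_left, form_add_right, form_add_right, hQ u hu]
      ring_nf
    rw [Finset.sum_congr rfl e, ← Finset.mul_sum]
    by_cases hv : v ∈ U
    · rw [if_pos hv, hQ v hv]
      have : ∀ u ∈ U, sgn (form s v u + form s u v) = 1 := by
        intro u hu
        have := hQ _ (hUadd v hv u hu)
        rw [form_add_left, form_add_right, form_add_right, hQ u hu, hQ v hv] at this
        simp only [zero_add, add_zero] at this
        rw [this]; rfl
      rw [Finset.sum_congr rfl this]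
      simp [sgn]
    · rw [if_neg hv]
      obtain ⟨u₀, hu₀, h1⟩ := hself v hv
      refine mul_eq_zero_of_right _ ?_
      have hflip : ∀ u ∈ U, sgn (form s v (u + u₀) + form s (u + u₀) v) =
          - sgn (form s v u + form s u v) := by
        intro u _
        rw [form_add_left, form_add_right,
          show form s v u + form s v u₀ + (form s u v + form s u₀ v) =
            (form s v u + form s u v) + (form s v u₀ + form s u₀ v) by ring, h1, sgn_add]
        simp [sgn]
      have := Finset.sum_nbij' (s := U) (t := U) (fun u => u + u₀) (fun u => u + u₀)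
        (fun u hu => hUadd u hu u₀ hu₀) (fun u hu => hUadd u hu u₀ hu₀)
        (fun u _ => by simp [add_assoc, hself2]) (fun u _ => by simp [add_assoc, hself2])
        (f := fun u => - sgn (form s v u + form s u v))
        (g := fun u => sgn (form s v u + form s u v))
        (fun u hu => (hflip u hu).symm)
      rw [Finset.sum_neg_distrib] at this
      omega
  have htot : (U.card : ℤ) * ∑ v : Vec n, sgn (form s v v) = U.card * U.card := by
    calc (U.card : ℤ) * ∑ v : Vec n, sgn (form s v v)
        = ∑ u ∈ U, ∑ v : Vec n, sgn (form s (v + u) (v + u)) := by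
          have hshift : ∀ u ∈ U, ∑ v : Vec n, sgn (form s (v + u) (v + u)) =
              ∑ v : Vec n, sgn (form s v v) := fun u _ =>
            Equiv.sum_comp (Equiv.addRight u) fun v => sgn (form s v v)
          rw [Finset.sum_congr rfl hshift]
          simp
      _ = ∑ v : Vec n, ∑ u ∈ U, sgn (form s (v + u) (v + u)) := Finset.sum_comm
      _ = _ := by
          simp only [hcoset]
          rw [Finset.sum_ite_mem, Finset.univ_inter]
          simp
  have hpos : (0 : ℤ) < U.card := by
    exact_mod_cast Finset.card_pos.2 ⟨0, (hmemU 1).1 A.one_mem⟩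
  nlinarith


/-- For every n ≥ 1 there exist finite extraspecial 2-groups of order 2^(2n+1) whose 2-rank (the largest rank of an elementary abelian subgroup) is n, and ones whose 2-rank is n + 1 (so for each such order there are two non-isomorphic extraspecial 2-groups, told apart by their 2-rank). -/
theorem result (n : ℕ) (hn : 1 ≤ n) : ∀ r ∈ ({n, n + 1} : Set ℕ), ∃ (E : Type) (_ : Group E) (_ : Finite E), Cfsg.IsExtraspecial 2 E ∧ Nat.card E = 2 ^ (2 * n + 1) ∧ sSup {k : ℕ | ∃ A : Subgroup E, Cfsg.IsElementaryAbelian 2 A ∧ Nat.card A = 2 ^ k} = r := by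
  intro r hr
  have key : ∀ (t : Fin n → Bool) (k : ℕ), k ≤ n + 1 →
      k = (Finset.univ.filter fun i => t i = false).card + 1 →
      (k ≠ n + 1 → ∑ v : Vec n, sgn (form t v v) ≤ 0 ∧ k = n) →
      sSup {j : ℕ | ∃ A : Subgroup (Ext t), Cfsg.IsElementaryAbelian 2 A ∧ Nat.card A = 2 ^ j} = k := by
    intro t k hk hcount hS
    have hmem : k ∈ {j : ℕ | ∃ A : Subgroup (Ext t), Cfsg.IsElementaryAbelian 2 A ∧ Nat.card A = 2 ^ j} :=
      ⟨coordSub t, coordSub_elem, by rw [coordSub_card, ← hcount]⟩
    have hub : ∀ j ∈ {j : ℕ | ∃ A : Subgroup (Ext t), Cfsg.IsElementaryAbelian 2 A ∧ Nat.card A = 2 ^ j},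
        j ≤ k := by
      rintro j ⟨A, hA, hj⟩
      obtain ⟨h1, h2⟩ := card_elem_le hn hA
      rw [hj] at h1 h2
      have hj1 : j ≤ n + 1 := (Nat.pow_le_pow_iff_right (by norm_num)).1 h1
      by_contra hlt
      obtain ⟨h3, h4⟩ := hS (by omega)
      have : j = n + 1 := by omega
      have h5 := h2 (by rw [this])
      omega
    exact le_antisymm (csSup_le ⟨k, hmem⟩ hub) (le_csSup ⟨k, hub⟩ hmem)
  rcases hr with hr | hr
  · let t : Fin n → Bool := fun i => decide (i = ⟨0, hn⟩)
    refine ⟨Ext t, inferInstance, inferInstance, isExtraspecial hn, card_ext, ?_⟩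
    have hc : (Finset.univ.filter fun i => t i = false).card + 1 = n := by
      rw [show (Finset.univ.filter fun i => t i = false) = Finset.univ.erase ⟨0, hn⟩ by
        ext i; simp [t, Finset.mem_erase]]
      rw [Finset.card_erase_of_mem (Finset.mem_univ _), Finset.card_univ, Fintype.card_fin]
      omega
    rw [hr]
    refine key t n (by omega) hc.symm fun _ => ⟨?_, rfl⟩
    rw [sum_sgn, ← Finset.mul_prod_erase Finset.univ _ (Finset.mem_univ (⟨0, hn⟩ : Fin n))]
    refine mul_nonpos_of_nonpos_of_nonneg (by simp [t]) (Finset.prod_nonneg fun i hi => ?_)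
    simp [t, (Finset.mem_erase.1 hi).1]
  · refine ⟨Ext (fun _ : Fin n => false), inferInstance, inferInstance, isExtraspecial hn,
      card_ext, ?_⟩
    rw [Set.mem_singleton_iff] at hr
    rw [hr]
    exact key _ (n + 1) le_rfl (by simp) fun h => absurd rfl h

end Cfsg.Agent.S5396
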