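import Cfsg.Statements.S5469
import Cfsg.Agent.S0815
import Cfsg.Agent.S5463
import Cfsg.Agent.Core.M22Hexad
import Cfsg.Agent.Core.M22Psi
import Cfsg.Agent.Core.M22Seven

set_option autoImplicit false
set_option linter.unusedSectionVars false
set_option linter.unusedSimpArgs false
set_option linter.unusedVariables false
open Cfsg

namespace Cfsg.Agent.S5469

open Cfsg.Agent.KnownA
open Cfsg.Agent.Forms (frobQ)
open Cfsg.Agent.FGS3
open Cfsg.Agent.Core
open Cfsg.Agent.S5463 (Sys pair_unique)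

section SU

variable {F : Type} [Field F] [Fintype F] (hF : Fintype.card F = 2 ^ 2)
include hF

/-- Fixing the singular vectors perpendicular to `p` means fixing all of them. -/
theorem fix_iso_perp {p : Fin 6 → F} (hp0 : p ≠ 0) (hpp : ub hF p p = 0) {g : Cfsg.SU 6 F 2}
    (hv : ∀ v, ub hF v v = 0 → ub hF p v = 0 → act g v = v) :
    ∀ w, ub hF p w = 0 → act g w = w := by
  obtain ⟨f, hff, hpf⟩ := SU7.iso_partner hF hp0 hpp
  have hpair : IsPair hF ⊤ p f := ⟨trivial, trivial, hpp, hff, hpf⟩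
  have hPnd := perpPair_nondeg hF (SU7.top_nondeg hF) hpair
  have hdim := finrank_perpPair hF hpair
  rw [SU7.top_finrank hF] at hdim
  obtain ⟨e', he', he'0, hee'⟩ := exists_isotropic hF (perpPair hF ⊤ p f) (by omega)
  obtain ⟨f', hf', hff', hef'⟩ := exists_partner hF _ hPnd he' he'0 hee'
  have hpe' : ub hF p e' = 0 := ((mem_perpPair hF).mp he').2.1
  have hpf' : ub hF p f' = 0 := ((mem_perpPair hF).mp hf').2.1
  have hfe' : ub hF f' e' = 1 := by rw [← ub_symm hF, hef', map_one]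
  obtain ⟨t, ht⟩ := exists_trace_one hF
  intro w hpw
  set α := ub hF f' w with hα
  set β := ub hF e' w with hβ
  set x₀ := w - α • e' - β • f' with hx₀
  have h00 : ub hF p x₀ = 0 := by
    simp [hx₀, ub_sub_right hF, ub_smul_right hF, hpe', hpf', hpw]
  have h01 : ub hF e' x₀ = 0 := by simp [hx₀, ub_sub_right hF, ub_smul_right hF, hee', hef', hβ]
  have h02 : ub hF f' x₀ = 0 := by simp [hx₀, ub_sub_right hF, ub_smul_right hF, hff', hfe', hα]
  set d := -(t * ub hF x₀ x₀) with hd'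
  have hy : ub hF (e' + d • f' + x₀) (e' + d • f' + x₀) = 0 := by
    simp only [ub_add_left hF, ub_add_right hF, ub_smul_left hF, ub_smul_right hF, hee', hff', hef',
      hfe', h01, h02, ub_eq_zero_symm hF h01, ub_eq_zero_symm hF h02, hd', map_neg, map_mul,
      ub_self_fixed hF]
    linear_combination -(ub hF x₀ x₀) * ht
  have hsum : w = (e' + d • f' + x₀) + (α - 1) • e' + (β - d) • f' := by
    rw [hx₀, sub_smul, sub_smul, one_smul]; abel
  rw [hsum, map_add, map_add, hv _ hy (by simp [ub_add_right hF, ub_smul_right hF, hpe', hpf', h00]),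
    map_smul, map_smul, hv e' hee' hpe', hv f' hff' hpf']

theorem su4_center : Subgroup.center (Cfsg.SU 4 F 2) = ⊥ := by
  refine Subgroup.eq_bot_of_card_eq _ ?_
  rw [Forms.card_center_SU hF (by omega)]
  norm_num

theorem su4_card : Nat.card (Cfsg.SU 4 F 2) = 25920 := by
  have h := Forms.card_SU hF (n := 4) (by omega)
  simp only [Finset.prod_range_succ, Finset.prod_range_zero] at h
  norm_num [Nat.even_iff] at h
  omega

/-- `SU₄(2)` is its own projective group. -/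
noncomputable def toPSU4 : Cfsg.SU 4 F 2 ≃* Cfsg.PSU 4 F 2 :=
  MulEquiv.ofBijective (QuotientGroup.mk' (Subgroup.center (Cfsg.SU 4 F 2)))
    ⟨(MonoidHom.ker_eq_bot_iff _).1 (by rw [QuotientGroup.ker_mk', su4_center hF]),
      QuotientGroup.mk'_surjective _⟩

theorem su4_normal (N : Subgroup (Cfsg.SU 4 F 2)) [hN : N.Normal] : N = ⊥ ∨ N = ⊤ := by
  have := Forms.psu_simple hF (n := 4) (by omega) (by omega)
  set m := QuotientGroup.mk' (Subgroup.center (Cfsg.SU 4 F 2)) with hm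
  have hinj : Function.Injective m := (MonoidHom.ker_eq_bot_iff _).1 (by
    rw [hm, QuotientGroup.ker_mk', su4_center hF])
  have hsurj : Function.Surjective m := QuotientGroup.mk'_surjective _
  rcases Subgroup.Normal.eq_bot_or_eq_top (hN.map m hsurj) with h | h
  · exact Or.inl ((Subgroup.map_eq_bot_iff_of_injective N hinj).1 h)
  · exact Or.inr (Subgroup.map_injective hinj (h.trans (Subgroup.map_top_of_surjective m hsurj).symm))

/-- The transvections generate. -/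
theorem su4_gen (R : Subgroup (Cfsg.SU 4 F 2))
    (hR : ∀ v, v ≠ 0 → ub hF v v = 0 → SU7.tau hF v ∈ R) : R = ⊤ := by
  set S : Set (Cfsg.SU 4 F 2) := {s | ∃ v, v ≠ 0 ∧ ub hF v v = 0 ∧ s = SU7.tau hF v} with hS
  have hN : (Subgroup.closure S).Normal := by
    refine ⟨fun x hx g => ?_⟩
    have h : Subgroup.closure S ≤ (Subgroup.closure S).comap (MulAut.conj g).toMonoidHom := by
      rw [Subgroup.closure_le]
      rintro _ ⟨v, hv, hvv, rfl⟩
      refine Subgroup.subset_closure ⟨act g v, fun h => hv ?_, by rw [act_ub hF, hvv], SU7.tau_conj hF hvv g⟩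
      have h' := congrArg (act g⁻¹) h
      rwa [← act_mul_apply, inv_mul_cancel, act_one, Module.End.one_apply, map_zero] at h'
    exact h hx
  have htop := eq_top_of_trv_mem hF (n := 4) (by omega) (by omega) (Subgroup.closure S) (by
    intro e a he
    rcases Linear.ThreeTransp.kap_bool hF a with h | h
    · rw [show trv hF e a = 1 from su_ext fun x => by rw [act_trv hF he, h, act_one]; simp]
      exact one_mem _
    · by_cases e0 : e = 0
      · rw [show trv hF e a = 1 from su_ext fun x => by rw [act_trv hF he, act_one, e0]; simp]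
        exact one_mem _
      · exact Subgroup.subset_closure ⟨e, e0, he,
          su_ext fun x => by rw [act_trv hF he, SU7.act_tau hF he, h, one_mul]⟩)
  refine top_le_iff.1 (htop ▸ (Subgroup.closure_le _).2 ?_)
  rintro _ ⟨v, hv, hvv, rfl⟩
  exact hR v hv hvv

theorem card_aut4 : Nat.card (MulAut (Cfsg.PSU 4 F 2)) = 51840 := by
  have : Fact (Nat.Prime 2) := ⟨Nat.prime_two⟩
  rw [S0815.result 2 1 le_rfl (pow_one 2).symm hF 4 (by omega) (by omega),
    ← Nat.card_congr (toPSU4 hF).toEquiv, su4_card hF]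
  norm_num

end SU

variable {F : Type} [Field F] [Fintype F] {hF : Fintype.card F = 2 ^ 2}
variable {G : Type*} [Group G] [Finite G] {D : Set G}

set_option maxHeartbeats 1000000 in
theorem struct (c : M22.Ctx hF D) {d₁ d₂ : G} (h₁ : d₁ ∈ D) (h₂ : d₂ ∈ D) (hne : d₁ ≠ d₂)
    (hc : Commute d₁ d₂) (K C V : Subgroup G) (hK : K = Subgroup.centralizer ({d₁, d₂} : Set G))
    (hC : C = Subgroup.centralizer ({d₁ * d₂} : Set G)) (hV : V = Subgroup.closure ({d₁, d₂} : Set G)) :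
    K ≤ C ∧ (K.subgroupOf C).index = 2 ∧ (Subgroup.center ↥K).map K.subtype = V ∧
      ∃ E : Subgroup G, V ≤ E ∧ E ≤ C ∧ (∀ c ∈ C, ∀ x ∈ E, c * x * c⁻¹ ∈ E) ∧ Nat.card E = 2 ^ 10 ∧
        (∀ x ∈ E, ∀ y ∈ E, x * y * x⁻¹ * y⁻¹ ∈ V ∧ x ^ 2 ∈ V) ∧
        ∃ (_ : (E.subgroupOf C).Normal) (F' : Type) (_ : Field F') (_ : Fintype F'),
          Fintype.card F' = 4 ∧ Nonempty (↥C ⧸ E.subgroupOf C ≃* MulAut (Cfsg.PSU 4 F' 2)) := by
  classical
  have hcls := c.prim.cls
  have hset := hcls.1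
  have hsq : ∀ x ∈ D, x * x = 1 := fun x hx => Screen.tt_mul_self hset hx
  have hcj : ∀ {a b : G} (g : G), Commute a b → Commute (g * a * g⁻¹) (g * b * g⁻¹) := fun g h =>
    h.map (MulAut.conj g)
  have memK : ∀ x : G, x ∈ K ↔ Commute x d₁ ∧ Commute x d₂ := by
    intro x
    rw [hK, Subgroup.mem_centralizer_iff]
    simp only [Set.mem_insert_iff, Set.mem_singleton_iff, forall_eq_or_imp, forall_eq]
    exact ⟨fun h => ⟨h.1.symm, h.2.symm⟩, fun h => ⟨h.1.eq.symm, h.2.eq.symm⟩⟩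
  have memC : ∀ x : G, x ∈ C ↔ x * (d₁ * d₂) * x⁻¹ = d₁ * d₂ := fun x => by
    rw [hC, Subgroup.mem_centralizer_singleton_iff, mul_inv_eq_iff_eq_mul]
  have hKC : K ≤ C := fun x hx => by
    rw [memC, (((memK x).1 hx).1.mul_right ((memK x).1 hx).2).eq, mul_inv_cancel_right]
  -- elements of `C` permute the two members
  have hperm : ∀ x ∈ C, x ∈ K ∨ (x * d₁ * x⁻¹ = d₂ ∧ x * d₂ * x⁻¹ = d₁) := by
    intro x hx
    have hne' : x * d₁ * x⁻¹ ≠ x * d₂ * x⁻¹ := fun h => hne (mul_left_cancel (mul_right_cancel h))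
    have s1 : Sys D 2 (d₁ * d₂) [d₁, d₂] := by
      refine ⟨by simp [hne], rfl, ?_, ?_, by simp⟩
      · simp only [List.mem_cons, List.not_mem_nil, or_false]
        rintro a (rfl | rfl) <;> assumption
      · simp only [List.mem_cons, List.not_mem_nil, or_false]
        rintro a (rfl | rfl) b (rfl | rfl) <;> first | exact Commute.refl _ | exact hc | exact hc.symm
    have s2 : Sys D 2 (d₁ * d₂) [x * d₁ * x⁻¹, x * d₂ * x⁻¹] := by
      refine ⟨by simp [hne'], rfl, ?_, ?_, ?_⟩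
      · simp only [List.mem_cons, List.not_mem_nil, or_false]
        rintro a (rfl | rfl)
        exacts [TT.conj_mem hcls x h₁, TT.conj_mem hcls x h₂]
      · simp only [List.mem_cons, List.not_mem_nil, or_false]
        rintro a (rfl | rfl) b (rfl | rfl) <;>
          first | exact Commute.refl _ | exact hcj x hc | exact hcj x hc.symm
      · rw [List.prod_cons, List.prod_singleton]
        refine Eq.trans ?_ ((memC x).1 hx)
        group
    have hu := pair_unique hF c.prim c.frame (d₁ * d₂) _ _ s1 s2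
    have e1 := (hu (x * d₁ * x⁻¹)).2 (by simp)
    have e2 := (hu (x * d₂ * x⁻¹)).2 (by simp)
    simp only [List.mem_cons, List.not_mem_nil, or_false] at e1 e2
    rcases e1 with e1 | e1 <;> rcases e2 with e2 | e2
    · exact absurd (e1.trans e2.symm) hne'
    · exact Or.inl ((memK x).2 ⟨mul_inv_eq_iff_eq_mul.1 e1, mul_inv_eq_iff_eq_mul.1 e2⟩)
    · exact Or.inr ⟨e1, e2⟩
    · exact absurd (e1.trans e2.symm) hne'
  have hKn : ∀ x ∈ C, ∀ y ∈ K, x * y * x⁻¹ ∈ K := by
    intro x hx y hy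
    obtain ⟨a, b⟩ := (memK y).1 hy
    have a' := hcj x a
    have b' := hcj x b
    rcases hperm x hx with h | ⟨e1, e2⟩
    · exact mul_mem (mul_mem h hy) (inv_mem h)
    · rw [e1] at a'; rw [e2] at b'
      exact (memK _).2 ⟨b', a'⟩
  -- the index
  obtain ⟨t, ht1, ht2⟩ := M22.duo_move c h₁ h₂ h₂ h₁ hne hne.symm hc hc.symm
  have htC : t ∈ C := (memC t).2 (by
    calc t * (d₁ * d₂) * t⁻¹ = (t * d₁ * t⁻¹) * (t * d₂ * t⁻¹) := by group
      _ = d₂ * d₁ := by rw [ht1, ht2]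
      _ = d₁ * d₂ := hc.eq.symm)
  have htK : t ∉ K := fun h => hne (by
    have e := ((memK t).1 h).1
    rw [e.eq, mul_inv_cancel_right] at ht1
    exact ht1)
  have hidx : (K.subgroupOf C).index = 2 := by
    refine Subgroup.relIndex_eq_two_iff_exists_notMem_and.2 ⟨t, htC, htK, fun b hb => ?_⟩
    rcases hperm b hb with h | ⟨e1, e2⟩
    · exact Or.inr h
    · refine Or.inl ((memK _).2 ⟨mul_inv_eq_iff_eq_mul.1 ?_, mul_inv_eq_iff_eq_mul.1 ?_⟩)
      · calc b * t * d₁ * (b * t)⁻¹ = b * (t * d₁ * t⁻¹) * b⁻¹ := by group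
          _ = d₁ := by rw [ht1, e2]
      · calc b * t * d₂ * (b * t)⁻¹ = b * (t * d₂ * t⁻¹) * b⁻¹ := by group
          _ = d₂ := by rw [ht2, e1]
  -- coordinates at the first member
  obtain ⟨fr⟩ := c.frame d₁ h₁
  obtain ⟨φ, hφs, hφ⟩ := fr.img
  have h2N : d₂ ∈ TT.Nb D d₁ := ⟨h₂, hne.symm, hc⟩
  set p := fr.pt d₂ with hp
  have hp0 : p ≠ 0 := fr.pt_ne _ h2N
  have hpp : ub hF p p = 0 := fr.pt_iso _ h2N
  obtain ⟨Ψ, hΨz, hΨ1, hΨr, hΨt⟩ := SU7.exists_psi hF hp0 hpp
  have hkerφ : ∀ h : ↥(Subgroup.closure (TT.Nb D d₁)), φ h = 1 → (h : G) = 1 ∨ (h : G) = d₁ := by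
    intro h hh
    refine c.centraliser_nb h₁ (M22.commute_of_mem_nbGroup h.2) fun w hw => ?_
    have hpar := M22.act_of_img c fr φ hφ h (g := 1) (by rw [hh]; rfl) hw
    rw [act_one, Module.End.one_apply] at hpar
    obtain ⟨k, -, e⟩ := hpar
    exact mul_inv_eq_iff_eq_mul.1
      (fr.inj w hw _ (M22.nb_of_commute hcls (M22.commute_of_mem_nbGroup h.2) hw) ⟨k, e⟩)
  have hKH : K ≤ Subgroup.closure (TT.Nb D d₁) := fun x hx => c.centraliser_member h₁ ((memK x).1 hx).1
  set φK := φ.comp (Subgroup.inclusion hKH) with hφK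
  have hlift : ∀ x : ↥K, ∃ g : ↥(SU7.pointStab p), φK x = QuotientGroup.mk g.1 := by
    intro x
    obtain ⟨s, hs⟩ := QuotientGroup.mk_surjective (φK x)
    obtain ⟨k, hk, e⟩ := M22.act_of_img c fr φ hφ (Subgroup.inclusion hKH x) (g := s) hs.symm h2N
    rw [Subgroup.coe_inclusion, ((memK x.1).1 x.2).2.eq, mul_inv_cancel_right, ← hp] at e
    refine ⟨⟨s, (SU7.mem_pointStab hF).2 ⟨k⁻¹, inv_ne_zero hk, ?_⟩⟩, hs.symm⟩
    conv_rhs => rw [e]
    rw [smul_smul, inv_mul_cancel₀ hk, one_smul]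
  choose lift hlift using hlift
  have hwd : ∀ g g' : ↥(SU7.pointStab p),
      (QuotientGroup.mk g.1 : Cfsg.PSU 6 F 2) = QuotientGroup.mk g'.1 → Ψ g = Ψ g' := by
    intro g g' h
    have h1 := hΨz (g⁻¹ * g') (QuotientGroup.eq.1 h)
    rwa [map_mul, map_inv, inv_mul_eq_one] at h1
  let ψ : ↥K →* Cfsg.SU 4 F 2 := MonoidHom.mk' (fun x => Ψ (lift x)) fun x y => by
    rw [← map_mul]
    refine hwd _ _ ?_
    rw [Subgroup.coe_mul, QuotientGroup.mk_mul, ← hlift, ← hlift, ← hlift, map_mul]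
  have hψ : ∀ (x : ↥K) (g : ↥(SU7.pointStab p)), φK x = QuotientGroup.mk g.1 → ψ x = Ψ g :=
    fun x g h => hwd _ _ ((hlift x).symm.trans h)
  have hmemw : ∀ w ∈ TT.Nb D d₁, ub hF p (fr.pt w) = 0 → w ∈ K := fun w hw h =>
    (memK w).2 ⟨hw.2.2.symm, ((fr.commute_iff _ h2N w hw).2 h).symm⟩
  have hψs : Function.Surjective ψ := by
    rw [← MonoidHom.range_eq_top]
    refine su4_gen hF _ fun v hv hvv => ?_
    obtain ⟨u, hu, hu0, huu, hpu, -, hΨu⟩ := hΨt v hv hvv
    obtain ⟨w, hw, k, hk, hwk⟩ := fr.onto u hu0 huu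
    have hwK := hmemw w hw (by rw [hwk, ub_smul_right hF, hpu, mul_zero])
    refine ⟨⟨w, hwK⟩, (hψ _ ⟨SU7.tau hF u, hu⟩ ?_).trans hΨu⟩
    show φ ⟨w, _⟩ = _
    rw [hφ w hw, hwk, SU7.tau_smul hF huu hk]
  have hψc : ∀ z : ↥K, (∀ x : ↥K, x * z = z * x) → ψ z = 1 := by
    intro z hz
    rw [← Subgroup.mem_bot, ← su4_center hF, Subgroup.mem_center_iff]
    intro s
    obtain ⟨x, rfl⟩ := hψs s
    rw [← map_mul, ← map_mul, hz]
  set E := ψ.ker.map K.subtype with hE
  have memE : ∀ x : G, x ∈ E ↔ ∃ hx : x ∈ K, ψ ⟨x, hx⟩ = 1 := by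
    intro x
    constructor
    · rintro ⟨y, hy, rfl⟩; exact ⟨y.2, hy⟩
    · rintro ⟨hx, h⟩; exact ⟨⟨x, hx⟩, h, rfl⟩
  have hEK : E ≤ K := Subgroup.map_subtype_le _
  have hKcard : Nat.card K = 26542080 := by
    rw [← c.duo_card h₁ h2N]
    refine Nat.card_congr (Equiv.subtypeEquivRight fun x => ?_)
    rw [Subgroup.mem_inf, Subgroup.mem_centralizer_singleton_iff, Subgroup.mem_centralizer_singleton_iff, memK]
    rfl
  have hkcard : Nat.card ψ.ker = 1024 := by
    have h := Subgroup.card_mul_index ψ.ker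
    rw [Subgroup.index_ker, MonoidHom.range_eq_top.2 hψs, Subgroup.card_top, su4_card hF, hKcard] at h
    omega
  have hEcard : Nat.card E = 1024 := by
    rw [hE, Subgroup.card_map_of_injective (Subgroup.subtype_injective K), hkcard]
  -- the centre
  have hd₁K : d₁ ∈ K := (memK _).2 ⟨Commute.refl _, hc⟩
  have hd₂K : d₂ ∈ K := (memK _).2 ⟨hc.symm, Commute.refl _⟩
  have hV1 : d₁ ∈ V := hV ▸ Subgroup.subset_closure (Or.inl rfl)
  have hV2 : d₂ ∈ V := hV ▸ Subgroup.subset_closure (Or.inr rfl)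
  have hcen : ∀ d ∈ ({d₁, d₂} : Set G), ∃ hd : d ∈ K, ∀ x : ↥K, x * ⟨d, hd⟩ = ⟨d, hd⟩ * x := by
    rintro d (rfl | rfl)
    · exact ⟨hd₁K, fun x => Subtype.ext ((memK x.1).1 x.2).1.eq⟩
    · exact ⟨hd₂K, fun x => Subtype.ext ((memK x.1).1 x.2).2.eq⟩
  have hVE : V ≤ E := by
    rw [hV, Subgroup.closure_le]
    intro d hd
    obtain ⟨hdK, hd'⟩ := hcen d hd
    exact (memE d).2 ⟨hdK, hψc _ hd'⟩
  have hVmem : ∀ x : ↥(Subgroup.closure (TT.Nb D d₁)),
      φ x = 1 ∨ φ x = QuotientGroup.mk (SU7.tau hF p) → (x : G) ∈ V := by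
    intro x hx
    rcases hx with hx | hx
    · rcases hkerφ x hx with h | h <;> rw [h]
      exacts [one_mem V, hV1]
    · have h0 : φ (x * ⟨d₂, Subgroup.subset_closure h2N⟩⁻¹) = 1 := by
        rw [map_mul, map_inv, hx, hφ d₂ h2N, ← hp, mul_inv_cancel]
      rcases hkerφ _ h0 with h | h <;> simp only [Subgroup.coe_mul, Subgroup.coe_inv] at h
      · rw [mul_inv_eq_one.1 h]; exact hV2
      · rw [mul_inv_eq_iff_eq_mul.1 h]; exact mul_mem hV1 hV2
  have hrad : ∀ x : ↥K, ψ x = 1 → ∃ g, SU7.Rad hF p g ∧ φK x = QuotientGroup.mk g := by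
    intro x hx
    obtain ⟨z, hz, hg⟩ := hΨ1 (lift x) hx
    exact ⟨_, hg, by rw [QuotientGroup.mk_mul, (QuotientGroup.eq_one_iff z).2 hz, one_mul, hlift]⟩
  have hZ : (Subgroup.center ↥K).map K.subtype = V := by
    refine le_antisymm ?_ ?_
    · rintro _ ⟨z, hz, rfl⟩
      have hz' : ∀ x : ↥K, x * z = z * x := Subgroup.mem_center_iff.1 hz
      obtain ⟨g, hg, hgz⟩ := hrad z (hψc z hz')
      have hfix := fix_iso_perp hF hp0 hpp (g := g) fun v hvv hpv => ?_
      · refine hVmem (Subgroup.inclusion hKH z) ?_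
        rcases SU7.fix_perp_cases hF hp0 hpp hfix with h | h <;> rw [h] at hgz
        exacts [Or.inl hgz, Or.inr hgz]
      · by_cases hv : ∃ m : F, v = m • p
        · obtain ⟨m, rfl⟩ := hv
          rw [map_smul, hg.1]
        push Not at hv
        have hv0 : v ≠ 0 := fun h => hv 0 (by rw [h, zero_smul])
        obtain ⟨w, hw, k, hk, hwk⟩ := fr.onto v hv0 hvv
        have hwK := hmemw w hw (by rw [hwk, ub_smul_right hF, hpv, mul_zero])
        obtain ⟨l, hl, e⟩ := M22.act_of_img c fr φ hφ (Subgroup.inclusion hKH z) (g := g) hgz hw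
        have hzw : (z : G) * w = w * z := congrArg Subtype.val (hz' ⟨w, hwK⟩).symm
        rw [Subgroup.coe_inclusion, hzw, mul_inv_cancel_right, hwk, map_smul] at e
        obtain ⟨a, ha⟩ := hg.2 v hpv
        rw [ha] at e
        have e' : (k * (1 - l)) • v = (k * l * a) • p := by linear_combination (norm := module) e
        have hl1 : 1 - l = 0 := by
          by_contra hl1
          refine hv ((k * (1 - l))⁻¹ * (k * l * a)) ?_
          rw [mul_smul, ← e', smul_smul, inv_mul_cancel₀ (mul_ne_zero hk hl1), one_smul]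
        rw [hl1, mul_zero, zero_smul] at e'
        have hz0 := (smul_eq_zero.1 e'.symm).resolve_right hp0
        rw [mul_eq_zero] at hz0
        rw [ha, hz0.resolve_left (mul_ne_zero hk hl), zero_smul, add_zero]
    · rw [hV, Subgroup.closure_le]
      intro d hd
      obtain ⟨hdK, hd'⟩ := hcen d hd
      exact ⟨⟨d, hdK⟩, Subgroup.mem_center_iff.2 hd', rfl⟩
  have hEcomm : ∀ x ∈ E, ∀ y ∈ E, x * y * x⁻¹ * y⁻¹ ∈ V ∧ x ^ 2 ∈ V := by
    intro x hx y hy
    obtain ⟨hxK, hx1⟩ := (memE x).1 hx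
    obtain ⟨hyK, hy1⟩ := (memE y).1 hy
    set X : ↥K := ⟨x, hxK⟩ with hX
    set Y : ↥K := ⟨y, hyK⟩ with hY
    constructor
    · obtain ⟨g, hg, hgx⟩ := hrad X⁻¹ (by rw [map_inv, hx1, inv_one])
      obtain ⟨h, hh, hhy⟩ := hrad Y⁻¹ (by rw [map_inv, hy1, inv_one])
      have e : φK ((Y⁻¹ * X⁻¹)⁻¹ * (X⁻¹ * Y⁻¹)) = QuotientGroup.mk ((h * g)⁻¹ * (g * h)) := by
        simp only [map_mul, map_inv, QuotientGroup.mk_mul, QuotientGroup.mk_inv, ← hgx, ← hhy]
      have hv := hVmem (Subgroup.inclusion hKH ((Y⁻¹ * X⁻¹)⁻¹ * (X⁻¹ * Y⁻¹))) (by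
        rcases (SU7.rad_comm hF hp0 hpp hg hh).1 with h' | h' <;> rw [h'] at e
        exacts [Or.inl e, Or.inr e])
      simpa [hX, hY, mul_assoc] using hv
    · obtain ⟨g, hg, hgx⟩ := hrad X hx1
      have e : φK (X * X) = QuotientGroup.mk (g * g) := by
        rw [map_mul, QuotientGroup.mk_mul, hgx]
      have hv := hVmem (Subgroup.inclusion hKH (X * X)) (by
        rcases (SU7.rad_comm hF hp0 hpp hg hg).2 with h' | h' <;> rw [h'] at e
        exacts [Or.inl e, Or.inr e])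
      rw [pow_two]
      exact hv
  -- conjugation
  let α : ↥C → (↥K →* ↥K) := fun a =>
    MonoidHom.mk' (fun x => ⟨a.1 * x.1 * a.1⁻¹, hKn a.1 a.2 x.1 x.2⟩) fun x y =>
      Subtype.ext (by simp [mul_assoc])
  have hαv : ∀ (a : ↥C) (x : ↥K), (α a x : G) = a.1 * x.1 * a.1⁻¹ := fun a x => rfl
  have hαmul : ∀ (a b : ↥C) (x : ↥K), α (a * b) x = α a (α b x) := fun a b x => Subtype.ext (by
    simp [hαv, mul_assoc])
  have hα1 : ∀ x : ↥K, α 1 x = x := fun x => Subtype.ext (by simp [hαv])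
  have hαs : ∀ a, Function.Surjective (α a) := fun a x =>
    ⟨α a⁻¹ x, by rw [← hαmul, mul_inv_cancel, hα1]⟩
  have hinv : ∀ (a : ↥C) (x : ↥K), ψ x = 1 → ψ (α a x) = 1 := by
    intro a x hx
    have hN1 : (ψ.ker.map (α a)).Normal := Subgroup.Normal.map inferInstance _ (hαs a)
    have hN2 : ((ψ.ker.map (α a)).map ψ).Normal := hN1.map _ hψs
    rcases su4_normal hF ((ψ.ker.map (α a)).map ψ) with h | h
    · rw [← Subgroup.mem_bot, ← h]
      exact Subgroup.mem_map_of_mem _ (Subgroup.mem_map_of_mem _ hx)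
    · exfalso
      have hs : Function.Surjective fun z : ↥ψ.ker => ψ (α a z.1) := fun s => by
        have hm : s ∈ (ψ.ker.map (α a)).map ψ := h ▸ Subgroup.mem_top s
        obtain ⟨_, ⟨z, hz, rfl⟩, rfl⟩ := hm
        exact ⟨⟨z, hz⟩, rfl⟩
      have := Nat.card_le_card_of_surjective _ hs
      rw [su4_card hF, hkcard] at this
      omega
  have hEn : ∀ a ∈ C, ∀ x ∈ E, a * x * a⁻¹ ∈ E := by
    intro a ha x hx
    obtain ⟨hxK, hx1⟩ := (memE x).1 hx
    exact (memE _).2 ⟨_, hinv ⟨a, ha⟩ ⟨x, hxK⟩ hx1⟩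
  have hresp : ∀ (a : ↥C) (x y : ↥K), ψ x = ψ y → ψ (α a x) = ψ (α a y) := by
    intro a x y h
    have h1 := hinv a (x⁻¹ * y) (by rw [map_mul, map_inv, h, inv_mul_cancel])
    rwa [map_mul, map_inv, map_mul, map_inv, inv_mul_eq_one] at h1
  let σ := Function.surjInv hψs
  have hσ : ∀ s, ψ (σ s) = s := Function.surjInv_eq hψs
  let β : ↥C → (Cfsg.SU 4 F 2 →* Cfsg.SU 4 F 2) := fun a =>
    MonoidHom.mk' (fun s => ψ (α a (σ s))) fun s s' => by
      rw [← map_mul ψ, ← map_mul (α a)]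
      exact hresp a _ _ (by rw [map_mul, hσ, hσ, hσ])
  have hβ : ∀ (a : ↥C) (x : ↥K), β a (ψ x) = ψ (α a x) := fun a x => hresp a _ _ (hσ _)
  have hβmul : ∀ (a b : ↥C), (β a).comp (β b) = β (a * b) := fun a b => MonoidHom.ext fun s => by
    obtain ⟨x, rfl⟩ := hψs s
    rw [MonoidHom.comp_apply, hβ, hβ, hβ, hαmul]
  have hβ1 : β 1 = MonoidHom.id _ := MonoidHom.ext fun s => by
    obtain ⟨x, rfl⟩ := hψs s
    rw [hβ, hα1, MonoidHom.id_apply]
  let Θ0 : ↥C →* MulAut (Cfsg.SU 4 F 2) := MonoidHom.mk'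
    (fun a => MonoidHom.toMulEquiv (β a) (β a⁻¹) (by rw [hβmul, inv_mul_cancel, hβ1])
      (by rw [hβmul, mul_inv_cancel, hβ1]))
    fun a b => MulEquiv.ext fun s => (DFunLike.congr_fun (hβmul a b) s).symm
  have hΘ0 : ∀ a : ↥C, Θ0 a = 1 ↔ ∀ x : ↥K, ψ (α a x) = ψ x := fun a => by
    constructor
    · intro h x
      rw [← hβ]
      exact DFunLike.congr_fun h (ψ x)
    · intro h
      refine MulEquiv.ext fun s => ?_
      obtain ⟨x, rfl⟩ := hψs s
      exact (hβ a x).trans (h x)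
  -- the interchanging elements act nontrivially
  have hnoswap : ∀ a : ↥C, a.1 * d₁ * a.1⁻¹ = d₂ → a.1 * d₂ * a.1⁻¹ = d₁ →
      (∀ x : ↥K, ψ (α a x) = ψ x) → False := by
    intro a ha1 ha2 ha
    have hhex : ∀ g : ↥C, g.1 * d₁ * g.1⁻¹ = d₂ → g.1 * d₂ * g.1⁻¹ = d₁ → (∀ x : ↥K, ψ (α g x) = ψ x) →
        ∀ w ∈ D, w ≠ d₁ → w ≠ d₂ → Commute w d₁ → Commute w d₂ → g.1 * w * g.1⁻¹ ∈ M22.Lin D d₁ d₂ w := by
      intro g hg1 hg2 hg w hw hw1 hw2 hwc1 hwc2
      set w' := g.1 * w * g.1⁻¹ with hw'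
      have hw'D : w' ∈ D := TT.conj_mem hcls _ hw
      have hwK : w ∈ K := (memK w).2 ⟨hwc1, hwc2⟩
      have hw'K : w' ∈ K := hKn _ g.2 w hwK
      have heq : ψ ⟨w', hw'K⟩ = ψ ⟨w, hwK⟩ := hg ⟨w, hwK⟩
      have key : ∀ u ∈ D, Commute u d₁ → Commute u d₂ → Commute u w → Commute u w' := by
        intro u hu hu1 hu2 huw
        by_contra hn
        have h3 : (u * w') ^ 3 = 1 := by
          have e := Screen.tt_braid hset hu hw'D hn
          rw [pow_succ, pow_two]
          calc u * w' * (u * w') * (u * w') = (u * w' * u) * (w' * u * w') := by simp only [mul_assoc]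
            _ = (u * w' * u) * (u * w' * u) := by rw [e]
            _ = 1 := by
              simp only [mul_assoc]
              rw [Screen.mul_mul_self_cancel (hsq u hu), Screen.mul_mul_self_cancel (hsq w' hw'D), hsq u hu]
        have huK : u ∈ K := (memK u).2 ⟨hu1, hu2⟩
        set U : ↥K := ⟨u, huK⟩ with hU
        set W : ↥K := ⟨w, hwK⟩ with hW
        set W' : ↥K := ⟨w', hw'K⟩ with hW'
        have hUW : Commute (ψ U) (ψ W) := Commute.map (show Commute U W from Subtype.ext huw.eq) ψ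
        have h2 : ψ (U * W') * ψ (U * W') = 1 := by
          rw [map_mul, heq]
          calc ψ U * ψ W * (ψ U * ψ W) = ψ (U * U) * ψ (W * W) := by
                rw [map_mul, map_mul, mul_assoc, ← mul_assoc (ψ W), ← hUW.eq]
                simp only [mul_assoc]
            _ = 1 := by
              rw [show U * U = 1 from Subtype.ext (hsq u hu), show W * W = 1 from Subtype.ext (hsq w hw),
                map_one, one_mul]
        have h3' : ψ (U * W') ^ 3 = 1 := by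
          rw [← map_pow, show (U * W') ^ 3 = 1 from Subtype.ext (by simpa using h3), map_one]
        rw [pow_succ, pow_two, h2, one_mul] at h3'
        have hmE : u * w' ∈ E := (memE _).2 ⟨mul_mem huK hw'K, h3'⟩
        have h4 : (u * w') ^ 1024 = 1 := by
          have := congrArg Subtype.val (pow_card_eq_one' (x := (⟨u * w', hmE⟩ : ↥E)))
          rw [hEcard] at this
          simpa using this
        have h5 : u * w' = 1 := by
          rw [← orderOf_eq_one_iff]
          exact Nat.eq_one_of_dvd_coprimes (show Nat.Coprime 1024 3 by norm_num)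
            (orderOf_dvd_of_pow_eq_one h4) (orderOf_dvd_of_pow_eq_one h3)
        apply hn
        rw [eq_inv_of_mul_eq_one_left h5]
        exact (Commute.refl w').inv_left
      obtain ⟨c1, c2⟩ := (memK w').1 hw'K
      exact ⟨hw'D, c1, c2, (key w hw hwc1 hwc2 (Commute.refl w)).symm, key⟩
    obtain ⟨v, hv0, hvv⟩ := SU7.exists_isotropic_top hF (n := 4) (by omega)
    obtain ⟨u, -, hu0, huu, hpu, hunp, -⟩ := hΨt v hv0 hvv
    obtain ⟨l, hlN, k, hk, hlk⟩ := fr.onto u hu0 huu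
    have hlK := hmemw l hlN (by rw [hlk, ub_smul_right hF, hpu, mul_zero])
    obtain ⟨hl1c, hl2c⟩ := (memK l).1 hlK
    have hl2 : l ≠ d₂ := fun e => hunp k⁻¹ (by
      rw [e, ← hp] at hlk
      rw [hlk, smul_smul, inv_mul_cancel₀ hk, one_smul])
    set l' := a.1 * l * a.1⁻¹ with hl'
    have hl'L := hhex a ha1 ha2 ha l hlN.1 hlN.2.1 hl2 hl1c hl2c
    have hl'1 : l' ≠ d₁ := fun e => hl2 (by
      rw [← ha2] at e
      exact mul_left_cancel (mul_right_cancel e))
    have hl'2 : l' ≠ d₂ := fun e => hlN.2.1 (by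
      rw [← ha1] at e
      exact mul_left_cancel (mul_right_cancel e))
    have hl'N : l' ∈ TT.Nb D d₁ := ⟨hl'L.1, hl'1, hl'L.2.1.symm⟩
    obtain ⟨i, j, hij⟩ := M22.lin_span fr h2N hlN hl2 hl'L hl'1
    rw [← hp] at hij
    set q := fr.pt l with hq
    have hqq : ub hF q q = 0 := fr.pt_iso l hlN
    have hpq : ub hF p q = 0 := (fr.commute_iff _ h2N l hlN).1 hl2c.symm
    have hj : j ≠ 0 := fun h => hl'2 (fr.inj _ h2N _ hl'N ⟨i, by rw [hij, h, zero_smul, add_zero]⟩)
    obtain ⟨y0, hy1, hy2⟩ := SU7.exists_dual2 hF (fr.apart h2N hlN hl2)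
    rw [← hq] at hy1
    rw [← hp] at hy2
    obtain ⟨T, hT⟩ := exists_trace_one hF
    set wv := frobQ hF (j⁻¹ * i) • y0 with hwv
    have hwp : ub hF p wv = 0 := by rw [hwv, ub_smul_right hF, hy2, mul_zero]
    have hwq : ub hF wv q = j⁻¹ * i := by
      rw [hwv, ub_smul_left hF, sig_sig hF, show ub hF y0 q = 1 by rw [← ub_symm hF, hy1, map_one], mul_one]
    set cc := -(T * ub hF wv wv) with hcc
    have hcond : cc + frobQ hF cc = -ub hF wv wv := by
      rw [hcc, map_neg, map_mul, ub_self_fixed hF]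
      linear_combination -(ub hF wv wv) * hT
    set h := root hF p wv cc with hh
    have hact : ∀ x, act h x = x + ub hF p x • wv + (cc * ub hF p x - ub hF wv x) • p :=
      act_root hF hpp hwp hcond
    have hR : SU7.Rad hF p h := by
      refine ⟨?_, fun x hx => ⟨cc * ub hF p x - ub hF wv x, by rw [hact, hx, zero_smul, add_zero]⟩⟩
      rw [hact, hpp, ub_eq_zero_symm hF hwp]
      simp
    obtain ⟨X, hX⟩ := hφs (QuotientGroup.mk h)
    have hXd₁ : Commute (X : G) d₁ := M22.commute_of_mem_nbGroup X.2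
    have hXd₂ : Commute (X : G) d₂ := by
      obtain ⟨m, -, e⟩ := M22.act_of_img c fr φ hφ X (g := h) hX h2N
      rw [← hp, hR.1] at e
      exact mul_inv_eq_iff_eq_mul.1 (fr.inj _ h2N _ (M22.nb_of_commute hcls hXd₁ h2N) ⟨m, e⟩)
    have hXK : (X : G) ∈ K := (memK _).2 ⟨hXd₁, hXd₂⟩
    have hX1 : ψ ⟨X, hXK⟩ = 1 :=
      (hψ _ ⟨h, (SU7.mem_pointStab hF).2 ⟨1, one_ne_zero, by rw [hR.1, one_smul]⟩⟩ hX).trans (hΨr _ hR)
    have hXl : (X : G) * l' * (X : G)⁻¹ = l := by
      obtain ⟨m, -, e⟩ := M22.act_of_img c fr φ hφ X (g := h) hX hl'N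
      refine fr.inj l hlN _ (M22.nb_of_commute hcls hXd₁ hl'N) ⟨m * j, ?_⟩
      rw [e, hij, map_add, map_smul, map_smul, hR.1, hact, hpq, hwq, mul_smul]
      congr 1
      rw [zero_smul, add_zero, mul_zero, zero_sub, smul_add, smul_smul, mul_neg, ← mul_assoc,
        mul_inv_cancel₀ hj, one_mul]
      module
    set g : ↥C := ⟨X, hKC hXK⟩ * a with hg
    have hgv : ∀ y : G, g.1 * y * g.1⁻¹ = (X : G) * (a.1 * y * a.1⁻¹) * (X : G)⁻¹ := fun y => by
      simp only [hg, Subgroup.coe_mul]; group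
    have hg1 : g.1 * d₁ * g.1⁻¹ = d₂ := by rw [hgv, ha1, hXd₂.eq, mul_inv_cancel_right]
    have hg2 : g.1 * d₂ * g.1⁻¹ = d₁ := by rw [hgv, ha2, hXd₁.eq, mul_inv_cancel_right]
    have hgψ : ∀ x : ↥K, ψ (α g x) = ψ x := fun x => by
      rw [show α g x = ⟨X, hXK⟩ * α a x * ⟨X, hXK⟩⁻¹ from Subtype.ext (hgv x.1), map_mul, map_mul,
        map_inv, hX1, one_mul, inv_one, mul_one, ha]
    refine M22.no_swap c hlN.1 ⟨h₁, hlN.2.1.symm, hl1c⟩ ⟨h₂, hl2.symm, hl2c⟩ hne hc
      (g := g.1) (mul_inv_eq_iff_eq_mul.1 (by rw [hgv]; exact hXl)) hg1 hg2 (hhex g hg1 hg2 hgψ)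
  let Θ : ↥C →* MulAut (Cfsg.PSU 4 F 2) := (MulAut.congr (toPSU4 hF)).toMonoidHom.comp Θ0
  have hker : Θ.ker = E.subgroupOf C := by
    ext a
    have h1 : a ∈ Θ.ker ↔ ∀ x : ↥K, ψ (α a x) = ψ x := by
      rw [MonoidHom.mem_ker, ← hΘ0]
      exact map_eq_one_iff (MulAut.congr (toPSU4 hF)) (MulEquiv.injective _)
    rw [h1, Subgroup.mem_subgroupOf]
    constructor
    · intro h
      rcases hperm a.1 a.2 with haK | ⟨e1, e2⟩
      · refine (memE _).2 ⟨haK, ?_⟩
        rw [← Subgroup.mem_bot, ← su4_center hF, Subgroup.mem_center_iff]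
        intro s
        obtain ⟨x, rfl⟩ := hψs s
        have := h x
        rw [show α a x = ⟨a.1, haK⟩ * x * ⟨a.1, haK⟩⁻¹ from rfl, map_mul, map_mul, map_inv,
          mul_inv_eq_iff_eq_mul] at this
        exact this.symm
      · exact (hnoswap a e1 e2 h).elim
    · intro h x
      obtain ⟨haK, ha1⟩ := (memE _).1 h
      rw [show α a x = ⟨a.1, haK⟩ * x * ⟨a.1, haK⟩⁻¹ from rfl, map_mul, map_mul, map_inv, ha1]
      simp
  have hn : (E.subgroupOf C).Normal := hker ▸ Θ.normal_ker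
  have hsurj : Function.Surjective Θ := by
    rw [← MonoidHom.range_eq_top]
    refine Subgroup.eq_top_of_card_eq _ ?_
    rw [← Subgroup.index_ker, card_aut4 hF, hker]
    have h1 := Subgroup.card_mul_index (E.subgroupOf C)
    have h2 := Subgroup.card_mul_index (K.subgroupOf C)
    rw [Nat.card_congr (Subgroup.subgroupOfEquivOfLe (hEK.trans hKC)).toEquiv, hEcard] at h1
    rw [Nat.card_congr (Subgroup.subgroupOfEquivOfLe hKC).toEquiv, hKcard, hidx] at h2
    omega
  exact ⟨hKC, hidx, hZ, E, hVE, hEK.trans hKC, hEn, by rw [hEcard]; norm_num, hEcomm, hn, F,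
    inferInstance, inferInstance, by rw [hF]; norm_num,
    ⟨(QuotientGroup.quotientMulEquivOfEq hker.symm).trans (QuotientGroup.quotientKerEquivOfSurjective Θ hsurj)⟩⟩

/-- Let G be a finite group with trivial centre generated by a conjugation-invariant set D of 3-transpositions on which it acts primitively, such that for some d in D the subgroup generated by the members of D other than d commuting with d has central largest normal 2- and 3-subgroups, and suppose G with D is of type M(22). Let d₁, d₂ be distinct commuting members of D, j = d₁ d₂, K the joint centralizer of d₁ and d₂, C the centralizer of j and V the subgroup generated by d₁ and d₂. Then K has index 2 in C, V is the centre of K, and C has a normal subgroup E containing V with E/V elementary abelian of order 2^8 and C/E isomorphic to the full automorphism group of the projective special unitary group of dimension 4 over the field with four elements. -/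
theorem result {G : Type*} [Group G] [Finite G] {D : Set G} (hD : Cfsg.IsThreeTranspositionGroup D) (hprim : Cfsg.IsPrimitiveUnderConj D) (d₀ : G) (hd₀ : d₀ ∈ D) (h3 : Cfsg.pCore 3 ↥(Subgroup.closure {y : G | y ∈ D ∧ y ≠ d₀ ∧ Commute d₀ y}) ≤ Subgroup.center ↥(Subgroup.closure {y : G | y ∈ D ∧ y ≠ d₀ ∧ Commute d₀ y})) (h2 : Cfsg.pCore 2 ↥(Subgroup.closure {y : G | y ∈ D ∧ y ≠ d₀ ∧ Commute d₀ y}) ≤ Subgroup.center ↥(Subgroup.closure {y : G | y ∈ D ∧ y ≠ d₀ ∧ Commute d₀ y})) (h22 : Cfsg.IsOfTypeM22 G D) (d₁ d₂ : G) (h₁ : d₁ ∈ D) (h₂ : d₂ ∈ D) (hne : d₁ ≠ d₂) (hc : Commute d₁ d₂) (K C V : Subgroup G) (hK : K = Subgroup.centralizer ({d₁, d₂} : Set G)) (hC : C = Subgroup.centralizer ({d₁ * d₂} : Set G)) (hV : V = Subgroup.closure ({d₁, d₂} : Set G)) : K ≤ C ∧ (K.subgroupOf C).index = 2 ∧ (Subgroup.center ↥K).map K.subtype = V ∧ ∃ E : Subgroup G, V ≤ E ∧ E ≤ C ∧ (∀ c ∈ C, ∀ x ∈ E, c * x * c⁻¹ ∈ E) ∧ Nat.card E = 2 ^ 10 ∧ (∀ x ∈ E, ∀ y ∈ E,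 x * y * x⁻¹ * y⁻¹ ∈ V ∧ x ^ 2 ∈ V) ∧ ∃ (_ : (E.subgroupOf C).Normal) (F : Type) (_ : Field F) (_ : Fintype F), Fintype.card F = 4 ∧ Nonempty (↥C ⧸ E.subgroupOf C ≃* MulAut (Cfsg.PSU 4 F 2)) := by
  obtain ⟨F, _, _, hF, c⟩ := M22.exists_ctx hD hprim h22
  exact struct c h₁ h₂ hne hc K C V hK hC hV

end Cfsg.Agent.S5469
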