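import Cfsg.Statements.S5519
import Cfsg.Agent.S5469
import Cfsg.Agent.S5398
import Cfsg.Agent.Core.OrthSixMinus
import Cfsg.Agent.Components.FStar
import Cfsg.Agent.Core.Fitting
import Cfsg.Agent.Core.Frattini
import Cfsg.Agent.Fischer.LargeSimple

set_option autoImplicit false
set_option linter.unusedSectionVars false
set_option linter.unusedSimpArgs false
set_option linter.unusedVariables false
open Cfsg
open scoped commutatorElement

namespace Cfsg.Agent.S5519

open Cfsg.Agent.KnownA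
open Cfsg.Agent.Forms (frobQ)
open Cfsg.Agent.FGS3
open Cfsg.Agent.Core
open Cfsg.Agent.S5463 (Sys pair_unique)

section SU

variable {F : Type} [Field F] [Fintype F] (hF : Fintype.card F = 2 ^ 2)
include hF

/-- A vector perpendicular to `p` is a sum of three singular ones. -/
theorem perp_sum {p : Fin 6 → F} (hp0 : p ≠ 0) (hpp : ub hF p p = 0) {y : Fin 6 → F} (hy : ub hF p y = 0) :
    ∃ a b c, ub hF a a = 0 ∧ ub hF p a = 0 ∧ ub hF b b = 0 ∧ ub hF p b = 0 ∧ ub hF c c = 0 ∧ ub hF p c = 0 ∧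
      y = a + b + c := by
  obtain ⟨f, hff, hpf⟩ := SU7.iso_partner hF hp0 hpp
  have hpair : IsPair hF ⊤ p f := ⟨trivial, trivial, hpp, hff, hpf⟩
  have hPnd := perpPair_nondeg hF (SU7.top_nondeg hF) hpair
  have hdim := finrank_perpPair hF hpair
  rw [SU7.top_finrank hF] at hdim
  obtain ⟨e', he', he'0, hee'⟩ := exists_isotropic hF (perpPair hF ⊤ p f) (by omega)
  obtain ⟨f', hf', hff', hef'⟩ := exists_partner hF _ hPnd he' he'0 hee'
  have hpe' : ub hF p e' = 0 := ((mem_perpPair hF).mp he').2.1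
  have hpf' : ub hF p f' = 0 := ((mem_perpPair hF).mp hf').2.1
  have hfe' : ub hF f' e' = 1 := by rw [← ub_symm hF, hef', map_one]
  obtain ⟨t, ht⟩ := exists_trace_one hF
  set α := ub hF f' y with hα
  set β := ub hF e' y with hβ
  set x₀ := y - α • e' - β • f' with hx₀
  have h00 : ub hF p x₀ = 0 := by
    simp [hx₀, ub_sub_right hF, ub_smul_right hF, hpe', hpf', hy]
  have h01 : ub hF e' x₀ = 0 := by simp [hx₀, ub_sub_right hF, ub_smul_right hF, hee', hef', hβ]
  have h02 : ub hF f' x₀ = 0 := by simp [hx₀, ub_sub_right hF, ub_smul_right hF, hff', hfe', hα]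
  set d := -(t * ub hF x₀ x₀) with hd'
  refine ⟨e' + d • f' + x₀, (α - 1) • e', (β - d) • f', ?_, ?_, ?_, ?_, ?_, ?_, ?_⟩
  · simp only [ub_add_left hF, ub_add_right hF, ub_smul_left hF, ub_smul_right hF, hee', hff', hef',
      hfe', h01, h02, ub_eq_zero_symm hF h01, ub_eq_zero_symm hF h02, hd', map_neg, map_mul,
      ub_self_fixed hF]
    linear_combination -(ub hF x₀ x₀) * ht
  · simp [ub_add_right hF, ub_smul_right hF, hpe', hpf', h00]
  · simp [ub_smul_left hF, ub_smul_right hF, hee']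
  · simp [ub_smul_right hF, hpe']
  · simp [ub_smul_left hF, ub_smul_right hF, hff']
  · simp [ub_smul_right hF, hpf']
  · rw [hx₀, sub_smul, sub_smul, one_smul]; abel

/-- A singular vector perpendicular to `p` has a singular partner perpendicular to `p`. -/
theorem perp_partner {p a : Fin 6 → F} (hp0 : p ≠ 0) (hpp : ub hF p p = 0) (haa : ub hF a a = 0)
    (hpa : ub hF p a = 0) (hnp : ∀ k : F, a ≠ k • p) :
    ∃ q, ub hF q q = 0 ∧ ub hF p q = 0 ∧ ub hF a q = 1 := by
  obtain ⟨y, hy1, hy2⟩ := SU7.exists_dual2 hF (a := a) (b := p)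
    ⟨hp0, fun h => hnp 0 (by rw [h, zero_smul]), hnp⟩
  obtain ⟨t, ht⟩ := exists_trace_one hF
  refine ⟨y + (-(t * ub hF y y)) • a, ?_, ?_, ?_⟩
  · have hya : ub hF y a = 1 := by rw [← ub_symm hF, hy1, map_one]
    simp only [ub_add_left hF, ub_add_right hF, ub_smul_left hF, ub_smul_right hF, haa, hy1, hya,
      map_neg, map_mul, ub_self_fixed hF]
    linear_combination -(ub hF y y) * ht
  · simp only [ub_add_right hF, ub_smul_right hF, hy2, hpa, mul_zero, add_zero]
  · simp only [ub_add_right hF, ub_smul_right hF, hy1, haa, mul_zero, add_zero]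

/-- Moving a pair of transvections along `p` by an element of trace one changes the product. -/
theorem conj_pair_ne {p q : Fin 6 → F} (hpp : ub hF p p = 0) (hqq : ub hF q q = 0) (hpq : ub hF p q = 0)
    {t : F} (ht : t + frobQ hF t = 1)
    (h : SU7.tau hF (q + t • p) * SU7.tau hF (q + t • p + p) = SU7.tau hF q * SU7.tau hF (q + p)) : p = 0 := by
  by_contra hp0
  obtain ⟨f, -, hpf⟩ := SU7.iso_partner hF hp0 hpp
  have hqp := ub_eq_zero_symm hF hpq
  have hr : ub hF (q + p) (q + p) = 0 := by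
    simp only [ub_add_left hF, ub_add_right hF, hqq, hpp, hpq, hqp, add_zero]
  have hr1 : ub hF (q + t • p) (q + t • p) = 0 := by
    simp only [ub_add_left hF, ub_add_right hF, ub_smul_left hF, ub_smul_right hF, hqq, hpp, hpq, hqp,
      add_zero, mul_zero]
  have hr2 : ub hF (q + t • p + p) (q + t • p + p) = 0 := by
    simp only [ub_add_left hF, ub_add_right hF, ub_smul_left hF, ub_smul_right hF, hqq, hpp, hpq, hqp,
      add_zero, mul_zero]
  have h1 := congrArg (fun k => act k f) h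
  simp only [act_mul_apply, SU7.act_tau hF hr1, SU7.act_tau hF hr2, SU7.act_tau hF hqq, SU7.act_tau hF hr,
    ub_add_left hF, ub_add_right hF, ub_smul_left hF, ub_smul_right hF, hqq, hpp, hpq, hqp, hpf, mul_one,
    mul_zero, add_zero] at h1
  have ht2 : frobQ hF t = 1 + t := by linear_combination ht - t * SU7.two0 hF
  rw [ht2] at h1
  have hz : ∀ v : Fin 6 → F, (2 : F) • v = 0 := fun v => by rw [SU7.two0 hF, zero_smul]
  refine hp0 ?_
  linear_combination (norm := module) h1 - hz ((1 + t) • q) -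
    hz ((2 * t + t * t + ub hF q f * t) • p)

end SU

/-- A carrier in the lowest universe. -/
def Copy (n : ℕ) : Type := Fin n

instance (n : ℕ) : Finite (Copy n) := inferInstanceAs (Finite (Fin n))

/-- In a group which is elementary abelian over `J`, a subgroup of index two avoids a given element. -/
theorem avoid {G : Type*} [Group G] [Finite G] {T J : Subgroup G} {d : G} (hJT : J ≤ T) (hdT : d ∈ T)
    (hdJ : d ∉ J) (hsq : ∀ x ∈ T, x * x ∈ J) (hcm : ∀ x ∈ T, ∀ y ∈ T, x * y * x⁻¹ * y⁻¹ ∈ J) :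
    ∃ M : Subgroup G, J ≤ M ∧ M ≤ T ∧ d ∉ M ∧ ∀ x ∈ T, x ∈ M ∨ d * x ∈ M := by
  obtain ⟨M, hM⟩ := Set.Finite.exists_maximal (s := {M : Subgroup G | J ≤ M ∧ M ≤ T ∧ d ∉ M})
    (Set.toFinite _) ⟨J, le_rfl, hJT, hdJ⟩
  obtain ⟨hJM, hMT, hdM⟩ := hM.1
  refine ⟨M, hJM, hMT, hdM, fun x hx => ?_⟩
  by_contra hcon
  push Not at hcon
  have hnorm : ∀ y ∈ T, ∀ m ∈ M, y * m * y⁻¹ ∈ M := fun y hy m hm => by
    have := mul_mem (hJM (hcm y hy m (hMT hm))) hm
    rwa [inv_mul_cancel_right] at this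
  have hxx : x * x ∈ M := hJM (hsq x hx)
  let M' : Subgroup G :=
    { carrier := {y | y ∈ M ∨ x * y ∈ M}
      one_mem' := Or.inl (one_mem M)
      mul_mem' := by
        rintro a b (ha | ha) (hb | hb)
        · exact Or.inl (mul_mem ha hb)
        · refine Or.inr ?_
          rw [show x * (a * b) = (x * a * x⁻¹) * (x * b) by group]
          exact mul_mem (hnorm x hx a ha) hb
        · refine Or.inr ?_
          rw [← mul_assoc]
          exact mul_mem ha hb
        · refine Or.inl ?_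
          rw [show a * b = (x⁻¹ * (x * a) * x⁻¹⁻¹) * (x * x)⁻¹ * (x * b) by group]
          exact mul_mem (mul_mem (hnorm x⁻¹ (inv_mem hx) _ ha) (inv_mem hxx)) hb
      inv_mem' := by
        rintro a (ha | ha)
        · exact Or.inl (inv_mem ha)
        · refine Or.inr ?_
          rw [show x * a⁻¹ = (x * (x * a)⁻¹ * x⁻¹) * (x * x) by group]
          exact mul_mem (hnorm x hx _ (inv_mem ha)) hxx }
  have hle : M ≤ M' := fun y hy => Or.inl hy
  have hM'T : M' ≤ T := by
    rintro y (hy | hy)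
    · exact hMT hy
    · have h := mul_mem (inv_mem hx) (hMT hy)
      rwa [inv_mul_cancel_left] at h
  have hd' : d ∈ M' := by
    by_contra hd'
    exact hcon.1 (hM.2 ⟨hJM.trans hle, hM'T, hd'⟩ hle (show x ∈ M' from Or.inr hxx))
  rcases hd' with h | h
  · exact hdM h
  · refine hcon.2 ?_
    have := mul_mem (hJM (hcm d hdT x hx)) h
    rwa [show d * x * d⁻¹ * x⁻¹ * (x * d) = d * x by group] at this

variable {F : Type} [Field F] [Fintype F] {hF : Fintype.card F = 2 ^ 2}
variable {G : Type*} [Group G] [Finite G] {D : Set G}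

set_option maxHeartbeats 1600000 in
theorem struct2 (c : M22.Ctx hF D) {d₁ d₂ : G} (h₁ : d₁ ∈ D) (h₂ : d₂ ∈ D) (hne : d₁ ≠ d₂)
    (hc : Commute d₁ d₂)
    (h32 : ∀ u v a b e : G, u ∈ D → v ∈ D → u ≠ v → Commute u v → a ∈ D → b ∈ D → e ∈ D → a ≠ b → a ≠ e →
      b ≠ e → Commute a b → Commute a e → Commute b e → u * v ≠ a * b * e)
    (C : Subgroup G) (hC : C = Subgroup.centralizer ({d₁ * d₂} : Set G))
    [hn : (Cfsg.generalizedFittingSubgroup ↥C).Normal] :
    (∃ (E : Type) (_ : Group E) (_ : Finite E), Cfsg.IsExtraspecial 2 E ∧ Nat.card E = 2 ^ 9 ∧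
      Nonempty (↥(Cfsg.generalizedFittingSubgroup ↥C) ≃* Multiplicative (ZMod 2) × E)) ∧
    Nonempty (↥C ⧸ Cfsg.generalizedFittingSubgroup ↥C ≃*
      Cfsg.isometryGroup (ZMod 2) (Cfsg.quadFormMinus 2 (ZMod 2) 1 1)) := by
  classical
  set K := Subgroup.centralizer ({d₁, d₂} : Set G) with hK
  set V := Subgroup.closure ({d₁, d₂} : Set G) with hV
  have hcls := c.prim.cls
  have hset := hcls.1
  have hsq : ∀ x ∈ D, x * x = 1 := fun x hx => Screen.tt_mul_self hset hx
  have hcj : ∀ {a b : G} (g : G), Commute a b → Commute (g * a * g⁻¹) (g * b * g⁻¹) := fun g h =>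
    h.map (MulAut.conj g)
  have memK : ∀ x : G, x ∈ K ↔ Commute x d₁ ∧ Commute x d₂ := by
    intro x
    rw [hK, Subgroup.mem_centralizer_iff]
    simp only [Set.mem_insert_iff, Set.mem_singleton_iff, forall_eq_or_imp, forall_eq]
    exact ⟨fun h => ⟨h.1.symm, h.2.symm⟩, fun h => ⟨h.1.eq.symm, h.2.eq.symm⟩⟩
  have memC : ∀ x : G, x ∈ C ↔ x * (d₁ * d₂) * x⁻¹ = d₁ * d₂ := fun x => by
    rw [hC, Subgroup.mem_centralizer_singleton_iff, mul_inv_eq_iff_eq_mul]
  have hKC : K ≤ C := fun x hx => by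
    rw [memC, (((memK x).1 hx).1.mul_right ((memK x).1 hx).2).eq, mul_inv_cancel_right]
  -- elements of `C` permute the two members
  have hperm : ∀ x ∈ C, x ∈ K ∨ (x * d₁ * x⁻¹ = d₂ ∧ x * d₂ * x⁻¹ = d₁) := by
    intro x hx
    have hne' : x * d₁ * x⁻¹ ≠ x * d₂ * x⁻¹ := fun h => hne (mul_left_cancel (mul_right_cancel h))
    have s1 : Sys D 2 (d₁ * d₂) [d₁, d₂] := by
      refine ⟨by simp [hne], rfl, ?_, ?_, by simp⟩
      · simp only [List.mem_cons, List.not_mem_nil, or_false]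
        rintro a (rfl | rfl) <;> assumption
      · simp only [List.mem_cons, List.not_mem_nil, or_false]
        rintro a (rfl | rfl) b (rfl | rfl) <;> first | exact Commute.refl _ | exact hc | exact hc.symm
    have s2 : Sys D 2 (d₁ * d₂) [x * d₁ * x⁻¹, x * d₂ * x⁻¹] := by
      refine ⟨by simp [hne'], rfl, ?_, ?_, ?_⟩
      · simp only [List.mem_cons, List.not_mem_nil, or_false]
        rintro a (rfl | rfl)
        exacts [TT.conj_mem hcls x h₁, TT.conj_mem hcls x h₂]
      · simp only [List.mem_cons, List.not_mem_nil, or_false]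
        rintro a (rfl | rfl) b (rfl | rfl) <;>
          first | exact Commute.refl _ | exact hcj x hc | exact hcj x hc.symm
      · rw [List.prod_cons, List.prod_singleton]
        refine Eq.trans ?_ ((memC x).1 hx)
        group
    have hu := pair_unique hF c.prim c.frame (d₁ * d₂) _ _ s1 s2
    have e1 := (hu (x * d₁ * x⁻¹)).2 (by simp)
    have e2 := (hu (x * d₂ * x⁻¹)).2 (by simp)
    simp only [List.mem_cons, List.not_mem_nil, or_false] at e1 e2
    rcases e1 with e1 | e1 <;> rcases e2 with e2 | e2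
    · exact absurd (e1.trans e2.symm) hne'
    · exact Or.inl ((memK x).2 ⟨mul_inv_eq_iff_eq_mul.1 e1, mul_inv_eq_iff_eq_mul.1 e2⟩)
    · exact Or.inr ⟨e1, e2⟩
    · exact absurd (e1.trans e2.symm) hne'
  have hKn : ∀ x ∈ C, ∀ y ∈ K, x * y * x⁻¹ ∈ K := by
    intro x hx y hy
    obtain ⟨a, b⟩ := (memK y).1 hy
    have a' := hcj x a
    have b' := hcj x b
    rcases hperm x hx with h | ⟨e1, e2⟩
    · exact mul_mem (mul_mem h hy) (inv_mem h)
    · rw [e1] at a'; rw [e2] at b'
      exact (memK _).2 ⟨b', a'⟩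
  -- the index
  obtain ⟨t, ht1, ht2⟩ := M22.duo_move c h₁ h₂ h₂ h₁ hne hne.symm hc hc.symm
  have htC : t ∈ C := (memC t).2 (by
    calc t * (d₁ * d₂) * t⁻¹ = (t * d₁ * t⁻¹) * (t * d₂ * t⁻¹) := by group
      _ = d₂ * d₁ := by rw [ht1, ht2]
      _ = d₁ * d₂ := hc.eq.symm)
  have htK : t ∉ K := fun h => hne (by
    have e := ((memK t).1 h).1
    rw [e.eq, mul_inv_cancel_right] at ht1
    exact ht1)
  have hidx : (K.subgroupOf C).index = 2 := by
    refine Subgroup.relIndex_eq_two_iff_exists_notMem_and.2 ⟨t, htC, htK, fun b hb => ?_⟩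
    rcases hperm b hb with h | ⟨e1, e2⟩
    · exact Or.inr h
    · refine Or.inl ((memK _).2 ⟨mul_inv_eq_iff_eq_mul.1 ?_, mul_inv_eq_iff_eq_mul.1 ?_⟩)
      · calc b * t * d₁ * (b * t)⁻¹ = b * (t * d₁ * t⁻¹) * b⁻¹ := by group
          _ = d₁ := by rw [ht1, e2]
      · calc b * t * d₂ * (b * t)⁻¹ = b * (t * d₂ * t⁻¹) * b⁻¹ := by group
          _ = d₂ := by rw [ht2, e1]
  -- coordinates at the first member
  obtain ⟨fr⟩ := c.frame d₁ h₁
  obtain ⟨φ, hφs, hφ⟩ := fr.img
  have h2N : d₂ ∈ TT.Nb D d₁ := ⟨h₂, hne.symm, hc⟩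
  set p := fr.pt d₂ with hp
  have hp0 : p ≠ 0 := fr.pt_ne _ h2N
  have hpp : ub hF p p = 0 := fr.pt_iso _ h2N
  obtain ⟨Ψ, hΨz, hΨ1, hΨr, hΨt⟩ := SU7.exists_psi hF hp0 hpp
  have hkerφ : ∀ h : ↥(Subgroup.closure (TT.Nb D d₁)), φ h = 1 → (h : G) = 1 ∨ (h : G) = d₁ := by
    intro h hh
    refine c.centraliser_nb h₁ (M22.commute_of_mem_nbGroup h.2) fun w hw => ?_
    have hpar := M22.act_of_img c fr φ hφ h (g := 1) (by rw [hh]; rfl) hw
    rw [act_one, Module.End.one_apply] at hpar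
    obtain ⟨k, -, e⟩ := hpar
    exact mul_inv_eq_iff_eq_mul.1
      (fr.inj w hw _ (M22.nb_of_commute hcls (M22.commute_of_mem_nbGroup h.2) hw) ⟨k, e⟩)
  have hKH : K ≤ Subgroup.closure (TT.Nb D d₁) := fun x hx => c.centraliser_member h₁ ((memK x).1 hx).1
  set φK := φ.comp (Subgroup.inclusion hKH) with hφK
  have hlift : ∀ x : ↥K, ∃ g : ↥(SU7.pointStab p), φK x = QuotientGroup.mk g.1 := by
    intro x
    obtain ⟨s, hs⟩ := QuotientGroup.mk_surjective (φK x)
    obtain ⟨k, hk, e⟩ := M22.act_of_img c fr φ hφ (Subgroup.inclusion hKH x) (g := s) hs.symm h2N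
    rw [Subgroup.coe_inclusion, ((memK x.1).1 x.2).2.eq, mul_inv_cancel_right, ← hp] at e
    refine ⟨⟨s, (SU7.mem_pointStab hF).2 ⟨k⁻¹, inv_ne_zero hk, ?_⟩⟩, hs.symm⟩
    conv_rhs => rw [e]
    rw [smul_smul, inv_mul_cancel₀ hk, one_smul]
  choose lift hlift using hlift
  have hwd : ∀ g g' : ↥(SU7.pointStab p),
      (QuotientGroup.mk g.1 : Cfsg.PSU 6 F 2) = QuotientGroup.mk g'.1 → Ψ g = Ψ g' := by
    intro g g' h
    have h1 := hΨz (g⁻¹ * g') (QuotientGroup.eq.1 h)
    rwa [map_mul, map_inv, inv_mul_eq_one] at h1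
  let ψ : ↥K →* Cfsg.SU 4 F 2 := MonoidHom.mk' (fun x => Ψ (lift x)) fun x y => by
    rw [← map_mul]
    refine hwd _ _ ?_
    rw [Subgroup.coe_mul, QuotientGroup.mk_mul, ← hlift, ← hlift, ← hlift, map_mul]
  have hψ : ∀ (x : ↥K) (g : ↥(SU7.pointStab p)), φK x = QuotientGroup.mk g.1 → ψ x = Ψ g :=
    fun x g h => hwd _ _ ((hlift x).symm.trans h)
  have hmemw : ∀ w ∈ TT.Nb D d₁, ub hF p (fr.pt w) = 0 → w ∈ K := fun w hw h =>
    (memK w).2 ⟨hw.2.2.symm, ((fr.commute_iff _ h2N w hw).2 h).symm⟩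
  have hψs : Function.Surjective ψ := by
    rw [← MonoidHom.range_eq_top]
    refine S5469.su4_gen hF _ fun v hv hvv => ?_
    obtain ⟨u, hu, hu0, huu, hpu, -, hΨu⟩ := hΨt v hv hvv
    obtain ⟨w, hw, k, hk, hwk⟩ := fr.onto u hu0 huu
    have hwK := hmemw w hw (by rw [hwk, ub_smul_right hF, hpu, mul_zero])
    refine ⟨⟨w, hwK⟩, (hψ _ ⟨SU7.tau hF u, hu⟩ ?_).trans hΨu⟩
    show φ ⟨w, _⟩ = _
    rw [hφ w hw, hwk, SU7.tau_smul hF huu hk]
  have hψc : ∀ z : ↥K, (∀ x : ↥K, x * z = z * x) → ψ z = 1 := by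
    intro z hz
    rw [← Subgroup.mem_bot, ← S5469.su4_center hF, Subgroup.mem_center_iff]
    intro s
    obtain ⟨x, rfl⟩ := hψs s
    rw [← map_mul, ← map_mul, hz]
  set E := ψ.ker.map K.subtype with hE
  have memE : ∀ x : G, x ∈ E ↔ ∃ hx : x ∈ K, ψ ⟨x, hx⟩ = 1 := by
    intro x
    constructor
    · rintro ⟨y, hy, rfl⟩; exact ⟨y.2, hy⟩
    · rintro ⟨hx, h⟩; exact ⟨⟨x, hx⟩, h, rfl⟩
  have hEK : E ≤ K := Subgroup.map_subtype_le _
  have hKcard : Nat.card K = 26542080 := by
    rw [← c.duo_card h₁ h2N]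
    refine Nat.card_congr (Equiv.subtypeEquivRight fun x => ?_)
    rw [Subgroup.mem_inf, Subgroup.mem_centralizer_singleton_iff, Subgroup.mem_centralizer_singleton_iff, memK]
    rfl
  have hkcard : Nat.card ψ.ker = 1024 := by
    have h := Subgroup.card_mul_index ψ.ker
    rw [Subgroup.index_ker, MonoidHom.range_eq_top.2 hψs, Subgroup.card_top, S5469.su4_card hF, hKcard] at h
    omega
  have hEcard : Nat.card E = 1024 := by
    rw [hE, Subgroup.card_map_of_injective (Subgroup.subtype_injective K), hkcard]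
  -- the centre
  have hd₁K : d₁ ∈ K := (memK _).2 ⟨Commute.refl _, hc⟩
  have hd₂K : d₂ ∈ K := (memK _).2 ⟨hc.symm, Commute.refl _⟩
  have hV1 : d₁ ∈ V := Subgroup.subset_closure (Or.inl rfl)
  have hV2 : d₂ ∈ V := Subgroup.subset_closure (Or.inr rfl)
  have hcen : ∀ d ∈ ({d₁, d₂} : Set G), ∃ hd : d ∈ K, ∀ x : ↥K, x * ⟨d, hd⟩ = ⟨d, hd⟩ * x := by
    rintro d (rfl | rfl)
    · exact ⟨hd₁K, fun x => Subtype.ext ((memK x.1).1 x.2).1.eq⟩
    · exact ⟨hd₂K, fun x => Subtype.ext ((memK x.1).1 x.2).2.eq⟩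
  have hVE : V ≤ E := by
    rw [hV, Subgroup.closure_le]
    intro d hd
    obtain ⟨hdK, hd'⟩ := hcen d hd
    exact (memE d).2 ⟨hdK, hψc _ hd'⟩
  have hVmem : ∀ x : ↥(Subgroup.closure (TT.Nb D d₁)),
      φ x = 1 ∨ φ x = QuotientGroup.mk (SU7.tau hF p) →
        (x : G) = 1 ∨ (x : G) = d₁ ∨ (x : G) = d₂ ∨ (x : G) = d₁ * d₂ := by
    intro x hx
    rcases hx with hx | hx
    · rcases hkerφ x hx with h | h
      exacts [Or.inl h, Or.inr (Or.inl h)]
    · have h0 : φ (x * ⟨d₂, Subgroup.subset_closure h2N⟩⁻¹) = 1 := by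
        rw [map_mul, map_inv, hx, hφ d₂ h2N, ← hp, mul_inv_cancel]
      rcases hkerφ _ h0 with h | h <;> simp only [Subgroup.coe_mul, Subgroup.coe_inv] at h
      · exact Or.inr (Or.inr (Or.inl (mul_inv_eq_one.1 h)))
      · exact Or.inr (Or.inr (Or.inr (mul_inv_eq_iff_eq_mul.1 h)))
  have hrad : ∀ x : ↥K, ψ x = 1 → ∃ g, SU7.Rad hF p g ∧ φK x = QuotientGroup.mk g := by
    intro x hx
    obtain ⟨z, hz, hg⟩ := hΨ1 (lift x) hx
    exact ⟨_, hg, by rw [QuotientGroup.mk_mul, (QuotientGroup.eq_one_iff z).2 hz, one_mul, hlift]⟩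
  have hEcomm : ∀ x ∈ E, ∀ y ∈ E, x * y * x⁻¹ * y⁻¹ = 1 ∨ x * y * x⁻¹ * y⁻¹ = d₁ ∨ x * y * x⁻¹ * y⁻¹ = d₂ ∨
      x * y * x⁻¹ * y⁻¹ = d₁ * d₂ := by
    intro x hx y hy
    obtain ⟨hxK, hx1⟩ := (memE x).1 hx
    obtain ⟨hyK, hy1⟩ := (memE y).1 hy
    set X : ↥K := ⟨x, hxK⟩ with hX
    set Y : ↥K := ⟨y, hyK⟩ with hY
    obtain ⟨g, hg, hgx⟩ := hrad X⁻¹ (by rw [map_inv, hx1, inv_one])
    obtain ⟨h, hh, hhy⟩ := hrad Y⁻¹ (by rw [map_inv, hy1, inv_one])
    have e : φK ((Y⁻¹ * X⁻¹)⁻¹ * (X⁻¹ * Y⁻¹)) = QuotientGroup.mk ((h * g)⁻¹ * (g * h)) := by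
      simp only [map_mul, map_inv, QuotientGroup.mk_mul, QuotientGroup.mk_inv, ← hgx, ← hhy]
    have hv := hVmem (Subgroup.inclusion hKH ((Y⁻¹ * X⁻¹)⁻¹ * (X⁻¹ * Y⁻¹))) (by
      rcases (SU7.rad_comm hF hp0 hpp hg hh).1 with h' | h' <;> rw [h'] at e
      exacts [Or.inl e, Or.inr e])
    simpa [hX, hY, mul_assoc] using hv
  -- conjugation
  let α : ↥C → (↥K →* ↥K) := fun a =>
    MonoidHom.mk' (fun x => ⟨a.1 * x.1 * a.1⁻¹, hKn a.1 a.2 x.1 x.2⟩) fun x y =>
      Subtype.ext (by simp [mul_assoc])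
  have hαv : ∀ (a : ↥C) (x : ↥K), (α a x : G) = a.1 * x.1 * a.1⁻¹ := fun a x => rfl
  have hαmul : ∀ (a b : ↥C) (x : ↥K), α (a * b) x = α a (α b x) := fun a b x => Subtype.ext (by
    simp [hαv, mul_assoc])
  have hα1 : ∀ x : ↥K, α 1 x = x := fun x => Subtype.ext (by simp [hαv])
  have hαs : ∀ a, Function.Surjective (α a) := fun a x =>
    ⟨α a⁻¹ x, by rw [← hαmul, mul_inv_cancel, hα1]⟩
  have hinv : ∀ (a : ↥C) (x : ↥K), ψ x = 1 → ψ (α a x) = 1 := by
    intro a x hx
    have hN1 : (ψ.ker.map (α a)).Normal := Subgroup.Normal.map inferInstance _ (hαs a)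
    have hN2 : ((ψ.ker.map (α a)).map ψ).Normal := hN1.map _ hψs
    rcases S5469.su4_normal hF ((ψ.ker.map (α a)).map ψ) with h | h
    · rw [← Subgroup.mem_bot, ← h]
      exact Subgroup.mem_map_of_mem _ (Subgroup.mem_map_of_mem _ hx)
    · exfalso
      have hs : Function.Surjective fun z : ↥ψ.ker => ψ (α a z.1) := fun s => by
        have hm : s ∈ (ψ.ker.map (α a)).map ψ := h ▸ Subgroup.mem_top s
        obtain ⟨_, ⟨z, hz, rfl⟩, rfl⟩ := hm
        exact ⟨⟨z, hz⟩, rfl⟩
      have := Nat.card_le_card_of_surjective _ hs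
      rw [S5469.su4_card hF, hkcard] at this
      omega
  have hEn : ∀ a ∈ C, ∀ x ∈ E, a * x * a⁻¹ ∈ E := by
    intro a ha x hx
    obtain ⟨hxK, hx1⟩ := (memE x).1 hx
    exact (memE _).2 ⟨_, hinv ⟨a, ha⟩ ⟨x, hxK⟩ hx1⟩
  have hresp : ∀ (a : ↥C) (x y : ↥K), ψ x = ψ y → ψ (α a x) = ψ (α a y) := by
    intro a x y h
    have h1 := hinv a (x⁻¹ * y) (by rw [map_mul, map_inv, h, inv_mul_cancel])
    rwa [map_mul, map_inv, map_mul, map_inv, inv_mul_eq_one] at h1
  let σ := Function.surjInv hψs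
  have hσ : ∀ s, ψ (σ s) = s := Function.surjInv_eq hψs
  let β : ↥C → (Cfsg.SU 4 F 2 →* Cfsg.SU 4 F 2) := fun a =>
    MonoidHom.mk' (fun s => ψ (α a (σ s))) fun s s' => by
      rw [← map_mul ψ, ← map_mul (α a)]
      exact hresp a _ _ (by rw [map_mul, hσ, hσ, hσ])
  have hβ : ∀ (a : ↥C) (x : ↥K), β a (ψ x) = ψ (α a x) := fun a x => hresp a _ _ (hσ _)
  have hβmul : ∀ (a b : ↥C), (β a).comp (β b) = β (a * b) := fun a b => MonoidHom.ext fun s => by
    obtain ⟨x, rfl⟩ := hψs s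
    rw [MonoidHom.comp_apply, hβ, hβ, hβ, hαmul]
  have hβ1 : β 1 = MonoidHom.id _ := MonoidHom.ext fun s => by
    obtain ⟨x, rfl⟩ := hψs s
    rw [hβ, hα1, MonoidHom.id_apply]
  let Θ0 : ↥C →* MulAut (Cfsg.SU 4 F 2) := MonoidHom.mk'
    (fun a => MonoidHom.toMulEquiv (β a) (β a⁻¹) (by rw [hβmul, inv_mul_cancel, hβ1])
      (by rw [hβmul, mul_inv_cancel, hβ1]))
    fun a b => MulEquiv.ext fun s => (DFunLike.congr_fun (hβmul a b) s).symm
  have hΘ0 : ∀ a : ↥C, Θ0 a = 1 ↔ ∀ x : ↥K, ψ (α a x) = ψ x := fun a => by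
    constructor
    · intro h x
      rw [← hβ]
      exact DFunLike.congr_fun h (ψ x)
    · intro h
      refine MulEquiv.ext fun s => ?_
      obtain ⟨x, rfl⟩ := hψs s
      exact (hβ a x).trans (h x)
  -- the interchanging elements act nontrivially
  have hnoswap : ∀ a : ↥C, a.1 * d₁ * a.1⁻¹ = d₂ → a.1 * d₂ * a.1⁻¹ = d₁ →
      (∀ x : ↥K, ψ (α a x) = ψ x) → False := by
    intro a ha1 ha2 ha
    have hhex : ∀ g : ↥C, g.1 * d₁ * g.1⁻¹ = d₂ → g.1 * d₂ * g.1⁻¹ = d₁ → (∀ x : ↥K, ψ (α g x) = ψ x) →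
        ∀ w ∈ D, w ≠ d₁ → w ≠ d₂ → Commute w d₁ → Commute w d₂ → g.1 * w * g.1⁻¹ ∈ M22.Lin D d₁ d₂ w := by
      intro g hg1 hg2 hg w hw hw1 hw2 hwc1 hwc2
      set w' := g.1 * w * g.1⁻¹ with hw'
      have hw'D : w' ∈ D := TT.conj_mem hcls _ hw
      have hwK : w ∈ K := (memK w).2 ⟨hwc1, hwc2⟩
      have hw'K : w' ∈ K := hKn _ g.2 w hwK
      have heq : ψ ⟨w', hw'K⟩ = ψ ⟨w, hwK⟩ := hg ⟨w, hwK⟩
      have key : ∀ u ∈ D, Commute u d₁ → Commute u d₂ → Commute u w → Commute u w' := by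
        intro u hu hu1 hu2 huw
        by_contra hn
        have h3 : (u * w') ^ 3 = 1 := by
          have e := Screen.tt_braid hset hu hw'D hn
          rw [pow_succ, pow_two]
          calc u * w' * (u * w') * (u * w') = (u * w' * u) * (w' * u * w') := by simp only [mul_assoc]
            _ = (u * w' * u) * (u * w' * u) := by rw [e]
            _ = 1 := by
              simp only [mul_assoc]
              rw [Screen.mul_mul_self_cancel (hsq u hu), Screen.mul_mul_self_cancel (hsq w' hw'D), hsq u hu]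
        have huK : u ∈ K := (memK u).2 ⟨hu1, hu2⟩
        set U : ↥K := ⟨u, huK⟩ with hU
        set W : ↥K := ⟨w, hwK⟩ with hW
        set W' : ↥K := ⟨w', hw'K⟩ with hW'
        have hUW : Commute (ψ U) (ψ W) := Commute.map (show Commute U W from Subtype.ext huw.eq) ψ
        have h2 : ψ (U * W') * ψ (U * W') = 1 := by
          rw [map_mul, heq]
          calc ψ U * ψ W * (ψ U * ψ W) = ψ (U * U) * ψ (W * W) := by
                rw [map_mul, map_mul, mul_assoc, ← mul_assoc (ψ W), ← hUW.eq]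
                simp only [mul_assoc]
            _ = 1 := by
              rw [show U * U = 1 from Subtype.ext (hsq u hu), show W * W = 1 from Subtype.ext (hsq w hw),
                map_one, one_mul]
        have h3' : ψ (U * W') ^ 3 = 1 := by
          rw [← map_pow, show (U * W') ^ 3 = 1 from Subtype.ext (by simpa using h3), map_one]
        rw [pow_succ, pow_two, h2, one_mul] at h3'
        have hmE : u * w' ∈ E := (memE _).2 ⟨mul_mem huK hw'K, h3'⟩
        have h4 : (u * w') ^ 1024 = 1 := by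
          have := congrArg Subtype.val (pow_card_eq_one' (x := (⟨u * w', hmE⟩ : ↥E)))
          rw [hEcard] at this
          simpa using this
        have h5 : u * w' = 1 := by
          rw [← orderOf_eq_one_iff]
          exact Nat.eq_one_of_dvd_coprimes (show Nat.Coprime 1024 3 by norm_num)
            (orderOf_dvd_of_pow_eq_one h4) (orderOf_dvd_of_pow_eq_one h3)
        apply hn
        rw [eq_inv_of_mul_eq_one_left h5]
        exact (Commute.refl w').inv_left
      obtain ⟨c1, c2⟩ := (memK w').1 hw'K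
      exact ⟨hw'D, c1, c2, (key w hw hwc1 hwc2 (Commute.refl w)).symm, key⟩
    obtain ⟨v, hv0, hvv⟩ := SU7.exists_isotropic_top hF (n := 4) (by omega)
    obtain ⟨u, -, hu0, huu, hpu, hunp, -⟩ := hΨt v hv0 hvv
    obtain ⟨l, hlN, k, hk, hlk⟩ := fr.onto u hu0 huu
    have hlK := hmemw l hlN (by rw [hlk, ub_smul_right hF, hpu, mul_zero])
    obtain ⟨hl1c, hl2c⟩ := (memK l).1 hlK
    have hl2 : l ≠ d₂ := fun e => hunp k⁻¹ (by
      rw [e, ← hp] at hlk
      rw [hlk, smul_smul, inv_mul_cancel₀ hk, one_smul])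
    set l' := a.1 * l * a.1⁻¹ with hl'
    have hl'L := hhex a ha1 ha2 ha l hlN.1 hlN.2.1 hl2 hl1c hl2c
    have hl'1 : l' ≠ d₁ := fun e => hl2 (by
      rw [← ha2] at e
      exact mul_left_cancel (mul_right_cancel e))
    have hl'2 : l' ≠ d₂ := fun e => hlN.2.1 (by
      rw [← ha1] at e
      exact mul_left_cancel (mul_right_cancel e))
    have hl'N : l' ∈ TT.Nb D d₁ := ⟨hl'L.1, hl'1, hl'L.2.1.symm⟩
    obtain ⟨i, j, hij⟩ := M22.lin_span fr h2N hlN hl2 hl'L hl'1
    rw [← hp] at hij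
    set q := fr.pt l with hq
    have hqq : ub hF q q = 0 := fr.pt_iso l hlN
    have hpq : ub hF p q = 0 := (fr.commute_iff _ h2N l hlN).1 hl2c.symm
    have hj : j ≠ 0 := fun h => hl'2 (fr.inj _ h2N _ hl'N ⟨i, by rw [hij, h, zero_smul, add_zero]⟩)
    obtain ⟨y0, hy1, hy2⟩ := SU7.exists_dual2 hF (fr.apart h2N hlN hl2)
    rw [← hq] at hy1
    rw [← hp] at hy2
    obtain ⟨T, hT⟩ := exists_trace_one hF
    set wv := frobQ hF (j⁻¹ * i) • y0 with hwv
    have hwp : ub hF p wv = 0 := by rw [hwv, ub_smul_right hF, hy2, mul_zero]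
    have hwq : ub hF wv q = j⁻¹ * i := by
      rw [hwv, ub_smul_left hF, sig_sig hF, show ub hF y0 q = 1 by rw [← ub_symm hF, hy1, map_one], mul_one]
    set cc := -(T * ub hF wv wv) with hcc
    have hcond : cc + frobQ hF cc = -ub hF wv wv := by
      rw [hcc, map_neg, map_mul, ub_self_fixed hF]
      linear_combination -(ub hF wv wv) * hT
    set h := root hF p wv cc with hh
    have hact : ∀ x, act h x = x + ub hF p x • wv + (cc * ub hF p x - ub hF wv x) • p :=
      act_root hF hpp hwp hcond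
    have hR : SU7.Rad hF p h := by
      refine ⟨?_, fun x hx => ⟨cc * ub hF p x - ub hF wv x, by rw [hact, hx, zero_smul, add_zero]⟩⟩
      rw [hact, hpp, ub_eq_zero_symm hF hwp]
      simp
    obtain ⟨X, hX⟩ := hφs (QuotientGroup.mk h)
    have hXd₁ : Commute (X : G) d₁ := M22.commute_of_mem_nbGroup X.2
    have hXd₂ : Commute (X : G) d₂ := by
      obtain ⟨m, -, e⟩ := M22.act_of_img c fr φ hφ X (g := h) hX h2N
      rw [← hp, hR.1] at e
      exact mul_inv_eq_iff_eq_mul.1 (fr.inj _ h2N _ (M22.nb_of_commute hcls hXd₁ h2N) ⟨m, e⟩)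
    have hXK : (X : G) ∈ K := (memK _).2 ⟨hXd₁, hXd₂⟩
    have hX1 : ψ ⟨X, hXK⟩ = 1 :=
      (hψ _ ⟨h, (SU7.mem_pointStab hF).2 ⟨1, one_ne_zero, by rw [hR.1, one_smul]⟩⟩ hX).trans (hΨr _ hR)
    have hXl : (X : G) * l' * (X : G)⁻¹ = l := by
      obtain ⟨m, -, e⟩ := M22.act_of_img c fr φ hφ X (g := h) hX hl'N
      refine fr.inj l hlN _ (M22.nb_of_commute hcls hXd₁ hl'N) ⟨m * j, ?_⟩
      rw [e, hij, map_add, map_smul, map_smul, hR.1, hact, hpq, hwq, mul_smul]
      congr 1
      rw [zero_smul, add_zero, mul_zero, zero_sub, smul_add, smul_smul, mul_neg, ← mul_assoc,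
        mul_inv_cancel₀ hj, one_mul]
      module
    set g : ↥C := ⟨X, hKC hXK⟩ * a with hg
    have hgv : ∀ y : G, g.1 * y * g.1⁻¹ = (X : G) * (a.1 * y * a.1⁻¹) * (X : G)⁻¹ := fun y => by
      simp only [hg, Subgroup.coe_mul]; group
    have hg1 : g.1 * d₁ * g.1⁻¹ = d₂ := by rw [hgv, ha1, hXd₂.eq, mul_inv_cancel_right]
    have hg2 : g.1 * d₂ * g.1⁻¹ = d₁ := by rw [hgv, ha2, hXd₁.eq, mul_inv_cancel_right]
    have hgψ : ∀ x : ↥K, ψ (α g x) = ψ x := fun x => by
      rw [show α g x = ⟨X, hXK⟩ * α a x * ⟨X, hXK⟩⁻¹ from Subtype.ext (hgv x.1), map_mul, map_mul,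
        map_inv, hX1, one_mul, inv_one, mul_one, ha]
    refine M22.no_swap c hlN.1 ⟨h₁, hlN.2.1.symm, hl1c⟩ ⟨h₂, hl2.symm, hl2c⟩ hne hc
      (g := g.1) (mul_inv_eq_iff_eq_mul.1 (by rw [hgv]; exact hXl)) hg1 hg2 (hhex g hg1 hg2 hgψ)
  let Θ : ↥C →* MulAut (Cfsg.PSU 4 F 2) := (MulAut.congr (S5469.toPSU4 hF)).toMonoidHom.comp Θ0
  have hker : Θ.ker = E.subgroupOf C := by
    ext a
    have h1 : a ∈ Θ.ker ↔ ∀ x : ↥K, ψ (α a x) = ψ x := by
      rw [MonoidHom.mem_ker, ← hΘ0]
      exact map_eq_one_iff (MulAut.congr (S5469.toPSU4 hF)) (MulEquiv.injective _)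
    rw [h1, Subgroup.mem_subgroupOf]
    constructor
    · intro h
      rcases hperm a.1 a.2 with haK | ⟨e1, e2⟩
      · refine (memE _).2 ⟨haK, ?_⟩
        rw [← Subgroup.mem_bot, ← S5469.su4_center hF, Subgroup.mem_center_iff]
        intro s
        obtain ⟨x, rfl⟩ := hψs s
        have := h x
        rw [show α a x = ⟨a.1, haK⟩ * x * ⟨a.1, haK⟩⁻¹ from rfl, map_mul, map_mul, map_inv,
          mul_inv_eq_iff_eq_mul] at this
        exact this.symm
      · exact (hnoswap a e1 e2 h).elim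
    · intro h x
      obtain ⟨haK, ha1⟩ := (memE _).1 h
      rw [show α a x = ⟨a.1, haK⟩ * x * ⟨a.1, haK⟩⁻¹ from rfl, map_mul, map_mul, map_inv, ha1]
      simp
  haveI hn' : (E.subgroupOf C).Normal := hker ▸ Θ.normal_ker
  have hsurj : Function.Surjective Θ := by
    rw [← MonoidHom.range_eq_top]
    refine Subgroup.eq_top_of_card_eq _ ?_
    rw [← Subgroup.index_ker, S5469.card_aut4 hF, hker]
    have h1 := Subgroup.card_mul_index (E.subgroupOf C)
    have h2 := Subgroup.card_mul_index (K.subgroupOf C)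
    rw [Nat.card_congr (Subgroup.subgroupOfEquivOfLe (hEK.trans hKC)).toEquiv, hEcard] at h1
    rw [Nat.card_congr (Subgroup.subgroupOfEquivOfLe hKC).toEquiv, hKcard, hidx] at h2
    omega
  -- generators of `E`
  set j := d₁ * d₂ with hj
  have hd₁sq := hsq d₁ h₁
  have hd₂sq := hsq d₂ h₂
  have hjd₁ : d₁ ≠ j := fun h => by
    have h2 : d₂ = 1 := by rwa [hj, left_eq_mul] at h
    have := hset.1 d₂ h₂; rw [h2, orderOf_one] at this; omega
  have hd₁1 : d₁ ≠ 1 := fun h => by have := hset.1 d₁ h₁; rw [h, orderOf_one] at this; omega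
  have hj1 : j ≠ 1 := fun h => hne (by
    rw [hj] at h
    calc d₁ = d₁ * (d₂ * d₂) := by rw [hd₂sq, mul_one]
      _ = (d₁ * d₂) * d₂ := by rw [mul_assoc]
      _ = d₂ := by rw [h, one_mul])
  have hjj : j * j = 1 := by
    rw [hj]
    calc d₁ * d₂ * (d₁ * d₂) = d₁ * d₁ * (d₂ * d₂) := hc.symm.mul_mul_mul_comm _ _
      _ = 1 := by rw [hd₁sq, hd₂sq, one_mul]
  let J : Subgroup G :=
    { carrier := {x | x = 1 ∨ x = j}
      one_mem' := Or.inl rfl
      mul_mem' := by
        rintro a b (rfl | rfl) (rfl | rfl) <;> simp [hjj]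
      inv_mem' := by
        rintro a (rfl | rfl)
        · exact Or.inl inv_one
        · exact Or.inr (inv_eq_of_mul_eq_one_right hjj) }
  have memJ : ∀ x : G, x ∈ J ↔ x = 1 ∨ x = j := fun x => Iff.rfl
  have hJc : ∀ a ∈ J, ∀ y ∈ K, a * y = y * a := by
    intro a ha y hy
    rcases (memJ a).1 ha with rfl | rfl
    · rw [one_mul, mul_one]
    · exact (((memK y).1 hy).1.mul_right ((memK y).1 hy).2).eq.symm
  let Gen : G → Prop := fun x => ∃ w w', w ∈ D ∧ w' ∈ D ∧ w ≠ d₁ ∧ w ≠ d₂ ∧ w' ≠ d₁ ∧ w' ≠ d₂ ∧ w ≠ w' ∧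
    Commute w w' ∧ Commute w d₁ ∧ Commute w d₂ ∧ Commute w' d₁ ∧ Commute w' d₂ ∧ x = w * w' ∧ x ∈ E
  have hgen0 : ∀ q, ub hF q q = 0 → ub hF p q = 0 → (∀ m : F, q ≠ m • p) →
      ∃ x : ↥K, Gen x.1 ∧ φK x = QuotientGroup.mk (SU7.tau hF q * SU7.tau hF (q + p)) ∧
        SU7.Rad hF p (SU7.tau hF q * SU7.tau hF (q + p)) ∧
        ∀ v, ub hF p v = 0 → act (SU7.tau hF q * SU7.tau hF (q + p)) v = v + ub hF q v • p := by
    intro q hqq hpq hnp
    have hqp := ub_eq_zero_symm hF hpq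
    have hrr : ub hF (q + p) (q + p) = 0 := by
      simp [ub_add_left hF, ub_add_right hF, hqq, hpp, hpq, hqp]
    have hpr : ub hF p (q + p) = 0 := by simp [ub_add_right hF, hpq, hpp]
    have hr0 : q + p ≠ 0 := fun h => hnp (-1) (by rw [neg_one_smul]; exact eq_neg_of_add_eq_zero_left h)
    have hq0 : q ≠ 0 := fun h => hnp 0 (by rw [h, zero_smul])
    obtain ⟨w, hw, k, hk, hwk⟩ := fr.onto q hq0 hqq
    obtain ⟨w', hw', k', hk', hwk'⟩ := fr.onto (q + p) hr0 hrr
    have hwK := hmemw w hw (by rw [hwk, ub_smul_right hF, hpq, mul_zero])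
    have hwK' := hmemw w' hw' (by rw [hwk', ub_smul_right hF, hpr, mul_zero])
    have hw2 : w ≠ d₂ := fun e => hnp k⁻¹ (by
      rw [e, ← hp] at hwk
      rw [hwk, smul_smul, inv_mul_cancel₀ hk, one_smul])
    have hw2' : w' ≠ d₂ := fun e => hnp (k'⁻¹ - 1) (by
      rw [e, ← hp] at hwk'
      have h1 : k'⁻¹ • p = q + p := by
        conv_lhs => rw [hwk']
        rw [smul_smul, inv_mul_cancel₀ hk', one_smul]
      rw [sub_smul, one_smul, h1, add_sub_cancel_right])
    have hww : w ≠ w' := fun e => by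
      rw [e, hwk'] at hwk
      have h1 : (k - k') • q = k' • p := by linear_combination (norm := module) -(1:F) • hwk
      by_cases hkk : k - k' = 0
      · rw [hkk, zero_smul] at h1
        exact hk' ((smul_eq_zero.1 h1.symm).resolve_right hp0)
      · refine hnp ((k - k')⁻¹ * k') ?_
        rw [mul_smul, ← h1, smul_smul, inv_mul_cancel₀ hkk, one_smul]
    have hcw : Commute w w' := (fr.commute_iff w hw w' hw').2 (by
      rw [hwk, hwk', ub_smul_left hF, ub_smul_right hF, ub_add_right hF, hqq, hqp]; ring)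
    have hact : ∀ v, ub hF p v = 0 → act (SU7.tau hF q * SU7.tau hF (q + p)) v = v + ub hF q v • p := by
      intro v hv
      rw [act_mul_apply, SU7.act_tau hF hrr, SU7.act_tau hF hqq]
      simp only [ub_add_left hF, ub_add_right hF, ub_smul_right hF, hqq, hqp, hv, add_zero, mul_zero]
      have h2 : ub hF q v • q + ub hF q v • q = 0 := SU7.vadd_self hF _
      linear_combination (norm := module) h2
    have hR : SU7.Rad hF p (SU7.tau hF q * SU7.tau hF (q + p)) :=
      ⟨by rw [hact p hpp, hqp, zero_smul, add_zero], fun v hv => ⟨_, hact v hv⟩⟩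
    have hφx : φK (⟨w, hwK⟩ * ⟨w', hwK'⟩) = QuotientGroup.mk (SU7.tau hF q * SU7.tau hF (q + p)) := by
      rw [map_mul, QuotientGroup.mk_mul]
      congr 1
      · show φ ⟨w, _⟩ = _
        rw [hφ w hw, hwk, SU7.tau_smul hF hqq hk]
      · show φ ⟨w', _⟩ = _
        rw [hφ w' hw', hwk', SU7.tau_smul hF hrr hk']
    refine ⟨⟨w, hwK⟩ * ⟨w', hwK'⟩, ⟨w, w', hw.1, hw'.1, hw.2.1, hw2, hw'.2.1, hw2', hww, hcw,
      ((memK w).1 hwK).1, ((memK w).1 hwK).2, ((memK w').1 hwK').1, ((memK w').1 hwK').2, rfl, ?_⟩, hφx, hR, hact⟩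
    exact (memE _).2 ⟨mul_mem hwK hwK', (hψ _ ⟨_, (SU7.mem_pointStab hF).2 ⟨1, one_ne_zero,
      by rw [hR.1, one_smul]⟩⟩ hφx).trans (hΨr _ hR)⟩
  set T := Subgroup.closure ({x | Gen x} ∪ {d₁, d₂}) with hT
  have hTE : T ≤ E := by
    rw [hT, Subgroup.closure_le]
    rintro x (⟨w, w', -, -, -, -, -, -, -, -, -, -, -, -, -, hx⟩ | hx)
    · exact hx
    · exact hVE (Subgroup.subset_closure hx)
  obtain ⟨f, hff, hpf⟩ := SU7.iso_partner hF hp0 hpp
  have hgenT : ∀ y, ub hF p y = 0 → ∃ x : ↥K, (x : G) ∈ T ∧ ∃ g, SU7.Rad hF p g ∧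
      φK x = QuotientGroup.mk g ∧ ∀ v, ub hF p v = 0 → act g v = v + ub hF y v • p := by
    have hiso : ∀ q, ub hF q q = 0 → ub hF p q = 0 → ∃ x : ↥K, (x : G) ∈ T ∧ ∃ g, SU7.Rad hF p g ∧
        φK x = QuotientGroup.mk g ∧ ∀ v, ub hF p v = 0 → act g v = v + ub hF q v • p := by
      intro q hqq hpq
      by_cases hnp : ∃ m : F, q = m • p
      · obtain ⟨m, rfl⟩ := hnp
        refine ⟨1, one_mem _, 1, ⟨by rw [act_one]; rfl, fun v _ => ⟨0, by rw [act_one]; simp⟩⟩,
          by rw [map_one]; rfl, fun v hv => ?_⟩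
        rw [act_one, ub_smul_left hF, hv, mul_zero, zero_smul, add_zero]; rfl
      · push Not at hnp
        obtain ⟨x, hx, hφx, hR, hact⟩ := hgen0 q hqq hpq hnp
        exact ⟨x, Subgroup.subset_closure (Or.inl hx), _, hR, hφx, hact⟩
    have hadd : ∀ a b, (∃ x : ↥K, (x : G) ∈ T ∧ ∃ g, SU7.Rad hF p g ∧
        φK x = QuotientGroup.mk g ∧ ∀ v, ub hF p v = 0 → act g v = v + ub hF a v • p) →
        (∃ x : ↥K, (x : G) ∈ T ∧ ∃ g, SU7.Rad hF p g ∧
        φK x = QuotientGroup.mk g ∧ ∀ v, ub hF p v = 0 → act g v = v + ub hF b v • p) →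
        ∃ x : ↥K, (x : G) ∈ T ∧ ∃ g, SU7.Rad hF p g ∧
        φK x = QuotientGroup.mk g ∧ ∀ v, ub hF p v = 0 → act g v = v + ub hF (a + b) v • p := by
      rintro a b ⟨x, hx, g, hg, hφx, hga⟩ ⟨x', hx', g', hg', hφx', hgb⟩
      have hact : ∀ v, ub hF p v = 0 → act (g * g') v = v + ub hF (a + b) v • p := by
        intro v hv
        rw [act_mul_apply, hgb v hv, map_add, map_smul, hg.1, hga v hv, ub_add_left hF, add_smul]
        abel
      refine ⟨x * x', mul_mem hx hx', g * g', ⟨by rw [act_mul_apply, hg'.1, hg.1], fun v hv => ⟨_, hact v hv⟩⟩,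
        by rw [map_mul, hφx, hφx', QuotientGroup.mk_mul], hact⟩
    intro y hy
    obtain ⟨a, b, e, haa, hpa, hbb, hpb, hee, hpe, rfl⟩ := perp_sum hF hp0 hpp hy
    exact hadd _ _ (hadd _ _ (hiso a haa hpa) (hiso b hbb hpb)) (hiso e hee hpe)
  have hET : E ≤ T := by
    intro e he
    obtain ⟨heK, he1⟩ := (memE e).1 he
    obtain ⟨g, hg, hge⟩ := hrad ⟨e, heK⟩ he1
    set y := act g⁻¹ f - f with hy
    have hgp : act g⁻¹ p = p := by
      have h := congrArg (act g⁻¹) hg.1
      rwa [← act_mul_apply, inv_mul_cancel, act_one, Module.End.one_apply, eq_comm] at h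
    have hpy : ub hF p y = 0 := by
      rw [hy, ub_sub_right hF]
      conv_lhs => arg 1; rw [← hgp]
      rw [act_ub hF, sub_self]
    obtain ⟨x, hx, g', hg', hxg, hga⟩ := hgenT y hpy
    have hgv : ∀ v, ub hF p v = 0 → act g v = act g' v := by
      intro v hv
      obtain ⟨a, ha⟩ := hg.2 v hv
      have hfp : ub hF f p = 1 := by rw [← ub_symm hF, hpf, map_one]
      rw [hga v hv, ha, hy, ub_sub_left hF]
      congr 2
      have h1 : ub hF (act g⁻¹ f) v = ub hF f (act g v) := by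
        rw [← act_ub hF g, ← act_mul_apply, mul_inv_cancel, act_one, Module.End.one_apply]
      rw [h1, ha, ub_add_right hF, ub_smul_right hF, hfp, mul_one, add_sub_cancel_left]
    have hv := hVmem (Subgroup.inclusion hKH (x⁻¹ * ⟨e, heK⟩)) (by
      have e1 : φK (x⁻¹ * ⟨e, heK⟩) = QuotientGroup.mk (g'⁻¹ * g) := by
        rw [map_mul, map_inv, hge, hxg, QuotientGroup.mk_mul, QuotientGroup.mk_inv]
      rcases SU7.fix_perp_cases hF hp0 hpp (g := g'⁻¹ * g) (fun v hv => by
        rw [act_mul_apply, hgv v hv, ← act_mul_apply, inv_mul_cancel, act_one, Module.End.one_apply])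
        with h' | h' <;> rw [h'] at e1
      exacts [Or.inl e1, Or.inr e1])
    simp only [Subgroup.coe_inclusion, Subgroup.coe_mul, Subgroup.coe_inv] at hv
    have hT1 : d₁ ∈ T := Subgroup.subset_closure (Or.inr (Or.inl rfl))
    have hT2 : d₂ ∈ T := Subgroup.subset_closure (Or.inr (Or.inr rfl))
    have hxe : (x : G)⁻¹ * e ∈ T := by
      rcases hv with h | h | h | h <;> rw [h]
      exacts [one_mem _, hT1, hT2, mul_mem hT1 hT2]
    simpa using mul_mem hx hxe
  -- commutators and squares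
  have hEJ : ∀ x ∈ E, ∀ y ∈ E, x * y * x⁻¹ * y⁻¹ ∈ J := by
    intro x hx y hy
    have hxK := hEK hx
    obtain ⟨hx1, hx2⟩ := (memK x).1 hxK
    have hy' := hET hy
    rw [hT] at hy'
    have hTK : ∀ z ∈ T, z ∈ K := fun z hz => hEK (hTE hz)
    clear hy
    induction hy' using Subgroup.closure_induction with
    | mem z hz =>
      rcases hz with ⟨w, w', hwD, hwD', hw1, hw2, hw1', hw2', hww, hcw, hwc1, hwc2, hwc1', hwc2', rfl, hwE⟩ | hz
      · have hu : x * (w * w') * x⁻¹ = (x * w * x⁻¹) * (x * w' * x⁻¹) := by group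
        rcases hEcomm x hx _ hwE with h | h | h | h
        · exact Or.inl h
        · exfalso
          refine h32 _ _ d₁ w w' (TT.conj_mem hcls x hwD) (TT.conj_mem hcls x hwD')
            (fun h' => hww (mul_left_cancel (mul_right_cancel h'))) (hcj x hcw) h₁ hwD hwD' hw1.symm hw1'.symm
            hww hwc1.symm hwc1'.symm hcw ?_
          rw [← hu, mul_inv_eq_iff_eq_mul.1 h, mul_assoc]
        · exfalso
          refine h32 _ _ d₂ w w' (TT.conj_mem hcls x hwD) (TT.conj_mem hcls x hwD')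
            (fun h' => hww (mul_left_cancel (mul_right_cancel h'))) (hcj x hcw) h₂ hwD hwD' hw2.symm hw2'.symm
            hww hwc2.symm hwc2'.symm hcw ?_
          rw [← hu, mul_inv_eq_iff_eq_mul.1 h, mul_assoc]
        · exact Or.inr h
      · refine Or.inl ?_
        rcases hz with rfl | rfl
        · rw [hx1.eq, mul_inv_cancel_right, mul_inv_cancel]
        · rw [hx2.eq, mul_inv_cancel_right, mul_inv_cancel]
    | one => exact Or.inl (by group)
    | mul a b ha hb iha ihb =>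
      rw [show x * (a * b) * x⁻¹ * (a * b)⁻¹ = (x * a * x⁻¹ * a⁻¹) * (a * (x * b * x⁻¹ * b⁻¹) * a⁻¹) by group,
        ← hJc _ ihb a (hTK a ha), mul_inv_cancel_right]
      exact mul_mem iha ihb
    | inv a ha iha =>
      rw [show x * a⁻¹ * x⁻¹ * a⁻¹⁻¹ = a⁻¹ * (x * a * x⁻¹ * a⁻¹)⁻¹ * a by group,
        ← hJc _ (inv_mem iha) a⁻¹ (inv_mem (hTK a ha)), inv_mul_cancel_right]
      exact inv_mem iha
  have hEsq : ∀ y ∈ E, y * y ∈ J := by
    intro y hy
    have hy' := hET hy
    rw [hT] at hy'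
    clear hy
    induction hy' using Subgroup.closure_induction with
    | mem z hz =>
      refine Or.inl ?_
      rcases hz with ⟨w, w', hwD, hwD', -, -, -, -, -, hcw, -, -, -, -, rfl, -⟩ | hz
      · rw [hcw.symm.mul_mul_mul_comm, hsq w hwD, hsq w' hwD', one_mul]
      · rcases hz with rfl | rfl <;> assumption
    | one => exact Or.inl (one_mul 1)
    | mul a b ha hb iha ihb =>
      have hk := hEJ b (hTE hb) a (hTE ha)
      rw [show a * b * (a * b) = a * (b * a * b⁻¹ * a⁻¹) * a * (b * b) by group,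
        ← hJc _ hk a (hEK (hTE ha)), mul_assoc (b * a * b⁻¹ * a⁻¹) a a]
      exact mul_mem (mul_mem hk iha) ihb
    | inv a ha iha => rw [← mul_inv_rev]; exact inv_mem iha
  have hJE : J ≤ E := by
    intro x hx
    rcases (memJ x).1 hx with rfl | rfl
    · exact one_mem _
    · exact hVE (mul_mem hV1 hV2)
  have hd₁E : d₁ ∈ E := hVE hV1
  -- a complement to the first member
  obtain ⟨M, hJM, hME, hdM, hMcov⟩ := avoid hJE hd₁E (fun h => ((memJ _).1 h).elim hd₁1 hjd₁) hEsq hEJ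
  -- the centre of `E`
  have hZE : ∀ e ∈ E, (∀ x ∈ E, e * x = x * e) → e = 1 ∨ e = d₁ ∨ e = d₂ ∨ e = j := by
    intro e he hez
    obtain ⟨heK, he1⟩ := (memE e).1 he
    obtain ⟨g, hg, hge⟩ := hrad ⟨e, heK⟩ he1
    have hiso : ∀ v, ub hF v v = 0 → ub hF p v = 0 → act g v = v := by
      intro v hvv hpv
      obtain ⟨a, ha⟩ := hg.2 v hpv
      by_cases hnp : ∃ m : F, v = m • p
      · obtain ⟨m, rfl⟩ := hnp
        rw [map_smul, hg.1]
      push Not at hnp
      by_contra hgv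
      have ha0 : a ≠ 0 := fun h => hgv (by rw [ha, h, zero_smul, add_zero])
      obtain ⟨t, ht⟩ := exists_trace_one hF
      set q := (t * a⁻¹) • v with hq
      have ht0 : t ≠ 0 := fun h => zero_ne_one (α := F) (by rw [← ht, h, map_zero, add_zero])
      have hta : t * a⁻¹ ≠ 0 := mul_ne_zero ht0 (inv_ne_zero ha0)
      have hqq : ub hF q q = 0 := by rw [hq, ub_smul_left hF, ub_smul_right hF, hvv]; ring
      have hpq : ub hF p q = 0 := by rw [hq, ub_smul_right hF, hpv, mul_zero]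
      have hqnp : ∀ m : F, q ≠ m • p := fun m h => hnp ((t * a⁻¹)⁻¹ * m) (by
        rw [mul_smul, ← h, hq, smul_smul, inv_mul_cancel₀ hta, one_smul])
      obtain ⟨x, hx, hφx, hR, -⟩ := hgen0 q hqq hpq hqnp
      have hxE : (x : G) ∈ E := hTE (Subgroup.subset_closure (Or.inl hx))
      have hgq : act g q = q + t • p := by
        rw [hq, map_smul, ha, smul_add, smul_smul, mul_assoc, inv_mul_cancel₀ ha0, mul_one]
      have hqp := ub_eq_zero_symm hF hpq
      have hrr : ub hF (q + p) (q + p) = 0 := by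
        simp [ub_add_left hF, ub_add_right hF, hqq, hpp, hpq, hqp]
      have hcq : Commute (SU7.tau hF q) (SU7.tau hF (q + p)) :=
        SU7.tau_commute hF hqq hrr (by rw [ub_add_right hF, hqq, hqp, add_zero])
      have hgg : g * (SU7.tau hF q * SU7.tau hF (q + p)) * g⁻¹ = SU7.tau hF q * SU7.tau hF (q + p) := by
        have hb : (SU7.tau hF q * SU7.tau hF (q + p)) * (SU7.tau hF q * SU7.tau hF (q + p)) = 1 := by
          rw [hcq.symm.mul_mul_mul_comm, SU7.tau_sq hF hqq, SU7.tau_sq hF hrr, one_mul]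
        refine SU7.eq_of_mk_eq hF (M22.su_center_three hF) ?_ hb ?_
        · rw [show ∀ u : Cfsg.SU 6 F 2, g * u * g⁻¹ * (g * u * g⁻¹) = g * (u * u) * g⁻¹ from
            fun u => by group, hb, mul_one, mul_inv_cancel]
        · generalize SU7.tau hF q * SU7.tau hF (q + p) = u at hφx ⊢
          rw [QuotientGroup.mk_mul, QuotientGroup.mk_mul, QuotientGroup.mk_inv, ← hge, ← hφx, ← map_mul,
            show (⟨e, heK⟩ : ↥K) * x = x * ⟨e, heK⟩ from Subtype.ext (hez _ hxE), map_mul, mul_inv_cancel_right]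
      rw [show g * (SU7.tau hF q * SU7.tau hF (q + p)) * g⁻¹ =
        (g * SU7.tau hF q * g⁻¹) * (g * SU7.tau hF (q + p) * g⁻¹) by group,
        SU7.tau_conj hF hqq, SU7.tau_conj hF hrr, map_add, hgq, hg.1] at hgg
      exact hp0 (conj_pair_ne hF hpp hqq hpq ht hgg)
    refine hVmem (Subgroup.inclusion hKH ⟨e, heK⟩) ?_
    rcases SU7.fix_perp_cases hF hp0 hpp (S5469.fix_iso_perp hF hp0 hpp hiso) with h | h
    · exact Or.inl (by rw [h] at hge; exact hge)
    · exact Or.inr (by rw [h] at hge; exact hge)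
  have hMc : ∀ x ∈ M, (∀ y ∈ M, x * y = y * x) → x ∈ J := by
    intro x hx hxy
    have hz : ∀ y ∈ E, x * y = y * x := by
      intro y hy
      rcases hMcov y hy with h | h
      · exact hxy y h
      · have h1 := hxy _ h
        have h2 : x * d₁ = d₁ * x := ((memK x).1 (hEK (hME hx))).1.eq
        refine mul_left_cancel (a := d₁) ?_
        rw [← mul_assoc, ← h2, mul_assoc, h1, mul_assoc]
    rcases hZE x (hME hx) hz with h | h | h | h
    · exact Or.inl h
    · exact absurd (h ▸ hx) hdM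
    · exfalso
      refine hdM ?_
      have := mul_mem (hJM (Or.inr rfl : j ∈ J)) (h ▸ hx)
      rwa [hj, mul_assoc, hd₂sq, mul_one] at this
    · exact Or.inr h
  let ι : Multiplicative (ZMod 2) →* G := MonoidHom.mk' (fun i => if i.toAdd = 0 then 1 else d₁) (by
    have hb : ∀ t : ZMod 2, t = 0 ∨ t = 1 := by decide
    intro a b
    rcases hb a.toAdd with ha | ha <;> rcases hb b.toAdd with hb' | hb' <;>
      simp [toAdd_mul, ha, hb', hd₁sq, show (1 : ZMod 2) + 1 = 0 by decide])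
  have hιm : ∀ i, ι i ∈ E := fun i => by
    show (if i.toAdd = 0 then (1 : G) else d₁) ∈ E
    split_ifs
    exacts [one_mem _, hd₁E]
  have hιc : ∀ i, ∀ m ∈ K, ι i * m = m * ι i := fun i m hm => by
    show (if i.toAdd = 0 then (1 : G) else d₁) * m = m * (if i.toAdd = 0 then (1 : G) else d₁)
    split_ifs
    · rw [one_mul, mul_one]
    · exact ((memK m).1 hm).1.eq.symm
  let μ : Multiplicative (ZMod 2) × ↥M →* ↥E := MonoidHom.mk'
    (fun z => ⟨ι z.1 * z.2.1, mul_mem (hιm _) (hME z.2.2)⟩) (by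
    rintro ⟨i, m⟩ ⟨i', m'⟩
    refine Subtype.ext ?_
    show ι (i * i') * (m.1 * m'.1) = ι i * m.1 * (ι i' * m'.1)
    rw [map_mul, mul_assoc, mul_assoc, ← mul_assoc (ι i'), hιc i' m.1 (hEK (hME m.2)), mul_assoc])
  have hμinj : Function.Injective μ := by
    refine (injective_iff_map_eq_one μ).2 ?_
    rintro ⟨i, m⟩ h
    have h' : ι i * m.1 = 1 := congrArg Subtype.val h
    by_cases hi : i.toAdd = 0
    · have h0 : ι i = 1 := if_pos hi
      rw [h0, one_mul] at h'
      exact Prod.ext (Multiplicative.toAdd.injective hi) (Subtype.ext h')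
    · exfalso
      have h0 : ι i = d₁ := if_neg hi
      rw [h0, mul_eq_one_iff_eq_inv] at h'
      exact hdM (h' ▸ inv_mem m.2)
  have hμsurj : Function.Surjective μ := by
    rintro ⟨x, hx⟩
    rcases hMcov x hx with h | h
    · exact ⟨(1, ⟨x, h⟩), Subtype.ext (by show ι 1 * x = x; rw [map_one, one_mul])⟩
    · refine ⟨(Multiplicative.ofAdd 1, ⟨d₁ * x, h⟩), Subtype.ext ?_⟩
      show ι (Multiplicative.ofAdd 1) * (d₁ * x) = x
      have h0 : ι (Multiplicative.ofAdd 1) = d₁ := by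
        show (if (Multiplicative.ofAdd (1 : ZMod 2)).toAdd = 0 then (1 : G) else d₁) = d₁
        exact if_neg (by decide)
      rw [h0, ← mul_assoc, hd₁sq, one_mul]
  have hMcard : Nat.card M = 512 := by
    have h := Nat.card_congr (Equiv.ofBijective μ ⟨hμinj, hμsurj⟩)
    rw [Nat.card_prod, hEcard, Nat.card_congr Multiplicative.toAdd, Nat.card_zmod] at h
    omega
  have hMp : IsPGroup 2 M := IsPGroup.of_card (n := 9) (by rw [hMcard]; norm_num)
  have hcenM : Subgroup.center ↥M = J.subgroupOf M := by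
    ext x
    rw [Subgroup.mem_center_iff, Subgroup.mem_subgroupOf]
    constructor
    · intro h
      exact hMc x.1 x.2 fun y hy => (congrArg Subtype.val (h ⟨y, hy⟩)).symm
    · intro h y
      exact Subtype.ext (hJc x.1 h y.1 (hEK (hME y.2))).symm
  have hcardJ : Nat.card (J.subgroupOf M) = 2 := by
    rw [Nat.card_congr (Subgroup.subgroupOfEquivOfLe hJM).toEquiv]
    show Nat.card ↥({x | x = 1 ∨ x = j} : Set G) = 2
    rw [show ({x | x = 1 ∨ x = j} : Set G) = {1, j} from rfl, Nat.card_coe_set_eq, Set.ncard_pair hj1.symm]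
  have hcomM : commutator ↥M = J.subgroupOf M := by
    have hle : commutator ↥M ≤ J.subgroupOf M := by
      rw [commutator_def, Subgroup.commutator_le]
      intro a _ b _
      exact hEJ a.1 (hME a.2) b.1 (hME b.2)
    refine le_antisymm hle fun x hx => ?_
    by_contra hxc
    have hbot : commutator ↥M = ⊥ := by
      rw [Subgroup.eq_bot_iff_forall]
      intro y hy
      rcases (memJ y.1).1 (hle hy) with h | h
      · exact Subtype.ext h
      · exfalso
        rcases (memJ x.1).1 hx with h' | h'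
        · exact hxc (by rw [show x = 1 from Subtype.ext h']; exact one_mem _)
        · exact hxc (by rw [show x = y from Subtype.ext (h'.trans h.symm)]; exact hy)
    have htop : Subgroup.center ↥M = ⊤ := by
      rw [Subgroup.eq_top_iff']
      intro a
      rw [Subgroup.mem_center_iff]
      intro b
      have := Subgroup.commutator_mem_commutator (Subgroup.mem_top b) (Subgroup.mem_top a)
      rw [← commutator_def, hbot, Subgroup.mem_bot, commutatorElement_eq_one_iff_mul_comm] at this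
      exact this
    rw [hcenM] at htop
    rw [htop, Subgroup.card_top, hMcard] at hcardJ
    omega
  have hfratM : frattini ↥M = J.subgroupOf M := by
    refine le_antisymm (fun x hx => ?_) (hcomM ▸ ?_)
    · by_contra hxJ
      obtain ⟨M₂, hJM₂, hM₂M, hxM₂, hcov⟩ := avoid hJM x.2 hxJ (fun y hy => hEsq y (hME hy))
        (fun y hy z hz => hEJ y (hME hy) z (hME hz))
      have hco : IsCoatom (M₂.subgroupOf M) := by
        refine ⟨fun h => hxM₂ ?_, fun L hL => ?_⟩
        · have h' : x ∈ M₂.subgroupOf M := h ▸ Subgroup.mem_top x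
          exact h'
        · obtain ⟨hle, y, hyL, hy⟩ := SetLike.lt_iff_le_and_exists.1 hL
          have hxy : x * y ∈ M₂.subgroupOf M := (hcov y.1 y.2).resolve_left hy
          have hxL : x ∈ L := by simpa using mul_mem (hle hxy) (inv_mem hyL)
          rw [Subgroup.eq_top_iff']
          intro z
          rcases hcov z.1 z.2 with h | h
          · exact hle h
          · have h' : x * z ∈ L := hle (x := x * z) h
            simpa using mul_mem (inv_mem hxL) h'
      exact hxM₂ (frattini_le_coatom hco hx)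
    · haveI := hMp.isNilpotent
      exact Core.commutator_le_frattini_of_isNilpotent
  have hMex : Cfsg.IsExtraspecial 2 ↥M :=
    ⟨⟨hMp, hfratM.trans hcenM.symm, hcomM.trans hcenM.symm⟩, by rw [hcenM, hcardJ]⟩
  -- the generalised Fitting subgroup
  set Y := E.subgroupOf C with hY
  have hnY : Y.Normal := hn'
  have hfit : Cfsg.fittingSubgroup ↥C ≤ Y := by
    set N := Cfsg.fittingSubgroup ↥C with hN
    have hNn : N.Normal := inferInstance
    haveI hNnil : Group.IsNilpotent N := Core.isNilpotent_fittingSubgroup ↥C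
    let ik : ↥K →* ↥C := Subgroup.inclusion hKC
    set W := (N.comap ik).map ψ with hW
    have hWn : W.Normal := Subgroup.Normal.map inferInstance _ hψs
    have hNK : ∀ x : ↥K, ik x ∈ N → ψ x = 1 := by
      intro x hx
      rcases S5469.su4_normal hF W with h | h
      · rw [← Subgroup.mem_bot, ← h]; exact Subgroup.mem_map_of_mem _ hx
      · exfalso
        let r : ↥(N.comap ik) →* Cfsg.SU 4 F 2 := ψ.comp (N.comap ik).subtype
        have hr : Function.Surjective r := fun s => by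
          obtain ⟨z, hz, e⟩ := (h ▸ Subgroup.mem_top s : s ∈ W)
          exact ⟨⟨z, hz⟩, e⟩
        haveI : Group.IsNilpotent ↥(N.comap ik) := by
          let ι' : ↥(N.comap ik) →* ↥N :=
            MonoidHom.mk' (fun z => ⟨ik z.1, z.2⟩) fun a b => Subtype.ext (map_mul ik a.1 b.1)
          have hι' : Function.Injective ι' := fun a b h => by
            have h' := congrArg (fun z : ↥N => ((z : ↥C) : G)) h
            exact Subtype.ext (Subtype.ext h')
          exact Group.nilpotent_of_mulEquiv (MonoidHom.ofInjective hι').symm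
        haveI : Group.IsNilpotent (Cfsg.SU 4 F 2) := Group.nilpotent_of_surjective r hr
        have hcen := S5469.su4_center hF
        haveI : Nontrivial (Cfsg.SU 4 F 2) := Finite.one_lt_card_iff_nontrivial.1 (by rw [S5469.su4_card hF]; norm_num)
        exact (Group.IsNilpotent.center_ne_bot (Cfsg.SU 4 F 2)) hcen
    intro n hnN
    rcases hperm n.1 n.2 with hnK | ⟨e1, e2⟩
    · exact (memE _).2 ⟨hnK, hNK ⟨n.1, hnK⟩ hnN⟩
    · exfalso
      refine hnoswap n e1 e2 fun x => ?_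
      have hmem : ik (α n x * x⁻¹) ∈ N := by
        have h1 : n * ((ik x) * n⁻¹ * (ik x)⁻¹) ∈ N :=
          mul_mem hnN (hNn.conj_mem _ (inv_mem hnN) _)
        have h2 : ik (α n x * x⁻¹) = n * ((ik x) * n⁻¹ * (ik x)⁻¹) := Subtype.ext (by
          show n.1 * x.1 * n.1⁻¹ * x.1⁻¹ = n.1 * (x.1 * n.1⁻¹ * x.1⁻¹)
          group)
        rwa [h2]
      have := hNK _ hmem
      rwa [map_mul, map_inv, mul_inv_eq_one] at this
  have hcentY : Subgroup.centralizer (Y : Set ↥C) ≤ Y := by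
    intro z hz
    rw [Subgroup.mem_centralizer_iff] at hz
    have hzE : ∀ x ∈ E, x * z.1 = z.1 * x := fun x hx => congrArg Subtype.val (hz ⟨x, hKC (hEK hx)⟩ hx)
    have hzK : z.1 ∈ K := by
      rcases hperm z.1 z.2 with h | ⟨e1, -⟩
      · exact h
      · exfalso
        rw [← hzE d₁ hd₁E, mul_inv_cancel_right] at e1
        exact hne e1
    set Z0 : Subgroup ↥K := (Subgroup.centralizer (E : Set G)).comap K.subtype with hZ0
    have hZn : Z0.Normal := by
      refine ⟨fun a ha b => ?_⟩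
      show (b : G) * a * (b : G)⁻¹ ∈ Subgroup.centralizer (E : Set G)
      rw [Subgroup.mem_centralizer_iff]
      intro x hx
      have hx' := hEn b.1⁻¹ (inv_mem (hKC b.2)) x hx
      have ha' : (b.1⁻¹ * x * b.1⁻¹⁻¹) * a.1 = a.1 * (b.1⁻¹ * x * b.1⁻¹⁻¹) :=
        Subgroup.mem_centralizer_iff.1 ha _ hx'
      calc x * ((b : G) * a * (b : G)⁻¹) = b.1 * ((b.1⁻¹ * x * b.1⁻¹⁻¹) * a.1) * b.1⁻¹ := by group
        _ = b.1 * (a.1 * (b.1⁻¹ * x * b.1⁻¹⁻¹)) * b.1⁻¹ := by rw [ha']
        _ = _ := by group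
    have hWn : (Z0.map ψ).Normal := hZn.map _ hψs
    rcases S5469.su4_normal hF (Z0.map ψ) with h | h
    · refine (memE _).2 ⟨hzK, ?_⟩
      rw [← Subgroup.mem_bot, ← h]
      exact Subgroup.mem_map_of_mem _ (show (⟨z.1, hzK⟩ : ↥K) ∈ Z0 from Subgroup.mem_centralizer_iff.2 hzE)
    · exfalso
      obtain ⟨v, hv0, hvv⟩ := SU7.exists_isotropic_top hF (n := 4) (by omega)
      obtain ⟨a, hamem, ha0, haa, hpa, hanp, hΨa⟩ := hΨt v hv0 hvv
      obtain ⟨z₀, hz₀, hψz₀⟩ : SU7.tau hF v ∈ Z0.map ψ := h ▸ Subgroup.mem_top _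
      -- a point not perpendicular to `a`
      obtain ⟨q, hqq, hpq, haq⟩ := perp_partner hF hp0 hpp haa hpa hanp
      have hqnp : ∀ m : F, q ≠ m • p := fun m h' => one_ne_zero (α := F) (by
        rw [← haq, h', ub_smul_right hF, ub_eq_zero_symm hF hpa, mul_zero])
      obtain ⟨x, hx, hφx, hR, hactx⟩ := hgen0 q hqq hpq hqnp
      have hxE : (x : G) ∈ E := hTE (Subgroup.subset_closure (Or.inl hx))
      obtain ⟨w, hw, k, hk, hwk⟩ := fr.onto a ha0 haa
      have hwK := hmemw w hw (by rw [hwk, ub_smul_right hF, hpa, mul_zero])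
      have hφw : φK ⟨w, hwK⟩ = QuotientGroup.mk (SU7.tau hF a) := by
        show φ ⟨w, _⟩ = _
        rw [hφ w hw, hwk, SU7.tau_smul hF haa hk]
      have hψw : ψ ⟨w, hwK⟩ = SU7.tau hF v := (hψ _ ⟨SU7.tau hF a, hamem⟩ hφw).trans hΨa
      set e : ↥K := z₀⁻¹ * ⟨w, hwK⟩ with he
      have he1 : ψ e = 1 := by rw [he, map_mul, map_inv, hψz₀, hψw, inv_mul_cancel]
      have heE : (e : G) ∈ E := (memE _).2 ⟨e.2, he1⟩
      obtain ⟨ge, hge, hgee⟩ := hrad e he1
      have hconj : (⟨w, hwK⟩ : ↥K) * x * (⟨w, hwK⟩ : ↥K)⁻¹ = e * x * e⁻¹ := by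
        have hw' : (⟨w, hwK⟩ : ↥K) = z₀ * e := by rw [he, mul_inv_cancel_left]
        have hze : z₀ * (e * x * e⁻¹) = (e * x * e⁻¹) * z₀ :=
          Subtype.ext (Subgroup.mem_centralizer_iff.1 hz₀ _ (mul_mem (mul_mem heE hxE) (inv_mem heE))).symm
        rw [hw', show z₀ * e * x * (z₀ * e)⁻¹ = z₀ * (e * x * e⁻¹) * z₀⁻¹ by group, hze, mul_inv_cancel_right]
      have hcom := congrArg φK hconj
      simp only [map_mul, map_inv, hφw, hgee, hφx, ← QuotientGroup.mk_mul, ← QuotientGroup.mk_inv] at hcom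
      set gx := SU7.tau hF q * SU7.tau hF (q + p) with hgx
      obtain ⟨cz, hcz, hczeq⟩ : ∃ cz ∈ Subgroup.center (Cfsg.SU 6 F 2),
          SU7.tau hF a * gx * (SU7.tau hF a)⁻¹ = ge * gx * ge⁻¹ * cz :=
        ⟨(ge * gx * ge⁻¹)⁻¹ * (SU7.tau hF a * gx * (SU7.tau hF a)⁻¹), QuotientGroup.eq.1 hcom.symm,
          by rw [mul_inv_cancel_left]⟩
      obtain ⟨l, hl⟩ := (Forms.su_mem_center_iff hF (by omega) cz).1 hcz
      have hqp := ub_eq_zero_symm hF hpq
      have hqa : ub hF q a = 1 := by rw [← ub_symm hF, haq, map_one]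
      -- evaluation at `q`
      have hR' : SU7.Rad hF p ge := hge
      have hinv : act ge⁻¹ p = p := by
        have h' := congrArg (act ge⁻¹) hR'.1
        rwa [← act_mul_apply, inv_mul_cancel, act_one, Module.End.one_apply, eq_comm] at h'
      have hr : ∀ y, ub hF p y = 0 → act (ge * gx * ge⁻¹) y = y + ub hF q y • p := by
        intro y hy
        obtain ⟨b, hb⟩ := hR'.2 y hy
        have hyi : act ge⁻¹ y = y - b • p := by
          have h' := congrArg (act ge⁻¹) hb
          rw [← act_mul_apply, inv_mul_cancel, act_one, Module.End.one_apply, map_add, map_smul, hinv] at h'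
          exact eq_sub_of_add_eq h'.symm
        rw [act_mul_apply, act_mul_apply, hyi, map_sub, map_smul, hR.1, hactx y hy, map_sub, map_add, map_smul,
          map_smul, hR'.1, hb]
        module
      have hev := congrArg (fun k => act k q) hczeq
      have hqa' : ub hF p (q + ub hF a q • a) = 0 := by simp [ub_add_right hF, ub_smul_right hF, hpq, hpa]
      simp only [act_mul_apply, hl, SU7.tau_inv hF haa, SU7.act_tau hF haa, map_smul] at hev
      rw [← act_mul_apply ge gx, ← act_mul_apply (ge * gx) ge⁻¹, hr q hpq, hactx _ hqa'] at hev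
      simp only [map_add, map_smul, SU7.act_tau hF haa, ub_add_right hF, ub_smul_right hF, haa, haq, hqq, hqa,
        ub_eq_zero_symm hF hpa, hqp, mul_one, mul_zero, add_zero, zero_add, one_smul, zero_smul] at hev
      -- hev : q + p = l • q
      have hl1 : (l - 1) • q = p := by
        have h2 : a + a = 0 := SU7.vadd_self hF _
        linear_combination (norm := module) -(1:F) • hev + h2
      by_cases hl0 : l - 1 = 0
      · rw [hl0, zero_smul] at hl1; exact hp0 hl1.symm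
      · exact hqnp (l - 1)⁻¹ (by rw [← hl1, smul_smul, inv_mul_cancel₀ hl0, one_smul])
  have hFY : Cfsg.generalizedFittingSubgroup ↥C = Y := by
    refine le_antisymm (Components.generalizedFitting_le_of_centralizer_le Y hfit hcentY)
      (le_trans ?_ Components.fitting_le_generalizedFitting)
    refine Core.le_fittingSubgroup hnY ?_
    exact ((IsPGroup.of_card (n := 10) (by rw [hEcard]; norm_num) : IsPGroup 2 E).of_equiv
      (Subgroup.subgroupOfEquivOfLe (hEK.trans hKC)).symm).isNilpotent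
  obtain ⟨eo⟩ := OrthSixMinus.aut_psu_equiv hF
  refine ⟨?_, ⟨(QuotientGroup.quotientMulEquivOfEq (hFY.trans hker.symm)).trans
    ((QuotientGroup.quotientKerEquivOfSurjective Θ hsurj).trans eo)⟩⟩
  let eM : Copy (Nat.card ↥M) ≃ ↥M := (Finite.equivFin ↥M).symm
  letI iG : Group (Copy (Nat.card ↥M)) := eM.group
  let em : @MulEquiv (Copy (Nat.card ↥M)) ↥M iG.toMul _ := @MulEquiv.mk (Copy (Nat.card ↥M)) ↥M iG.toMul _ eM (fun a b => eM.apply_symm_apply _)
  refine ⟨Copy (Nat.card ↥M), iG, inferInstance, Fischer.extraspecial_congr em.symm hMex,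
    by rw [Nat.card_congr eM, hMcard]; norm_num, ⟨?_⟩⟩
  exact (MulEquiv.subgroupCongr hFY).trans ((Subgroup.subgroupOfEquivOfLe (hEK.trans hKC)).trans
    ((MulEquiv.ofBijective μ ⟨hμinj, hμsurj⟩).symm.trans ((MulEquiv.refl _).prodCongr em.symm)))


/-- Let G be a finite group with trivial centre generated by a conjugation-invariant set D of 3-transpositions on which it acts primitively, such that for some d in D the subgroup generated by the members of D other than d commuting with d has central largest normal 2- and 3-subgroups, and suppose G with D is of type M(22). Let d₁, d₂ be distinct commuting members of D and C the centralizer of their product. Then the generalized Fitting subgroup of C is the direct product of a group of order 2 and an extraspecial 2-group of order 2^9, and C modulo it is isomorphic to the full isometry group of the elliptic quadratic form in dimension 6 over the field with two elements. -/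
theorem result {G : Type*} [Group G] [Finite G] {D : Set G} (hD : Cfsg.IsThreeTranspositionGroup D) (hprim : Cfsg.IsPrimitiveUnderConj D) (d₀ : G) (hd₀ : d₀ ∈ D) (h3 : Cfsg.pCore 3 ↥(Subgroup.closure {y : G | y ∈ D ∧ y ≠ d₀ ∧ Commute d₀ y}) ≤ Subgroup.center ↥(Subgroup.closure {y : G | y ∈ D ∧ y ≠ d₀ ∧ Commute d₀ y})) (h2 : Cfsg.pCore 2 ↥(Subgroup.closure {y : G | y ∈ D ∧ y ≠ d₀ ∧ Commute d₀ y}) ≤ Subgroup.center ↥(Subgroup.closure {y : G | y ∈ D ∧ y ≠ d₀ ∧ Commute d₀ y})) (h22 : Cfsg.IsOfTypeM22 G D) (d₁ d₂ : G) (h₁ : d₁ ∈ D) (h₂ : d₂ ∈ D) (hne : d₁ ≠ d₂) (hc : Commute d₁ d₂) (C : Subgroup G) (hC : C = Subgroup.centralizer ({d₁ * d₂} : Set G)) [hn : (Cfsg.generalizedFittingSubgroup ↥C).Normal] : (∃ (E : Type) (_ : Group E) (_ : Finite E), Cfsg.IsExtraspecial 2 E ∧ Nat.card E = 2 ^ 9 ∧ Nonempty (↥(Cfsg.generalizedFittingSubgroup ↥C) ≃* Multiplicative (ZMod 2) × E)) ∧ Nonempty (↥C ⧸ Cfsg.generalizedFittingSubgroup ↥C ≃* Cfsg.isometryGroup (ZMod 2)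 (Cfsg.quadFormMinus 2 (ZMod 2) 1 1)) := by
  obtain ⟨F, _, _, hF, c⟩ := M22.exists_ctx hD hprim h22
  refine struct2 c h₁ h₂ hne hc ?_ C hC
  intro u v a b e hu hv huv cuv ha hb he hab hae hbe cab cae cbe heq
  have h := (S5398.result hD hprim d₀ hd₀ h3 h2 h22).2.2 2 3 (u * v) (by omega) (by omega) (by omega) (by omega)
    ⟨[u, v], by simp [huv], rfl, by
      simp only [List.mem_cons, List.not_mem_nil, or_false]
      rintro x (rfl | rfl) <;> assumption, by
      simp only [List.mem_cons, List.not_mem_nil, or_false]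
      rintro x (rfl | rfl) y (rfl | rfl) <;> first | exact Commute.refl _ | exact cuv | exact cuv.symm, by simp⟩
    ⟨[a, b, e], by simp [hab, hae, hbe], rfl, by
      simp only [List.mem_cons, List.not_mem_nil, or_false]
      rintro x (rfl | rfl | rfl) <;> assumption, by
      simp only [List.mem_cons, List.not_mem_nil, or_false]
      rintro x (rfl | rfl | rfl) y (rfl | rfl | rfl) <;>
        first | exact Commute.refl _ | assumption | exact Commute.symm (by assumption), by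
      rw [heq]; simp [mul_assoc]⟩
  omega

end Cfsg.Agent.S5519
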