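import Cfsg.Statements.S5521
import Cfsg.Agent.Golay.OctadStab
import Cfsg.Agent.Golay.M24Order

set_option autoImplicit false
open Cfsg

namespace Cfsg.Agent.S5521

open scoped Pointwise

/-- The Mathieu group M₂₄ in its natural action on the 24 coordinate positions of the binary Golay code has minimal base size exactly 7: every set of at most 6 positions is fixed pointwise by some non-identity element of M₂₄, while some set of 7 positions is fixed pointwise only by the identity. -/
theorem result :
    (∀ B : Finset Cfsg.GolayPt, B.card ≤ 6 → ∃ g ∈ Cfsg.M24, g ≠ 1 ∧ ∀ b ∈ B, g b = b) ∧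
    (∃ B : Finset Cfsg.GolayPt, B.card = 7 ∧ ∀ g ∈ Cfsg.M24, (∀ b ∈ B, g b = b) → g = 1) := by
  classical
  constructor
  · intro B hB
    obtain ⟨B', hBB', -, hB6⟩ := Finset.exists_subsuperset_card_eq (Finset.subset_univ B) hB
      (by rw [Finset.card_univ, Cfsg.Agent.Golay.card_golayPt]; norm_num)
    let f : ↥Cfsg.M24 → (↥B' ↪ Cfsg.GolayPt) := fun g =>
      (Function.Embedding.subtype _).trans (g : Equiv.Perm Cfsg.GolayPt).toEmbedding
    have hlt : Nat.card (↥B' ↪ Cfsg.GolayPt) < Nat.card ↥Cfsg.M24 := by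
      rw [Cfsg.Agent.Golay.M24_card, Nat.card_eq_fintype_card, Fintype.card_embedding_eq,
        Fintype.card_coe, hB6, Cfsg.Agent.Golay.card_golayPt]
      decide
    have hni : ¬ Function.Injective f := fun hi => absurd (Nat.card_le_card_of_injective f hi) (by omega)
    rw [Function.Injective] at hni
    push Not at hni
    obtain ⟨a, b, hab, hne⟩ := hni
    refine ⟨((a⁻¹ * b : ↥Cfsg.M24) : Equiv.Perm Cfsg.GolayPt), (a⁻¹ * b).2, ?_, fun x hx => ?_⟩
    · intro h
      exact hne (inv_mul_eq_one.1 (Subtype.ext h : a⁻¹ * b = 1))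
    · have h2 : (a : Equiv.Perm Cfsg.GolayPt) x = (b : Equiv.Perm Cfsg.GolayPt) x :=
        DFunLike.congr_fun hab ⟨x, hBB' hx⟩
      simp only [Subgroup.coe_mul, Subgroup.coe_inv, Equiv.Perm.mul_apply, ← h2]
      exact (a : Equiv.Perm Cfsg.GolayPt).symm_apply_apply x
  · have ho : Cfsg.Agent.Golay.bset 9347075 ∈ Cfsg.octads := Cfsg.Agent.Golay.octad_base'
    set o := Cfsg.Agent.Golay.bset 9347075
    obtain ⟨S, hSo, hS6⟩ := Finset.exists_subset_card_eq (show 6 ≤ o.card by rw [ho.2]; norm_num)
    obtain ⟨y, hy⟩ : ∃ y, y ∉ o := by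
      by_contra h; push Not at h
      have := ho.2
      rw [Finset.eq_univ_of_forall h, Finset.card_univ, Cfsg.Agent.Golay.card_golayPt] at this
      omega
    refine ⟨insert y S, by rw [Finset.card_insert_of_notMem fun h => hy (hSo h), hS6], ?_⟩
    intro g hg hfix
    have hgo : g • o = o := by
      refine Cfsg.Agent.Golay.octad_eq_of_five_le (Cfsg.Agent.Golay.smul_mem_octads hg ho) ho ?_
      refine le_trans (show 5 ≤ S.card by omega) (Finset.card_le_card fun x hx => Finset.mem_inter.2 ⟨?_, hSo hx⟩)
      exact Finset.mem_smul_finset.2 ⟨x, hSo hx, hfix x (Finset.mem_insert_of_mem hx)⟩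
    set π := Cfsg.Agent.Golay.octadRes o ⟨g, hg, hgo⟩ with hπ
    have hev : π ∈ alternatingGroup ↥o := by
      rw [← Cfsg.Agent.Golay.octadRes_range ho]; exact ⟨_, rfl⟩
    have hπ1 : π = 1 := by
      by_contra hne
      have hle : π.support.card ≤ 2 := by
        have hsub : π.support.map (Function.Embedding.subtype _) ⊆ o \ S := by
          intro x hx
          obtain ⟨z, hz, rfl⟩ := Finset.mem_map.1 hx
          refine Finset.mem_sdiff.2 ⟨z.2, fun hzS => Equiv.Perm.mem_support.1 hz (Subtype.ext ?_)⟩
          exact hfix _ (Finset.mem_insert_of_mem hzS)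
        have := Finset.card_le_card hsub
        rw [Finset.card_map, Finset.card_sdiff_of_subset hSo, hS6, ho.2] at this
        omega
      have h2 : π.support.card = 2 :=
        le_antisymm hle (Equiv.Perm.two_le_card_support_of_ne_one hne)
      rw [Equiv.Perm.card_support_eq_two] at h2
      have := Equiv.Perm.mem_alternatingGroup.1 hev
      rw [h2.sign_eq] at this
      exact absurd this (by decide)
    refine Cfsg.Agent.Golay.fixer_free ho ⟨hg, (mem_fixingSubgroup_iff _).2 fun x hx => ?_⟩ hy
      (hfix y (Finset.mem_insert_self _ _))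
    have := DFunLike.congr_fun hπ1 ⟨x, hx⟩
    exact congrArg Subtype.val this

end Cfsg.Agent.S5521
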