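import Cfsg.Statements.S5562
import Cfsg.Agent.Components.Dihedral

set_option autoImplicit false
open Cfsg

namespace Cfsg.Agent.S5562

/-- Let G be a finite group, d an involution of G whose conjugates pairwise have products of odd order, and x any involution of G. Then the conjugacy class of d is the disjoint union, over the conjugates a of d commuting with x, of the sets of conjugates of d commuting with ax: every conjugate of d commutes with ax for exactly one conjugate a of d that commutes with x. -/
theorem result {G : Type*} [Group G] [Finite G] (d : G) (hd : orderOf d = 2)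
    (hodd : ∀ a ∈ conjugatesOf d, ∀ b ∈ conjugatesOf d, Odd (orderOf (a * b)))
    (x : G) (hx : orderOf x = 2) :
    ∀ e ∈ conjugatesOf d,
      ∃! a : G, a ∈ conjugatesOf d ∧ Commute a x ∧ Commute e (a * x) := by
  intro e he
  have hinv : ∀ a ∈ conjugatesOf d, orderOf a = 2 := by
    intro a ha
    obtain ⟨g, rfl⟩ := isConj_iff.1 (show IsConj d a from ha)
    rw [show g * d * g⁻¹ = MulAut.conj g d from rfl, MulEquiv.orderOf_eq, hd]
  have hcl : ∀ a ∈ conjugatesOf d, ∀ g : G, g * a * g⁻¹ ∈ conjugatesOf d := fun a ha g =>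
    (show IsConj d a from ha).trans (isConj_iff.2 ⟨g, rfl⟩)
  have hxi : x⁻¹ = x := Cfsg.Agent.Components.invol_inv hx
  have hxx : x * x = 1 := Cfsg.Agent.Components.invol_mul_self hx
  have hinj : ∀ a ∈ conjugatesOf d, ∀ b ∈ conjugatesOf d, a * e * a = b * e * b → a = b := by
    intro a ha b hb h
    have key : ∀ c ∈ conjugatesOf d, ∀ n, orderOf ((e * c) * (e * c)) = n → e * c = ((e * c) * (e * c)) ^ ((n + 1) / 2) := by
      intro c hc n hn
      have ho := hodd e he c hc
      have h1 : orderOf ((e * c) * (e * c)) = orderOf (e * c) := by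
        rw [← sq]; exact Nat.Coprime.orderOf_pow (Nat.coprime_two_right.2 ho)
      rw [← hn, h1, ← sq, ← pow_mul, show 2 * ((orderOf (e * c) + 1) / 2) = orderOf (e * c) + 1 by
        obtain ⟨k, hk⟩ := ho; omega, pow_succ, pow_orderOf_eq_one, one_mul]
    have h2 : (e * a) * (e * a) = (e * b) * (e * b) := by
      calc (e * a) * (e * a) = e * (a * e * a) := by group
        _ = e * (b * e * b) := by rw [h]
        _ = _ := by group
    have h3 := key a ha _ rfl
    rw [h2, ← key b hb _ rfl] at h3
    exact mul_left_cancel h3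
  have hiff : ∀ a ∈ conjugatesOf d, Commute a x → (Commute e (a * x) ↔ a * e * a = x * e * x) := by
    intro a ha hax
    have hai : a⁻¹ = a := Cfsg.Agent.Components.invol_inv (hinv a ha)
    have haa : a * a = 1 := Cfsg.Agent.Components.invol_mul_self (hinv a ha)
    constructor
    · intro h
      calc a * e * a = a * (e * (a * x)) * x := by
            rw [show a * (e * (a * x)) * x = a * e * a * (x * x) by group, hxx, mul_one]
        _ = a * ((a * x) * e) * x := by rw [h.eq]
        _ = x * e * x := by rw [show a * ((a * x) * e) * x = (a * a) * x * e * x by group, haa, one_mul]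
    · intro h
      show e * (a * x) = a * x * e
      calc e * (a * x) = (a * a) * e * a * x := by rw [haa, one_mul]; group
        _ = a * (a * e * a) * x := by group
        _ = a * (x * e * x) * x := by rw [h]
        _ = a * x * e * (x * x) := by group
        _ = a * x * e := by rw [hxx, mul_one]
  set e' := x * e * x with he'def
  have he' : e' ∈ conjugatesOf d := by
    have := hcl e he x
    rwa [hxi] at this
  obtain ⟨k, hk⟩ := hodd e he e' he'
  set u := e * e' with hu
  obtain ⟨a, ha, hae⟩ : ∃ a ∈ conjugatesOf d, a * e * a = e' := by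
    have hze : ∀ i : ℤ, u ^ i * e = e * u ^ (-i) := fun i =>
      Cfsg.Agent.Components.zpow_mul_invol (hinv e he) (hinv e' he') i
    have hu1 : u ^ ((2 * k + 1 : ℕ) : ℤ) = 1 := by rw [zpow_natCast, ← hk, pow_orderOf_eq_one]
    have hee : e * e = 1 := Cfsg.Agent.Components.invol_mul_self (hinv e he)
    refine ⟨e * u ^ ((k : ℤ) + 1), ?_, ?_⟩
    · have h0 := hcl e he (u ^ (((k : ℤ)) * ((k : ℤ) + 1)))
      convert h0 using 1
      rw [hze, mul_assoc, ← zpow_neg, ← zpow_add]
      congr 1
      have : u ^ ((k : ℤ) + 1) = u ^ (-(((k : ℤ)) * ((k : ℤ) + 1)) + -(((k : ℤ)) * ((k : ℤ) + 1))) := by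
        conv_lhs => rw [show ((k : ℤ) + 1) = ((2 * k + 1 : ℕ) : ℤ) * ((k : ℤ) + 1) + (-((k : ℤ) * ((k : ℤ) + 1)) + -((k : ℤ) * ((k : ℤ) + 1))) by push_cast; ring]
        rw [zpow_add, zpow_mul, hu1, one_zpow, one_mul]
      exact this
    · calc e * u ^ ((k : ℤ) + 1) * e * (e * u ^ ((k : ℤ) + 1))
          = e * u ^ ((k : ℤ) + 1) * (e * e) * u ^ ((k : ℤ) + 1) := by group
        _ = e * (u ^ ((k : ℤ) + 1) * u ^ ((k : ℤ) + 1)) := by rw [hee, mul_one, mul_assoc]
        _ = e * u := by
            rw [← zpow_add, show ((k : ℤ) + 1) + ((k : ℤ) + 1) = ((2 * k + 1 : ℕ) : ℤ) + 1 by push_cast; ring,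
              zpow_add, hu1, one_mul, zpow_one]
        _ = e' := by rw [hu, ← mul_assoc, hee, one_mul]
  have hax : Commute a x := by
    have h1 : x * a * x ∈ conjugatesOf d := by
      have := hcl a ha x
      rwa [hxi] at this
    have haa : a * a = 1 := Cfsg.Agent.Components.invol_mul_self (hinv a ha)
    have h2 : (x * a * x) * e * (x * a * x) = a * e * a := by
      calc (x * a * x) * e * (x * a * x) = x * (a * e' * a) * x := by rw [he'def]; group
        _ = x * (a * (a * e * a) * a) * x := by rw [hae]
        _ = x * ((a * a) * e * (a * a)) * x := by group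
        _ = a * e * a := by rw [haa, one_mul, mul_one, hae]
    have h3 := hinj _ h1 a ha h2
    show a * x = x * a
    calc a * x = x * a * x * x := by rw [h3]
      _ = x * a := by rw [mul_assoc, hxx, mul_one]
  refine ⟨a, ⟨ha, hax, (hiff a ha hax).2 hae⟩, ?_⟩
  rintro b ⟨hb, hbx, hbe⟩
  exact hinj b hb a ha (((hiff b hb hbx).1 hbe).trans hae.symm)

end Cfsg.Agent.S5562
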