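import Cfsg.Statements.S5713
import Cfsg.Agent.GeomClasses.MinimalDegree

set_option autoImplicit false
open Cfsg

namespace Cfsg.Agent.S5713

/-- A classification-free minimal-degree bound. Let G be a finite group acting faithfully and primitively on a finite set Ω with n elements, and suppose that the image of G in the symmetric group on Ω does not contain the alternating group on Ω. Then every non-identity element of G moves at least (√n − 1)/2 points of Ω, that is, it fixes at most n − (√n − 1)/2 points. -/
theorem result {G Ω : Type*} [Group G] [Finite G] [MulAction G Ω] [FaithfulSMul G Ω] [Fintype Ω] [DecidableEq Ω]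
    (hprim : MulAction.IsPreprimitive G Ω)
    (hA : ¬ alternatingGroup Ω ≤ (MulAction.toPermHom G Ω).range)
    (g : G) (hg : g ≠ 1) :
    (Real.sqrt (Fintype.card Ω) - 1) / 2 ≤ (Fintype.card Ω : ℝ) - Nat.card (MulAction.fixedBy Ω g) := by
  classical
  haveI := hprim
  let f : G →* Equiv.Perm Ω := MulAction.toPermHom G Ω
  have hR : MulAction.IsPreprimitive f.range Ω := by
    let φ : Ω →ₑ[fun x : G => (⟨f x, x, rfl⟩ : f.range)] Ω := ⟨id, fun _ _ => rfl⟩
    exact MulAction.IsPreprimitive.of_surjective (f := φ) Function.surjective_id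
  have hg1 : f g ≠ 1 := fun h => hg (MulAction.toPerm_injective (β := Ω) (h.trans (MulAction.toPerm_one G Ω).symm))
  have h := GeomClasses.MinDeg.card_le_sq_support hR hA ⟨g, rfl⟩ hg1
  set m := (f g).support.card with hm
  have hfix : Nat.card (MulAction.fixedBy Ω g) + m = Fintype.card Ω := by
    rw [Nat.card_eq_fintype_card, Fintype.card_subtype]
    have e : (f g).support = Finset.univ.filter fun x => ¬ (g • x = x) := by
      ext x; simp [f]
    rw [hm, e]
    simpa [MulAction.mem_fixedBy] using Finset.card_filter_add_card_filter_not (s := (Finset.univ : Finset Ω)) (fun x => g • x = x)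
  have hs : Real.sqrt (Fintype.card Ω) ≤ 2 * (m : ℝ) + 1 := by
    rw [show 2 * (m : ℝ) + 1 = Real.sqrt ((2 * (m : ℝ) + 1) * (2 * (m : ℝ) + 1)) from
      (Real.sqrt_mul_self (by positivity)).symm]
    exact Real.sqrt_le_sqrt (by exact_mod_cast h)
  have hf : (Nat.card (MulAction.fixedBy Ω g) : ℝ) + m = Fintype.card Ω := by exact_mod_cast hfix
  linarith

end Cfsg.Agent.S5713
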