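import Cfsg.Statements.S5729


set_option autoImplicit false
open Cfsg

namespace Cfsg.Agent.S5729

/-- Let a finite group G act faithfully and transitively on a set with n ≥ 3 points. Then either G is a Frobenius permutation group (Frobenius as a permutation group: transitive, some non-identity element fixes a point, and no non-identity element fixes two points) of order n(n − 1) and exactly |G|/n of its elements are derangements (fix no point), or the number of derangements is greater than |G|/n. -/
theorem result {G Ω : Type*} [Group G] [Finite G] [MulAction G Ω] [FaithfulSMul G Ω] [Fintype Ω] (htr : MulAction.IsPretransitive G Ω) (hn : 3 ≤ Fintype.card Ω) :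
    ((MulAction.IsPretransitive G Ω ∧ (∃ g : G, g ≠ 1 ∧ ∃ ω : Ω, g • ω = ω) ∧ ∀ g : G, g ≠ 1 → Nat.card (MulAction.fixedBy Ω g) ≤ 1) ∧ Nat.card G = Fintype.card Ω * (Fintype.card Ω - 1) ∧ Fintype.card Ω * Nat.card {g : G // ∀ ω : Ω, g • ω ≠ ω} = Nat.card G) ∨
    Nat.card G < Fintype.card Ω * Nat.card {g : G // ∀ ω : Ω, g • ω ≠ ω} := by
  classical
  haveI : Fintype G := Fintype.ofFinite G
  set n := Fintype.card Ω with hn'
  set D := Nat.card {g : G // ∀ ω : Ω, g • ω ≠ ω} with hD'
  let π : G → ℕ := fun g => Fintype.card (MulAction.fixedBy Ω g)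
  have hπn : ∀ g, π g ≤ n := fun g => Fintype.card_subtype_le _
  have hsum1 : ∑ g, π g = Fintype.card G := by
    have : Nonempty Ω := Fintype.card_pos_iff.mp (by omega)
    have hb := MulAction.sum_card_fixedBy_eq_card_orbits_mul_card_group G Ω
    haveI : Subsingleton (MulAction.orbitRel.Quotient G Ω) :=
      (MulAction.pretransitive_iff_subsingleton_quotient G Ω).mp htr
    rw [Fintype.card_eq_one_iff.mpr ⟨(Quotient.mk (MulAction.orbitRel G Ω) (Classical.arbitrary Ω) : MulAction.orbitRel.Quotient G Ω), fun x => Subsingleton.elim x _⟩] at hb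
    simpa [π] using hb
  have hsum2 : 2 * Fintype.card G ≤ ∑ g, π g * π g := by
    have hb := MulAction.sum_card_fixedBy_eq_card_orbits_mul_card_group G (Ω × Ω)
    have hf : ∀ g : G, Fintype.card (MulAction.fixedBy (Ω × Ω) g) = π g * π g := by
      intro g
      simp only [π, ← Fintype.card_prod]
      exact Fintype.card_congr
        { toFun := fun x => (⟨x.1.1, congrArg Prod.fst x.2⟩, ⟨x.1.2, congrArg Prod.snd x.2⟩)
          invFun := fun x => ⟨(x.1.1, x.2.1), Prod.ext x.1.2 x.2.2⟩
          left_inv := fun x => rfl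
          right_inv := fun x => rfl }
    simp only [hf] at hb
    rw [hb]
    refine Nat.mul_le_mul_right _ ?_
    obtain ⟨a, b, hab⟩ := Fintype.exists_pair_of_one_lt_card (show 1 < Fintype.card Ω by omega)
    refine Fintype.one_lt_card_iff.mpr ⟨Quotient.mk _ (a, a), Quotient.mk _ (a, b), fun h => ?_⟩
    obtain ⟨g, hg⟩ := Quotient.exact h
    exact hab ((MulAction.injective g) (((congrArg Prod.fst hg).trans (congrArg Prod.snd hg).symm)))
  -- (π - 1)(π - n) is n at derangements and non-positive otherwise
  let f : G → ℤ := fun g => (π g : ℤ) * π g - (n + 1) * π g + n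
  let e : G → ℤ := fun g => if π g = 0 then (n : ℤ) else 0
  have hfe : ∀ g, f g ≤ e g := by
    intro g
    simp only [f, e]
    split_ifs with h
    · simp [h]
    · nlinarith [mul_nonneg (show (0 : ℤ) ≤ (π g : ℤ) - 1 by omega) (show (0 : ℤ) ≤ (n : ℤ) - π g by
        have := hπn g; omega)]
  have he : ∑ g, e g = (n : ℤ) * D := by
    simp only [e, ← Finset.sum_filter, Finset.sum_const, nsmul_eq_mul]
    rw [mul_comm]; congr 1
    rw [hD', Nat.card_eq_fintype_card, Fintype.card_subtype]
    norm_cast
    congr 1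
    ext g
    rw [Finset.mem_filter_univ, Finset.mem_filter_univ, Fintype.card_eq_zero_iff]
    exact ⟨fun h ω hω => h.false ⟨ω, hω⟩, fun h => ⟨fun x => h x.1 x.2⟩⟩
  have hf : (Fintype.card G : ℤ) ≤ ∑ g, f g := by
    have h1 : ((∑ g, π g : ℕ) : ℤ) = Fintype.card G := by rw [hsum1]
    have h2 : ((2 * Fintype.card G : ℕ) : ℤ) ≤ ((∑ g, π g * π g : ℕ) : ℤ) := by exact_mod_cast hsum2
    push_cast at h1 h2
    simp only [f, Finset.sum_add_distrib, Finset.sum_sub_distrib, ← Finset.mul_sum, h1, Finset.sum_const,
      Finset.card_univ, nsmul_eq_mul]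
    nlinarith
  by_cases hlt : Nat.card G < n * D
  · exact Or.inr hlt
  left
  have hD : (n : ℤ) * D ≤ Fintype.card G := by
    rw [Nat.card_eq_fintype_card] at hlt; exact_mod_cast (not_lt.mp hlt)
  have hsum : ∑ g, f g = ∑ g, e g := le_antisymm (Finset.sum_le_sum fun g _ => hfe g) (by omega)
  have heq : ∀ g, f g = e g := fun g =>
    (Finset.sum_eq_sum_iff_of_le fun g _ => hfe g).mp hsum g (Finset.mem_univ g)
  have hpi : ∀ g, g ≠ 1 → π g ≤ 1 := by
    intro g hg
    by_contra hc
    have h := heq g
    simp only [f, e, if_neg (show π g ≠ 0 by omega)] at h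
    have hmul : ((π g : ℤ) - 1) * ((π g : ℤ) - n) = 0 := by linarith
    rcases mul_eq_zero.mp hmul with h | h
    · omega
    · have hgn : π g = n := by omega
      apply hg
      refine FaithfulSMul.eq_of_smul_eq_smul (α := Ω) fun ω => ?_
      have : (MulAction.fixedBy Ω g) = Set.univ := by
        rw [← set_fintype_card_eq_univ_iff]; exact hgn
      rw [one_smul]; exact Set.eq_univ_iff_forall.mp this ω
  -- all the squares of fixed point numbers are determined
  have hone : π 1 = n := by
    simp only [π, hn']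
    exact (set_fintype_card_eq_univ_iff _).mpr (by ext; simp [MulAction.fixedBy])
  have hsq : ∑ g, π g * π g + n = n * n + ∑ g, π g := by
    rw [← Finset.add_sum_erase _ _ (Finset.mem_univ (1 : G)), ← Finset.add_sum_erase Finset.univ π (Finset.mem_univ (1 : G)), hone]
    have : ∀ g ∈ (Finset.univ : Finset G).erase 1, π g * π g = π g := by
      intro g hg
      have := hpi g (Finset.ne_of_mem_erase hg)
      interval_cases (π g) <;> rfl
    rw [Finset.sum_congr rfl this]; ring
  have hexact : (n : ℤ) * D = Fintype.card G := by omega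
  have hGn : Fintype.card G + n = n * n := by
    have hsum' : ∑ g, f g = (Fintype.card G : ℤ) := by omega
    have h1 : ((∑ g, π g : ℕ) : ℤ) = Fintype.card G := by rw [hsum1]
    have h2 : ((∑ g, π g * π g + n : ℕ) : ℤ) = ((n * n + ∑ g, π g : ℕ) : ℤ) := by rw [hsq]
    push_cast at h1 h2
    simp only [f, Finset.sum_add_distrib, Finset.sum_sub_distrib, ← Finset.mul_sum, h1, Finset.sum_const,
      Finset.card_univ, nsmul_eq_mul] at hsum'
    have : ((Fintype.card G + n : ℕ) : ℤ) = ((n * n : ℕ) : ℤ) := by push_cast; nlinarith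
    exact_mod_cast this
  refine ⟨⟨htr, ?_, ?_⟩, ?_, ?_⟩
  · by_contra hc
    push_neg at hc
    have : ∀ g ∈ (Finset.univ : Finset G).erase 1, π g = 0 := by
      intro g hg
      simp only [π, Fintype.card_eq_zero_iff]
      exact ⟨fun x => hc g (Finset.ne_of_mem_erase hg) x.1 x.2⟩
    have := Finset.add_sum_erase Finset.univ π (Finset.mem_univ (1 : G)) ▸ hsum1
    rw [Finset.sum_eq_zero ‹_›, hone] at this
    nlinarith
  · intro g hg; rw [Nat.card_eq_fintype_card]; exact hpi g hg
  · rw [Nat.card_eq_fintype_card, Nat.mul_sub, mul_one]; omega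
  · rw [Nat.card_eq_fintype_card (α := G)]; exact_mod_cast hexact

end Cfsg.Agent.S5729
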