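import Cfsg.Statements.S5736
import Cfsg.Agent.Chars.PSLBinaryUni
import Cfsg.Agent.Chars.PSLBinaryOdd
import Cfsg.Agent.Chars.PSLBinaryInv

set_option autoImplicit false
open Cfsg

namespace Cfsg.Agent.S5736

section

open Matrix Cfsg.Agent.Chars.SzBinary Cfsg.Agent.Chars.PSLBinary Cfsg.Agent.Dickson Cfsg.Agent.Linear
open Cfsg.Agent.Linear.PSL2Borel

variable {F : Type*} [Field F] [Fintype F]

local notation "SL" => Matrix.SpecialLinearGroup (Fin 2) F
local notation "PSL" => Matrix.ProjectiveSpecialLinearGroup (Fin 2) F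

theorem neg_eq_self (h2 : (2 : F) = 0) (g : SL) : -g = g :=
  ext2 (by rw [neg_apply2]; linear_combination (-1 : F) * g 0 0 * h2)
    (by rw [neg_apply2]; linear_combination (-1 : F) * g 0 1 * h2)
    (by rw [neg_apply2]; linear_combination (-1 : F) * g 1 0 * h2)
    (by rw [neg_apply2]; linear_combination (-1 : F) * g 1 1 * h2)

theorem ne_one_conj {a t : PSL} (h : a ≠ 1) : t⁻¹ * a * t ≠ 1 := fun e => h (by
  simpa [mul_assoc] using congrArg (fun u => t * u * t⁻¹) e)

theorem bin_UP (h2 : (2 : F) = 0) : Bin (UP F) := by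
  have sq : ∀ {a t : PSL}, At (UP F) a t → a * a = 1 := by
    intro a t ha
    obtain ⟨r, hr⟩ := mem_UP.1 ha
    have h1 : (t⁻¹ * a * t) * (t⁻¹ * a * t) = 1 := by
      rw [← hr, ← map_mul, ← uel_add, show r + r = 0 by linear_combination r * h2, uel_zero, map_one]
    calc a * a = t * ((t⁻¹ * a * t) * (t⁻¹ * a * t)) * t⁻¹ := by group
      _ = 1 := by rw [h1]; group
  -- commuting involutions have one fixed point
  have comm_at : ∀ {a b t : PSL}, At (UP F) a t → a ≠ 1 → a * b = b * a → At (UP F) b t := by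
    intro a b t ha ha1 hab
    obtain ⟨r, hr⟩ := mem_UP.1 ha
    have hr0 : r ≠ 0 := fun e => ne_one_conj ha1 (by rw [← hr, e, uel_zero, map_one])
    show t⁻¹ * b * t ∈ UP F
    obtain ⟨M, hM⟩ := toPSL_surjective (t⁻¹ * b * t)
    rw [← hM]
    have hc : toPSL (uel r) * toPSL M = toPSL M * toPSL (uel r : SL) := by
      rw [hr, hM]
      calc t⁻¹ * a * t * (t⁻¹ * b * t) = t⁻¹ * (a * b) * t := by group
        _ = t⁻¹ * (b * a) * t := by rw [hab]
        _ = t⁻¹ * b * t * (t⁻¹ * a * t) := by group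
    have e : uel r * M = M * uel r := by
      rcases eq_or_neg_of_psl hc with e | e
      · exact e
      · rwa [neg_eq_self h2] at e
    have e00 := congrArg (fun y : SL => y 0 0) e
    have e01 := congrArg (fun y : SL => y 0 1) e
    simp only [mul_apply2, uel00, uel01, uel10, uel11] at e00 e01
    have h10 : M 1 0 = 0 :=
      (mul_eq_zero.1 (show r * M 1 0 = 0 by linear_combination e00)).resolve_left hr0
    have h11 : M 1 1 = M 0 0 :=
      mul_left_cancel₀ hr0 (by linear_combination e01)
    have hd := det_eq M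
    rw [h10, h11] at hd
    exact mem_UP_of_entries h10 (by linear_combination hd)
  have move : ∀ {a t₁ t₂ : PSL}, At (UP F) a t₁ → At (UP F) a t₂ → a ≠ 1 →
      ∀ c, At (UP F) c t₁ → At (UP F) c t₂ := by
    intro a t₁ t₂ h1 h2' ha c hc
    obtain ⟨S, hS⟩ := toPSL_surjective (t₁⁻¹ * t₂)
    obtain ⟨r, hr⟩ := mem_UP.1 h1
    have hr0 : r ≠ 0 := fun e => ne_one_conj ha (by rw [← hr, e, uel_zero, map_one])
    have hu : toPSL (S⁻¹ * uel r * S) ∈ UP F := by
      rw [map_mul, map_mul, map_inv, hS, hr]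
      simpa [At, mul_assoc] using h2'
    have h10 := (UP_entries hu).1
    simp only [mul_apply2, inv10, inv11, uel00, uel01, uel10, uel11] at h10
    have hS0 : S 1 0 = 0 := by
      have : r * (S 1 0 * S 1 0) = 0 := by linear_combination -h10
      exact mul_self_eq_zero.1 ((mul_eq_zero.1 this).resolve_left hr0)
    have hn : toPSL S ∈ Subgroup.normalizer (UP F : Set PSL) :=
      borelP_le_normalizer (toPSL_mem_borelP.2 hS0)
    have := (Subgroup.mem_normalizer_iff''.1 hn (t₁⁻¹ * c * t₁)).1 hc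
    rw [hS] at this
    simpa [At, mul_assoc] using this
  refine bin_of_product _ ?_ fun t₁ t₂ a h1 h2' ha => move h1 h2' ha
  intro t₁ t₂ t₃ a b ha hb hab ha1 hb1 hab1 c hc
  have haa := sq ha
  have hbb := sq hb
  have hcc := sq hab
  have hcomm : a * b = b * a := by
    calc a * b = (a * b)⁻¹ := (inv_eq_of_mul_eq_one_right hcc).symm
      _ = b * a := by rw [_root_.mul_inv_rev, inv_eq_of_mul_eq_one_right haa, inv_eq_of_mul_eq_one_right hbb]
  exact move (comm_at ha ha1 hcomm) hb hb1 c hc

theorem root_iff (h2 : (2 : F) = 0) {a : ℕ} (ha : Fintype.card F = 2 ^ a) :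
    (∀ w : F, w * w + w + 1 ≠ 0) ↔ Odd a := by
  have hmod : ∀ n : ℕ, 2 ^ (2 * n) % 3 = 1 := fun n => by rw [pow_mul]; simp [Nat.pow_mod]
  haveI : Fact (Nat.Prime 3) := ⟨Nat.prime_three⟩
  have hone : (1 : F) + 1 + 1 ≠ 0 := fun e => one_ne_zero (show (1 : F) = 0 by linear_combination e - h2)
  constructor
  · intro hno
    by_contra hodd
    obtain ⟨n, rfl⟩ := Nat.not_odd_iff_even.1 hodd
    have h3 : 3 ∣ Nat.card Fˣ := by
      classical
      rw [Nat.card_units, Nat.card_eq_fintype_card, ha, ← two_mul]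
      have := hmod n
      omega
    obtain ⟨w, hw⟩ := exists_prime_orderOf_dvd_card' 3 h3
    have hw3 : (w : F) ^ 3 = 1 := by
      rw [← Units.val_pow_eq_pow_val, ← hw, pow_orderOf_eq_one, Units.val_one]
    have hw1 : (w : F) - 1 ≠ 0 := sub_ne_zero.2 fun e => by
      rw [Units.ext (e.trans Units.val_one.symm), orderOf_one] at hw
      norm_num at hw
    refine hno w ((mul_eq_zero.1 ?_).resolve_left hw1)
    linear_combination hw3
  · intro hodd w hw
    obtain ⟨n, rfl⟩ := hodd
    have hw3 : w ^ 3 = 1 := by linear_combination (w - 1) * hw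
    have hw0 : w ≠ 0 := fun e => by simp [e] at hw3
    have hw1 : w ≠ 1 := fun e => hone (by rw [e, one_mul] at hw; exact hw)
    have ho : orderOf (Units.mk0 w hw0) = 3 :=
      orderOf_eq_prime (Units.ext (by simpa using hw3))
        (fun e => hw1 (by simpa using congrArg Units.val e))
    have hd : 3 ∣ Nat.card Fˣ := ho ▸ orderOf_dvd_natCard _
    classical
    rw [Nat.card_units, Nat.card_eq_fintype_card, ha, pow_succ] at hd
    have := hmod n
    omega

/-- The classification of binary coset actions. -/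
theorem main (h4 : 4 ≤ Fintype.card F) (h5 : Fintype.card F ≠ 5) (H : Subgroup PSL) (hH : H ≠ ⊤) :
    Bin H ↔ (H = ⊥ ∨ ((∃ a : ℕ, Fintype.card F = 2 ^ a) ∧ ∃ P : Sylow 2 PSL, H = P) ∨
      ((∃ a : ℕ, Odd a ∧ Fintype.card F = 2 ^ a) ∧ Nat.card H = 3)) := by
  classical
  obtain ⟨p, hp⟩ := CharP.exists F
  haveI : Fact p.Prime := ⟨CharP.char_is_prime F p⟩
  obtain ⟨n, -, hq⟩ := FiniteField.card F p
  have htwo : (2 : F) = 0 → p = 2 := fun h => by
    have : p ∣ 2 := (CharP.cast_eq_zero_iff F p 2).1 (by simpa using h)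
    exact (Nat.prime_dvd_prime_iff_eq Fact.out Nat.prime_two).1 this
  have htwo' : ∀ a : ℕ, Fintype.card F = 2 ^ a → (2 : F) = 0 := fun a ha => by
    have h : p = 2 := by
      have hd : p ∣ 2 ^ a := ha ▸ hq ▸ dvd_pow_self p n.pos.ne'
      exact (Nat.prime_dvd_prime_iff_eq Fact.out Nat.prime_two).1
        ((Fact.out : p.Prime).dvd_of_dvd_pow hd)
    subst h
    exact CharTwo.two_eq_zero
  constructor
  · intro hb
    by_cases h1 : H = ⊥
    · exact Or.inl h1
    right
    by_cases hdvd : p ∣ Nat.card H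
    · left
      obtain ⟨h2, t, ht⟩ := uni_main p h4 hH hdvd hb
      obtain rfl := htwo h2
      refine ⟨⟨n, hq⟩, (sylowUP (F := F) 2).mapSurjective (f := (MulAut.conj t).symm.toMonoidHom)
        (show Function.Surjective (MulAut.conj t).symm.toMonoidHom from (MulAut.conj t).symm.surjective), ?_⟩
      rw [Sylow.coe_mapSurjective, coe_sylowUP, ← ht, Subgroup.map_map]
      rw [show (MulAut.conj t).symm.toMonoidHom.comp (MulAut.conj t).toMonoidHom = MonoidHom.id PSL from
        MonoidHom.ext fun g => (MulAut.conj t).symm_apply_apply g, Subgroup.map_id]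
    rcases Nat.even_or_odd (Nat.card H) with he | ho
    · exfalso
      have h2 : (2 : F) ≠ 0 := fun h => hdvd (by
        rw [htwo h]; exact even_iff_two_dvd.1 he)
      have hodd : Fintype.card F % 2 = 1 := FiniteField.odd_card_of_char_ne_two fun h => h2 (by
        have : CharP F 2 := ringChar.of_eq h
        exact CharTwo.two_eq_zero)
      exact inv_main p h2 (by omega) hdvd he hb
    · right
      obtain ⟨h2, h3, hno⟩ := odd_main p h1 hdvd ho hb
      obtain rfl := htwo h2
      exact ⟨⟨n, (root_iff h2 hq).1 hno, hq⟩, h3⟩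
  · rintro (rfl | ⟨⟨a, ha⟩, P, rfl⟩ | ⟨⟨a, hao, ha⟩, h3⟩)
    · exact bin_bot
    · have h2 := htwo' a ha
      obtain rfl := htwo h2
      obtain ⟨c, hc⟩ := MulAction.exists_smul_eq PSL P (sylowUP 2)
      rw [← bin_conj_iff c]
      have : (P : Subgroup PSL).map (MulAut.conj c).toMonoidHom = UP F := by
        rw [← coe_sylowUP 2, ← hc, Sylow.coe_subgroup_smul]
        rfl
      rw [this]
      exact bin_UP h2
    · exact bin_three (htwo' a ha) ((root_iff (htwo' a ha) ha).2 hao) h3

end

/-- Let F be a finite field with q ≥ 4 elements, q ≠ 5, let G = PSL₂(F) and let H be a proper subgroup of G. Then the action of G on the cosets of H is binary if and only if H is trivial, or q is a power of 2 and H is a Sylow 2-subgroup, or q = 2^a with a odd and H has order 3. Here an action is binary (relational complexity 2) when, for every n ≥ 2 and all n-tuples I, J of points, if for every pair of positions some group element carries the corresponding pair of entries of I to those of J, then a single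 group element carries I to J. -/
theorem result {F : Type*} [Field F] [Fintype F] (h4 : 4 ≤ Fintype.card F) (h5 : Fintype.card F ≠ 5)
    (H : Subgroup (Matrix.ProjectiveSpecialLinearGroup (Fin 2) F)) (hH : H ≠ ⊤) :
    (∀ (n : ℕ) (I J : Fin n → Matrix.ProjectiveSpecialLinearGroup (Fin 2) F ⧸ H), 2 ≤ n →
        (∀ i j : Fin n, i ≠ j → ∃ g : Matrix.ProjectiveSpecialLinearGroup (Fin 2) F, g • I i = J i ∧ g • I j = J j) → ∃ g : Matrix.ProjectiveSpecialLinearGroup (Fin 2) F, ∀ i, g • I i = J i) ↔
      (H = ⊥ ∨ ((∃ a : ℕ, Fintype.card F = 2 ^ a) ∧ ∃ P : Sylow 2 (Matrix.ProjectiveSpecialLinearGroup (Fin 2) F), H = P) ∨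
        ((∃ a : ℕ, Odd a ∧ Fintype.card F = 2 ^ a) ∧ Nat.card H = 3)) :=
  main h4 h5 H hH

end Cfsg.Agent.S5736
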