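import Cfsg.Statements.S5737
import Cfsg.Agent.Chars.SzBinary

set_option autoImplicit false
open Cfsg

namespace Cfsg.Agent.S5737

open Cfsg.Agent.Chars.SzBinary in
theorem bin_map {G G' : Type*} [Group G] [Group G'] (e : G ≃* G') (H : Subgroup G) (hb : Bin H) :
    Bin (H.map e.toMonoidHom) := by
  have key : ∀ g a b : G, g • (a : G ⧸ H) = (b : G ⧸ H) ↔
      e g • ((e a : G') : G' ⧸ H.map e.toMonoidHom) = ((e b : G') : G' ⧸ H.map e.toMonoidHom) := by
    intro g a b
    rw [MulAction.Quotient.smul_coe, MulAction.Quotient.smul_coe, smul_eq_mul, smul_eq_mul,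
      QuotientGroup.eq, QuotientGroup.eq, ← map_mul, ← map_inv, ← map_mul]
    exact (Subgroup.mem_map_iff_mem e.injective).symm
  intro n I J hn hp
  choose a ha using fun i => QuotientGroup.mk_surjective (I i)
  choose b hbb using fun i => QuotientGroup.mk_surjective (J i)
  have tr : ∀ g i, g • ((e.symm (a i) : G) : G ⧸ H) = ((e.symm (b i) : G) : G ⧸ H) ↔ e g • I i = J i :=
    fun g i => by rw [key, e.apply_symm_apply, e.apply_symm_apply, ha, hbb]
  obtain ⟨g, hg⟩ := hb n (fun i => ((e.symm (a i) : G) : G ⧸ H))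
    (fun i => ((e.symm (b i) : G) : G ⧸ H)) hn (fun i j hij => by
      obtain ⟨g', h1, h2⟩ := hp i j hij
      refine ⟨e.symm g', (tr _ i).2 ?_, (tr _ j).2 ?_⟩ <;> rw [e.apply_symm_apply] <;> assumption)
  exact ⟨e g, fun i => (tr g i).1 (hg i)⟩

theorem mem_center_map {G : Type*} [Group G] (P : Subgroup G) (g : G) :
    g ∈ (Subgroup.center P).map P.subtype ↔ g ∈ P ∧ ∀ u ∈ P, u * g = g * u := by
  constructor
  · rintro ⟨⟨g, hg⟩, hc, rfl⟩
    exact ⟨hg, fun u hu => congrArg Subtype.val (Subgroup.mem_center_iff.1 hc ⟨u, hu⟩)⟩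
  · rintro ⟨hg, hc⟩
    exact ⟨⟨g, hg⟩, Subgroup.mem_center_iff.2 (fun u => Subtype.ext (hc u u.2)), rfl⟩

theorem center_map_equiv {G G' : Type*} [Group G] [Group G'] [Finite G] [Finite G'] (e : G ≃* G')
    (P : Sylow 2 G) : ∃ P' : Sylow 2 G',
      ((Subgroup.center (P : Subgroup G)).map (P : Subgroup G).subtype).map e.toMonoidHom =
        (Subgroup.center (P' : Subgroup G')).map (P' : Subgroup G').subtype := by
  haveI : Fact (Nat.Prime 2) := ⟨Nat.prime_two⟩
  refine ⟨P.mapSurjective (f := e.toMonoidHom) (show Function.Surjective e.toMonoidHom from e.surjective), SetLike.ext fun g => ?_⟩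
  rw [Subgroup.mem_map_equiv, mem_center_map, mem_center_map, Sylow.coe_mapSurjective]
  simp only [Subgroup.mem_map_equiv]
  refine and_congr Iff.rfl ⟨fun h u hu => ?_, fun h u hu => ?_⟩
  · have := congrArg e (h _ hu)
    simpa using this
  · have := h (e u) (by simpa using hu)
    have := congrArg e.symm this
    simpa using this

/-- Let G = Sz(q) be a Suzuki group, q = 2^(2a+1) with a ≥ 1 (realised inside Sp₄ over the field with q elements), and let H be a proper subgroup of G. Then the action of G on the cosets of H is binary if and only if H is trivial or H is the centre of a Sylow 2-subgroup of G. Here an action is binary (relational complexity 2) when, for every n ≥ 2 and all n-tuples I, J of points, if for every pair of positions some group element carries the corresponding pair of entries of I to those of J, then a single group element carries I to J. -/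
theorem result {F : Type*} [Field F] [Fintype F] (a : ℕ) (ha : 1 ≤ a) (hF : Fintype.card F = 2 ^ (2 * a + 1))
    (H : Subgroup (Cfsg.Lie.Sz F (2 ^ (a + 1)))) (hH : H ≠ ⊤) :
    (∀ (n : ℕ) (I J : Fin n → (Cfsg.Lie.Sz F (2 ^ (a + 1))) ⧸ H), 2 ≤ n →
        (∀ i j : Fin n, i ≠ j → ∃ g : (Cfsg.Lie.Sz F (2 ^ (a + 1))), g • I i = J i ∧ g • I j = J j) → ∃ g : (Cfsg.Lie.Sz F (2 ^ (a + 1))), ∀ i, g • I i = J i) ↔
      (H = ⊥ ∨ ∃ P : Sylow 2 (Cfsg.Lie.Sz F (2 ^ (a + 1))), H = (Subgroup.center (P : Subgroup (Cfsg.Lie.Sz F (2 ^ (a + 1))))).map (P : Subgroup (Cfsg.Lie.Sz F (2 ^ (a + 1)))).subtype) := by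
  classical
  have hctx : Cfsg.Agent.Suzuki.Ctx F a := ⟨ha, by rw [Nat.card_eq_fintype_card, hF]⟩
  haveI := Cfsg.Agent.Suzuki.finite_sz hctx
  let e := Cfsg.Agent.Suzuki.lieEquiv hctx
  haveI : Finite (Cfsg.Lie.Sz F (2 ^ (a + 1))) := Finite.of_equiv _ e.toEquiv
  set H0 := H.map e.symm.toMonoidHom with hH0
  have hback : H0.map e.toMonoidHom = H := by
    rw [hH0, Subgroup.map_map,
      show e.toMonoidHom.comp e.symm.toMonoidHom = MonoidHom.id _ from MonoidHom.ext e.apply_symm_apply,
      Subgroup.map_id]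
  have hne : H0 ≠ ⊤ := fun h => hH (by
    rw [← hback, h, Subgroup.map_top_of_surjective _ e.surjective])
  have hmain := Cfsg.Agent.Chars.SzBinary.main hctx H0 hne
  constructor
  · intro hb
    rcases hmain.1 (bin_map e.symm H hb) with h | ⟨P, hP⟩
    · left; rw [← hback, h, Subgroup.map_bot]
    · obtain ⟨P', hP'⟩ := center_map_equiv e P
      exact Or.inr ⟨P', by rw [← hP', ← hP, hback]⟩
  · intro h
    have hb0 : Cfsg.Agent.Chars.SzBinary.Bin H0 := by
      refine hmain.2 ?_
      rcases h with h | ⟨P, hP⟩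
      · left; rw [hH0, h, Subgroup.map_bot]
      · obtain ⟨P', hP'⟩ := center_map_equiv e.symm P
        exact Or.inr ⟨P', by rw [hH0, hP, hP']⟩
    have := bin_map e H0 hb0
    rwa [hback] at this

end Cfsg.Agent.S5737
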