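import Cfsg.Statements.S5739
import Cfsg.Agent.GeomClasses.Singer

set_option autoImplicit false
open Cfsg

namespace Cfsg.Agent.S5739

/-- Let F ⊆ K be finite fields with |F| = q and [K : F] = n ≥ 2, and let M ≤ GL_F(K) be the Singer group of multiplications by non-zero elements of K. If g ∈ GL_F(K) does not normalise M, then the order of M ∩ gMg⁻¹ divides q^r − 1 for some proper divisor r of n. In particular, when n is prime, that order divides q − 1. -/
theorem result {F K : Type*} [Field F] [Fintype F] [Field K] [Fintype K] [Algebra F K] (n : ℕ) (hn : 2 ≤ n) (hdim : Module.finrank F K = n)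
    (g : (Module.End F K)ˣ) (hg : ((Units.map ((Algebra.lmul F K : K →ₐ[F] Module.End F K) : K →* Module.End F K)).range).map (MulAut.conj g).toMonoidHom ≠ (Units.map ((Algebra.lmul F K : K →ₐ[F] Module.End F K) : K →* Module.End F K)).range) :
    ∃ r : ℕ, 1 ≤ r ∧ r ∣ n ∧ r < n ∧ Nat.card ↥(((Units.map ((Algebra.lmul F K : K →ₐ[F] Module.End F K) : K →* Module.End F K)).range).map (MulAut.conj g).toMonoidHom ⊓ (Units.map ((Algebra.lmul F K : K →ₐ[F] Module.End F K) : K →* Module.End F K)).range) ∣ Fintype.card F ^ r - 1 := by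
  classical
  haveI : FiniteDimensional F K := Module.Finite.of_finite
  haveI : Finite (Module.End F K) := Finite.of_injective (fun f => ⇑f) DFunLike.coe_injective
  set φ := GeomClasses.singerHom (F := F) (K := K) with hφ
  set c := (MulAut.conj g).toMonoidHom with hc
  set M' := φ.range.map c with hM'
  -- the elements whose multiplication commutes with the conjugate group
  let A : Subalgebra F K := (Subalgebra.centralizer F
    ((fun u : (Module.End F K)ˣ => (u : Module.End F K)) '' (M' : Set (Module.End F K)ˣ))).comap (Algebra.lmul F K)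
  let L : IntermediateField F K := A.toIntermediateField (fun x hx => A.inv_mem_of_algebraic (x := ⟨x, hx⟩) (Algebra.IsAlgebraic.isAlgebraic _))
  have hA : ∀ a : Kˣ, (a : K) ∈ L ↔ φ a ∈ Subgroup.centralizer (M' : Set (Module.End F K)ˣ) := by
    intro a
    show Algebra.lmul F K (a : K) ∈ Subalgebra.centralizer F _ ↔ _
    rw [Subalgebra.mem_centralizer_iff, Subgroup.mem_centralizer_iff]
    constructor
    · intro h u hu
      exact Units.ext (h _ ⟨u, hu, rfl⟩)
    · rintro h _ ⟨u, hu, rfl⟩
      exact congrArg Units.val (h u hu)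
  have hcomm : M' ≤ Subgroup.centralizer (M' : Set (Module.End F K)ˣ) := by
    rintro _ ⟨_, ⟨a, rfl⟩, rfl⟩
    rw [Subgroup.mem_centralizer_iff]
    rintro _ ⟨_, ⟨b, rfl⟩, rfl⟩
    rw [← map_mul, ← map_mul, ← map_mul, ← map_mul, mul_comm]
  have hcent : Subgroup.centralizer (M' : Set (Module.End F K)ˣ) ≤ M' := by
    intro f hf
    have : g⁻¹ * f * g ∈ φ.range := by
      rw [← GeomClasses.centralizer_singer, Subgroup.mem_centralizer_iff]
      intro u hu
      have h1 := Subgroup.mem_centralizer_iff.mp hf (c u) ⟨u, hu, rfl⟩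
      simp only [c, MulEquiv.toMonoidHom_eq_coe, MonoidHom.coe_coe, MulAut.conj_apply] at h1
      calc u * (g⁻¹ * f * g) = g⁻¹ * (g * u * g⁻¹ * f) * g := by group
        _ = g⁻¹ * (f * (g * u * g⁻¹)) * g := by rw [h1]
        _ = g⁻¹ * f * g * u := by group
    exact ⟨_, this, by simp [c, mul_assoc]⟩
  have hL : L ≠ ⊤ := by
    intro htop
    apply hg
    refine (Subgroup.eq_of_le_of_card_ge ?_ (le_of_eq ?_)).symm
    · rintro _ ⟨a, rfl⟩
      exact hcent ((hA a).mp (by rw [htop]; exact trivial))
    · exact Subgroup.card_map_of_injective (f := c) (MulAut.conj g).injective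
  have hrn : Module.finrank F L ∣ n := hdim ▸ ⟨_, (Module.finrank_mul_finrank F L K).symm⟩
  refine ⟨Module.finrank F L, Module.finrank_pos, hrn, lt_of_le_of_ne (Nat.le_of_dvd (by omega) hrn) ?_, ?_⟩
  · intro heq
    exact hL (IntermediateField.eq_of_le_of_finrank_eq le_top
      (heq.trans (hdim.symm.trans IntermediateField.finrank_top'.symm)))
  · set U : Subgroup Kˣ := (Units.map (L.val : L →* K)).range
    have hUcard : Nat.card U = Fintype.card F ^ Module.finrank F L - 1 := by
      rw [← Nat.card_congr (MonoidHom.ofInjective (Units.map_injective (f := (L.val : L →* K)) L.val.injective)).toEquiv,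
        Nat.card_units, Module.natCard_eq_pow_finrank (K := F) (V := L), Nat.card_eq_fintype_card]
    have hle : M' ⊓ φ.range ≤ U.map φ := by
      rintro _ ⟨hx, a, rfl⟩
      have haL : (a : K) ∈ L := (hA a).mpr (hcomm hx)
      exact ⟨a, ⟨Units.mk0 ⟨(a : K), haL⟩ (by simp [Subtype.ext_iff]), Units.ext rfl⟩, rfl⟩
    have := Subgroup.card_dvd_of_le hle
    rwa [Subgroup.card_map_of_injective GeomClasses.singerHom_injective, hUcard] at this

end Cfsg.Agent.S5739
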