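import Cfsg.Statements.S5751
import Cfsg.Agent.IterCores.Bottom
-- import your own Cfsg.Agent.* helpers here

set_option autoImplicit false
open Cfsg

namespace Cfsg.Agent.S5751

/-- An extremal example for iterated cores of conjugate maximal subgroups: there exist a finite group G and two distinct conjugate maximal subgroups M₁, M₂ of G, with M₁ having trivial core in G, such that, if we define two descending sequences of subgroups by A₀ = M₁, B₀ = M₂ and, for every i, A_{i+1} = the core in M₁ of A_i ∩ B_i and B_{i+1} = the core in M₂ of A_i ∩ B_i (the core in M of a subgroup Y ≤ M is the largest normal subgroup of M contained in Y), the subgroup A₆ is trivial while A₅ is not (so the index 6 cannot be lowered to 5). (One example is a maximal parabolic subgroup of the Chevalley group of type E₈ over a finite field and a suitable conjugate of it.) -/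
theorem result :
    ∃ (G : Type) (_ : Group G) (_ : Finite G) (M₁ M₂ : Subgroup G) (g : G) (A B : ℕ → Subgroup G),
      IsCoatom M₁ ∧ M₂ = M₁.map (MulAut.conj g).toMonoidHom ∧ M₁ ≠ M₂ ∧ M₁.normalCore = ⊥ ∧ A 0 = M₁ ∧ B 0 = M₂ ∧
      (∀ i, A (i + 1) = ((A i ⊓ B i).subgroupOf M₁).normalCore.map M₁.subtype) ∧
      (∀ i, B (i + 1) = ((A i ⊓ B i).subgroupOf M₂).normalCore.map M₂.subtype) ∧ A 6 = ⊥ ∧ A 5 ≠ ⊥ := by
  refine ⟨Cfsg.Agent.IterCores.Gp, inferInstance, inferInstance, Cfsg.Agent.IterCores.M1, Cfsg.Agent.IterCores.M2,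
    Cfsg.Agent.IterCores.Nu 3, Cfsg.Agent.IterCores.A, Cfsg.Agent.IterCores.B, Cfsg.Agent.IterCores.M1_coatom, rfl,
    Cfsg.Agent.IterCores.M1_ne_M2, Cfsg.Agent.IterCores.M1_core, rfl, rfl, Cfsg.Agent.IterCores.A_succ,
    Cfsg.Agent.IterCores.B_succ, Cfsg.Agent.IterCores.A_six, Cfsg.Agent.IterCores.A_five⟩

end Cfsg.Agent.S5751
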