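import Cfsg.Statements.S5754


set_option autoImplicit false
open Cfsg

namespace Cfsg.Agent.S5754

/-- Let V be a finite-dimensional vector space over a finite field F carrying an anisotropic quadratic form Q (Q(v) = 0 only for v = 0). Then the group of all maps v ↦ φ(v) + c, with φ an isometry of Q and c ∈ V, acts on V as a binary permutation group: given n ≥ 2 and two n-tuples u, u' of vectors such that every pair of corresponding entries of u is carried to that of u' by such a map, one such map carries u to u'. -/
theorem result {F V : Type*} [Field F] [Finite F] [AddCommGroup V] [Module F V] [Module.Finite F V]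
    (Q : QuadraticForm F V) (hQ : Q.Anisotropic) (n : ℕ) (hn : 2 ≤ n) (u u' : Fin n → V)
    (h2 : ∀ i j : Fin n, i ≠ j → ∃ (φ : Q.IsometryEquiv Q) (c : V), φ (u i) + c = u' i ∧ φ (u j) + c = u' j) :
    ∃ (φ : Q.IsometryEquiv Q) (c : V), ∀ i, φ (u i) + c = u' i := by
  classical
  haveI : Inhabited (Fin n) := ⟨⟨0, by omega⟩⟩
  set o : Fin n := default with ho
  let v : Fin n → V := fun i => u i - u o
  let v' : Fin n → V := fun i => u' i - u' o
  have hQv : ∀ i j, Q (v i - v j) = Q (v' i - v' j) := by
    intro i j
    by_cases hij : i = j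
    · subst hij; simp
    obtain ⟨φ, c, h1, h2⟩ := h2 i j hij
    simp only [v, v', sub_sub_sub_cancel_right]
    rw [← h1, ← h2, add_sub_add_right_eq_sub, ← map_sub, QuadraticMap.IsometryEquiv.map_app]
  have hQ1 : ∀ i, Q (v i) = Q (v' i) := by
    intro i
    have := hQv i o
    simpa [v, v'] using this
  have hpolar : ∀ i j, QuadraticMap.polar Q (v i) (v j) = QuadraticMap.polar Q (v' i) (v' j) := by
    intro i j
    have h := hQv i j
    rw [sub_eq_add_neg, sub_eq_add_neg, QuadraticMap.map_add Q, QuadraticMap.map_add Q, QuadraticMap.map_neg,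
      QuadraticMap.map_neg, QuadraticMap.polar_neg_right, QuadraticMap.polar_neg_right, hQ1 i, hQ1 j] at h
    exact neg_injective (add_left_cancel h)
  -- extend point by point with reflections
  have key : ∀ k : ℕ, ∃ φ : Q.IsometryEquiv Q, ∀ i : Fin n, (i : ℕ) < k → φ (v i) = v' i := by
    intro k
    induction k with
    | zero => exact ⟨QuadraticMap.IsometryEquiv.refl Q, fun i hi => absurd hi (Nat.not_lt_zero _)⟩
    | succ k ih =>
      obtain ⟨φ, hφ⟩ := ih
      by_cases hk : k < n
      swap
      · exact ⟨φ, fun i _ => hφ i (lt_of_lt_of_le i.2 (not_lt.mp hk))⟩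
      set x := φ (v ⟨k, hk⟩) with hx
      set y := v' ⟨k, hk⟩ with hy
      by_cases hd : x = y
      · refine ⟨φ, fun i hi => ?_⟩
        rcases Nat.lt_succ_iff_lt_or_eq.mp hi with h | h
        · exact hφ i h
        · obtain rfl : i = ⟨k, hk⟩ := Fin.ext h
          exact hd
      set d := x - y with hd'
      have hQd : Q d ≠ 0 := fun h => hd (sub_eq_zero.mp (hQ _ h))
      let f : V →ₗ[F] V :=
        { toFun := fun z => z - (QuadraticMap.polar Q z d / Q d) • d
          map_add' := fun a b => by rw [QuadraticMap.polar_add_left, add_div, add_smul]; abel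
          map_smul' := fun a b => by rw [QuadraticMap.polar_smul_left, smul_eq_mul, mul_div_assoc, ← smul_smul, ← smul_sub, RingHom.id_apply] }
      have hff : ∀ z, f (f z) = z := by
        intro z
        show z - _ • d - (QuadraticMap.polar Q (z - _ • d) d / Q d) • d = z
        rw [QuadraticMap.polar_sub_left, QuadraticMap.polar_smul_left, QuadraticMap.polar_self, smul_eq_mul, nsmul_eq_mul,
          sub_sub, ← add_smul]
        have : QuadraticMap.polar Q z d / Q d +
            (QuadraticMap.polar Q z d - QuadraticMap.polar Q z d / Q d * ((2 : ℕ) * Q d)) / Q d = 0 := by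
          field_simp; push_cast; ring
        rw [this, zero_smul, sub_zero]
      have hiso : ∀ z, Q (f z) = Q z := by
        intro z
        show Q (z - _ • d) = Q z
        rw [sub_eq_add_neg, ← neg_smul, QuadraticMap.map_add Q, QuadraticMap.map_smul, QuadraticMap.polar_smul_right,
          smul_eq_mul, smul_eq_mul]
        field_simp
        ring
      let r : Q.IsometryEquiv Q :=
        { toLinearEquiv := LinearEquiv.ofInvolutive f hff
          map_app' := hiso }
      refine ⟨φ.trans r, fun i hi => ?_⟩
      show f (φ (v i)) = v' i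
      rcases Nat.lt_succ_iff_lt_or_eq.mp hi with h | h
      · rw [hφ i h]
        show v' i - _ • d = v' i
        have h0 : QuadraticMap.polar Q (v' i) d = 0 := by
          rw [hd', QuadraticMap.polar_sub_right, hy, ← hpolar, hx, ← hφ i h, sub_eq_zero]
          simp only [QuadraticMap.polar, ← map_add, QuadraticMap.IsometryEquiv.map_app]
        rw [h0, zero_div, zero_smul, sub_zero]
      · obtain rfl : i = ⟨k, hk⟩ := Fin.ext h
        show x - (QuadraticMap.polar Q x d / Q d) • d = y
        have hxy : Q x = Q y := by rw [hx, QuadraticMap.IsometryEquiv.map_app, hy, hQ1]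
        have hQd' : Q d = Q x + Q y - QuadraticMap.polar Q x y := by
          rw [hd', sub_eq_add_neg, QuadraticMap.map_add Q, QuadraticMap.map_neg, QuadraticMap.polar_neg_right]; ring
        have h1 : QuadraticMap.polar Q x d = Q d := by
          rw [hQd', hd', QuadraticMap.polar_sub_right, QuadraticMap.polar_self, nsmul_eq_mul, ← hxy]
          push_cast; ring
        rw [h1, div_self hQd, one_smul, hd', sub_sub_cancel]
  obtain ⟨φ, hφ⟩ := key n
  refine ⟨φ, u' o - φ (u o), fun i => ?_⟩
  have := hφ i i.2
  simp only [v, v', map_sub] at this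
  rw [add_sub, ← sub_add_eq_add_sub, this, sub_add_cancel]

end Cfsg.Agent.S5754
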