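import Cfsg.Statements.S5885
import Cfsg.Agent.GeomClasses.GiantSecondMaximal

set_option autoImplicit false
open Cfsg

namespace Cfsg.Agent.S5885

/-- Let n be an odd positive integer such that every primitive permutation group of degree n contains the alternating group (so the symmetric and alternating groups are the only primitive groups of degree n). Let G be a finite group, M a maximal subgroup of G of index n, and H a maximal subgroup of M. Then H is a second maximal subgroup of G: H is maximal in every maximal subgroup K of G containing H. -/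
theorem result {G : Type*} [Group G]
    [Finite G] (n : ℕ) (hodd : Odd n)
    (hA : ∀ P : Subgroup (Equiv.Perm (Fin n)), MulAction.IsPreprimitive P (Fin n) → alternatingGroup (Fin n) ≤ P)
    (M : Subgroup G) (hM : IsCoatom M) (hn : M.index = n) (H : Subgroup G) (hHM : H ≤ M)
    (hmax : IsCoatom (H.subgroupOf M)) (K : Subgroup G) (hK : IsCoatom K) (hHK : H ≤ K) :
    IsCoatom (H.subgroupOf K) := by
  classical
  have hcard : Nat.card (G ⧸ M) = n := hn
  obtain ⟨e⟩ : Nonempty ((G ⧸ M) ≃ Fin n) :=
    ⟨(Finite.equivFin (G ⧸ M)).trans (finCongr hcard)⟩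
  let φ : G →* Equiv.Perm (Fin n) := (Equiv.permCongrHom e).toMonoidHom.comp (MulAction.toPermHom G (G ⧸ M))
  set z := e ((1 : G) : G ⧸ M) with hz
  have hstab : ∀ g, g ∈ M ↔ φ g z = z := by
    intro g
    conv_lhs => rw [← MulAction.stabilizer_quotient (H := M), MulAction.mem_stabilizer_iff]
    simp [φ, z, Equiv.permCongrHom]
  have htr : MulAction.IsPretransitive φ.range (Fin n) := by
    refine ⟨fun x y => ?_⟩
    obtain ⟨g, hg⟩ := MulAction.exists_smul_eq G (e.symm x) (e.symm y)
    refine ⟨⟨φ g, g, rfl⟩, ?_⟩
    show φ g x = y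
    simp [φ, Equiv.permCongrHom, hg]
  have hn2 : 2 ≤ n := by
    rcases n with _ | _ | n
    · exact absurd hn Subgroup.index_ne_zero_of_finite
    · exact absurd (Subgroup.index_eq_one.mp hn) hM.1
    · omega
  haveI : Nontrivial (Fin n) := Fin.nontrivial_iff_two_le.mpr hn2
  have hprim : MulAction.IsPreprimitive φ.range (Fin n) := by
    rw [← MulAction.isCoatom_stabilizer_iff_preprimitive φ.range z]
    have hs : MulAction.stabilizer φ.range z = M.map φ.rangeRestrict := by
      ext ⟨p, g, rfl⟩
      rw [MulAction.mem_stabilizer_iff]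
      show φ g z = z ↔ _
      constructor
      · intro h; exact ⟨g, (hstab g).mpr h, rfl⟩
      · rintro ⟨m, hm, hmg⟩
        have hmg' : φ m = φ g := congrArg Subtype.val hmg
        rw [← hmg']; exact (hstab m).mp hm
    have hsurj : Function.Surjective φ.rangeRestrict := φ.rangeRestrict_surjective
    have hker : φ.rangeRestrict.ker ≤ M := by
      intro g hg
      have h1 : φ g = 1 := congrArg Subtype.val (MonoidHom.mem_ker.mp hg)
      exact (hstab g).mpr (by rw [h1]; rfl)
    rw [hs]
    refine ⟨fun h => hM.1 ?_, fun X hX => ?_⟩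
    · rw [← Subgroup.comap_map_eq_self hker, h, Subgroup.comap_top]
    · have hlt : M < X.comap φ.rangeRestrict := by
        rw [← Subgroup.comap_map_eq_self hker]
        exact (Subgroup.comap_lt_comap_of_surjective hsurj).mpr hX
      rw [← Subgroup.map_comap_eq_self_of_surjective hsurj X, hM.2 _ hlt, Subgroup.map_top_of_surjective _ hsurj]
  exact GeomClasses.isCoatom_of_giant φ z hodd (hA _ hprim) hstab hM hHM hmax hK hHK

end Cfsg.Agent.S5885
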