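import Cfsg.Statements.S5887
import Cfsg.Agent.GeomClasses.SubfieldNormalizer

set_option autoImplicit false
open Cfsg

namespace Cfsg.Agent.S5887

/-- Let F be a finite field, n a positive integer and r a composite number (r > 1, not prime) that divides n with r < n. Let K be a subalgebra of the algebra of n × n matrices over F which is a field of degree r over F (commutative, every non-zero element invertible, of dimension r over F). Then the normaliser N of K in GL_n(F) (a group of type ΓL_{n/r}(F_{q^r})) is not a maximal subgroup of GL_n(F), and N ∩ SL_n(F) is not a maximal subgroup of SL_n(F): both lie properly inside the normaliser of an intermediate subfield of prime degree over F. -/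
theorem result {F : Type*} [Field F]
    [Fintype F] (n r : ℕ) (hr1 : 1 < r) (hrp : ¬ r.Prime) (hrn : r ∣ n) (hlt : r < n)
    (K : Subalgebra F (Matrix (Fin n) (Fin n) F)) (hK : Cfsg.Geo.IsFieldSubalgebra r K) :
    ¬ IsCoatom (Cfsg.Geo.subalgebraNormalizer K) ∧
      ¬ Cfsg.Geo.IsMaximalIn (Cfsg.Geo.specialLinear (Fin n) F)
        (Cfsg.Geo.subalgebraNormalizer K ⊓ Cfsg.Geo.specialLinear (Fin n) F) := by
  classical
  obtain ⟨p, hcp, e, hpe⟩ := FiniteField.card' F
  haveI : Fact p.Prime := ⟨hpe.1⟩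
  have hn : 0 < n := by omega
  haveI : Nonempty (Fin n) := Fin.pos_iff_nonempty.mp hn
  -- an intermediate field
  obtain ⟨s, hs1, hsr, hsdvd⟩ : ∃ s, 1 < s ∧ s < r ∧ s ∣ r := by
    obtain ⟨s, hsd, hs2, hsl⟩ := Nat.exists_dvd_of_not_prime2 hr1 hrp
    exact ⟨s, hs2, hsl, hsd⟩
  set q := Fintype.card F with hq
  have hq1 : 1 < q := Fintype.one_lt_card
  have hKf : IsField K := by
    refine ⟨⟨0, 1, fun h => ?_⟩, fun a b => Subtype.ext (hK.comm a a.2 b b.2), fun {a} ha => ?_⟩
    · exact zero_ne_one (α := Matrix (Fin n) (Fin n) F) (congrArg Subtype.val h)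
    · obtain ⟨y, hy, hay⟩ := hK.inv a a.2 (fun h => ha (Subtype.ext h))
      exact ⟨⟨y, hy⟩, Subtype.ext hay⟩
  letI : Field K := hKf.toField
  haveI : Fintype K := Fintype.ofFinite K
  haveI : CharP K p := charP_of_injective_algebraMap (algebraMap F K).injective p
  have hcardK : Nat.card Kˣ = q ^ r - 1 := by
    rw [Nat.card_units, Nat.card_eq_fintype_card, Module.card_eq_pow_finrank (K := F) (V := K), hK.finrank_eq]
  let φ : K →ₐ[F] K := FiniteField.frobeniusAlgHom F K ^ s
  have hφ : ∀ y, φ y = y ^ q ^ s := fun y => by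
    show (FiniteField.frobeniusAlgHom F K ^ s) y = _
    rw [AlgHom.coe_pow, FiniteField.coe_frobeniusAlgHom, pow_iterate]
  let L : Subalgebra F (Matrix (Fin n) (Fin n) F) := (AlgHom.equalizer φ (AlgHom.id F K)).map K.val
  have hmemL : ∀ x : K, (x : Matrix (Fin n) (Fin n) F) ∈ L ↔ x ^ q ^ s = x := by
    intro x
    constructor
    · rintro ⟨y, hy, hyx⟩
      obtain rfl : y = x := Subtype.ext hyx
      rw [← hφ]; exact hy
    · intro h
      exact ⟨x, (hφ x).trans h, rfl⟩
  obtain ⟨u, hu⟩ := IsCyclic.exists_ofOrder_eq_natCard (α := Kˣ)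
  rw [hcardK] at hu
  have hqr : q < q ^ r := by
    calc q = q ^ 1 := (pow_one q).symm
      _ < q ^ r := Nat.pow_lt_pow_right hq1 hr1
  have hqs : q < q ^ s := by
    calc q = q ^ 1 := (pow_one q).symm
      _ < q ^ s := Nat.pow_lt_pow_right hq1 hs1
  have hLK : L < K := by
    refine lt_of_le_of_ne (by rintro _ ⟨y, -, rfl⟩; exact y.2) fun heq => ?_
    have h1 : ((u : K) : Matrix (Fin n) (Fin n) F) ∈ L := heq.symm ▸ (u : K).2
    rw [hmemL] at h1
    have h2 : u ^ (q ^ s - 1) = 1 := by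
      apply Units.ext
      rw [Units.val_pow_eq_pow_val, Units.val_one]
      apply mul_right_cancel₀ u.ne_zero
      rw [← pow_succ, Nat.sub_add_cancel (by omega), h1, one_mul]
    have h3 := Nat.le_of_dvd (by omega) (hu ▸ orderOf_dvd_of_pow_eq_one h2)
    have h4 : q ^ s < q ^ r := Nat.pow_lt_pow_right hq1 hsr
    omega
  have hbot : (⊥ : Subalgebra F (Matrix (Fin n) (Fin n) F)) < L := by
    refine lt_of_le_of_ne bot_le fun heq => ?_
    obtain ⟨m, hm⟩ : (q ^ s - 1) ∣ (q ^ r - 1) := by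
      obtain ⟨c, rfl⟩ := hsdvd
      rw [pow_mul]; simpa using Nat.sub_dvd_pow_sub_pow (q ^ s) 1 c
    have hm0 : m ≠ 0 := by rintro rfl; simp at hm; omega
    set w := u ^ m with hw
    have hwo : orderOf w = q ^ s - 1 := by
      rw [hw, orderOf_pow_of_dvd hm0 (by rw [hu, hm]; exact dvd_mul_left _ _), hu, hm, Nat.mul_div_cancel _ (Nat.pos_of_ne_zero hm0)]
    have hwL : ((w : K) : Matrix (Fin n) (Fin n) F) ∈ L := by
      rw [hmemL]
      have h1 : w ^ (q ^ s - 1) = 1 := hwo ▸ pow_orderOf_eq_one w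
      calc (w : K) ^ q ^ s = (w : K) ^ (q ^ s - 1 + 1) := by rw [Nat.sub_add_cancel (by omega)]
        _ = w := by rw [pow_succ, ← Units.val_pow_eq_pow_val, h1, Units.val_one, one_mul]
    rw [← heq, Algebra.mem_bot] at hwL
    obtain ⟨c, hc⟩ := hwL
    have hcw : algebraMap F K c = (w : K) := Subtype.ext hc
    have h1 : w ^ (q - 1) = 1 := by
      apply Units.ext
      rw [Units.val_pow_eq_pow_val, Units.val_one, ← hcw, ← map_pow]
      rw [FiniteField.pow_card_sub_one_eq_one c (fun h => w.ne_zero (by rw [← hcw, h, map_zero])), map_one]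
    have h2 := Nat.le_of_dvd (by omega) (hwo ▸ orderOf_dvd_of_pow_eq_one h1)
    omega
  -- the normaliser of K normalises L
  have hle : Cfsg.Geo.subalgebraNormalizer K ≤ Cfsg.Geo.subalgebraNormalizer L := by
    intro g hg
    have step : ∀ g ∈ Cfsg.Geo.subalgebraNormalizer K, ∀ k ∈ L,
        (g : Matrix (Fin n) (Fin n) F) * k * ((g⁻¹ : Matrix.GeneralLinearGroup (Fin n) F) : Matrix (Fin n) (Fin n) F) ∈ L := by
      intro g hg k hk
      have hkK := hLK.le hk
      have h := (hmemL ⟨k, hkK⟩).mp hk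
      refine (hmemL ⟨_, (hg k).mp hkK⟩).mpr (Subtype.ext ?_)
      rw [SubmonoidClass.coe_pow]
      show ((g : Matrix (Fin n) (Fin n) F) * k * _) ^ q ^ s = _
      rw [Units.conj_pow, show k ^ q ^ s = k from congrArg Subtype.val h]
    intro k
    refine ⟨step g hg k, fun hk => ?_⟩
    simpa [mul_assoc, ← Units.val_mul] using step g⁻¹ (inv_mem hg) _ hk
  have hLfs : Cfsg.Geo.IsFieldSubalgebra (Module.finrank F L) L := by
    refine ⟨fun x hx y hy => hK.comm x (hLK.le hx) y (hLK.le hy), fun x hx hx0 => ?_, rfl⟩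
    obtain ⟨y, hy, hxy⟩ := hK.inv x (hLK.le hx) hx0
    refine ⟨y, (hmemL ⟨y, hy⟩).mpr ?_, hxy⟩
    have h := (hmemL ⟨x, hLK.le hx⟩).mp hx
    have h1 : (⟨x, hLK.le hx⟩ : K) * ⟨y, hy⟩ = 1 := Subtype.ext hxy
    have h2 := congrArg (fun z : K => z ^ q ^ s) h1
    simp only [mul_pow, one_pow, h] at h2
    exact mul_left_cancel₀ (fun hh => hx0 (congrArg Subtype.val hh)) (h2.trans h1.symm)
  have hLn : Module.finrank F L < n := by
    have := Submodule.finrank_mono (show Subalgebra.toSubmodule L ≤ Subalgebra.toSubmodule K from hLK.le)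
    rw [Subalgebra.finrank_toSubmodule, Subalgebra.finrank_toSubmodule, hK.finrank_eq] at this
    omega
  obtain ⟨a, haS, haL, haK⟩ := GeomClasses.exists_centralizing_not_normalizing p hn hlt hK hLK
  obtain ⟨b, hbS, -, hbL⟩ := GeomClasses.exists_centralizing_not_normalizing p hn hLn hLfs hbot
  constructor
  · intro hco
    have hlt' : Cfsg.Geo.subalgebraNormalizer K < Cfsg.Geo.subalgebraNormalizer L :=
      lt_of_le_of_ne hle fun h => haK (h ▸ haL)
    exact hbL (hco.2 _ hlt' ▸ Subgroup.mem_top b)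
  · rintro ⟨-, hmax⟩
    rcases hmax (Cfsg.Geo.subalgebraNormalizer L ⊓ Cfsg.Geo.specialLinear (Fin n) F) (inf_le_inf_right _ hle) inf_le_right with h | h
    · have hm : a ∈ Cfsg.Geo.subalgebraNormalizer L ⊓ Cfsg.Geo.specialLinear (Fin n) F := ⟨haL, haS⟩
      rw [h] at hm
      exact haK hm.1
    · rw [← h] at hbS
      exact hbL hbS.1

end Cfsg.Agent.S5887
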