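import Cfsg.Statements.S5890
import Cfsg.Agent.Linear.PGL2MaxMeet
-- import your own Cfsg.Agent.* helpers here

set_option autoImplicit false
open Cfsg

namespace Cfsg.Agent.S5890

/-- Let F be a finite field with q ≥ 4 elements, let L ≤ PGL₂(F) be the image of SL₂(F) (a copy of PSL₂(F), of index gcd(2, q − 1)), and let M be a maximal subgroup of PGL₂(F) that does not contain L. Suppose q ∉ {7, 9, 11} and that q is not a prime congruent to ±11 or ±19 modulo 40. Then M ∩ L is a maximal subgroup of L. (For the excluded q there are maximal subgroups of PGL₂(q) — dihedral groups of order 12 and 16 at q = 7, of order 20 and 16 at q = 9, of order 20 at q = 11, and S₄ at the excluded primes — whose intersection with L is not maximal in L.) -/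
theorem result {F : Type*} [Field F]
    [Fintype F] (h4 : 4 ≤ Fintype.card F) (h7 : Fintype.card F ≠ 7) (h9 : Fintype.card F ≠ 9) (h11 : Fintype.card F ≠ 11)
    (h40 : (Fintype.card F).Prime → Fintype.card F % 40 ∉ ({11, 19, 21, 29} : Finset ℕ))
    (M : Subgroup (Matrix.ProjGenLinGroup (Fin 2) F)) (hM : IsCoatom M)
    (hML : ¬ (Matrix.ProjGenLinGroup.mk.comp Matrix.SpecialLinearGroup.toGL).range ≤ M) :
    IsCoatom ((M ⊓ (Matrix.ProjGenLinGroup.mk.comp Matrix.SpecialLinearGroup.toGL).range).subgroupOf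
      (Matrix.ProjGenLinGroup.mk.comp Matrix.SpecialLinearGroup.toGL).range) := by
  obtain ⟨p, hc⟩ := CharP.exists F
  haveI := hc
  haveI : Fact p.Prime := ⟨CharP.char_is_prime F p⟩
  rw [Cfsg.Agent.Linear.PGL2Max.range_T] at hML ⊢
  have hN : IsCoatom (M.comap Cfsg.Agent.Linear.PGL2Max.T) := by
    rcases Nat.mod_two_eq_zero_or_one (Fintype.card F) with hev | hodd
    · exact Cfsg.Agent.Linear.PGL2Max.comap_coatom_even hev hM
    · exact Cfsg.Agent.Linear.PGL2Max.comap_coatom p hodd (by omega) h7 h9 h11 h40 hM hML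
  let E := MonoidHom.ofInjective (Cfsg.Agent.Linear.PGL2Max.T_injective (F := F))
  convert ((E.mapSubgroup).isCoatom_iff _).2 hN using 1
  ext ⟨_, y, rfl⟩
  constructor
  · rintro ⟨h, -⟩
    exact ⟨y, h, rfl⟩
  · rintro ⟨z, hz, e⟩
    have : z = y := Cfsg.Agent.Linear.PGL2Max.T_injective (congrArg Subtype.val e)
    exact ⟨this ▸ hz, ⟨y, rfl⟩⟩

end Cfsg.Agent.S5890
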