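import Cfsg.Statements.S5891
import Cfsg.Agent.Linear.PGL2MaxTypes
-- import your own Cfsg.Agent.* helpers here

set_option autoImplicit false
open Cfsg

namespace Cfsg.Agent.S5891

/-- Let F be a finite field of odd order q > 3 and characteristic p, and let M be a maximal subgroup of PGL₂(F) not containing the image L of SL₂(F) (a copy of PSL₂(F) of index 2). Then one of the following holds: |M| = q(q − 1) (M is the stabiliser of a point of the projective line); q ≠ 5 and M is dihedral of order 2(q − 1); M is dihedral of order 2(q + 1); q = p ≡ ±3 (mod 8) and M ≅ S₄; or q = q₀^r for an odd prime r and M ≅ PGL₂(F₀) with |F₀| = q₀. -/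
theorem result {F : Type*} [Field F] [Fintype F]
    (hodd : Odd (Fintype.card F)) (h3 : 3 < Fintype.card F) (M : Subgroup (Matrix.ProjGenLinGroup (Fin 2) F)) (hM : IsCoatom M)
    (hML : ¬ (Matrix.ProjGenLinGroup.mk.comp Matrix.SpecialLinearGroup.toGL).range ≤ M) :
    Nat.card M = Fintype.card F * (Fintype.card F - 1) ∨
    (Fintype.card F ≠ 5 ∧ Nonempty (M ≃* DihedralGroup (Fintype.card F - 1))) ∨
    Nonempty (M ≃* DihedralGroup (Fintype.card F + 1)) ∨
    ((Fintype.card F).Prime ∧ (Fintype.card F % 8 = 3 ∨ Fintype.card F % 8 = 5) ∧ Nonempty (M ≃* Equiv.Perm (Fin 4))) ∨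
    (∃ (F₀ : Type) (_ : Field F₀) (_ : Fintype F₀) (r : ℕ), r.Prime ∧ Odd r ∧ Fintype.card F = Fintype.card F₀ ^ r ∧
        Nonempty (M ≃* Matrix.ProjGenLinGroup (Fin 2) F₀)) := by
  obtain ⟨p, hc⟩ := CharP.exists F
  haveI := hc
  haveI : Fact p.Prime := ⟨CharP.char_is_prime F p⟩
  have hodd' : Fintype.card F % 2 = 1 := Nat.odd_iff.1 hodd
  have hq : 5 ≤ Fintype.card F := by omega
  rw [Cfsg.Agent.Linear.PGL2Max.range_T] at hML
  rcases Cfsg.Agent.Linear.PSL2Max.parity (F := F) with ⟨h, -⟩ | ⟨-, -, hnm, hnp⟩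
  · omega
  rcases Cfsg.Agent.Linear.PGL2Max.cases p hodd' hq hM hML with
    ⟨-, h⟩ | ⟨k, hk3, hk, -, ⟨e⟩⟩ | ⟨hqp, h8, -, he⟩ | ⟨P, K, m, hm, hmo, hKm, -, ⟨e⟩⟩
  · exact Or.inl h
  · rcases hk with rfl | rfl
    · rw [hnp] at e
      exact Or.inr (Or.inr (Or.inl ⟨e⟩))
    · rw [hnm] at e
      exact Or.inr (Or.inl ⟨by omega, ⟨e⟩⟩)
  · exact Or.inr (Or.inr (Or.inr (Or.inl ⟨hqp.symm ▸ (Fact.out : p.Prime), by rw [hqp]; exact h8, he⟩)))
  · obtain ⟨K0, _, _, ⟨eK⟩, hK⟩ := Cfsg.Agent.Linear.PSL2Max.exists_type0 p K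
    exact Or.inr (Or.inr (Or.inr (Or.inr ⟨K0, inferInstance, inferInstance, m, hm, hmo, (hK.symm ▸ hKm).symm,
      ⟨e.trans (Cfsg.Agent.Linear.PSL2Max.pglCongr eK).symm⟩⟩)))

end Cfsg.Agent.S5891
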