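import Cfsg.Statements.S5896
import Cfsg.Agent.GeomClasses.PerfectDerived

set_option autoImplicit false
open Cfsg

namespace Cfsg.Agent.S5896

/-- Finite perfect groups have solvable maximal subgroups of unbounded derived length: for every d there is a finite perfect group G (equal to its commutator subgroup) with a solvable maximal subgroup H whose derived length exceeds d, i.e. the d-th term of the derived series of H is non-trivial. (Take the derived subgroup of a wreath product S ≀ A₅ with S solvable of large derived length, and H the preimage of a maximal subgroup of A₅.) -/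
theorem result (d : ℕ) :
    ∃ (G : Type) (_ : Group G) (_ : Finite G) (H : Subgroup G), commutator G = ⊤ ∧ IsCoatom H ∧ Group.IsSolvable H ∧
      derivedSeries H d ≠ ⊥ := by
  classical
  have d2 : (2 : ZMod 5) ≠ 0 := by decide
  have d3 : (2 : ZMod 5) * 2 - 1 ≠ 0 := by decide
  have dz : ∀ z : ZMod 5, z * z - 1 = 0 → 2 * z = 1 → False := by decide
  have d4 : (-2 : ZMod 5) - 0 * 0 ≠ 0 := by decide
  haveI : Fact (Nat.Prime 5) := ⟨by norm_num⟩
  set k := 3 ^ d + 1 with hk
  have hk0 : k ≠ 0 := Nat.succ_ne_zero _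
  haveI : NeZero (5 ^ k) := ⟨pow_ne_zero _ (by norm_num)⟩
  let R := ZMod (5 ^ k)
  let red : R →+* ZMod 5 := ZMod.castHom (dvd_pow_self 5 hk0) (ZMod 5)
  have hred : Function.Surjective red := ZMod.ringHom_surjective red
  have hker : ∀ x : R, red x = 0 → (5 : R) ∣ x := by
    intro x hx
    have h1 : ((x.val : ℕ) : ZMod 5) = 0 := by rw [← hx]; exact (map_natCast red x.val).symm.trans (by rw [ZMod.natCast_zmod_val])
    rw [ZMod.natCast_eq_zero_iff] at h1
    obtain ⟨m, hm⟩ := h1
    exact ⟨(m : R), by rw [← ZMod.natCast_zmod_val x, hm]; push_cast; ring⟩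
  -- units
  have hunit : ∀ x : R, red x ≠ 0 → ∃ y, x * y = 1 := by
    intro x hx
    have hcop : Nat.Coprime x.val (5 ^ k) := by
      refine Nat.Coprime.pow_right k ((Nat.Prime.coprime_iff_not_dvd (by norm_num)).mpr fun h => hx ?_).symm
      obtain ⟨m, hm⟩ := h
      rw [← ZMod.natCast_zmod_val x, map_natCast, hm, Nat.cast_mul, show ((5 : ℕ) : ZMod 5) = 0 from rfl, zero_mul]
    refine ⟨(((ZMod.unitOfCoprime _ hcop)⁻¹ : Rˣ) : R), ?_⟩
    refine Eq.trans ?_ (Units.mul_inv (ZMod.unitOfCoprime x.val hcop))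
    congr 1
    exact ((ZMod.coe_unitOfCoprime _ _).trans (ZMod.natCast_zmod_val x)).symm
  have h5 : red 5 = 0 := by rw [map_ofNat]; rfl
  let G := GeomClasses.elemGroup R
  let π : G →* Matrix.SpecialLinearGroup (Fin 2) (ZMod 5) := (Matrix.SpecialLinearGroup.map red).comp G.subtype
  have hπ : ∀ (g : G) i j, (π g) i j = red ((g : Matrix.SpecialLinearGroup (Fin 2) R) i j) := fun g i j => rfl
  let H : Subgroup G :=
    { carrier := {g | (π g) 1 0 = 0}
      one_mem' := by simp
      mul_mem' := by
        intro a b ha hb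
        simp only [Set.mem_setOf_eq, map_mul] at ha hb ⊢
        rw [Matrix.SpecialLinearGroup.coe_mul, Matrix.mul_apply, Fin.sum_univ_two, ha, hb, zero_mul, mul_zero, add_zero]
      inv_mem' := by
        intro a ha
        simp only [Set.mem_setOf_eq, map_inv] at ha ⊢
        rw [Matrix.SpecialLinearGroup.coe_inv, Matrix.adjugate_fin_two]
        simp [ha] }
  have hHmem : ∀ g, g ∈ H ↔ (π g) 1 0 = 0 := fun g => Iff.rfl
  refine ⟨↥G, inferInstance, inferInstance, H, ?_, ?_, ?_, ?_⟩
  · -- perfect: u = 2
    obtain ⟨v, hv⟩ := hunit 2 (by rw [map_ofNat]; exact d2)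
    obtain ⟨w, hw⟩ := hunit (2 * 2 - 1) (by rw [map_sub, map_mul, map_ofNat, map_one]; exact d3)
    obtain ⟨w', hw'⟩ := hunit (v * v - 1) (by
      intro h
      have h2 := congrArg red hv
      rw [map_mul, map_ofNat, map_one] at h2
      rw [map_sub, map_mul, map_one] at h
      exact dz _ h h2)
    exact GeomClasses.elemGroup_perfect 2 v w w' hv hw hw'
  · -- maximal
    refine ⟨fun h => ?_, fun X hX => ?_⟩
    · have := (hHmem ⟨_, GeomClasses.eLow_mem (1 : R)⟩).mp (h ▸ Subgroup.mem_top _)
      rw [hπ] at this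
      simp [GeomClasses.eLow_val] at this
    obtain ⟨g, hgX, hgH⟩ := SetLike.exists_of_lt hX
    rw [hHmem] at hgH
    obtain ⟨c', hc'⟩ := hunit _ (by rwa [← hπ])
    -- w = up * g * up has zero diagonal modulo 5
    have hupX : ∀ t : R, (⟨_, GeomClasses.eUp_mem t⟩ : G) ∈ X := fun t => hX.le (by
      rw [hHmem, hπ]; simp [GeomClasses.eUp_val])
    set w : G := ⟨_, GeomClasses.eUp_mem (-((g : Matrix.SpecialLinearGroup (Fin 2) R) 0 0 * c'))⟩ * g * ⟨_, GeomClasses.eUp_mem (-((g : Matrix.SpecialLinearGroup (Fin 2) R) 1 1 * c'))⟩ with hw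
    have hwX : w ∈ X := X.mul_mem (X.mul_mem (hupX _) hgX) (hupX _)
    have hw00 : red ((w : Matrix.SpecialLinearGroup (Fin 2) R) 0 0) = 0 := by
      rw [← map_zero red]; congr 1
      simp [w, GeomClasses.eUp_val, Matrix.mul_apply, Matrix.vecMul, dotProduct, Fin.sum_univ_two]
      linear_combination (-((g : Matrix.SpecialLinearGroup (Fin 2) R) 0 0)) * hc'
    have hw11 : red ((w : Matrix.SpecialLinearGroup (Fin 2) R) 1 1) = 0 := by
      rw [← map_zero red]; congr 1
      simp [w, GeomClasses.eUp_val, Matrix.mul_apply, Matrix.vecMul, dotProduct, Fin.sum_univ_two]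
      linear_combination (-((g : Matrix.SpecialLinearGroup (Fin 2) R) 1 1)) * hc'
    have hlowX : ∀ t : R, (⟨_, GeomClasses.eLow_mem t⟩ : G) ∈ X := by
      intro t
      -- w⁻¹ * low * w is upper triangular modulo 5
      have hm : w⁻¹ * (⟨_, GeomClasses.eLow_mem t⟩ : G) * w ∈ X := hX.le (by
        rw [hHmem, hπ]
        simp [Matrix.adjugate_fin_two, GeomClasses.eLow_val, Matrix.mul_apply, Fin.sum_univ_two, hw00, hw11])
      have := X.mul_mem (X.mul_mem hwX hm) (X.inv_mem hwX)
      simpa [mul_assoc] using this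
    rw [eq_top_iff]
    intro x _
    have hle : G ≤ X.map G.subtype := by
      refine (Subgroup.closure_le _).mpr ?_
      rintro _ ⟨t, rfl | rfl⟩
      · exact ⟨_, hupX t, rfl⟩
      · exact ⟨_, hlowX t, rfl⟩
    obtain ⟨y, hy, hyx⟩ := hle x.2
    rwa [← Subtype.ext hyx]
  · -- solvable
    have hentry : ∀ h : H, (π h) 1 0 = 0 := fun h => h.2
    let χ : H →* ZMod 5 :=
      { toFun := fun h => (π h) 0 0
        map_one' := by simp
        map_mul' := fun a b => by
          have hb : ((π (b : G)) : Matrix (Fin 2) (Fin 2) (ZMod 5)) 1 0 = 0 := hentry b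
          simp only [Subgroup.coe_mul, map_mul, Matrix.SpecialLinearGroup.coe_mul, Matrix.mul_apply, Fin.sum_univ_two]
          rw [hb, mul_zero, add_zero] }
    let χu : H →* (ZMod 5)ˣ := χ.toHomUnits
    have hχ : ∀ h : χu.ker, (π (h : H)) 0 0 = 1 := fun h => congrArg Units.val (MonoidHom.mem_ker.mp h.2)
    have h11 : ∀ h : χu.ker, (π (h : H)) 1 1 = 1 := fun h => by
      have hd := (π ((h : H) : G)).2
      rw [Matrix.det_fin_two, hχ, hentry] at hd
      simpa using hd
    let β : χu.ker →* Multiplicative (ZMod 5) :=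
      { toFun := fun h => Multiplicative.ofAdd ((π (h : H)) 0 1)
        map_one' := by simp
        map_mul' := fun a b => by
          rw [← ofAdd_add]
          congr 1
          simp only [Subgroup.coe_mul, map_mul, Matrix.SpecialLinearGroup.coe_mul, Matrix.mul_apply, Fin.sum_univ_two]
          rw [hχ a, h11 b]; ring }
    haveI : Group.IsSolvable β.ker := by
      have hp : IsPGroup 5 β.ker := by
        intro x
        refine ⟨k, ?_⟩
        set M : Matrix (Fin 2) (Fin 2) R := Subtype.val (((((x : χu.ker) : H) : G) : Matrix.SpecialLinearGroup (Fin 2) R)) with hMdef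
        have hx01 : (π (((x : χu.ker) : H) : G)) 0 1 = 0 := congrArg Multiplicative.toAdd (MonoidHom.mem_ker.mp x.2)
        have hred1 : ∀ i j, red (M i j - (1 : Matrix (Fin 2) (Fin 2) R) i j) = 0 := by
          intro i j
          rw [map_sub, hMdef, ← hπ]
          fin_cases i <;> fin_cases j <;> simp [hχ (x : χu.ker), h11 (x : χu.ker), hx01, hentry ((x : χu.ker) : H)]
        choose A hA using fun i j => hker _ (hred1 i j)
        have hM : M = 1 + (5 : R) • Matrix.of A := by
          ext i j
          rw [Matrix.add_apply, Matrix.smul_apply, Matrix.of_apply, smul_eq_mul, ← hA i j]; ring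
        have hdvd : ((5 : ℕ) : Polynomial R) ^ (k + 1) ∣
            (1 + ((5 : ℕ) : Polynomial R) * Polynomial.X) ^ 5 ^ k - 1 ^ 5 ^ k :=
          dvd_sub_pow_of_dvd_sub (by simp) k
        obtain ⟨q, hq⟩ := hdvd
        have h0 : ((5 : ℕ) : R) ^ (k + 1) = 0 := by
          rw [pow_succ, ← Nat.cast_pow, ZMod.natCast_self, zero_mul]
        have := congrArg (Polynomial.aeval (Matrix.of A)) hq
        simp only [map_sub, map_pow, map_add, map_one, one_pow, map_mul, map_natCast, Polynomial.aeval_X] at this
        have hz : ((5 : ℕ) : Matrix (Fin 2) (Fin 2) R) ^ (k + 1) = 0 := by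
          rw [← map_natCast (algebraMap R (Matrix (Fin 2) (Fin 2) R)), ← map_pow, h0, map_zero]
        rw [hz, zero_mul, sub_eq_zero] at this
        refine Subtype.ext (Subtype.ext (Subtype.ext (Subtype.ext (Subtype.ext ?_))))
        simp only [SubmonoidClass.coe_pow, Matrix.SpecialLinearGroup.coe_pow, OneMemClass.coe_one, Matrix.SpecialLinearGroup.coe_one]
        show M ^ 5 ^ k = 1
        rw [hM, ← this]
        congr 2
        rw [← map_natCast (algebraMap R (Matrix (Fin 2) (Fin 2) R)), ← Algebra.smul_def]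
        norm_num
      haveI : Group.IsNilpotent β.ker := hp.isNilpotent
      infer_instance
    haveI : Group.IsSolvable χu.ker :=
      solvable_of_ker_le_range β.ker.subtype β (by rw [Subgroup.range_subtype])
    exact solvable_of_ker_le_range χu.ker.subtype χu (by rw [Subgroup.range_subtype])
  · -- derived length
    intro hbot
    have hup5 : ∀ t : R, (⟨_, GeomClasses.eUp_mem t⟩ : G) ∈ H := fun t => by rw [hHmem, hπ]; simp [GeomClasses.eUp_val]
    have key : ∀ j, ∀ t : R,
        GeomClasses.eUp ((5 : R) ^ (3 ^ j) * t) ∈ ((derivedSeries H j).map H.subtype).map G.subtype ∧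
        GeomClasses.eLow ((5 : R) ^ (3 ^ j) * t) ∈ ((derivedSeries H j).map H.subtype).map G.subtype := by
      intro j
      induction j with
      | zero =>
        intro t
        rw [derivedSeries_zero, ← MonoidHom.range_eq_map, Subgroup.range_subtype]
        refine ⟨⟨_, hup5 _, rfl⟩, ⟨⟨_, GeomClasses.eLow_mem ((5 : R) ^ (3 ^ 0) * t)⟩, ?_, rfl⟩⟩
        rw [SetLike.mem_coe, hHmem, hπ]
        simp [GeomClasses.eLow_val, h5]
      | succ j ih =>
        intro t
        rw [derivedSeries_succ, Subgroup.map_commutator, Subgroup.map_commutator]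
        set c : R := 5 ^ (3 ^ j) with hc
        have hc0 : red c = 0 := by rw [hc, map_pow, h5, zero_pow (by positivity)]
        obtain ⟨v, hv⟩ := hunit (1 + c * c) (by rw [map_add, map_mul, hc0, map_one, mul_zero, add_zero]; exact one_ne_zero)
        obtain ⟨r, hr⟩ := hunit (2 + c * c) (by rw [map_add, map_mul, hc0, map_ofNat, mul_zero, add_zero]; exact d2)
        obtain ⟨r', hr'⟩ := hunit ((-2 - c * c) * (v * v)) (by
          have hv1 := congrArg red hv
          rw [map_mul, map_add, map_mul, hc0, map_one, mul_zero, add_zero, one_mul] at hv1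
          rw [map_mul, map_mul, hv1, map_sub, map_mul, hc0, map_neg, map_ofNat, mul_one, mul_one]; exact d4)
        have := GeomClasses.derived_step (⊤ : Subgroup (Matrix.SpecialLinearGroup (Fin 2) R)) id (fun _ _ => rfl) c _
          (fun t => (ih t).1) (fun t => (ih t).2) v hv r r' hr hr' t
        have he : (5 : R) ^ (3 ^ (j + 1)) = c * c * c := by
          rw [hc, ← pow_add, ← pow_add]; congr 1; rw [pow_succ (3 : ℕ) j]; ring
        rw [he]
        exact this
    have h1 := (key d 1).1
    rw [hbot, Subgroup.map_bot, Subgroup.map_bot, Subgroup.mem_bot] at h1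
    have h2 : ((5 : R)) ^ (3 ^ d) = 0 := by
      simpa [GeomClasses.eUp] using congrArg (fun g : Matrix.SpecialLinearGroup (Fin 2) R => g 0 1) h1
    have h3 : ((5 ^ (3 ^ d) : ℕ) : R) = 0 := by push_cast; exact h2
    rw [ZMod.natCast_eq_zero_iff] at h3
    exact absurd ((Nat.pow_dvd_pow_iff_le_right (by norm_num)).mp h3) (by omega)

end Cfsg.Agent.S5896
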