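import Cfsg.Statements.S5902
import Cfsg.Agent.GeomClasses.Complemented

set_option autoImplicit false
open Cfsg

namespace Cfsg.Agent.S5902

/-- Let G be a finite group, X a subgroup whose own subgroup lattice is complemented, and suppose X lies in exactly one maximal subgroup M of G. Then every subgroup H of G not contained in the normal core of M has a complement in the subgroup lattice of G (some C with H ⊔ C = G and H ⊓ C = 1); in particular the subgroup lattice of G modulo the normal core of M is complemented. -/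
theorem result {G : Type*} [Group G] [Finite G] (X M : Subgroup G)
    (hK : ComplementedLattice (Subgroup X))
    (hM : IsCoatom M) (hXM : X ≤ M) (huniq : ∀ M' : Subgroup G, IsCoatom M' → X ≤ M' → M' = M) :
    (∀ H : Subgroup G, ¬ H ≤ M.normalCore → ∃ C : Subgroup G, H ⊔ C = ⊤ ∧ H ⊓ C = ⊥) ∧
    ComplementedLattice (Subgroup (G ⧸ M.normalCore)) := by
  have key : ∀ H : Subgroup G, ¬ H ≤ M.normalCore → ∃ C : Subgroup G, H ⊔ C = ⊤ ∧ H ⊓ C = ⊥ := by
    intro H hH
    obtain ⟨h, hh, hn⟩ := SetLike.not_le_iff_exists.mp hH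
    obtain ⟨g, hg⟩ : ∃ g : G, g * h * g⁻¹ ∉ M := by
      by_contra hcon; push_neg at hcon; exact hn hcon
    refine GeomClasses.exists_complement_of_map (MulAut.conj g) ?_
    refine GeomClasses.exists_complement_of_interval (T := ⊥) (X := X) (M := M) bot_le ?_ huniq ?_ (inf_bot_eq _)
    · intro Y _ hY
      obtain ⟨C, hC⟩ := exists_isCompl (Y.subgroupOf X)
      refine ⟨C.map X.subtype, bot_le, Subgroup.map_subtype_le C, ?_, ?_⟩
      · have := congrArg (Subgroup.map X.subtype) hC.sup_eq_top
        rwa [Subgroup.map_sup, Subgroup.map_subgroupOf_eq_of_le hY, ← MonoidHom.range_eq_map,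
          Subgroup.range_subtype] at this
      · have := congrArg (Subgroup.map X.subtype) hC.inf_eq_bot
        rwa [Subgroup.map_inf _ _ _ X.subtype_injective, Subgroup.map_subgroupOf_eq_of_le hY,
          Subgroup.map_bot] at this
    · intro hle
      exact hg (hle ⟨h, hh, rfl⟩)
  refine ⟨key, ⟨fun Hb => ?_⟩⟩
  by_cases hb : Hb = ⊥
  · exact ⟨⊤, hb ▸ isCompl_bot_top⟩
  set π := QuotientGroup.mk' M.normalCore
  have hsurj : Function.Surjective π := QuotientGroup.mk'_surjective _
  obtain ⟨C, h1, h2⟩ := key (Hb.comap π) (by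
    intro hle
    apply hb
    rw [eq_bot_iff]
    intro x hx
    obtain ⟨y, rfl⟩ := hsurj x
    exact Subgroup.mem_bot.mpr ((QuotientGroup.eq_one_iff y).mpr (hle hx)))
  refine ⟨C.map π, IsCompl.of_eq ?_ ?_⟩
  · rw [eq_bot_iff]
    rintro x ⟨hx, c, hc, rfl⟩
    have : c ∈ Hb.comap π ⊓ C := ⟨hx, hc⟩
    rw [h2, Subgroup.mem_bot] at this
    simp [this]
  · have := congrArg (Subgroup.map π) h1
    rwa [Subgroup.map_sup, Subgroup.map_comap_eq_self_of_surjective hsurj,
      Subgroup.map_top_of_surjective _ hsurj] at this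

end Cfsg.Agent.S5902
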