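import Cfsg.Statements.S5903
import Cfsg.Agent.GeomClasses.Complemented

set_option autoImplicit false
open Cfsg

namespace Cfsg.Agent.S5903

/-- Let G be a finite simple group, X a subgroup lying in exactly one maximal subgroup M of G, and N a subgroup of prime order with N ≤ X that is central in M. If the subgroup lattice of X/N is complemented, then the subgroup lattice of G is complemented. -/
theorem result {G : Type*} [Group G] [Finite G] [IsSimpleGroup G] (X M N : Subgroup G)
    (hM : IsCoatom M) (hXM : X ≤ M) (huniq : ∀ M' : Subgroup G, IsCoatom M' → X ≤ M' → M' = M)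
    (hNX : N ≤ X) (hN : (Nat.card N).Prime) (hcen : ∀ n ∈ N, ∀ m ∈ M, m * n = n * m)
    [(N.subgroupOf X).Normal] (hK : ComplementedLattice (Subgroup (X ⧸ N.subgroupOf X))) :
    ComplementedLattice (Subgroup G) := by
  refine ⟨fun H => ?_⟩
  suffices fin : ∃ C : Subgroup G, H ⊔ C = ⊤ ∧ H ⊓ C = ⊥ by
    obtain ⟨C, h1, h2⟩ := fin
    exact ⟨C, IsCompl.of_eq h2 h1⟩
  by_cases hH0 : H = ⊥
  · exact ⟨⊤, by simp, by simp [hH0]⟩
  by_cases hex : ∃ g : G, ¬ H.map (MulAut.conj g).toMonoidHom ≤ M ∧ H.map (MulAut.conj g).toMonoidHom ⊓ N = ⊥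
  · obtain ⟨g, h1, h2⟩ := hex
    refine GeomClasses.exists_complement_of_map (MulAut.conj g) ?_
    refine GeomClasses.exists_complement_of_interval hNX ?_ huniq h1 h2
    intro Y hY hYX
    set π := QuotientGroup.mk' (N.subgroupOf X) with hπ
    have hsurj : Function.Surjective π := QuotientGroup.mk'_surjective _
    have hker : π.ker = N.subgroupOf X := QuotientGroup.ker_mk' _
    obtain ⟨C, hC⟩ := exists_isCompl ((Y.subgroupOf X).map π)
    have hYeq : ((Y.subgroupOf X).map π).comap π = Y.subgroupOf X :=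
      Subgroup.comap_map_eq_self (by rw [hker]; exact fun x hx => hY hx)
    refine ⟨(C.comap π).map X.subtype, ?_, Subgroup.map_subtype_le _, ?_, ?_⟩
    · intro x hx
      refine ⟨⟨x, hNX hx⟩, ?_, rfl⟩
      have : π ⟨x, hNX hx⟩ = 1 := (QuotientGroup.eq_one_iff _).mpr hx
      rw [SetLike.mem_coe, Subgroup.mem_comap, this]; exact C.one_mem
    · have := congrArg (fun K => Subgroup.map X.subtype (Subgroup.comap π K)) hC.sup_eq_top
      simp only [Subgroup.comap_top] at this
      rwa [← Subgroup.comap_sup_eq _ _ _ hsurj, hYeq, Subgroup.map_sup,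
        Subgroup.map_subgroupOf_eq_of_le hYX, ← MonoidHom.range_eq_map, Subgroup.range_subtype] at this
    · have := congrArg (fun K => Subgroup.map X.subtype (Subgroup.comap π K)) hC.inf_eq_bot
      simp only [Subgroup.comap_inf] at this
      rwa [hYeq, Subgroup.map_inf _ _ _ X.subtype_injective, Subgroup.map_subgroupOf_eq_of_le hYX,
        MonoidHom.comap_bot, hker, Subgroup.map_subgroupOf_eq_of_le hNX] at this
  push_neg at hex
  have key : ∀ g : G, ∀ n ∈ N, g⁻¹ * n * g ∈ Subgroup.centralizer (H : Set G) ⊔ H := by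
    intro g n hn
    by_cases hle : H.map (MulAut.conj g).toMonoidHom ≤ M
    · refine Subgroup.mem_sup_left (Subgroup.mem_centralizer_iff.mpr fun h hh => ?_)
      have := hcen n hn (g * h * g⁻¹) (hle ⟨h, hh, rfl⟩)
      calc h * (g⁻¹ * n * g) = g⁻¹ * (g * h * g⁻¹ * n) * g := by group
        _ = g⁻¹ * (n * (g * h * g⁻¹)) * g := by rw [this]
        _ = g⁻¹ * n * g * h := by group
    · have hne := hex g hle
      haveI := Fact.mk hN
      rcases Subgroup.eq_bot_or_eq_top_of_prime_card ((H.map (MulAut.conj g).toMonoidHom).subgroupOf N) with h' | h'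
      · exact absurd (disjoint_iff.mp (Subgroup.subgroupOf_eq_bot.mp h')) hne
      · rw [Subgroup.subgroupOf_eq_top] at h'
        obtain ⟨h, hh, hhn⟩ := h' hn
        refine Subgroup.mem_sup_right ?_
        have : g⁻¹ * n * g = h := by rw [← hhn]; simp [MulAut.conj_apply, mul_assoc]
        rw [this]; exact hh
  have htop : Subgroup.centralizer (H : Set G) ⊔ H = ⊤ := by
    have hnc : Subgroup.normalClosure (N : Set G) = ⊤ := by
      rcases IsSimpleGroup.eq_bot_or_eq_top_of_normal (Subgroup.normalClosure (N : Set G))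
        Subgroup.normalClosure_normal with h | h
      · exfalso
        have : N ≤ ⊥ := h ▸ Subgroup.subset_normalClosure
        rw [le_bot_iff.mp this] at hN
        simp at hN; exact Nat.not_prime_one hN
      · exact h
    rw [eq_top_iff, ← hnc, Subgroup.normalClosure, Subgroup.closure_le]
    intro x hx
    obtain ⟨n, hn, hc⟩ := Group.mem_conjugatesOfSet_iff.mp hx
    obtain ⟨c, rfl⟩ := isConj_iff.mp hc
    simpa using key c⁻¹ n hn
  have hnorm : H.Normal := by
    rw [← Subgroup.normalizer_eq_top_iff, eq_top_iff, ← htop]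
    exact sup_le (Subgroup.centralizer_le_normalizer _) Subgroup.le_normalizer
  rcases IsSimpleGroup.eq_bot_or_eq_top_of_normal H hnorm with h | h
  · exact absurd h hH0
  · exact ⟨⊥, by simp [h], by simp⟩

end Cfsg.Agent.S5903
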