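import Cfsg.Statements.S5904


set_option autoImplicit false
open scoped Pointwise
open Cfsg

namespace Cfsg.Agent.S5904

/-- Let Ω be a finite set with more than two elements and O ⊆ Ω a subset with exactly as many elements as its complement. Then the setwise stabilizer of O in the symmetric group on Ω is not a maximal subgroup (it is properly contained in the stabilizer of the partition {O, Ω ∖ O}, which is proper). -/
theorem result {Ω : Type*} [Fintype Ω] [DecidableEq Ω] (hΩ : 2 < Fintype.card Ω)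
    (O : Set Ω) (hO : Nat.card O = Nat.card ↥Oᶜ) :
    ¬ IsCoatom (MulAction.stabilizer (Equiv.Perm Ω) O) := by
  classical
  intro hcoat
  haveI : Fintype ↥O := Fintype.ofFinite _
  haveI : Fintype ↥Oᶜ := Fintype.ofFinite _
  have hcard : O.ncard + Oᶜ.ncard = Fintype.card Ω := by
    rw [Set.ncard_add_ncard_compl, Nat.card_eq_fintype_card]
  rw [Nat.card_coe_set_eq, Nat.card_coe_set_eq] at hO
  -- the partition stabiliser
  let K : Subgroup (Equiv.Perm Ω) := MulAction.stabilizer (Equiv.Perm Ω) ({O, Oᶜ} : Set (Set Ω))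
  have hle : MulAction.stabilizer (Equiv.Perm Ω) O ≤ K := by
    intro g hg
    rw [MulAction.mem_stabilizer_iff] at hg ⊢
    rw [Set.smul_set_insert, Set.smul_set_singleton, hg, Set.smul_set_compl, hg]
  obtain ⟨e⟩ : Nonempty (↥O ≃ ↥Oᶜ) := Fintype.card_eq.mp (by
    rw [← Nat.card_eq_fintype_card, ← Nat.card_eq_fintype_card, Nat.card_coe_set_eq, Nat.card_coe_set_eq, hO])
  let σ : Equiv.Perm Ω :=
    (Equiv.Set.sumCompl O).symm.trans (((Equiv.sumCongr e e.symm).trans (Equiv.sumComm _ _)).trans (Equiv.Set.sumCompl O))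
  have hmem : ∀ x : Ω, σ x ∈ O ↔ x ∉ O := by
    intro x
    by_cases hx : x ∈ O
    · simp only [hx, not_true, iff_false]
      have : σ x = ((e ⟨x, hx⟩ : ↥Oᶜ) : Ω) := by
        simp [σ, Equiv.Set.sumCompl_symm_apply_of_mem hx]
      rw [this]; exact (e ⟨x, hx⟩).2
    · simp only [hx, not_false_iff, iff_true]
      have : σ x = ((e.symm ⟨x, hx⟩ : ↥O) : Ω) := by
        simp [σ, Equiv.Set.sumCompl_symm_apply_of_notMem hx]
      rw [this]; exact (e.symm ⟨x, hx⟩).2
  have hσ : σ • O = Oᶜ := by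
    ext y
    obtain ⟨x, rfl⟩ := σ.surjective y
    rw [← Equiv.Perm.smul_def, Set.smul_mem_smul_set_iff, Set.mem_compl_iff, Equiv.Perm.smul_def, hmem, not_not]
  have hσK : σ ∈ K := by
    rw [MulAction.mem_stabilizer_iff, Set.smul_set_insert, Set.smul_set_singleton, Set.smul_set_compl, hσ,
      compl_compl, Set.pair_comm]
  have hpos : O.Nonempty := by
    rw [← Set.ncard_pos]; omega
  have hlt : MulAction.stabilizer (Equiv.Perm Ω) O < K := by
    refine lt_of_le_not_ge hle fun hge => ?_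
    have := hge hσK
    rw [MulAction.mem_stabilizer_iff, hσ] at this
    obtain ⟨x, hx⟩ := hpos
    exact (this.symm ▸ hx : x ∈ Oᶜ) hx
  have hK : K = ⊤ := hcoat.2 K hlt
  -- a transposition moves the partition
  obtain ⟨a, ha, b, hb, hab⟩ := (Set.one_lt_ncard).mp (show 1 < O.ncard by omega)
  obtain ⟨c, hc⟩ : Oᶜ.Nonempty := by rw [← Set.ncard_pos]; omega
  have hs : Equiv.swap a c ∈ K := hK ▸ Subgroup.mem_top _
  rw [MulAction.mem_stabilizer_iff, Set.smul_set_insert, Set.smul_set_singleton] at hs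
  have h1 : Equiv.swap a c • O ∈ ({O, Oᶜ} : Set (Set Ω)) := hs ▸ Set.mem_insert _ _
  have hbm : b ∈ Equiv.swap a c • O :=
    ⟨b, hb, Equiv.swap_apply_of_ne_of_ne hab.symm (fun h => hc (h ▸ hb))⟩
  have hcm : c ∈ Equiv.swap a c • O := ⟨a, ha, Equiv.swap_apply_left a c⟩
  rcases h1 with h1 | h1
  · exact hc (h1 ▸ hcm)
  · rw [Set.mem_singleton_iff] at h1
    exact (h1 ▸ hbm : b ∈ Oᶜ) hb

end Cfsg.Agent.S5904
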