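import Cfsg.Statements.S5908
import Cfsg.Agent.GeomClasses.PSU32
import Cfsg.Agent.S0282

set_option autoImplicit false
open Cfsg

namespace Cfsg.Agent.S5908

/-- The subgroup lattice of PSU₃(2) (the solvable group of order 72, realised over the field with 4 elements) is not complemented: some subgroup H has no subgroup X with H ⊔ X = ⊤ and H ⊓ X = ⊥. -/
theorem result {F : Type*} [Field F] [Fintype F] (hF : Fintype.card F = 4) :
    ¬ ComplementedLattice (Subgroup (Cfsg.PSU 3 F 2)) := by
  obtain ⟨H, hH, hpr⟩ := Cfsg.Agent.GeomClasses.PSU32.exists_proper_containing_prime_order hF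
    (Cfsg.Agent.S0282.result hF).1
  exact Cfsg.Agent.GeomClasses.PSU32.not_complemented H hH hpr

end Cfsg.Agent.S5908
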