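import Cfsg.Statements.S5909
import Cfsg.Agent.GeomClasses.PartitionStabilizer
open Cfsg.Agent.GeomClasses Equiv

set_option autoImplicit false
open Cfsg

namespace Cfsg.Agent.S5909

/-- Let Ω be a finite set whose size is not 8, and f : Ω → Fin b a labelling with b ≥ 2 whose fibres all have the same size a ≥ 2 (a partition into b blocks of size a). Then the even permutations preserving the partition — the intersection of the imprimitive wreath product S_a ≀ S_b with the alternating group — form a maximal subgroup of the alternating group on Ω. -/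
theorem result {Ω : Type*} [Fintype Ω] [DecidableEq Ω] (h8 : Fintype.card Ω ≠ 8) (a b : ℕ) (ha : 2 ≤ a) (hb : 2 ≤ b)
    (f : Ω → Fin b) (hf : ∀ i : Fin b, Nat.card {x : Ω // f x = i} = a) :
    IsCoatom ((Subgroup.closure {g : Equiv.Perm Ω | ∀ x y : Ω, f x = f y ↔ f (g x) = f (g y)} ⊓ alternatingGroup Ω).subgroupOf (alternatingGroup Ω)) := by
  classical
  rw [closure_eq_fibrePreserving]
  haveI : Nontrivial (Fin b) := Fin.nontrivial_iff_two_le.mpr hb
  obtain ⟨E, hE⟩ := exists_coords f hf
  have hcard : Fintype.card Ω = b * a := by rw [Fintype.card_congr E]; simp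
  haveI : Nontrivial Ω := Fintype.one_lt_card_iff_nontrivial.mp (by rw [hcard]; nlinarith)
  obtain ⟨u, v, huv, hu, hv⟩ := exists_pair_avoiding f hf ha (⟨0, by omega⟩ : Fin b)
  obtain ⟨w, -, -, hw, -⟩ := exists_pair_avoiding f hf ha (⟨1, by omega⟩ : Fin b)
  have hwu : f w ≠ f u := by rw [hw, hu]; simp
  have hwv : f w ≠ f v := by rw [hw, hv]; simp
  set K := fibrePreserving f ⊓ alternatingGroup Ω with hK
  set A := alternatingGroup Ω with hA
  have hne : K.subgroupOf A ≠ ⊤ := by
    intro h
    have hsgn : swap u w * swap u v ∈ A := by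
      show Equiv.Perm.sign _ = 1
      rw [map_mul, Equiv.Perm.sign_swap huv, Equiv.Perm.sign_swap (fun e => hwu (by rw [e]))]; rfl
    have hmem : swap u w * swap u v ∈ K := by
      have : (⟨_, hsgn⟩ : A) ∈ K.subgroupOf A := h ▸ Subgroup.mem_top _
      exact this
    have := (hmem.1 u v).mp (hu.trans hv.symm)
    rw [Perm.mul_apply, Perm.mul_apply, swap_apply_left, swap_apply_right, swap_apply_left,
      swap_apply_of_ne_of_ne huv.symm (fun e => hwv (by rw [← e]))] at this
    exact hwv this.symm
  by_cases h22 : a = 2 ∧ b = 2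
  · obtain ⟨rfl, rfl⟩ := h22
    have hΩ : Fintype.card Ω = 4 := hcard
    haveI : MulAction.IsPretransitive K Ω := ⟨fun y z => by
      obtain ⟨i, hi⟩ := Fintype.exists_ne_of_one_lt_card (by simp) (f y)
      obtain ⟨p, q, hpq, hp, hq⟩ := exists_pair_avoiding f hf ha i
      obtain ⟨g, hg, hgf, -⟩ := exists_perm_blocks f hf (swap (f y) (f z))
      have hs : swap (g y) z ∈ fibrePreserving f := swap_mem_fibrePreserving f (by rw [hgf, swap_apply_left])
      obtain ⟨h, hh, -, hcase⟩ := even_adjust f (le_refl K) (mul_mem hs hg) hpq (hp.trans hq.symm)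
      refine ⟨⟨h, hh⟩, ?_⟩
      show h y = z
      rcases hcase with rfl | rfl
      · rw [Perm.mul_apply, swap_apply_left]
      · rw [Perm.mul_apply, swap_apply_of_ne_of_ne (fun h => hi (h ▸ hp).symm) (fun h => hi (h ▸ hq).symm),
          Perm.mul_apply, swap_apply_left]⟩
    have h4 : 4 ∣ Nat.card K := by
      have := (MulAction.stabilizer K u).index_dvd_card
      rwa [MulAction.index_stabilizer_of_transitive, Nat.card_eq_fintype_card (α := Ω), hΩ] at this
    have h12 : Nat.card A = 12 := by
      have := two_mul_nat_card_alternatingGroup (α := Ω)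
      show Nat.card (alternatingGroup Ω) = 12
      rw [Nat.card_perm, Nat.card_eq_fintype_card (α := Ω), hΩ, show Nat.factorial 4 = 24 from rfl] at this
      omega
    have hmul := (K.subgroupOf A).index_mul_card
    rw [Nat.card_congr (Subgroup.subgroupOfEquivOfLe (H := K) (K := A) inf_le_right).toEquiv, h12] at hmul
    obtain ⟨k, hk⟩ := h4
    have hk0 : k ≠ 0 := fun h => by rw [hk, h] at hmul; simp at hmul
    have h3 : (K.subgroupOf A).index = 3 := by
      have h1 : (K.subgroupOf A).index ≠ 1 := fun h => hne (Subgroup.index_eq_one.mp h)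
      rw [hk] at hmul
      have hle : (K.subgroupOf A).index ∣ 3 := ⟨k, by linarith⟩
      exact ((Nat.dvd_prime Nat.prime_three).mp hle).resolve_left h1
    refine ⟨hne, fun L hL => ?_⟩
    have hd : L.index ∣ 3 := h3 ▸ Subgroup.index_dvd_of_le hL.le
    rcases (Nat.dvd_prime Nat.prime_three).mp hd with h | h
    · exact Subgroup.index_eq_one.mp h
    · exfalso
      have hrel := Subgroup.relIndex_mul_index hL.le
      rw [h, h3] at hrel
      exact not_le_of_gt hL (Subgroup.relIndex_eq_one.mp (by omega))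
  have hb3 : a = 2 → 3 ≤ Fintype.card (Fin b) := by intro h; simp; omega
  refine ⟨hne, fun L hL => ?_⟩
  set G := L.map A.subtype with hG
  have hKG : K ≤ G := fun g hg => ⟨⟨g, hg.2⟩, hL.le hg, rfl⟩
  obtain ⟨⟨g, hgA⟩, hg, hg'⟩ := SetLike.exists_of_lt hL
  have hgG : g ∈ G := ⟨⟨g, hgA⟩, hg, rfl⟩
  have hgf : g ∉ fibrePreserving f := fun h => hg' ⟨h, hgA⟩
  have hprim := isPreprimitive_of_movers f hf ha inferInstance (movers_of_even f hf ha (by simp; omega) hb3 hKG) (fun h => hgf (h hgG))
  obtain ⟨t, ht, ht3⟩ : ∃ t ∈ G, t.IsThreeCycle := by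
    by_cases ha2 : a = 2
    · subst ha2
      exact exists_threeCycle_pairs f hf (hb3 rfl) (by simp; intro h; apply h8; rw [hcard, h]) hKG hgG hgf
    · let i : Fin b := ⟨0, by omega⟩
      let e : Fin a → Ω := fun p => E.symm (i, p)
      have he : ∀ p, f (e p) = i := fun p => by rw [← hE]; simp [e]
      have hinj : Function.Injective e := fun p q h => by simpa [e] using h
      let p : Fin a := ⟨0, by omega⟩
      let q : Fin a := ⟨1, by omega⟩
      let r : Fin a := ⟨2, by omega⟩
      have hpq : e p ≠ e q := hinj.ne (by simp [p, q])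
      have hpr : e p ≠ e r := hinj.ne (by simp [p, r])
      have hqr : e q ≠ e r := hinj.ne (by simp [q, r])
      refine ⟨swap (e p) (e q) * swap (e p) (e r), hKG ⟨mul_mem (swap_mem_fibrePreserving f ((he p).trans (he q).symm))
        (swap_mem_fibrePreserving f ((he p).trans (he r).symm)), ?_⟩, Perm.isThreeCycle_swap_mul_swap_same hpq hpr hqr⟩
      show Perm.sign _ = 1
      rw [map_mul, Perm.sign_swap hpq, Perm.sign_swap hpr]; rfl
  have hle := Equiv.Perm.alternatingGroup_le_of_isPreprimitive_of_isThreeCycle_mem hprim ht3 ht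
  rw [eq_top_iff]
  rintro ⟨x, hx⟩ -
  obtain ⟨y, hy, hyx⟩ := hle hx
  have : y = ⟨x, hx⟩ := Subtype.ext hyx
  exact this ▸ hy

end Cfsg.Agent.S5909
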