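import Cfsg.Statements.S5910
import Cfsg.Agent.GeomClasses.AffineEight

set_option autoImplicit false
open Cfsg

namespace Cfsg.Agent.S5910

/-- Let Ω be a set with 8 elements and f : Ω → Fin 4 a labelling whose four fibres all have size 2 (a partition of the 8 points into 4 pairs). Then the group of even permutations preserving this partition, (S₂ ≀ S₄) ∩ A₈, is not a maximal subgroup of the alternating group A₈ (it lies in a subgroup isomorphic to the affine group AGL₃(2)). -/
theorem result {Ω : Type*} [Fintype Ω] [DecidableEq Ω] (h8 : Fintype.card Ω = 8)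
    (f : Ω → Fin 4) (hf : ∀ i : Fin 4, Nat.card {x : Ω // f x = i} = 2) :
    ¬ IsCoatom ((Subgroup.closure {g : Equiv.Perm Ω | ∀ x y : Ω, f x = f y ↔ f (g x) = f (g y)} ⊓ alternatingGroup Ω).subgroupOf (alternatingGroup Ω)) := by
  rw [Cfsg.Agent.GeomClasses.closure_eq_fibrePreserving]
  exact Cfsg.Agent.GeomClasses.AffineEight.not_isCoatom_pairs f hf

end Cfsg.Agent.S5910
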