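import Cfsg.Statements.S5911
import Cfsg.Agent.GeomClasses.SymSubgroupsIndex

set_option autoImplicit false
open Cfsg

namespace Cfsg.Agent.S5911

/-- Let Ω be a finite set whose size n is not 6. Then every subgroup of the symmetric group on Ω of index n is the stabilizer of a point. -/
theorem result {Ω : Type*} [Fintype Ω] [DecidableEq Ω] (h6 : Fintype.card Ω ≠ 6)
    (H : Subgroup (Equiv.Perm Ω)) (hH : H.index = Fintype.card Ω) :
    ∃ x : Ω, H = MulAction.stabilizer (Equiv.Perm Ω) x := by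
  rcases Nat.lt_or_ge (Fintype.card Ω) 5 with h5 | h5
  swap
  · exact GeomClasses.eq_stabilizer_of_index h5 h6 H hH
  classical
  have hpos : 0 < Fintype.card Ω := hH ▸ Nat.pos_of_ne_zero Subgroup.index_ne_zero_of_finite
  have hmul : Nat.card H * Fintype.card Ω = (Fintype.card Ω).factorial := by
    rw [← hH, Subgroup.card_mul_index, Nat.card_perm, Nat.card_eq_fintype_card, hH]
  have fin : ∀ a : Ω, H ≤ MulAction.stabilizer (Equiv.Perm Ω) a → ∃ x : Ω, H = MulAction.stabilizer (Equiv.Perm Ω) x :=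
    fun a ha => ⟨a, Subgroup.eq_of_le_of_card_ge ha (le_of_eq (Nat.eq_of_mul_eq_mul_left hpos
      ((GeomClasses.card_stabilizer_perm Ω a).trans (hmul.symm.trans (mul_comm _ _)))))⟩
  obtain ⟨a⟩ : Nonempty Ω := Fintype.card_pos_iff.mp hpos
  obtain ⟨n, hn⟩ : ∃ n, Fintype.card Ω = n := ⟨_, rfl⟩
  rw [hn] at hmul h5 hpos
  interval_cases n
  · refine fin a ?_
    rw [Subgroup.eq_bot_of_card_eq H (by simpa [Nat.factorial] using hmul)]; exact bot_le
  · refine fin a ?_
    rw [Subgroup.eq_bot_of_card_eq H (by have e : Nat.factorial 2 = 2 := rfl; omega)]; exact bot_le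
  · have h2 : Nat.card H = 2 := by have e : Nat.factorial 3 = 6 := rfl; omega
    haveI : Fact (Nat.Prime 2) := ⟨Nat.prime_two⟩
    obtain ⟨x, hx⟩ := exists_prime_orderOf_dvd_card' (G := H) 2 (by rw [h2])
    have hx2 : ((x : Equiv.Perm Ω)) ^ 2 = 1 := by
      rw [← hx, ← Subgroup.orderOf_coe]; exact pow_orderOf_eq_one _
    obtain ⟨c, hc⟩ : ∃ c, (x : Equiv.Perm Ω) c = c := by
      by_contra h
      push_neg at h
      have h' := Equiv.Perm.two_dvd_card_support hx2
      rw [show (x : Equiv.Perm Ω).support = Finset.univ from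
        Finset.eq_univ_iff_forall.mpr fun a => Equiv.Perm.mem_support.mpr (h a), Finset.card_univ, hn] at h'
      omega
    refine fin c ?_
    intro y hy
    have hz : Subgroup.zpowers x = ⊤ := by
      apply Subgroup.eq_top_of_card_eq
      rw [Nat.card_zpowers, hx, h2]
    obtain ⟨k, hk⟩ := Subgroup.mem_zpowers_iff.mp (hz ▸ Subgroup.mem_top (⟨y, hy⟩ : H))
    rw [MulAction.mem_stabilizer_iff, Equiv.Perm.smul_def]
    have : y = (x : Equiv.Perm Ω) ^ k := by rw [← SubgroupClass.coe_zpow, hk]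
    rw [this]
    exact Equiv.Perm.zpow_apply_eq_self_of_apply_eq_self hc k
  · have h6' : Nat.card H = 6 := by have e : Nat.factorial 4 = 24 := rfl; omega
    haveI : Fact (Nat.Prime 3) := ⟨Nat.prime_three⟩
    obtain ⟨x, hx⟩ := exists_prime_orderOf_dvd_card' (G := H) 3 (by rw [h6']; norm_num)
    have hnorm : (Subgroup.zpowers x).Normal := by
      apply Subgroup.normal_of_index_eq_two
      have := Subgroup.card_mul_index (Subgroup.zpowers x)
      rw [Nat.card_zpowers, hx, h6'] at this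
      omega
    have hx3 : orderOf (x : Equiv.Perm Ω) = 3 := by rw [Subgroup.orderOf_coe, hx]
    have h3c : (x : Equiv.Perm Ω).IsThreeCycle := by
      obtain ⟨k, hk⟩ := Equiv.Perm.cycleType_prime_order (hx3.symm ▸ Nat.prime_three : (orderOf (x : Equiv.Perm Ω)).Prime)
      rw [hx3] at hk
      have hs := Equiv.Perm.sum_cycleType (x : Equiv.Perm Ω)
      have hle := Finset.card_le_univ (x : Equiv.Perm Ω).support
      rw [hn] at hle
      rw [hk, Multiset.sum_replicate, smul_eq_mul] at hs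
      have : k = 0 := by omega
      rw [Equiv.Perm.IsThreeCycle, hk, this]; rfl
    obtain ⟨c, hc⟩ : ∃ c, ∀ d, (x : Equiv.Perm Ω) d = d ↔ d = c := by
      have hcard : (x : Equiv.Perm Ω).supportᶜ.card = 1 := by
        rw [Finset.card_compl, h3c.card_support, hn]
      obtain ⟨c, hc⟩ := Finset.card_eq_one.mp hcard
      refine ⟨c, fun d => ?_⟩
      have h' := Finset.ext_iff.mp hc d
      rwa [Finset.mem_compl, Finset.mem_singleton, Equiv.Perm.mem_support, not_not] at h'
    refine fin c ?_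
    intro y hy
    rw [MulAction.mem_stabilizer_iff, Equiv.Perm.smul_def, ← hc]
    obtain ⟨k, hk⟩ := Subgroup.mem_zpowers_iff.mp (hnorm.conj_mem x (Subgroup.mem_zpowers x) (⟨y, hy⟩⁻¹ : H))
    have h1 : y⁻¹ * (x : Equiv.Perm Ω) * y = (x : Equiv.Perm Ω) ^ k := by
      rw [← SubgroupClass.coe_zpow, hk]; simp
    have h2 := congrArg (fun p : Equiv.Perm Ω => y (p c)) h1
    simp only [Equiv.Perm.mul_apply, Equiv.Perm.inv_def, Equiv.apply_symm_apply] at h2
    rw [Equiv.Perm.zpow_apply_eq_self_of_apply_eq_self ((hc c).mpr rfl) k] at h2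
    exact h2

end Cfsg.Agent.S5911
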