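import Cfsg.Statements.S5912
import Cfsg.Agent.GeomClasses.SymSubgroupsIndex

set_option autoImplicit false
open Cfsg

namespace Cfsg.Agent.S5912

/-- The symmetric group on a 6-element set Ω has exactly two conjugacy classes of subgroups of index 6: there are two non-conjugate subgroups of index 6 (a point stabilizer and a transitive subgroup isomorphic to S₅), and every subgroup of index 6 is conjugate to one of them. -/
theorem result {Ω : Type*} [Fintype Ω] [DecidableEq Ω] (h6 : Fintype.card Ω = 6) :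
    ∃ H₁ H₂ : Subgroup (Equiv.Perm Ω), H₁.index = 6 ∧ H₂.index = 6 ∧
      (¬ ∃ g : Equiv.Perm Ω, Subgroup.map (MulAut.conj g).toMonoidHom H₁ = H₂) ∧
      ∀ H : Subgroup (Equiv.Perm Ω), H.index = 6 →
        ∃ g : Equiv.Perm Ω, Subgroup.map (MulAut.conj g).toMonoidHom H₁ = H ∨ Subgroup.map (MulAut.conj g).toMonoidHom H₂ = H := by
  obtain ⟨τ, hτ, hfpf⟩ := GeomClasses.exists_exotic h6
  obtain ⟨a⟩ : Nonempty Ω := Fintype.card_pos_iff.mp (by omega)
  let τe : Equiv.Perm Ω ≃* Equiv.Perm Ω := MulEquiv.ofBijective τ hτ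
  set S := fun x : Ω => MulAction.stabilizer (Equiv.Perm Ω) x with hS
  have hmap : ∀ (g : Equiv.Perm Ω) (x : Ω), (S x).map (MulAut.conj g).toMonoidHom = S (g x) := fun g x =>
    (MulAction.stabilizer_smul_eq_stabilizer_map_conj g x).symm
  have hidx : (S a).index = 6 := by
    rw [hS, MulAction.index_stabilizer_of_transitive, Nat.card_eq_fintype_card, h6]
  refine ⟨S a, (S a).map τ, hidx, ?_, ?_, ?_⟩
  · rw [Subgroup.index_map_of_bijective hτ, hidx]
  · rintro ⟨g, hg⟩
    rw [hmap] at hg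
    exact GeomClasses.map_ne_stabilizer h6 τ hfpf a (g a) hg.symm
  · intro H hH
    obtain ⟨c, hc⟩ := GeomClasses.index_six_cases h6 τ hτ hfpf H hH
    obtain ⟨g, hg⟩ := MulAction.exists_smul_eq (Equiv.Perm Ω) a c
    rw [Equiv.Perm.smul_def] at hg
    rcases hc with rfl | rfl
    · exact ⟨g, Or.inl ((hmap g a).trans (by rw [hg]))⟩
    · refine ⟨τ g, Or.inr ?_⟩
      rw [Subgroup.map_map, show (MulAut.conj (τ g)).toMonoidHom.comp τ = τ.comp (MulAut.conj g).toMonoidHom from
        MonoidHom.ext fun x => by simp, ← Subgroup.map_map, hmap, hg]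

end Cfsg.Agent.S5912
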