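import Cfsg.Statements.S5947
import Cfsg.Agent.GeomClasses.Singer
import Cfsg.Agent.GeomClasses.ReducedCommutative

set_option autoImplicit false
open Cfsg

namespace Cfsg.Agent.S5947

/-- Let F ⊆ K be finite fields with |F| = q and [K : F] = n ≥ 2, regard K as an n-dimensional F-vector space, and let M ≤ GL_F(K) be the Singer group of multiplications by non-zero elements of K (cyclic of order q^n − 1). Assume (n, q) ≠ (6, 2), and that it is not the case that n = 2 with q a prime such that q + 1 is a power of 2. Then every abelian subgroup of GL_F(K) of order q^n − 1 is conjugate to M. -/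
theorem result {F K : Type*} [Field F] [Fintype F] [Field K] [Fintype K] [Algebra F K] (n : ℕ) (hn : 2 ≤ n) (hdim : Module.finrank F K = n)
    (hex1 : ¬ (n = 6 ∧ Fintype.card F = 2))
    (hex2 : ¬ (n = 2 ∧ (Fintype.card F).Prime ∧ ∃ a : ℕ, Fintype.card F + 1 = 2 ^ a))
    (U : Subgroup (Module.End F K)ˣ) (hU : IsMulCommutative U) (hcard : Nat.card U = Fintype.card K - 1) :
    ∃ g : (Module.End F K)ˣ, U.map (MulAut.conj g).toMonoidHom = (Units.map ((Algebra.lmul F K : K →ₐ[F] Module.End F K) : K →* Module.End F K)).range := by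
  classical
  haveI : FiniteDimensional F K := Module.Finite.of_finite
  haveI : Finite (Module.End F K) := Finite.of_injective (fun f => ⇑f) DFunLike.coe_injective
  set S : Set (Module.End F K) := (fun u : (Module.End F K)ˣ => (u : Module.End F K)) '' (U : Set (Module.End F K)ˣ)
  set A := Algebra.adjoin F S
  have hcS : ∀ x ∈ S, ∀ y ∈ S, x * y = y * x := by
    rintro _ ⟨a, ha, rfl⟩ _ ⟨b, hb, rfl⟩
    exact congrArg (fun w : U => ((w : (Module.End F K)ˣ) : Module.End F K)) (mul_comm' (⟨a, ha⟩ : U) ⟨b, hb⟩)
  have hK : Fintype.card K = Fintype.card F ^ n := by rw [← hdim]; exact Module.card_eq_pow_finrank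
  have hK1 : 1 < Fintype.card K := Fintype.one_lt_card
  have hS : ∀ x ∈ S, x ^ (Fintype.card F ^ n) = x := by
    rintro _ ⟨a, ha, rfl⟩
    have h1 : (⟨a, ha⟩ : U) ^ Nat.card U = 1 := pow_card_eq_one'
    rw [hcard] at h1
    have h2 := congrArg (fun w : U => ((w : (Module.End F K)ˣ) : Module.End F K)) h1
    simp only [SubmonoidClass.coe_pow, Units.val_pow_eq_pow_val, OneMemClass.coe_one, Units.val_one] at h2
    calc (a : Module.End F K) ^ (Fintype.card F ^ n) = (a : Module.End F K) ^ (Fintype.card K - 1 + 1) := by
          congr 1; omega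
      _ = a := by rw [pow_succ, h2, one_mul]
  letI := Algebra.adjoinCommRingOfComm F hcS
  have hA : ∀ x ∈ A, ∀ y ∈ A, x * y = y * x := fun x hx y hy =>
    congrArg Subtype.val (mul_comm (⟨x, hx⟩ : A) ⟨y, hy⟩)
  obtain ⟨v, hv⟩ := GeomClasses.exists_annihilator_bot A hA (by rw [← hK]; exact hK1)
    (GeomClasses.pow_eq_self_of_adjoin S hcS n hS)
  haveI : Fintype A := Fintype.ofFinite A
  let ev : A →ₗ[F] K := (LinearMap.applyₗ v).comp A.val.toLinearMap
  have hev : Function.Injective ev := by
    rw [injective_iff_map_eq_zero]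
    exact fun a ha => Subtype.ext (hv a a.2 ha)
  -- the units in U and zero fill A
  haveI : Fintype U := Fintype.ofFinite U
  let j : Option U → A := fun o => o.elim 0 fun u => ⟨_, Algebra.subset_adjoin ⟨u, u.2, rfl⟩⟩
  have hj : Function.Injective j := by
    have hne : ∀ u : U, ((u : (Module.End F K)ˣ) : Module.End F K) ≠ 0 := fun u => Units.ne_zero _
    rintro (_ | u) (_ | w) h
    · rfl
    · exact absurd (congrArg Subtype.val h).symm (hne w)
    · exact absurd (congrArg Subtype.val h) (hne u)
    · exact congrArg some (Subtype.ext (Units.ext (congrArg Subtype.val h :)))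
  have hcardA : Fintype.card A = Fintype.card K := by
    refine le_antisymm (Fintype.card_le_of_injective ev hev) ?_
    refine le_trans ?_ (Fintype.card_le_of_injective j hj)
    rw [Fintype.card_option, ← Nat.card_eq_fintype_card (α := U), hcard]; omega
  have hjsurj : Function.Surjective j := by
    refine ((Fintype.bijective_iff_injective_and_card j).mpr ⟨hj, ?_⟩).2
    rw [Fintype.card_option, ← Nat.card_eq_fintype_card (α := U), hcard, hcardA]; omega
  have hfield : IsField A := by
    refine ⟨⟨0, 1, zero_ne_one⟩, mul_comm, fun {a} ha => ?_⟩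
    obtain ⟨o, rfl⟩ := hjsurj a
    cases o with
    | none => exact absurd rfl ha
    | some u => exact ⟨j (some u⁻¹), Subtype.ext (Units.mul_inv (u : (Module.End F K)ˣ))⟩
  letI : Field A := hfield.toField
  haveI : Module.Finite F A := Module.Finite.of_finite
  have hrank : Module.finrank F A = Module.finrank F K := by
    have h1 := Module.card_eq_pow_finrank (K := F) (V := A)
    have h2 := Module.card_eq_pow_finrank (K := F) (V := K)
    rw [hcardA, h2] at h1
    exact (Nat.pow_right_injective (Fintype.one_lt_card : 1 < Fintype.card F) h1).symm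
  obtain ⟨ι⟩ := FiniteField.nonempty_algHom_of_finrank_dvd (K := A) (L := K) (F := F) (by rw [hrank])
  let ψ : A ≃ₗ[F] K := LinearMap.linearEquivOfInjective ev hev hrank
  let e : A ≃ₗ[F] K := LinearMap.linearEquivOfInjective ι.toLinearMap ι.toRingHom.injective hrank
  let g : (Module.End F K)ˣ := LinearMap.GeneralLinearGroup.ofLinearEquiv (ψ.symm.trans e)
  refine ⟨g, Subgroup.eq_of_le_of_card_ge ?_ ?_⟩
  · rintro _ ⟨u, hu, rfl⟩
    set a : A := j (some ⟨u, hu⟩) with ha
    have hι : ι a ≠ 0 := fun h => Units.ne_zero u (congrArg Subtype.val (ι.toRingHom.injective (h.trans (map_zero ι).symm)))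
    refine ⟨Units.mk0 _ hι, Units.ext ?_⟩
    ext y
    obtain ⟨b, rfl⟩ := e.surjective y
    show ι a * e b = (ψ.symm.trans e) ((u : Module.End F K) ((ψ.symm.trans e).symm (e b)))
    have h1 : (ψ.symm.trans e).symm (e b) = ψ b := by simp
    have h2 : (u : Module.End F K) (ψ b) = ψ (a * b) := by
      show _ = ((a * b : A) : Module.End F K) v
      rfl
    rw [h1, h2]
    simp only [LinearEquiv.trans_apply, LinearEquiv.symm_apply_apply]
    show ι a * ι b = ι (a * b)
    rw [map_mul]
  · rw [Subgroup.card_map_of_injective (f := (MulAut.conj g).toMonoidHom) (MulAut.conj g).injective, hcard,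
      Nat.card_congr (MonoidHom.ofInjective GeomClasses.singerHom_injective).toEquiv.symm,
      Nat.card_units, Nat.card_eq_fintype_card]

end Cfsg.Agent.S5947
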